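import Cfsg.Statements.S2154
import Cfsg.Agent.H63.BT

set_option autoImplicit false
open Cfsg

namespace Cfsg.Agent.S2154

open Cfsg.Lie H63 H64 H65

/-- The Borel–Tits property of the finite Chevalley groups of types G₂, B₂, D₄, F₄, E₆, E₇, E₈ over a finite field of characteristic p: for every non-trivial p-subgroup U of the group G there are an element g of G and a proper set J of fundamental roots such that the normaliser of U in G lies in the conjugate by g of the standard parabolic subgroup P_J and U lies in the conjugate by g of its unipotent radical U_J. -/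
theorem result {F : Type*} [Field F] [Fintype F] (p : ℕ) [Fact p.Prime] [CharP F p] (D : Cfsg.Lie.ChevalleyDatum) (hD : D ∈ [Cfsg.Lie.chevG2, Cfsg.Lie.chevB2, Cfsg.Lie.chevD4, Cfsg.Lie.chevF4, Cfsg.Lie.chevE6, Cfsg.Lie.chevE7, Cfsg.Lie.chevE8]) (U : Subgroup (GL D.Idx F)) (hUG : U ≤ D.group F) (hU : IsPGroup p ↥U) (hne : U ≠ ⊥) : ∃ g ∈ D.group F, ∃ J : Set ℕ, (∃ i, i < D.rank ∧ i ∉ J) ∧ Subgroup.normalizer (U : Set (GL D.Idx F)) ⊓ D.group F ≤ (D.parabolicSubgroup F J).map (MulAut.conj g).toMonoidHom ∧ U ≤ (D.unipotentRadical F J).map (MulAut.conj g).toMonoidHom := by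
  obtain ⟨_, _, h⟩ := matOK_of_mem hD F
  obtain ⟨k, hk, hkU⟩ := exists_conj_le_U h p hUG hU
  obtain ⟨g, hg, J, h1, h2⟩ := borel_tits h.stB (X := U.map (MulAut.conj k).toMonoidHom)
    (by rintro _ ⟨z, hz, rfl⟩; exact hkU z hz)
  have e : nodes D (Fin.val '' J) = J := by ext i; simp [nodes, Fin.val_inj]
  rw [h.G_eq] at hk ⊢
  have h3 : ∀ z ∈ U, g * k * z * (g * k)⁻¹ ∈ h.T.UJ J := fun z hz => by
    rw [show g * k * z * (g * k)⁻¹ = g * (k * z * k⁻¹) * g⁻¹ by group]
    exact h1 _ ⟨z, hz, rfl⟩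
  refine ⟨(g * k)⁻¹, inv_mem (mul_mem hg hk), Fin.val '' J, ?_, fun n hn => ?_, fun z hz => ?_⟩
  · by_contra! hc
    have hJ : J = Set.univ := e ▸ Set.eq_univ_of_forall fun i => hc i i.2
    refine hne (eq_bot_iff.2 fun z hz => ?_)
    have := h3 z hz
    rw [hJ, RGD.UJ, WData.PhiJ_univ] at this
    simp only [Set.mem_univ, not_true, and_false, Set.ofPred_false, gen_empty] at this
    rwa [Subgroup.mem_bot, mul_inv_eq_one, mul_eq_left] at this
  · rw [h.P_eq, e]
    refine ⟨_, h2 (k * n * k⁻¹) (mul_mem (mul_mem hk hn.2) (inv_mem hk)) ?_, by simp [mul_assoc]⟩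
    rintro _ ⟨z, hz, rfl⟩
    exact ⟨_, (Subgroup.mem_normalizer_iff.1 hn.1 z).1 hz, by simp [mul_assoc]⟩
  · rw [h.UJ_eq, e]
    exact ⟨_, h3 z hz, by simp [mul_assoc]⟩

end Cfsg.Agent.S2154
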