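import Cfsg.Statements.S0264
import Cfsg.Agent.Base
import Cfsg.Agent.H57.SLCard

set_option autoImplicit false
open Cfsg

namespace Cfsg.Agent.S0264

open scoped commutatorElement in
lemma aux {F : Type*} [Field F] {ι : Type*} [Fintype ι] [DecidableEq ι] {a : F} (ha : a ≠ 0)
    (ha1 : a ≠ 1) {i j : ι} (hij : i ≠ j) (c : F) :
    Matrix.SpecialLinearGroup.toGL (Matrix.SpecialLinearGroup.transvection hij c) ∈
      commutator (Matrix.GeneralLinearGroup ι F) := by
  let d : Matrix.GeneralLinearGroup ι F := Matrix.GeneralLinearGroup.mkOfDetNeZero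
    (Matrix.diagonal (fun k => if k = i then a else 1)) (by
      rw [Matrix.det_diagonal]
      exact Finset.prod_ne_zero_iff.2 fun k _ => by split_ifs <;> simp [ha])
  have key : ∀ b : F, d * Matrix.SpecialLinearGroup.toGL (Matrix.SpecialLinearGroup.transvection hij b) =
      Matrix.SpecialLinearGroup.toGL (Matrix.SpecialLinearGroup.transvection hij (b * a)) * d := by
    intro b
    apply Units.ext
    simp only [Units.val_mul, Matrix.SpecialLinearGroup.coe_GL_coe_matrix,
      Matrix.SpecialLinearGroup.transvection_coe, d, Matrix.GeneralLinearGroup.val_mkOfDetNeZero,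
      mul_add, add_mul, mul_one, one_mul]
    congr 1
    ext r s
    simp only [Matrix.diagonal_mul, Matrix.mul_diagonal, Matrix.single_apply]
    by_cases h : i = r ∧ j = s
    · obtain ⟨rfl, rfl⟩ := h
      simp [hij.symm, mul_comm]
    · simp [h]
  have : Matrix.SpecialLinearGroup.toGL (Matrix.SpecialLinearGroup.transvection hij c) =
      ⁅d, Matrix.SpecialLinearGroup.toGL (Matrix.SpecialLinearGroup.transvection hij (c / (a - 1)))⁆ := by
    rw [commutatorElement_def, key, mul_inv_cancel_right, ← map_inv, ← map_mul,
      Matrix.SpecialLinearGroup.transvection_inv, ← Matrix.SpecialLinearGroup.transvection_add]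
    congr 2
    have : a - 1 ≠ 0 := sub_ne_zero.2 ha1
    field_simp
    ring
  rw [this]
  exact Subgroup.commutator_mem_commutator (Subgroup.mem_top _) (Subgroup.mem_top _)

/-- GL_n(F)' = SL_n(F) (as the kernel of det), for every field F and every n, except n = 2 over the field of two elements. -/
theorem result {F : Type*} [Field F] (n : ℕ) (h : n = 2 → ∃ a : F, a ≠ 0 ∧ a ≠ 1) : commutator (Matrix.GeneralLinearGroup (Fin n) F) = (Matrix.GeneralLinearGroup.det : Matrix.GeneralLinearGroup (Fin n) F →* Fˣ).ker := by
  apply H57.gl_commutator_eq_ker_det_of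
  intro i j hij c
  by_cases h2 : n = 2
  · obtain ⟨a, ha, ha1⟩ := h h2
    exact aux ha ha1 hij c
  · have h3 : 3 ≤ n := by
      have := i.2; have := j.2; have : (i : ℕ) ≠ j := fun e => hij (Fin.ext e)
      omega
    have hm : Matrix.SpecialLinearGroup.transvection hij c ∈
        commutator (Matrix.SpecialLinearGroup (Fin n) F) := by
      rw [H57.sl_commutator_eq_top_of_three_le (by simpa using h3)]; trivial
    have := Subgroup.mem_map_of_mem
      (Matrix.SpecialLinearGroup.toGL : _ →* Matrix.GeneralLinearGroup (Fin n) F) hm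
    rw [commutator_def, Subgroup.map_commutator] at this
    exact Subgroup.commutator_mono le_top le_top this

end Cfsg.Agent.S0264
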