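import Cfsg.Statements.S3908
import Cfsg.Agent.Base
import Cfsg.Agent.H3.NonCyclic

set_option autoImplicit false
open Cfsg

namespace Cfsg.Agent.S3908


open Subgroup in
theorem key {G : Type*} [Group G] [Finite G] (hB : ∀ A B : Subgroup G, IsMulCommutative ↥A →
    IsMulCommutative ↥B → Nat.card ↥A = Nat.card ↥B → ∃ g : G, B = A.map (MulAut.conj g).toMonoidHom)
    {p : ℕ} [hp : Fact p.Prime] {P : Subgroup G} (hP : IsPGroup p P) :
    IsCyclic P ∨ (p = 2 ∧ ∃ n, Nonempty (P ≃* QuaternionGroup (2 ^ (n + 1)))) ∨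
      ∀ x ∈ P, x ^ p = 1 := by
  rcases H3.exists_pair_of_pgroup hP with h | h | ⟨x, y, hx, h1, h2, h3⟩
  · exact .inl h
  · exact .inr (.inl h)
  refine .inr (.inr fun z hz => by_contra fun hne => ?_)
  have hc : Commute (x : G) y := congrArg Subtype.val (mem_center_iff.1 hx y).symm
  have h1' : orderOf (x : G) = p := by rw [orderOf_coe, h1]
  have h2' : orderOf (y : G) = p := by rw [orderOf_coe, h2]
  have h4 := H3.card_sup_zpowers_of_commute hp.out hc h1' h2' fun ⟨k, hk⟩ =>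
    h3 ⟨k, Subtype.ext hk⟩
  obtain ⟨k, hk⟩ := (IsPGroup.iff_orderOf.1 hP) ⟨z, hz⟩
  rw [← orderOf_coe] at hk
  have hk2 : 2 ≤ k := by
    by_contra h
    refine hne (orderOf_dvd_iff_pow_eq_one.1 ?_)
    change orderOf z = _ at hk
    rw [hk]
    exact (pow_dvd_pow p (by omega)).trans (pow_one p).dvd
  have h5 : orderOf (z ^ p ^ (k - 2)) = p ^ 2 := by
    change orderOf z = _ at hk
    rw [orderOf_pow_of_dvd (pow_ne_zero _ hp.out.ne_zero) (hk ▸ pow_dvd_pow p (by omega)), hk,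
      Nat.pow_div (by omega) hp.out.pos]
    congr 1; omega
  have hE := H3.isElementaryAbelian_sup_zpowers hc (h1' ▸ pow_orderOf_eq_one _)
    (h2' ▸ pow_orderOf_eq_one _)
  obtain ⟨g, hg⟩ := hB (zpowers (z ^ p ^ (k - 2))) _ inferInstance hE.1
    (by rw [Nat.card_zpowers, h5, h4])
  have h6 : (z ^ p ^ (k - 2)) ^ p = 1 := by
    apply (MulAut.conj g).injective
    rw [map_pow, map_one]
    exact hE.2 _ (hg ▸ mem_map_of_mem _ (mem_zpowers _))
  have := Nat.le_of_dvd hp.out.pos (h5 ▸ orderOf_dvd_of_pow_eq_one h6)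
  have := hp.out.one_lt
  nlinarith

/-- Let G be a finite group in which any two abelian subgroups of the same order are conjugate. Then a Sylow 2-subgroup of G is cyclic, elementary abelian or generalized quaternion, and for an odd prime p a Sylow p-subgroup of G is cyclic or has exponent dividing p. -/
theorem result {G : Type*} [Group G] [Finite G] (hB : ∀ A B : Subgroup G, IsMulCommutative ↥A → IsMulCommutative ↥B → Nat.card ↥A = Nat.card ↥B → ∃ g : G, B = A.map (MulAut.conj g).toMonoidHom) :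
    (∀ P : Sylow 2 G, IsCyclic ↥(P : Subgroup G) ∨ Cfsg.IsElementaryAbelian 2 (P : Subgroup G) ∨ ∃ k : ℕ, Nonempty (↥(P : Subgroup G) ≃* QuaternionGroup (2 ^ k))) ∧
    ∀ (p : ℕ) [Fact p.Prime], p ≠ 2 → ∀ P : Sylow p G, IsCyclic ↥(P : Subgroup G) ∨ ∀ x ∈ (P : Subgroup G), x ^ p = 1 := by
  refine ⟨fun P => ?_, fun p _ hp P => ?_⟩
  · rcases key hB P.2 with h | ⟨-, n, h⟩ | h
    · exact .inl h
    · exact .inr (.inr ⟨_, h⟩)
    refine .inr (.inl ⟨⟨⟨fun a b => Subtype.ext ?_⟩⟩, h⟩)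
    have e : ∀ x ∈ (P : Subgroup G), x⁻¹ = x := fun x hx =>
      inv_eq_of_mul_eq_one_right (by rw [← sq, h x hx])
    change (a : G) * b = b * a
    rw [← e _ (mul_mem a.2 b.2), mul_inv_rev, e _ a.2, e _ b.2]
  · rcases key hB P.2 with h | ⟨h, -⟩ | h
    exacts [.inl h, (hp h).elim, .inr h]

end Cfsg.Agent.S3908
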