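import Cfsg.Statements.S3909
import Cfsg.Agent.Base
import Cfsg.Agent.H26.FrobConstruct


set_option autoImplicit false
open Cfsg

namespace Cfsg.Agent.S3909

theorem part1 {G : Type*} [Group G] [Finite G] (hB : ∀ A B : Subgroup G, IsMulCommutative ↥A → IsMulCommutative ↥B → Nat.card ↥A = Nat.card ↥B → ∃ g : G, B = A.map (MulAut.conj g).toMonoidHom) (M : Subgroup G) [hM : M.Normal] (A B : Subgroup G) (hA : IsMulCommutative A) (hB' : IsMulCommutative B) (hc : Nat.card A = Nat.card B) (hAM : A ≤ M) : B ≤ M := by
  obtain ⟨g, rfl⟩ := hB A B hA hB' hc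
  rintro _ ⟨x, hx, rfl⟩
  exact hM.conj_mem x (hAM hx) g


/-- Let G be a finite group in which any two abelian subgroups of the same order are conjugate. Let M be a normal subgroup of G. If M contains an element of the same order as a ∈ G, then a ∈ M; and if M is elementary abelian of order p^t with p prime and t ≥ 2, then M is the unique Sylow p-subgroup of G. -/
theorem result {G : Type*} [Group G] [Finite G] (hB : ∀ A B : Subgroup G, IsMulCommutative ↥A → IsMulCommutative ↥B → Nat.card ↥A = Nat.card ↥B → ∃ g : G, B = A.map (MulAut.conj g).toMonoidHom) (M : Subgroup G) [M.Normal] :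
    (∀ a : G, (∃ m ∈ M, orderOf m = orderOf a) → a ∈ M) ∧
    ∀ (p t : ℕ) [Fact p.Prime], 2 ≤ t → Nat.card ↥M = p ^ t → Cfsg.IsElementaryAbelian p M → ∀ P : Sylow p G, (P : Subgroup G) = M := by
  refine ⟨?_, ?_⟩
  · rintro a ⟨m, hm, hma⟩
    exact part1 hB M (Subgroup.zpowers m) (Subgroup.zpowers a) inferInstance inferInstance
      (by rw [Nat.card_zpowers, Nat.card_zpowers, hma]) (Subgroup.zpowers_le.2 hm) (Subgroup.mem_zpowers a)
  · intro p t hp ht hc hel P
    have hMp : IsPGroup p M := IsPGroup.of_card hc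
    refine le_antisymm ?_ (hMp.le_sylow_of_normal P)
    intro x hx
    by_cases hx1 : x = 1
    · rw [hx1]; exact M.one_mem
    obtain ⟨k, hk⟩ := IsPGroup.iff_orderOf.1 P.isPGroup' ⟨x, hx⟩
    rw [← Subgroup.orderOf_coe] at hk
    change orderOf x = p ^ k at hk
    have hk0 : k ≠ 0 := by
      rintro rfl
      exact hx1 (orderOf_eq_one_iff.1 hk)
    by_cases hk1 : k = 1
    · obtain ⟨m, hm⟩ := exists_prime_orderOf_dvd_card' (G := M) p (by rw [hc]; exact dvd_pow_self p (by omega))
      rw [← Subgroup.orderOf_coe] at hm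
      exact part1 hB M (Subgroup.zpowers (m : G)) (Subgroup.zpowers x) inferInstance inferInstance
        (by rw [Nat.card_zpowers, Nat.card_zpowers, hm, hk, hk1, pow_one]) (Subgroup.zpowers_le.2 m.2)
        (Subgroup.mem_zpowers x)
    · exfalso
      obtain ⟨K, hKM, hK⟩ := Sylow.exists_subgroup_le_card_pow_prime_of_le_card hp.out (n := 2)
        (H := (⊤ : Subgroup M)) hMp (by
          rw [Subgroup.card_top, hc]
          exact Nat.pow_le_pow_right hp.out.pos ht)
      have hy : orderOf (x ^ p ^ (k - 2)) = p ^ 2 := by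
        rw [orderOf_pow_of_dvd (pow_ne_zero _ hp.out.ne_zero) (by rw [hk]; exact pow_dvd_pow _ (by omega)), hk,
          Nat.pow_div (by omega) hp.out.pos]
        congr 1
        omega
      have hcomm := hel.1
      have hle := part1 hB M (K.map M.subtype) (Subgroup.zpowers (x ^ p ^ (k - 2))) inferInstance inferInstance
        (by rw [Nat.card_zpowers, hy, Subgroup.card_subtype, hK]) (Subgroup.map_subtype_le _)
      have h1 := hel.2 _ (hle (Subgroup.mem_zpowers _))
      rw [← orderOf_dvd_iff_pow_eq_one, hy] at h1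
      have := Nat.le_of_dvd hp.out.pos h1
      have := hp.out.one_lt
      nlinarith

end Cfsg.Agent.S3909
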