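import Cfsg.Statements.S4410
import Cfsg.Agent.Base
import Cfsg.Agent.H2.MinNormal

set_option autoImplicit false
open Cfsg

namespace Cfsg.Agent.S4410

section

set_option linter.unusedSectionVars false

variable {S V : Type*} [Group S] [AddCommGroup V] [DistribMulAction S V]
  [FaithfulSMul S V]

/-- `A` is a transvection with vector `a` (or trivial). -/
def Tv (A : S) (a : V) : Prop := (∀ w : V, A • w = w ∨ A • w = w + a) ∧ A • a = a

theorem Tv.conj {A : S} {a : V} (h : Tv A a) (g : S) : Tv (g * A * g⁻¹) (g • a) :=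
  ⟨fun w => (h.1 (g⁻¹ • w)).imp (fun e => by rw [mul_smul, mul_smul, e, smul_inv_smul])
    fun e => by rw [mul_smul, mul_smul, e, smul_add, smul_inv_smul],
    by rw [mul_smul, mul_smul, inv_smul_smul, h.2]⟩

variable (h2 : ∀ v : V, v + v = 0)
include h2

theorem Tv.mul {A B : S} {a : V} (h : Tv A a) (h' : Tv B a) : Tv (A * B) a := by
  refine ⟨fun w => ?_, by rw [mul_smul, h'.2, h.2]⟩
  rcases h'.1 w with e | e <;> rcases h.1 w with f | f <;> rw [mul_smul, e]
  · exact Or.inl f
  · exact Or.inr f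
  · exact Or.inr (by rw [smul_add, f, h.2])
  · exact Or.inl (by rw [smul_add, f, h.2, add_assoc, h2, add_zero])

theorem Tv.sq {A : S} {a : V} (h : Tv A a) : A * A = 1 :=
  eq_of_smul_eq_smul fun w : V => by
    rcases h.1 w with e | e <;> rw [mul_smul, e, one_smul]
    · exact e
    · rw [smul_add, e, h.2, add_assoc, h2, add_zero]

theorem Tv.key {A B : S} {a b : V} (h : Tv A a) (h' : Tv B b) (ho : Odd (orderOf (A * B)))
    (hn : A ≠ B) : A • b ≠ b ∧ A • b = b + a := by
  have : A • b ≠ b := fun e => hn (by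
    have c := h'.conj A
    rw [e, inv_eq_of_mul_eq_one_right (h.sq h2)] at c
    have := (c.mul h2 h').sq h2
    have e4 : (A * B) ^ 2 ^ 2 = 1 := by
      rw [← this, show 2 ^ 2 = 4 from rfl]
      simp only [pow_succ, pow_zero, one_mul, mul_assoc]
    have := orderOf_eq_one_iff.1 (Nat.eq_one_of_dvd_coprimes (ho.coprime_two_right.pow_right 2)
      dvd_rfl (orderOf_dvd_of_pow_eq_one e4))
    rw [eq_inv_of_mul_eq_one_left this, inv_eq_of_mul_eq_one_right (h'.sq h2)])
  exact ⟨this, (h.1 b).resolve_left this⟩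

theorem main {F : Subgroup S} [hF : F.Normal] (ho : ∀ x ∈ F, Odd (orderOf x)) {P T c : S} {v : V}
    (hP : T = P * P) (hT : Tv T v) (hc : c ∈ F) : c * T = T * c := by
  by_contra hn
  have T2 := hT.sq h2
  have iT : T⁻¹ = T := inv_eq_of_mul_eq_one_right T2
  have od : ∀ {A B : S}, A * T ∈ F → B * T ∈ F → Odd (orderOf (A * B)) := fun {A B} h h' => ho _ (by
    have := mul_mem h (hF.conj_mem _ h' T)
    rwa [show A * T * (T * (B * T) * T⁻¹) = A * (T * T) * B by group, T2, mul_one] at this)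
  have PT : P * T * P⁻¹ = T := by rw [hP]; group
  have m0 : T * T ∈ F := T2 ▸ one_mem _
  have m1 : c * T * c⁻¹ * T ∈ F := by
    have := mul_mem hc (hF.conj_mem _ (inv_mem hc) T)
    rwa [iT, ← mul_assoc, ← mul_assoc c] at this
  have m2 : P * (c * T * c⁻¹) * P⁻¹ * T ∈ F := by
    have := hF.conj_mem _ m1 P
    rwa [← conj_mul, PT] at this
  have m3 : T * (c * T * c⁻¹) * T⁻¹ * T ∈ F := by
    have := hF.conj_mem _ m1 T
    rwa [← conj_mul, mul_inv_cancel_right] at this
  have t1 := hT.conj c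
  have t2 := t1.conj P
  have t3 := t1.conj T
  have n1 : T ≠ c * T * c⁻¹ := fun e => hn (mul_inv_eq_iff_eq_mul.1 e.symm)
  have nc : T * (c * T * c⁻¹) * T⁻¹ ≠ c * T * c⁻¹ := fun e => n1 (by
    have e2 : (c * T * c⁻¹ * T) ^ 2 = 1 := by
      calc _ = c * T * c⁻¹ * (T * (c * T * c⁻¹) * T) := by rw [pow_two]; group
        _ = 1 := by
          nth_rw 4 [← iT]
          rw [e, t1.sq h2]
    have := orderOf_eq_one_iff.1 (Nat.eq_one_of_dvd_coprimes (ho _ m1).coprime_two_right
      dvd_rfl (orderOf_dvd_of_pow_eq_one e2))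
    rw [eq_inv_of_mul_eq_one_left this, iT])
  have n2 : T ≠ P * (c * T * c⁻¹) * P⁻¹ := fun e => n1 (by
    rw [← PT] at e
    nth_rw 2 [PT] at e
    exact mul_left_cancel (mul_right_cancel e))
  have tw : ∀ X : S, T * X * T⁻¹ = P * (P * X * P⁻¹) * P⁻¹ := fun X => by rw [hP]; group
  have n12 : c * T * c⁻¹ ≠ P * (c * T * c⁻¹) * P⁻¹ := fun e => nc (by rw [tw, ← e, ← e])
  have n32 : T * (c * T * c⁻¹) * T⁻¹ ≠ P * (c * T * c⁻¹) * P⁻¹ := fun e => n12 (by
    rw [tw] at e
    exact (mul_left_cancel (mul_right_cancel e)).symm)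
  have a1 := (hT.key h2 t2 (od m0 m2) n2).2
  have a2 := (t1.key h2 t2 (od m1 m2) n12).2
  have a3 := (t1.key h2 hT (od m1 m0) n1.symm).2
  refine (t3.key h2 t2 (od m3 m2) n32).1 ?_
  rw [iT, mul_smul, mul_smul, a1, smul_add, a2, a3, add_add_add_comm, h2, add_zero, smul_add, a1,
    hT.2, add_assoc, h2, add_zero]

end


/-- Let V be a finite-dimensional vector space over the field with two elements and S a solvable group of linear automorphisms of V with O₂(S) = 1. If P ∈ S has order 4 and (P − 1)³ = 0 on V, then the image of (P − 1)² has at least 4 elements; equivalently, in the decomposition of V into indecomposable modules for the cyclic group generated by P, at least two summands have dimension 3. -/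
theorem result
    {V : Type*} [AddCommGroup V] [Module (ZMod 2) V] [Finite V]
    (S : Subgroup (V ≃ₗ[ZMod 2] V)) (hS : Group.IsSolvable ↥S) (hO2 : Cfsg.pCore 2 ↥S = ⊥)
    (P : V ≃ₗ[ZMod 2] V) (hPS : P ∈ S) (hP4 : orderOf P = 4)
    (hcub : ((P : V →ₗ[ZMod 2] V) - LinearMap.id) ^ 3 = 0) :
    4 ≤ Nat.card ↥(LinearMap.range (((P : V →ₗ[ZMod 2] V) - LinearMap.id) ^ 2)) := by
  by_contra hlt
  have : Finite (V ≃ₗ[ZMod 2] V) := Finite.of_injective _ DFunLike.coe_injective
  have h2 : ∀ v : V, v + v = 0 := fun v => by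
    rw [← two_smul (ZMod 2), show (2 : ZMod 2) = 0 from rfl, zero_smul]
  have hr : ∀ w, P (P w) + w ∈ LinearMap.range (((P : V →ₗ[ZMod 2] V) - LinearMap.id) ^ 2) :=
    fun w => ⟨w, by
      simp only [pow_two, Module.End.mul_apply, LinearMap.sub_apply, LinearMap.id_apply, map_sub,
        LinearEquiv.coe_coe]
      simp only [sub_eq_add_neg, neg_eq_of_add_eq_zero_left (h2 _)]
      rw [add_assoc, ← add_assoc (P w), h2, zero_add]⟩
  have T1 : P * P ≠ 1 := fun e => by
    have := orderOf_dvd_of_pow_eq_one ((pow_two P).trans e)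
    rw [hP4] at this
    omega
  have T2 : P * P * (P * P) = 1 := by
    rw [← pow_orderOf_eq_one P, hP4]
    simp only [pow_succ, pow_zero, one_mul, mul_assoc]
  obtain ⟨w, hw⟩ : ∃ w, P (P w) + w ≠ 0 := by
    by_contra! h
    exact T1 (LinearEquiv.ext fun w => (eq_neg_of_add_eq_zero_left (h w)).trans
      (neg_eq_of_add_eq_zero_left (h2 w)))
  have two : ∀ u, P (P u) + u = 0 ∨ P (P u) + u = P (P w) + w := fun u => by
    by_contra! h
    refine hlt ?_
    classical
    have := Fintype.ofFinite V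
    have n3 : P (P u) + u + (P (P w) + w) ≠ 0 := fun e => h.2 ((eq_neg_of_add_eq_zero_left e).trans
      (neg_eq_of_add_eq_zero_left (h2 _)))
    rw [← SetLike.coe_sort_coe, Nat.card_coe_set_eq, ← Nat.succ_le_iff.symm,
      Set.three_lt_ncard]
    exact ⟨0, zero_mem _, _, hr u, _, hr w, _, add_mem (hr u) (hr w), h.1.symm, hw.symm, n3.symm, h.2,
      fun e => hw (left_eq_add.1 e), fun e => h.1 (right_eq_add.1 e)⟩
  have fl : ∀ {a b c : V}, a + b = c → a = b + c := fun {a b c} e => by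
    rw [← e, add_left_comm, h2, add_zero]
  have hv : P (P (P w) + w) = P (P w) + w := by
    rw [map_add]
    exact (two (P w)).resolve_left fun e => hw (P.injective (by rw [map_add, e, map_zero]))
  have ho : ∀ x ∈ fittingSubgroup S, Odd (orderOf x) := fun x hx => Nat.coprime_two_right.1
    (H2.coprime_orderOf_of_mem_pPrimeCore (H2.fitting_le_pPrimeCore_of_pCore_eq_bot hO2 hx))
  have hT : Tv ((⟨P, hPS⟩ : S) * ⟨P, hPS⟩) (P (P w) + w) :=
    ⟨fun u => (two u).imp (fun e => (fl e).trans (add_zero u)) fl, (congrArg P hv).trans hv⟩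
  have hF := ho _ (H2.centralizer_fitting_le S (x := ⟨P, hPS⟩ * ⟨P, hPS⟩)
    fun c hc => main h2 ho rfl hT hc)
  exact T1 (congrArg Subtype.val (orderOf_eq_one_iff.1 (Nat.eq_one_of_dvd_coprimes
    hF.coprime_two_right dvd_rfl (orderOf_dvd_of_pow_eq_one ((pow_two _).trans (Subtype.ext T2))))))

end Cfsg.Agent.S4410
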