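import Cfsg.Statements.S2807
import Cfsg.Agent.H95.GroupFocal

set_option autoImplicit false
open Cfsg

namespace Cfsg.Agent.S2807

/-- Let S be a Sylow p-subgroup of the finite group G. If S ∩ G' ≠ S ∩ (N_G(S))' (derived subgroups), then the wreath product Z_p ≀ Z_p — realised as a Sylow p-subgroup of the symmetric group of degree p² — is a homomorphic image of S. -/
theorem result {G : Type*} [Group G] [Finite G] {p : ℕ} [Fact p.Prime] (S : Sylow p G) (h : (S : Subgroup G) ⊓ commutator G ≠ (S : Subgroup G) ⊓ ⁅Subgroup.normalizer ((S : Subgroup G) : Set G), Subgroup.normalizer ((S : Subgroup G) : Set G)⁆) : ∃ (P : Sylow p (Equiv.Perm (Fin (p ^ 2)))) (f : ↥(S : Subgroup G) →* ↥(P : Subgroup (Equiv.Perm (Fin (p ^ 2))))), Function.Surjective f := by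
  have hSN : (S : Subgroup G) ≤ Subgroup.normalizer ((S : Subgroup G) : Set G) := Subgroup.le_normalizer
  refine H95.yoshida S.isPGroup' (H95.saturated_group S) (K := (S : Subgroup G) ⊓ ⁅Subgroup.normalizer ((S : Subgroup G) : Set G), Subgroup.normalizer ((S : Subgroup G) : Set G)⁆) ?_ ?_ ?_ ?_
  · exact le_inf (Subgroup.commutator_le_self _) (Subgroup.commutator_mono hSN hSN)
  · rw [H95.focal_group_eq]
    exact inf_le_inf_left _ (Subgroup.commutator_mono le_top le_top)
  · intro f hf a ha
    obtain ⟨-, hm, g, hg⟩ := H92.mor_group_iff.1 hf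
    refine ⟨(S : Subgroup G).mul_mem ((S : Subgroup G).inv_mem ha) (hm a ha), ?_⟩
    have hgN : g ∈ Subgroup.normalizer ((S : Subgroup G) : Set G) :=
      Subgroup.mem_normalizer_fintype fun x hx => hg x hx ▸ hm x hx
    have := Subgroup.commutator_mem_commutator (hSN ((S : Subgroup G).inv_mem ha)) hgN
    rw [commutatorElement_def] at this
    rw [hg a ha]
    simpa [mul_assoc] using this
  · rw [H95.focal_group_eq]
    exact h.symm

end Cfsg.Agent.S2807
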