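import Cfsg.Statements.S4014
import Cfsg.Agent.H9.PBasic

set_option autoImplicit false
open Cfsg

namespace Cfsg.Agent.S4014

universe u

theorem up {p : ℕ} [hp : Fact p.Prime] (k : ℕ) : ∀ {G : Type u} [Group G] [Finite G], IsPGroup p G →
    ∀ H : Subgroup G, H.index < p ^ (k + 1) → derivedSeries G k ≤ H := by
  induction k with
  | zero =>
    intro G _ _ hG H h
    obtain ⟨j, hj⟩ := hG.index H
    rw [hj, Nat.pow_lt_pow_iff_right hp.out.one_lt] at h
    rw [show j = 0 by omega, pow_zero, Subgroup.index_eq_one] at hj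
    exact hj ▸ le_top
  | succ k ih =>
    intro G _ _ hG H h
    rcases eq_top_or_exists_le_coatom H with rfl | ⟨M, hM, hHM⟩
    · exact le_top
    haveI := H9.normal_of_isCoatom hG hM
    obtain ⟨j, hj⟩ := hG.index M
    have j0 : j ≠ 0 := by
      rintro rfl
      exact hM.1 (Subgroup.index_eq_one.1 hj)
    have h1 : (H.subgroupOf M).index < p ^ (k + 1) := by
      have e : H.relIndex M * M.index = H.index := Subgroup.relIndex_mul_index hHM
      have : p ≤ M.index := hj ▸ Nat.le_self_pow j0 p
      by_contra hc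
      rw [← e, pow_succ] at h
      exact absurd h (not_lt.2 (Nat.mul_le_mul (not_lt.1 hc) this))
    have h2 : commutator G ≤ M := by
      by_contra hc
      have ht : commutator G ⊔ M = ⊤ := hM.2 _ (lt_of_le_of_ne le_sup_right fun e => hc (e ▸ le_sup_left))
      haveI := hG.isNilpotent
      have hq : commutator (G ⧸ M) = ⊤ := by
        have := congrArg (Subgroup.map (QuotientGroup.mk' M)) ht
        rwa [Subgroup.map_sup, Subgroup.map_top_of_surjective _ (QuotientGroup.mk'_surjective M),
          (Subgroup.map_eq_bot_iff M).2 (QuotientGroup.ker_mk' M).ge, sup_bot_eq, map_commutator_eq,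
          MonoidHom.range_eq_top.2 (QuotientGroup.mk'_surjective M)] at this
      haveI : Nontrivial (G ⧸ M) := QuotientGroup.nontrivial_iff.2 hM.1
      exact (IsSolvable.commutator_lt_top_of_nontrivial (G ⧸ M)).ne hq
    have h3 : ∀ i, derivedSeries G (i + 1) ≤ (derivedSeries M i).map M.subtype := fun i => by
      induction i with
      | zero => simpa [← MonoidHom.range_eq_map] using h2
      | succ i ih =>
        rw [derivedSeries_succ, derivedSeries_succ M, Subgroup.map_commutator]
        exact Subgroup.commutator_mono ih ih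
    refine (h3 k).trans ((Subgroup.map_mono (ih (hG.to_subgroup M) _ h1)).trans ?_)
    rw [Subgroup.subgroupOf_map_subtype]
    exact inf_le_left

open scoped commutatorElement in
open RegularWreathProduct in
theorem wr {D Q : Type*} [Group D] [Group Q] [Nontrivial Q] (j : ℕ) (h : derivedSeries (D ≀ᵣ Q) (j + 1) = ⊥) :
    derivedSeries D j = ⊥ := by
  classical
  let K := (rightHom : D ≀ᵣ Q →* Q).ker
  let φ : K →* D := MonoidHom.mk' (fun w => w.1.left 1) fun a b => by
    have : a.1.right = 1 := a.2
    simp [this]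
  have key : ∀ i, derivedSeries D i ≤ ((derivedSeries (D ≀ᵣ Q) (i + 1)).comap K.subtype).map φ := fun i => by
    induction i with
    | zero =>
      intro x _
      obtain ⟨t, ht⟩ := exists_ne (1 : Q)
      refine ⟨⟨⁅(⟨Pi.mulSingle 1 x, 1⟩ : D ≀ᵣ Q), inl t⁆, ?_⟩,
        Subgroup.commutator_mem_commutator (Subgroup.mem_top _) (Subgroup.mem_top _), ?_⟩
      · simp [K, commutatorElement_def]
      · simp [φ, commutatorElement_def, ht]
    | succ i ih =>
      rw [derivedSeries_succ, derivedSeries_succ (D ≀ᵣ Q)]
      refine (Subgroup.commutator_mono ih ih).trans ?_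
      rw [← Subgroup.map_commutator]
      refine Subgroup.map_mono (Subgroup.map_le_iff_le_comap.1 ?_)
      rw [Subgroup.map_commutator]
      exact Subgroup.commutator_mono (Subgroup.map_comap_le _ _) (Subgroup.map_comap_le _ _)
  have := key j
  rwa [h, MonoidHom.comap_bot, Subgroup.ker_subtype, Subgroup.map_bot, le_bot_iff] at this

theorem it (Q : Type) [Group Q] [Nontrivial Q] (k : ℕ) :
    derivedSeries (IteratedWreathProduct Q (k + 1)) k ≠ ⊥ := by
  induction k with
  | zero =>
    intro h
    obtain ⟨t, ht⟩ := exists_ne (1 : Q)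
    have : (RegularWreathProduct.inl t : IteratedWreathProduct Q 0 ≀ᵣ Q) = 1 :=
      (Subgroup.eq_bot_iff_forall _).1 h _ (Subgroup.mem_top _)
    exact ht (congrArg RegularWreathProduct.right this)
  | succ k ih => exact fun h => ih (wr (D := IteratedWreathProduct Q (k + 1)) (Q := Q) k h)

/-- Let p be a prime, n ≥ 1, and P a Sylow p-subgroup of the symmetric group on n letters. Then the derived length of P is exactly k = ⌊log_p n⌋ (the largest k with p^k ≤ n): the k-th derived subgroup of P is trivial and, when k ≥ 1, the (k−1)-st is not. -/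
theorem result (p : ℕ) [Fact p.Prime] (n : ℕ) (hn : 1 ≤ n) (P : Sylow p (Equiv.Perm (Fin n))) : derivedSeries ↥(P : Subgroup (Equiv.Perm (Fin n))) (Nat.log p n) = ⊥ ∧ (1 ≤ Nat.log p n → derivedSeries ↥(P : Subgroup (Equiv.Perm (Fin n))) (Nat.log p n - 1) ≠ ⊥) := by
  have hp : p.Prime := Fact.out
  refine ⟨eq_bot_iff.2 fun g hg => Subtype.ext (Equiv.ext fun a => ?_), fun h1 h => ?_⟩
  · refine up _ P.isPGroup' (MulAction.stabilizer (P : Subgroup (Equiv.Perm (Fin n))) a) ?_ hg
    rw [MulAction.index_stabilizer]
    refine lt_of_le_of_lt ?_ (Nat.lt_pow_succ_log_self hp.one_lt n)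
    simpa using Set.ncard_le_card (MulAction.orbit (P : Subgroup (Equiv.Perm (Fin n))) a)
  · obtain ⟨k, hk⟩ : ∃ k, Nat.log p n = k + 1 := ⟨_, (Nat.succ_pred_eq_of_pos h1).symm⟩
    rw [hk, Nat.add_sub_cancel] at h
    obtain ⟨ι⟩ : Nonempty ((Fin (k + 1) → Multiplicative (ZMod p)) ↪ Fin n) :=
      Function.Embedding.nonempty_of_card_le (by simpa [← hk] using Nat.pow_log_le_self p (by omega : n ≠ 0))
    let f := (Equiv.Perm.viaEmbeddingHom ι).comp (iteratedWreathToPermHom _ (k + 1))
    have hf : Function.Injective f :=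
      (Equiv.Perm.viaEmbeddingHom_injective ι).comp (iteratedWreathToPermHomInj _ _)
    have hW : IsPGroup p (IteratedWreathProduct (Multiplicative (ZMod p)) (k + 1)) :=
      IsPGroup.of_card (by rw [IteratedWreathProduct.card]; simp; rfl)
    obtain ⟨Q, hQ⟩ := (hW.of_surjective _ f.rangeRestrict_surjective).exists_le_sylow
    let g := (Q.equiv P).toMonoidHom.comp (f.codRestrict _ fun x => hQ ⟨x, rfl⟩)
    have hg : Function.Injective g := (Q.equiv P).injective.comp fun a b e => hf (congrArg Subtype.val e)
    have := map_derivedSeries_le_derivedSeries g k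
    rw [h, le_bot_iff, Subgroup.map_eq_bot_iff_of_injective _ hg] at this
    exact it _ k this

end Cfsg.Agent.S4014
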