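import Cfsg.Statements.S4607
import Cfsg.Agent.H35.BasicAlg
import Cfsg.Agent.H35.KW

set_option autoImplicit false
open Cfsg H28

namespace Cfsg.Agent.S4607

/-- Let G be a finite group, p a prime, M a maximal ideal of the algebraic integers containing p, and B a p-block of G with defect group D. Then B contains exactly two irreducible characters if and only if D has order 2. -/
theorem result {G : Type*} [Group G] [Finite G] (p : ℕ) [Fact p.Prime] (M : Ideal Cfsg.AlgInt) (hM : Cfsg.IsPModular p M) (B : Set (Cfsg.IrrCharacter G)) (hB : Cfsg.IsPBlock M B) (D : Subgroup G) (hD : Cfsg.IsDefectGroup p M B D) : Nat.card B = 2 ↔ Nat.card D = 2 := by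
  classical
  have := hM.2.1
  have := Fintype.ofFinite G
  have hp := hM.1
  have hc := H35.card_defectGroup hM hB hD
  have h0 := H35.defect_zero_iff_card_eq_one hM hB
  obtain ⟨χ, hχ⟩ := H34.block_nonempty hB
  constructor
  · intro hk
    have h1 := H35.blockRank_pos (p := p) hp ⟨χ, hχ⟩
    have h2 := H35.blockRank_le_card (p := p) (B := B)
    have h3 : Nat.card B ≠ blockRank p B := fun h => by
      have h4 := H35.pReg_eq_self_of_card_eq_rank hM hB h hχ
      have := h0.1 (H35.defect_zero_of_vanish hM hB hχ fun x hx => by
        rw [← h4]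
        simp [pRegularPart, IsPRegular, hx])
      omega
    rw [hc, ← H35.card_eq_pow_of_le_four hM hB (by omega) (by omega), hk]
  · intro hk
    have h1 : Nat.card B ≤ 2 := hk ▸ H35.card_le_of_cyclic hM hB hD
      (isCyclic_of_prime_card (p := 2) hk)
    have h2 : Nat.card B ≠ 1 := fun h => by
      rw [hc, h0.2 h] at hk
      exact absurd hk (by norm_num)
    have h3 : 0 < Nat.card B := by
      have : Nonempty B := ⟨⟨χ, hχ⟩⟩
      exact Nat.card_pos
    omega

end Cfsg.Agent.S4607
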