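import Cfsg.Statements.S3430
import Cfsg.Agent.H27.Zsigmondy

set_option autoImplicit false
open Cfsg

namespace Cfsg.Agent.S3430

/-- Let q, n ≥ 2 be integers. Unless (n = 2 and q + 1 = 2^s·3^t for some s ≥ 0 and t ≤ 1), or (q = 2 and n ∈ {4, 6, 10, 12, 18}), or (q = 3 and n ∈ {4, 6}), or (q, n) = (5, 6), there is a prime p dividing q^n − 1 but no q^i − 1 with 1 ≤ i < n (a primitive prime divisor), such that p > n + 1 or p² divides q^n − 1. -/
theorem result (q n : ℕ) (hq : 2 ≤ q) (hn : 2 ≤ n)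
    (h1 : ¬ (n = 2 ∧ ∃ s t : ℕ, t ≤ 1 ∧ q + 1 = 2 ^ s * 3 ^ t))
    (h2 : ¬ (q = 2 ∧ (n = 4 ∨ n = 6 ∨ n = 10 ∨ n = 12 ∨ n = 18)))
    (h3 : ¬ (q = 3 ∧ (n = 4 ∨ n = 6))) (h4 : ¬ (q = 5 ∧ n = 6)) :
    ∃ p : ℕ, p.Prime ∧ p ∣ q ^ n - 1 ∧ (∀ i : ℕ, 1 ≤ i → i < n → ¬ p ∣ q ^ i - 1) ∧ (n + 1 < p ∨ p ^ 2 ∣ q ^ n - 1) := by
  rcases (show n = 2 ∨ 3 ≤ n by omega) with rfl | hn3
  · have hsq : q ^ 2 - 1 = (q + 1) * (q - 1) := by simpa using Nat.sq_sub_sq q 1
    have hodd : ∀ r : ℕ, r.Prime → r ≠ 2 → r ∣ q + 1 → ∀ i : ℕ, 1 ≤ i → i < 2 → ¬ r ∣ q ^ i - 1 := by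
      intro r hr hr2 hra k hk0 hk2 hd
      obtain rfl : k = 1 := by omega
      rw [pow_one] at hd
      have h3 := Nat.dvd_sub hra hd
      rw [show q + 1 - (q - 1) = 2 by omega] at h3
      exact hr2 ((Nat.prime_dvd_prime_iff_eq hr Nat.prime_two).1 h3)
    obtain ⟨s, m, hm, hs⟩ := Nat.exists_eq_pow_mul_and_not_dvd (n := q + 1) (by omega) 2 (by norm_num)
    have hm0 : m ≠ 0 := by rintro rfl; simp at hm
    obtain ⟨t, k, hk, ht⟩ := Nat.exists_eq_pow_mul_and_not_dvd hm0 3 (by norm_num)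
    by_cases hk1 : k = 1
    · have ht2 : 2 ≤ t := by
        by_contra h
        exact h1 ⟨rfl, s, t, by omega, by rw [hs, ht, hk1, mul_one]⟩
      have h9 : 3 ^ 2 ∣ q + 1 := by
        rw [hs, ht]
        exact ((pow_dvd_pow 3 ht2).mul_right _).mul_left _
      have h3' : 3 ∣ q + 1 := Dvd.dvd.trans (by norm_num) h9
      exact ⟨3, Nat.prime_three, hsq ▸ h3'.mul_right _, hodd 3 Nat.prime_three (by norm_num) h3',
        Or.inr (hsq ▸ h9.mul_right _)⟩
    · obtain ⟨r, hr, hrk⟩ := Nat.exists_prime_and_dvd hk1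
      have hrm : r ∣ m := ht ▸ hrk.mul_left _
      have hrq : r ∣ q + 1 := hs ▸ hrm.mul_left _
      have hr2 : r ≠ 2 := by rintro rfl; exact hm hrm
      have hr3 : r ≠ 3 := by rintro rfl; exact hk hrk
      refine ⟨r, hr, hsq ▸ hrq.mul_right _, hodd r hr hr2 hrq, Or.inl ?_⟩
      have := hr.two_le
      omega
  · obtain ⟨m, hm, hb⟩ := H27.exists_isPrimDiv_zsBound_le hq hn3
    have hb2 : n + 1 < m := by
      unfold H27.zsBound at hb
      split_ifs at hb with h h'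
      · exfalso
        simp only [Prod.mk.injEq] at h
        omega
      · exfalso
        simp only [List.mem_cons, Prod.mk.injEq, List.not_mem_nil, or_false] at h'
        tauto
      all_goals omega
    by_contra hcon
    push Not at hcon
    have hall : ∀ r : ℕ, r.Prime → r ∣ m → r = n + 1 ∧ ¬ r ^ 2 ∣ m := by
      intro r hr hrm
      have h5 := hcon r hr (hrm.trans hm.1) (hm.not_dvd hr hrm)
      have h6 := H27.dvd_sub_one_of_primitive hq (by omega) hr (hrm.trans hm.1) (hm.not_dvd hr hrm)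
      have h7 := Nat.le_of_dvd (by have := hr.two_le; omega) h6
      exact ⟨by omega, fun h => h5.2 (h.trans hm.1)⟩
    obtain ⟨r, hr, k, hk⟩ := Nat.exists_prime_and_dvd (n := m) (by omega)
    have h8 := hall r hr ⟨k, hk⟩
    have hk1 : k ≠ 1 := by
      rintro rfl
      omega
    obtain ⟨s, hs, hsk⟩ := Nat.exists_prime_and_dvd hk1
    have h9 := hall s hs (hk ▸ hsk.mul_left _)
    apply h8.2
    rw [hk, pow_two]
    refine Nat.mul_dvd_mul_left r ?_
    rw [h8.1, ← h9.1]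
    exact hsk

end Cfsg.Agent.S3430
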