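import Cfsg.Agent.Base
import Cfsg.Agent.H44.CD3
import Cfsg.Agent.H61.HurClassify
import Cfsg.Agent.H61.HurPGL
import Cfsg.Agent.H28.Degree
import Cfsg.Agent.H28.CharCenter
import Cfsg.Statements.S4473

set_option autoImplicit false
open Cfsg

namespace Cfsg.Agent.S4473

open H28 H61 Matrix MatrixGroups MulAction

/-- A finite subgroup of `PGL(2,K)` in characteristic zero satisfies the abstract model for any
prime not dividing its order. -/
theorem hur_fin {K : Type*} [Field K] [CharZero K] [IsAlgClosed K] (H : Subgroup PGL(2, K))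
    [Finite H] {p : ℕ} (hp : p.Prime) (hd : ¬ p ∣ Nat.card H) : Hur p H (P1 K) := by
  have h1 : ∀ g : H, g ^ p = 1 → g = 1 := fun g hg => by
    rcases (Nat.dvd_prime hp).1 (orderOf_dvd_of_pow_eq_one hg) with h | h
    · exact orderOf_eq_one_iff.1 h
    · exact absurd (h ▸ orderOf_dvd_natCard g) hd
  have h2 : ∀ (g : H) (γ : PGL(2, K)) (b : K), γ⁻¹ * g * γ = aff 1 b → g = 1 := fun g γ b h => by
    have h3 : (γ⁻¹ * g * γ) ^ orderOf g = 1 := by
      rw [conj_pow', ← SubmonoidClass.coe_pow, pow_orderOf_eq_one]; simp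
    rw [h, aff_one_pow, aff_eq_one] at h3
    have h4 : b = 0 := (mul_eq_zero.1 h3.2).resolve_left (Nat.cast_ne_zero.2 (orderOf_pos g).ne')
    rw [h4, aff_one, conj_eq_one_iff'] at h
    exact Subtype.ext h
  refine ⟨hp, fun g => pgl_exists_fixed (g : PGL(2, K)), fun g _ _ _ a b c d e f =>
    Subtype.ext (pgl_eq_one_of_three (g : PGL(2, K)) a b c d e f), fun g x hx h => ?_,
    fun g _ _ _ _ _ h => h1 g h, fun g h _ _ _ a b => by rw [h1 g a, h1 h b], fun x L _ hL _ => ?_⟩
  · obtain ⟨γ, hγ⟩ := exists_pgl_one x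
    obtain ⟨a, b, hab⟩ := exists_aff_of_fix ((conj_smul_eq (g := (g : PGL(2, K))) hγ hγ).2 hx)
    by_cases ha : a = 1
    · rw [h2 g γ b (ha ▸ hab), one_pow]
    · exfalso
      have h1 : (1 : K) - a ≠ 0 := fun h1 => ha (Units.ext (sub_eq_zero.1 h1).symm)
      have h2 := h (γ • pt (b / (1 - a))) ((conj_smul_eq (g := (g : PGL(2, K))) rfl rfl).1 (by
        rw [hab, aff_smul_pt, pt_inj]; field_simp; ring))
      rw [← hγ, smul_left_cancel_iff] at h2
      exact pt_ne_pinf _ h2
  · obtain ⟨γ, hγ⟩ := exists_pgl_one x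
    obtain ⟨χ, hχ⟩ := exists_chi hγ
    refine isCyclic_of_injective_ringHom ((Units.coeHom K).comp (χ.comp
      ((H.subtype.comp L.subtype).codRestrict _ fun g => hL g g.2))) ?_
    rw [injective_iff_map_eq_one]
    intro g hg
    obtain ⟨a, b, hab⟩ :=
      exists_aff_of_fix ((conj_smul_eq (g := (g.1 : PGL(2, K))) hγ hγ).2 (hL g g.2))
    have h3 : a = 1 := by
      rw [← hχ ⟨g.1, hL g g.2⟩ a b hab]
      exact Units.ext hg
    exact Subtype.ext (h2 g γ b (h3 ▸ hab))

theorem exists_pgl {G : Type*} [Group G] [Finite G] {χ : G → ℂ} (hχ : IsIrrCharacter G χ)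
    (hk : charKer χ = ⊥) (h2 : charDegree χ = 2) :
    ∃ φ : G →* PGL(2, ℂ), φ.ker = Subgroup.center G := by
  rw [← hχ.charCenter_eq_center hk]
  obtain ⟨n, ρ, -, rfl⟩ := hχ
  rw [charDegree_rep, Module.finrank_fin_fun] at h2
  subst h2
  let ψ : G →* GL (Fin 2) ℂ :=
    ((LinearMap.toMatrixAlgEquiv' (R := ℂ) (n := Fin 2)).toMonoidHom.comp ρ).toHomUnits
  refine ⟨ProjGenLinGroup.mk.comp ψ, Subgroup.ext fun g => ?_⟩
  rw [MonoidHom.mem_ker, MonoidHom.comp_apply, ProjGenLinGroup.mk_eq_one,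
    GeneralLinearGroup.mem_center_iff_val_mem_range_scalar, mem_charCenter_rep]
  refine exists_congr fun ω => ?_
  change _ = LinearMap.toMatrixAlgEquiv' (ρ g) ↔ _
  rw [eq_comm, ← (LinearMap.toMatrixAlgEquiv' (R := ℂ) (n := Fin 2)).injective.eq_iff, map_smul]
  simp [← smul_one_eq_diagonal]

theorem comm_of_cyc {G H : Type*} [Group G] [Group H] (φ : G →* H)
    (hφ : φ.ker ≤ Subgroup.center G) (L : Subgroup H) [IsCyclic L] :
    ∀ a ∈ L.comap φ, ∀ b ∈ L.comap φ, a * b = b * a := fun a ha b hb =>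
  congrArg Subtype.val (((φ.subgroupComap L).isMulCommutative_of_isCyclic_of_ker_le_center
    fun x hx => Subgroup.mem_center_iff.2 fun y => Subtype.ext (Subgroup.mem_center_iff.1
      (hφ (congrArg Subtype.val hx)) y)).is_comm.comm ⟨a, ha⟩ ⟨b, hb⟩)

/-- Let the finite group G have a faithful irreducible character χ of degree 2 that is primitive: χ is not induced from a character of any proper subgroup. Then the centre of G has index 12, 24 or 60. -/
theorem result {G : Type*} [Group G] [Fintype G] (χ : Cfsg.IrrCharacter G) (hfaith : ∀ g : G, (χ : G → ℂ) g = (χ : G → ℂ) 1 → g = 1) (h2 : Cfsg.charDegree (χ : G → ℂ) = 2) (hprim : ∀ H : Subgroup G, H ≠ ⊤ → ∀ θ : H → ℂ, Cfsg.IsCharacter H θ → (χ : G → ℂ) ≠ Cfsg.indFun H θ) : (Subgroup.center G).index = 12 ∨ (Subgroup.center G).index = 24 ∨ (Subgroup.center G).index = 60 := by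
  obtain ⟨φ, hφ⟩ := exists_pgl χ.2 (charKer_eq_bot_of_forall hfaith) h2
  have : Finite φ.range := Finite.of_surjective _ φ.rangeRestrict_surjective
  obtain ⟨p, hp1, hp⟩ := Nat.exists_infinite_primes (Nat.card φ.range + 1)
  have hd : ¬ p ∣ Nat.card φ.range := fun h => by
    have := Nat.le_of_dvd Nat.card_pos h
    omega
  have h := hur_fin φ.range hp hd
  have hk : φ.rangeRestrict.ker ≤ Subgroup.center G := by rw [MonoidHom.ker_rangeRestrict, hφ]
  have hc : ∀ x, ∀ a ∈ (stabilizer φ.range x).comap φ.rangeRestrict,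
      ∀ b ∈ (stabilizer φ.range x).comap φ.rangeRestrict, a * b = b * a := fun x =>
    haveI := h.isCyclic_stabilizer (h.Q_eq_bot_of_not_dvd hd x)
    comm_of_cyc _ hk _
  rw [← hφ, Subgroup.index_ker]
  rcases h.classify with ⟨x, hx⟩ | ⟨x, y, hxy, -, h1, w, hw, -⟩ | ⟨-, ⟨e⟩⟩ | ⟨-, ⟨e⟩⟩ | ⟨-, ⟨e⟩⟩ |
    ⟨x, u, d, h1, h3, -⟩
  · have := χ.2.apply_one_of_comm fun a b => hc x a (hx _) b (hx _)
    rw [charDegree_eq (n := 1) (by simpa using this)] at h2
    omega
  · exfalso
    have hi : ((stabilizer φ.range x).comap φ.rangeRestrict).index = 2 := by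
      rw [Subgroup.index_comap_of_surjective _ φ.rangeRestrict_surjective,
        Subgroup.index_eq_two_iff']
      refine ⟨w, fun b => ?_⟩
      have hb : b ∈ pairStab φ.range x y := h1 ▸ Subgroup.mem_top b
      have hw' : w ∈ pairStab φ.range x y := h1 ▸ Subgroup.mem_top w
      simp only [mem_stabilizer_iff, mul_smul]
      rcases hw' with ⟨h3, -⟩ | ⟨-, h4⟩
      · exact absurd (h3.symm.trans hw) hxy
      rcases hb with ⟨h5, -⟩ | ⟨h5, -⟩
      · rw [h5, hw]; exact Or.inr ⟨rfl, hxy.symm⟩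
      · rw [h5, h4]; exact Or.inl ⟨rfl, hxy.symm⟩
    have := Subgroup.normal_of_index_eq_two hi
    have hn : IsPGroup 2 (G ⧸ (stabilizer φ.range x).comap φ.rangeRestrict) :=
      IsPGroup.of_card (n := 1) hi
    obtain ⟨L, lam, hL⟩ := H44.monomial_of_abelian_normal _ (hc x) hn.isNilpotent χ.2
    refine hprim L (fun e => ?_) _ (isCharacter_of_hom lam) hL
    rw [hL, (isCharacter_of_hom lam).charDegree_indFun, charDegree_hom, e, Subgroup.index_top] at h2
    omega
  · left
    rw [Nat.card_congr e.toEquiv, Nat.card_eq_fintype_card, card_alternatingGroup]; rfl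
  · right; left
    rw [Nat.card_congr e.toEquiv, Nat.card_perm, Nat.card_eq_fintype_card, Fintype.card_fin]; rfl
  · right; right
    rw [Nat.card_congr e.toEquiv, Nat.card_eq_fintype_card, card_alternatingGroup]; rfl
  · rw [h.Q_eq_bot_of_not_dvd hd x, Subgroup.card_bot] at h3
    omega

end Cfsg.Agent.S4473
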