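import Cfsg.Agent.Base
import Cfsg.Agent.H89.Prim
import Cfsg.Statements.S3681

set_option autoImplicit false
open Cfsg

namespace Cfsg.Agent.S3681

open MulAction

/-- Bochert's bound for primitive groups. Let a finite group G act faithfully and primitively on a finite set Ω with n elements, and suppose the image of G in the symmetric group of Ω does not contain the alternating group of Ω. Then |G| · ⌊(n + 1)/2⌋! ≤ n!, that is, the index of G in the symmetric group is at least ⌊(n + 1)/2⌋!. -/
theorem result {G Ω : Type*} [Group G] [Finite G] [MulAction G Ω] [FaithfulSMul G Ω] [Fintype Ω] [DecidableEq Ω]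
    (hprim : MulAction.IsPreprimitive G Ω) (hA : ¬ alternatingGroup Ω ≤ (MulAction.toPermHom G Ω).range) :
    Nat.card G * Nat.factorial ((Fintype.card Ω + 1) / 2) ≤ Nat.factorial (Fintype.card Ω) := by
  obtain ⟨S, hS, hmin⟩ := exists_minimalFor_of_wellFoundedLT
    (fun S : Finset Ω => ∀ g : G, (∀ x ∈ S, g • x = x) → g = 1) Finset.card
    ⟨Finset.univ, fun g hg => eq_of_smul_eq_smul (α := Ω) fun x => by
      rw [hg x (Finset.mem_univ x), one_smul]⟩
  have hlt : ∀ T : Finset Ω, T.card < S.card → ∃ g : G, (∀ x ∈ T, g • x = x) ∧ g ≠ 1 := by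
    intro T hT
    by_contra! h
    exact absurd (hmin h hT.le) (by omega)
  have hb : 2 * S.card ≤ Fintype.card Ω := by
    by_contra! h
    obtain ⟨x, hx, hx1⟩ := hlt Sᶜ (by rw [Finset.card_compl]; omega)
    obtain ⟨a, ha⟩ : ∃ a : Ω, x • a ≠ a := by
      by_contra! h'
      exact hx1 (eq_of_smul_eq_smul (α := Ω) fun y => by rw [h', one_smul])
    have haS : a ∈ S := by
      by_contra h'
      exact ha (hx a (Finset.mem_compl.2 h'))
    obtain ⟨y, hy, hy1⟩ := hlt (S.erase a) (Finset.card_erase_lt_of_mem haS)
    refine hA (H89.alternatingGroup_le_range_of_one_overlap (x := x) (y := y) ha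
      (fun h' => hy1 (hS y fun z hz => ?_)) fun b hb => ?_)
    · by_cases hza : z = a
      · rw [hza, h']
      · exact hy z (Finset.mem_erase.2 ⟨hza, hz⟩)
    · by_cases hbS : b ∈ S
      · exact Or.inr (hy b (Finset.mem_erase.2 ⟨hb, hbS⟩))
      · exact Or.inl (hx b (Finset.mem_compl.2 hbS))
  have hcard : Nat.card G ≤ (Fintype.card Ω).descFactorial S.card := by
    have := Nat.card_le_card_of_injective
      (fun g : G => (⟨fun x => g • (x : Ω), fun x y h => Subtype.ext (smul_left_cancel g h)⟩ :
        S ↪ Ω)) (fun g g' h => by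
        have := hS (g'⁻¹ * g) fun x hx => by
          rw [mul_smul, inv_smul_eq_iff]
          exact DFunLike.congr_fun h ⟨x, hx⟩
        exact (inv_mul_eq_one.1 this).symm)
    rwa [Nat.card_eq_fintype_card (α := S ↪ Ω), Fintype.card_embedding_eq, Fintype.card_coe]
      at this
  rw [← Nat.factorial_mul_descFactorial (show S.card ≤ Fintype.card Ω by omega), mul_comm]
  exact Nat.mul_le_mul (Nat.factorial_le (by omega)) hcard

end Cfsg.Agent.S3681
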