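import Cfsg.Agent.Base
import Cfsg.Agent.H4.Cover
import Cfsg.Agent.H4.Kazarin
import Cfsg.Agent.H7.NPC
import Cfsg.Agent.H10.ModPPrime
import Cfsg.Agent.H24.PiPart
import Cfsg.Agent.H98.Core
import Cfsg.Statements.S4127

set_option autoImplicit false
open Cfsg

namespace Cfsg.Agent.S4127

open Subgroup H4

/-- Let G be a finite group, p a prime and p^a the largest power of p dividing the size of any conjugacy class of G. If some element of p-power order has a conjugacy class of size exactly p^a, then G has a normal p-complement. -/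
theorem result {G : Type*} [Group G] [Finite G] (p : ℕ) [Fact p.Prime]
    (a : ℕ) (hmax : ∀ y : G, ¬ p ^ (a + 1) ∣ (Subgroup.centralizer ({y} : Set G)).index)
    (hx : ∃ x : G, (∃ k : ℕ, orderOf x = p ^ k) ∧ (Subgroup.centralizer ({x} : Set G)).index = p ^ a) :
    Cfsg.HasNormalPComplement p G := by
  obtain ⟨x, ⟨k, hk⟩, hx⟩ := hx
  have hp : p.Prime := Fact.out
  set C := centralizer ({x} : Set G) with hC
  have h1 : ∀ y : C, ¬ p ∣ orderOf y → ¬ p ∣ ind y := fun y hy e => hmax (x * y) (by
    rw [H24.centralizer_mul_of_coprime (mem_centralizer_singleton_iff.1 y.2).symm (by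
      rw [hk, orderOf_coe]; exact (hp.coprime_iff_not_dvd.2 hy).pow_left k), ← relIndex_mul_index inf_le_left,
      hx, inf_relIndex_left, pow_succ']
    refine mul_dvd_mul_right (e.trans (dvd_of_eq ?_)) _
    rw [ind, relIndex]
    congr 1
    ext g
    simp [mem_centralizer_singleton_iff, mem_subgroupOf, Subtype.ext_iff])
  obtain ⟨P⟩ : Nonempty (Sylow p C) := inferInstance
  have hP := sylow_normal_of_not_dvd_ind P h1
  obtain ⟨H, hH, h2, h3, h4⟩ := exists_normal_compl_of_centralize P fun y hy => by
    obtain ⟨g, hg⟩ := exists_conj_mem_centralizer_sylow P (h1 y hy)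
    simpa [mul_assoc] using Normal.conj_mem' inferInstance _ hg g
  obtain ⟨b, hb⟩ := P.isPGroup'.exists_card_eq
  have hi : H.index = p ^ b := h2.symm.index_eq_card.trans hb
  have h5 : H.map C.subtype ≤ centralizer (pCore p G : Set G) := by
    rintro _ ⟨y, hy, rfl⟩
    refine H10.pxq_elem (p := p) (P := zpowers x) (IsPGroup.of_card (by rw [Nat.card_zpowers, hk]))
      (H98.isPGroup_pCore p G) le_normalizer_of_normal ?_ (le_normalizer_of_normal (mem_top _)) ?_ ?_
    · rw [coe_subtype, orderOf_coe]
      exact (hp.coprime_iff_not_dvd.2 fun e => h3 (e.trans (H.orderOf_dvd_natCard hy))).symm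
    · exact le_centralizer_iff.1 (zpowers_le.2
        (mem_centralizer_iff.2 fun g hg => mem_centralizer_singleton_iff.1 hg)) y.2
    · rintro w ⟨w1, w2⟩
      have w3 : w ∈ C := centralizer_le (Set.singleton_subset_iff.2 (mem_zpowers x)) w2
      have w4 : (⟨w, w3⟩ : C) ∈ (P : Subgroup C) :=
        ((H98.isPGroup_pCore p G).comap_subtype (K := C)).le_sylow_of_normal P w1
      exact mem_centralizer_singleton_iff.2 (congrArg Subtype.val (h4 hy _ w4))
  have h6 : centralizer (pCore p G : Set G) ≤ C :=
    centralizer_le (Set.singleton_subset_iff.2 (mem_pCore_of_class hx ⟨k, hk⟩))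
  have h7 : ¬ p ∣ Nat.card (H.map C.subtype) := by rwa [card_map_of_injective C.subtype_injective]
  have h8 : (H.map C.subtype).Normal := ⟨fun y hy g => by
    have h9 := Normal.conj_mem inferInstance _ (h5 hy) g
    refine ⟨⟨_, h6 h9⟩, mem_of_coprime_index ?_, rfl⟩
    rw [hi, orderOf_mk, ← MulAut.conj_apply, MulEquiv.orderOf_eq]
    exact (hp.coprime_iff_not_dvd.2 fun e => h7 (e.trans (orderOf_dvd_natCard _ hy))).symm.pow_right b⟩
  refine H7.hasNPC_of_normal _ h7 (IsPGroup.of_card (n := b + a) ?_)
  rw [← index_eq_card, index_map_subtype, hi, hx, pow_add]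

end Cfsg.Agent.S4127
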