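import Cfsg.Statements.S4160
import Cfsg.Agent.H4.Cover
import Cfsg.Agent.H8.AbFitting

set_option autoImplicit false
open Cfsg

namespace Cfsg.Agent.S4160

open H4

/-- Let G be a finite group and p ≠ q primes each dividing the size of some conjugacy class of G, such that no conjugacy class size is divisible by pq. Then G has a normal p-complement or a normal q-complement. -/
theorem result {G : Type*} [Group G] [Finite G] (p q : ℕ) (hp : p.Prime) (hq : q.Prime) (hpq : p ≠ q)
    (hp' : ∃ x : G, p ∣ (Subgroup.centralizer ({x} : Set G)).index) (hq' : ∃ x : G, q ∣ (Subgroup.centralizer ({x} : Set G)).index) (h : ∀ x : G, ¬ p * q ∣ (Subgroup.centralizer ({x} : Set G)).index) :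
    Cfsg.HasNormalPComplement p G ∨ Cfsg.HasNormalPComplement q G := by
  have := Fact.mk hp
  have := Fact.mk hq
  obtain ⟨P⟩ : Nonempty (Sylow p G) := inferInstance
  obtain ⟨Q⟩ : Nonempty (Sylow q G) := inferInstance
  have key : ∀ H : Subgroup G, ¬ Subgroup.normalizer (H : Set G) ≤ Subgroup.centralizer (H : Set G) →
      2 * (conjUnion (Subgroup.centralizer (H : Set G))).ncard ≤ Nat.card G := by
    intro H hH
    refine two_mul_ncard_conjUnion_le fun hle => hH (le_trans ?_ hle)
    intro g hg
    rw [Subgroup.mem_normalizer_iff]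
    intro c
    have h1 := Subgroup.mem_normalizer_iff.mp hg
    have h2 := Subgroup.mem_normalizer_iff.mp (Subgroup.inv_mem _ hg)
    constructor
    · intro hc y hy
      have h3 := hc _ ((h2 y).mp hy)
      calc y * (g * c * g⁻¹) = g * (g⁻¹ * y * g⁻¹⁻¹ * c) * g⁻¹ := by group
        _ = _ := by rw [h3]; group
    · intro hc y hy
      have h3 := hc _ ((h1 y).mp hy)
      calc y * c = g⁻¹ * (g * y * g⁻¹ * (g * c * g⁻¹)) * g := by group
        _ = _ := by rw [h3]; group
  by_contra hcon
  rw [not_or] at hcon
  have h1 := key P fun hle => hcon.1 (H8.hasNPC_of_normalizer_le_centralizer P hle)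
  have h2 := key Q fun hle => hcon.2 (H8.hasNPC_of_normalizer_le_centralizer Q hle)
  have h3 : conjUnion (Subgroup.centralizer ((P : Subgroup G) : Set G)) ∪
      conjUnion (Subgroup.centralizer ((Q : Subgroup G) : Set G)) = Set.univ := by
    refine Set.eq_univ_of_forall fun x => ?_
    by_cases hx : p ∣ ind x
    · exact Or.inr (exists_conj_mem_centralizer_sylow Q fun hx' =>
        h x (((Nat.coprime_primes hp hq).mpr hpq).mul_dvd_of_dvd_of_dvd hx hx'))
    · exact Or.inl (exists_conj_mem_centralizer_sylow P hx)
  have h4 := Set.ncard_union_add_ncard_inter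
    (conjUnion (Subgroup.centralizer ((P : Subgroup G) : Set G)))
    (conjUnion (Subgroup.centralizer ((Q : Subgroup G) : Set G)))
  rw [h3, Set.ncard_univ] at h4
  have h5 := (Set.ncard_pos (s := conjUnion (Subgroup.centralizer ((P : Subgroup G) : Set G)) ∩
      conjUnion (Subgroup.centralizer ((Q : Subgroup G) : Set G))) (Set.toFinite _)).mpr
    ⟨1, one_mem_conjUnion _, one_mem_conjUnion _⟩
  omega

end Cfsg.Agent.S4160
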