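import Cfsg.Statements.S3949
import Cfsg.Agent.Base


set_option autoImplicit false
open Cfsg

namespace Cfsg.Agent.S3949

/-- Let G be a finite group and α an automorphism of G of order 2 such that the elements g·α(g)⁻¹ generate G. Let j be a positive integer such that 2^j divides the order of no element inverted by α. Then the set of values of the j-th iterate of the map c ↦ c·α(c)⁻¹ is exactly the set of elements of odd order inverted by α. -/
theorem result {G : Type*} [Group G] [Finite G] (α : MulAut G) (hα : orderOf α = 2) (hG : Subgroup.closure (Set.range (fun c : G => c * (α c)⁻¹)) = ⊤)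
    (j : ℕ) (hj : ∀ g : G, α g = g⁻¹ → ¬ 2 ^ j ∣ orderOf g) :
    Set.range ((fun c : G => c * (α c)⁻¹)^[j]) = {g : G | Odd (orderOf g) ∧ α g = g⁻¹} := by
  have hαα : ∀ c, α (α c) = c := fun c => by
    have : α ^ 2 = 1 := hα ▸ pow_orderOf_eq_one α
    rw [← MulAut.mul_apply, ← sq, this]; rfl
  have key : ∀ (i : ℕ) (x : G), α x = x⁻¹ → (fun c : G => c * (α c)⁻¹)^[i] x = x ^ (2 ^ i) := by
    intro i
    induction i with
    | zero => intro x _; simp
    | succ i ih =>
      intro x hx
      rw [Function.iterate_succ_apply, hx, inv_inv, ih _ (by rw [map_mul, hx]; group), ← sq,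
        ← pow_mul, pow_succ']
  obtain ⟨i, rfl⟩ : ∃ i, j = i + 1 := by
    rcases j with _ | i
    · exact absurd (by simp) (hj 1 (by simp))
    · exact ⟨i, rfl⟩
  ext g
  constructor
  · rintro ⟨c, rfl⟩
    have hx : α (c * (α c)⁻¹) = (c * (α c)⁻¹)⁻¹ := by simp [hαα]
    rw [Function.iterate_succ_apply, key i _ hx]
    refine ⟨?_, by rw [map_pow, hx, inv_pow]⟩
    have h1 := hj _ hx
    rw [orderOf_pow, ← Nat.not_even_iff_odd, even_iff_two_dvd]
    intro h2
    apply h1
    set n := orderOf (c * (α c)⁻¹)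
    obtain ⟨m, hm, e⟩ := (Nat.dvd_prime_pow Nat.prime_two).1 (Nat.gcd_dvd_right n (2 ^ i))
    have h3 : 2 ^ (m + 1) ∣ n := by
      rw [pow_succ, ← e]
      exact Nat.mul_dvd_of_dvd_div (Nat.gcd_dvd_left _ _) h2
    rcases hm.eq_or_lt with rfl | hm
    · exact h3
    · exfalso
      have h4 : 2 ^ (m + 1) ∣ 2 ^ m := e ▸ Nat.dvd_gcd h3 (pow_dvd_pow 2 hm)
      have := (Nat.pow_dvd_pow_iff_le_right (by norm_num : 1 < 2)).1 h4
      omega
  · rintro ⟨h1, h2⟩
    have hc : (2 ^ (i + 1)).Coprime (orderOf g) :=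
      Nat.Coprime.pow_left _ ((Nat.coprime_two_left).2 h1)
    obtain ⟨m, hm⟩ := exists_pow_eq_self_of_coprime hc
    refine ⟨g ^ m, ?_⟩
    rw [key _ _ (by rw [map_pow, h2, inv_pow]), ← pow_mul, mul_comm, pow_mul, hm]

end Cfsg.Agent.S3949
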