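import Cfsg.Statements.S4469
import Cfsg.Agent.H28.Blichfeldt
import Cfsg.Agent.H28.JordanCore
import Cfsg.Agent.H32.RelM

set_option autoImplicit false
open Cfsg

namespace Cfsg.Agent.S4469
open _root_.H28

theorem aux_nil {P : Type*} [Group P] [Finite P] [Group.IsNilpotent P] {χ : P → ℂ}
    (hχ : IsCharacter P χ) : ∃ B : Subgroup P, B.Normal ∧ B.index ∣ (charDegree χ).factorial ∧
      ⁅B, B⁆ ≤ charKer χ := by
  have := Fintype.ofFinite P
  refine hχ.induction (P := fun χ => ∃ B : Subgroup P, B.Normal ∧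
    B.index ∣ (charDegree χ).factorial ∧ ⁅B, B⁆ ≤ charKer χ)
    ⟨⊤, inferInstance, by simp, fun _ _ _ => rfl⟩ ?_
  rintro φ θ hφ hθ ⟨B, hB, h1, h2⟩
  obtain ⟨H, lam, rfl⟩ := H32.exists_monomial_of_isNilpotent hφ
  have h3 : H.normalCore.index ∣ H.index.factorial := by
    rw [Subgroup.normalCore_eq_ker, Subgroup.index_ker, Subgroup.index_eq_card, ← Nat.card_perm]
    exact Subgroup.card_subgroup_dvd_card _
  refine ⟨H.normalCore ⊓ B, inferInstance, ?_, ?_⟩
  · rw [hφ.isCharacter.charDegree_add hθ, (isCharacter_of_hom lam).charDegree_indFun,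
      charDegree_hom, mul_one, ← Subgroup.relIndex_mul_index inf_le_right,
      Subgroup.inf_relIndex_right]
    exact (Nat.mul_dvd_mul ((Subgroup.relIndex_dvd_index_of_normal _ _).trans h3) h1).trans
      (Nat.factorial_mul_factorial_dvd_factorial_add _ _)
  · rw [hφ.isCharacter.charKer_add hθ]
    refine le_inf ((Subgroup.commutator_mono inf_le_left inf_le_left).trans ?_)
      ((Subgroup.commutator_mono inf_le_right inf_le_right).trans h2)
    have h4 : ⁅H.normalCore, H.normalCore⁆ ≤ lam.ker.map H.subtype :=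
      Subgroup.commutator_le.2 fun a ha b hb =>
        ⟨(⟨a, H.normalCore_le ha⟩ : H) * ⟨b, H.normalCore_le hb⟩ * (⟨a, H.normalCore_le ha⟩ : H)⁻¹ *
          (⟨b, H.normalCore_le hb⟩ : H)⁻¹, by
          simp only [SetLike.mem_coe, MonoidHom.mem_ker, map_mul, map_inv,
            mul_inv_cancel_comm, mul_inv_cancel], rfl⟩
    refine H32.le_charKer_indFun (isCharacter_of_hom lam)
      (h4.trans (Subgroup.map_subtype_le _)) fun m => ?_
    obtain ⟨y, hy, e⟩ := h4 m.2
    rw [show (⟨m, _⟩ : H) = y from Subtype.ext e.symm, (show lam y = 1 from hy), map_one]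

/-- The classical bound for finite linear groups, in explicit form. Let the finite group G have a faithful character of degree n. Then G has an abelian normal subgroup whose index is at most n! · 12^(n·(π(n+1)+1)), π(k) denoting the number of primes not exceeding k. -/
theorem result {G : Type*} [Group G] [Finite G] (χ : G → ℂ) (hχ : Cfsg.IsCharacter G χ) (hfaith : ∀ g : G, χ g = χ 1 → g = 1) (n : ℕ) (hn : Cfsg.charDegree χ = n) : ∃ A : Subgroup G, A.Normal ∧ (∀ x ∈ A, ∀ y ∈ A, x * y = y * x) ∧ A.index ≤ Nat.factorial n * 12 ^ (n * (Nat.primeCounting (n + 1) + 1)) := by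
  classical
  have hk := charKer_eq_bot_of_forall hfaith
  obtain ⟨A, hA, hAc, hAi⟩ := exists_abelian_normal_relIndex_le hχ hk
  obtain ⟨H, h1, h2⟩ := exists_hall_large_primes n hχ hk hn.le
  rw [hn] at hAi
  refine ⟨A, hA, hAc, ?_⟩
  have hloc : ∀ p : ℕ, p.Prime → p ^ A.index.factorization p ≤
      12 ^ n * p ^ n.factorial.factorization p := by
    intro p hp
    have := Fact.mk hp
    obtain ⟨P⟩ : Nonempty (Sylow p G) := inferInstance
    have := P.isPGroup'.isNilpotent
    obtain ⟨B, -, hB1, hB2⟩ := aux_nil (hχ.restrict P)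
    rw [charDegree_restrict, hn] at hB1
    rw [hχ.charKer_restrict, hk, Subgroup.bot_subgroupOf, le_bot_iff,
      Subgroup.commutator_eq_bot_iff_le_centralizer] at hB2
    have h3 := hAi (B.map (P : Subgroup G).subtype) (by
      rintro _ ⟨x, hx, rfl⟩ _ ⟨y, hy, rfl⟩
      exact congrArg Subtype.val (hB2 hy x hx))
    obtain ⟨k, hk⟩ := P.isPGroup'.index B
    have h4 : B.index ≤ p ^ n.factorial.factorization p := by
      rw [hk] at hB1 ⊢
      exact Nat.pow_le_pow_right hp.pos
        ((hp.pow_dvd_iff_le_factorization n.factorial_ne_zero).1 hB1)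
    have h5 : p ^ A.index.factorization p ∣ A.relIndex P := by
      rw [← Subgroup.relIndex_sup_right]
      refine (((Nat.Prime.coprime_iff_not_dvd hp).2 fun h => P.not_dvd_index
        (h.trans (Subgroup.index_dvd_of_le (le_sup_left (b := A))))).pow_left
          _).dvd_of_dvd_mul_right ?_
      rw [Subgroup.relIndex_mul_index le_sup_right]
      exact Nat.ordProj_dvd _ _
    have h6 : (B.map (P : Subgroup G).subtype).relIndex P = B.index := by
      rw [Subgroup.relIndex, Subgroup.subgroupOf, Subgroup.comap_map_eq_self_of_injective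
        (Subgroup.subtype_injective _)]
    have h7 := Subgroup.relIndex_mul_relIndex (A ⊓ B.map (P : Subgroup G).subtype) _ _
      inf_le_right (Subgroup.map_subtype_le B)
    rw [Subgroup.inf_relIndex_right, h6] at h7
    calc _ ≤ A.relIndex P := Nat.le_of_dvd (Nat.pos_of_ne_zero Subgroup.index_ne_zero_of_finite) h5
      _ ≤ (A ⊓ B.map (P : Subgroup G).subtype).relIndex P :=
        Subgroup.relIndex_le_of_le_left inf_le_left Subgroup.index_ne_zero_of_finite
      _ ≤ _ := h7 ▸ Nat.mul_le_mul h3 h4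
  have h3 := hAi H (hχ.comm_of_lt hk H fun p hp hd => by have := h1 p hp hd; omega)
  have h0 : (H ⊔ A).index ≠ 0 := Subgroup.index_ne_zero_of_finite
  have h4 : (H ⊔ A).index ≤ ∏ p ∈ (n + 2).primesBelow, (12 ^ n * p ^ n.factorial.factorization p) := by
    rw [← Nat.prod_factorization_pow_eq_self h0, Finsupp.prod]
    refine (Finset.prod_le_prod' fun p hp => ?_).trans (Finset.prod_le_prod_of_subset_of_one_le'
      (s := (H ⊔ A).index.factorization.support) (fun p hp => ?_) fun p hp _ => ?_)
    · have hp' := Nat.prime_of_mem_primeFactors hp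
      exact (Nat.pow_le_pow_right hp'.pos ((Nat.factorization_le_iff_dvd h0
        Subgroup.index_ne_zero_of_finite).2 (Subgroup.index_dvd_of_le le_sup_right) p)).trans
        (hloc p hp')
    · have hp' := Nat.prime_of_mem_primeFactors hp
      have := h2 p hp' ((Nat.dvd_of_mem_primeFactors hp).trans (Subgroup.index_dvd_of_le le_sup_left))
      exact Nat.mem_primesBelow.2 ⟨by omega, hp'⟩
    · exact Nat.one_le_iff_ne_zero.2 (mul_ne_zero (by positivity)
        (pow_ne_zero _ (Nat.prime_of_mem_primesBelow hp).ne_zero))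
  have h5 : ∏ p ∈ (n + 2).primesBelow, p ^ n.factorial.factorization p ≤ n.factorial :=
    Nat.le_of_dvd n.factorial_pos (Finset.prod_dvd_of_isRelPrime
      (fun p hp q hq hne => Nat.coprime_iff_isRelPrime.1 (((Nat.coprime_primes
        (Nat.prime_of_mem_primesBelow hp) (Nat.prime_of_mem_primesBelow hq)).2 hne).pow _ _))
      fun p _ => Nat.ordProj_dvd _ _)
  rw [Finset.prod_mul_distrib, Finset.prod_const, Nat.primesBelow_card_eq_primeCounting'] at h4
  rw [← Subgroup.relIndex_mul_index (le_sup_right : A ≤ H ⊔ A), Subgroup.relIndex_sup_right]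
  calc _ ≤ 12 ^ n * ((12 ^ n) ^ (n + 2).primeCounting' * n.factorial) :=
        Nat.mul_le_mul h3 (h4.trans (Nat.mul_le_mul_left _ h5))
    _ = _ := by rw [Nat.primeCounting]; ring

end Cfsg.Agent.S4469
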