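import Cfsg.Statements.S2385
import Cfsg.Agent.H53.PrimeOrd

set_option autoImplicit false
open Cfsg

namespace Cfsg.Agent.S2385

open Polynomial in
theorem card_palin {F : Type*} [Field F] [Finite F] (n : ℕ) :
    Nat.card {P : F[X] // P.Monic ∧ P.natDegree = 2 * n ∧ P.coeff 0 = 1 ∧
      H53.pstar (RingHom.id F) P = P} = Nat.card F ^ n := by
  rw [← Nat.card_fin n, ← Nat.card_fun, Nat.card_fin]
  have key : ∀ P : F[X], P.natDegree = 2 * n → P.coeff 0 = 1 →
      (H53.pstar (RingHom.id F) P = P ↔ ∀ i ≤ 2 * n, P.coeff i = P.coeff (2 * n - i)) := by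
    intro P h2 h3
    have h0 : P.coeff 0 ≠ 0 := h3 ▸ one_ne_zero
    refine ⟨fun h i hi => ?_, fun h => Polynomial.ext fun i => ?_⟩
    · conv_lhs => rw [← h, H53.coeff_pstar h0 (h2 ▸ hi), h3, h2]
      simp
    · rcases le_or_gt i (2 * n) with hi | hi
      · rw [H53.coeff_pstar h0 (h2 ▸ hi), h3, h2, h i hi]; simp
      · rw [coeff_eq_zero_of_natDegree_lt (by rwa [H53.natDegree_pstar, h2]),
          coeff_eq_zero_of_natDegree_lt (by rwa [h2])]
  refine Nat.card_congr (Equiv.ofBijective (fun P (i : Fin n) => P.1.coeff (i + 1)) ⟨?_, ?_⟩)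
  · rintro ⟨P, h1, h2, h3, h4⟩ ⟨Q, h9, h6, h7, h8⟩ hh
    have h5 : ∀ i ≤ n, P.coeff i = Q.coeff i := fun i hi => by
      rcases i with _ | i
      · exact h3.trans h7.symm
      · exact congrFun hh ⟨i, by omega⟩
    refine Subtype.ext (Polynomial.ext fun i => ?_)
    change P.coeff i = Q.coeff i
    rcases le_or_gt i n with hi | hi
    · exact h5 i hi
    rcases le_or_gt i (2 * n) with hi' | hi'
    · rw [(key P h2 h3).1 h4 i hi', (key Q h6 h7).1 h8 i hi', h5 _ (by omega)]
    · rw [coeff_eq_zero_of_natDegree_lt (by omega), coeff_eq_zero_of_natDegree_lt (by omega)]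
  · intro a
    let b : ℕ → F := fun j => if h : 0 < j ∧ j ≤ n then a ⟨j - 1, by omega⟩ else 1
    let P : F[X] := ∑ j ∈ Finset.range (2 * n + 1), monomial j (b (min j (2 * n - j)))
    have h1 : ∀ i ≤ 2 * n, P.coeff i = b (min i (2 * n - i)) := fun i hi => by
      simp only [P, finsetSum_coeff, coeff_monomial]
      rw [Finset.sum_ite_eq', if_pos (Finset.mem_range.2 (by omega))]
    have h2 : P.natDegree ≤ 2 * n := natDegree_le_iff_coeff_eq_zero.2 fun i hi => by
      simp only [P, finsetSum_coeff, coeff_monomial]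
      rw [Finset.sum_ite_eq', if_neg (fun h => by have := Finset.mem_range.1 h; omega)]
    have h3 : P.coeff (2 * n) = 1 := by rw [h1 _ le_rfl]; simp [b]
    have h4 : P.coeff 0 = 1 := by rw [h1 _ (Nat.zero_le _)]; simp [b]
    have h6 : P.natDegree = 2 * n := natDegree_eq_of_le_of_coeff_ne_zero h2 (h3 ▸ one_ne_zero)
    refine ⟨⟨P, monic_of_natDegree_le_of_coeff_eq_one _ h2 h3, h6, h4, (key P h6 h4).2 fun i hi => ?_⟩,
      funext fun i => ?_⟩
    · rw [h1 i hi, h1 _ (Nat.sub_le _ _), show 2 * n - (2 * n - i) = i by omega, min_comm]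
    · have := i.2
      change P.coeff (i + 1) = a i
      rw [h1 _ (by omega), min_eq_left (by omega)]
      simp only [b]
      rw [dif_pos ⟨by omega, by omega⟩]
      rfl

open Polynomial in
theorem coeff_zero_of_rigid {F : Type*} [Field F] {T : F[X]} (h0 : T.coeff 0 ≠ 0)
    (hs : H53.pstar (RingHom.id F) T = T) (h1 : T.eval 1 ≠ 0) : T.coeff 0 = 1 := by
  have := H53.aeval_pstar (σ := RingHom.id F) (f := (1 : F)) (g := 1) (one_mul 1) h0
  rw [hs] at this
  simp only [coe_aeval_eq_eval, RingHom.id_apply, one_pow, Polynomial.map_id, one_mul,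
    smul_eq_mul] at this
  field_simp at this
  exact this

open Polynomial Classical in
theorem even_count {F : Type*} [Field F] {s : Multiset F[X]} (hP : ∀ P ∈ s, P.Monic ∧ Irreducible P)
    (h0 : s.prod.coeff 0 = 1) (hs : s.map (H53.pstar (RingHom.id F)) = s)
    (hd : Even (s.map natDegree).sum) {c : F} (hc : c * c = 1) : Even (s.count (X - C c)) := by
  set t := s.filter fun P => P ≠ X - 1 ∧ P ≠ X + 1 with ht
  have hts : ∀ P ∈ t, P ∈ s ∧ P ≠ X - 1 ∧ P ≠ X + 1 := fun P h => Multiset.mem_filter.1 h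
  have hs0 : ∀ P ∈ s, P.coeff 0 ≠ 0 := fun P h h1 => by
    obtain ⟨u, rfl⟩ := Multiset.exists_cons_of_mem h
    simp [h1] at h0
  have hinv : ∀ P ∈ s, ∀ Q : F[X], Q.Monic → H53.pstar (RingHom.id F) Q = Q →
      (H53.pstar (RingHom.id F) P = Q ↔ P = Q) := fun P h Q hQ h1 => by
    rw [H53.pstar_eq_iff (fun _ => rfl) (hP P h).1 hQ, h1, eq_comm]
  have ht1 : t.map (H53.pstar (RingHom.id F)) = t := by
    conv_rhs => rw [ht, ← hs, Multiset.filter_map]
    refine congrArg _ (Multiset.filter_congr fun P h => ?_)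
    simp only [Function.comp, Ne, hinv P h _ H53.monic_X_sub_one H53.pstar_X_sub_one,
      hinv P h _ (by simpa using monic_X_add_C (1 : F)) H53.pstar_X_add_one]
  have hr : ∀ P ∈ t, IsCoprime P (X ^ 2 - 1) := fun P h =>
    H53.isCoprime_X_sq_sub_one (hP P (hts P h).1).1 (hP P (hts P h).1).2 (hts P h).2.1 (hts P h).2.2
  have ht2 := H53.even_sum_natDegree_of_rigid
    (fun P h => H53.isPP_of_irreducible (hP P (hts P h).1).1 (hP P (hts P h).1).2)
    (fun P h => hs0 P (hts P h).1) ht1 hr
  have hX1 : (X + 1 : F[X]).natDegree = 1 := by simpa using natDegree_X_add_C (1 : F)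
  by_cases h2 : (X + 1 : F[X]) = X - 1
  · have h3 : c = 1 := by
      have h4 := congrArg (coeff · 0) h2
      simp only [coeff_add, coeff_X_zero, coeff_one_zero, zero_add, coeff_sub, zero_sub] at h4
      rcases mul_self_eq_one_iff.1 hc with h | h
      · exact h
      · rw [h, ← h4]
    have h4 : s = t + Multiset.replicate (s.count (X - 1)) (X - 1) := by
      ext P
      rw [Multiset.count_add, ht, Multiset.count_filter, Multiset.count_replicate, h2]
      by_cases h : P = X - 1
      · simp [h]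
      · simp [h, Ne.symm h]
    rw [h4, H53.sum_natDegree_add_replicate] at hd
    rw [h3, map_one]
    exact (Nat.even_add.1 hd).1 ht2
  · have h4 : s = t + Multiset.replicate (s.count (X - 1)) (X - 1) +
        Multiset.replicate (s.count (X + 1)) (X + 1) := by
      ext P
      rw [Multiset.count_add, Multiset.count_add, ht, Multiset.count_filter,
        Multiset.count_replicate, Multiset.count_replicate]
      by_cases h : P = X - 1
      · simp [h, h2]
      by_cases h' : P = X + 1
      · simp [h', h2, Ne.symm h2]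
      · simp [h, h', Ne.symm h, Ne.symm h']
    have h5 : t.prod.coeff 0 = 1 := by
      refine coeff_zero_of_rigid (fun h => ?_) (by rw [H53.pstar_multiset_prod, ht1]) fun h => ?_
      · rw [h4] at h0; simp [h] at h0
      · rw [eval_multiset_prod, Multiset.prod_eq_zero_iff, Multiset.mem_map] at h
        obtain ⟨P, h6, h7⟩ := h
        obtain ⟨a, b, h8⟩ := hr P h6
        simpa [h7] using congrArg (eval 1) h8
    have h6 : Even (s.count (X - 1)) := by
      rw [h4] at h0
      rw [Multiset.prod_add, Multiset.prod_add, mul_coeff_zero, mul_coeff_zero, h5] at h0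
      simp only [Multiset.prod_replicate, coeff_zero_eq_eval_zero, eval_pow, eval_sub, eval_add,
        eval_X, eval_one, zero_sub, zero_add, one_pow, mul_one, one_mul] at h0
      refine (neg_one_pow_eq_one_iff_even fun h => h2 ?_).1 h0
      rw [sub_eq_add_neg, ← C_1, ← C_neg, h]
    rcases mul_self_eq_one_iff.1 hc with h | h
    · rwa [h, map_one]
    · rw [h4, Multiset.map_add, Multiset.sum_add, H53.sum_natDegree_add_replicate,
        Multiset.map_replicate, Multiset.sum_replicate, hX1, smul_eq_mul, mul_one] at hd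
      rw [h, map_neg, map_one, sub_neg_eq_add]
      exact (Nat.even_add.1 hd).1 (ht2.add h6)

/-- In the symplectic group `Sp_{2n}(q)`, `q` a power of the prime `p`, the number of conjugacy classes of elements of order prime to `p` is `q^n`. -/
theorem result {F : Type*} [Field F] [Fintype F] {q : ℕ} (hq : Fintype.card F = q) (p : ℕ) [Fact p.Prime] [CharP F p] (n : ℕ) :
    Nat.card {c : ConjClasses ↥(Matrix.symplecticGroup (Fin n) F) //
      ∃ g : ↥(Matrix.symplecticGroup (Fin n) F), ConjClasses.mk g = c ∧ (orderOf g).Coprime p} = q ^ n := by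
  classical
  rw [H53.card_conjClasses_eq_of_invariant
    (fun g : Matrix.symplecticGroup (Fin n) F => (orderOf g).Coprime p)
    (fun g => (g : Matrix (Fin n ⊕ Fin n) (Fin n ⊕ Fin n) F).charpoly) (fun g h hg hh => by
      have h1 := (H53.coprime_orderOf_sp_iff p g).1 hg
      have h2 := (H53.coprime_orderOf_sp_iff p h).1 hh
      rw [h1.isConj_sp_iff, h1.isConj_iff h2]), ← hq, ← Nat.card_eq_fintype_card,
    ← card_palin]
  have hc : Fintype.card (Fin n ⊕ Fin n) = 2 * n := by simp [two_mul]
  refine Nat.card_congr (Equiv.subtypeEquivRight fun P => ⟨?_, ?_⟩)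
  · rintro ⟨g, -, rfl⟩
    refine ⟨Matrix.charpoly_monic _, by simp [two_mul], ?_, ?_⟩
    · have := SymplecticGroup.det_eq_one g.2
      rw [Matrix.det_eq_sign_charpoly_coeff, hc] at this
      simpa using this
    · rw [H53.charpoly_eq_prod_med, H53.pstar_multiset_prod, H53.map_pstar_med_sp]
  · rintro ⟨h1, h2, h3, h4⟩
    obtain ⟨s, hs, rfl⟩ := H53.exists_multiset_prod_eq h1
    have h5 : s.map (H53.pstar (RingHom.id F)) = s := H53.multiset_eq_of_prod_eq (by
        intro P hP
        obtain ⟨Q, hQ, rfl⟩ := Multiset.mem_map.1 hP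
        exact ⟨H53.monic_pstar (hs Q hQ).2.ne_zero,
          H53.irreducible_pstar (fun _ => rfl) (hs Q hQ).1 (hs Q hQ).2⟩) hs
        (by rw [← H53.pstar_multiset_prod, h4])
    have h6 : (s.map Polynomial.natDegree).sum = 2 * n := by
      rw [← h2, Polynomial.natDegree_multiset_prod_of_monic _ fun P hP => (hs P hP).1]
    obtain ⟨g, hg⟩ := H53.exists_sp_med_eq (l := Fin n) (s := s) (H53.real_alt_iff.2
      ⟨fun P hP => H53.isPP_of_irreducible (hs P hP).1 (hs P hP).2, fun P h h7 => by
        obtain ⟨u, rfl⟩ := Multiset.exists_cons_of_mem h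
        simp [h7] at h3, h5, fun c hc k hk => by
        rcases eq_or_ne k 1 with rfl | hk1
        · rw [pow_one]; convert even_count hs h3 h5 ⟨n, by omega⟩ hc
        · rw [Multiset.count_eq_zero.2 fun h => not_irreducible_pow hk1 (hs _ h).2]
          exact Even.zero⟩) (by simpa using h6)
    exact ⟨g, (H53.coprime_orderOf_sp_iff p g).2 fun P hP => (hs P (hg ▸ hP)).2,
      by rw [H53.charpoly_eq_prod_med, hg]⟩

end Cfsg.Agent.S2385
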