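import Cfsg.Statements.S2697
import Cfsg.Agent.Base
import Cfsg.Agent.H57.PslTwist2

set_option autoImplicit false
open Cfsg

namespace Cfsg.Agent.S2697

/-- Let T = PSL_n(F) be simple over a finite field (n ≥ 2; |F| ≥ 4 when n = 2) and let x be a field automorphism or a graph-field automorphism of T of prime order r. Then an element y of the coset Inndiag(T)·x (that is, y = δ x with δ in the inner-diagonal group, the image of PGL_n(F)) has order r if and only if y is conjugate to x by an element of Inndiag(T). -/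
theorem result {F : Type*} [Field F] [Fintype F] {p f : ℕ} [Fact p.Prime] (hF : Fintype.card F = p ^ f) (hf : 1 ≤ f) {n : ℕ} (hn : 2 ≤ n) (hs : n = 2 → 4 ≤ Fintype.card F) (x δ : MulAut (Matrix.ProjectiveSpecialLinearGroup (Fin n) F)) (hx : Cfsg.IsFieldAutClassPSL x ∨ Cfsg.IsGraphFieldAutClassPSL x) {r : ℕ} (hr : r.Prime) (hxr : orderOf x = r) (hδ : δ ∈ Cfsg.inndiagPSL n F) :
    orderOf (δ * x) = r ↔ Cfsg.IsConjUnder (Cfsg.inndiagPSL n F) x (δ * x) := by
  refine ⟨fun hord => ?_, fun h => by rw [H57.isConjUnder_orderOf h, hxr]⟩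
  rw [H57.inndiagPSL_eq_range] at hδ ⊢
  have hN := H57.inndiag_normal (F := F) (n := n)
  have e : ∀ α : MulAut (Matrix.ProjectiveSpecialLinearGroup (Fin n) F),
      α * (δ * x) * α⁻¹ = α * δ * α⁻¹ * (α * x * α⁻¹) := fun α => by group
  have e2 : ∀ α : MulAut (Matrix.ProjectiveSpecialLinearGroup (Fin n) F),
      (α * δ * α⁻¹ * (α * x * α⁻¹)) ^ r = 1 := fun α => by
    rw [← e, ← hord, ← H57.orderOf_conj_mul α, pow_orderOf_eq_one]
  rcases hx with hx | hx
  · obtain ⟨α, σ, -, hσ, hx⟩ := H57.exists_of_isFieldAutClassPSL hn hx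
    obtain ⟨g, hg⟩ := hN.conj_mem δ hδ α
    have := e2 α
    rw [← H57.isConjUnder_conj_iff hN α, e, ← hg, hx]
    rw [← hg, hx] at this
    exact H57.isConjUnder_pslField σ (hσ.trans hxr) g this
  · obtain ⟨rfl, α, σ, hσ, hσ2, hx⟩ := H57.exists_of_isGraphFieldAutClassPSL hx hr hxr
    obtain ⟨g, hg⟩ := hN.conj_mem δ hδ α
    have := e2 α
    rw [← H57.isConjUnder_conj_iff hN α, e, ← hg, hx]
    rw [← hg, hx] at this
    exact H57.isConjUnder_fieldGraph σ hσ hσ2 g this

end Cfsg.Agent.S2697
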