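import Cfsg.Statements.S2705
import Cfsg.Agent.Base
import Cfsg.Agent.H59.Twist

set_option autoImplicit false
open Cfsg

namespace Cfsg.Agent.S2705

/-- Let T = PSU_n(q) be simple (n ≥ 3, (n, q) ≠ (3, 2), q = p^f), realised over the field F with q² elements, G = Inndiag(T) the image of PGU_n(q) in Aut(T), and x a field automorphism of T (conjugate to a standard field automorphism of odd order) of odd prime order r. Then r divides f; C_G(x) is isomorphic to PGU_n(q₀) with q₀ = p^(f/r), realised over a field F₀ with q₀² elements; and the G-class of x is the union of exactly gcd(n, (q + 1)/(q₀ + 1)) T-classes. -/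
theorem result {F : Type*} [Field F] [Fintype F] {p f q : ℕ} [Fact p.Prime] (hq : q = p ^ f) (hf : 1 ≤ f) (hF : Fintype.card F = q ^ 2) {n : ℕ} (hn : 3 ≤ n) (hs : ¬ (n = 3 ∧ q = 2)) (x : MulAut (Cfsg.PSU n F q)) (hx : Cfsg.IsFieldAutClassPSU x) {r : ℕ} (hr : r.Prime) (hro : Odd r) (hxr : orderOf x = r) (F₀ : Type*) [Field F₀] [Fintype F₀] (hF₀ : Fintype.card F₀ = p ^ (2 * (f / r))) :
    r ∣ f ∧ Nonempty (↥(Cfsg.inndiagPSU n F q ⊓ Subgroup.centralizer {x}) ≃* Cfsg.PGU n F₀ (p ^ (f / r))) ∧ Cfsg.splitClassCount (Cfsg.inndiagPSU n F q) (Cfsg.Inn (Cfsg.PSU n F q)) x = Nat.gcd n ((q + 1) / (p ^ (f / r) + 1)) := by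
  have hN := H59.inndiag_normal hF hn hs
  obtain ⟨α, τ, -, hodd, hτ, hx⟩ := H59.exists_of_isFieldAutClassPSU hF hn hx
  obtain ⟨q₀, h1, h2⟩ := H59.exists_fixedSub_card hF τ hodd
  rw [hτ, hxr] at h1
  have hp : p.Prime := Fact.out
  obtain ⟨k, -, hk⟩ := (Nat.dvd_prime_pow hp).1
    (show q₀ ∣ p ^ f from hq ▸ h1 ▸ dvd_pow_self _ hr.ne_zero)
  have hfk : f = k * r := Nat.pow_right_injective hp.two_le (by
    change p ^ f = p ^ (k * r)
    rw [← hq, h1, hk, pow_mul])
  have hk' : f / r = k := by rw [hfk, Nat.mul_div_cancel _ hr.pos]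
  rw [hk', ← hk]
  obtain ⟨φ, D⟩ := H59.exists_subData (F₀ := F₀) hF (q₀ := q₀)
    (by rw [hF₀, hk', hk, ← pow_mul, mul_comm]) τ hro h1 h2
  have hC := D.comap_centralizer (n := n) (by omega)
  refine ⟨Dvd.intro_left _ hfk.symm, ⟨?_⟩, ?_⟩
  · rw [H59.inndiagPSU_eq_range]
    refine (H57.infCentralizerConj hN α x).trans ?_
    rw [hx]
    exact H57.infCentralizerEquiv' _ _ _ _ hC (D.scalars_eq_comap (by omega))
  · rw [← H57.splitClassCount_conj (by rw [H59.inndiagPSU_eq_range]; exact hN) (Cfsg.innNormal _) α,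
      hx, H59.splitClassCount_psu hF (by omega) _ _ hC, D.index_map_guDet (by omega)]

end Cfsg.Agent.S2705
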