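import Cfsg.Statements.S2711
import Cfsg.Agent.Base
import Cfsg.Agent.H59.Twist

set_option autoImplicit false
open Cfsg

namespace Cfsg.Agent.S2711

/-- Let T = PSU_n(q) be simple (n ≥ 3, (n,q) ≠ (3,2)), realised over the field F with q² elements, and let x be a field automorphism of T (conjugate to a standard field automorphism of odd order) of prime order r. Then an element y of the coset Inndiag(T)·x (y = δ x with δ in the image of PGU_n(q)) has order r if and only if y is conjugate to x by an element of Inndiag(T). (T has no graph-field automorphisms.) -/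
theorem result {F : Type*} [Field F] [Fintype F] {p f q : ℕ} [Fact p.Prime] (hq : q = p ^ f) (hf : 1 ≤ f) (hF : Fintype.card F = q ^ 2) {n : ℕ} (hn : 3 ≤ n) (hs : ¬ (n = 3 ∧ q = 2)) (x δ : MulAut (Cfsg.PSU n F q)) (hx : Cfsg.IsFieldAutClassPSU x) {r : ℕ} (hr : r.Prime) (hxr : orderOf x = r) (hδ : δ ∈ Cfsg.inndiagPSU n F q) :
    orderOf (δ * x) = r ↔ Cfsg.IsConjUnder (Cfsg.inndiagPSU n F q) x (δ * x) := by
  refine ⟨fun hord => ?_, fun h => by rw [H57.isConjUnder_orderOf h, hxr]⟩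
  rw [H59.inndiagPSU_eq_range] at hδ ⊢
  have hN := H59.inndiag_normal hF hn hs
  obtain ⟨α, τ, -, hodd, hτ, hx⟩ := H59.exists_of_isFieldAutClassPSU hF hn hx
  have e : α * (δ * x) * α⁻¹ = α * δ * α⁻¹ * (α * x * α⁻¹) := by group
  have e2 : (α * δ * α⁻¹ * (α * x * α⁻¹)) ^ r = 1 := by
    rw [← e, ← hord, ← H57.orderOf_conj_mul α, pow_orderOf_eq_one]
  obtain ⟨g, hg⟩ := hN.conj_mem δ hδ α
  rw [← H57.isConjUnder_conj_iff hN α, e, ← hg, hx]
  rw [← hg, hx] at e2
  obtain ⟨q₀, h1, h2⟩ := H59.exists_fixedSub_card hF τ hodd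
  have := Fintype.ofFinite (H57.fixedSub τ)
  obtain ⟨φ, D⟩ := H59.exists_subData (F₀ := H57.fixedSub τ) hF
    (by rw [← h2, Nat.card_eq_fintype_card]) τ hodd h1 h2
  exact D.isConjUnder (by omega) (hτ.trans hxr) g e2

end Cfsg.Agent.S2711
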