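import Cfsg.Statements.S0927
import Cfsg.Agent.H37.Sec
import Cfsg.Agent.H36.DefectCard

set_option autoImplicit false
open Cfsg

namespace Cfsg.Agent.S0927

open H28 H35 H37 H36

/-- Let B be a block of the finite group G relative to a maximal ideal M of the algebraic integers containing p, let y represent a defect class of B and let P be a Sylow p-subgroup of the centralizer of y. (a) If x ∈ P and χ ∈ B has height zero, then χ (x * y) is not in the local ideal at M. (b) If x lies in the centre of P, then for every χ ∈ B the central character of χ at x * y is not in the local ideal at M. -/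
theorem result {G : Type*} [Group G] [Finite G] (p : ℕ) [Fact p.Prime] (M : Ideal Cfsg.AlgInt) (hM : Cfsg.IsPModular p M) (B : Set (Cfsg.IrrCharacter G)) (hB : Cfsg.IsPBlock M B) (y : G) (hy : Cfsg.IsDefectClass M B y) (P : Sylow p (Subgroup.centralizer ({y} : Set G))) (x : Subgroup.centralizer ({y} : Set G)) (hx : x ∈ (P : Subgroup (Subgroup.centralizer ({y} : Set G)))) : (∀ χ ∈ B, Cfsg.blockHeight p B (χ : G → ℂ) = 0 → ¬ Cfsg.MemLocalIdeal M ((χ : G → ℂ) ((x : G) * y))) ∧ ((∀ w ∈ (P : Subgroup (Subgroup.centralizer ({y} : Set G))), x * w = w * x) → ∀ χ ∈ B, ¬ Cfsg.MemLocalIdeal M (Cfsg.centralChar (χ : G → ℂ) ((x : G) * y))) := by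
  have := hM.2.1
  have hp := hM.1
  have hd := cdef_eq_of_isDefectClass hM hB hy
  have hreg := not_dvd_orderOf_of_isDefectClass hM hB hy
  have hxo : ∃ k, orderOf (x : G) = p ^ k := by
    obtain ⟨k, hk⟩ := IsPGroup.iff_orderOf.1 P.isPGroup' ⟨x, hx⟩
    exact ⟨k, by rw [← hk, ← Subgroup.orderOf_coe, ← Subgroup.orderOf_coe]⟩
  have hxy : (x : G) * y = y * x := Subgroup.mem_centralizer_singleton_iff.1 x.2
  have hunit : ∀ χ ∈ B, blockHeight p B (χ : G → ℂ) = 0 → ∀ g, cdef p g = blockDefect p B →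
      (MemLocalIdeal M (centralChar (χ : G → ℂ) g) ↔ MemLocalIdeal M ((χ : G → ℂ) g)) := by
    intro χ hχ h0 g hg
    have h1 := factorization_add_blockDefect hχ h0
    have h2 := index_factorization_add_cdef p g
    have hi : (Subgroup.centralizer ({g} : Set G)).index ≠ 0 := Subgroup.index_ne_zero_of_finite
    have h3 := (natCast_div_natCast_mem_S_iff hM hi (deg_ne_zero χ)).2 (by omega)
    have h4 := (P_natCast_div_natCast_iff hM hi (deg_ne_zero χ)).not.2 (by omega)
    rw [centralChar_eq_div_mul]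
    exact ⟨fun h => (P_or_of_mul h3 (char_mem_S χ.2.isCharacter g) h).resolve_left h4,
      P_mul_left h3⟩
  have ha : ∀ χ ∈ B, blockHeight p B (χ : G → ℂ) = 0 →
      ¬ MemLocalIdeal M ((χ : G → ℂ) ((x : G) * y)) := fun χ hχ h0 => by
    rw [P_congr_iff (char_congr_of_isPPart hM χ.2.isCharacter hxo hxy), ← hunit χ hχ h0 y hd]
    exact hy.2.2 χ hχ
  refine ⟨ha, fun hc χ hχ => ?_⟩
  obtain ⟨χ₀, hχ₀, h0⟩ := H37.exists_height_zero p (block_nonempty hB)
  rw [P_congr_iff (sameBlock_of_mem hB hχ hχ₀ _), hunit χ₀ hχ₀ h0]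
  · exact ha χ₀ hχ₀ h0
  have hS : IsSylowIn p ((P : Subgroup _).map (Subgroup.centralizer ({y} : Set G)).subtype)
      (Subgroup.centralizer {y}) := ⟨P, rfl⟩
  have hle : Subgroup.centralizer ({(x : G) * y} : Set G) ≤ Subgroup.centralizer {y} := by
    intro g hg
    have hx' := mem_zpowers_of_isPPart hp (⟨y, rfl, hxy, hxo, hreg⟩ : IsPPart p ((x : G) * y) x)
    have hy' : y ∈ Subgroup.zpowers ((x : G) * y) := by
      have := Subgroup.mul_mem _ (Subgroup.inv_mem _ hx') (Subgroup.mem_zpowers ((x : G) * y))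
      simpa using this
    obtain ⟨n, hn⟩ := hy'
    rw [Subgroup.mem_centralizer_singleton_iff] at hg ⊢
    rw [← hn]
    exact (Commute.zpow_right hg n).eq
  have hS' := hS.of_le (H := Subgroup.centralizer ({(x : G) * y} : Set G)) (by
    rintro _ ⟨w, hw, rfl⟩
    have h1 : (w : G) * y = y * w := Subgroup.mem_centralizer_singleton_iff.1 w.2
    have h2 : (x : G) * w = w * x := congrArg Subtype.val (hc w hw)
    rw [Subgroup.mem_centralizer_singleton_iff]
    simp only [Subgroup.coe_subtype]
    rw [← mul_assoc, ← h2, mul_assoc, h1, mul_assoc]) hle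
  rw [← hd]
  exact Nat.pow_right_injective hp.two_le
    ((IsSylowIn.card_eq_cdef hS').symm.trans (IsSylowIn.card_eq_cdef hS))

end Cfsg.Agent.S0927
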