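import Cfsg.Statements.S0185
import Cfsg.Agent.Base
import Cfsg.Agent.H28.CharBasic
import Cfsg.Agent.H29.Central

set_option autoImplicit false
open Cfsg

namespace Cfsg.Agent.S0185

/-- If a finite group has a faithful complex representation of degree less than the smallest prime dividing its order, the group is abelian. -/
theorem result {G : Type*} [Group G] [Finite G] {V : Type*} [AddCommGroup V] [Module ℂ V] [FiniteDimensional ℂ V] (ρ : Representation ℂ G V) (hfaithful : Function.Injective ρ) (hdeg : ∀ p : ℕ, p.Prime → p ∣ Nat.card G → Module.finrank ℂ V < p) (a b : G) : a * b = b * a := by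
  open H28 in
  have key : ∀ χ : G → ℂ, IsCharacter G χ → ∀ n : ℕ, χ 1 = n → n ≤ Module.finrank ℂ V →
      χ (a * b * (b * a)⁻¹) = χ 1 := by
    intro χ hχ
    refine hχ.induction (P := fun χ => ∀ n : ℕ, χ 1 = n → n ≤ Module.finrank ℂ V →
      χ (a * b * (b * a)⁻¹) = χ 1) (fun _ _ _ => rfl) ?_
    intro φ θ hφ hθ ih n hn hle
    obtain ⟨d, hd0, hd⟩ := hφ.exists_degree_pos
    obtain ⟨e, he⟩ := hθ.exists_degree
    have hde : d + e = n := by
      rw [Pi.add_apply, hd, he] at hn
      exact_mod_cast hn
    have hdvd : d ∣ Nat.card G := by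
      obtain ⟨k, σ, hσ, rfl⟩ := hφ
      have := H29.finrank_dvd_card σ
      rw [Representation.char_one] at hd
      rwa [Nat.cast_injective hd] at this
    have hd1 : d = 1 := by
      by_contra h1
      obtain ⟨p, hp, hpd⟩ := Nat.exists_prime_and_dvd h1
      have := hdeg p hp (hpd.trans hdvd)
      have := Nat.le_of_dvd hd0 hpd
      omega
    obtain ⟨f, hf⟩ := hφ.isCharacter.exists_hom (by rw [hd, hd1, Nat.cast_one])
    rw [Pi.add_apply, Pi.add_apply, ih e he (by omega), hf]
    simp only [map_mul, map_inv, map_one, mul_comm (f b) (f a), mul_inv_cancel]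
  have h1 := key _ (isCharacter_rep ρ) _ ρ.char_one le_rfl
  rw [ρ.char_one, H29.char_eq_iff] at h1
  have h2 : a * b * (b * a)⁻¹ = 1 := hfaithful (by rw [h1, map_one]; rfl)
  exact mul_inv_eq_one.mp h2

end Cfsg.Agent.S0185
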