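import Cfsg.Statements.S0473
import Cfsg.Agent.H6.HeF
import Cfsg.Agent.H80.Tower

set_option autoImplicit false
open Cfsg

namespace Cfsg.Agent.S0473
open H80 H71 Cfsg.Spor

/-- The largest Fischer 3-transposition group: a group of order 2 · 1255205709190661721292800 generated by a conjugacy class of 306936 3-transpositions, in which a transposition centraliser has order 2 · 4089470473293004800 and contains a simple subgroup of order 4089470473293004800; its subgroup of index 2 is simple and contains simple subgroups of orders 4089470473293004800 and 4030387200. -/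
theorem result : ∃ (G : Type) (_ : Group G) (_ : Finite G), Nat.card G = 2 * 1255205709190661721292800 ∧ ∃ D : Set G, Cfsg.IsThreeTranspositionClass D ∧ Nat.card D = 306936 ∧ (∀ d ∈ D, Nat.card (Subgroup.centralizer ({d} : Set G)) = 2 * 4089470473293004800 ∧ ∃ K : Subgroup G, K ≤ Subgroup.centralizer ({d} : Set G) ∧ Cfsg.IsFi23 K) ∧ ∃ H : Subgroup G, H.index = 2 ∧ Cfsg.IsFi24' H ∧ (∃ K : Subgroup H, Cfsg.IsFi23 K) ∧ (∃ K : Subgroup H, Cfsg.IsHe K) := by
  have := H71.Fi24.finite
  obtain ⟨Θ, F, -⟩ := isFi24_spor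
  have key : ∀ {X : Type} [Group X] (f : X →* Fi24), Function.Injective f → IsSimpleGroup X →
      2 < Nat.card X → ∃ K : Subgroup (commutator Fi24), IsSimpleGroup K ∧ Nat.card K = Nat.card X := by
    intro X _ f hf hs h2
    have hle : f.range ≤ commutator Fi24 := by
      rcases (inferInstance : ((commutator Fi24).comap f).Normal).eq_bot_or_eq_top with h | h
      · have h3 := Nat.le_of_dvd (by norm_num) (H71.Fi24.index_commutator ▸
          (Subgroup.index_comap (commutator Fi24) f ▸ Subgroup.relIndex_dvd_index_of_normal _ _ :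
            ((commutator Fi24).comap f).index ∣ (commutator Fi24).index))
        rw [h, Subgroup.index_bot] at h3
        omega
      · rintro _ ⟨x, rfl⟩
        exact (h.ge (Subgroup.mem_top x) : x ∈ (commutator Fi24).comap f)
    have e : X ≃* f.range.subgroupOf (commutator Fi24) :=
      (MonoidHom.ofInjective hf).trans (Subgroup.subgroupOfEquivOfLe hle).symm
    exact ⟨_, e.symm.isSimpleGroup, (Nat.card_congr e.toEquiv).symm⟩
  refine ⟨Fi24, inferInstance, this, H71.Fi24.card, _, F.cls, ?_, ?_, commutator Fi24,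
    H71.Fi24.index_commutator, ⟨H71.Fi24.simple', H71.Fi24.card'⟩, ?_, ?_⟩
  · rw [Nat.card_coe_set_eq, F.ncard]; rfl
  · intro d hd
    refine ⟨?_, ?_⟩
    · have h1 := (Subgroup.centralizer ({d} : Set Fi24)).index_mul_card
      have h2 := F.index_cent hd
      rw [← F.cent d hd] at h2
      rw [h2, H71.Fi24.card, show H80.M24.n = 306936 from rfl] at h1
      omega
    · obtain ⟨g, rfl⟩ := isConj_iff.1 hd
      let f : Fi23 →* Fi24 := (MulAut.conj g).toMonoidHom.comp H71.Fi24.φ
      have hf : Function.Injective f := (MulAut.conj g).injective.comp H71.Fi24.φ_inj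
      have := H71.Fi23.simple
      refine ⟨f.range, ?_, (MonoidHom.ofInjective hf).symm.isSimpleGroup,
        (Nat.card_congr (MonoidHom.ofInjective hf).toEquiv).symm.trans H71.Fi23.card⟩
      rintro _ ⟨x, rfl⟩
      have h1 := H71.Fi24.comm_l _ (H71.Fi24.K_le_H ⟨x, rfl⟩)
      rw [Subgroup.mem_centralizer_singleton_iff]
      show g * H71.Fi24.φ x * g⁻¹ * (g * H71.Fi24.val 13 * g⁻¹) = g * H71.Fi24.val 13 * g⁻¹ * (g * H71.Fi24.φ x * g⁻¹)
      calc _ = g * (H71.Fi24.φ x * H71.Fi24.val 13) * g⁻¹ := by group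
        _ = _ := by rw [h1]; group
  · obtain ⟨K, h1, h2⟩ := key _ H71.Fi24.φ_inj H71.Fi23.simple (by rw [H71.Fi23.card]; norm_num)
    exact ⟨K, h1, h2.trans H71.Fi23.card⟩
  · obtain ⟨K, h1, h2⟩ := key _ (H6.HeF.inj F) H71.He.simple (by rw [H71.He.card]; norm_num)
    exact ⟨K, h1, h2.trans H71.He.card⟩

end Cfsg.Agent.S0473
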