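import Cfsg.Agent.Base
import Cfsg.Statements.S0520
import Cfsg.Agent.H85.E2

set_option autoImplicit false
open Cfsg

namespace Cfsg.Agent.S0520

open scoped Pointwise

theorem not_rank_iff {G : Type*} [Group G] [Finite G] (Q : Subgroup G) :
    ¬ Cfsg.PRankLE 2 1 Q ↔ ∃ V ≤ Q, IsKleinFour V := by
  constructor
  · intro h
    unfold Cfsg.PRankLE at h
    push Not at h
    obtain ⟨A, -, hA, hlt⟩ := h
    have hA2 : H85.E2 A := H85.e2_iff_sq.2 hA
    obtain ⟨n, hn⟩ := hA2.exists_card
    have h4 : 2 ^ 2 ≤ Nat.card A := by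
      rw [hn] at hlt ⊢
      rw [Nat.pow_lt_pow_iff_right (by norm_num)] at hlt
      exact Nat.pow_le_pow_right (by norm_num) hlt
    obtain ⟨B, hB, hB4⟩ := H85.exists_le_card_two_pow hA2.isPGroup h4
    exact ⟨B.map Q.subtype, Subgroup.map_subtype_le _,
      H86.isKleinFour_map ((hA2.mono hB).isKleinFour hB4) _ Q.subtype_injective⟩
  · rintro ⟨V, hVQ, hV⟩ h
    have h1 := (H85.E2.of_isKleinFour hV).subgroupOf Q
    have h2 := h (V.subgroupOf Q) h1.isMulCommutative (H85.e2_iff_sq.1 h1)
    rw [Nat.card_congr (Subgroup.subgroupOfEquivOfLe hVQ).toEquiv, hV.card_four] at h2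
    omega

/-- adjacency of four-subgroups -/
def Adj {G : Type*} [Group G] (A B : Subgroup G) : Prop :=
  IsKleinFour A ∧ IsKleinFour B ∧ ∀ a ∈ A, ∀ b ∈ B, a * b = b * a

theorem conn_map {G H : Type*} [Group G] [Group H] (f : G →* H) (hf : Function.Injective f)
    {A B : Subgroup G} (h : Relation.ReflTransGen Adj A B) :
    Relation.ReflTransGen Adj (A.map f) (B.map f) := by
  induction h with
  | refl => exact Relation.ReflTransGen.refl
  | tail _ h ih =>
    obtain ⟨h1, h2, h3⟩ := h
    refine ih.tail ⟨H86.isKleinFour_map h1 f hf, H86.isKleinFour_map h2 f hf, ?_⟩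
    rintro _ ⟨a, ha, rfl⟩ _ ⟨b, hb, rfl⟩
    rw [← map_mul, ← map_mul, h3 a ha b hb]

theorem conn_conj {G : Type*} [Group G] (g : G) {A B : Subgroup G}
    (h : Relation.ReflTransGen Adj A B) :
    Relation.ReflTransGen Adj (MulAut.conj g • A) (MulAut.conj g • B) :=
  conn_map (MulAut.conj g).toMonoidHom (MulAut.conj g).injective h

theorem conn_symm {G : Type*} [Group G] {A B : Subgroup G}
    (h : Relation.ReflTransGen Adj A B) : Relation.ReflTransGen Adj B A := by
  induction h with
  | refl => exact Relation.ReflTransGen.refl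
  | tail _ h ih =>
    exact Relation.ReflTransGen.head ⟨h.2.1, h.1, fun a ha b hb => (h.2.2 b hb a ha).symm⟩ ih

/-- Let G be a finite group of 2-rank at least 2 and S a Sylow 2-subgroup whose commuting graph of Klein four-subgroups is
connected. Then the commuting graph of Klein four-subgroups of G is disconnected if and only if the 2-generated core — the
subgroup generated by the normalizers N_G(Q) of the subgroups Q of S that contain a Klein four-group — is a proper
subgroup of G. -/
theorem result {G : Type*} [Group G] [Finite G] (h2 : ¬ Cfsg.PRankLE 2 1 G)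
    (S : Sylow 2 G) (hS : Cfsg.IsFourConnected (S : Subgroup G)) :
    ¬ Cfsg.IsFourConnected G ↔
      (⨆ Q : {Q : Subgroup G // Q ≤ (S : Subgroup G) ∧ ¬ Cfsg.PRankLE 2 1 Q},
          Subgroup.normalizer ((Q : Subgroup G) : Set G)) ≠ ⊤ := by
  haveI : Fact (Nat.Prime 2) := ⟨Nat.prime_two⟩
  set Γ := ⨆ Q : {Q : Subgroup G // Q ≤ (S : Subgroup G) ∧ ¬ Cfsg.PRankLE 2 1 Q},
          Subgroup.normalizer ((Q : Subgroup G) : Set G) with hΓ
  have hfour : ∀ (k : G) {A : Subgroup G}, IsKleinFour A → IsKleinFour ↥(MulAut.conj k • A) :=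
    fun k A hA => H86.isKleinFour_map hA _ (MulAut.conj k).injective
  have hmono : ∀ (k : G) {A B : Subgroup G}, A ≤ B → MulAut.conj k • A ≤ MulAut.conj k • B :=
    fun k A B hAB => Subgroup.pointwise_smul_le_pointwise_smul_iff.2 hAB
  have hcancel : ∀ (k : G) (A : Subgroup G), MulAut.conj k⁻¹ • MulAut.conj k • A = A := by
    intro k A
    rw [H7.conj_smul_conj_smul, inv_mul_cancel, map_one, one_smul]
  have hcancel' : ∀ (k : G) (A : Subgroup G), MulAut.conj k • MulAut.conj k⁻¹ • A = A := by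
    intro k A
    rw [H7.conj_smul_conj_smul, mul_inv_cancel, map_one, one_smul]
  have hinto : ∀ V : Subgroup G, IsKleinFour V → ∃ x : G, MulAut.conj x • V ≤ S := by
    intro V hV
    obtain ⟨x, -, hx⟩ := (H7.isSylowIn_top S).exists_conj_le
      (IsPGroup.of_card (n := 2) hV.card_four) le_top
    exact ⟨x, hx⟩
  have hS' : ∀ U V : Subgroup G, U ≤ S → V ≤ S → IsKleinFour U → IsKleinFour V →
      Relation.ReflTransGen Adj U V := by
    intro U V hUS hVS hU hV
    have := conn_map (S : Subgroup G).subtype Subtype.val_injective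
      (hS (U.subgroupOf S) (V.subgroupOf S)
        (H86.isKleinFour_of_equiv hU (Subgroup.subgroupOfEquivOfLe hUS).symm)
        (H86.isKleinFour_of_equiv hV (Subgroup.subgroupOfEquivOfLe hVS).symm))
    rwa [Subgroup.map_subgroupOf_eq_of_le hUS, Subgroup.map_subgroupOf_eq_of_le hVS] at this
  obtain ⟨U, hUS, hU⟩ : ∃ U : Subgroup G, U ≤ S ∧ IsKleinFour U := by
    have h3 : ¬ Cfsg.PRankLE 2 1 (⊤ : Subgroup G) := by
      intro h
      apply h2
      intro A hA hA2
      have h4 := (H85.e2_iff_sq.2 hA2).subgroupOf ⊤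
      have h5 := h (A.subgroupOf ⊤) h4.isMulCommutative (H85.e2_iff_sq.1 h4)
      rwa [Nat.card_congr (Subgroup.subgroupOfEquivOfLe le_top).toEquiv] at h5
    obtain ⟨V, -, hV⟩ := (not_rank_iff _).1 h3
    obtain ⟨x, hx⟩ := hinto V hV
    exact ⟨_, hx, hfour x hV⟩
  have hNΓ : ∀ Q : Subgroup G, Q ≤ S → (∃ V ≤ Q, IsKleinFour V) →
      Subgroup.normalizer (Q : Set G) ≤ Γ := fun Q hQ hV =>
    le_iSup (fun Q : {Q : Subgroup G // Q ≤ (S : Subgroup G) ∧ ¬ Cfsg.PRankLE 2 1 Q} =>
      Subgroup.normalizer ((Q : Subgroup G) : Set G)) ⟨Q, hQ, (not_rank_iff Q).2 hV⟩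
  rw [not_iff_not]
  constructor
  · intro hG
    have hSΓ : (S : Subgroup G) ≤ Γ := Subgroup.le_normalizer.trans (hNΓ S le_rfl ⟨U, hUS, hU⟩)
    have hchain : ∀ V, Relation.ReflTransGen Adj U V → ∃ γ ∈ Γ, MulAut.conj γ • V ≤ S := by
      intro V h
      induction h with
      | refl => exact ⟨1, one_mem _, by rwa [map_one, one_smul]⟩
      | @tail V W _ hVW ih =>
        obtain ⟨γ, hγ, hle⟩ := ih
        have h1 : MulAut.conj γ • W ≤ Γ := by
          refine le_trans ?_ (hNΓ _ hle ⟨_, le_rfl, hfour γ hVW.1⟩)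
          rw [H7.normalizer_conj_smul]
          exact hmono γ fun w hw => H85.mem_normalizer_of_comm fun a ha => hVW.2.2 a ha w hw
        obtain ⟨δ, hδ, h3⟩ := (H7.isSylowIn_of_sylow_le S hSΓ).exists_conj_le
          (IsPGroup.of_card (n := 2) (hfour γ hVW.2.1).card_four) h1
        exact ⟨δ * γ, mul_mem hδ hγ, by rwa [← H7.conj_smul_conj_smul]⟩
    rw [eq_top_iff]
    intro g _
    obtain ⟨γ, hγ, hle⟩ := hchain _ (hG U _ hU (hfour g hU))
    rw [H7.conj_smul_conj_smul] at hle
    have := H85.alperin_induction S (fun P g => (∃ V ≤ P, IsKleinFour V) → g ∈ Γ)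
      (fun P g k h1 h2 ⟨V, hV, hV4⟩ =>
        mul_mem (h2 ⟨_, hmono g hV, hfour g hV4⟩) (h1 ⟨V, hV, hV4⟩))
      (fun P g h1 ⟨V, hV, hV4⟩ => inv_mem (h1 ⟨MulAut.conj g⁻¹ • V, by
        have := hmono g⁻¹ hV
        rwa [hcancel] at this, hfour _ hV4⟩))
      (fun P Q g hPQ h1 ⟨V, hV, hV4⟩ => h1 ⟨V, hV.trans hPQ, hV4⟩)
      (fun Q hQ _ g hg hV => hNΓ Q hQ hV hg) U hUS _ hle ⟨U, le_rfl, hU⟩
    exact (Subgroup.mul_mem_cancel_left _ hγ).1 this
  · intro htop
    let M : Subgroup G :=
      { carrier := {g | Relation.ReflTransGen Adj U (MulAut.conj g • U)}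
        one_mem' := by
          show Relation.ReflTransGen Adj U (MulAut.conj 1 • U)
          rw [map_one, one_smul]
        mul_mem' := by
          intro a b ha hb
          show Relation.ReflTransGen Adj U (MulAut.conj (a * b) • U)
          rw [← H7.conj_smul_conj_smul]
          exact ha.trans (conn_conj a hb)
        inv_mem' := by
          intro a ha
          have := conn_conj a⁻¹ ha
          rw [hcancel] at this
          exact conn_symm this }
    have hΓM : Γ ≤ M := by
      refine iSup_le ?_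
      rintro ⟨Q, hQ, hQ2⟩ g hg
      obtain ⟨V, hVQ, hV⟩ := (not_rank_iff Q).1 hQ2
      have h1 : MulAut.conj g • V ≤ S := by
        refine le_trans ?_ hQ
        have := hmono g hVQ
        rwa [H7.conj_smul_eq_iff_mem_normalizer.2 hg] at this
      exact (hS' U _ hUS h1 hU (hfour g hV)).trans
        (conn_conj g (hS' V U (hVQ.trans hQ) hUS hV hU))
    have key : ∀ V : Subgroup G, IsKleinFour V → Relation.ReflTransGen Adj U V := by
      intro V hV
      obtain ⟨x, hx⟩ := hinto V hV
      have h1 : x⁻¹ ∈ M := hΓM (htop ▸ Subgroup.mem_top _)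
      have h3 := conn_conj x⁻¹ (hS' U _ hUS hx hU (hfour x hV))
      rw [hcancel] at h3
      exact h1.trans h3
    intro V W hV hW
    exact (conn_symm (key V hV)).trans (key W hW)

end Cfsg.Agent.S0520
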