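import Cfsg.Statements.S0547
import Cfsg.Agent.H2.MinNormal
import Cfsg.Agent.H89.Centralizer

set_option autoImplicit false
open Cfsg

namespace Cfsg.Agent.S0547

/-- Let a finite solvable group G act faithfully and primitively on a set, and let M be a minimal normal subgroup of G. Then M is transitive with trivial point stabilizers, and the number of points equals the order of M, which is a prime power p ^ d with d ≥ 1. -/
theorem result {G : Type*} [Group G] [Finite G] [Group.IsSolvable G] {Ω : Type*} [Nonempty Ω] [MulAction G Ω] [FaithfulSMul G Ω] (hprim : MulAction.IsPreprimitive G Ω) (M : Subgroup G) [M.Normal] (hM : M ≠ ⊥) (hmin : ∀ K : Subgroup G, K.Normal → K ≤ M → K = ⊥ ∨ K = M) : MulAction.IsPretransitive M Ω ∧ (∀ ω : Ω, MulAction.stabilizer M ω = ⊥) ∧ ∃ p d : ℕ, p.Prime ∧ 0 < d ∧ Nat.card Ω = p ^ d ∧ Nat.card M = p ^ d := by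
  obtain ⟨p, hp, hd, he, hP⟩ := H2.exists_elementaryAbelian_of_minimal_normal hM hmin
  have ht := H89.isPretransitive_of_normal_of_primitive (Ω := Ω) M hM
  have hs := fun ω : Ω => H89.stabilizer_eq_bot_of_comm_transitive M he.1 ω
  refine ⟨ht, hs, ?_⟩
  have := Fact.mk hp
  obtain ⟨d, hd'⟩ := IsPGroup.iff_card.mp hP
  obtain ⟨ω⟩ := ‹Nonempty Ω›
  refine ⟨p, d, hp, ?_, by rw [← H89.card_eq_of_regular ω (hs ω), hd'], hd'⟩
  rcases Nat.eq_zero_or_pos d with h | h
  · rw [h, pow_zero] at hd'
    exact absurd (Subgroup.card_eq_one.mp hd') hM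
  · exact h

end Cfsg.Agent.S0547
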