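import Cfsg.Statements.S0618
import Cfsg.Agent.Base
import Cfsg.Agent.H12.Hol

set_option autoImplicit false
open Cfsg

namespace Cfsg.Agent.S0618

/-- A p-separable group with trivial p'-core in which the Thompson factorization fails has p = 2 or 3, and J(G) induces on the normal closure of Ω₁(Z(S)) a group containing a normal SL(2, p). -/
theorem result {G : Type*} [Group G] [Finite G] {p : ℕ} [Fact p.Prime] (hsep : Cfsg.IsPSolvable p G) (hO : Cfsg.pPrimeCore p G = ⊥) (hnf : ¬ Cfsg.IsThompsonFactorizable p G) : (p = 2 ∨ p = 3) ∧ ∃ E : Subgroup G, Subgroup.centralizer ((⨆ S : Sylow p G, Cfsg.omegaOne p ((S : Subgroup G) ⊓ Subgroup.centralizer ((S : Subgroup G) : Set G))) : Set G) ≤ E ∧ E ≤ Cfsg.thompsonSubgroup p G ⊔ Subgroup.centralizer ((⨆ S : Sylow p G, Cfsg.omegaOne p ((S : Subgroup G) ⊓ Subgroup.centralizer ((S : Subgroup G) : Set G))) : Set G) ∧ Cfsg.thompsonSubgroup p G ⊔ Subgroup.centralizer ((⨆ S : Sylow p G, Cfsg.omegaOne p ((S : Subgroup G)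 ⊓ Subgroup.centralizer ((S : Subgroup G) : Set G))) : Set G) ≤ Subgroup.normalizer (E : Set G) ∧ ∃ hn : ((Subgroup.centralizer ((⨆ S : Sylow p G, Cfsg.omegaOne p ((S : Subgroup G) ⊓ Subgroup.centralizer ((S : Subgroup G) : Set G))) : Set G)).subgroupOf E).Normal, Nonempty ((↥E ⧸ (Subgroup.centralizer ((⨆ S : Sylow p G, Cfsg.omegaOne p ((S : Subgroup G) ⊓ Subgroup.centralizer ((S : Subgroup G) : Set G))) : Set G)).subgroupOf E) ≃* Matrix.SpecialLinearGroup (Fin 2) (ZMod p)) := by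
  have hc : Subgroup.centralizer ((⨆ S : Sylow p G, Cfsg.omegaOne p ((S : Subgroup G) ⊓
      Subgroup.centralizer ((S : Subgroup G) : Set G))) : Set G) =
      Subgroup.centralizer (H12.omV p G : Set G) := by
    rw [H12.omV, H12.centralizer_iSup]
    ext x
    simp only [Subgroup.mem_centralizer_iff, Set.iSup_eq_iUnion, Set.mem_iUnion, Subgroup.mem_iInf]
    exact ⟨fun h S y hy => h y ⟨S, hy⟩, fun h y ⟨S, hy⟩ => h S y hy⟩
  rw [hc]
  have hV : IsElementaryAbelian p (H12.omV p G) := H12.ea_omV (H18.centralizer_pCore_le hsep hO)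
  have h := H12.tr_hol (H12.omV p G)
  have := H12.thompsonSubgroup_normal (p := p) (G := G)
  have hf := h.ff hV hsep H12.pCore_quotient_omV (thompsonSubgroup p G)
  have hgen := h.thompson_gen hV hf
  rw [H12.isThompsonFactorizable_iff hO, ← h.ker_eq, ← Subgroup.map_eq_bot_iff] at hnf
  obtain ⟨E, hE⟩ := H12.FF.exists_isBlock hgen hnf
  have hb := hf.isBlock_sl hE
  obtain ⟨e⟩ := hb.iso
  refine ⟨hb.two_or_three, E.comap _, h.ker_eq.symm.le.trans (Subgroup.ker_le_comap _ E), ?_, ?_,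
    H12.exists_quotient_equiv ((e : E →* _).comp (MonoidHom.subgroupComap _ E))
      (e.surjective.comp fun x => ?_) fun g => ?_⟩
  · refine (Subgroup.comap_mono (hf.isBlock_le hE)).trans ?_
    rw [Subgroup.comap_map_eq, h.ker_eq]
  · refine le_trans ?_ ((Subgroup.comap_mono (hf.isBlock_normal hgen hE)).trans
      (Subgroup.le_normalizer_comap _))
    rw [Subgroup.comap_map_eq, h.ker_eq]
  · obtain ⟨g, -, hg⟩ := hf.isBlock_le hE x.2
    exact ⟨⟨g, by rw [Subgroup.mem_comap, hg]; exact x.2⟩, Subtype.ext hg⟩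
  · rw [MonoidHom.comp_apply, MonoidHom.coe_coe, EmbeddingLike.map_eq_one_iff, Subtype.ext_iff]
    exact h.eq_one_iff

end Cfsg.Agent.S0618
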