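import Cfsg.Agent.Base
import Cfsg.Agent.H90.Sharp2
import Cfsg.Statements.S0680

set_option autoImplicit false
open Cfsg

namespace Cfsg.Agent.S0680

/-- A finite sharply doubly transitive permutation group has degree a prime power `p ^ j`; a Sylow `p`-subgroup is normal, elementary abelian and regular, and consists of the identity together with the elements without fixed points. (Frobenius' Theorem is not needed.) -/
theorem result {α : Type*} [Fintype α] [DecidableEq α] (G : Subgroup (Equiv.Perm α)) [MulAction.IsMultiplyPretransitive G α 2] (hsharp : ∀ x : Fin 2 ↪ α, MulAction.stabilizer G x = ⊥) (h2 : 2 ≤ Fintype.card α) : ∃ p j : ℕ, p.Prime ∧ 1 ≤ j ∧ Fintype.card α = p ^ j ∧ ∀ (hp : Fact p.Prime) (P : Sylow p G), (P : Subgroup G).Normal ∧ IsMulCommutative (P : Subgroup G) ∧ (∀ x ∈ (P : Subgroup G), x ^ p = 1) ∧ MulAction.IsPretransitive (P : Subgroup G) α ∧ (∀ a : α, MulAction.stabilizer (P : Subgroup G) a = ⊥) ∧ ∀ g : G, g ∈ (P : Subgroup G) ↔ g = 1 ∨ ∀ a : α, g • a ≠ a := by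
  have hnt : Nontrivial α := Fintype.one_lt_card_iff_nontrivial.1 h2
  have hs := H90.sharp_two_iff.1 hsharp
  obtain ⟨K, p, j, hN, hK, htr, hp, hj, hc, hKc, hcomm, hpow⟩ :=
    H90.exists_kernel_sharp_two (G := G) (Ω := α) inferInstance hs
  refine ⟨p, j, hp, hj, by rw [← Nat.card_eq_fintype_card, hc], fun _ P => ?_⟩
  obtain ⟨a⟩ : Nonempty α := inferInstance
  have := MulAction.isPretransitive_of_is_two_pretransitive (G := G) (α := α)
  have hidx : K.index = p ^ j - 1 := by
    have h1 := K.card_mul_index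
    have h3 := (MulAction.stabilizer G a).index_mul_card
    rw [MulAction.index_stabilizer_of_transitive,
      H90.card_stabilizer_sharp_two inferInstance hs, hc, ← h1, hKc] at h3
    exact (Nat.eq_of_mul_eq_mul_left (pow_pos hp.pos j) h3).symm
  have hKp : IsPGroup p K := IsPGroup.of_card hKc
  have hnd : ¬ p ∣ K.index := by
    rw [hidx]
    intro h
    have h1 : p ∣ p ^ j := dvd_pow_self p (by omega)
    have h3 := (Nat.dvd_sub_iff_right (Nat.one_le_pow _ _ hp.pos) h1).1 h
    exact hp.one_lt.ne' (Nat.dvd_one.1 h3)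
  have hPK : (P : Subgroup G) = K := by
    let Q := hKp.toSylow hnd
    have hQ : (Q : Subgroup G).Normal := hN
    have := Sylow.unique_of_normal Q hQ
    rw [Subsingleton.elim P Q]; rfl
  rw [hPK]
  refine ⟨hN, hcomm, hpow, ⟨fun x y => ?_⟩, fun x => ?_, hK⟩
  · obtain ⟨k, hk, h⟩ := htr x y
    exact ⟨⟨k, hk⟩, h⟩
  · rw [eq_bot_iff]
    intro k hk
    exact Subtype.ext (((hK k).1 k.2).resolve_right fun h => h x hk)

end Cfsg.Agent.S0680
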