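import Cfsg.Statements.S0725
import Cfsg.Agent.H39.PSAsm
import Cfsg.Agent.H39.PSN2
import Cfsg.Agent.H4.PSEnt
import Cfsg.Agent.H3.PsInd
import Cfsg.Agent.H94.PSTri
import Cfsg.Agent.H73.PsUni
import Cfsg.Agent.H5.PSRed
import Cfsg.Agent.H61.PSNUa
import Cfsg.Agent.H89.PSNUb
import Cfsg.Agent.H20.PSN2b

set_option autoImplicit false
open Cfsg

namespace Cfsg.Agent.S0725

/-- The Praeger–Saxl bound: a primitive permutation group of degree `n` not containing the alternating group has order at most `4 ^ n`. -/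
theorem result {α : Type*} [Fintype α] [DecidableEq α] (G : Subgroup (Equiv.Perm α)) (hG : MulAction.IsPreprimitive G α) (hA : ¬ alternatingGroup α ≤ G) : Nat.card G ≤ 4 ^ Fintype.card α := by
  exact H39.PS.main H4.PSEnt.jobEnt H3.PS.jobInd H94.PS.jobTri H73.PsUni.jobUni H5.PSRed.jobRed
    H39.PS.jobN2a H20.PSN.jobN2b H61.PSNUa.jobNUa H89.PSNUb.jobNUb G hG hA

end Cfsg.Agent.S0725
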