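import Cfsg.Agent.Base
import Cfsg.Statements.S0802
import Cfsg.Agent.H61.Platonic

set_option autoImplicit false
open Cfsg

namespace Cfsg.Agent.S0802

open H61

/-- PSL_2(p^n) has a subgroup isomorphic to A_4 if and only if it is not the case that p = 2 and n is odd. -/
theorem result {F : Type*} [Field F] [Fintype F] (p n : ℕ) [Fact p.Prime] [CharP F p] (hF : Fintype.card F = p ^ n) : (∃ H : Subgroup (Matrix.ProjectiveSpecialLinearGroup (Fin 2) F), Nonempty (H ≃* alternatingGroup (Fin 4))) ↔ ¬ (p = 2 ∧ Odd n) := by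
  rw [exists_alt4_psl_iff, Nat.card_eq_fintype_card, hF]
  have hp : p.Prime := Fact.out
  have h4 : ∀ k : ℕ, 2 ^ (2 * k) % 3 = 1 := fun k => by
    rw [pow_mul, Nat.pow_mod]; simp
  constructor
  · rintro (h | h) ⟨rfl, k, rfl⟩
    · exact (Nat.not_odd_iff_even.2 (Nat.even_pow.2 ⟨even_two, by omega⟩)) h
    · rw [pow_succ, Nat.mul_mod, h4] at h; norm_num at h
  · intro h
    rcases hp.eq_two_or_odd' with rfl | h2
    · right
      obtain ⟨k, rfl⟩ := Nat.not_odd_iff_even.1 fun h1 => h ⟨rfl, h1⟩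
      rw [← two_mul, h4]
    · exact Or.inl h2.pow

end Cfsg.Agent.S0802
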