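import Cfsg.Statements.S0827
import Cfsg.Agent.H65.PhanAut3
import Cfsg.Agent.H83.Dihedral

set_option autoImplicit false
open Cfsg

namespace Cfsg.Agent.S0827

theorem abs {X : Type*} [Group X] [Finite X] (h72 : Nat.card X = 72) {d p f g : X}
    (d3 : d ^ 3 = 1) (p3 : p ^ 3 = 1) (dp : Commute d p) (d1 : d ≠ 1) (hp : ∀ i < 3, p ≠ d ^ i)
    (f4 : f ^ (2 * 2) = 1) (gg : g * g = f ^ 2) (gf : g * f * g⁻¹ = f⁻¹) (f2 : f ^ 2 ≠ 1)
    (r1 : f * d * f⁻¹ = p ^ 2) (r2 : f * p * f⁻¹ = d) (r3 : g * d * g⁻¹ = d ^ 2 * p ^ 2)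
    (r4 : g * p * g⁻¹ = d ^ 2 * p) :
    ∃ (N : Subgroup X) (_ : N.Normal), Nat.card N = 9 ∧ (∀ x ∈ N, x ^ 3 = 1) ∧
      Nonempty (X ⧸ N ≃* QuaternionGroup 2) := by
  classical
  let N := Subgroup.closure ({d, p} : Set X)
  have hd : d ∈ N := Subgroup.subset_closure (by simp)
  have hpN : p ∈ N := Subgroup.subset_closure (by simp)
  have hcomm : ∀ x ∈ N, ∀ y ∈ N, Commute x y := by
    haveI := Subgroup.isMulCommutative_closure (G := X) (k := {d, p}) (by
      rintro x (rfl | rfl) y (rfl | rfl) <;> first | rfl | exact dp | exact dp.symm)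
    intro x hx y hy
    exact congrArg Subtype.val (mul_comm' (⟨x, hx⟩ : N) ⟨y, hy⟩)
  have h3 : ∀ x ∈ N, x ^ 3 = 1 := by
    intro x hx
    induction hx using Subgroup.closure_induction with
    | mem x hx => rcases hx with rfl | rfl <;> assumption
    | one => simp
    | mul x y hx hy a b => rw [(hcomm x hx y hy).mul_pow, a, b, one_mul]
    | inv x _ a => rw [inv_pow, a, inv_one]
  haveI : Fact (Nat.Prime 3) := ⟨Nat.prime_three⟩
  have hP : IsPGroup 3 N := fun x => ⟨1, Subtype.ext (by simpa using h3 x.1 x.2)⟩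
  have hdo : orderOf d = 3 := orderOf_eq_prime d3 d1
  have h9 : Nat.card N = 9 := by
    obtain ⟨k, hk⟩ := IsPGroup.iff_card.1 hP
    have h1 := N.card_subgroup_dvd_card
    rw [h72, hk] at h1
    have h2 : k < 3 := by
      by_contra h
      have := (pow_dvd_pow 3 (not_lt.1 h)).trans h1
      norm_num at this
    by_contra h
    have h4 : Nat.card N ≤ 3 := by
      rw [hk] at h ⊢
      interval_cases k <;> simp at h ⊢
    have h5 := Subgroup.eq_of_le_of_card_ge ((Subgroup.zpowers_le).2 hd) (by rwa [Nat.card_zpowers, hdo])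
    rw [← h5, mem_zpowers_iff_mem_range_orderOf, hdo, Finset.mem_image] at hpN
    obtain ⟨i, hi, e⟩ := hpN
    exact hp i (Finset.mem_range.1 hi) e.symm
  let φ := H83.quaternionHom (n := 2) f g f4 gg gf
  have hφ2 : φ (.a 2) = f ^ 2 := by simpa using H83.quaternionHom_a f g f4 gg gf 2
  have key : ∀ u : QuaternionGroup 2, u = 1 ∨ u = .a 2 ∨ u ^ 2 = .a 2 := by decide
  have hinj : ∀ u, φ u ∈ N → u = 1 := by
    intro u hu
    have h2 : φ (.a 2) ∉ N := fun h => f2 (by
      have := h3 _ h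
      rwa [hφ2, ← pow_mul, show 2 * 3 = 2 * 2 + 2 from rfl, pow_add, f4, one_mul] at this)
    rcases key u with e | e | e
    · exact e
    · exact absurd (e ▸ hu) h2
    · exact absurd (by rw [← e, map_pow]; exact N.pow_mem hu 2) h2
  have hφ : Function.Injective φ :=
    (injective_iff_map_eq_one φ).2 fun u hu => hinj u (hu ▸ N.one_mem)
  have hn : ∀ x : X, x * d * x⁻¹ ∈ N → x * p * x⁻¹ ∈ N → x ∈ Subgroup.normalizer (N : Set X) := by
    intro x a b
    apply Subgroup.mem_normalizer_fintype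
    intro y hy
    have : N ≤ N.comap (MulAut.conj x).toMonoidHom := by
      rw [Subgroup.closure_le]
      rintro _ (rfl | rfl) <;> assumption
    exact this hy
  have hN : N.Normal := by
    rw [← Subgroup.normalizer_eq_top_iff]
    have a : φ.range ≤ Subgroup.normalizer (N : Set X) := by
      rw [H83.quaternionHom_range, Subgroup.closure_le]
      rintro _ (rfl | rfl)
      · exact hn _ (r1 ▸ N.pow_mem hpN 2) (r2 ▸ hd)
      · exact hn _ (r3 ▸ N.mul_mem (N.pow_mem hd 2) (N.pow_mem hpN 2)) (r4 ▸ N.mul_mem (N.pow_mem hd 2) hpN)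
    have b := Subgroup.card_dvd_of_le a
    rw [← Nat.card_congr (MonoidHom.ofInjective hφ).toEquiv, Nat.card_eq_fintype_card,
      QuaternionGroup.card] at b
    have c := Subgroup.card_dvd_of_le (Subgroup.le_normalizer (H := N))
    rw [h9] at c
    apply Subgroup.eq_top_of_le_card
    rw [h72]
    exact Nat.le_of_dvd Nat.card_pos (Nat.Coprime.mul_dvd_of_dvd_of_dvd (by norm_num) b c)
  refine ⟨N, hN, h9, h3, ⟨(MulEquiv.ofBijective ((QuotientGroup.mk' N).comp φ) ?_).symm⟩⟩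
  rw [Nat.bijective_iff_injective_and_card]
  refine ⟨(injective_iff_map_eq_one _).2 fun u hu => hinj u ((QuotientGroup.eq_one_iff _).1 hu), ?_⟩
  have := Subgroup.card_eq_card_quotient_mul_card_subgroup N
  rw [h72, h9] at this
  rw [Nat.card_eq_fintype_card, QuaternionGroup.card]
  omega

open H65.Phan H59 Matrix

/-- U_3(2) ≅ 3².Q_8: PSU_3(2) (form over the field with 4 elements) has a normal subgroup N which is elementary abelian of order 9 such that the quotient by N is isomorphic to the quaternion group of order 8. -/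
theorem result {F : Type*} [Field F] [Fintype F] (hF : Fintype.card F = 4) : ∃ (N : Subgroup (Cfsg.PSU 3 F 2)) (_ : N.Normal), Nat.card N = 9 ∧ (∀ x ∈ N, x ^ 3 = 1) ∧ Nonempty (Cfsg.PSU 3 F 2 ⧸ N ≃* QuaternionGroup 2) := by
  have hF' : Fintype.card F = 2 ^ 2 := hF
  obtain ⟨ω, hω⟩ := exists_omega hF'
  have h2 := two_eq_zero hF'
  haveI := charP_two hF'
  have h72 : Nat.card (Cfsg.PSU 3 F 2) = 72 := by
    have := card_PSU hF' (n := 3) (by norm_num)
    have e : ordGU 2 3 = 648 := by decide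
    rw [e] at this
    norm_num at this
    omega
  let D : SU 3 F 2 := mkSU hF' !![1, 0, 0; 0, ω, 0; 0, 0, ω ^ 2] (by simp [det_fin_three]; grind) (by
    ext i k
    fin_cases i <;> fin_cases k <;> simp [mul_apply, Fin.sum_univ_three, frob_apply] <;> grind)
  let P : SU 3 F 2 := mkSU hF' !![0, 0, 1; 1, 0, 0; 0, 1, 0] (by simp [det_fin_three]) (by
    ext i k
    fin_cases i <;> fin_cases k <;> simp [mul_apply, Fin.sum_univ_three, frob_apply])
  let G : SU 3 F 2 := mkSU hF' !![1, ω, ω; ω ^ 2, ω, ω ^ 2; ω ^ 2, ω ^ 2, ω] (by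
    simp [det_fin_three]; grind) (by
    ext i k
    fin_cases i <;> fin_cases k <;> simp [mul_apply, Fin.sum_univ_three, frob_apply] <;> grind)
  let Z : SU 3 F 2 := mkSU hF' !![ω, 0, 0; 0, ω, 0; 0, 0, ω] (by simp [det_fin_three]; grind) (by
    ext i k
    fin_cases i <;> fin_cases k <;> simp [mul_apply, Fin.sum_univ_three, frob_apply] <;> grind)
  have mD : mat D = !![1, 0, 0; 0, ω, 0; 0, 0, ω ^ 2] := rfl
  have mP : mat P = !![0, 0, 1; 1, 0, 0; 0, 1, 0] := rfl
  have mG : mat G = !![1, ω, ω; ω ^ 2, ω, ω ^ 2; ω ^ 2, ω ^ 2, ω] := rfl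
  have mZ : mat Z = !![ω, 0, 0; 0, ω, 0; 0, 0, ω] := rfl
  have mF := mat_fou hF' hω
  generalize fou hF' hω = E at mF
  clear_value D P G Z
  have a1 : D * D * D = 1 ∧ P * P * P = 1 ∧ D * P = P * D * Z ∧ E * E * (E * E) = 1 ∧ G * G = E * E ∧
      E * G * E = G ∧ E * D = P * P * E ∧ E * P = D * E ∧ G * D = D * D * (P * P) * Z * G ∧
      G * P = D * D * P * Z * Z * G := by
    refine ⟨?_, ?_, ?_, ?_, ?_, ?_, ?_, ?_, ?_, ?_⟩ <;> apply mat_ext <;>
      simp only [mat_mul, mat_one, mD, mP, mG, mZ, mF] <;> ext i k <;>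
      fin_cases i <;> fin_cases k <;> simp [mul_apply, Fin.sum_univ_three] <;> grind
  obtain ⟨b1, b2, b3, b4, b5, b6, b7, b8, b9, b10⟩ := a1
  have n1 : D * P ≠ P * D := fun e => by
    have := congrFun (congrFun (congrArg mat e) 1) 0
    simp [mat_mul, mD, mP, mul_apply, Fin.sum_univ_three] at this
    grind
  have n2 : D * (E * E) ≠ E * E * D := fun e => by
    have := congrFun (congrFun (congrArg mat e) 1) 2
    simp [mat_mul, mD, mF, mul_apply, Fin.sum_univ_three] at this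
    grind
  let π : SU 3 F 2 →* Cfsg.PSU 3 F 2 := QuotientGroup.mk' _
  have hπ : ∀ g, π g = 1 ↔ g ∈ Subgroup.center (SU 3 F 2) := fun g => QuotientGroup.eq_one_iff g
  have hZ : π Z = 1 := by
    rw [hπ, mem_center_SU_iff hF' (by norm_num)]
    refine ⟨ω, mZ.trans ?_⟩
    ext i k
    fin_cases i <;> fin_cases k <;> simp
  refine abs h72 (d := π D) (p := π P) (f := π E) (g := π G) ?_ ?_ ?_ ?_ ?_ ?_ ?_ ?_ ?_ ?_ ?_ ?_ ?_
  · rw [← map_pow, pow_three', b1, map_one]
  · rw [← map_pow, pow_three', b2, map_one]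
  · rw [Commute, SemiconjBy, ← map_mul, b3, map_mul, hZ, mul_one, map_mul]
  · intro e
    exact n1 (Subgroup.mem_center_iff.1 ((hπ D).1 e) P).symm
  · intro i _ e
    have : π (P * (D ^ i)⁻¹) = 1 := by rw [map_mul, map_inv, map_pow, e, mul_inv_cancel]
    have h4 := Subgroup.mem_center_iff.1 ((hπ _).1 this) D
    apply n1
    have h5 : Commute (D ^ i)⁻¹ D := (Commute.pow_self D i).inv_left
    rw [mul_assoc, h5.eq, ← mul_assoc, ← mul_assoc] at h4
    exact mul_right_cancel h4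
  · rw [← map_pow, pow_mul, sq, sq, b4, map_one]
  · rw [← map_mul, b5, map_mul, sq]
  · rw [mul_inv_eq_iff_eq_mul, eq_inv_mul_iff_mul_eq, ← mul_assoc, ← map_mul, ← map_mul, b6]
  · intro e
    rw [sq, ← map_mul] at e
    exact n2 (Subgroup.mem_center_iff.1 ((hπ _).1 e) D)
  · rw [mul_inv_eq_iff_eq_mul, ← map_mul, b7]; simp [sq]
  · rw [mul_inv_eq_iff_eq_mul, ← map_mul, b8, map_mul]
  · rw [mul_inv_eq_iff_eq_mul, ← map_mul, b9]; simp [sq, hZ]
  · rw [mul_inv_eq_iff_eq_mul, ← map_mul, b10]; simp [sq, hZ]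

end Cfsg.Agent.S0827
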