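import Cfsg.Statements.S0852
import Cfsg.Agent.H31.TIFNCoh

set_option autoImplicit false
open Cfsg

namespace Cfsg.Agent.S0852

/-- Let K be a subgroup of the finite group G that meets each conjugate by an element outside its normalizer N trivially, is properly contained in N, and contains the centralizer of each of its non-identity elements (a T.I. subgroup with Frobenius normalizer). Let S be the set of irreducible characters of N taking at some element of K a value different from their degree, suppose S has at least two members, and let star be a linear isometry on the integer span of S into the generalized characters of G that agrees with induction on the members vanishing at the identity (so S is coherent, with star as the extending isometry). Then an irreducible character ψ of G is of the form star χ or -star χ for some χ in S if and only if ψ is not constant on the non-identity elements of K. -/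
theorem result {G : Type*} [Group G] [Fintype G] (K : Subgroup G) (hTI : ∀ g : G, g ∉ Subgroup.normalizer (K : Set G) → ∀ k ∈ K, g * k * g⁻¹ ∈ K → k = 1) (hlt : K < Subgroup.normalizer (K : Set G)) (hC : ∀ k ∈ K, k ≠ 1 → Subgroup.centralizer ({k} : Set G) ≤ K) [Fintype ↥(Subgroup.normalizer (K : Set G))] (S : Set (↥(Subgroup.normalizer (K : Set G)) → ℂ)) (hS : S = {χ : ↥(Subgroup.normalizer (K : Set G)) → ℂ | Cfsg.IsIrrCharacter ↥(Subgroup.normalizer (K : Set G)) χ ∧ ∃ k : ↥(Subgroup.normalizer (K : Set G)), (k : G) ∈ K ∧ χ k ≠ χ 1}) (htwo : ∃ χ ∈ S, ∃ ξ ∈ S, χ ≠ ξ) (star : (↥(Subgroup.normalizer (K : Set G)) → ℂ) → (G → ℂ)) (hstar : Cfsg.IsLinearIsometryOn (Cfsg.zspan S) star) (hext : ∀ α ∈ Cfsg.zspanOn S ({1}ᶜ : Set ↥(Subgroup.normalizer (K : Set G))), star α = Cfsg.indFun (Subgroup.normalizer (K : Set G)) α) (ψ : G → ℂ) (hψ : Cfsg.IsIrrCharacter G ψ) : (∃ χ ∈ S, ψ = star χ ∨ ψ = -star χ) ↔ ∃ a ∈ K, ∃ b ∈ K, a ≠ 1 ∧ b ≠ 1 ∧ ψ a ≠ ψ b := by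
  have h := H31.tifnCoh_of hTI hC hS hstar hext
  constructor
  · rintro ⟨χ, hχ, hψχ⟩
    by_contra hn
    push Not at hn
    obtain ⟨ξ, hξ, hne⟩ : ∃ ξ ∈ S, χ ≠ ξ := by
      obtain ⟨a, ha, b, hb, hab⟩ := htwo
      by_cases e : χ = a
      · exact ⟨b, hb, e ▸ hab⟩
      · exact ⟨a, ha, e⟩
    refine h.not_const hχ hξ hne fun a ha b hb ha1 hb1 => ?_
    have := hn a ha b hb ha1 hb1
    rcases hψχ with rfl | rfl
    · exact this
    · exact neg_injective this
  · rintro ⟨a, ha, b, hb, ha1, hb1, hab⟩
    by_contra hn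
    push Not at hn
    refine hab (h.const_of_orth (H28.Cfsg.IsIrrCharacter.isClassFunction hψ) (fun χ hχ => ?_)
      ha hb ha1 hb1)
    rcases h.irr_or_neg hχ with h1 | h1
    · exact H28.Cfsg.IsIrrCharacter.classInner_of_ne hψ h1 (hn χ hχ).1
    · have := H28.Cfsg.IsIrrCharacter.classInner_of_ne hψ h1 (hn χ hχ).2
      rwa [H28.classInner_neg_right, neg_eq_zero] at this

end Cfsg.Agent.S0852
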