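import Cfsg.Statements.S1235
import Cfsg.Agent.H9.Sec1235
import Cfsg.Agent.H3.DSQ
import Cfsg.Agent.H3.SecRank4

set_option autoImplicit false
open Cfsg

namespace Cfsg.Agent.S1235

open Subgroup H9 H9.Sec

theorem dcases {D : Type*} [Group D] [Finite D] (h2 : IsPGroup 2 D)
    (hD : (∃ m : ℕ, 2 ≤ m ∧ Nonempty (D ≃* DihedralGroup m)) ∨ Cfsg.IsQuasiDihedral D) :
    (Nat.card D = 4 ∧ ∀ x : D, x * x = 1) ∨ ∃ (m : ℕ) (a b : D), H3.DSQ m a b := by
  rcases hD with ⟨m, hm, ⟨e⟩⟩ | hq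
  · obtain ⟨n, hn⟩ := IsPGroup.iff_card.mp h2
    rw [Nat.card_congr e.toEquiv, DihedralGroup.nat_card] at hn
    obtain ⟨k, -, rfl⟩ := (Nat.dvd_prime_pow Nat.prime_two).mp (Dvd.intro_left 2 hn)
    rcases k with _ | _ | k
    · simp at hm
    · left
      refine ⟨by rw [Nat.card_congr e.toEquiv, DihedralGroup.nat_card]; rfl, fun x => e.injective ?_⟩
      rw [map_mul, map_one]
      have : ∀ y : DihedralGroup 2, y * y = 1 := by decide
      exact this _
    · exact Or.inr ⟨_, _, _, (H3.dsq_dihedral k).of_mulEquiv e.symm⟩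
  · obtain ⟨m, a, b, h, -⟩ := H3.exists_dsq_of_isQuasiDihedral hq
    exact Or.inr ⟨m, a, b, h⟩

theorem core {G : Type*} [Group G] [Finite G] (hG : IsPGroup 2 G) {T D B : Subgroup G}
    (hDT : D ≤ T) (hBT : B ≤ T) (hc : ∀ a ∈ D, ∀ b ∈ B, a * b = b * a) (hi : D ⊓ B = ⊥)
    (hs : D ⊔ B = T)
    (hD : (Nat.card D = 4 ∧ ∀ x : D, x * x = 1) ∨ ∃ (m : ℕ) (a b : D), H3.DSQ m a b)
    (h4 : Nat.card B = 4) (hB : ∀ b ∈ B, b * b = 1)
    (hcb : ∀ b ∈ B, b ≠ 1 → centralizer {b} ≤ T) : Cfsg.SectionalPRankLE 2 4 G := by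
  have hcen : D ≤ centralizer (B : Set G) := fun a ha b hb => (hc a ha b hb).symm
  have hmem : ∀ t ∈ T, ∃ d ∈ D, ∃ b ∈ B, d * b = t := fun t ht =>
    (H3.mem_sup_of_le_centralizer hcen).mp (hs ▸ ht)
  have hsqc : ∀ L : Subgroup G, (∀ a ∈ L, a * a = 1) → ∀ a ∈ L, ∀ b ∈ L, a * b = b * a :=
    fun L hL a ha b hb => by
      have := SQ.comm (H := L) (K := ⊥) (fun x hx => hL x hx) ha hb
      calc a * b = (a * b * a⁻¹ * b⁻¹) * (b * a) := by group
        _ = _ := by rw [mem_bot.mp this, one_mul]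
  have hBT' : ∀ t ∈ T, ∀ b ∈ B, t * b = b * t := fun t ht b hb => by
    obtain ⟨d, hd, c, hc', rfl⟩ := hmem t ht
    rw [mul_assoc, hsqc B hB c hc' b hb, ← mul_assoc, hc d hd b hb, mul_assoc]
  rcases hD with ⟨hD4, hD2⟩ | ⟨m, r, s, hd⟩
  · have hT2 : ∀ a ∈ T, a * a = 1 := fun t ht => by
      obtain ⟨d, hd, c, hc', rfl⟩ := hmem t ht
      have e : d * d = 1 := congrArg Subtype.val (hD2 ⟨d, hd⟩)
      calc d * c * (d * c) = d * (c * d) * c := by group
        _ = d * d * (c * c) := by rw [← hc d hd c hc']; group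
        _ = 1 := by rw [e, hB c hc', one_mul]
    refine C16.sec (T := T) (B := B) ⟨hG, hsqc T hT2, hT2, ?_, hBT, h4, hcb⟩
    have h1 := H3.relIndex_sup_sup (B₁ := ⊥) (B₂ := ⊥) bot_le bot_le hcen hi
    simpa [hs, hD4, h4] using h1
  · have htop : T = ⊤ := by
      by_contra hne
      obtain ⟨g0, hg0, hg0T⟩ := exists_norm hG hne
      obtain ⟨k, hgT, hg2⟩ := exists_pow_not_mem_pow_mem hG hg0T
      have hg : g0 ^ 2 ^ k ∈ normalizer (T : Set G) := pow_mem hg0 _
      generalize g0 ^ 2 ^ k = g at hgT hg2 hg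
      have hz : ∀ x ∈ T ⊓ centralizer (T : Set G), x ∉ B →
          ∃ d : D, d ∈ center D ∧ d ≠ 1 ∧ ∃ b ∈ B, (d : G) * b = x := fun x hx hxB => by
        obtain ⟨d, hd, c, hc', rfl⟩ := hmem x (mem_inf.1 hx).1
        refine ⟨⟨d, hd⟩, mem_center_iff.mpr fun y => Subtype.ext ?_, fun e => hxB ?_, c, hc', rfl⟩
        · have e1 : (y : G) * (d * c) = d * c * y := (mem_inf.1 hx).2 y (hDT y.2)
          change (y : G) * d = d * y
          rw [mul_assoc, ← hc y y.2 c hc', ← mul_assoc, ← mul_assoc] at e1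
          exact mul_right_cancel e1
        · rw [show d = 1 from congrArg Subtype.val e, one_mul]; exact hc'
      have h1 : B.relIndex (T ⊓ centralizer (T : Set G)) ≤ 2 :=
        relIndex_le_two' fun x hx y hy hxB hyB => by
          obtain ⟨d, hd1, hd2, b, hb, rfl⟩ := hz x hx hxB
          obtain ⟨d', hd1', hd2', b', hb', rfl⟩ := hz y hy hyB
          obtain ⟨w, -, hw⟩ := (Nat.card_eq_two_iff' (1 : center D)).mp hd.card_center
          have e : d = d' := congrArg Subtype.val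
            ((hw ⟨d, hd1⟩ fun e => hd2 (congrArg Subtype.val e)).trans
              (hw ⟨d', hd1'⟩ fun e => hd2' (congrArg Subtype.val e)).symm)
          subst e
          simpa [mul_assoc] using B.mul_mem (B.inv_mem hb') hb
      have hBZ : B ≤ T ⊓ centralizer (T : Set G) := fun b hb =>
        mem_inf.2 ⟨hBT hb, fun t ht => hBT' t ht b hb⟩
      have hBZ' : cj g B ≤ T ⊓ centralizer (T : Set G) := fun x hx => by
        refine mem_inf.2 ⟨cj_le_of_norm hBT hg hx, fun t ht => ?_⟩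
        have := hBT' _ (conj_mem_of_norm' hg ht) _ (mem_cj.1 hx)
        calc t * x = g * (g⁻¹ * t * g * (g⁻¹ * x * g)) * g⁻¹ := by group
          _ = _ := by rw [this]; group
      have h2 := relIndex_mul_card_inf B (T ⊓ centralizer (T : Set G))
      rw [inf_eq_left.mpr hBZ, h4] at h2
      have h3 := card_mul_le hBZ' hBZ
      rw [card_cj, h4] at h3
      obtain ⟨b, hb, hb1⟩ := exists_ne_one_of_card (A := B ⊓ cj g B) (by nlinarith)
      have hb' := mem_cj.1 (mem_inf.1 hb).2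
      have hbB := (mem_inf.1 hb).1
      have e1 : g * b * g⁻¹ = g⁻¹ * b * g := by
        have := hBT' _ hg2 _ hb'
        calc g * b * g⁻¹ = (g ^ 2 * (g⁻¹ * b * g)) * (g ^ 2)⁻¹ := by group
          _ = _ := by rw [this]; group
      by_cases e2 : b * (g⁻¹ * b * g) = 1
      · refine hgT (hcb b hbB hb1 (mem_centralizer_singleton_iff.2 ?_))
        have e3 : g⁻¹ * b * g = b := by
          rw [← hB b hbB] at e2; exact mul_left_cancel e2
        calc g * b = g * (g⁻¹ * b * g) := by rw [e3]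
          _ = _ := by group
      · refine hgT (hcb _ (B.mul_mem hbB hb') e2 (mem_centralizer_singleton_iff.2 ?_))
        calc g * (b * (g⁻¹ * b * g)) = (g * b * g⁻¹) * b * g := by group
          _ = _ := by rw [e1, hsqc B hB _ hb' _ hbB]
    subst htop
    have hBn : B.Normal := ⟨fun b hb g => by
      rw [hBT' g (mem_top g) b hb, mul_inv_cancel_right]; exact hb⟩
    have hrn : (zpowers (r : G)).Normal := ⟨fun x hx g => by
      obtain ⟨d, hd', c, hc', rfl⟩ := hmem g (mem_top g)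
      obtain ⟨k, rfl⟩ := hx
      obtain ⟨j, hj⟩ := hd.normal.conj_mem _ (zpow_mem (mem_zpowers r) k) ⟨d, hd'⟩
      refine ⟨j, ?_⟩
      have e1 : (r : G) ^ j = d * (r : G) ^ k * d⁻¹ := by simpa using congrArg Subtype.val hj
      have e2 := hBT' ((r : G) ^ k) (mem_top _) c hc'
      change (r : G) ^ j = _
      rw [e1]
      calc d * (r : G) ^ k * d⁻¹ = d * ((r : G) ^ k * c) * c⁻¹ * d⁻¹ := by group
        _ = _ := by rw [e2]; group⟩
    refine sec_of fun H K hHK => ?_
    have h1 : H ≤ (B ⊔ zpowers (r : G)) ⊔ zpowers (s : G) := fun x _ => by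
      obtain ⟨d, hd', c, hc', rfl⟩ := hmem x (mem_top x)
      refine mul_mem ?_ (mem_sup_left (mem_sup_left hc'))
      rcases hd.eq_zpow_or ⟨d, hd'⟩ with ⟨i, hi⟩ | ⟨i, hi⟩
      · have e : d = (r : G) ^ i := by simpa using congrArg Subtype.val hi
        exact e ▸ mem_sup_left (mem_sup_right ⟨i, rfl⟩)
      · have e : d = (r : G) ^ i * s := by simpa using congrArg Subtype.val hi
        exact e ▸ mul_mem (mem_sup_left (mem_sup_right ⟨i, rfl⟩)) (mem_sup_right (mem_zpowers _))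
    have h2 := step h1 hHK
    have h3 := step (M := B) (g := r) (H := (B ⊔ zpowers (r : G)) ⊓ H) inf_le_left
      (hHK.mono inf_le_right)
    have h5 := (relIndex_le_card K (B ⊓ ((B ⊔ zpowers (r : G)) ⊓ H))).trans
      (Sec.card_le_of_le inf_le_left)
    omega

/-- Let G be a finite group, x an involution and T ≤ G a Sylow 2-subgroup of C_G(x) (T ≤ C_G(x) with |C_G(x) : T| odd) which is the internal direct product of a subgroup D that is dihedral (of order ≥ 4) or quasi-dihedral and a Klein four-subgroup B. Suppose that for every involution b ∈ B, T ≤ C_G(b) with |C_G(b) : T| odd. Then every section of G has 2-rank at most 4. -/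
theorem result {G : Type*} [Group G] [Finite G] (x : G) (hx : orderOf x = 2) (T D B : Subgroup G) (hT : IsPGroup 2 T) (hTx : T ≤ Subgroup.centralizer ({x} : Set G)) (hTxi : Odd (T.relIndex (Subgroup.centralizer ({x} : Set G)))) (hprod : Cfsg.IsInternalDirectProduct D B T) (hD : (∃ m : ℕ, 2 ≤ m ∧ Nonempty (D ≃* DihedralGroup m)) ∨ Cfsg.IsQuasiDihedral D) (hB : IsKleinFour B) (hTb : ∀ b ∈ B, orderOf b = 2 → T ≤ Subgroup.centralizer ({b} : Set G) ∧ Odd (T.relIndex (Subgroup.centralizer ({b} : Set G)))) : Cfsg.SectionalPRankLE 2 4 G := by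
  obtain ⟨S, hS⟩ := hT.exists_le_sylow
  obtain ⟨hDT, hBT, hc, hi, hs⟩ := hprod
  refine sec_of_sylow S ?_
  have eD := subgroupOfEquivOfLe (hDT.trans hS)
  have hB2 : ∀ b ∈ B, b * b = 1 := fun b hb =>
    congrArg Subtype.val (IsKleinFour.mul_self (⟨b, hb⟩ : B))
  refine core S.2 (T := T.subgroupOf S) (D := D.subgroupOf S) (B := B.subgroupOf S)
    (fun a ha => hDT ha) (fun a ha => hBT ha) (fun a ha b hb => Subtype.ext (hc a ha b hb)) ?_ ?_ ?_ ?_
    (fun b hb => Subtype.ext (hB2 b hb)) ?_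
  · exact eq_bot_iff.mpr fun y hy => Subtype.ext
      (mem_bot.mp (hi ▸ mem_inf.2 ⟨(mem_inf.1 hy).1, (mem_inf.1 hy).2⟩ : (y : G) ∈ (⊥ : Subgroup G)))
  · rw [← subgroupOf_sup (hDT.trans hS) (hBT.trans hS), hs]
  · rcases dcases (hT.to_le hDT) hD with ⟨h1, h2⟩ | ⟨m, a, b, h⟩
    · exact Or.inl ⟨by rw [Nat.card_congr eD.toEquiv, h1], fun y => eD.injective (by
        rw [map_mul, map_one]; exact h2 _)⟩
    · exact Or.inr ⟨m, _, _, h.of_mulEquiv eD.symm⟩
  · rw [Nat.card_congr (subgroupOfEquivOfLe (hBT.trans hS)).toEquiv, hB.card_four]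
  · intro b hb hb1 y hy
    have hb1' : (b : G) ≠ 1 := fun e => hb1 (Subtype.ext e)
    obtain ⟨h1, h2⟩ := hTb b hb (orderOf_eq_prime (by rw [sq]; exact hB2 b hb) hb1')
    have h3 := relIndex_mul_relIndex T ((S : Subgroup G) ⊓ centralizer {(b : G)})
      (centralizer {(b : G)}) (le_inf hS h1) inf_le_right
    have h4 : Odd (T.relIndex ((S : Subgroup G) ⊓ centralizer {(b : G)})) :=
      Odd.of_dvd_nat h2 (Dvd.intro _ h3)
    obtain ⟨n, hn⟩ := (S.2.to_le (inf_le_left : (S : Subgroup G) ⊓ centralizer {(b : G)} ≤ S)).index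
      (T.subgroupOf _)
    have h5 : T.relIndex ((S : Subgroup G) ⊓ centralizer {(b : G)}) = 1 := by
      rcases n with _ | n
      · exact hn
      · exact absurd (show Even (T.relIndex _) from by
          rw [relIndex, hn]; exact (Nat.even_pow.mpr ⟨even_two, by omega⟩)) (Nat.not_even_iff_odd.mpr h4)
    exact relIndex_eq_one.mp h5 (mem_inf.2 ⟨y.2, mem_centralizer_singleton_iff.2
      (congrArg Subtype.val (mem_centralizer_singleton_iff.1 hy))⟩)

end Cfsg.Agent.S1235
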