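import Cfsg.Statements.S1242
import Cfsg.Agent.Base
import Cfsg.Agent.H8.TransferEval
import Cfsg.Agent.H7.NPC

set_option autoImplicit false
open Cfsg

namespace Cfsg.Agent.S1242

/-- Let G be a finite group, p a prime and H a subgroup of index prime to p such that any two elements of H of p-power order that are conjugate in G are conjugate in H. Then (O^p(G)·G') ∩ H = O^p(H)·H', where O^p denotes the subgroup generated by the elements of order prime to p. -/
theorem result {G : Type*} [Group G] [Finite G] {p : ℕ} [Fact p.Prime] (H : Subgroup G) (hidx : Nat.Coprime p H.index) (hfus : ∀ g ∈ H, (∃ k : ℕ, orderOf g = p ^ k) → ∀ a : G, a * g * a⁻¹ ∈ H → ∃ h ∈ H, h * g * h⁻¹ = a * g * a⁻¹) : (Cfsg.pResidual p G ⊔ commutator G) ⊓ H = (Cfsg.pResidual p ↥H ⊔ commutator ↥H).map H.subtype := by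
  apply le_antisymm
  · rintro h ⟨hG, hH⟩
    set K := Cfsg.pResidual p H ⊔ commutator H
    have hcomm : IsMulCommutative (H ⧸ K) :=
      Subgroup.Normal.quotient_commutative_iff_commutator_le.mpr le_sup_right
    let _ : CommGroup (H ⧸ K) := { mul_comm := hcomm.1.1 }
    have hpK : IsPGroup p (H ⧸ K) := H7.isPGroup_quotient_of_pResidual_le le_sup_left
    let ϕ : H →* H ⧸ K := QuotientGroup.mk' K
    have hker : Cfsg.pResidual p G ⊔ commutator G ≤ (MonoidHom.transfer ϕ).ker :=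
      sup_le (H7.pResidual_le_ker hpK _) (Abelianization.commutator_subset_ker _)
    obtain ⟨k, m, hm, hkm⟩ := Nat.exists_eq_pow_mul_and_not_dvd (orderOf_pos h).ne' p
      (Fact.out : p.Prime).ne_one
    have hp : ∀ j : ℕ, ∃ k : ℕ, orderOf ((h ^ m) ^ j) = p ^ k := by
      intro j
      have : orderOf ((h ^ m) ^ j) ∣ p ^ k := by
        apply orderOf_dvd_of_pow_eq_one
        rw [← pow_mul, ← pow_mul, show m * (j * p ^ k) = (p ^ k * m) * j by ring, ← hkm, pow_mul,
          pow_orderOf_eq_one, one_pow]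
      obtain ⟨i, -, hi⟩ := (Nat.dvd_prime_pow Fact.out).mp this
      exact ⟨i, hi⟩
    have h1 : MonoidHom.transfer ϕ (h ^ m) = (ϕ ⟨h ^ m, H.pow_mem hH m⟩) ^ H.index := by
      apply H8.transfer_eq_pow_of_forall
      intro j a ha
      obtain ⟨c, hc, hc'⟩ := hfus _ (H.pow_mem (H.pow_mem hH m) j) (hp j) a⁻¹ (by simpa using ha)
      have : (⟨a⁻¹ * (h ^ m) ^ j * a, ha⟩ : H) =
          ⟨c, hc⟩ * ⟨h ^ m, H.pow_mem hH m⟩ ^ j * ⟨c, hc⟩⁻¹ := Subtype.ext (by simpa using hc'.symm)
      rw [this, map_mul, map_mul, map_inv, map_pow, mul_inv_cancel_comm]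
    have h2 : MonoidHom.transfer ϕ (h ^ m) = 1 := by
      rw [map_pow, show MonoidHom.transfer ϕ h = 1 from hker hG, one_pow]
    rw [h2] at h1
    have h3 : (ϕ ⟨h, hH⟩) ^ (m * H.index) = 1 := by
      rw [pow_mul, ← map_pow, h1]
      rfl
    have h4 : ϕ ⟨h, hH⟩ = 1 := by
      apply H7.eq_one_of_isPGroup_of_coprime hpK
      refine Nat.Coprime.coprime_dvd_left (orderOf_dvd_of_pow_eq_one h3) ?_
      exact Nat.Coprime.mul_left ((Nat.Prime.coprime_iff_not_dvd Fact.out).mpr hm).symm hidx.symm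
    exact ⟨⟨h, hH⟩, (QuotientGroup.eq_one_iff (⟨h, hH⟩ : H)).mp h4, rfl⟩
  · refine le_inf ?_ (Subgroup.map_subtype_le _)
    rw [Subgroup.map_sup, Subgroup.map_subtype_commutator]
    exact sup_le_sup (H7.map_pResidual_le _) (Subgroup.commutator_mono le_top le_top)

end Cfsg.Agent.S1242
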