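import Cfsg.Statements.S1271
import Cfsg.Agent.H14.LocBal3

set_option autoImplicit false
open Cfsg

namespace Cfsg.Agent.S1271

/-- Let G be finite with O_{p'}(G) = 1. Suppose that for every component L of G and every subgroup H ≥ L in which L is normal, the quotient H / C_H(L) is balanced for the prime p. Then G is balanced for p. -/
theorem result {G : Type*} [Group G] [Finite G] (p : ℕ) [Fact p.Prime] (hO : Cfsg.pPrimeCore p G = ⊥) (h : ∀ L : Subgroup G, Cfsg.IsComponent L → ∀ H : Subgroup G, L ≤ H → (L.subgroupOf H).Normal → ∀ [((Subgroup.centralizer (L : Set G)).subgroupOf H).Normal], Cfsg.IsBalancedFor p (↥H ⧸ (Subgroup.centralizer (L : Set G)).subgroupOf H)) : Cfsg.IsBalancedFor p G := by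
  intro x hx
  have hO' : H14.opp p (⊤ : Subgroup G) = ⊥ := by rw [H14.opp_top, hO]
  have hxp := H14.pow_eq_one_of_orderOf hx
  have hxP := H14.isPGroup_zpowers_of_pow hxp
  have hxt : x ∈ Subgroup.normalizer ((⊤ : Subgroup G) : Set G) :=
    Subgroup.le_normalizer (Subgroup.mem_top x)
  have hD : H14.opp p (Subgroup.centralizer ({x} : Set G)) ≤
      H14.opp p (⊤ ⊓ Subgroup.centralizer ({x} : Set G)) := by rw [top_inf_eq]
  have hc := H14.commutator_pCoreOf_of_le_opp hxp hxt hD
  refine le_trans (le_of_eq (H14.eq_bot_of_commutator_cp hO' le_top (H14.coprime_card_opp _)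
    (fun K hK => ?_) hc)) bot_le
  by_cases h1 : x ∉ Subgroup.normalizer (K : Set G) ∨ x ∈ Subgroup.centralizer (K : Set G)
  · exact H14.commutator_eq_bot_mono (hK.commutator_opp_centralizer hO' hxP hxt
      (by rw [hxp]; exact one_mem _) h1) le_rfl hD
  push Not at h1
  set M := K ⊔ (Subgroup.normalizer (K : Set G) ⊓ Subgroup.centralizer ({x} : Set G)) with hM
  have hMN : M ≤ Subgroup.normalizer (K : Set G) := sup_le Subgroup.le_normalizer inf_le_left
  have := H14.normal_centralizer_subgroupOf hMN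
  have hσ := H14.isSecRep_mk' (K := K) (H := M) le_sup_left hMN
  have hxM : x ∈ M := Subgroup.mem_sup_right ⟨h1.1, Subgroup.mem_centralizer_singleton_iff.mpr rfl⟩
  have hDM : H14.opp p (Subgroup.centralizer ({x} : Set G)) ≤ M :=
    le_trans (le_inf ((hD.trans le_sup_right).trans (H14.hat_le_normalizer_cp' hO' hxP hxt hK))
      (H14.opp_le _)) le_sup_right
  have h2 := hσ.map_le_opp_centralizer (p := p) ⟨x, hxM⟩
    (H14.commutatorElement_mem_of_mem_sup h1.1 inf_le_left inf_le_right) hDM
    (Subgroup.commutator_eq_bot_iff_le_centralizer.mp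
      (H14.commutator_eq_bot_mono hc le_rfl (hK.center_le_pCoreOf hO')))
    inf_le_right le_rfl le_rfl
  have h3 := h K (H14.cp_top_iff.mp hK) M le_sup_left
    ((Subgroup.normal_subgroupOf_iff_le_normalizer le_sup_left).mpr hMN)
    (QuotientGroup.mk' _ ⟨x, hxM⟩) (H14.orderOf_eq_of_pow (by
      rw [← map_pow, show (⟨x, hxM⟩ : M) ^ p = 1 from Subtype.ext hxp, map_one])
      (fun e => h1.2 (hσ.eq_one_iff.mp e)))
  rw [hσ.pPrimeCore_eq_bot hK.quasi (hK.dvd_card hO')] at h3
  have h4 := (hσ.map_eq_bot_iff hDM).mp (le_bot_iff.mp (h2.trans h3))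
  exact H14.commutator_eq_bot_symm (Subgroup.commutator_eq_bot_iff_le_centralizer.mpr h4)

end Cfsg.Agent.S1271
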