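import Cfsg.Statements.S1313
import Cfsg.Agent.H14.FStar

set_option autoImplicit false
open Cfsg

namespace Cfsg.Agent.S1313

theorem card_mulAut_le (F : Type*) [Group F] [Finite F] :
    Nat.card (MulAut F) * Nat.card F ≤ Nat.factorial (Nat.card F) := by
  classical
  have := Fintype.ofFinite F
  let f : MulAut F × F → Equiv.Perm F := fun x => x.1.toEquiv.trans (Equiv.mulRight x.2)
  have hf : Function.Injective f := by
    rintro ⟨a, x⟩ ⟨b, y⟩ h
    have h1 : ∀ z, a z * x = b z * y := fun z => congrArg (fun e : Equiv.Perm F => e z) h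
    have h2 : x = y := by simpa using h1 1
    subst h2
    have h3 : a = b := MulEquiv.ext fun z => mul_right_cancel (h1 z)
    rw [h3]
  have := Nat.card_le_card_of_injective f hf
  rwa [Nat.card_prod, Nat.card_perm] at this

/-- For a finite group H, |H| ≤ |F*(H)|!. -/
theorem result {H : Type*} [Group H] [Finite H] : Nat.card H ≤ Nat.factorial (Nat.card ↥(Cfsg.generalizedFittingSubgroup H)) := by
  set F := generalizedFittingSubgroup H with hF
  let φ : H →* MulAut F := MulAut.conjNormal
  have hk : φ.ker ≤ F := by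
    refine le_trans ?_ (H14.centralizer_fstar_le (G := H))
    intro x hx
    rw [Subgroup.mem_centralizer_iff]
    intro y hy
    have h1 : φ x ⟨y, hy⟩ = ⟨y, hy⟩ := by rw [MonoidHom.mem_ker.mp hx]; rfl
    have h2 : x * y * x⁻¹ = y := congrArg Subtype.val h1
    rw [mul_inv_eq_iff_eq_mul] at h2
    exact h2.symm
  have h1 : Nat.card H = Nat.card φ.range * Nat.card φ.ker := by
    rw [← Subgroup.index_ker, Subgroup.index_mul_card]
  rw [h1]
  refine le_trans (Nat.mul_le_mul ?_ (Subgroup.card_le_of_le hk)) (card_mulAut_le F)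
  exact Subgroup.card_le_card_group _

end Cfsg.Agent.S1313
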