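import Cfsg.Statements.S1476
import Cfsg.Agent.H20.CN2

set_option autoImplicit false
open Cfsg

namespace Cfsg.Agent.S1476

/-- Let G be a finite solvable group in which every non-identity element has nilpotent centralizer. Then either G is nilpotent; or G has a normal subgroup K with a Frobenius complement E (K E = G, K ∩ E = 1, E meets its conjugates by outside elements trivially) such that E is cyclic or E is generated by two elementwise-commuting subgroups, one cyclic of odd order and one isomorphic to a generalized quaternion group; or G is a three-step group with respect to some prime p. -/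
theorem result {G : Type*} [Group G] [Finite G] [Group.IsSolvable G] (hCN : Cfsg.IsCNGroup G) :
    Group.IsNilpotent G ∨
      (∃ K E : Subgroup G, K.Normal ∧ Subgroup.IsComplement' K E ∧ Cfsg.IsFrobeniusComplement E ∧
        (IsCyclic E ∨ ∃ C Q : Subgroup G, C ⊔ Q = E ∧ (∀ a ∈ C, ∀ b ∈ Q, a * b = b * a) ∧ IsCyclic C ∧ Odd (Nat.card C) ∧
          ∃ n : ℕ, Nonempty (↥Q ≃* QuaternionGroup (2 ^ n)))) ∨
      ∃ p : ℕ, p.Prime ∧ Cfsg.IsThreeStepGroup p G := by
  by_cases hnn : Group.IsNilpotent G
  · exact Or.inl hnn
  right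
  have : Nontrivial G := by
    by_contra h
    have := not_nontrivial_iff_subsingleton.1 h
    exact hnn inferInstance
  obtain ⟨p, hp, hO⟩ := H2.exists_pCore_ne_bot G
  have : Fact p.Prime := ⟨hp⟩
  obtain ⟨P⟩ : Nonempty (Sylow p G) := inferInstance
  by_cases hP : (P : Subgroup G).Normal
  · obtain ⟨h1, -, E, hE, h3, h4, h5⟩ := H20.cn_frobenius hCN hnn p P
      (fun h => hO (eq_bot_iff.2 (h ▸ H2.pCore_le_sylow P))) hP
    exact Or.inl ⟨_, E, inferInstance, hE, h3, H20.structure_of_fpf_of_nil h1
      (by rw [Subgroup.normalizer_eq_top]; exact le_top) h4 h5⟩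
  · exact Or.inr ⟨p, hp, H20.cn_three_step hCN hO P hP⟩

end Cfsg.Agent.S1476
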