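import Cfsg.Statements.S1623
import Cfsg.Agent.H4.Ico6

set_option autoImplicit false
open Quaternion
open Cfsg

namespace Cfsg.Agent.S1623

/-- A reflection centraliser in the Hall–Janko group is an extension of an extraspecial group of order 32 by the alternating group of degree 5. -/
theorem result (f : Equiv.Perm ↥Cfsg.Spor.icoLeech) (hf : Cfsg.Spor.IsIcoReflection f) (hfm : f ∈ Cfsg.Spor.twoJ2) : ∃ (Q : Subgroup ↥(Subgroup.centralizer {(QuotientGroup.mk ⟨f, hfm⟩ : Cfsg.Spor.J2)})) (_ : Q.Normal), Nat.card Q = 32 ∧ Cfsg.IsExtraspecial 2 Q ∧ Nonempty (↥(Subgroup.centralizer {(QuotientGroup.mk ⟨f, hfm⟩ : Cfsg.Spor.J2)}) ⧸ Q ≃* alternatingGroup (Fin 5)) := by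
  obtain ⟨ψ, hψ⟩ := H4.Ico.exists_equiv
  obtain ⟨g, hg, rfl⟩ := H4.Ico.refl_trans hf
  have : Finite Spor.J2 := Finite.of_equiv _ ψ.toEquiv
  have h := (H4.M2.jm.equiv (ψ.trans (MulAut.conj (QuotientGroup.mk ⟨g, hg⟩ : Spor.J2)))).jt
  have e : ((ψ.trans (MulAut.conj (QuotientGroup.mk ⟨g, hg⟩ : Spor.J2))).toMonoidHom.comp H4.M2.io)
      H4.X1.z = QuotientGroup.mk ⟨_, hfm⟩ := by
    show (QuotientGroup.mk ⟨g, hg⟩ : Spor.J2) * ψ (H4.M2.io H4.X1.z) * (QuotientGroup.mk ⟨g, hg⟩)⁻¹ = _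
    rw [H4.M2.io_z, hψ]; rfl
  rw [e] at h
  obtain ⟨hn, he⟩ := h.quot_equiv
  have hle : _ ≤ Subgroup.centralizer {(QuotientGroup.mk ⟨_, hfm⟩ : Spor.J2)} :=
    fun x hx => H4.mem_cz.mpr (h.z_comm x hx).symm
  exact ⟨_, hn, (Nat.card_congr (Subgroup.subgroupOfEquivOfLe hle).toEquiv).trans h.cardQ,
    H78.isExtraspecial_of_equiv (Subgroup.subgroupOfEquivOfLe hle).symm h.toXS.isExtraspecial, he⟩

end Cfsg.Agent.S1623
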