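import Cfsg.Statements.S1708
import Cfsg.Agent.H22.HNP

set_option autoImplicit false
open Cfsg

namespace Cfsg.Agent.S1708

/-- In the presented Harada–Norton group, the subgroup N generated by the images of x, y, z has a normal subgroup of index 2 which is a non-split double cover of the Higman–Sims group. -/
theorem result : ∃ K : Subgroup (((Subgroup.closure ({Cfsg.Spor.HN.x, Cfsg.Spor.HN.y, Cfsg.Spor.HN.z} : Set (FreeGroup Cfsg.Spor.HN.Gen))).map (PresentedGroup.mk (Cfsg.Spor.coxRelators Cfsg.Spor.HN.edges ∪ {r | r ∈ Cfsg.Spor.HN.extra})))), K.Normal ∧ K.index = 2 ∧ Cfsg.IsNonsplitDoubleCover K Cfsg.Spor.HS := by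
  have e0 := (H71.map_closure_eq_gen (PresentedGroup.mk (Cfsg.Spor.coxRelators Cfsg.Spor.HN.edges ∪ {r | r ∈ Cfsg.Spor.HN.extra})) H73.HNs.val
    [Cfsg.Spor.HN.x, Cfsg.Spor.HN.y, Cfsg.Spor.HN.z] [0,2,6] rfl (X := {Cfsg.Spor.HN.x, Cfsg.Spor.HN.y, Cfsg.Spor.HN.z}) (by ext; simp)).trans H73.HNT.gen_xyz
  have e : H22.HN.X ≃* H73.HNT.φ.range := (MonoidHom.ofInjective H22.HN.ι_inj).trans
    ((MulEquiv.subgroupCongr H22.HN.range_ι).trans (H22.HN.eY.subgroupMap _).symm)
  let e' := e.trans (MulEquiv.subgroupCongr e0.symm)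
  have h2 : ((H22.HN.N.comap H22.HN.π).map e'.toMonoidHom).index = 2 := by
    rw [← H22.HN.indexM]; exact Subgroup.index_map_equiv _ e'
  exact ⟨_, Subgroup.normal_of_index_eq_two h2, h2,
    H71.nonsplit_congr H22.HN.coverM (e'.subgroupMap _) (MulEquiv.refl _)⟩

end Cfsg.Agent.S1708
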