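import Cfsg.Statements.S1893
import Cfsg.Agent.Base
import Cfsg.Agent.H11.QuadAct
import Cfsg.Agent.H18.PSolv
import Cfsg.Agent.H98.Sylow
import Cfsg.Agent.H4.Hall
import Cfsg.Agent.H2.MinNormal
import Cfsg.Agent.H1.Coprime

set_option autoImplicit false
open Cfsg

namespace Cfsg.Agent.S1893

open Subgroup in
theorem sol_of_inv {G X : Type*} [Group G] [Group X] [Group.IsSolvable G] (h : Involves X G) :
    Group.IsSolvable X := by
  obtain ⟨K, R, _, ⟨e⟩⟩ := h
  exact Group.isSolvable_of_surjective (f := e.toMonoidHom) e.surjective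

open Subgroup in
theorem quad_prime {S : Type*} [Group S] [Finite S] [Group.IsSolvable S] {p : ℕ} (hp : p.Prime)
    (h5 : 5 ≤ p) {y : S} (hy : ∃ k : ℕ, y ^ p ^ k = 1)
    (hq : ⁅⁅fittingSubgroup S, zpowers y⁆, zpowers y⁆ = ⊥) : y ∈ fittingSubgroup S := by
  haveI := Fact.mk hp
  set F := fittingSubgroup S with hF
  set P := pCore p S with hP
  set Q := pPrimeCore p S ⊓ F with hQ
  have hqd : ¬ Involves (qd p) S := H11.not_involves_qd_of_not_involves_sl fun h =>
    haveI := sol_of_inv h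
    H11.not_isPSolvable_sl h5 (H18.isPSolvable_of_isSolvable p)
  have hPF : P ≤ F := H2.pCore_le_fitting p S
  have hst := H11.isPStableOn_of_not_involves_qd (by omega) hqd P (H2.pCore_isPGroup p S) y
    (le_bot_iff.1 (hq ▸ commutator_mono (commutator_mono hPF le_rfl) le_rfl))
  have hyp : IsPGroup p (zpowers y) := by
    obtain ⟨k, hk⟩ := hy
    rintro ⟨_, n, rfl⟩
    refine ⟨k, Subtype.ext ?_⟩
    show (y ^ n) ^ p ^ k = 1
    rw [← zpow_natCast, ← zpow_mul, mul_comm, zpow_mul, zpow_natCast, hk, one_zpow]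
  have hQc : (Nat.card Q).Coprime p :=
    Nat.Coprime.coprime_dvd_left (card_dvd_of_le inf_le_left) (H2.coprime_card_pPrimeCore p S)
  have hyQ : ⁅Q, zpowers y⁆ = ⊥ :=
    H1.commutator_eq_bot_of_commutator_commutator_eq_bot (by rw [normalizer_eq_top]; exact le_top)
      (H2.coprime_card_of_isPGroup hyp hQc) (Or.inl inferInstance)
      (le_bot_iff.1 (hq ▸ commutator_mono (commutator_mono inf_le_right le_rfl) le_rfl))
  set C := centralizer (P : Set S) with hC
  set M : Subgroup S := (pCore p (S ⧸ C)).comap (QuotientGroup.mk' C) ⊓ centralizer (Q : Set S)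
    with hM
  have hFPQ : F ≤ P ⊔ Q := by
    rw [hF, H2.fitting_eq_iSup_pCore]
    refine iSup_le fun q => ?_
    haveI := Fact.mk q.2
    by_cases hqp : (q : ℕ) = p
    · rw [hqp]; exact le_sup_left
    · exact le_sup_of_le_right (le_inf (H2.pCore_le_pPrimeCore_of_ne hqp) (H2.pCore_le_fitting _ S))
  -- p'-elements of M are central in M
  have key : ∀ x ∈ M, (orderOf x).Coprime p → x ∈ Q := by
    intro x hx hc
    have h1 : x ∈ C := by
      have h2 : (QuotientGroup.mk x : S ⧸ C) ∈ pCore p (S ⧸ C) := hx.1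
      obtain ⟨k, hk⟩ := H2.pCore_isPGroup p (S ⧸ C) ⟨_, h2⟩
      have hk' : (QuotientGroup.mk x : S ⧸ C) ^ p ^ k = 1 := congrArg Subtype.val hk
      have h3 : orderOf (QuotientGroup.mk x : S ⧸ C) ∣ orderOf x :=
        orderOf_map_dvd (QuotientGroup.mk' C) x
      have h4 := Nat.eq_one_of_dvd_coprimes (hc.pow_right k) h3 (orderOf_dvd_of_pow_eq_one hk')
      exact (QuotientGroup.eq_one_iff x).1 (orderOf_eq_one_iff.1 h4)
    have h2 : x ∈ F := by
      apply H2.centralizer_fitting_le S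
      apply H98.centralizer_anti hFPQ
      rw [H98.centralizer_sup]
      exact ⟨h1, hx.2⟩
    obtain ⟨a, ha, b, hb, rfl⟩ := (H98.mem_sup_left_norm
      (H := P) (N := Q) (by rw [normalizer_eq_top]; exact le_top)).1 (hFPQ h2)
    have hab : Commute a b := by
      have := H2.pCore_le_centralizer_pPrimeCore p S ha b hb.1
      exact this.symm
    have hxb : Commute (a * b) b⁻¹ := (hab.mul_left (Commute.refl b)).inv_right
    have h3 : orderOf a ∣ orderOf (a * b) * orderOf b := by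
      have := hxb.orderOf_mul_dvd_mul_orderOf
      simpa using this
    have h4 : (orderOf b).Coprime p := H2.coprime_orderOf_of_mem_pPrimeCore hb.1
    obtain ⟨k, hk⟩ := H2.pCore_isPGroup p S ⟨a, ha⟩
    have hk' : a ^ p ^ k = 1 := congrArg Subtype.val hk
    have h5 := Nat.eq_one_of_dvd_coprimes ((Nat.Coprime.mul_left hc h4).pow_right k) h3
      (orderOf_dvd_of_pow_eq_one hk')
    rw [orderOf_eq_one_iff.1 h5, one_mul]
    exact hb
  have hMp : IsPGroup p (M ⧸ center M) := by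
    intro z
    obtain ⟨x, rfl⟩ := QuotientGroup.mk_surjective z
    obtain ⟨k, m, hm, hkm⟩ := Nat.exists_eq_pow_mul_and_not_dvd (orderOf_pos (x : S)).ne' p hp.ne_one
    refine ⟨k, ?_⟩
    rw [← QuotientGroup.mk_pow, QuotientGroup.eq_one_iff, mem_center_iff]
    intro g
    have h1 : (x : S) ^ p ^ k ∈ Q := by
      apply key _ (pow_mem x.2 _)
      have : orderOf ((x : S) ^ p ^ k) ∣ m := by
        apply orderOf_dvd_of_pow_eq_one
        rw [← pow_mul, ← hkm, pow_orderOf_eq_one]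
      exact Nat.Coprime.coprime_dvd_left this ((Nat.coprime_comm.1 (hp.coprime_iff_not_dvd.2 hm)))
    exact Subtype.ext (g.2.2 _ h1).symm
  haveI : Group.IsNilpotent (M ⧸ center M) := hMp.isNilpotent
  haveI : Group.IsNilpotent M := of_quotient_center_nilpotent inferInstance
  refine H2.le_fitting M ⟨hst, ?_⟩
  have := commutator_eq_bot_iff_le_centralizer.1 (commutator_comm Q (zpowers y) ▸ hyQ)
  exact this (mem_zpowers y)

open Subgroup in
theorem quad_le {S : Type*} [Group S] [Finite S] [Group.IsSolvable S] {B : Subgroup S}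
    (hB : ∀ q : ℕ, q.Prime → q ∣ Nat.card B → 5 ≤ q)
    (hq : ⁅⁅fittingSubgroup S, B⁆, B⁆ = ⊥) : B ≤ fittingSubgroup S := by
  refine H98.le_of_forall_prime_pow_mem fun q hqp hd x hx hk => quad_prime hqp (hB q hqp hd) hk ?_
  have : zpowers x ≤ B := zpowers_le.2 hx
  exact le_bot_iff.1 (hq ▸ commutator_mono (commutator_mono le_rfl this) this)

theorem five_le {q : ℕ} (hq : q.Prime) (h2 : q ≠ 2) (h3 : q ≠ 3) : 5 ≤ q :=
  hq.five_le_of_ne_two_of_ne_three h2 h3

open Subgroup in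
/-- the key case `O_{π'} = 1`, stated for an injective image -/
theorem core {S : Type*} [Group S] [Finite S] [Group.IsSolvable S]
    (π : Set ℕ) (h2 : 2 ∉ π) (h3 : 3 ∉ π) (hO : piCore πᶜ S = ⊥) (H : Subgroup S)
    (hH : Cfsg.IsPiHall π H) (A : Subgroup S)
    (hA : Cfsg.IsSCN ((Cfsg.fittingSubgroup H).map H.subtype) A)
    {B : Subgroup S} (hB : ∀ q : ℕ, q.Prime → q ∣ Nat.card B → q ∈ π)
    (hBA : B ≤ centralizer (A : Set S)) : B ≤ A := by
  set F := fittingSubgroup S with hF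
  obtain ⟨hA1, hA2, hA3⟩ := hA
  have five : ∀ {K : Subgroup S}, (∀ q : ℕ, q.Prime → q ∣ Nat.card K → q ∈ π) →
      ∀ q : ℕ, q.Prime → q ∣ Nat.card K → 5 ≤ q := fun hK q hq hd =>
    five_le hq (fun h => h2 (h ▸ hK q hq hd)) (fun h => h3 (h ▸ hK q hq hd))
  have hFH : F ≤ H := by
    rw [hF, H2.fitting_eq_iSup_pCore]
    refine iSup_le fun q => ?_
    haveI := Fact.mk q.2
    by_cases hq : (q : ℕ) ∈ π
    · exact H4.le_isPiHall_of_normal hH
        (H4.isPiSubgroup_of_isPGroup q.2 (H2.pCore_isPGroup _ S) hq)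
    · exact ((H2.pCore_le_piCore (π := πᶜ) hq).trans hO.le).trans bot_le
  have hFF : F ≤ (fittingSubgroup H).map H.subtype :=
    (le_inf le_rfl hFH).trans (H2.fitting_inf_le_map_subtype H)
  have hAC : A ≤ centralizer (A : Set S) := hA3.ge.trans inf_le_right
  have hFA : ⁅F, A⁆ ≤ A := H98.commutator_le_right' (hFF.trans hA2)
  have hAH : A ≤ H := hA1.trans (map_subtype_le _)
  have hAπ : ∀ q : ℕ, q.Prime → q ∣ Nat.card A → q ∈ π := fun q hq hd =>
    hH.1 q hq (hd.trans (card_dvd_of_le hAH))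
  have hCF : F ⊓ centralizer (A : Set S) ≤ A := (inf_le_inf_right _ hFF).trans hA3.le
  have hAB : ⁅A, B⁆ = ⊥ := by
    rw [commutator_comm]; exact commutator_eq_bot_iff_le_centralizer.2 hBA
  have h1 : ⁅⁅B, F⁆, A⁆ = ⊥ := by
    apply commutator_commutator_eq_bot_of_rotate
    · exact le_bot_iff.1 (hAB ▸ commutator_mono hFA le_rfl)
    · rw [hAB, commutator_bot_left]
  have h4 : ⁅F, B⁆ ≤ A := by
    refine le_trans (le_inf (commutator_le_left F B) ?_) hCF
    rw [commutator_comm]; exact commutator_eq_bot_iff_le_centralizer.1 h1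
  have h5 : B ≤ F := quad_le (five hB) (le_bot_iff.1 (hAB ▸ commutator_mono h4 le_rfl))
  exact (le_inf h5 hBA).trans hCF

open Subgroup in
theorem core2 {S : Type*} [Group S] [Finite S] [Group.IsSolvable S]
    (π : Set ℕ) (h2 : 2 ∉ π) (h3 : 3 ∉ π) (H : Subgroup S)
    (hH : Cfsg.IsPiHall π H) (A : Subgroup S)
    (hA : Cfsg.IsSCN ((Cfsg.fittingSubgroup H).map H.subtype) A)
    {B : Subgroup S} (hB : ∀ q : ℕ, q.Prime → q ∣ Nat.card B → q ∈ π)
    (hBA : B ≤ centralizer (A : Set S)) : B ≤ A := by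
  set N := piCore πᶜ S with hN
  set f := QuotientGroup.mk' N with hf
  have hNπ := H2.mem_of_dvd_card_piCore πᶜ S
  have disj : ∀ {K : Subgroup S}, (∀ q : ℕ, q.Prime → q ∣ Nat.card K → q ∈ π) → K ⊓ N = ⊥ := by
    intro K hK
    apply inf_eq_bot_of_coprime
    exact H4.coprime_of_pi hK fun q hq hqπ hd => hNπ q hq hd hqπ
  have hHN := disj hH.1
  have inj : ∀ x ∈ H, ∀ y ∈ H, f x = f y → x = y := by
    intro x hx y hy h
    have h1 : x⁻¹ * y ∈ N := QuotientGroup.eq.1 h
    have h2 : x⁻¹ * y ∈ H ⊓ N := ⟨H.mul_mem (H.inv_mem hx) hy, h1⟩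
    rw [hHN, mem_bot] at h2
    exact inv_mul_eq_one.1 h2
  let g : H →* H.map f := f.subgroupMap H
  have hg : Function.Bijective g := ⟨fun x y h => Subtype.ext
    (inj _ x.2 _ y.2 (congrArg Subtype.val h)), f.subgroupMap_surjective H⟩
  let e : H ≃* H.map f := MulEquiv.ofBijective g hg
  have hfit : (fittingSubgroup (H.map f)).map (H.map f).subtype =
      ((fittingSubgroup H).map H.subtype).map f := by
    rw [← H2.map_fitting_mulEquiv e, map_map, map_map]
    rfl
  obtain ⟨hA1, hA2, hA3⟩ := hA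
  have hAH : A ≤ H := hA1.trans (map_subtype_le _)
  have hA' : IsSCN ((fittingSubgroup (H.map f)).map (H.map f).subtype) (A.map f) := by
    rw [hfit]
    refine ⟨map_mono hA1, H98.map_le_normalizer_map f hA2, le_antisymm ?_ (le_inf (map_mono hA1)
      (H98.map_le_centralizer_map f (hA3.ge.trans inf_le_right)))⟩
    rintro _ ⟨⟨x, hx, rfl⟩, hc⟩
    refine ⟨x, hA3.le ⟨hx, fun a ha => ?_⟩, rfl⟩
    have hxH := map_subtype_le _ hx
    apply inj _ (mul_mem (hAH ha) hxH) _ (mul_mem hxH (hAH ha))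
    rw [map_mul, map_mul]
    exact hc _ ⟨a, ha, rfl⟩
  have h1 := core π h2 h3 (H2.piCore_quotient_piCore πᶜ S) (H.map f)
    (H4.isPiHall_map_of_surjective hH f (QuotientGroup.mk'_surjective N)) (A.map f) hA'
    (B := B.map f) (fun q hq hd => hB q hq (hd.trans (card_map_dvd B f)))
    (H98.map_le_centralizer_map f hBA)
  have hAπ : ∀ q : ℕ, q.Prime → q ∣ Nat.card A → q ∈ π := fun q hq hd =>
    hH.1 q hq (hd.trans (card_dvd_of_le hAH))
  intro x hx
  obtain ⟨a, ha, hax⟩ := h1 ⟨x, hx, rfl⟩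
  have h4 : a⁻¹ * x ∈ N := QuotientGroup.eq.1 hax
  have hc : Commute a⁻¹ x := (show Commute a x from hBA hx a ha).inv_left
  have h5 : ∀ q : ℕ, q.Prime → q ∣ Nat.card (zpowers (a⁻¹ * x)) → q ∈ π := by
    intro q hq hd
    rw [Nat.card_zpowers] at hd
    rcases (hq.dvd_mul).1 (hd.trans hc.orderOf_mul_dvd_mul_orderOf) with h | h
    · exact hAπ q hq (h.trans (A.orderOf_dvd_natCard (A.inv_mem ha)))
    · exact hB q hq (h.trans (B.orderOf_dvd_natCard hx))
  have h6 : a⁻¹ * x ∈ zpowers (a⁻¹ * x) ⊓ N := ⟨mem_zpowers _, h4⟩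
  rw [disj h5, mem_bot, inv_mul_eq_one] at h6
  exact h6 ▸ ha


/-- Let S be a finite solvable group, π a set of primes containing neither 2 nor 3, H a Hall π-subgroup of S, and A a self-centralizing normal subgroup of the Fitting subgroup F(H). Then C_S(A) = A × D for a normal subgroup D of C_S(A) whose order has no prime divisor in π. -/
theorem result {S : Type*} [Group S] [Finite S] [Group.IsSolvable S]
    (π : Set ℕ) (h2 : 2 ∉ π) (h3 : 3 ∉ π) (H : Subgroup S) (hH : Cfsg.IsPiHall π H)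
    (A : Subgroup S) (hA : Cfsg.IsSCN ((Cfsg.fittingSubgroup H).map H.subtype) A) :
    ∃ D : Subgroup S, D ≤ Subgroup.centralizer (A : Set S) ∧
      (∀ c ∈ Subgroup.centralizer (A : Set S), ∀ d ∈ D, c * d * c⁻¹ ∈ D) ∧
      A ⊓ D = ⊥ ∧ A ⊔ D = Subgroup.centralizer (A : Set S) ∧
      ∀ q : ℕ, q.Prime → q ∣ Nat.card D → q ∉ π := by
  set C := Subgroup.centralizer (A : Set S) with hC
  have hAC : A ≤ C := hA.2.2.ge.trans inf_le_right
  have hAH : A ≤ H := hA.1.trans (Subgroup.map_subtype_le _)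
  have hAπ : ∀ q : ℕ, q.Prime → q ∣ Nat.card A → q ∈ π := fun q hq hd =>
    hH.1 q hq (hd.trans (Subgroup.card_dvd_of_le hAH))
  obtain ⟨K, hK⟩ := H4.exists_isPiHallOf π C
  have hKA : K ≤ A := core2 π h2 h3 H hH A hA hK.2.1 hK.1
  obtain ⟨D, hD⟩ := H4.exists_isPiHallOf πᶜ C
  have hAD : A ⊓ D = ⊥ := Subgroup.inf_eq_bot_of_coprime
    (H4.coprime_of_pi hAπ fun q hq hqπ hd => hD.2.1 q hq hd hqπ)
  have hsup : A ⊔ D = C := by
    refine le_antisymm (sup_le hAC hD.1) ?_
    rw [← Subgroup.relIndex_eq_one]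
    by_contra hne
    obtain ⟨q, hq, hd⟩ := Nat.exists_prime_and_dvd hne
    by_cases hqπ : q ∈ π
    · exact hK.2.2 q hq hqπ (hd.trans (Subgroup.relIndex_dvd_of_le_left C
        (hKA.trans le_sup_left)))
    · exact hD.2.2 q hq hqπ (hd.trans (Subgroup.relIndex_dvd_of_le_left C le_sup_right))
  refine ⟨D, hD.1, ?_, hAD, hsup, fun q hq hd => hD.2.1 q hq hd⟩
  have hn : C ≤ Subgroup.normalizer (D : Set S) := by
    rw [← hsup]
    refine sup_le (H98.le_normalizer_of_le_centralizer ?_) Subgroup.le_normalizer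
    exact (H98.le_centralizer_centralizer A).trans (H98.centralizer_anti hD.1)
  exact fun c hc d hd => H98.conj_mem_of_mem_normalizer (hn hc) hd

end Cfsg.Agent.S1893
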