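import Cfsg.Statements.S1894
import Cfsg.Agent.H9.PBasic

set_option autoImplicit false
open Cfsg

namespace Cfsg.Agent.S1894


/-- Let P be a finite p-group, A a normal subgroup of P and B an abelian subgroup of A that is normal in P. Then some subgroup C of A containing B is normal in P and is self-centralizing and normal in A (C ∈ SCN(A)). -/
theorem result {P : Type*} [Group P] [Finite P] {p : ℕ} [Fact p.Prime] (hP : IsPGroup p P)
    (A : Subgroup P) [A.Normal] (B : Subgroup P) [B.Normal] (hBA : B ≤ A) (hB : IsMulCommutative B) :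
    ∃ C : Subgroup P, C.Normal ∧ B ≤ C ∧ Cfsg.IsSCN A C := by
  have : Group.IsNilpotent P := hP.isNilpotent
  obtain ⟨C, ⟨hCn, hBC, hCA, hCc⟩, hmax⟩ := (Set.toFinite {C : Subgroup P | C.Normal ∧ B ≤ C ∧
    C ≤ A ∧ IsMulCommutative C}).exists_maximal ⟨B, inferInstance, le_rfl, hBA, hB⟩
  refine ⟨C, hCn, hBC, hCA, by rw [Subgroup.normalizer_eq_top]; exact le_top, ?_⟩
  refine le_antisymm ?_ (le_inf hCA (Subgroup.le_centralizer C))
  by_contra hn
  obtain ⟨x, hx, hxC, hx2⟩ := H9.exists_central_mod hn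
  apply hxC
  refine hmax (y := C ⊔ Subgroup.zpowers x) ⟨H9.normal_sup_zpowers hx2, hBC.trans le_sup_left,
    sup_le hCA (by simpa using hx.1), ?_⟩ le_sup_left
    (Subgroup.mem_sup_right (Subgroup.mem_zpowers x))
  rw [← Subgroup.le_centralizer_iff_isMulCommutative]
  have h1 : C ≤ Subgroup.centralizer ((C ⊔ Subgroup.zpowers x : Subgroup P) : Set P) := by
    rw [Subgroup.le_centralizer_iff]
    exact sup_le (Subgroup.le_centralizer C) (by simpa using hx.2)
  refine sup_le h1 ?_
  rw [Subgroup.le_centralizer_iff]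
  refine sup_le ?_ (Subgroup.le_centralizer _)
  rw [Subgroup.le_centralizer_iff]
  simpa using hx.2


end Cfsg.Agent.S1894
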