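import Cfsg.Statements.S1895
import Cfsg.Agent.Base
import Cfsg.Agent.H48.Rank2Solv
import Cfsg.Agent.H48.Meta
import Cfsg.Agent.H9.Critical
import Cfsg.Agent.H9.RankFour
import Cfsg.Agent.H18.PSolv
import Cfsg.Agent.H98.Subnormal
import Cfsg.Agent.H1.Coprime2
import Cfsg.Agent.H12.Basic

set_option autoImplicit false
open Cfsg

namespace Cfsg.Agent.S1895

section

set_option linter.unusedSectionVars false

open Subgroup H48
open scoped commutatorElement

universe u

variable {G : Type u} [Group G] [Finite G] {p : ℕ} [hp : Fact p.Prime]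

theorem laffey (ho : Odd p) (hG : IsPGroup p G) (hc : ∀ x : G, x ^ p = 1 → x ∈ center G) (n : ℕ) :
    ∀ S : Subgroup G, Nat.card S = n → ∀ x ∈ S, ∀ y ∈ S, (x ^ p) ^ p = 1 → ⁅x, y⁆ ^ p = 1 := by
  induction n using Nat.strong_induction_on with
  | _ n ih =>
  intro S hS x hx y hy e
  rcases (H98.subN_of_isPGroup (hG.to_subgroup S) (zpowers_le.2 hx)).eq_or_exists_normal with
    h | ⟨N, h1, h2, h3⟩
  · obtain ⟨k, rfl⟩ := h.ge hy
    rw [commutatorElement_eq_one_iff_commute.2 ((Commute.refl x).zpow_right k), one_pow]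
  have xN := h1 (mem_zpowers x)
  have c := ih _ (hS ▸ H9.card_lt_of_lt h2) N rfl _
    (H1.conj_mem_of_le_normalizer h3 hy (inv_mem xN)) x xN
    (by rw [conj_pow, conj_pow, inv_pow, inv_pow, e]; simp)
  rw [commutatorElement_def, mul_assoc, mul_assoc, ← mul_assoc y,
    H9.mul_pow_of_odd (H9.commute_of_mem_center (hc _ c) _) (H9.commute_of_mem_center (hc _ c) _) ho c,
    conj_pow, inv_pow, mem_center_iff.1 (inv_mem (hc _ e)) y, mul_inv_cancel_right, mul_inv_cancel]

theorem om_pow (hc : ∀ x : G, x ^ p = 1 → x ∈ center G) {x : G} (hx : x ∈ Om p G) : x ^ p = 1 :=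
  pow_eq_one_of_mem_Om_of_mul (fun x y a b => by
    rw [(H9.commute_of_mem_center (hc y b) x).mul_pow, a, b, one_mul]) hx

theorem pc_char (ho : Odd p) (n : ℕ) : ∀ (R : Type u) [Group R] [Finite R] [Nontrivial R],
    Nat.card R = n → IsPGroup p R → (∀ x : R, x ^ p = 1 → x ∈ center R) →
    Nat.card (Om p R) ≤ p ^ 2 → ∃ S : Subgroup R, S.Characteristic ∧ S ≠ ⊤ ∧ S.index ≤ p ^ 2 := by
  induction n using Nat.strong_induction_on with
  | _ n ih =>
  intro R _ _ _ hn hR hc hO
  by_cases h : Om p R = ⊤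
  · exact ⟨⊥, inferInstance, bot_ne_top, by rwa [index_bot, ← card_top, ← h]⟩
  have := QuotientGroup.nontrivial_iff.2 h
  have l := fun x y => laffey ho hR hc _ ⊤ rfl x (mem_top x) y (mem_top y)
  have e : ∀ x : R, (x : R ⧸ Om p R) ^ p = 1 → (x ^ p) ^ p = 1 := fun x h =>
    om_pow hc ((QuotientGroup.eq_one_iff _).1 h)
  have hc' : ∀ x : R ⧸ Om p R, x ^ p = 1 → x ∈ center _ := fun x h => mem_center_iff.2 fun y => by
    obtain ⟨x, rfl⟩ := QuotientGroup.mk_surjective x
    obtain ⟨y, rfl⟩ := QuotientGroup.mk_surjective y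
    exact (commutatorElement_eq_one_iff_mul_comm.1
      ((QuotientGroup.eq_one_iff ⁅x, y⁆).2 (mem_Om (l x y (e x h))))).symm
  obtain ⟨S, h1, h2, h3⟩ := ih _ (by
    obtain ⟨z, hz⟩ := exists_prime_orderOf_dvd_card' (G := R) p (by
      obtain ⟨k, hk⟩ := IsPGroup.iff_card.1 hR
      rw [hk]
      exact dvd_pow_self p fun e => Finite.one_lt_card.ne' (hk.trans (by rw [e, pow_zero])))
    rw [← hn, (Om p R).card_eq_card_quotient_mul_card_subgroup]
    refine lt_mul_of_one_lt_right Nat.card_pos ((one_lt_card_iff_ne_bot _).2 fun k => ?_)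
    rw [show z = 1 from mem_bot.1 (k.le (mem_Om (hz ▸ pow_orderOf_eq_one z))), orderOf_one] at hz
    exact hp.out.one_lt.ne hz) (R ⧸ Om p R) rfl (hR.to_quotient _) hc' (by
    set Y := (Om p (R ⧸ Om p R)).comap (QuotientGroup.mk' (Om p R))
    have y : ∀ x : Y, (x.1 ^ p) ^ p = 1 := fun x => e x (om_pow hc' x.2)
    have m : ∀ a b : Y, (a * b) ^ p = a ^ p * b ^ p := fun a b => Subtype.ext
      (H9.mul_pow_of_odd (H9.commute_of_mem_center (hc _ (l _ _ (y b))) _)
        (H9.commute_of_mem_center (hc _ (l _ _ (y b))) _) ho (l _ _ (y b)))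
    have c1 := card_Om_mul_card_range m
    have c2 := card_Om_le_of_injective (p := p) Y.subtype Y.subtype_injective
    have c3 : Nat.card (powHom p m).range ≤ Nat.card (Om p Y) := card_le_of_le (by
      rintro _ ⟨a, rfl⟩
      exact mem_Om (Subtype.ext (y a)))
    have c4 : Nat.card Y = Nat.card (Om p (R ⧸ Om p R)) * Nat.card (Om p R) := by
      rw [mul_comm]
      exact QuotientGroup.card_preimage_mk (Om p R) (SetLike.coe (Om p (R ⧸ Om p R)))
    exact Nat.le_of_mul_le_mul_right (c4.symm.le.trans (c1.symm.le.trans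
      (Nat.mul_le_mul (c2.trans hO) (c3.trans c2)))) Nat.card_pos)
  exact ⟨S.comap (QuotientGroup.mk' _), Characteristic.comap_quotient_mk h1,
    fun k => h2 (comap_injective (QuotientGroup.mk'_surjective _) (k.trans (comap_top _).symm)),
    by rwa [index_comap_of_surjective _ (QuotientGroup.mk'_surjective _)]⟩

theorem card_mul_le (hG : IsPGroup p G) {A B : Subgroup G} (h : A < B) :
    Nat.card A * p ≤ Nat.card B := by
  obtain ⟨a, ha⟩ := IsPGroup.iff_card.1 (hG.to_subgroup A)
  obtain ⟨b, hb⟩ := IsPGroup.iff_card.1 (hG.to_subgroup B)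
  have := H9.card_lt_of_lt h
  rw [ha, hb, Nat.pow_lt_pow_iff_right hp.out.one_lt] at this
  rw [ha, hb, ← pow_succ]
  exact Nat.pow_le_pow_right hp.out.pos this

theorem ea_sup (hr : PRankLE p 2 G) {A : Subgroup G} (hA : A ≤ center G) (e : ∀ a ∈ A, a ^ p = 1)
    {x : G} (hx : x ^ p = 1) : Nat.card ↥(A ⊔ zpowers x) ≤ p ^ 2 := by
  have := normal_of_le_center hA
  refine hr _ (H9.isMulCommutative_sup_zpowers (H9.isMulCommutative_iff_forall.2
    fun a _ b hb => mem_center_iff.1 (hA hb) a) fun a ha => (mem_center_iff.1 (hA ha) x).symm) ?_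
  intro y hy
  obtain ⟨a, ha, _, ⟨k, rfl⟩, rfl⟩ := mem_sup_of_normal_left.1 hy
  rw [(H9.commute_of_mem_center (hA ha) _).symm.mul_pow, e a ha, ← zpow_natCast, ← zpow_mul,
    mul_comm k, zpow_mul, zpow_natCast, hx, one_zpow, one_mul]

theorem exists_char [Nontrivial G] (p2 : p ≠ 2) (hG : IsPGroup p G) (hr : PRankLE p 2 G) :
    ∃ S : Subgroup G, S.Characteristic ∧ S ≠ ⊤ ∧ S.index ≤ p ^ 2 := by
  have ho := hp.out.odd_of_ne_two p2
  let W : Subgroup G :=
    { carrier := {x | x ^ p = 1 ∧ ∀ g, ⁅x, g⁆ ∈ center G}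
      one_mem' := ⟨one_pow p, fun g => by simp [one_mem]⟩
      mul_mem' := fun {a b} ha hb => ⟨by
        rw [H9.mul_pow_of_odd_of_commute_pow (H9.commute_of_mem_center (hb.2 a) _)
          (H9.commute_of_mem_center (hb.2 a) _) ho (hb.1 ▸ Commute.one_left a), ha.1, hb.1, one_mul],
        fun g => by
          rw [H9.commutatorElement_mul_left']
          exact mul_mem (Normal.conj_mem inferInstance _ (hb.2 g) a) (ha.2 g)⟩
      inv_mem' := fun {a} ha => ⟨by rw [inv_pow, ha.1, inv_one], fun g => by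
        rw [H9.commutatorElement_inv_left (H9.commute_of_mem_center (ha.2 g) _)]
        exact inv_mem (ha.2 g)⟩ }
  have : W.Characteristic := H9.characteristic_of_forall_mem fun φ x hx =>
    ⟨by rw [← map_pow, hx.1, map_one], fun g => by
      rw [← φ.apply_symm_apply g, ← map_commutatorElement]
      exact H9.apply_mem_of_characteristic φ (hx.2 _)⟩
  by_cases hW : W ≤ center G
  · have hc : ∀ x : G, x ^ p = 1 → x ∈ center G := fun x hx => by
      by_cases h : IsCyclic G
      · exact mem_center_iff.2 fun g => h.isMulCommutative.1.1 g x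
      obtain ⟨E, _, e1, e2⟩ := exists_normal_elemAb_sq p2 hG h
      have EZ : E ≤ center G := fun a ha => hW ⟨e1.2 a ha, fun g => mem_center_iff.2 fun b =>
        (commutatorElement_eq_one_iff_mul_comm.1 (mem_bot.1
          ((commutator_commutator_top_eq_bot_of_card_le hG E e2.le).le (commutator_mem_commutator
            (commutator_mem_commutator ha (mem_top g)) (mem_top b))))).symm⟩
      exact EZ ((eq_of_le_of_card_ge le_sup_left (e2 ▸ ea_sup hr EZ e1.2 hx)).ge
        (mem_sup_right (mem_zpowers x)))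
    exact pc_char ho _ G rfl hG hc (hr _ (H9.isMulCommutative_iff_forall.2
      fun a _ b hb => mem_center_iff.1 (hc b (om_pow hc hb)) a) fun a => om_pow hc)
  obtain ⟨a, ha, an⟩ := SetLike.not_le_iff_exists.1 hW
  refine ⟨centralizer W, inferInstance,
    fun e => an (mem_center_iff.2 fun g => (e.ge (mem_top g) a ha).symm), ?_⟩
  have cu : ∀ a ∈ W, ∀ g, ⁅a, g⁆ ∈ W ⊓ center G := fun a ha g => ⟨⟨by
    rw [← H9.commutatorElement_pow_left (H9.commute_of_mem_center (ha.2 g) _), ha.1,
      commutatorElement_one_left], fun b => by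
    rw [commutatorElement_eq_one_iff_mul_comm.2 (mem_center_iff.1 (ha.2 g) b).symm]
    exact one_mem _⟩, ha.2 g⟩
  have l1 : W ⊓ center G < W ⊓ center G ⊔ zpowers a :=
    le_sup_left.lt_of_ne fun e => an (e.ge (mem_sup_right (mem_zpowers a))).2
  have c1 := card_mul_le hG l1
  have i : ∀ a ∈ W, (centralizer {a}).index ≤ p := fun b hb => (Nat.le_of_dvd Nat.card_pos
    (index_centralizer_singleton_dvd inf_le_right (cu b hb))).trans (Nat.le_of_mul_le_mul_right
      (c1.trans ((ea_sup (A := W ⊓ center G) hr inf_le_right (fun _ h => h.1.1) ha.1).trans (pow_two p).le)) hp.out.pos)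
  have AW : W ⊓ center G ⊔ zpowers a ≤ W := sup_le inf_le_left (zpowers_le.2 ha)
  obtain ⟨b, hb, e⟩ : ∃ b ∈ W, W ≤ W ⊓ center G ⊔ zpowers a ⊔ zpowers b := by
    rcases AW.eq_or_lt with e | l
    · exact ⟨1, one_mem _, e.ge.trans le_sup_left⟩
    obtain ⟨b, hb, bn⟩ := SetLike.exists_of_lt l
    refine ⟨b, hb, (eq_of_le_of_card_ge (sup_le AW (zpowers_le.2 hb)) ?_).ge⟩
    have c0 := card_mul_le hG (bot_lt_iff_ne_bot.2 fun e : W ⊓ center G = ⊥ => an
      (mem_center_iff.2 fun g => (commutatorElement_eq_one_iff_mul_comm.1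
        (mem_bot.1 (e.le (cu a ha g)))).symm))
    have c2 := card_mul_le hG (le_sup_left.lt_of_ne
      fun e : _ = _ ⊔ zpowers b => bn (e.ge (mem_sup_right (mem_zpowers b))))
    rw [card_bot, one_mul] at c0
    refine (card_le_cube_of_exponent' (H := W) hr fun x hx => hx.1).trans (le_trans ?_ c2)
    rw [pow_succ, pow_two]
    exact Nat.mul_le_mul_right _ ((Nat.mul_le_mul_right _ c0).trans c1)
  refine (Nat.le_of_dvd (Nat.pos_of_ne_zero index_ne_zero_of_finite) (index_dvd_of_le
    (show centralizer {a} ⊓ centralizer {b} ≤ centralizer W from fun g hg => ?_))).trans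
    (index_inf_le.trans ((Nat.mul_le_mul (i a ha) (i b hb)).trans (pow_two p).ge))
  exact fun w hw => mem_centralizer_singleton_iff.1 ((e.trans (sup_le (sup_le
    (fun z hz => mem_centralizer_singleton_iff.2 (mem_center_iff.1 hz.2 g).symm) (zpowers_le.2
      (mem_centralizer_singleton_iff.2 (mem_centralizer_singleton_iff.1 hg.1).symm))) (zpowers_le.2
      (mem_centralizer_singleton_iff.2 (mem_centralizer_singleton_iff.1 hg.2).symm)))) hw)

theorem idx (A : Subgroup G) [A.Normal] (hA : IsPGroup p A) (h : Nat.card A ≤ p ^ 2) {n : ℕ}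
    (hn : p ^ n ∣ (centralizer (A : Set G)).index) : p ^ n ∣ p := by
  obtain ⟨P, hP⟩ := hA.exists_le_sylow
  have h1 := index_centralizer_dvd P.isPGroup' (A.subgroupOf P)
    (by rwa [Nat.card_congr (subgroupOfEquivOfLe hP).toEquiv])
  have h2 : centralizer (A.subgroupOf P : Set P) = (centralizer (A : Set G)).subgroupOf P :=
    Subgroup.ext fun x => ⟨fun h a ha => congrArg Subtype.val (h ⟨a, hP ha⟩ ha),
      fun h a ha => Subtype.ext (h a ha)⟩
  rw [← relIndex_mul_index (le_sup_left (b := (P : Subgroup G))), relIndex_sup_left] at hn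
  rw [h2] at h1
  exact (((hp.out.coprime_iff_not_dvd.2 fun k => P.not_dvd_index
    (k.trans (index_dvd_of_le le_sup_right))).pow_left n).dvd_of_dvd_mul_right hn).trans h1

theorem core (p2 : p ≠ 2) (hG : IsPSolvable p G) (h0 : pPrimeCore p G = ⊥) (hr : PRankLE p 2 G)
    {cov : Subgroup G → Prop} {n : ℕ} (top : cov ⊤) (bot : ¬ cov ⊥)
    (step : ∀ N N' : Subgroup G, N.Normal → N'.Normal → cov N' → cov N ∨ p ^ n ∣ N.relIndex N') :
    p ^ n ≤ p ^ 2 := by
  have low : ∀ k, ∀ S : Subgroup G, Nat.card S = k → S.Normal → IsPGroup p S → cov S →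
      p ^ n ≤ p ^ 2 := fun k => by
    induction k using Nat.strong_induction_on with
    | _ k ih =>
    intro S hk _ hS c
    have := (nontrivial_iff_ne_bot S).2 fun e => bot (e ▸ c)
    obtain ⟨T, _, h1, h2⟩ := exists_char p2 hS (pRankLE_subgroup hr S)
    have := H2.normal_map_subtype_of_characteristic S T
    rcases step (T.map S.subtype) S this inferInstance c with d | d
    · refine ih _ ?_ _ rfl this (hS.to_le (map_subtype_le T)) d
      rw [card_subtype, ← hk]
      exact (T.card_le_card_group).lt_of_ne fun e => h1 (T.eq_top_of_card_eq e)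
    · rw [relIndex, subgroupOf, comap_map_eq_self_of_injective S.subtype_injective] at d
      exact (Nat.le_of_dvd (Nat.pos_of_ne_zero index_ne_zero_of_finite) d).trans h2
  have hR := H2.pCore_isPGroup p G
  obtain ⟨D₀, _, d1, -, -, d2⟩ := H9.exists_characteristic_exponent_p_faithful p2 hR
  have := H2.normal_map_subtype_of_characteristic _ D₀
  set D := D₀.map (pCore p G).subtype
  have e1 : ∀ x ∈ D, x ^ p = 1 := by
    rintro _ ⟨x, hx, rfl⟩
    exact congrArg Subtype.val (d1 x hx)
  have hD : IsPGroup p D := hR.to_le (map_subtype_le _)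
  set f := QuotientGroup.mk' ⁅D, D⁆
  have := Normal.map this f (QuotientGroup.mk'_surjective _)
  rcases step ((centralizer (D.map f : Set _)).comap f) ⊤ inferInstance inferInstance top with c | c
  · refine low _ _ rfl inferInstance (H98.isPGroup_iff_forall.2 fun g hg => ?_) c
    obtain ⟨k, hk⟩ := exists_pow_pow_coprime hp.out g
    refine ⟨k, ?_⟩
    have hg := pow_mem hg (p ^ k)
    generalize g ^ p ^ k = h at hk hg
    have c1 := H1.le_centralizer_of_commutator_le_frattini (A := zpowers h) (K := D)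
      le_normalizer_of_normal (by
        rw [Nat.card_zpowers]
        exact H1.coprime_card_of_isPGroup hD hk) (le_trans (b := ⁅D, D⁆) (commutator_le.2 fun a ha b hb =>
          (QuotientGroup.eq_one_iff _).1 (commutatorElement_eq_one_iff_mul_comm.2
            (zpowers_le.2 hg hb (f a) ⟨a, ha, rfl⟩)))
        (commutator_le.2 fun a ha b hb => H9.commutatorElement_mem_map_frattini hD ha hb))
      (mem_zpowers h)
    have c2 := d2 (MulAut.conjNormal h) (hk.coprime_dvd_left (orderOf_map_dvd _ h))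
      fun x hx => Subtype.ext (mul_inv_eq_iff_eq_mul.2 (c1 x ⟨x, hx, rfl⟩).symm)
    obtain ⟨j, hj⟩ := hR ⟨h, H18.centralizer_pCore_le hG h0 fun x hx =>
      (mul_inv_eq_iff_eq_mul.1 (congrArg (fun a : MulAut (pCore p G) => (a ⟨x, hx⟩ : G)) c2)).symm⟩
    exact orderOf_eq_one_iff.1 (Nat.eq_one_of_dvd_coprimes (hk.pow_right j) dvd_rfl
      (orderOf_dvd_of_pow_eq_one (congrArg Subtype.val hj)))
  rw [relIndex_top_right, index_comap_of_surjective _ (QuotientGroup.mk'_surjective _)] at c
  refine (Nat.le_of_dvd hp.out.pos (idx _ (hD.map f) ?_ c)).trans (Nat.le_self_pow (by omega) p)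
  by_cases h : ⁅D, D⁆ = ⊥
  · exact (Nat.le_of_dvd Nat.card_pos (card_map_dvd D f)).trans (hr _
      (H9.isMulCommutative_iff_forall.2 fun a ha b hb =>
        commutator_eq_bot_iff_le_centralizer.1 h hb a ha) e1)
  have c1 := H12.card_mul_relIndex (commutator_le_left D D)
  have c2 : Nat.card (D.map f) = ⁅D, D⁆.relIndex D := by
    rw [← relIndex_ker, QuotientGroup.ker_mk']
  have c3 := Nat.le_of_dvd Nat.card_pos (((hD.to_le (commutator_le_left D D)).card_eq_or_dvd).resolve_left
    fun e => h (eq_bot_of_card_eq _ e))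
  rw [c2]
  refine Nat.le_of_mul_le_mul_left ((Nat.mul_le_mul_right _ c3).trans (c1.le.trans ?_)) hp.out.pos
  rw [← pow_succ']
  exact card_le_cube_of_exponent' hr e1

end


/-- Let p be an odd prime and G a finite p-solvable group with no elementary abelian subgroup of order p³. Then every chief factor H/K of G (H, K normal in G with no normal subgroup of G strictly between them) whose order is a power of p has order p or p². -/
theorem result {G : Type*} [Group G] [Finite G] {p : ℕ} [Fact p.Prime] (hp : p ≠ 2)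
    (hG : Cfsg.IsPSolvable p G) (hr : Cfsg.PRankLE p 2 G)
    (H K : Subgroup G) [H.Normal] [K.Normal] (hKH : K < H) (hpow : ∃ n : ℕ, K.relIndex H = p ^ n)
    (hchief : ∀ L : Subgroup G, L.Normal → K ≤ L → L ≤ H → L = K ∨ L = H) :
    K.relIndex H = p ∨ K.relIndex H = p ^ 2 := by
  obtain ⟨n, hn⟩ := hpow
  have pp : p.Prime := Fact.out
  have step : ∀ N N' : Subgroup G, N.Normal → H ≤ K ⊔ N' → H ≤ K ⊔ N ∨ p ^ n ∣ N.relIndex N' :=
    fun N N' _ c => (hchief (H ⊓ (K ⊔ N)) inferInstance (le_inf hKH.le le_sup_left)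
      inf_le_left).symm.imp (fun e => e.ge.trans inf_le_right) fun e => by
    rw [← hn, ← e, Subgroup.inf_relIndex_left]
    refine Dvd.dvd.trans ?_ (Subgroup.relIndex_dvd_of_le_left N' (le_sup_right (a := K)))
    rw [← QuotientGroup.ker_mk' (K ⊔ N), Subgroup.relIndex_ker, Subgroup.relIndex_ker]
    refine Subgroup.card_dvd_of_le ((Subgroup.map_mono c).trans ?_)
    rw [Subgroup.map_sup]
    refine sup_le (le_trans ?_ bot_le) le_rfl
    rw [le_bot_iff, Subgroup.map_eq_bot_iff, QuotientGroup.ker_mk']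
    exact le_sup_left
  have n0 : n ≠ 0 := fun e => hKH.not_ge (Subgroup.relIndex_eq_one.1 (by rw [hn, e, pow_zero]))
  have sj := QuotientGroup.mk'_surjective (pPrimeCore p G)
  have := core (n := n) hp (H18.isPSolvable_quotient hG _) (H2.pPrimeCore_quotient_pPrimeCore p G)
    (H48.pRankLE_quotient_pPrimeCore hr) (cov := fun N => H ≤ K ⊔ N.comap (QuotientGroup.mk' _))
    (by simp) (fun c => (step ⊥ _ inferInstance c).elim (fun e => hKH.not_ge (by simpa using e))
      fun e => by
        rw [Subgroup.relIndex_bot_left, MonoidHom.comap_bot, QuotientGroup.ker_mk'] at e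
        exact H2.not_dvd_card_pPrimeCore p G ((dvd_pow_self p n0).trans e))
    fun N N' _ _ c => (step _ _ inferInstance c).imp_right fun e => by
      rwa [Subgroup.relIndex_comap, Subgroup.map_comap_eq_self_of_surjective sj] at e
  rw [Nat.pow_le_pow_iff_right pp.one_lt] at this
  rw [hn]
  rcases (by omega : n = 1 ∨ n = 2) with rfl | rfl
  · exact Or.inl (pow_one p)
  · exact Or.inr rfl

end Cfsg.Agent.S1895
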