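import Cfsg.Statements.S1897
import Cfsg.Agent.H93.U33M
import Cfsg.Agent.H63.BMD1
import Cfsg.Agent.H55.Transport
import Cfsg.Agent.H19.L3Norm
import Cfsg.Agent.S0495

set_option autoImplicit false
open Cfsg

namespace Cfsg.Agent.S1897

open H93 in
def mp : SU 3 H55.F9 3 := su33 !![⟨1, 0⟩, ⟨1, 1⟩, ⟨1, 0⟩; ⟨1, 2⟩, ⟨0, 0⟩, ⟨2, 1⟩; ⟨1, 0⟩, ⟨2, 2⟩, ⟨1, 0⟩]
  (by rw [Matrix.det_fin_three]; decide +kernel) (by decide +kernel)
open H93 in
def mm : SU 3 H55.F9 3 := su33 !![⟨0, 0⟩, ⟨2, 2⟩, ⟨2, 1⟩; ⟨2, 1⟩, ⟨1, 0⟩, ⟨0, 1⟩; ⟨2, 2⟩, ⟨0, 2⟩, ⟨1, 0⟩]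
  (by rw [Matrix.det_fin_three]; decide +kernel) (by decide +kernel)
open H93 in
def ma : SU 3 H55.F9 3 := su33 !![⟨2, 0⟩, ⟨0, 0⟩, ⟨0, 0⟩; ⟨0, 0⟩, ⟨0, 0⟩, ⟨0, 1⟩; ⟨0, 0⟩, ⟨0, 2⟩, ⟨0, 0⟩]
  (by rw [Matrix.det_fin_three]; decide +kernel) (by decide +kernel)
open H93 in
def mb : SU 3 H55.F9 3 := su33 !![⟨1, 0⟩, ⟨2, 2⟩, ⟨1, 0⟩; ⟨2, 1⟩, ⟨0, 0⟩, ⟨1, 2⟩; ⟨1, 0⟩, ⟨1, 1⟩, ⟨1, 0⟩]
  (by rw [Matrix.det_fin_three]; decide +kernel) (by decide +kernel)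

theorem rel : H63.BMD.A2R mp mm ma mb := by
  have hp : mp⁻¹ = mp := inv_eq_of_mul_eq_one_right (H93.su33_ext (by decide +kernel))
  have hm : mm⁻¹ = mm := inv_eq_of_mul_eq_one_right (H93.su33_ext (by decide +kernel))
  have ha : ma⁻¹ = ma := inv_eq_of_mul_eq_one_right (H93.su33_ext (by decide +kernel))
  have hb : mb⁻¹ = mb := inv_eq_of_mul_eq_one_right (H93.su33_ext (by decide +kernel))
  constructor <;>
    (try simp only [Commute, SemiconjBy, commutatorElement_def, mul_inv_rev, hp, hm, ha, hb]) <;>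
    exact H93.su33_ext (by decide +kernel)

theorem not_central : mp ∉ Subgroup.center (SU 3 H55.F9 3) := fun h =>
  absurd (congrArg (fun g : SU 3 H55.F9 3 => g.1.1) (Subgroup.mem_center_iff.1 h mm))
    (by decide +kernel)

/-- The projective special unitary group PSU₃(3) (realised over the field with 9 elements) has a subgroup isomorphic to PSL₂(7). -/
theorem result {F : Type*} [Field F] [Fintype F] (hF : Fintype.card F = 9)
    {K : Type*} [Field K] [Fintype K] (hK : Fintype.card K = 7) :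
    ∃ H : Subgroup (Cfsg.PSU 3 F 3), Nonempty (H ≃* Matrix.ProjectiveSpecialLinearGroup (Fin 2) K) := by
  obtain ⟨φ, hφ⟩ := rel.stA.exists_hom le_rfl
  have e1 : φ (H57.xA 0 1 1) = mp := hφ 0 1 (by decide) 1
  let e := H55.psuCongr (FiniteField.ringEquivOfCardEq (H55.card_F9.trans hF.symm)) 3 3
  let ψ := e.toMonoidHom.comp ((QuotientGroup.mk' _).comp φ)
  have hk : ψ.ker = ⊥ := H63.BMD.sl32_ker fun h => not_central (by
    have : ψ (H57.xA 0 1 1) = 1 := h.ge (Subgroup.mem_top _)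
    rw [← e1, ← QuotientGroup.eq_one_iff]
    exact e.map_eq_one_iff.1 this)
  let f := MonoidHom.ofInjective ((MonoidHom.ker_eq_bot_iff ψ).1 hk)
  have : IsSimpleGroup (Matrix.SpecialLinearGroup (Fin 3) (ZMod 2)) :=
    { exists_pair_ne := (Finite.one_lt_card_iff_nontrivial.1
        (by rw [H19.card_sl32]; norm_num)).exists_pair_ne
      eq_bot_or_eq_top_of_normal := fun N _ => by
        by_cases h : N = ⊤
        · exact Or.inr h
        · rw [← QuotientGroup.ker_mk' N] at h ⊢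
          exact Or.inl (H63.BMD.sl32_ker h) }
  obtain ⟨g⟩ := Cfsg.Agent.S0495.result H19.card_sl32 hK
  exact ⟨ψ.range, ⟨f.symm.trans g⟩⟩

end Cfsg.Agent.S1897
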