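import Cfsg.Statements.S1898
import Cfsg.Agent.H86.R2Suz

set_option autoImplicit false
open Cfsg

namespace Cfsg.Agent.S1898

/-- Let X be a finite 2-group whose derived subgroup is elementary abelian and central. Then the subgroup generated by the elements of order dividing 4 has exponent dividing 4, and every automorphism of X fixing each element of order dividing 4 has 2-power order. -/
theorem result {X : Type*} [Group X] [Finite X] (hX : IsPGroup 2 X)
    (hel : Cfsg.IsElementaryAbelian 2 (commutator X)) (hcen : commutator X ≤ Subgroup.center X) :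
    (∀ x ∈ Subgroup.closure {g : X | g ^ 4 = 1}, x ^ 4 = 1) ∧
      ∀ φ : MulAut X, (∀ g : X, g ^ 4 = 1 → φ g = g) → ∃ k : ℕ, φ ^ (2 ^ k) = 1 := by
  have hpow : ∀ x y : X, (x * y) ^ 4 = x ^ 4 * y ^ 4 := fun x y =>
    have h := Subgroup.commutator_mem_commutator (Subgroup.mem_top y) (Subgroup.mem_top x)
    H86.mul_pow_four (Subgroup.mem_center_iff.mp (hcen h) x) (Subgroup.mem_center_iff.mp (hcen h) y)
      (hel.2 _ h)
  refine ⟨fun x hx => ?_, fun φ hφ => ?_⟩
  · induction hx using Subgroup.closure_induction with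
    | mem x hx => exact hx
    | one => exact one_pow _
    | mul x y _ _ h1 h2 => rw [hpow, h1, h2, one_mul]
    | inv x _ h => rw [inv_pow, h, inv_one]
  · obtain ⟨k, m, hm, e⟩ := Nat.exists_eq_pow_mul_and_not_dvd (orderOf_pos φ).ne' 2 (by norm_num)
    refine ⟨k, MulEquiv.ext fun x => H9.mulAut_fixes_of_pow_hom (H86.isPGroup_four hX) (H := ⊤)
      (fun x _ y _ => hpow x y) _ ?_ (fun _ _ => trivial) (fun x _ hx =>
        (MulAction.stabilizer (MulAut X) x).pow_mem (hφ x hx) _) x trivial⟩
    refine Nat.Coprime.coprime_dvd_left (orderOf_dvd_of_pow_eq_one (n := m) ?_)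
      (Nat.Coprime.pow_right 2 ((Nat.Prime.coprime_iff_not_dvd Nat.prime_two).mpr hm).symm)
    rw [← pow_mul, ← e, pow_orderOf_eq_one]

end Cfsg.Agent.S1898
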