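import Cfsg.Statements.S1899
import Cfsg.Agent.Base

set_option autoImplicit false
open Cfsg

namespace Cfsg.Agent.S1899


/-- Let a dihedral group of order 2n, n odd and n > 1, act on a finite abelian 2-group A through automorphisms d and t with d^n = 1, t² = 1 and t d t⁻¹ = d⁻¹, and suppose that d fixes only the identity. Then A is the internal direct product of C_A(t) and its image under d. -/
theorem result {A : Type*} [CommGroup A] [Finite A] (hA : IsPGroup 2 A)
    {n : ℕ} (hn : Odd n) (hn1 : 1 < n) (d t : MulAut A) (hd : d ^ n = 1) (ht : t ^ 2 = 1) (hdt : t * d * t⁻¹ = d⁻¹)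
    (hfix : ∀ a : A, d a = a → a = 1) :
    (MulEquiv.toMonoidHom t).eqLocus (MonoidHom.id A) ⊓ ((MulEquiv.toMonoidHom t).eqLocus (MonoidHom.id A)).map d.toMonoidHom = ⊥ ∧
      (MulEquiv.toMonoidHom t).eqLocus (MonoidHom.id A) ⊔ ((MulEquiv.toMonoidHom t).eqLocus (MonoidHom.id A)).map d.toMonoidHom = ⊤ := by
  have htt : ∀ a, t (t a) = a := fun a => by
    have := congrArg (fun f : MulAut A => f a) ht
    simpa [pow_two] using this
  have htd : ∀ a, t (d a) = d⁻¹ (t a) := fun a => by
    have := congrArg (fun f : MulAut A => f (t a)) hdt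
    simpa using this
  have htd' : ∀ a, t (d⁻¹ a) = d (t a) := fun a => by
    have := htd (d⁻¹ a)
    rw [MulAut.apply_inv_self] at this
    rw [this, MulAut.apply_inv_self]
  have hfix2 : ∀ a, d (d a) = a → a = 1 := by
    intro a ha
    apply hfix
    obtain ⟨m, rfl⟩ := hn
    have h1 : ∀ k : ℕ, (d ^ (2 * k)) a = a := by
      intro k
      induction k with
      | zero => simp
      | succ k ih =>
        rw [Nat.mul_succ, pow_add, MulAut.mul_apply, pow_two, MulAut.mul_apply, ha, ih]
    have h2 := congrArg (fun f : MulAut A => f a) hd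
    simp only [pow_succ', MulAut.mul_apply, h1, MulAut.one_apply] at h2
    exact h2
  have hmem : ∀ a, a ∈ (MulEquiv.toMonoidHom t).eqLocus (MonoidHom.id A) ↔ t a = a :=
    fun a => Iff.rfl
  constructor
  · rw [eq_bot_iff]
    rintro _ ⟨h1, b, hb, rfl⟩
    have h1' : t (d b) = d b := h1
    have hb' : t b = b := hb
    rw [htd, hb'] at h1'
    have : b = 1 := hfix2 b (by rw [← h1', MulAut.apply_inv_self])
    simp [this]
  · rw [eq_top_iff]
    intro a _
    let φ : A →* A := ((d⁻¹ * d⁻¹ : MulAut A) : A →* A) / MonoidHom.id A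
    have hφ : ∀ g, φ g = d⁻¹ (d⁻¹ g) / g := fun g => rfl
    have hinj : Function.Injective φ := by
      rw [injective_iff_map_eq_one]
      intro g hg
      rw [hφ, div_eq_one] at hg
      apply hfix2
      conv_lhs => rw [← hg]
      simp
    obtain ⟨g, rfl⟩ := Finite.surjective_of_injective hinj a
    have e : φ g = (d (t (d⁻¹ g)) * t (d (t (d⁻¹ g)))) * d ((d⁻¹ g * t (d⁻¹ g))⁻¹) := by
      rw [hφ, htd, htt, map_inv, map_mul, MulAut.apply_inv_self, mul_inv_rev, div_eq_mul_inv,
        mul_comm (d _), mul_assoc, mul_inv_cancel_left]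
    rw [e]
    refine Subgroup.mul_mem_sup ?_ ⟨_, ?_, rfl⟩
    · rw [hmem, map_mul, htt, mul_comm]
    · change t _ = _
      rw [map_inv, map_mul, htt, mul_comm]; rfl


end Cfsg.Agent.S1899
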