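import Cfsg.Statements.S1906
import Cfsg.Agent.H12.ExtTransfer
import Cfsg.Agent.H86.Fusion
import Cfsg.Agent.H2.MinNormal

set_option autoImplicit false
open Cfsg

namespace Cfsg.Agent.S1906

section
open Matrix
variable {F : Type*} [Field F]
abbrev M (F : Type*) := Matrix (Fin 3) (Fin 3) F

theorem adj_add (s : M F) : adjugate (1 + s) = adjugate s + (s.trace + 1) • (1 : M F) - s := by
  ext i j
  fin_cases i <;> fin_cases j <;> simp [adjugate_fin_three, trace_fin_three] <;> ring

theorem det_add' (s : M F) : det (1 + s) = 1 + s.trace + (adjugate s).trace + s.det := by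
  simp [adjugate_fin_three, trace_fin_three, det_fin_three]; ring

theorem rk1 {s : M F} (h2 : s * s = 1) (hd : s.det = 1) (h1 : s ≠ 1) :
    s.trace = -1 ∧ ∀ m : M F, (1 + s) * m * (1 + s) = (m * (1 + s)).trace • (1 + s) := by
  have ha : adjugate s = s := by
    have := mul_adjugate s
    rw [hd, one_smul] at this
    rw [← one_mul (adjugate s), ← h2, mul_assoc, this, mul_one]
  have h3 := mul_adjugate (1 + s)
  rw [adj_add, det_add', ha, hd, add_sub_cancel_left, mul_smul_comm, mul_one] at h3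
  have ht : s.trace + 1 = 0 := by
    by_contra h
    refine h1 (add_left_cancel (a := 1) (smul_right_injective _ h ?_))
    simp only [h3]
    module
  refine ⟨eq_neg_of_add_eq_zero_left ht, fun m => ?_⟩
  have h4 := adj_add s
  rw [ha, ht, zero_smul, add_zero, sub_self] at h4
  generalize 1 + s = a at h4
  have k : ∀ i j k l, a i j * a k l = a i l * a k j := by
    have := fun i j => congrFun (congrFun h4 i) j
    simp only [adjugate_fin_three, Fin.forall_fin_succ] at this
    simp at this
    obtain ⟨⟨a1, a2, a3⟩, ⟨a4, a5, a6⟩, a7, a8, a9⟩ := this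
    intro i j k l
    fin_cases i <;> fin_cases j <;> fin_cases k <;> fin_cases l <;> simp only [Fin.zero_eta, Fin.mk_one, Fin.reduceFinMk] <;> grind
  ext i l
  simp only [mul_apply, trace, diag, Matrix.smul_apply, smul_eq_mul, Finset.sum_mul]
  rw [Finset.sum_comm]
  refine Finset.sum_congr rfl fun j _ => Finset.sum_congr rfl fun k' _ => ?_
  linear_combination m j k' * k i j k' l

theorem mul_zero' (c : (2 : F) ≠ 0) {s u : M F} (s2 : s * s = 1) (sd : s.det = 1) (s1 : s ≠ 1)
    (u2 : u * u = 1) (ud : u.det = 1) (u1 : u ≠ 1) (h : s * u = u * s) (hne : s ≠ u) :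
    (1 + s) * (1 + u) = 0 := by
  obtain ⟨ts, hs⟩ := rk1 s2 sd s1
  obtain ⟨tu, hu⟩ := rk1 u2 ud u1
  have e1 : (1 + s) * (1 + u) * (1 + s) = (2 : F) • ((1 + s) * (1 + u)) := by
    have : s * u * s = u := by rw [h, mul_assoc, s2, mul_one]
    simp only [mul_add, add_mul, one_mul, mul_one, this, s2, ← h]; module
  have e2 : (1 + u) * (1 + s) * (1 + u) = (2 : F) • ((1 + s) * (1 + u)) := by
    have : s * u * u = s := by rw [mul_assoc, u2, mul_one]
    simp only [mul_add, add_mul, one_mul, mul_one, this, u2, ← h]; module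
  rw [hs] at e1
  rw [hu, trace_mul_comm] at e2
  by_cases h0 : ((1 + u) * (1 + s)).trace = 0
  · rw [h0, zero_smul] at e1
    exact (smul_eq_zero.1 e1.symm).resolve_left c
  · exact absurd (add_left_cancel (smul_right_injective _ h0 (e1.trans e2.symm))) hne

theorem comm3 (c : (2 : F) ≠ 0) {s u x y : M F} (s2 : s * s = 1) (sd : s.det = 1) (s1 : s ≠ 1)
    (u2 : u * u = 1) (ud : u.det = 1) (u1 : u ≠ 1) (h : s * u = u * s) (hne : s ≠ u)
    (xs : s * x = x * s) (xu : u * x = x * u) (ys : s * y = y * s) (yu : u * y = y * u) :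
    x * y = y * x := by
  have k : ∀ {a : M F}, a * a = 1 → a.det = 1 → a ≠ 1 → a * x = x * a → a * y = y * a →
      (1 + a) * (x * y) = (1 + a) * (y * x) := fun {a} a2 ad a1 hx hy => by
    have l : ∀ z : M F, a * z = z * a → ∃ t : F, (1 + a) * z = t • (1 + a) := fun z hz => by
      refine ⟨(2 : F)⁻¹ * (z * (1 + a)).trace, ?_⟩
      rw [mul_smul, ← (rk1 a2 ad a1).2, eq_inv_smul_iff₀ c]
      have : z * a * a = z := by rw [mul_assoc, a2, mul_one]
      simp only [mul_add, add_mul, one_mul, mul_one, hz, this]; module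
    obtain ⟨t, ht⟩ := l x hx
    obtain ⟨r, hr⟩ := l y hy
    rw [← mul_assoc, ← mul_assoc, ht, hr, smul_mul_assoc, smul_mul_assoc, ht, hr, smul_comm]
  have h0 := mul_zero' c s2 sd s1 u2 ud u1 h hne
  have k3 := k (a := s * u) (by rw [mul_assoc, ← mul_assoc u, ← h, mul_assoc, u2, mul_one, s2])
    (by rw [det_mul, sd, ud, mul_one]) (fun e => hne (by rw [← mul_one s, ← u2, ← mul_assoc, e, one_mul]))
    (by rw [mul_assoc, xu, ← mul_assoc, xs, mul_assoc]) (by rw [mul_assoc, yu, ← mul_assoc, ys, mul_assoc])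
  have e : (1 + s) + (1 + u) + (1 + s * u) = (2 : F) • (1 : M F) := by
    rw [← add_zero ((2 : F) • (1 : M F)), ← h0]
    simp only [mul_add, add_mul, one_mul, mul_one]; module
  refine smul_right_injective _ c ?_
  have := congrArg₂ (· + ·) (congrArg₂ (· + ·) (k s2 sd s1 xs ys) (k u2 ud u1 xu yu)) k3
  simpa only [← add_mul, e, smul_mul_assoc, one_mul] using this

theorem neg_mem (c : (2 : F) ≠ 0) {E : Type*} [Group E] [Finite E] (f : E →* M F)
    (hf : Function.Injective f) (hc : ∀ a b : E, a * b = b * a) (h2 : ∀ a : E, a * a = 1)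
    (h8 : Nat.card E = 8) : ∃ a, f a = -1 := by
  classical
  haveI := Fintype.ofFinite E
  by_contra! hn
  set g : E → M F := fun a => (f a).det • f a with hg
  have d2 : ∀ a, (f a).det * (f a).det = 1 := fun a => by
    rw [← det_mul, ← map_mul, h2, map_one, det_one]
  have gm : ∀ a b, g (a * b) = g a * g b := fun a b => by
    simp only [hg, map_mul, det_mul, smul_mul_smul_comm]
  have g1 : g 1 = 1 := by simp [hg]
  have gd : ∀ a, (g a).det = 1 := fun a => by
    simp only [hg, det_smul, Fintype.card_fin]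
    linear_combination ((f a).det * (f a).det + 1) * d2 a
  have gi : ∀ a, a ≠ 1 → g a ≠ 1 := fun a ha e => by
    rcases mul_self_eq_one_iff.1 (d2 a) with h | h
    · exact ha (hf (by simpa [hg, h] using e))
    · exact hn a (by rw [← e]; simp [hg, h])
  have z : ∀ a b, a ≠ 1 → b ≠ 1 → a ≠ b → (1 + g a) * g b = -(1 + g a) := fun a b ha hb hab => by
    have := mul_zero' c (by rw [← gm, h2, g1]) (gd a) (gi a ha) (by rw [← gm, h2, g1]) (gd b) (gi b hb)
      (by rw [← gm, hc, gm]) fun e => gi (a * b) (fun e' => hab (by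
        rw [← mul_one a, ← h2 b, ← mul_assoc, e', one_mul])) (by rw [gm, e, ← gm, h2, g1])
    rw [mul_add, mul_one] at this
    exact eq_neg_of_add_eq_zero_right this
  have ex : ∀ l : List E, l.length < 8 → ∃ a, a ∉ l := fun l hl => by
    by_contra! h
    have := (Finset.card_le_card fun a _ => List.mem_toFinset.2 (h a) :
      (Finset.univ : Finset E).card ≤ _).trans l.toFinset_card_le
    rw [Finset.card_univ, ← Nat.card_eq_fintype_card] at this
    omega
  obtain ⟨s, hs⟩ := ex [1] (by simp)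
  obtain ⟨u, hu⟩ := ex [1, s] (by simp)
  obtain ⟨w, hw⟩ := ex [1, s, u, u * s] (by simp)
  simp only [List.mem_cons, List.not_mem_nil, or_false, not_or] at hs hu hw
  have h3 := z s (u * w) hs (fun e => hw.2.2.1 (by rw [← one_mul w, ← h2 u, mul_assoc, e, mul_one]))
    fun e => hw.2.2.2 (by rw [e, ← mul_assoc, h2, one_mul])
  rw [gm, ← mul_assoc, z s u hs hu.1 (Ne.symm hu.2), neg_mul, z s w hs hw.1 (Ne.symm hw.2.1), neg_neg,
    eq_neg_iff_add_eq_zero, ← two_smul F] at h3
  have h4 := gd s
  rw [eq_neg_of_add_eq_zero_right ((smul_eq_zero.1 h3).resolve_left c), det_neg, det_one] at h4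
  exact c (by simp at h4; linear_combination -h4)

end

open Subgroup H98

/-- Let G be a finite group with no subgroup of index 2 whose Sylow 2-subgroup X embeds in GL₃(F) for a finite field F of odd order. If X contains an elementary abelian subgroup of order 8, then X is abelian. -/
theorem result {G : Type*} [Group G] [Finite G] (hG : ∀ H : Subgroup G, H.index ≠ 2) (X : Sylow 2 G)
    {F : Type*} [Field F] [Fintype F] (hF : Odd (Fintype.card F))
    (f : ↥(X : Subgroup G) →* GL (Fin 3) F) (hf : Function.Injective f)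
    (E : Subgroup G) (hE : E ≤ (X : Subgroup G)) (hEa : Cfsg.IsElementaryAbelian 2 E) (hE8 : Nat.card E = 8) :
    IsMulCommutative (X : Subgroup G) := by
  have c : (2 : F) ≠ 0 := fun h => by
    have := FiniteField.even_card_of_char_two (F := F) (CharP.ringChar_of_prime_eq_zero Nat.prime_two h)
    obtain ⟨k, hk⟩ := hF
    omega
  have hX := isSyl_sylow X
  generalize (X : Subgroup G) = S at *
  set φ : S →* M F := (Units.coeHom _).comp f with hφ
  have iφ : Function.Injective φ := Units.val_injective.comp hf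
  obtain ⟨⟨t, htE⟩, ht⟩ := neg_mem c (φ.comp (inclusion hE)) (iφ.comp (inclusion_injective hE))
    hEa.1.is_comm.comm (fun a => Subtype.ext (by rw [← sq]; exact hEa.2 a a.2)) hE8
  have htS := hE htE
  replace ht : φ ⟨t, htS⟩ = -1 := ht
  have tc : ∀ r ∈ S, r * t = t * r := fun r hr => congrArg Subtype.val
    (iφ (a₁ := ⟨r, hr⟩ * ⟨t, htS⟩) (a₂ := ⟨t, htS⟩ * ⟨r, hr⟩) (by rw [map_mul, map_mul, ht]; simp))
  have t2 : t * t = 1 := by rw [← sq]; exact hEa.2 t htE
  set δ : S →* F := Matrix.detMonoidHom.comp φ with hδ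
  set D := (Matrix.GeneralLinearGroup.det.comp f).ker.map S.subtype with hD
  have mD : ∀ x : S, (x : G) ∈ D ↔ (φ x).det = 1 := fun x => by
    rw [hD, ← S.subtype_apply, mem_map_iff_mem S.subtype_injective, MonoidHom.mem_ker, Units.ext_iff]
    rfl
  have SD : ⁅S, S⁆ ≤ D := by
    rw [hD, ← map_subtype_commutator]
    exact map_mono (Abelianization.commutator_subset_ker _)
  have dt : (φ ⟨t, htS⟩).det = -1 := by rw [ht, Matrix.det_neg]; norm_num
  have tD : t ∉ D := fun h => c (by linear_combination dt - (mD ⟨t, htS⟩).1 h)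
  obtain ⟨a, ha, hs⟩ : ∃ a, cj a S ≤ S ∧ a * t * a⁻¹ * t ∉ D := by
    by_contra! h
    refine H12.not_mem_res_of_extremal hX SD t2 htS tD htS hX.isPGroup tc h ?_
    rw [res_top, H86.pResidual_eq_top_of_index_ne_two hG]
    trivial
  have ea : cj a S = S := eq_of_le_of_card_ge ha (card_cj a S).ge
  have sS : a * t * a⁻¹ ∈ S := ha ⟨t, htS, rfl⟩
  set s : S := ⟨a * t * a⁻¹, sS⟩ with hs'
  have s2 : s * s = 1 := Subtype.ext (by simp [hs', t2])
  have sc : ∀ x : S, s * x = x * s := fun x => Subtype.ext (by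
    obtain ⟨r, hr, e⟩ := ea.ge x.2
    have e : (x : G) = a * r * a⁻¹ := e.symm
    simp only [hs', coe_mul, e, conj_mul, tc r hr])
  have sd : (φ s).det = 1 := by
    rcases mul_self_eq_one_iff.1 (show (φ s).det * (φ s).det = 1 by
      rw [← Matrix.det_mul, ← map_mul, s2, map_one, Matrix.det_one]) with h | h
    · exact h
    · exact absurd ((mD (s * ⟨t, htS⟩)).2 (by rw [map_mul, Matrix.det_mul, h, dt]; ring)) hs
  have s1 : φ s ≠ 1 := fun e => tD (by
    have : a * t * a⁻¹ = 1 := congrArg Subtype.val (iφ (e.trans φ.map_one.symm))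
    rw [conj_eq_one_iff.1 this]; exact one_mem _)
  by_contra hna
  obtain ⟨u, hu, u1, u2⟩ : ∃ u : S, u ∈ commutator S ⊓ center S ∧ u ≠ 1 ∧ u * u = 1 := by
    haveI := hX.isPGroup.isNilpotent
    have h1 : commutator S ⊓ center S ≠ ⊥ := fun e => hna ⟨⟨fun x y => by
      have : commutator S = ⊥ := by_contra fun h => H2.inf_center_ne_bot_of_isNilpotent _ h e
      exact commutatorElement_eq_one_iff_mul_comm.1 (mem_bot.1 (this.le (commutator_mem_commutator (mem_top x) (mem_top y))))⟩⟩
    obtain ⟨k, hk⟩ := (hX.isPGroup.to_subgroup (commutator S ⊓ center S)).exists_card_eq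
    obtain ⟨u, hu⟩ := exists_prime_orderOf_dvd_card' (G := ↥(commutator S ⊓ center S)) 2 (by
      rw [hk]; exact dvd_pow_self 2 fun e => h1 (card_eq_one.1 (by rw [hk, e, pow_zero])))
    refine ⟨u, u.2, fun e => ?_, ?_⟩
    · rw [← orderOf_coe, e, orderOf_one] at hu; omega
    · rw [← sq, ← hu, ← coe_pow, pow_orderOf_eq_one, coe_one]
  have uS : (u : G) ∈ ⁅S, S⁆ := map_subtype_commutator S ▸ mem_map_of_mem _ hu.1
  have uc : ∀ x : S, u * x = x * u := fun x => (mem_center_iff.1 hu.2 x).symm
  by_cases h : s = u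
  · refine tD (SD ?_)
    have : cj a ⁅S, S⁆ = ⁅S, S⁆ := by rw [cj_commutator, ea]
    obtain ⟨r, hr, e⟩ := this.ge uS
    have e : a * r * a⁻¹ = a * t * a⁻¹ := e.trans (congrArg Subtype.val h.symm)
    rwa [← mul_left_cancel (mul_right_cancel e)]
  refine hna ⟨⟨fun x y => iφ ?_⟩⟩
  rw [map_mul, map_mul]
  exact comm3 c (by rw [← map_mul, s2, map_one]) sd s1 (by rw [← map_mul, u2, map_one])
    ((mD u).1 (SD uS)) (fun e => u1 (iφ (e.trans φ.map_one.symm))) (by rw [← map_mul, sc, map_mul])
    (fun e => h (iφ e)) (by rw [← map_mul, sc, map_mul]) (by rw [← map_mul, uc, map_mul])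
    (by rw [← map_mul, sc, map_mul]) (by rw [← map_mul, uc, map_mul])

end Cfsg.Agent.S1906
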