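import Cfsg.Statements.S1924
import Cfsg.Agent.H17.TransferInv
import Cfsg.Agent.H8.TransferEval
import Cfsg.Agent.H83.InvPair
import Cfsg.Agent.H7.NPC

set_option autoImplicit false
open Cfsg

namespace Cfsg.Agent.S1924

theorem dih_outside {n : ℕ} (hn : 2 ≤ n) (C : Subgroup (DihedralGroup n)) (hC : IsCyclic C)
    (hi : C.index = 2) (x : DihedralGroup n) (hx : x ∉ C) : x * x = 1 := by
  have : NeZero n := ⟨by omega⟩
  obtain ⟨c, rfl⟩ := (Subgroup.isCyclic_iff_exists_zpowers_eq_top C).mp hC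
  have hcard : orderOf c = n := by
    have := (Subgroup.zpowers c).card_mul_index
    rw [hi, DihedralGroup.nat_card, Nat.card_zpowers] at this
    omega
  rcases x with j | j
  · rcases c with i | i
    · exfalso
      apply hx
      have h1 : Subgroup.zpowers (DihedralGroup.r i) ≤
          Subgroup.zpowers (DihedralGroup.r (1 : ZMod n)) := by
        rw [Subgroup.zpowers_le]
        exact ⟨(i.val : ℤ), by simp⟩
      rw [Subgroup.eq_of_le_of_card_ge h1 (by
        rw [Nat.card_zpowers, Nat.card_zpowers, hcard, DihedralGroup.orderOf_r_one])]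
      exact ⟨(j.val : ℤ), by simp⟩
    · rw [DihedralGroup.orderOf_sr] at hcard
      subst hcard
      clear hx
      revert j
      decide
  · exact DihedralGroup.sr_mul_self j

theorem mul_inj {G : Type*} [Group G] {A B H : Subgroup G} (hA : A ≤ H) (hB : B ≤ H)
    (h : A ⊓ B = ⊥) : Function.Injective
      (fun x : A × B => (⟨x.1 * x.2, H.mul_mem (hA x.1.2) (hB x.2.2)⟩ : H)) := by
  intro x y hxy
  exact Subgroup.mul_injective_of_disjoint (disjoint_iff.mpr h) (congrArg Subtype.val hxy)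

theorem card_mul_le {G : Type*} [Group G] [Finite G] {A B H : Subgroup G} (hA : A ≤ H) (hB : B ≤ H)
    (h : A ⊓ B = ⊥) : Nat.card A * Nat.card B ≤ Nat.card H := by
  rw [← Nat.card_prod]
  exact Nat.card_le_card_of_injective _ (mul_inj hA hB h)

/-- A consequence of Thompson's transfer lemma. Let G be a finite group, L a subgroup with O²(L) = L, T a Sylow 2-subgroup of L and S a Sylow 2-subgroup of G containing T. Suppose D ≤ S is a dihedral subgroup of order at least 4 (the four-group counts) with D ∩ T = 1 and S = TD as a set of products (so |S| = |T|·|D|), and C ≤ D is cyclic of index 2 in D. If no involution of D outside C is G-conjugate to an involution of the subgroup generated by T and C, and the involution of C is not G-conjugate to any involution of T, then G has a normal subgroup K, containing every Sylow 2-subgroup of L as a Sylow 2-subgroup, with G = KD. -/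
theorem result {G : Type*} [Group G] [Finite G] (L T S D C : Subgroup G) (hL : Cfsg.pResidual 2 ↥L = ⊤)
    (hTL : T ≤ L) (hT2 : IsPGroup 2 T) (hTsyl : ¬ 2 ∣ T.relIndex L)
    (hS2 : IsPGroup 2 S) (hSsyl : ¬ 2 ∣ S.index) (hTS : T ≤ S)
    (hDS : D ≤ S) (hDih : ∃ n : ℕ, 2 ≤ n ∧ Nonempty (↥D ≃* DihedralGroup n)) (hDT : D ⊓ T = ⊥) (hTD : T ⊔ D = S) (hTDc : Nat.card T * Nat.card D = Nat.card S)
    (hCD : C ≤ D) (hC : IsCyclic ↥C) (hCi : C.relIndex D = 2)
    (h1 : ∀ x ∈ D, x ∉ C → orderOf x = 2 → ∀ g : G, g * x * g⁻¹ ∈ T ⊔ C → False)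
    (h2 : ∀ c ∈ C, orderOf c = 2 → ∀ g : G, g * c * g⁻¹ ∈ T → False) :
    ∃ K : Subgroup G, K.Normal ∧ K ⊔ D = ⊤ ∧
      ∀ T' : Subgroup G, T' ≤ L → IsPGroup 2 T' → ¬ 2 ∣ T'.relIndex L → T' ≤ K ∧ ¬ 2 ∣ T'.relIndex K := by
  have hTD' : T ⊓ D = ⊥ := by rw [inf_comm]; exact hDT
  have hout : ∀ x ∈ D, x ∉ C → orderOf x = 2 := by
    intro x hx hxC
    obtain ⟨n, hn, ⟨e⟩⟩ := hDih
    have hc : IsCyclic (C.subgroupOf D) :=
      isCyclic_of_surjective (Subgroup.subgroupOfEquivOfLe hCD).symm.toMonoidHom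
        (Subgroup.subgroupOfEquivOfLe hCD).symm.surjective
    have := dih_outside hn ((C.subgroupOf D).map e.toMonoidHom)
      (isCyclic_of_surjective _ (e.toMonoidHom.subgroupMap_surjective _))
      (by rw [Subgroup.index_map_of_bijective e.bijective]; exact hCi) (e ⟨x, hx⟩)
      (by rw [← MulEquiv.coe_toMonoidHom, Subgroup.mem_map_iff_mem e.injective]; exact hxC)
    rw [← map_mul, map_eq_one_iff _ e.injective] at this
    exact H83.orderOf_eq_two_iff'.mpr ⟨congrArg Subtype.val this, fun h => hxC (h ▸ C.one_mem)⟩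
  have hCD2 : Nat.card C * 2 = Nat.card D := by
    rw [← hCi, ← Nat.card_congr (Subgroup.subgroupOfEquivOfLe hCD).toEquiv]
    exact (C.subgroupOf D).card_mul_index
  set K := Cfsg.pResidual 2 G with hK
  have hKn : K.Normal := H7.pResidual_normal
  have hMS : T ⊔ C ≤ S := sup_le hTS (hCD.trans hDS)
  have hKD : K ⊓ D ≤ C := by
    intro x hx
    by_contra hxC
    have hx2 := hout x hx.2 hxC
    have hM : (T ⊔ C).relIndex S = 2 := by
      have h3 : Nat.card T * Nat.card C ≤ Nat.card (T ⊔ C : Subgroup G) :=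
        card_mul_le le_sup_left le_sup_right
          (eq_bot_iff.mpr ((inf_le_inf_left T hCD).trans hTD'.le))
      have h4 : Nat.card (T ⊔ C : Subgroup G) * (T ⊔ C).relIndex S = Nat.card S := by
        rw [← Nat.card_congr (Subgroup.subgroupOfEquivOfLe hMS).toEquiv]
        exact ((T ⊔ C).subgroupOf S).card_mul_index
      have h5 : (T ⊔ C).relIndex S ≠ 1 := by
        rw [Ne, Subgroup.relIndex_eq_one]
        intro h
        exact h1 x hx.2 hxC hx2 1 (by simpa using h (hDS hx.2))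
      have h6 : (T ⊔ C).relIndex S ≠ 0 := by
        intro h; rw [h, mul_zero] at h4; exact Nat.card_pos.ne h4
      have h7 : 0 < Nat.card (T ⊔ C : Subgroup G) := Nat.card_pos
      by_contra h8
      have h9 : 3 ≤ (T ⊔ C).relIndex S := by omega
      have := Nat.mul_le_mul_left (Nat.card (T ⊔ C : Subgroup G)) h9
      rw [h4, ← hTDc, ← hCD2, ← mul_assoc] at this
      omega
    obtain ⟨N, hN, hNi, hxN⟩ := H8.thompson_transfer S (T ⊔ C)
      (by rw [← Nat.not_even_iff_odd, even_iff_two_dvd]; exact hSsyl) hM x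
      (by rw [← hx2, pow_orderOf_eq_one]) (fun g hg => h1 x hx.2 hxC hx2 g hg)
    exact hxN (H7.pResidual_le_iff.mpr (H7.isPGroup_quotient_iff_index.mpr ⟨1, hNi⟩) hx.1)
  have hLK : L ≤ K := by
    have := H7.map_pResidual_le (p := 2) L.subtype
    rwa [hL, ← MonoidHom.range_eq_map, Subgroup.range_subtype] at this
  have hSs : H17.SylIn 2 S ⊤ := ⟨le_top, hS2, by simpa using hSsyl⟩
  have hS0 : H17.SylIn 2 (S ⊓ K) K :=
    hSs.inf_of_normal le_top (by rw [Subgroup.normalizer_eq_top])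
  have hsurj : ∀ s ∈ S, ∃ t ∈ T, ∃ d ∈ D, s = t * d := by
    intro s hs
    obtain ⟨⟨t, d⟩, h⟩ := ((Nat.bijective_iff_injective_and_card _).mpr
      ⟨mul_inj hTS hDS hTD', by rw [Nat.card_prod, hTDc]⟩).2 ⟨s, hs⟩
    exact ⟨t, t.2, d, d.2, (congrArg Subtype.val h).symm⟩
  have hTK : T ≤ K := hTL.trans hLK
  have hT0 : T ≤ S ⊓ K := le_inf hTS hTK
  have hcard0 : Nat.card T * Nat.card (K ⊓ D : Subgroup G) = Nat.card (S ⊓ K : Subgroup G) := by
    rw [← Nat.card_prod]
    refine Nat.card_eq_of_bijective _ ⟨mul_inj hT0 (le_inf (inf_le_right.trans hDS) inf_le_left)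
      (eq_bot_iff.mpr ((inf_le_inf_left T inf_le_right).trans hTD'.le)), ?_⟩
    rintro ⟨s, hs⟩
    obtain ⟨t, ht, d, hd, rfl⟩ := hsurj s hs.1
    exact ⟨⟨⟨t, ht⟩, ⟨d, (K.mul_mem_cancel_left (hTK ht)).mp hs.2, hd⟩⟩, rfl⟩
  have hbot : K ⊓ D = ⊥ := by
    by_contra hne
    obtain ⟨c, hc⟩ := (Subgroup.isCyclic_iff_exists_zpowers_eq_top _).mp
      (Subgroup.isCyclic_of_le hKD)
    have hcm : c ∈ K ⊓ D := hc ▸ Subgroup.mem_zpowers c
    have hp2 : IsPGroup 2 (K ⊓ D : Subgroup G) := hS2.to_le (inf_le_right.trans hDS)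
    have hord : orderOf c = Nat.card (K ⊓ D : Subgroup G) := by rw [← hc, Nat.card_zpowers]
    obtain ⟨ψ, hψ⟩ := H17.exists_sign_of_semiregular (T.subgroupOf K) ⟨c, hcm.1⟩
      (m := (S ⊓ K).relIndex K) (by
        rw [Subgroup.orderOf_mk, hord, even_iff_two_dvd]
        rcases hp2.card_eq_or_dvd with h | h
        · exact absurd (Subgroup.eq_bot_of_card_eq _ h) hne
        · exact h)
      (by rw [← Nat.not_even_iff_odd, even_iff_two_dvd]; exact hS0.2.2) (by
        rw [Subgroup.orderOf_mk, hord]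
        change T.relIndex K = _
        rw [← Subgroup.relIndex_mul_relIndex T (S ⊓ K) K hT0 inf_le_right]
        congr 1
        apply Nat.eq_of_mul_eq_mul_left (Nat.card_pos (α := T))
        rw [hcard0, ← Nat.card_congr (Subgroup.subgroupOfEquivOfLe hT0).toEquiv]
        exact (T.subgroupOf (S ⊓ K)).card_mul_index) (by
        intro k a ha
        by_contra hk
        have hk' : c ^ k ≠ 1 := fun h => hk (Subtype.ext h)
        have hz : IsPGroup 2 (Subgroup.zpowers (c ^ k)) :=
          hp2.to_le (by rw [Subgroup.zpowers_le]; exact Subgroup.pow_mem _ hcm k)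
        obtain ⟨w, ⟨j, hj⟩, hw⟩ := H17.exists_involution_of_even (H := Subgroup.zpowers (c ^ k)) (by
          rcases hz.card_eq_or_dvd with h | h
          · exact absurd (Subgroup.zpowers_eq_bot.mp (Subgroup.eq_bot_of_card_eq _ h)) hk'
          · exact h)
        refine h2 w (hKD ?_) hw (a : G)⁻¹ ?_
        · rw [← hj]; exact Subgroup.zpow_mem _ (Subgroup.pow_mem _ hcm k) j
        · rw [← hj, ← conj_zpow]
          refine T.zpow_mem ?_ j
          simpa [Subgroup.mem_subgroupOf] using ha)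
    have h3 := H7.pResidual_le_ker (p := 2) (IsPGroup.of_card (n := 1) (by simp)) ψ
    rw [H7.pResidual_pResidual] at h3
    have h4 : ψ ⟨c, hcm.1⟩ = 1 := h3 trivial
    rw [hψ] at h4
    exact absurd h4 (by decide)
  rw [hbot, Subgroup.card_bot, mul_one] at hcard0
  refine ⟨K, hKn, ?_, fun T' hT' hT'2 hT'i => ⟨hT'.trans hLK, ?_⟩⟩
  · rw [eq_top_iff, ← H7.sup_eq_top_of_index H7.index_pResidual hSsyl, ← hTD]
    exact sup_le le_sup_left (sup_le (hTK.trans le_sup_left) le_sup_right)
  · refine (hS0.of_card_le (hT'.trans hLK) hT'2 ?_).2.2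
    rw [← hcard0]
    exact H17.SylIn.card_le ⟨hT', hT'2, hT'i⟩ hTL hT2


end Cfsg.Agent.S1924
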