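import Cfsg.Statements.S1935
import Cfsg.Agent.H9.GlEnd

set_option autoImplicit false
open Cfsg

namespace Cfsg.Agent.S1935

/-- Let p ≥ 5 be a prime and, inside an ambient finite group, let G be a p-subgroup acting faithfully by conjugation on an elementary abelian p-subgroup V that it normalizes (only the identity of G centralizes V). Suppose V is an F-module for G: some nontrivial elementary abelian subgroup E of G satisfies #E · #C_V(E) ≥ #V. Then G contains such an offender A that moreover acts quadratically on V ([V, A, A] = 1) and is normal in its normal closure in G. -/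
theorem result {Ω : Type*} [Group Ω] [Finite Ω] (p : ℕ) [Fact p.Prime] (hp : 5 ≤ p) (V G : Subgroup Ω) (hV : Cfsg.IsElementaryAbelian p V) (hG : IsPGroup p ↥G) (hGV : G ≤ Subgroup.normalizer (V : Set Ω)) (hfaith : G ⊓ Subgroup.centralizer (V : Set Ω) = ⊥) (hF : ∃ E : Subgroup Ω, E ≤ G ∧ E ≠ ⊥ ∧ Cfsg.IsElementaryAbelian p E ∧ Nat.card ↥V ≤ Nat.card ↥E * Nat.card ↥(V ⊓ Subgroup.centralizer (E : Set Ω))) : ∃ A : Subgroup Ω, A ≤ G ∧ A ≠ ⊥ ∧ Cfsg.IsElementaryAbelian p A ∧ Nat.card ↥V ≤ Nat.card ↥A * Nat.card ↥(V ⊓ Subgroup.centralizer (A : Set Ω)) ∧ ⁅⁅V, A⁆, A⁆ = ⊥ ∧ ∀ g ∈ Subgroup.closure {x : Ω | ∃ h ∈ G, ∃ a ∈ A, x = h * a * h⁻¹}, ∀ a ∈ A, g * a * g⁻¹ ∈ A := by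
  open Subgroup H98 H12 in
  obtain ⟨E, hE, E0, eE, hc⟩ := hF
  obtain ⟨B, ⟨hB, B0⟩, hm⟩ := Set.exists_max_image {B : Subgroup Ω | B ≤ E ∧ B ≠ ⊥} (offM V)
    (Set.toFinite _) ⟨E, le_rfl, E0⟩
  have := eE.1
  have h1 : Nat.card V ≤ offM V B := hc.trans (hm E ⟨le_rfl, E0⟩)
  have best : IsBestOffenderOn p V B := ⟨fun C hC => by
      by_cases C0 : C = ⊥
      · exact (C0 ▸ offM_bot V).trans_le h1
      · exact hm C ⟨hC.trans hB, C0⟩,
    commutator_le.2 fun a ha b hb => by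
      rw [commutatorElement_eq_one_iff_mul_comm.2
        (mul_comm_of_mem_isMulCommutative E (hB ha) (hB hb))]
      exact one_mem _,
    fun a ha => by rw [eE.2 a (hB ha)]; exact one_mem _⟩
  obtain ⟨-, h2, -, h3⟩ := timmesfeld hV (hB.trans (hE.trans hGV)) best le_rfl
  have h4 := h3 fun e => B0 (eq_bot_iff.2 ((le_inf (hB.trans hE) (le_centralizer_iff.1
    (commutator_eq_bot_iff_le_centralizer.1 e))).trans hfaith.le))
  have A0 : B ⊓ centralizer ((⁅V, B⁆ : Subgroup Ω) : Set Ω) ≠ ⊥ := fun e =>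
    h4 (by rw [e, commutator_bot_right])
  obtain ⟨A, a1, a2, a3, a4, a5, a6⟩ := H9.Gl.glauberman (by omega) hV hG hGV hfaith
    (inf_le_left.trans (hB.trans hE)) A0
    (inf_le_right.trans (H98.centralizer_anti (commutator_mono le_rfl inf_le_left)))
  refine ⟨A, a1, fun e => A0 (card_le_one_iff_eq_bot _ |>.1 (by rwa [e, card_bot] at a3)), a2,
    h1.trans (h2.ge.trans (Nat.mul_le_mul a3 a4)), a5, fun g hg a ha =>
      conj_mem_of_mem_normalizer ((closure_le _).2 ?_ hg) ha⟩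
  rintro _ ⟨h, hh, b, hb, rfl⟩
  exact a6 h hh b hb

end Cfsg.Agent.S1935
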