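import Cfsg.Statements.S1939
import Cfsg.Agent.H17.SylowIn

set_option autoImplicit false
open Cfsg

namespace Cfsg.Agent.S1939


/-- Let S be a Sylow p-subgroup of the finite group G and a an element of S that is the only G-conjugate of a lying in S. Then every power of a has the same property: for every n, the only G-conjugate of a^n lying in S is a^n. -/
theorem result {G : Type*} [Group G] [Finite G] {p : ℕ} [Fact p.Prime] (S : Sylow p G) (a : G)
    (haS : a ∈ (S : Subgroup G)) (hwc : ∀ g : G, g * a * g⁻¹ ∈ (S : Subgroup G) → g * a * g⁻¹ = a) (n : ℕ) :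
    ∀ g : G, g * a ^ n * g⁻¹ ∈ (S : Subgroup G) → g * a ^ n * g⁻¹ = a ^ n := by
  intro g hg
  have hZ : ∀ s ∈ (S : Subgroup G), s * a * s⁻¹ = a := fun s hs =>
    hwc s ((S : Subgroup G).mul_mem ((S : Subgroup G).mul_mem hs haS) ((S : Subgroup G).inv_mem hs))
  set c := g * a ^ n * g⁻¹ with hc
  have hle : (S : Subgroup G).map (MulAut.conj g).toMonoidHom ≤ Subgroup.centralizer {c} := by
    rintro _ ⟨s, hs, rfl⟩
    rw [Subgroup.mem_centralizer_singleton_iff]
    have h1 : s * a ^ n * s⁻¹ = a ^ n := by rw [← conj_pow, hZ s hs]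
    have h2 : s * a ^ n = a ^ n * s := by rw [← mul_inv_eq_iff_eq_mul]; exact h1
    simp only [MulEquiv.toMonoidHom_eq_coe, MonoidHom.coe_coe, MulAut.conj_apply, hc]
    calc g * s * g⁻¹ * (g * a ^ n * g⁻¹) = g * (s * a ^ n) * g⁻¹ := by group
      _ = g * a ^ n * g⁻¹ * (g * s * g⁻¹) := by rw [h2]; group
  have hsyl : H17.SylIn p ((S : Subgroup G).map (MulAut.conj g).toMonoidHom)
      (Subgroup.centralizer {c}) :=
    ((H17.sylIn_top S).map_conj_of_mem
      (by rw [Subgroup.normalizer_eq_top]; trivial)).mono hle le_top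
  have hac : Subgroup.zpowers a ≤ Subgroup.centralizer {c} := by
    rw [Subgroup.zpowers_le, Subgroup.mem_centralizer_singleton_iff]
    have := hZ c hg
    rw [mul_inv_eq_iff_eq_mul] at this
    exact this.symm
  obtain ⟨h, hh, hh2⟩ := hsyl.exists_conj_le hac (S.isPGroup'.to_le (by simpa using haS))
  have h3 := hh2 a (Subgroup.mem_zpowers a)
  rw [H17.mem_map_conj_iff] at h3
  have h4 := hwc (g⁻¹ * h) (by simpa [mul_assoc] using h3)
  have h5 : (g⁻¹ * h) * a ^ n * (g⁻¹ * h)⁻¹ = a ^ n := by rw [← conj_pow, h4]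
  rw [Subgroup.mem_centralizer_singleton_iff] at hh
  have h6 : h * a ^ n * h⁻¹ = c := by
    rw [hc]
    calc h * a ^ n * h⁻¹ = g * ((g⁻¹ * h) * a ^ n * (g⁻¹ * h)⁻¹) * g⁻¹ := by group
      _ = _ := by rw [h5]
  calc c = h⁻¹ * (h * c) := by group
    _ = h⁻¹ * (c * h) := by rw [hh]
    _ = a ^ n := by rw [← h6]; group


end Cfsg.Agent.S1939
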