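import Cfsg.Statements.S1940
import Cfsg.Agent.Base

set_option autoImplicit false
open Cfsg

namespace Cfsg.Agent.S1940


/-- Let the finite group L act by automorphisms on the finite abelian group M, and let N be an L-invariant subgroup of M such that M/N is a p-group on which L acts trivially (every l • m lies in the coset mN). If every element of M is a product of an element of N and an element fixed by a Sylow p-subgroup T of L, then every element of M is a product of an element of N and an element fixed by all of L. -/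
theorem result {L : Type*} [Group L] [Finite L] {M : Type*} [CommGroup M] [Finite M] [MulDistribMulAction L M]
    {p : ℕ} [Fact p.Prime] (N : Subgroup M) (hN : ∀ (l : L) (m : M), m ∈ N → l • m ∈ N)
    (hquot : IsPGroup p (M ⧸ N)) (htriv : ∀ (l : L) (m : M), (l • m) * m⁻¹ ∈ N) (T : Sylow p L)
    (hT : ∀ m : M, ∃ n ∈ N, ∃ c : M, (∀ t ∈ (T : Subgroup L), t • c = c) ∧ m = n * c) :
    ∀ m : M, ∃ n ∈ N, ∃ c : M, (∀ l : L, l • c = c) ∧ m = n * c := by
  classical
  intro m
  obtain ⟨n, hn, c, hc, rfl⟩ := hT m
  have := Fintype.ofFinite (MulAction.orbit L c)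
  let O : Finset M := (MulAction.orbit L c).toFinset
  have hO : ¬ p ∣ O.card := by
    have h1 : O.card = (MulAction.stabilizer L c).index := by
      rw [MulAction.index_stabilizer, Set.ncard_eq_toFinset_card']
    rw [h1]
    intro hd
    exact T.not_dvd_index (hd.trans (Subgroup.index_dvd_of_le (fun t ht => hc t ht)))
  let d : M := ∏ x ∈ O, x
  have hd : ∀ l : L, l • d = d := by
    intro l
    simp only [d]
    rw [Finset.smul_prod']
    refine Finset.prod_nbij' (fun x => l • x) (fun x => l⁻¹ • x) ?_ ?_ ?_ ?_ ?_
    · intro x hx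
      simp only [O, Set.mem_toFinset] at hx ⊢
      obtain ⟨g, rfl⟩ := hx
      exact ⟨l * g, mul_smul _ _ _⟩
    · intro x hx
      simp only [O, Set.mem_toFinset] at hx ⊢
      obtain ⟨g, rfl⟩ := hx
      exact ⟨l⁻¹ * g, mul_smul _ _ _⟩
    · intro x _; simp
    · intro x _; simp
    · intro x _; rfl
  have hdc : (QuotientGroup.mk' N d) = (QuotientGroup.mk' N c) ^ O.card := by
    simp only [d]
    rw [map_prod, ← Finset.prod_const]
    refine Finset.prod_congr rfl fun x hx => ?_
    simp only [O, Set.mem_toFinset] at hx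
    obtain ⟨g, rfl⟩ := hx
    simp only [QuotientGroup.mk'_apply]
    rw [QuotientGroup.eq_iff_div_mem, div_eq_mul_inv]
    exact htriv g c
  have hcop : (orderOf (QuotientGroup.mk' N c)).Coprime O.card :=
    hquot.orderOf_coprime (((Fact.out : p.Prime).coprime_iff_not_dvd).mpr hO) _
  obtain ⟨j, hj⟩ := exists_pow_eq_self_of_coprime hcop.symm
  refine ⟨n * (c * (d ^ j)⁻¹), N.mul_mem hn ?_, d ^ j, fun l => by rw [smul_pow', hd], by group⟩
  rw [← div_eq_mul_inv, ← QuotientGroup.eq_iff_div_mem]
  change QuotientGroup.mk' N c = QuotientGroup.mk' N (d ^ j)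
  rw [map_pow, hdc, hj]


end Cfsg.Agent.S1940
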