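import Cfsg.Statements.S1941
import Cfsg.Agent.Base
import Cfsg.Agent.H14.FStar
import Cfsg.Agent.H2.Fitting

set_option autoImplicit false
open Cfsg

namespace Cfsg.Agent.S1941

/-- Let G be a finite group with no nontrivial normal subgroup of order prime to p, T a Sylow p-subgroup of G and E(G) the layer of G (the subgroup generated by its components). An automorphism of G of p-power order that fixes T and E(G) elementwise is inner. -/
theorem result {G : Type*} [Group G] [Finite G] {p : ℕ} [Fact p.Prime] (hcore : Cfsg.pPrimeCore p G = ⊥)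
    (T : Sylow p G) (α : MulAut G) (hα : ∃ j : ℕ, orderOf α = p ^ j) (hfixT : ∀ x ∈ (T : Subgroup G), α x = x)
    (hfixE : ∀ x ∈ Cfsg.layer G, α x = x) : ∃ g : G, ∀ x : G, α x = g * x * g⁻¹ := by
  classical
  set C := Subgroup.centralizer (Cfsg.generalizedFittingSubgroup G : Set G) with hC
  have hF := H2.fitting_eq_pCore_of_pPrimeCore_eq_bot hcore
  have hFT : Cfsg.fittingSubgroup G ≤ T := by
    rw [hF]; exact sSup_le fun N hN => by have := hN.1; exact hN.2.le_sylow_of_normal T
  have hfix : ∀ x ∈ Cfsg.generalizedFittingSubgroup G, α x = x := by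
    have : Cfsg.generalizedFittingSubgroup G ≤ MonoidHom.eqLocus α.toMonoidHom (MonoidHom.id G) :=
      sup_le hfixE fun x hx => hfixT x (hFT hx)
    exact this
  have hn : (Cfsg.generalizedFittingSubgroup G).Normal := inferInstance
  have hCn : C.Normal := inferInstance
  have hd : ∀ g, α g * g⁻¹ ∈ C := by
    intro g x hx
    have h1 := hfix _ (hn.conj_mem x hx g⁻¹)
    have h2 : α g * (g⁻¹ * x * g⁻¹⁻¹) * (α g)⁻¹ = x := by
      rw [← h1, ← map_inv, ← map_mul, ← map_mul]
      rw [show g * (g⁻¹ * x * g⁻¹⁻¹) * g⁻¹ = x by group, hfix x hx]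
    conv_lhs => rw [← h2]
    group
  have hCT : C ≤ T := H14.centralizer_fstar_le_fitting.trans hFT
  have hCp : IsPGroup p C := T.isPGroup'.to_le hCT
  let _ : CommGroup C := { (inferInstance : Group C) with
    mul_comm := fun a b => Subtype.ext (b.2 a.1 (H14.centralizer_fstar_le a.2)) }
  have : Fintype (G ⧸ (T : Subgroup G)) := Fintype.ofFinite _
  let d : G → C := fun g => ⟨α g * g⁻¹, hd g⟩
  have hmul : ∀ g h, d (g * h) = d g * MulAut.conjNormal g (d h) := fun g h => Subtype.ext (by
    simp only [d, map_mul, Subgroup.coe_mul, MulAut.conjNormal_apply]; group)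
  have hT : ∀ g, ∀ t ∈ (T : Subgroup G), d (g * t) = d g := fun g t ht => Subtype.ext (by
    simp only [d, map_mul, hfixT t ht]; group)
  let D : G ⧸ (T : Subgroup G) → C := fun q => d q.out
  have hD : ∀ g : G, D g = d g := fun g => by
    obtain ⟨t, ht⟩ := QuotientGroup.mk_out_eq_mul (T : Subgroup G) g
    show d _ = _
    rw [ht, hT g t t.2]
  have hco : (Nat.card C).Coprime (T : Subgroup G).index := by
    obtain ⟨k, hk⟩ := IsPGroup.iff_card.1 hCp
    rw [hk]
    exact Nat.Coprime.pow_left _ ((Nat.Prime.coprime_iff_not_dvd Fact.out).2 T.not_dvd_index)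
  obtain ⟨v, hv⟩ := (powCoprime hco).surjective (∏ q, D q)
  refine ⟨v, fun h => ?_⟩
  have h1 : ∏ q, D q = ∏ q, D (h • q) := (Equiv.prod_comp (MulAction.toPerm h) D).symm
  have h2 : ∀ q, D (h • q) = d h * MulAut.conjNormal h (D q) := fun q => by
    rw [← hmul, ← hD]
    congr 1
    conv_lhs => rw [← QuotientGroup.out_eq' q]
    rfl
  simp only [h2, Finset.prod_mul_distrib, Finset.prod_const, Finset.card_univ] at h1
  rw [← map_prod, ← hv, powCoprime_apply, map_pow, ← Nat.card_eq_fintype_card,
    ← Subgroup.index_eq_card, ← mul_pow] at h1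
  have h3 := congrArg Subtype.val ((powCoprime hco).injective h1)
  simp only [d, Subgroup.coe_mul, MulAut.conjNormal_apply] at h3
  calc α h = (α h * h⁻¹ * (h * v * h⁻¹)) * h * (v : G)⁻¹ := by group
    _ = _ := by rw [← h3]

end Cfsg.Agent.S1941
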