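import Cfsg.Statements.S1946
import Cfsg.Agent.H7.MinAct

set_option autoImplicit false
open Cfsg

namespace Cfsg.Agent.S1946

/-- Let P be a Sylow p-subgroup of the finite group G. Then G has a normal p-complement if and only if P controls the fusion of its elements of order dividing p (dividing 4 when p = 2): whenever such an element a of P has a G-conjugate g a g⁻¹ in P, that conjugate is already x a x⁻¹ for some x in P. -/
theorem result {G : Type*} [Group G] [Finite G] {p : ℕ} [Fact p.Prime] (P : Sylow p G) :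
    Cfsg.HasNormalPComplement p G ↔
      ∀ a ∈ (P : Subgroup G), (a ^ p = 1 ∨ (p = 2 ∧ a ^ 4 = 1)) → ∀ g : G, g * a * g⁻¹ ∈ (P : Subgroup G) →
        ∃ x ∈ (P : Subgroup G), g * a * g⁻¹ = x * a * x⁻¹ := by
  refine ⟨fun h a ha _ g hg => ?_, H7.hasNPC_of_controls_fusion_omega P⟩
  obtain ⟨u, hu, h1⟩ := H7.controls_fusion_of_hasNPC h P g
  exact ⟨u, hu, (h1 a ha hg).symm⟩

end Cfsg.Agent.S1946
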