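import Cfsg.Statements.S1949
import Cfsg.Agent.H9.Critical
import Cfsg.Agent.H7.NPC

set_option autoImplicit false
open Cfsg

namespace Cfsg.Agent.S1949

open scoped commutatorElement in
theorem two_case {G : Type*} [Group G] [Finite G] (hG : IsPGroup 2 G) :
    ∃ H : Subgroup G, H.Characteristic ∧ (∀ h ∈ H, h ^ 4 = 1) ∧
      (∀ h ∈ H, ∀ g : G, ⁅h, g⁆ ∈ H ⊓ Subgroup.centralizer (H : Set G)) ∧
      ∀ a : MulAut G, Nat.Coprime (orderOf a) 2 → (∀ x ∈ H, a x = x) → a = 1 := by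
  haveI : Fact (Nat.Prime 2) := ⟨Nat.prime_two⟩
  obtain ⟨C, hch, h1, h2, h3⟩ := H9.exists_critical hG
  have hpow : ∀ x ∈ C, ∀ y ∈ C, (x * y) ^ 4 = x ^ 4 * y ^ 4 := fun x hx y hy => by
    have c1 : Commute x ⁅y, x⁆ := (h2 y hy x).2 x hx
    have c2 : Commute y ⁅y, x⁆ := (h2 y hy x).2 y hy
    have e : ⁅y, x⁆ ^ 2 = 1 := by
      rw [← H9.commutatorElement_pow_left c2, commutatorElement_eq_one_iff_mul_comm]
      exact (h1 y hy x hx).symm
    rw [H9.mul_pow_of_commute_commutator c1 c2 4, show Nat.choose 4 2 = 2 * 3 by decide, pow_mul,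
      e, one_pow, one_mul]
  let H : Subgroup G :=
    { carrier := {x | x ∈ C ∧ x ^ 4 = 1}
      one_mem' := ⟨C.one_mem, one_pow 4⟩
      mul_mem' := fun {x y} hx hy => ⟨C.mul_mem hx.1 hy.1, by
        rw [hpow x hx.1 y hy.1, hx.2, hy.2, one_mul]⟩
      inv_mem' := fun {x} hx => ⟨C.inv_mem hx.1, by rw [inv_pow, hx.2, inv_one]⟩ }
  have hHC : H ≤ C := fun x hx => hx.1
  refine ⟨H, ?_, fun h hh => hh.2, fun h hh g => ⟨⟨(h2 h hh.1 g).1, ?_⟩, ?_⟩, ?_⟩
  · exact H9.characteristic_of_forall_mem fun φ x hx =>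
      ⟨H9.apply_mem_of_characteristic φ hx.1, by rw [← map_pow, hx.2, map_one]⟩
  · rw [← H9.commutatorElement_pow_left ((h2 h hh.1 g).2 h hh.1), hh.2, commutatorElement_one_left]
  · exact Subgroup.centralizer_le (SetLike.coe_subset_coe.mpr hHC) (h2 h hh.1 g).2
  · intro a ha h
    refine H9.mulAut_eq_one_of_fixes_self_centralizing hG h3 a ha ?_
    have key : ∀ k : ℕ, ∀ x ∈ C, x ^ 4 ^ k = 1 → a x = x := by
      intro k
      induction k with
      | zero => intro x _ hx; rw [pow_zero, pow_one] at hx; rw [hx, map_one]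
      | succ k ih =>
        intro x hx hxk
        have h1 : a (x ^ 4) = x ^ 4 :=
          ih _ (C.pow_mem hx 4) (by rw [← pow_mul, ← pow_succ', hxk])
        have hax := H9.apply_mem_of_characteristic a hx
        refine H9.mulAut_fixes_of_fixes_commutator hG a ha
          (h _ ⟨C.mul_mem (C.inv_mem hx) hax, ?_⟩)
        rw [hpow _ (C.inv_mem hx) _ hax, ← map_pow, h1, inv_pow, inv_mul_cancel]
    intro x hx
    obtain ⟨k, hk⟩ := hG x
    refine key k x hx ?_
    rw [show (4 : ℕ) = 2 * 2 from rfl, mul_pow, pow_mul, hk, one_pow]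

open scoped commutatorElement in
theorem base {G : Type*} [Group G] [Finite G] {p : ℕ} [Fact p.Prime] (hG : IsPGroup p G) :
    ∃ H : Subgroup G, H.Characteristic ∧ (∀ h ∈ H, h ^ p = 1 ∨ (p = 2 ∧ h ^ 4 = 1)) ∧
      (∀ h ∈ H, ∀ g : G, ⁅h, g⁆ ∈ H ⊓ Subgroup.centralizer (H : Set G)) ∧
      ∀ a : MulAut G, Nat.Coprime (orderOf a) p → (∀ x ∈ H, a x = x) → a = 1 := by
  by_cases h2 : p = 2
  · subst h2
    obtain ⟨H, a, b, c, d⟩ := two_case hG
    exact ⟨H, a, fun h hh => Or.inr ⟨rfl, b h hh⟩, c, d⟩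
  · obtain ⟨H, a, b, c, -, d⟩ := H9.exists_characteristic_exponent_p_faithful h2 hG
    exact ⟨H, a, fun h hh => Or.inl (b h hh), c, d⟩

/-- Let P be a finite p-group and G a group of automorphisms of P containing the inner automorphisms. Then there is a G-invariant subgroup D of P, contained in the subgroup generated by the elements x⁻¹α(x) with x in P and α in O^p(G), of exponent dividing p when p is odd and dividing 4 when p = 2, with [D, P] ≤ Z(D), such that every automorphism in G of order prime to p that fixes D elementwise is the identity; moreover every maximal abelian subgroup A of D is normal in P and every automorphism in G fixing A elementwise has p-power order. -/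
theorem result {P : Type*} [Group P] [Finite P] {p : ℕ} [Fact p.Prime] (hP : IsPGroup p P)
    (G : Subgroup (MulAut P)) (hG : Cfsg.Inn P ≤ G) :
    ∃ D : Subgroup P,
      (∀ α ∈ G, D.map α.toMonoidHom = D) ∧
      D ≤ Subgroup.closure {y : P | ∃ α ∈ Cfsg.pResidual p ↥G, ∃ x : P, y = x⁻¹ * (α : MulAut P) x} ∧
      (∀ d ∈ D, d ^ p = 1 ∨ (p = 2 ∧ d ^ 4 = 1)) ∧
      ⁅D, (⊤ : Subgroup P)⁆ ≤ D ⊓ Subgroup.centralizer (D : Set P) ∧
      (∀ α ∈ G, (orderOf α).Coprime p → (∀ d ∈ D, α d = d) → α = 1) ∧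
      ∀ A : Subgroup P, A ≤ D → IsMulCommutative ↥A →
        (∀ B : Subgroup P, A ≤ B → B ≤ D → IsMulCommutative ↥B → B = A) →
        A.Normal ∧ ∀ α ∈ G, (∀ a ∈ A, α a = a) → ∃ k : ℕ, orderOf α = p ^ k := by
  obtain ⟨H, hch, hexp, hcom, hfa⟩ := base hP
  set Q := Subgroup.closure
    {y : P | ∃ α ∈ Cfsg.pResidual p ↥G, ∃ x : P, y = x⁻¹ * (α : MulAut P) x} with hQ
  have hQinv : ∀ α ∈ G, ∀ x ∈ Q, α x ∈ Q := by
    intro α hα x hx
    induction hx using Subgroup.closure_induction with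
    | mem x hx =>
      obtain ⟨β, hβ, y, rfl⟩ := hx
      refine Subgroup.subset_closure ⟨⟨α, hα⟩ * β * (⟨α, hα⟩ : G)⁻¹,
        H7.pResidual_normal.conj_mem β hβ _, α y, ?_⟩
      simp
    | one => rw [map_one]; exact Q.one_mem
    | mul x y _ _ hx hy => rw [map_mul]; exact Q.mul_mem hx hy
    | inv x _ hx => rw [map_inv]; exact Q.inv_mem hx
  have hDinv : ∀ α ∈ G, ∀ x ∈ H ⊓ Q, α x ∈ H ⊓ Q := fun α hα x hx =>
    ⟨H9.apply_mem_of_characteristic α hx.1, hQinv α hα x hx.2⟩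
  have hDn : (H ⊓ Q).Normal := ⟨fun x hx g => hDinv (MulAut.conj g) (hG ⟨g, rfl⟩) x hx⟩
  have h4 : ⁅H ⊓ Q, (⊤ : Subgroup P)⁆ ≤ (H ⊓ Q) ⊓ Subgroup.centralizer ((H ⊓ Q : Subgroup P) : Set P) := by
    refine le_inf (Subgroup.commutator_le_left _ _) (Subgroup.commutator_le.2 fun d hd g _ => ?_)
    exact Subgroup.centralizer_le (SetLike.coe_subset_coe.mpr inf_le_left) (hcom d hd.1 g).2
  have h5 : ∀ α ∈ G, (orderOf α).Coprime p → (∀ d ∈ H ⊓ Q, α d = d) → α = 1 := by
    intro α hα hc h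
    refine hfa α hc fun x hx => H9.mulAut_fixes_of_fixes_commutator hP α hc (h _ ⟨?_, ?_⟩)
    · exact H.mul_mem (H.inv_mem hx) (H9.apply_mem_of_characteristic α hx)
    · exact Subgroup.subset_closure ⟨⟨α, hα⟩, H7.mem_pResidual_of_coprime
        (by rwa [← Subgroup.orderOf_coe]), x, rfl⟩
  refine ⟨H ⊓ Q, fun α hα => le_antisymm ?_ ?_, inf_le_right, fun d hd => hexp d hd.1, h4, h5,
    fun A hA hAc hmax => ?_⟩
  · rintro _ ⟨x, hx, rfl⟩
    exact hDinv α hα x hx
  · intro x hx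
    exact ⟨α⁻¹ x, hDinv _ (G.inv_mem hα) x hx, by simp⟩
  have hself : ∀ d ∈ H ⊓ Q, d ∈ Subgroup.centralizer (A : Set P) → d ∈ A := by
    intro d hd hc
    have hAA : ∀ a ∈ A, ∀ b ∈ A, a * b = b * a := fun a ha b hb =>
      congrArg Subtype.val (hAc.is_comm.comm (⟨a, ha⟩ : A) ⟨b, hb⟩)
    have := hmax (Subgroup.closure (insert d (A : Set P)))
      (fun a ha => Subgroup.subset_closure (Or.inr ha))
      ((Subgroup.closure_le _).2 (by
        rintro x (rfl | hx)
        · exact hd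
        · exact hA hx))
      (Subgroup.isMulCommutative_closure (by
        rintro a (rfl | ha) b (rfl | hb)
        · rfl
        · exact (hc b hb).symm
        · exact hc a ha
        · exact hAA a ha b hb))
    rw [← this]
    exact Subgroup.subset_closure (Or.inl rfl)
  have hAn : A.Normal := ⟨fun a ha g => by
    have h1 := h4 (Subgroup.commutator_mem_commutator (A.inv_mem ha |> hA) (Subgroup.mem_top g))
    have h2 := hself _ h1.1 (Subgroup.centralizer_le (SetLike.coe_subset_coe.mpr hA) h1.2)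
    have := A.mul_mem ha h2
    simpa [commutatorElement_def, mul_assoc] using this⟩
  refine ⟨hAn, fun α hα h => ?_⟩
  have hp : p.Prime := Fact.out
  obtain ⟨k, m, hm, e⟩ := Nat.exists_eq_pow_mul_and_not_dvd (orderOf_pos α).ne' p hp.ne_one
  have hc : (orderOf (α ^ p ^ k)).Coprime p := by
    refine Nat.Coprime.coprime_dvd_left (orderOf_dvd_of_pow_eq_one (n := m) ?_)
      ((Nat.Prime.coprime_iff_not_dvd hp).2 hm).symm
    rw [← pow_mul, ← e, pow_orderOf_eq_one]
  have hfix : ∀ a ∈ A, (α ^ p ^ k) a = a := fun a ha =>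
    (MulAction.stabilizer (MulAut P) a).pow_mem (show α ∈ _ from h a ha) _
  have h1 := h5 _ (G.pow_mem hα _) hc fun d hd =>
    H9.mulAut_fixes_of_fixes_commutator hP _ hc (hfix _ (hself _
      ((H ⊓ Q).mul_mem ((H ⊓ Q).inv_mem hd) (hDinv _ (G.pow_mem hα _) d hd))
      (H9.inv_mul_apply_mem_centralizer _ hfix d)))
  obtain ⟨j, -, hj⟩ := (Nat.dvd_prime_pow hp).1 (orderOf_dvd_of_pow_eq_one h1)
  exact ⟨j, hj⟩

end Cfsg.Agent.S1949
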