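import Cfsg.Statements.S1952
import Cfsg.Agent.H95.WreathQuot

set_option autoImplicit false
open Cfsg

namespace Cfsg.Agent.S1952

/-- Let P be a finite p-group with a normal elementary abelian subgroup A of index p, and let x ∈ A and y ∈ P with y outside A. If the product of the p conjugates y^(-i) x y^i (i = 0, …, p−1) is not the identity, then the wreath product Z_p ≀ Z_p, realised as a Sylow p-subgroup of the symmetric group of degree p², is a homomorphic image of P. -/
theorem result {P : Type*} [Group P] [Finite P] {p : ℕ} [Fact p.Prime] (hP : IsPGroup p P) (A : Subgroup P) [A.Normal]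
    (hA : Cfsg.IsElementaryAbelian p A) (hidx : A.index = p) (x y : P) (hx : x ∈ A) (hy : y ∉ A)
    (hprod : ((List.range p).map (fun i => (y ^ i)⁻¹ * x * y ^ i)).prod ≠ 1) :
    ∃ (Q : Sylow p (Equiv.Perm (Fin (p ^ 2)))) (f : P →* ↥(Q : Subgroup (Equiv.Perm (Fin (p ^ 2))))), Function.Surjective f := by
  have hc := hA.1
  have hfr : frattini A ≤ ⊥ :=
    (H3.frattini_eq_bot_of_elementary (p := p) hA.1 fun a => Subtype.ext (hA.2 a a.2)).le
  letI : CommGroup A := { (inferInstance : Group _) with mul_comm := fun a b => mul_comm' a b }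
  have key : ∀ n : ℕ, ((∏ i ∈ Finset.range n, MulAut.conjNormal (y ^ i)⁻¹ (⟨x, hx⟩ : A) : A) : P)
      = ((List.range n).map (fun i => (y ^ i)⁻¹ * x * y ^ i)).prod := by
    intro n
    induction n with
    | zero => simp
    | succ n ih =>
      rw [Finset.prod_range_succ, List.range_succ, List.map_append, List.prod_append,
        Subgroup.coe_mul, ih, MulAut.conjNormal_apply, inv_inv]
      simp
  have h1 : ∏ i ∈ Finset.range p, MulAut.conjNormal (y ^ i)⁻¹ (⟨x, hx⟩ : A) ∉ (⊥ : Subgroup A) := by
    intro h
    apply hprod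
    rw [← key, Subgroup.mem_bot.1 h]
    rfl
  obtain ⟨θ, -, hθ⟩ := H95.exists_hom_zmod (hP.to_subgroup A) hfr h1
  refine H95.wreath_quotient hP A hidx (C := Multiplicative (ZMod p)) (by simp) θ ⟨x, hx⟩ y ?_
  rwa [map_prod] at hθ

end Cfsg.Agent.S1952
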