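import Cfsg.Statements.S2007
import Cfsg.Agent.Base
import Cfsg.Agent.H16.WellPlaced

set_option autoImplicit false
open Cfsg

namespace Cfsg.Agent.S2007

/-- Let p be a prime, G a finite group with Sylow p-subgroup S, and T a normal subgroup of S containing C_S(T). If N_G(T)/C_G(T) is a p-group (every element of N_G(T) of order prime to p centralizes T), then N_G(T) has a normal p-complement. -/
theorem result {G : Type*} [Group G] [Finite G] {p : ℕ} [Fact p.Prime] (S : Sylow p G) (T : Subgroup G) (hTS : T ≤ (S : Subgroup G)) (hTn : (S : Subgroup G) ≤ Subgroup.normalizer ((T : Subgroup G) : Set G)) (hC : (S : Subgroup G) ⊓ Subgroup.centralizer ((T : Subgroup G) : Set G) ≤ T) (hN : ∀ g ∈ Subgroup.normalizer ((T : Subgroup G) : Set G), (orderOf g).Coprime p → g ∈ Subgroup.centralizer ((T : Subgroup G) : Set G)) : Cfsg.HasNormalPComplement p ↥(Subgroup.normalizer ((T : Subgroup G) : Set G)) := by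
  have hE : H16.Extr p ⊤ S T := ⟨hTS, by
    rw [inf_of_le_left hTn, top_inf_eq]; exact H7.isSylowIn_of_sylow_le S hTn⟩
  have h1 := hE.hasNPC_Ce hC
  rw [top_inf_eq] at h1
  refine H7.hasNPC_of_pResidual_le (N := (H16.Ce T).subgroupOf (H16.Nm T)) ?_
    (H7.hasNPC_subgroupOf h1 _)
  rw [Cfsg.pResidual, Subgroup.closure_le]
  intro g hg
  exact hN g g.2 (by rwa [Subgroup.orderOf_coe])

end Cfsg.Agent.S2007
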