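import Cfsg.Statements.S1988
import Cfsg.Agent.Base
import Cfsg.Agent.H16.NPCtl
import Cfsg.Agent.S2007

set_option autoImplicit false
universe u
open Cfsg

namespace Cfsg.Agent.S1988

/-- Let p be an odd prime, G a finite group with Sylow p-subgroup S and K the lower K-infinity subgroup of S. If N_G(K) has a normal p-complement, or if N_G(K)/C_G(K) is a p-group (every element of N_G(K) of order prime to p centralizes K), then G has a normal p-complement. -/
theorem result {G : Type u} [Group G] [Finite G] {p : ℕ} [Fact p.Prime] (hp : p ≠ 2) (S : Sylow p G) (h : Cfsg.HasNormalPComplement p ↥(Subgroup.normalizer ((Cfsg.inducedFunctor Cfsg.kInfLower (S : Subgroup G) : Subgroup G) : Set G)) ∨ ∀ g ∈ Subgroup.normalizer ((Cfsg.inducedFunctor Cfsg.kInfLower (S : Subgroup G) : Subgroup G) : Set G), (orderOf g).Coprime p → g ∈ Subgroup.centralizer ((Cfsg.inducedFunctor Cfsg.kInfLower (S : Subgroup G) : Subgroup G) : Set G)) : Cfsg.HasNormalPComplement p G := by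
  have hS := H7.isSylowIn_top S
  refine H16.npc_of_engel H16.isCharPFunctor_kInfLower (fun K R _ hc T hn => ?_) hS
    (h.elim id fun h => S2007.result S _ (H16.induced_le _ _)
      (H16.cf_le_Nm (H16.isCF_induced H16.isCharPFunctor_kInfLower) hS.isPGroup) ?_ h)
  · have hT := H7.isSylowIn_top T
    rw [H16.induced_kInfLower] at hn
    obtain ⟨g, h1, -, -, -, h2⟩ := H16.kInf_not_normal hT.isPGroup (H16.pCore_le_of_isSylowIn hT)
      (Or.inl hn)
    obtain ⟨U, V, h3, h4, h5, h6⟩ := h2 hc
    have := h3.2.1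
    have h7 := (Fact.out : p.Prime).two_le
    exact ⟨g, h1, U, V, h3, h4,
      H16.iter_le_of_le (m := 2) (H16.le_Nm_of_normal _ _) (by omega) h5, h6⟩
  · rw [H16.induced_kInfLower]
    exact H16.Ce_kL_le hS.isPGroup

end Cfsg.Agent.S1988
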