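import Cfsg.Statements.S2001
import Cfsg.Agent.Base
import Cfsg.Agent.H16.WellPlaced

set_option autoImplicit false
open Cfsg H16 H7

namespace Cfsg.Agent.S2001

/-- Let p be a prime dividing the order of the finite group G, P a Sylow p-subgroup, W a conjugacy functor for p on G with Z(H) ≤ W(H) for every nontrivial p-subgroup H, and V a central functor: a conjugacy functor with V(H) ≤ Z(H), and V(H) ≤ V(K) whenever Z(H) ≤ Z(K), for nontrivial p-subgroups H, K. Say that W with V controls transfer in a subgroup L when some Sylow p-subgroup Q of L satisfies Q ∩ L' = (Q ∩ (N_L(W(Q)))')·(Q ∩ (C_L(V(Q)))') as a product of two subgroups. If W with V controls transfer in N_G(H) for every subgroup H with Z(P) ≤ H ≤ P, then W with V controls transfer in G. -/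
theorem result {G : Type*} [Group G] [Finite G] {p : ℕ} [Fact p.Prime] (hdiv : p ∣ Nat.card G) (P : Sylow p G) (W V : Subgroup G → Subgroup G) (hW : Cfsg.IsConjugacyFunctor p W) (hV : Cfsg.IsConjugacyFunctor p V) (hWZ : ∀ H : Subgroup G, IsPGroup p ↥H → H ⊓ Subgroup.centralizer ((H : Subgroup G) : Set G) ≤ W H) (hVZ : ∀ H : Subgroup G, IsPGroup p ↥H → V H ≤ H ⊓ Subgroup.centralizer ((H : Subgroup G) : Set G)) (hVmono : ∀ H K : Subgroup G, IsPGroup p ↥H → IsPGroup p ↥K → H ≠ ⊥ → K ≠ ⊥ → H ⊓ Subgroup.centralizer ((H : Subgroup G) : Set G) ≤ K ⊓ Subgroup.centralizer ((K : Subgroup G) : Set G) → V H ≤ V K) (hloc : ∀ H : Subgroup G, (P : Subgroup G) ⊓ Subgroup.centralizer (((P : Subgroup G) : Subgroup G) : Set G) ≤ H → H ≤ (P : Subgroup G) → ∃ Q : Subgroup G, Q ≤ Subgroup.normalizer ((H : Subgroup G) : Set G) ∧ IsPGroup p ↥Q ∧ ¬ p ∣ (Q).relIndex (Subgroup.normalizer ((H : Subgroup G) : Set G)) ∧ ∀ x :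 G, x ∈ Q ⊓ ⁅Subgroup.normalizer ((H : Subgroup G) : Set G), Subgroup.normalizer ((H : Subgroup G) : Set G)⁆ ↔ ∃ a ∈ Q ⊓ ⁅Subgroup.normalizer ((H : Subgroup G) : Set G) ⊓ Subgroup.normalizer ((W Q : Subgroup G) : Set G), Subgroup.normalizer ((H : Subgroup G) : Set G) ⊓ Subgroup.normalizer ((W Q : Subgroup G) : Set G)⁆, ∃ b ∈ Q ⊓ ⁅Subgroup.normalizer ((H : Subgroup G) : Set G) ⊓ Subgroup.centralizer ((V Q : Subgroup G) : Set G), Subgroup.normalizer ((H : Subgroup G) : Set G) ⊓ Subgroup.centralizer ((V Q : Subgroup G) : Set G)⁆, x = a * b) : ∃ Q : Subgroup G, IsPGroup p ↥Q ∧ ¬ p ∣ Q.index ∧ ∀ x : G, x ∈ Q ⊓ commutator G ↔ ∃ a ∈ Q ⊓ ⁅Subgroup.normalizer ((W Q : Subgroup G) : Set G), Subgroup.normalizer ((W Q : Subgroup G) : Set G)⁆, ∃ b ∈ Q ⊓ ⁅Subgroup.centralizer ((V Q : Subgroup G) : Set G), Subgroup.centralizer ((V Q : Subgroup G) : Set G)⁆, x = a * b := by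
  have hS := isSylowIn_top P
  have hPb : (P : Subgroup G) ≠ ⊥ := P.ne_bot_of_dvd_card hdiv
  set F : Subgroup G := ((P : Subgroup G) ⊓ ⁅Nm (W P), Nm (W P)⁆) ⊔
    ((P : Subgroup G) ⊓ ⁅Ce (V P), Ce (V P)⁆) with hF
  have hloc' : ∀ U, Extr p ⊤ P U → (P : Subgroup G) ⊓ Ce P ≤ U →
      ((P : Subgroup G) ⊓ Nm U) ⊓ ⁅Nm U, Nm U⁆ ≤
        (((P : Subgroup G) ⊓ Nm U) ⊓ ⁅Nm U ⊓ Nm (W ((P : Subgroup G) ⊓ Nm U)), Nm U ⊓ Nm (W ((P : Subgroup G) ⊓ Nm U))⁆) ⊔
        (((P : Subgroup G) ⊓ Nm U) ⊓ ⁅Nm U ⊓ Ce (V ((P : Subgroup G) ⊓ Nm U)), Nm U ⊓ Ce (V ((P : Subgroup G) ⊓ Nm U))⁆) := by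
    intro U hU hZ
    obtain ⟨Q, h1, h2, h3, h4⟩ := hloc U hZ hU.le
    have hs := hU.syl
    rw [top_inf_eq] at hs
    obtain ⟨g, hg, e⟩ := (IsSylowIn.mk h1 h2 h3).exists_conj_eq hs
    change cj g Q = _ at e
    have h5 : Q ⊓ ⁅Nm U, Nm U⁆ ≤ (Q ⊓ ⁅Nm U ⊓ Nm (W Q), Nm U ⊓ Nm (W Q)⁆) ⊔
        (Q ⊓ ⁅Nm U ⊓ Ce (V Q), Nm U ⊓ Ce (V Q)⁆) := by
      intro x hx
      obtain ⟨a, ha, b, hb, rfl⟩ := (h4 x).mp hx
      exact Subgroup.mul_mem_sup ha hb
    have h6 := cj_mono g h5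
    simp only [cj_inf, cj_sup, cj_commutator, cj_of_mem hg, ← Nm_cj, ← Ce_cj, ← cf_cj hW h2,
      ← cf_cj hV h2, e] at h6
    exact h6
  have hΦ := fusClosed_focal ⊤ P F
  have key := double_ind (S := P) (H := ⊤) (Φ := fun T g => ∀ x ∈ T, x⁻¹ * (g * x * g⁻¹) ∈ F)
    (fun U => Extr p ⊤ P U → (P : Subgroup G) ⊓ Ce P ≤ U → ((P : Subgroup G) ⊓ Nm U) ⊓ ⁅Nm U, Nm U⁆ ≤ F) ?_ ?_
  · refine ⟨P, P.isPGroup', P.not_dvd_index, fun x => ⟨fun hx => ?_, ?_⟩⟩
    · have h1 := focal_le_of_fusClosed hS key hx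
      rw [hF, mem_sup_iff_of_le_normalizer] at h1
      · exact h1
      · refine inf_le_left.trans (le_trans (le_inf Subgroup.le_normalizer ?_) (Nm_inf_le _ _))
        intro g hg
        rw [← cj_eq_iff, cj_commutator, cj_of_mem (cf_le_Nm hW hS.isPGroup hg)]
    · rintro ⟨a, ha, b, hb, rfl⟩
      exact mul_mem ⟨ha.1, Subgroup.commutator_mono le_top le_top ha.2⟩
        ⟨hb.1, Subgroup.commutator_mono le_top le_top hb.2⟩
  · intro k hk
    refine hΦ.alperin_centric hS (fun T g _ _ hg x hx => by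
      rw [conj_eq_of_mem_Ce hg hx, inv_mul_cancel]; exact F.one_mem) k
      (fun U hU hc hkU _ n hn x hx => ?_)
    have hle : U ≤ (P : Subgroup G) ⊓ Nm U := le_inf hU.le Subgroup.le_normalizer
    refine hk U (hkU.trans (Subgroup.card_le_of_le hle)) hU
      ((inf_le_inf_left _ (Ce_anti hU.le)).trans hc) ⟨hle ?_, ?_⟩
    · exact mul_mem (inv_mem hx) (conj_mem_of_mem_normalizer hn.2 hx)
    · exact conj_commutator_mem (Subgroup.le_normalizer hx) hn.2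
  · intro U ihV ihT hU hZ
    have hp : IsPGroup p ((P : Subgroup G) ⊓ Nm U : Subgroup G) := hS.isPGroup.to_inf_left
    have hle0 : U ≤ (P : Subgroup G) ⊓ Nm U := le_inf hU.le Subgroup.le_normalizer
    have hZb : (P : Subgroup G) ⊓ Ce P ≠ ⊥ := fun e =>
      cf_ne_bot hV hS.isPGroup hPb (le_bot_iff.mp ((hVZ _ hS.isPGroup).trans e.le))
    refine (hloc' U hU hZ).trans (sup_le ?_ ?_)
    swap
    · have : Nm U ⊓ Ce (V ((P : Subgroup G) ⊓ Nm U)) ≤ Ce (V P) := inf_le_right.trans (Ce_anti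
        (hVmono _ _ hS.isPGroup hp hPb (fun e => hZb (le_bot_iff.mp ((hZ.trans hle0).trans e.le)))
          (le_inf (hZ.trans hle0) (inf_le_right.trans (Ce_anti inf_le_left)))))
      exact le_sup_of_le_right (inf_le_inf inf_le_left (Subgroup.commutator_mono this this))
    by_cases hn : (P : Subgroup G) ≤ Nm U
    · rw [inf_of_le_left hn]
      exact le_sup_of_le_left (inf_le_inf_left _
        (Subgroup.commutator_mono inf_le_right inf_le_right))
    have hlt := cf_lt hW hS.isPGroup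
      (lt_of_le_of_ne inf_le_left (fun e => hn (inf_eq_left.mp e)) : (P : Subgroup G) ⊓ Nm U < P)
    set Y := W ((P : Subgroup G) ⊓ Nm U) with hY
    obtain ⟨x, hx, hE, hle⟩ := exists_extr hS ((cf_le hW hp).trans inf_le_left : Y ≤ P)
    have hle' : cj x ((P : Subgroup G) ⊓ Nm Y) ≤ (P : Subgroup G) ⊓ Nm (cj x Y) :=
      le_inf hle (by rw [Nm_cj]; exact cj_mono x inf_le_right)
    have hZ' : (P : Subgroup G) ⊓ Ce P ≤ cj x Y := by
      have h1 : cj x ((P : Subgroup G) ⊓ Nm U) ≤ P := (cj_mono x hlt.le).trans hle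
      have h2 := hU.syl.smul x
      change IsSylowIn p (cj x ((P : Subgroup G) ⊓ Nm U)) (cj x (⊤ ⊓ Nm U)) at h2
      rw [top_inf_eq, ← Nm_cj] at h2
      have h3 : (P : Subgroup G) ⊓ Nm (cj x U) = cj x ((P : Subgroup G) ⊓ Nm U) :=
        h2.eq_of_le hS.isPGroup.to_inf_left (le_inf h1 h2.le) inf_le_right
      rw [hY, ← cf_cj hW hp]
      refine le_trans (le_inf ?_ (inf_le_right.trans (Ce_anti h1))) (hWZ _ h2.isPGroup)
      rw [← h3]
      exact inf_le_inf_left _ ((Ce_anti ((cj_mono x hle0).trans h1)).trans (Ce_le_Nm _))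
    have c1 := card_lt_of_lt hlt
    have h1 := ihT _ x inf_le_left hx hle c1
    have h2 := ihV (cj x Y) (c1.trans_le (hE.card_le hS hx rfl)) hE hZ'
    intro t ht
    have h3 : x * t * x⁻¹ ∈ F := by
      refine h2 ⟨hle' (conj_mem_conj_smul (hlt.le ht.1)), ?_⟩
      change _ ∈ ⁅Nm (cj x Y), Nm (cj x Y)⁆
      rw [Nm_cj, ← cj_commutator]
      exact conj_mem_conj_smul (Subgroup.commutator_mono inf_le_right inf_le_right ht.2)
    have := F.mul_mem h3 (F.inv_mem (h1 t (hlt.le ht.1)))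
    simpa [mul_assoc] using this

end Cfsg.Agent.S2001
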