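import Cfsg.Statements.S2002
import Cfsg.Agent.Base
import Cfsg.Agent.H16.LocGlob

set_option autoImplicit false
open Cfsg H16 H7

namespace Cfsg.Agent.S2002

open H16 H7 in
theorem conj_pair {G : Type*} [Group G] {p : ℕ} {W V : Subgroup G → Subgroup G}
    (hW : Cfsg.IsConjugacyFunctor p W) (hV : Cfsg.IsConjugacyFunctor p V) {L Q : Subgroup G}
    (hQ : IsPGroup p Q)
    (h : ∀ (X : Set G) (a : G), a ∈ L → X ⊆ Q → (∀ x ∈ X, a * x * a⁻¹ ∈ Q) →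
      LCtl (fun y => y ∈ L ⊓ Nm (W Q) ∨ y ∈ L ⊓ Ce (V Q)) Q X a) {g : G} (hg : g ∈ L) :
    ∀ (X : Set G) (a : G), a ∈ L → X ⊆ cj g Q → (∀ x ∈ X, a * x * a⁻¹ ∈ cj g Q) →
      LCtl (fun y => y ∈ L ⊓ Nm (W (cj g Q)) ∨ y ∈ L ⊓ Ce (V (cj g Q))) (cj g Q) X a := by
  intro A x hx hA hxA
  have h1 := h ((fun a => g⁻¹ * a * g) '' A) (g⁻¹ * x * g) (mul_mem (mul_mem (inv_mem hg) hx) hg)
    (by rintro _ ⟨a, ha, rfl⟩; exact mem_cj.mp (hA ha))
    (by rintro _ ⟨a, ha, rfl⟩; simpa [mul_assoc] using mem_cj.mp (hxA a ha))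
  have h2 := lctl_map (MulAut.conj g).toMonoidHom
    (St' := fun y => y ∈ L ⊓ Nm (W (cj g Q)) ∨ y ∈ L ⊓ Ce (V (cj g Q))) (by
    rintro y (hy | hy)
    · left
      rw [cf_cj hW hQ, Nm_cj, ← cj_of_mem hg, ← cj_inf]
      exact conj_mem_conj_smul hy
    · right
      rw [cf_cj hV hQ, Ce_cj, ← cj_of_mem hg, ← cj_inf]
      exact conj_mem_conj_smul hy) h1
  have h3 : A ⊆ (MulAut.conj g).toMonoidHom '' ((fun a => g⁻¹ * a * g) '' A) :=
    fun a ha => ⟨_, ⟨a, ha, rfl⟩, by simp [mul_assoc]⟩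
  refine (h2.mono h3).congr (fun a _ => ?_)
  simp [mul_assoc]

/-- Let p be a prime dividing the order of the finite group G, P a Sylow p-subgroup, W a conjugacy functor for p on G with Z(H) ≤ W(H) for every nontrivial p-subgroup H, and V a central functor (a conjugacy functor with V(H) ≤ Z(H), and V(H) ≤ V(K) whenever Z(H) ≤ Z(K)). Say that W with V controls strong fusion in a subgroup L when some Sylow p-subgroup Q of L has the property: whenever X ⊆ Q and a ∈ L with a⁻¹Xa ⊆ Q, then a = c b with c ∈ C_L(X) and b = b₁ ⋯ bₙ a product of elements each in N_L(W(Q)) or in C_L(V(Q)) such that every partial conjugate (b₁ ⋯ bₖ)⁻¹ X (b₁ ⋯ bₖ) lies in Q. If W with V controls strong fusion in N_G(H) for every subgroup H with Z(P) ≤ H ≤ P, then W with V controls strong fusion in G. -/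
theorem result {G : Type*} [Group G] [Finite G] {p : ℕ} [Fact p.Prime] (hdiv : p ∣ Nat.card G) (P : Sylow p G) (W V : Subgroup G → Subgroup G) (hW : Cfsg.IsConjugacyFunctor p W) (hV : Cfsg.IsConjugacyFunctor p V) (hWZ : ∀ H : Subgroup G, IsPGroup p ↥H → H ⊓ Subgroup.centralizer ((H : Subgroup G) : Set G) ≤ W H) (hVZ : ∀ H : Subgroup G, IsPGroup p ↥H → V H ≤ H ⊓ Subgroup.centralizer ((H : Subgroup G) : Set G)) (hVmono : ∀ H K : Subgroup G, IsPGroup p ↥H → IsPGroup p ↥K → H ≠ ⊥ → K ≠ ⊥ → H ⊓ Subgroup.centralizer ((H : Subgroup G) : Set G) ≤ K ⊓ Subgroup.centralizer ((K : Subgroup G) : Set G) → V H ≤ V K) (hloc : ∀ H : Subgroup G, (P : Subgroup G) ⊓ Subgroup.centralizer (((P : Subgroup G) : Subgroup G) : Set G) ≤ H → H ≤ (P : Subgroup G) → ∃ Q : Subgroup G, Q ≤ Subgroup.normalizer ((H : Subgroup G) : Set G) ∧ IsPGroup p ↥Q ∧ ¬ p ∣ (Q).relIndex (Subgroup.normalizer ((H : Subgroup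 G) : Set G)) ∧ ∀ (X : Set G) (a : G), X ⊆ Q → a ∈ Subgroup.normalizer ((H : Subgroup G) : Set G) → (fun x => a⁻¹ * x * a) '' X ⊆ Q → ∃ c ∈ Subgroup.normalizer ((H : Subgroup G) : Set G) ⊓ Subgroup.centralizer X, ∃ (n : ℕ) (b : Fin n → G), (∀ i, b i ∈ Subgroup.normalizer ((H : Subgroup G) : Set G) ⊓ Subgroup.normalizer ((W Q : Subgroup G) : Set G) ∨ b i ∈ Subgroup.normalizer ((H : Subgroup G) : Set G) ⊓ Subgroup.centralizer ((V Q : Subgroup G) : Set G)) ∧ a = c * (List.ofFn b).prod ∧ ∀ k : ℕ, k ≤ n → (fun x => (((List.ofFn b).take k).prod)⁻¹ * x * ((List.ofFn b).take k).prod) '' ((fun x => c⁻¹ * x * c) '' X) ⊆ Q) : ∃ Q : Subgroup G, IsPGroup p ↥Q ∧ ¬ p ∣ Q.index ∧ ∀ (X : Set G) (a : G), X ⊆ Q → (fun x => a⁻¹ * x * a) '' X ⊆ Q → ∃ c ∈ Subgroup.centralizer X, ∃ (n : ℕ) (b : Fin n → G), (∀ i, b i ∈ ⊤ ⊓ Subgroup.normalizer ((W Q : Subgroup G) : Set G) ∨ b i ∈ ⊤ ⊓ Subgroup.centralizer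 ((V Q : Subgroup G) : Set G)) ∧ a = c * (List.ofFn b).prod ∧ ∀ k : ℕ, k ≤ n → (fun x => (((List.ofFn b).take k).prod)⁻¹ * x * ((List.ofFn b).take k).prod) '' ((fun x => c⁻¹ * x * c) '' X) ⊆ Q := by
  have hS := isSylowIn_top P
  have hPb : (P : Subgroup G) ≠ ⊥ := P.ne_bot_of_dvd_card hdiv
  have hinv : ∀ (L Q : Subgroup G) (y : G), (y ∈ L ⊓ Nm (W Q) ∨ y ∈ L ⊓ Ce (V Q)) →
      (y⁻¹ ∈ L ⊓ Nm (W Q) ∨ y⁻¹ ∈ L ⊓ Ce (V Q)) := fun _ _ _ h => h.imp inv_mem inv_mem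
  have hloc' : ∀ U, Extr p ⊤ P U → (P : Subgroup G) ⊓ Ce P ≤ U → ∀ (X : Set G) (a : G),
      a ∈ Nm U → X ⊆ ↑((P : Subgroup G) ⊓ Nm U) → (∀ x ∈ X, a * x * a⁻¹ ∈ (P : Subgroup G) ⊓ Nm U) →
      LCtl (fun y => y ∈ Nm U ⊓ Nm (W ((P : Subgroup G) ⊓ Nm U)) ∨ y ∈ Nm U ⊓ Ce (V ((P : Subgroup G) ⊓ Nm U)))
        ((P : Subgroup G) ⊓ Nm U) X a := by
    intro U hU hZ
    obtain ⟨Q, h1, h2, h3, h4⟩ := hloc U hZ hU.le
    have hs := hU.syl
    rw [top_inf_eq] at hs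
    obtain ⟨g, hg, e⟩ := (IsSylowIn.mk h1 h2 h3).exists_conj_eq hs
    rw [← e]
    refine conj_pair hW hV h2 (fun X a ha hX haX => ?_) hg
    obtain ⟨c, hc, h5⟩ := h4 X a⁻¹ hX (inv_mem ha)
      (by rintro _ ⟨x, hx, rfl⟩; simpa using haX x hx)
    have := (lctl_iff_list (hinv _ Q) hX (g := a⁻¹)).mpr ⟨c, hc.2, h5⟩
    rwa [inv_inv] at this
  have hΦ := fusClosed_lctl (hinv ⊤ P) ⊤ P
  have key := double_ind (S := P) (H := ⊤)
    (Φ := fun T g => LCtl (fun y => y ∈ ⊤ ⊓ Nm (W P) ∨ y ∈ ⊤ ⊓ Ce (V P)) P T g)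
    (fun U => Extr p ⊤ P U → (P : Subgroup G) ⊓ Ce P ≤ U → ∀ (A : Set G) (h : G), h ∈ Nm U →
      A ⊆ ↑((P : Subgroup G) ⊓ Nm U) → (∀ a ∈ A, h * a * h⁻¹ ∈ (P : Subgroup G) ⊓ Nm U) →
      LCtl (fun y => y ∈ ⊤ ⊓ Nm (W P) ∨ y ∈ ⊤ ⊓ Ce (V P)) P A h) ?_ ?_
  · refine ⟨P, P.isPGroup', P.not_dvd_index, fun X a hX haX => ?_⟩
    refine (lctl_iff_list (hinv ⊤ P) hX).mp ?_
    exact (key _ a⁻¹ ((Subgroup.closure_le _).mpr hX) trivial (cj_closure_le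
      (fun x hx => by rw [inv_inv]; exact haX ⟨x, hx, rfl⟩))).mono Subgroup.subset_closure
  · intro k hk
    refine hΦ.alperin_centric hS (fun T g _ _ hg => lctl_of_centralizes
      (fun a ha => conj_eq_of_mem_Ce hg ha)) k (fun U hU hc hkU _ n hn => ?_)
    have hle : U ≤ (P : Subgroup G) ⊓ Nm U := le_inf hU.le Subgroup.le_normalizer
    exact hk U (hkU.trans (Subgroup.card_le_of_le hle)) hU
      ((inf_le_inf_left _ (Ce_anti hU.le)).trans hc) U n hn.2 hle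
      (fun a ha => hle (conj_mem_of_mem_normalizer hn.2 ha))
  · intro U ihV ihT hU hZ A h hh hA hhA
    refine (hloc' U hU hZ A h hh hA hhA).trans hA ?_
    have hp : IsPGroup p ((P : Subgroup G) ⊓ Nm U : Subgroup G) := hS.isPGroup.to_inf_left
    have hle0 : U ≤ (P : Subgroup G) ⊓ Nm U := le_inf hU.le Subgroup.le_normalizer
    have hZb : (P : Subgroup G) ⊓ Ce P ≠ ⊥ := fun e =>
      cf_ne_bot hV hS.isPGroup hPb (le_bot_iff.mp ((hVZ _ hS.isPGroup).trans e.le))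
    rintro B y hB (hy | hy) hyB
    swap
    · refine lctl_single (Or.inr ⟨trivial, Ce_anti ?_ hy.2⟩) (fun b hb => (hyB b hb).1)
      exact hVmono _ _ hS.isPGroup hp hPb (fun e => hZb (le_bot_iff.mp ((hZ.trans hle0).trans e.le)))
        (le_inf (hZ.trans hle0) (inf_le_right.trans (Ce_anti inf_le_left)))
    by_cases hn : (P : Subgroup G) ≤ Nm U
    · rw [inf_of_le_left hn] at hy hyB
      exact lctl_single (Or.inl ⟨trivial, hy.2⟩) hyB
    have hlt := cf_lt hW hS.isPGroup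
      (lt_of_le_of_ne inf_le_left (fun e => hn (inf_eq_left.mp e)) : (P : Subgroup G) ⊓ Nm U < P)
    set Y := W ((P : Subgroup G) ⊓ Nm U) with hY
    obtain ⟨x, hx, hE, hle⟩ := exists_extr hS ((cf_le hW hp).trans inf_le_left : Y ≤ P)
    have hle' : cj x ((P : Subgroup G) ⊓ Nm Y) ≤ (P : Subgroup G) ⊓ Nm (cj x Y) :=
      le_inf hle (by rw [Nm_cj]; exact cj_mono x inf_le_right)
    have hZ' : (P : Subgroup G) ⊓ Ce P ≤ cj x Y := by
      have h1 : cj x ((P : Subgroup G) ⊓ Nm U) ≤ P := (cj_mono x hlt.le).trans hle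
      have h2 := hU.syl.smul x
      change IsSylowIn p (cj x ((P : Subgroup G) ⊓ Nm U)) (cj x (⊤ ⊓ Nm U)) at h2
      rw [top_inf_eq, ← Nm_cj] at h2
      have h3 : (P : Subgroup G) ⊓ Nm (cj x U) = cj x ((P : Subgroup G) ⊓ Nm U) :=
        h2.eq_of_le hS.isPGroup.to_inf_left (le_inf h1 h2.le) inf_le_right
      rw [hY, ← cf_cj hW hp]
      refine le_trans (le_inf ?_ (inf_le_right.trans (Ce_anti h1))) (hWZ _ h2.isPGroup)
      rw [← h3]
      exact inf_le_inf_left _ ((Ce_anti ((cj_mono x hle0).trans h1)).trans (Ce_le_Nm _))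
    have c1 := card_lt_of_lt hlt
    have h1 := ihT _ x inf_le_left hx hle c1
    have h2 := ihV (cj x Y) (c1.trans_le (hE.card_le hS hx rfl)) hE hZ'
      {b | x⁻¹ * b * x ∈ B} (x * y * x⁻¹)
      (by rw [Nm_cj]; exact conj_mem_conj_smul hy.2)
      (fun b hb => hle' (mem_cj.mpr (hlt.le (hB hb))))
      (fun b hb => hle' (mem_cj.mpr (by simpa [mul_assoc] using hlt.le (hyB _ hb))))
    have h3 := h1.inv (hinv ⊤ P) (inf_le_left : (P : Subgroup G) ⊓ Nm Y ≤ P)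
    have h4 := ((h1.mono (fun b hb => hlt.le (hB hb))).mul h2
      (fun b hb => by simpa [mul_assoc] using hb)).mul h3
      (fun b hb => by
        have := hlt.le (hyB _ hb)
        change x⁻¹ * (x * y * x⁻¹ * x * b * (x * y * x⁻¹ * x)⁻¹) * x ∈ (P : Subgroup G) ⊓ Nm Y
        rwa [show x⁻¹ * (x * y * x⁻¹ * x * b * (x * y * x⁻¹ * x)⁻¹) * x = y * b * y⁻¹ by group])
    simpa [mul_assoc] using h4

end Cfsg.Agent.S2002
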