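import Cfsg.Statements.S2043
import Cfsg.Agent.H81.Co1P2
import Cfsg.Agent.H81.Co1P3
import Cfsg.Agent.H81.Co1P5
import Cfsg.Agent.H81.Co1P7
-- import your own Cfsg.Agent.* helpers here

set_option autoImplicit false
open Cfsg

namespace Cfsg.Agent.S2043

/-- The Schur multiplier of the Conway group Co₁ (the automorphism group of the rank-24 lattice modulo its centre) is cyclic of order 2; here the Schur multiplier is described through stem extensions, as in the definitions: surjective homomorphisms onto the group from a finite group, whose kernel is central in that finite group and contained in that finite group's commutator subgroup. -/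
theorem result : Cfsg.HasCyclicSchurMultiplier Cfsg.Spor.Co1 2 := by
  have : Finite Spor.Co1 := Nat.finite_of_card_ne_zero (by rw [H77.card_co1]; norm_num)
  refine H81.cyclic_of_hasE [(2, 1), (3, 0), (5, 0), (7, 0)] (by simpa using ⟨H81.Co1P2.main, H81.Co1P3.main, H81.Co1P5.main, H81.Co1P7.main⟩) ?_ (by norm_num) (by norm_num) H81.CoM.hasE
  rw [H77.card_co1]
  exact H81.mem_of_sq_dvd (k := 21) [2, 3, 5, 7, 11, 13, 23] [2, 3, 5, 7] (by norm_num) (by norm_num) (by norm_num)

end Cfsg.Agent.S2043
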