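import Cfsg.Statements.S2045
import Cfsg.Agent.H81.Co3P2
import Cfsg.Agent.H81.Co3P3
import Cfsg.Agent.H81.Co3P5
-- import your own Cfsg.Agent.* helpers here

set_option autoImplicit false
open Cfsg

namespace Cfsg.Agent.S2045

/-- The Schur multiplier of the Conway group Co₃ (the stabiliser of a vector of the second shortest length in the rank-24 lattice) is trivial; here the Schur multiplier is described through stem extensions, as in the definitions: surjective homomorphisms onto the group from a finite group, whose kernel is central in that finite group and contained in that finite group's commutator subgroup. -/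
theorem result : Cfsg.HasCyclicSchurMultiplier ↥Cfsg.Spor.Co3 1 := by
  have : Finite Spor.Co3 := Nat.finite_of_card_ne_zero (by rw [H77.card_Co3]; norm_num)
  refine H81.trivial_of_noStem [2, 3, 5] (by simpa using ⟨H81.Co3P2.main.congr H77.co3Equiv, H81.Co3P3.main.congr H77.co3Equiv, H81.Co3P5.main.congr H77.co3Equiv⟩) ?_
  rw [H77.card_Co3]
  exact H81.mem_of_sq_dvd (k := 10) [2, 3, 5, 7, 11, 23] [2, 3, 5] (by norm_num) (by norm_num) (by norm_num)

end Cfsg.Agent.S2045
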