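import Cfsg.Statements.S2093
import Cfsg.Agent.H65.ES62P2
import Cfsg.Agent.H65.ES62P3
import Cfsg.Agent.H65.ES62C

set_option autoImplicit false
open Cfsg

namespace Cfsg.Agent.S2093

/-- Exceptional Schur multiplier: over the field with 2 elements, PSp₆ has Schur multiplier cyclic of order 2 (here the Schur multiplier is described through stem extensions, as in the definitions). -/
theorem result {F : Type*} [Field F] [Fintype F] (hF : Fintype.card F = 2) : Cfsg.HasCyclicSchurMultiplier (Cfsg.PSp 3 F) 2 := by
  obtain ⟨e⟩ := H65.S62M.equiv F hF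
  have : Finite (Matrix.symplecticGroup (Fin 3) (ZMod 2)) :=
    Nat.finite_of_card_ne_zero (by rw [H65.S62M.card]; norm_num)
  refine H21.multiplier_congr_left (H81.cyclic_of_hasV [(2, 1), (3, 0)]
    (by simpa using ⟨H65.ES62P2.main, H65.ES62P3.main⟩) ?_ (by norm_num) (by norm_num)
    H65.ES62C.main.hasV) e
  rw [H65.S62M.card]
  exact H81.mem_of_sq_dvd (k := 9) [2, 3, 5, 7] [2, 3] (by norm_num) (by norm_num) (by norm_num)

end Cfsg.Agent.S2093
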