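import Cfsg.Statements.S2102
import Cfsg.Agent.H65.EG24P2
import Cfsg.Agent.H65.EG24P3
import Cfsg.Agent.H65.EG24P5
import Cfsg.Agent.H65.EG24C

set_option autoImplicit false
open Cfsg

namespace Cfsg.Agent.S2102

/-- Exceptional Schur multiplier: over the field with 4 elements the Chevalley group of type G₂ has Schur multiplier cyclic of order 2 (here the Schur multiplier is described through stem extensions, as in the definitions). -/
theorem result {F : Type*} [Field F] [Fintype F] (hF : Fintype.card F = 4) : Cfsg.HasCyclicSchurMultiplier ↥(Cfsg.Lie.chevG2.group F) 2 := by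
  obtain ⟨e⟩ := H65.G24M.equiv F hF
  have : Finite (Cfsg.Lie.chevG2.group H6.F4) :=
    Nat.finite_of_card_ne_zero (by rw [H95.G24.card_F4]; norm_num)
  refine H21.multiplier_congr_left (H81.cyclic_of_hasV [(2, 1), (3, 0), (5, 0)]
    (by simpa using ⟨H65.EG24P2.main, H65.EG24P3.main, H65.EG24P5.main⟩) ?_ (by norm_num) (by norm_num)
    H65.EG24C.main.hasV) e
  rw [H95.G24.card_F4]
  exact H81.mem_of_sq_dvd (k := 12) [2, 3, 5, 7, 13] [2, 3, 5] (by norm_num) (by norm_num) (by norm_num)

end Cfsg.Agent.S2102
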