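import Cfsg.Statements.S2165
import Cfsg.Agent.Base
import Cfsg.Agent.H59.Std
import Cfsg.Agent.H55.Transport

set_option autoImplicit false
open Cfsg

namespace Cfsg.Agent.S2165

/-- In SU_n(q), q even, n ≥ 3 (matrices of determinant 1 over the field with q² elements preserving Σ u_i v_i^q): for every ℓ with 1 ≤ ℓ and 2ℓ ≤ n, the permutation matrix of the involution of {0, …, n−1} exchanging i and n − ℓ + i for each i < ℓ lies in SU_n(q), has order 2, and differs from the identity by a matrix of rank ℓ. So every rank between 1 and n/2 occurs for involutions of SU_n(q). -/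
theorem result {F : Type*} [Field F] [Fintype F] [CharP F 2] {n q : ℕ} (hF : Fintype.card F = q ^ 2) (hn : 3 ≤ n) (ℓ : ℕ) (h1 : 1 ≤ ℓ) (h2 : 2 * ℓ ≤ n) :
    ∃ a : ↥(Cfsg.SU n F q), (((a : Matrix.SpecialLinearGroup (Fin n) F) : Matrix (Fin n) (Fin n) F) = Matrix.of (fun i j : Fin n => if (j.val < ℓ ∧ i.val = j.val + (n - ℓ)) ∨ (i.val < ℓ ∧ j.val = i.val + (n - ℓ)) ∨ (i = j ∧ ℓ ≤ i.val ∧ i.val < n - ℓ) then (1 : F) else 0)) ∧ orderOf a = 2 ∧ ((((a : Matrix.SpecialLinearGroup (Fin n) F) : Matrix (Fin n) (Fin n) F)) - 1).rank = ℓ := by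
  classical
  let f : Fin n → Fin n := fun i => if h : i.val < ℓ then ⟨i.val + (n - ℓ), by omega⟩ else
    if n - ℓ ≤ i.val then ⟨i.val - (n - ℓ), by omega⟩ else i
  have hf : ∀ i, (f i).val = if i.val < ℓ then i.val + (n - ℓ) else
      if n - ℓ ≤ i.val then i.val - (n - ℓ) else i.val := fun i => by
    simp only [f]; split_ifs <;> rfl
  have hff : Function.Involutive f := fun i => Fin.ext (by
    have := i.2
    simp only [hf]; split_ifs <;> omega)
  let π : Equiv.Perm (Fin n) := hff.toPerm f
  have hπ : π * π = 1 := Equiv.ext hff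
  have h2' : (2 : F) = 0 := CharP.cast_eq_zero F 2
  have hneg : (-1 : F) = 1 := by linear_combination -h2'
  have hM : π.permMatrix F = Matrix.of (fun i j : Fin n => if (j.val < ℓ ∧ i.val = j.val + (n - ℓ)) ∨
      (i.val < ℓ ∧ j.val = i.val + (n - ℓ)) ∨ (i = j ∧ ℓ ≤ i.val ∧ i.val < n - ℓ) then (1 : F)
      else 0) := by
    ext i j
    have := i.2
    have := j.2
    simp only [PEquiv.toMatrix_apply, Equiv.toPEquiv_apply, Option.mem_some_iff, Matrix.of_apply]
    refine if_congr ?_ rfl rfl
    rw [show π i = f i from rfl, Fin.ext_iff, Fin.ext_iff, hf]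
    split_ifs <;> omega
  have hMM : π.permMatrix F * π.permMatrix F = 1 := by
    rw [← Matrix.permMatrix_mul, hπ, Matrix.permMatrix_one]
  let g : Matrix.SpecialLinearGroup (Fin n) F := ⟨π.permMatrix F, by
    rw [Matrix.det_permutation]
    rcases Int.units_eq_one_or (Equiv.Perm.sign π) with h | h <;> simp [h, hneg]⟩
  have hg : g ∈ Cfsg.SU n F q := by
    rw [H55.mem_SU_iff_transpose_mul (H59.frob hF) fun _ => rfl]
    change (π.permMatrix F).transpose * (π.permMatrix F).map _ = 1
    rw [Matrix.transpose_permMatrix, inv_eq_of_mul_eq_one_right hπ, ← hMM]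
    congr 1
    ext i j
    simp [PEquiv.toMatrix_apply, apply_ite]
  let r : Fin ℓ → Fin n := fun k => ⟨k, by omega⟩
  have hsub : (π.permMatrix F - 1).submatrix r r = 1 := by
    ext k m
    have := k.2
    have := m.2
    simp only [hM, Matrix.submatrix_apply, Matrix.sub_apply, Matrix.of_apply, Matrix.one_apply, r,
      Fin.ext_iff]
    rw [if_neg (by omega)]
    split_ifs <;> simp [hneg]
  have hrank : (π.permMatrix F - 1).rank = ℓ := by
    refine le_antisymm ?_ ?_
    · let A : Matrix (Fin n) (Fin ℓ) F := Matrix.of fun i k =>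
        if i.val = k.val ∨ i.val = k.val + (n - ℓ) then 1 else 0
      have : π.permMatrix F - 1 = A * A.transpose := by
        ext i j
        have := i.2
        have := j.2
        simp only [hM, Matrix.sub_apply, Matrix.of_apply, Matrix.one_apply, Matrix.mul_apply,
          Matrix.transpose_apply, A, Fin.ext_iff]
        by_cases hi : ℓ ≤ i.val ∧ i.val < n - ℓ
        · rw [Finset.sum_eq_zero fun k _ => by rw [if_neg (by have := k.2; omega), zero_mul]]
          split_ifs <;> first | omega | simp
        · rw [Finset.sum_eq_single ⟨if i.val < ℓ then i.val else i.val - (n - ℓ), by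
            split_ifs <;> omega⟩ (fun k _ hk => by
              rw [if_neg, zero_mul]
              have := k.2
              simp only [ne_eq, Fin.ext_iff] at hk
              split_ifs at hk <;> omega) (by simp)]
          dsimp only
          split_ifs <;> first | omega | simp [hneg]
      rw [this]
      exact (Matrix.rank_mul_le_left _ _).trans (Matrix.rank_le_width _)
    · have := Matrix.rank_submatrix_le (π.permMatrix F - 1) r r
      rwa [hsub, Matrix.rank_one, Fintype.card_fin] at this
  refine ⟨⟨g, hg⟩, hM, orderOf_eq_prime (Subtype.ext (Subtype.ext ?_)) fun h => ?_, hrank⟩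
  · rw [sq]; exact hMM
  · rw [show π.permMatrix F = 1 from congrArg (fun x : Cfsg.SU n F q => x.1.1) h, sub_self,
      Matrix.rank_zero] at hrank
    omega

end Cfsg.Agent.S2165
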