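import Cfsg.Statements.S2166
import Cfsg.Agent.Base
import Cfsg.Agent.H54.SpInvTwo

set_option autoImplicit false
open Cfsg

namespace Cfsg.Agent.S2166

/-- Conjugacy of involutions in the symplectic group Sp_{2m}(F), F a finite field of characteristic two, m ≥ 2 (Sp taken as the matrices A with A J Aᵀ = J, acting on column vectors, with the alternating form f(u, v) = u ⬝ (J v)). For an involution t write V(t) for the set of vectors v with f(v, t v) = 0 (a subspace). Two involutions a, b are conjugate in Sp_{2m}(F) exactly when a − 1 and b − 1 have the same rank and, in case that rank is even, V(a) and V(b) have the same number of elements. -/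
theorem result {F : Type*} [Field F] [Fintype F] [CharP F 2] {m : ℕ} (hm : 2 ≤ m) (a b : ↥(Matrix.symplecticGroup (Fin m) F)) (ha : orderOf a = 2) (hb : orderOf b = 2) :
    IsConj a b ↔ ((((a : ↥(Matrix.symplecticGroup (Fin m) F)) : Matrix (Fin m ⊕ Fin m) (Fin m ⊕ Fin m) F) - 1).rank = (((b : ↥(Matrix.symplecticGroup (Fin m) F)) : Matrix (Fin m ⊕ Fin m) (Fin m ⊕ Fin m) F) - 1).rank ∧
      (Even (((a : ↥(Matrix.symplecticGroup (Fin m) F)) : Matrix (Fin m ⊕ Fin m) (Fin m ⊕ Fin m) F) - 1).rank → Nat.card {v : Fin m ⊕ Fin m → F // Cfsg.sympForm m F v (Matrix.mulVec ((a : ↥(Matrix.symplecticGroup (Fin m) F)) : Matrix (Fin m ⊕ Fin m) (Fin m ⊕ Fin m) F) v) = 0} = Nat.card {v : Fin m ⊕ Fin m → F // Cfsg.sympForm m F v (Matrix.mulVec ((b : ↥(Matrix.symplecticGroup (Fin m) F)) : Matrix (Fin m ⊕ Fin m) (Fin m ⊕ Fin m) F) v) = 0})) := by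
  have ha2 : a ^ 2 = 1 := ha ▸ pow_orderOf_eq_one a
  have hb2 : b ^ 2 = 1 := hb ▸ pow_orderOf_eq_one b
  simp only [H54.sympForm_eq, ← H54.sp_smul_def, H54.rank_sub_one]
  rw [H54.isConj_iff_of_sq_eq_one ha2 hb2]
  refine and_congr_right fun e => ⟨fun h _ => ?_, fun h => ?_⟩
  · by_cases hA : H54.IsAltType a
    · rw [hA.card_eq, (h.1 hA).card_eq]
    · exact Nat.eq_of_mul_eq_mul_right Nat.card_pos ((H54.card_mul_eq_of_not_isAltType ha2 hA).trans
        (H54.card_mul_eq_of_not_isAltType hb2 (mt h.2 hA)).symm)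
  · by_cases he : Even (Module.finrank F (H54.spMov a))
    · rw [H54.isAltType_iff_card ha2, H54.isAltType_iff_card hb2, h he]
    · exact iff_of_false (fun h => he h.even_finrank) fun h => he (e ▸ h.even_finrank)

end Cfsg.Agent.S2166
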