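import Cfsg.Statements.S2183
import Cfsg.Agent.H63.Tw5
import Cfsg.Agent.H68.TwD4

set_option autoImplicit false
open Cfsg

namespace Cfsg.Agent.S2183

open Cfsg.Lie H63 H64 H65 H68

set_option linter.unusedSimpArgs false

def H : List (List ℕ × List ℕ) :=
  [([15, 16, 19, 22], [15, 16, 19])]

def C : List (List ℕ × List Mw) :=
  [([23], []), ([22], [.rf [14]]), ([17, 20, 21], []), ([15, 16, 19], [.rf [12, 18, 13], .pm [17,
  20, 21]]), ([15, 16, 19, 22], [.id 0, .rf [12, 18, 13], .pm [17, 20, 21]]), ([14], [.rf [22]]),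
  ([14, 17, 20, 21], [.rf [12, 18, 13], .pm [15, 16, 19, 22], .id 0, .rf [12, 18, 13], .pm [17,
  20, 21]]), ([12, 13, 18], [.rf [15, 19, 16], .pm [17, 20, 21]]), ([12, 13, 18, 23], [.rf [14],
  .id 0, .rf [12, 18, 13], .pm [17, 20, 21]])]

def R : List (List ℕ × List ℕ) :=
  [([23], []), ([17, 20, 21], [22, 23])]

theorem c0 : ∀ i < chevD4.rank, ∀ j < chevD4.rank,
    chevD4.cartan i (chevD4.simple j) = chevD4.cartan j (chevD4.simple i) ∧
      chevD4.cartan (piD4 i) (chevD4.simple (piD4 j)) = chevD4.cartan i (chevD4.simple j) := by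
  decide +kernel

theorem c1 : ∀ A ∈ osets chevD4 chevD4.nroots chevD4.posRoots, (A.map rhoD4).isPerm A →
    A = [] ∨ ∃ e ∈ C, e.1 = A := by decide +kernel

theorem c2 : ∀ e ∈ C, ∃ B ∈ R, runw chevD4 rhoD4 H e.2 e.1 = some B.1 := by decide +kernel

theorem c3 : ∀ B ∈ R, upc chevD4 B.1 B.2 ∧ B.1 ≠ [] ∧ B.1.Pairwise (cz chevD4 2 · ·) ∧
    stab chevD4 rhoD4 B.1 := by decide +kernel

theorem c4 : R.Pairwise fun A B => noEmb chevD4 (fun _ => true) (A.1 ++ A.2)
    (par chevD4 B.1.reverse) B.1 [] := by decide +kernel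

theorem c5 : ∀ r < chevD4.nroots, rhoD4 r = r ∨
    chevD4.pairing r (rhoD4 r) = 0 ∧ rhoD4 (rhoD4 (rhoD4 r)) = r := by decide +kernel

theorem hH {K : Type*} [Field K] [Fintype K] [CharP K 2] {q : ℕ} (hq : IsPrimePow q)
    (hK : Fintype.card K = q ^ 3) (s : K) :
    ∀ e ∈ H, ∃ g ∈ (tgD4 hq hK).Fix, g * pr (xU chevD4 K) e.1 * g⁻¹ = pr (xU chevD4 K) e.2 := by
  simp only [H, List.forall_mem_cons, List.not_mem_nil, false_imp_iff, implies_true, and_true]
  exact conj_of_eng packedD4 _ (nontriv_D4 hq hK) [s] (by simp)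
      [(17, [(1, [])]), (20, [(1, [])]), (21, [(1, [])]), (12, [(1, [])]), (18, [(1, [])]), (13, [(1, [])])]
      [(20, [(1, [])]), (21, [(1, [])]), (17, [(1, [])]), (18, [(1, [])]), (13, [(1, [])]), (12, [(1, [])])]
      (by simp [evPW, smD4_ρ, smD4_γ, smD4_e, rhoD4, gamD4, CharTwo.neg_eq]) (by decide +kernel)

/-- The twisted group ³D₄(q), q even, realised inside the Chevalley group of type D₄ over the field K with q³ elements, has exactly two conjugacy classes of elements of order 2. -/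
theorem result {K : Type*} [Field K] [Fintype K] [CharP K 2] (q : ℕ) (hK : Fintype.card K = q ^ 3) :
    (ConjClasses.mk '' {g : ↥(Cfsg.Lie.twistedD4 K q) | orderOf g = 2}).ncard = 2 := by
  have hq := isPrimePow_of_card three_ne_zero hK
  obtain ⟨f, hf⟩ := exists_frob hq hK
  have h3 : ∀ t, f (f (f t)) = t := fun t => by
    rw [hf, hf, hf, ← pow_mul, ← pow_mul, ← sq, ← pow_succ', ← hK, FiniteField.pow_card]
  obtain ⟨y, hy⟩ : ∃ y, y ^ q ≠ y := by
    by_contra! h
    have := card_fix hq.one_lt hK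
    rw [Nat.card_congr (Equiv.subtypeUnivEquiv h), Nat.card_eq_fintype_card, hK] at this
    exact ((pow_one q).symm.trans_lt (Nat.pow_lt_pow_right hq.one_lt (by decide))).ne' this
  rw [twistedD4_eq_Fix hq hK]
  refine tw_classes (f := f) graphD4 (fun _ => rfl) (fun _ => rfl) (fun r hr t => ?_)
    (fun r => (c5 r r.2).imp Fin.ext fun h =>
      ⟨h.1, Or.inr ⟨Fin.ext h.2, y + f y, fun e => hy ?_, ?_, h3 _⟩⟩) H C R
    (hH hq hK 0) c0 c1 c2 c3 c4 (by decide)
  · rw [hf]; simpa only [smD4_ρ, smD4_γ, smD4_e, mat_x, tgD4, SM.twg] using (smD4 hq hK).map_x r hr t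
  · rw [← hf]; linear_combination e - y * CharTwo.two_eq_zero (R := K)
  · simp only [map_add, h3]
    linear_combination (y + f y + f (f y)) * CharTwo.two_eq_zero (R := K)

end Cfsg.Agent.S2183
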