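import Cfsg.Statements.S2184
import Cfsg.Agent.S2185

set_option autoImplicit false
open Cfsg

namespace Cfsg.Agent.S2184

open Cfsg.Lie H63 H65 H68 Cfsg.Agent.S2185

theorem ab_sq {g : twistedF4 (ZMod 2) 1} (h : g * g = el []) : Abelianization.of g = 1 := by
  by_cases e : g = 1
  · rw [e, map_one]
  · rw [← MonoidHom.mem_ker, Abelianization.ker_of]
    exact S2185.result g (orderOf_eq_prime (by rw [pow_two, h]; rfl) e)

theorem ab_conj {g c y : twistedF4 (ZMod 2) 1} (h : c * g = y * c) :
    Abelianization.of g = Abelianization.of y := by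
  have := congrArg Abelianization.of h
  rwa [map_mul, map_mul, mul_comm, mul_left_inj] at this

theorem mem_of_gens {G : Type*} [Group G] {A : Set G} {T : Subgroup G} (e : T = Subgroup.closure A)
    {M : Subgroup T} (h : ∀ g : T, (g : G) ∈ A → g ∈ M) (g : T) : g ∈ M := by
  subst e
  exact (Subgroup.closure_le M).2 h ((Subgroup.closure_preimage_eq_top A).ge trivial)

theorem ncard_two {G : Type*} [Group G] {T : Subgroup G} {a b y : T} (ha : a ∈ commutator T)
    (hb : b ∈ commutator T) (oa : orderOf (a : G) = 2) (ob : orderOf (b : G) = 2)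
    (h : ∀ h ∈ T, h * a * h⁻¹ ≠ (b : G))
    (hc : ∀ g : T, orderOf g = 2 → ∃ v ∈ [a, b], ∃ h, h * g * h⁻¹ = v)
    (hy : ∀ g, Abelianization.of g ∈ Subgroup.zpowers (Abelianization.of y))
    (ca : y * a = a * y) (cb : y * b = b * y) :
    (ConjClasses.mk '' {g : commutator T | orderOf g = 2}).ncard = 2 := by
  have h : ∀ h : T, h * a * h⁻¹ ≠ b := fun k e => h k k.2 (congrArg Subtype.val e)
  refine ncard_classes (R := [a, b]) (v := id)
    (by simpa using fun e => h 1 (by simpa using e)) ⟨?_, fun g _ hg => ?_, ?_⟩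
  · simp only [List.forall_mem_cons, List.not_mem_nil, false_imp_iff, implies_true, and_true]
    exact ⟨⟨ha, (Subgroup.orderOf_coe _).symm.trans oa⟩, hb, (Subgroup.orderOf_coe _).symm.trans ob⟩
  · obtain ⟨v, hv, k, e⟩ := hc g hg
    obtain ⟨j, hj⟩ := hy k
    have hc : Commute y v := by
      simp only [List.mem_cons, List.not_mem_nil, or_false] at hv
      rcases hv with rfl | rfl <;> assumption
    refine ⟨v, hv, (y ^ j)⁻¹ * k, ?_, ?_⟩
    · rw [← Abelianization.ker_of, MonoidHom.mem_ker, map_mul, map_inv, map_zpow, ← hj,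
        inv_mul_cancel]
    · calc _ = (y ^ j)⁻¹ * (k * g * k⁻¹ * y ^ j) := by group
        _ = v := by rw [e, ← (hc.zpow_left j).eq, inv_mul_cancel_left]
  · simp only [List.forall_mem_cons, List.not_mem_nil, false_imp_iff, implies_true, and_true,
      true_and, id]
    exact ⟨fun ⟨k, _, e⟩ => (h k e).elim, fun ⟨k, _, e⟩ => (h k⁻¹ (by rw [← e]; group)).elim⟩

/-- an element of order four centralising both representatives -/
noncomputable def y0 : twistedF4 (ZMod 2) 1 := el [29, 41, 44]

theorem ab_mem (g : twistedF4 (ZMod 2) 1) :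
    Abelianization.of g ∈ Subgroup.zpowers (Abelianization.of y0) := by
  have h1 : Abelianization.of (el [27, 25, 28]) = Abelianization.of y0 :=
    ab_conj (c := el [33, 24, 14, 23, 33, 24] * el [27, 20, 27, 28, 19, 28] *
      el [33, 24, 14, 23, 33, 24]) (by unfold y0; exact el_chk)
  have h2 : Abelianization.of (el [20, 22, 19]) = Abelianization.of (el [27, 25, 28]) :=
    ab_conj (c := el [27, 20, 27, 28, 19, 28]) el_chk
  have key : ∀ A c, A ∈ [[], [33, 24], [14, 23], [28, 30], [19, 17], [27, 25, 28], [20, 22, 19],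
      [27, 25, 30], [20, 22, 17]] → Abelianization.of (el A c) ∈
        Subgroup.zpowers (Abelianization.of y0) := by
    intro A c hA
    simp only [List.mem_cons, List.not_mem_nil, or_false] at hA
    rcases hA with rfl | rfl | rfl | rfl | rfl | rfl | rfl | rfl | rfl
    iterate 5 (rw [ab_sq (g := el _ c) el_chk]; exact Subgroup.one_mem _)
    · rw [h1]; exact Subgroup.mem_zpowers _
    · rw [h2, h1]; exact Subgroup.mem_zpowers _
    · rw [show el _ c = el [27, 25, 28] * el [28, 30] from el_chk, map_mul, ab_sq (g := el [28, 30])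
        el_chk, mul_one, h1]
      exact Subgroup.mem_zpowers _
    · rw [show el _ c = el [20, 22, 19] * el [19, 17] from el_chk, map_mul, ab_sq (g := el [19, 17])
        el_chk, mul_one, h2, h1]
      exact Subgroup.mem_zpowers _
  refine mem_of_gens (T := twistedF4 (ZMod 2) 1)
    (M := (Subgroup.zpowers _).comap Abelianization.of) (mat_genSubgroup _)
    (fun g hg => ?_) g
  obtain ⟨A, c, hA, rfl⟩ : ∃ A c, A ∈ [[], [33, 24], [14, 23], [28, 30], [19, 17], [27, 25, 28],
      [20, 22, 19], [27, 25, 30], [20, 22, 17]] ∧ g = el A c := by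
    have h0 : ∀ t : ZMod 2, t = 0 ∨ t = 1 := by decide
    have h11 : (1 + 1 : ZMod 2) = 0 := rfl
    simp only [Subtype.ext_iff, el]
    obtain ⟨w, ⟨t, rfl | rfl⟩ | ⟨t, u, rfl | rfl⟩, e⟩ := hg <;> rw [← e]
    · rcases h0 t with rfl | rfl
      exacts [⟨[], by decide +kernel, by simp, by simp [f4PairWord, pr]⟩,
        ⟨[33, 24], by decide +kernel, by simp, by simp [f4PairWord, pr, f4p1, f4p4]⟩]
    · rcases h0 t with rfl | rfl
      exacts [⟨[], by decide +kernel, by simp, by simp [f4PairWord, pr]⟩,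
        ⟨[14, 23], by decide +kernel, by simp, by simp [f4PairWord, pr, f4m1, f4m4]⟩]
    · rcases h0 t with rfl | rfl <;> rcases h0 u with rfl | rfl
      exacts [⟨[], by decide +kernel, by simp, by simp [b2ClassWord, pr]⟩,
        ⟨[28, 30], by decide +kernel, by simp, by simp [b2ClassWord, pr, f4ab, f4aab]⟩,
        ⟨[27, 25, 28], by decide +kernel, by simp, by simp [b2ClassWord, pr, f4a, f4b, f4ab]⟩,
        ⟨[27, 25, 30], by decide +kernel, by simp, by simp [b2ClassWord, pr, f4a, f4b, f4aab, h11]⟩]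
    · rcases h0 t with rfl | rfl <;> rcases h0 u with rfl | rfl
      exacts [⟨[], by decide +kernel, by simp, by simp [b2ClassWord, pr]⟩,
        ⟨[19, 17], by decide +kernel, by simp, by simp [b2ClassWord, pr, f4mab, f4maab]⟩,
        ⟨[20, 22, 19], by decide +kernel, by simp, by simp [b2ClassWord, pr, f4ma, f4mb, f4mab]⟩,
        ⟨[20, 22, 17], by decide +kernel, by simp,
          by simp [b2ClassWord, pr, f4ma, f4mb, f4maab, h11]⟩]
  exact key A c hA

/-- The twisted group ²F₄(q), q = 2^(2m+1) with m ≥ 0 (realised inside the Chevalley group of type F₄ over the field K with q elements, θ the 2^m-th power map), has exactly two conjugacy classes of elements of order 2; and so does the Tits group, the commutator subgroup of ²F₄(2). -/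
theorem result {K : Type*} [Field K] [Fintype K] (m : ℕ) (hK : Fintype.card K = 2 ^ (2 * m + 1)) :
    (ConjClasses.mk '' {g : ↥(Cfsg.Lie.twistedF4 K (2 ^ m)) | orderOf g = 2}).ncard = 2 ∧ (ConjClasses.mk '' {g : Cfsg.Lie.TitsGroup | orderOf g = 2}).ncard = 2 := by
  constructor
  · obtain ⟨f1, f2, f3⟩ := ree_classes hK
    refine ncard_classes (R := [[47, 44], [39, 45]]) (by decide) ⟨f1, f2, ?_⟩
    have h := fun h (hh : h ∈ twistedF4 K (2 ^ m)) =>
      f3 h (mat_Gp (D := chevF4) (K := K) ▸ ((twistedF4_eq_Fix hK).le hh).1)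
    simp only [List.forall_mem_cons, List.not_mem_nil, false_imp_iff, implies_true, and_true,
      true_and]
    exact ⟨fun ⟨k, hk, e⟩ => (h k hk e).elim, fun ⟨k, hk, e⟩ =>
      (h k⁻¹ (inv_mem hk) (by rw [← e]; group)).elim⟩
  · obtain ⟨f1, -, f3⟩ := ree_classes S2185.hK
    exact ncard_two mem3 mem4 (f1 _ (by simp)).2 (f1 _ (by simp)).2 (fun h hh => f3 h
      (mat_Gp (D := chevF4) (K := ZMod 2) ▸ ((twistedF4_eq_Fix S2185.hK).le hh).1)) cls2 ab_mem
      (by unfold y0; exact el_chk) (by unfold y0; exact el_chk)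

end Cfsg.Agent.S2184
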