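import Cfsg.Statements.S2186
import Cfsg.Agent.H63.Cent

set_option autoImplicit false
open Cfsg

namespace Cfsg.Agent.S2186

open Cfsg.Lie H63 H64 H65

theorem aux {F : Type*} [Field F] [Finite F] [CharP F 2] {D : ChevalleyDatum} [RS D] [Tab D]
    (h : MatOK D F) (r : Rt D) (hr : Pos r) (hmax : ∀ s : Rt D, s ≤ r) {g : GL D.Idx F}
    (hg : g ∈ h.T.Gp) :
    IsPGroup 2 ↥(h.T.X r ⊔ (h.T.X r).map (MulAut.conj g).toMonoidHom) ∨
    ∃ k ∈ h.T.Gp, (h.T.X r ⊔ (h.T.X r).map (MulAut.conj g).toMonoidHom).map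
      (MulAut.conj k).toMonoidHom = h.T.X r ⊔ h.T.X (negR r) := by
  have mc : ∀ (K : Subgroup (GL D.Idx F)) (a b : GL D.Idx F), K.map (MulAut.conj (a * b)).toMonoidHom =
      (K.map (MulAut.conj b).toMonoidHom).map (MulAut.conj a).toMonoidHom := fun K a b => by
    rw [Subgroup.map_map]; congr 1; ext1 z; simp [mul_assoc]
  have hB : ∀ b ∈ h.T.B, (h.T.X r).map (MulAut.conj b).toMonoidHom = h.T.X r := by
    intro b hb
    obtain ⟨h', hh', u, hu, rfl⟩ := h.T.mem_B'.1 hb
    have : (h.T.X r).map (MulAut.conj u).toMonoidHom = h.T.X r := by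
      have : ∀ z ∈ h.T.X r, MulAut.conj u z = z := fun z hz => by
        obtain ⟨t, rfl⟩ := mem_XR_xU.1 hz
        rw [MulAut.conj_apply, mul_inv_eq_iff_eq_mul, ← Subgroup.mem_centralizer_singleton_iff]
        refine gen_le (fun s hs y hy => ?_) hu
        obtain ⟨c, rfl⟩ := mem_XR_xU.1 hy
        exact Subgroup.mem_centralizer_singleton_iff.2 (x_commute_of_not_add h.stN.toSt
          (fun e => pos_negR.1 (e ▸ hs) hr) (fun v e => (lt_of_add_pos (e.trans (add_comm _ _))
            hs).not_ge (hmax v)) _ _)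
      exact le_antisymm (by rintro _ ⟨z, hz, rfl⟩; exact (this z hz).symm ▸ hz)
        fun z hz => ⟨z, hz, this z hz⟩
    rw [mc, this, (h.T.act_H hh').map_X]; rfl
  obtain ⟨w, b, hb, m, hm, b', hb', hw, rfl⟩ := h.T.exists_cell hg
  have e : (h.T.X r ⊔ (h.T.X r).map (MulAut.conj (b * m * b')).toMonoidHom).map
      (MulAut.conj b⁻¹).toMonoidHom = h.T.X r ⊔ h.T.X (w.1 r) := by
    rw [Subgroup.map_sup, hB _ (inv_mem hb), ← mc, ← mul_assoc, inv_mul_cancel_left, mc, hB _ hb',
      hw.map_X]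
  by_cases hwr : r = negR (w.1 r)
  · exact Or.inr ⟨b⁻¹, h.T.B_le_Gp (inv_mem hb), by rw [e]; conv_rhs => rw [hwr, negR_negR, ← hwr]⟩
  left
  obtain ⟨v, h1, h2⟩ := exists_pos_pos (R := H64.wdata D) hwr
  obtain ⟨n, -, hn⟩ := h.T.exists_mem_N_act v
  have hU : IsPGroup 2 h.T.U := IsPGroup.of_card (n := (Nat.card F).factorization 2 * (D.nroots / 2))
    (by
      have := Fintype.ofFinite F
      obtain ⟨k, -, hk⟩ := FiniteField.card F 2
      rw [MatOK.T, h.stB.card_U, Nat.card_eq_fintype_card (α := F), hk, ← pow_mul]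
      simp [Nat.factorization_pow, Nat.prime_two.factorization_self])
  have : (h.T.X r ⊔ (h.T.X r).map (MulAut.conj (b * m * b')).toMonoidHom).map
      (MulAut.conj (n * b⁻¹)).toMonoidHom ≤ h.T.U := by
    rw [mc, e, Subgroup.map_sup, hn.map_X, hn.map_X]
    exact sup_le (h.T.X_le_U h1) (h.T.X_le_U h2)
  exact (hU.to_le this).of_equiv (Subgroup.equivMapOfInjective _ _ (MulEquiv.injective _)).symm

/-- Let G be the Chevalley group of type G₂ (over a field with at least four elements), D₄, E₆, E₇ or E₈ over a finite field F of characteristic two, and let X be the root subgroup of the highest root (the last root index) — a long root subgroup, of order |F|. For every g in G, the subgroup generated by X and its conjugate g X g⁻¹ is either a 2-group or is conjugate by an element of G to the subgroup generated by X and the root subgroup of the lowest root (index 0, the negative of the highest root), which is a copy of SL₂(F). -/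
theorem result {F : Type*} [Field F] [Fintype F] [CharP F 2] (D : Cfsg.Lie.ChevalleyDatum) (hD : D ∈ [Cfsg.Lie.chevG2, Cfsg.Lie.chevD4, Cfsg.Lie.chevE6, Cfsg.Lie.chevE7, Cfsg.Lie.chevE8]) (hF : D = Cfsg.Lie.chevG2 → 4 ≤ Fintype.card F) (g : GL D.Idx F) (hg : g ∈ D.group F) :
    IsPGroup 2 ↥(D.rootSubgroup F (D.nroots - 1) ⊔ (D.rootSubgroup F (D.nroots - 1)).map (MulAut.conj g).toMonoidHom) ∨
    ∃ h ∈ D.group F, (D.rootSubgroup F (D.nroots - 1) ⊔ (D.rootSubgroup F (D.nroots - 1)).map (MulAut.conj g).toMonoidHom).map (MulAut.conj h).toMonoidHom = D.rootSubgroup F (D.nroots - 1) ⊔ D.rootSubgroup F 0 := by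
  obtain ⟨_, _, h⟩ := matOK_of_mem (D := D) (by
    simp only [List.mem_cons, List.not_mem_nil, or_false] at hD ⊢; tauto) F
  have hc : D.nroots - 1 < D.nroots ∧ D.neg (D.nroots - 1) = 0 ∧ D.IsPosRoot (D.nroots - 1) := by
    simp only [List.mem_cons, List.not_mem_nil, or_false] at hD
    rcases hD with rfl | rfl | rfl | rfl | rfl <;> decide +kernel
  obtain ⟨c1, c2, c3⟩ := hc
  rw [h.G_eq] at hg ⊢
  have := aux h ⟨_, c1⟩ ((isPosRoot_iff _).1 c3) (fun s => Nat.le_sub_one_of_lt s.2) hg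
  rwa [← h.X_eq, ← h.X_eq, negR_val, c2] at this

end Cfsg.Agent.S2186
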