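import Cfsg.Statements.S2189
import Cfsg.Agent.H63.Ov7

set_option autoImplicit false
open Cfsg

namespace Cfsg.Agent.S2189

/-- Finite subgroups of an adjoint Chevalley group over an algebraically closed field that contain the group over a finite subfield. Let k be an algebraically closed field of prime characteristic p, G the Chevalley group of type G₂, B₂, D₄, F₄, E₆, E₇ or E₈ over k (the matrix group generated by the root elements x_s(t), t ∈ k), and q = p^a with a ≥ 1. Let L be the subgroup generated by the root elements x_s(t) with t^q = t (the Chevalley group over the field of q elements inside G), and let M be a finite subgroup of G containing L. Then for some r ≥ 1, M contains every root element x_s(t) with t^(q^r) = t and every element of M is a matrix all of whose entries c satisfy c^(q^r) = c (so M lies between the Chevalley group over the field with q^r elements and the group of points of G fixed by the q^r-th power map). -/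
theorem result {k : Type*} [Field k] [IsAlgClosed k] (p : ℕ) [Fact p.Prime] [CharP k p] (D : Cfsg.Lie.ChevalleyDatum) (hD : D ∈ [Cfsg.Lie.chevG2, Cfsg.Lie.chevB2, Cfsg.Lie.chevD4, Cfsg.Lie.chevF4, Cfsg.Lie.chevE6, Cfsg.Lie.chevE7, Cfsg.Lie.chevE8]) (a : ℕ) (ha : 1 ≤ a) (M : Subgroup (GL D.Idx k)) (hMfin : Finite ↥M) (hMG : M ≤ D.group k)
    (hLM : Subgroup.closure {g : GL D.Idx k | ∃ (s : ℕ) (t : k), t ^ (p ^ a) = t ∧ (g : Matrix D.Idx D.Idx k) = D.x k s t} ≤ M) :
    ∃ r : ℕ, 1 ≤ r ∧ Subgroup.closure {g : GL D.Idx k | ∃ (s : ℕ) (t : k), t ^ ((p ^ a) ^ r) = t ∧ (g : Matrix D.Idx D.Idx k) = D.x k s t} ≤ M ∧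
      ∀ g ∈ M, ∀ i j : D.Idx, ((g : Matrix D.Idx D.Idx k) i j) ^ ((p ^ a) ^ r) = (g : Matrix D.Idx D.Idx k) i j := by
  classical
  have hp : p.Prime := Fact.out
  have h1 : 1 < p ^ a := Nat.one_lt_pow (by omega) hp.one_lt
  have hq : Nat.card {t : k // t ^ p ^ a = t} = p ^ a := by
    have := Polynomial.card_rootSet_eq_natDegree (K := k)
      (galois_poly_separable (K := k) p (p ^ a) (dvd_pow_self p (by omega))) (IsAlgClosed.splits _)
    rw [FiniteField.X_pow_card_sub_X_natDegree_eq k h1, ← Nat.card_eq_fintype_card] at this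
    exact (Nat.card_congr (Equiv.subtypeEquivRight fun t => by
      simp [Polynomial.mem_rootSet, FiniteField.X_pow_card_sub_X_ne_zero k h1, sub_eq_zero])).trans this
  obtain ⟨r, h2, -, h3, h4⟩ := H63.overgroup hD p hq hMG fun g s t ht e =>
    hLM (Subgroup.subset_closure ⟨s, t, ht, e⟩)
  refine ⟨r, h2, (Subgroup.closure_le _).2 ?_, h4⟩
  rintro g ⟨s, t, ht, e⟩
  exact h3 g s t ht e

end Cfsg.Agent.S2189
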