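import Cfsg.Statements.S2190
import Cfsg.Agent.H63.Ov7
import Cfsg.Agent.H68.Kit3

set_option autoImplicit false
open Cfsg

namespace Cfsg.Agent.S2190

/-- Subfield subgroups of prime degree are maximal. Let K be a finite field with q^r elements, r a prime, q a power of the characteristic, and G the Chevalley group of type G₂, B₂, D₄, F₄, E₆, E₇ or E₈ over K (the matrix group generated by the root elements). Let M be the subgroup of G consisting of the matrices all of whose entries lie in the subfield with q elements (entries c with c^q = c). Then M is a proper subgroup of G and is maximal: every subgroup of G containing M is M or G. -/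
theorem result {K : Type*} [Field K] [Fintype K] (p : ℕ) [Fact p.Prime] [CharP K p] (D : Cfsg.Lie.ChevalleyDatum) (hD : D ∈ [Cfsg.Lie.chevG2, Cfsg.Lie.chevB2, Cfsg.Lie.chevD4, Cfsg.Lie.chevF4, Cfsg.Lie.chevE6, Cfsg.Lie.chevE7, Cfsg.Lie.chevE8]) (a r : ℕ) (ha : 1 ≤ a) (hr : r.Prime) (hK : Fintype.card K = (p ^ a) ^ r) (M : Subgroup (GL D.Idx K))
    (hM : ∀ g : GL D.Idx K, g ∈ M ↔ g ∈ D.group K ∧ ∀ i j : D.Idx, ((g : Matrix D.Idx D.Idx K) i j) ^ (p ^ a) = (g : Matrix D.Idx D.Idx K) i j) :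
    M ≠ D.group K ∧ ∀ H : Subgroup (GL D.Idx K), M ≤ H → H ≤ D.group K → H = M ∨ H = D.group K := by
  have hp : p.Prime := Fact.out
  have h1 : 1 < p ^ a := Nat.one_lt_pow (by omega) hp.one_lt
  have hq := H68.card_fix h1 hK
  obtain ⟨_, _, h0, h⟩ := H63.ad_of_mem hD K
  have hx : ∀ s t, H65.xU D K s t ∈ M ↔ H63.xG D K s (t ^ p ^ a) = H63.xG D K s t := fun s t => by
    rw [hM, ← iterateFrobenius_def, ← H63.mapG_xG]
    exact ⟨fun e => H63.group_ext e.2, fun e => ⟨H65.xU_mem_group s t, fun i j =>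
      congrArg (fun g : D.group K => (g.1 : Matrix D.Idx D.Idx K) i j) e⟩⟩
  have := Finite.of_injective _ (Units.val_injective (α := Matrix D.Idx D.Idx K))
  refine ⟨fun e => ?_, fun H h2 h3 => ?_⟩
  · obtain ⟨i⟩ := H64.nonempty_rank (D := D)
    rw [Nat.card_congr (Equiv.subtypeUnivEquiv fun t => h.x_injective (H63.simpleR i)
      ((hx _ t).1 (e ▸ H65.xU_mem_group _ t))), Nat.card_eq_fintype_card, hK] at hq
    exact hr.one_lt.ne' (Nat.pow_right_injective h1 (hq.trans (pow_one _).symm))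
  obtain ⟨s, -, ⟨E, hE⟩, h4, h5⟩ := H63.overgroup hD p hq h3 fun g s t ht e =>
    h2 (H64.val_eq_x.1 e ▸ (hx s t).2 (by rw [ht]))
  obtain ⟨m, -, hm⟩ := H63.card_eq_pow_of_le (le_top : E ≤ ⊤)
  rw [hE, Nat.card_congr Subfield.topEquiv.toEquiv, Nat.card_eq_fintype_card, hK, ← pow_mul (p ^ a)] at hm
  rcases (Nat.dvd_prime hr).1 (⟨m, Nat.pow_right_injective h1 hm⟩ : s ∣ r) with rfl | rfl
  · exact .inl (le_antisymm (fun g hg => (hM g).2 ⟨h3 hg, by simpa using h5 g hg⟩) h2)
  · refine .inr (le_antisymm h3 ?_)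
    rw [H64.group_eq]
    exact H64.GG_le fun r t => h4 _ r t (hK ▸ FiniteField.pow_card t) rfl

end Cfsg.Agent.S2190
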