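import Cfsg.Statements.S2191
import Cfsg.Agent.H63.Ov10

set_option autoImplicit false
open Cfsg

namespace Cfsg.Agent.S2191

/-- In the twisted group ²E₆(q), realised inside the Chevalley group of type E₆ over the field K with q² elements (q a power of the characteristic) as the subgroup generated by the root elements, and products of root elements, that the twisting map fixes, the subgroup of matrices all of whose entries lie in the subfield with q elements (entries c with c^q = c; it contains the subgroup of type F₄ over that subfield) is a proper maximal subgroup. -/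
theorem result {K : Type*} [Field K] [Fintype K] (p : ℕ) [Fact p.Prime] [CharP K p] (q : ℕ) (hq : ∃ a : ℕ, 1 ≤ a ∧ q = p ^ a) (hK : Fintype.card K = q ^ 2) (M : Subgroup (GL Cfsg.Lie.chevE6.Idx K))
    (hM : ∀ g : GL Cfsg.Lie.chevE6.Idx K, g ∈ M ↔ g ∈ Cfsg.Lie.twistedE6 K q ∧ ∀ i j : Cfsg.Lie.chevE6.Idx, ((g : Matrix Cfsg.Lie.chevE6.Idx Cfsg.Lie.chevE6.Idx K) i j) ^ q = (g : Matrix Cfsg.Lie.chevE6.Idx Cfsg.Lie.chevE6.Idx K) i j) :
    M ≠ Cfsg.Lie.twistedE6 K q ∧ ∀ H : Subgroup (GL Cfsg.Lie.chevE6.Idx K), M ≤ H → H ≤ Cfsg.Lie.twistedE6 K q → H = M ∨ H = Cfsg.Lie.twistedE6 K q := by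
  obtain ⟨a, ha, rfl⟩ := hq
  have hp : p.Prime := Fact.out
  have h1 : 1 < p ^ a := Nat.one_lt_pow (by omega) hp.one_lt
  have hq : IsPrimePow (p ^ a) := ⟨p, a, hp.prime, ha, rfl⟩
  have h0 : ∃ t : K, iterateFrobenius K p a t ≠ t := by
    by_contra h
    push Not at h
    have := H68.card_fix h1 hK
    rw [Nat.card_congr (Equiv.subtypeUnivEquiv (p := fun t : K => t ^ p ^ a = t) h), Nat.card_eq_fintype_card, hK] at this
    exact absurd (Nat.pow_right_injective h1 (this.trans (pow_one _).symm)) (by decide)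
  refine H63.tw_max p (H68.smE6 hq hK) (σ := iterateFrobenius K p a) H63.gdE6 (H68.smE6_γ hq hK)
    (fun r t => by rw [H68.smE6_e]; rfl) (H68.pow_pow_E6 hK) h0 H63.crE6 rfl (i := ⟨1, by decide⟩) rfl
    ([3, 2, 4, 0, 5, 3, 2, 4, 3, 1] : List (Fin 6)) (by decide +kernel) (by decide +kernel)
    (fun g => by rw [H68.twistedE6_eq_Fix hq hK]; rfl) hM fun s c => ⟨fun _ => ?_, fun H hm => ⟨by simp, fun h => ?_⟩⟩
  · rw [H63.zz, c.maps, map_one, mul_one]
    simp [H63.pr, H68.gamE6]; rfl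
  rw [Lie.twistedE6, H68.mat_genSubgroup, Subgroup.closure_le]
  rintro _ ⟨w, hw, rfl⟩
  have k1 : ∀ (r : H63.Rt Lie.chevE6) (t : K), H68.twE6.ρ r = r → t ^ p ^ a = t →
      (H68.mat Lie.chevE6 K).wd [(r, t)] ∈ H.map (Lie.chevE6.group K).subtype := fun r t e ht =>
    ⟨_, c.x_mem hm e ht, by simp⟩
  have k2 : ∀ (l : List (Fin 6)) (r : H63.Rt Lie.chevE6) (t : K),
      (∀ r, l.foldr H63.sref (H68.twE6.ρ r) = H68.twE6.ρ (l.foldr H63.sref r)) →
      l.foldr H63.sref ⟨68, by decide⟩ = r → H68.gamE6 r = 1 →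
      (H68.mat Lie.chevE6 K).wd [(r, t), (H68.rhoE6 r, t ^ p ^ a)] ∈ H.map (Lie.chevE6.group K).subtype :=
    fun l r t e1 e2 e3 => ⟨_, c.zz_trans hm l e1 c.pos.2 e2 (h t), by
      rw [H63.zz, c.maps, e3]; simp; rfl⟩
  rcases H68.e6Words_cases hw with ⟨t, h, rfl | rfl | rfl | rfl⟩ | ⟨t, rfl | rfl | rfl | rfl⟩
  exacts [k1 ⟨46, by decide⟩ t rfl h, k1 ⟨25, by decide⟩ t rfl h, k1 ⟨39, by decide⟩ t rfl h,
    k1 ⟨32, by decide⟩ t rfl h,
    k2 [2, 4, 3, 2, 4, 1, 3, 2, 4, 0, 5] ⟨56, by decide⟩ t (by decide +kernel) (by decide +kernel) rfl,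
    k2 [0, 5, 2, 4, 3, 2, 4, 1, 3, 2, 4, 0, 5] ⟨15, by decide⟩ t (by decide +kernel) (by decide +kernel) rfl,
    k2 [0, 5, 3, 2, 4, 1, 3, 2, 4, 0, 5] ⟨42, by decide⟩ t (by decide +kernel) (by decide +kernel) rfl,
    k2 [2, 4, 0, 5, 3, 2, 4, 1, 3, 2, 4, 0, 5] ⟨29, by decide⟩ t (by decide +kernel) (by decide +kernel) rfl]

end Cfsg.Agent.S2191
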