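import Cfsg.Statements.S2192
import Cfsg.Agent.H63.Ov10

set_option autoImplicit false
open Cfsg

namespace Cfsg.Agent.S2192

/-- In the twisted group ³D₄(q), realised inside the Chevalley group of type D₄ over the field K with q³ elements (q a power of the characteristic) as the subgroup generated by the root elements, and products of root elements, that the twisting map fixes, the subgroup of matrices all of whose entries lie in the subfield with q elements (it contains the subgroup of type G₂ over that subfield) is a proper maximal subgroup. -/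
theorem result {K : Type*} [Field K] [Fintype K] (p : ℕ) [Fact p.Prime] [CharP K p] (q : ℕ) (hq : ∃ a : ℕ, 1 ≤ a ∧ q = p ^ a) (hK : Fintype.card K = q ^ 3) (M : Subgroup (GL Cfsg.Lie.chevD4.Idx K))
    (hM : ∀ g : GL Cfsg.Lie.chevD4.Idx K, g ∈ M ↔ g ∈ Cfsg.Lie.twistedD4 K q ∧ ∀ i j : Cfsg.Lie.chevD4.Idx, ((g : Matrix Cfsg.Lie.chevD4.Idx Cfsg.Lie.chevD4.Idx K) i j) ^ q = (g : Matrix Cfsg.Lie.chevD4.Idx Cfsg.Lie.chevD4.Idx K) i j) :
    M ≠ Cfsg.Lie.twistedD4 K q ∧ ∀ H : Subgroup (GL Cfsg.Lie.chevD4.Idx K), M ≤ H → H ≤ Cfsg.Lie.twistedD4 K q → H = M ∨ H = Cfsg.Lie.twistedD4 K q := by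
  obtain ⟨a, ha, rfl⟩ := hq
  have hp : p.Prime := Fact.out
  have h1 : 1 < p ^ a := Nat.one_lt_pow (by omega) hp.one_lt
  have hq : IsPrimePow (p ^ a) := ⟨p, a, hp.prime, ha, rfl⟩
  have h0 : ∃ t : K, iterateFrobenius K p a t ≠ t := by
    by_contra h
    push Not at h
    have := H68.card_fix h1 hK
    rw [Nat.card_congr (Equiv.subtypeUnivEquiv (p := fun t : K => t ^ p ^ a = t) h), Nat.card_eq_fintype_card, hK] at this
    exact absurd (Nat.pow_right_injective h1 (this.trans (pow_one _).symm)) (by decide)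
  have ho : ∀ t : K, ((t ^ p ^ a) ^ p ^ a) ^ p ^ a = t := fun t => by
    rw [← pow_mul, ← pow_mul, ← pow_two, ← pow_succ', ← hK, FiniteField.pow_card]
  refine H63.tw_max p (H68.smD4 hq hK) (σ := iterateFrobenius K p a) H63.gdD4 (H68.smD4_γ hq hK)
    (fun r t => by rw [H68.smD4_e]; rfl) ho h0 H63.crD4 rfl (i := ⟨1, by decide⟩) rfl
    ([0, 2, 3, 1] : List (Fin 4)) (by decide +kernel) (by decide +kernel)
    (fun g => by rw [H68.twistedD4_eq_Fix hq hK]; rfl) hM fun s c => ?_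
  set σ := iterateFrobenius K p a with hσ
  have z : ∀ (r : H63.Rt Lie.chevD4) (t : K), (H63.zz s true (H63.xG Lie.chevD4 K r t)).1 =
      (H68.mat Lie.chevD4 K).wd [(r, t), (H68.rhoD4 r, H68.gamD4 r * σ t), (H68.rhoD4 (H68.rhoD4 r),
        H68.gamD4 (H68.rhoD4 r) * σ (H68.gamD4 r * σ t))] := fun r t => by
    rw [H63.zz, c.maps, c.maps]; simp [mul_assoc]; rfl
  refine ⟨fun e => Subtype.ext ?_, fun H hm => ⟨fun _ t h => ?_, fun h => ?_⟩⟩
  · subst e
    rw [z]; simp [H63.pr, H68.rhoD4, H68.gamD4, CharTwo.neg_eq]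
  · have h18 := c.zz_trans hm ([1, 0, 2, 3] : List (Fin 4)) (by decide +kernel) c.pos.2
      (r' := ⟨18, by decide⟩) (by decide +kernel) h
    have h19 := c.zz_trans hm ([0, 2, 3] : List (Fin 4)) (by decide +kernel) c.pos.2
      (r' := ⟨19, by decide⟩) (by decide +kernel) h
    have hN : σ (t * σ t * σ (σ t)) = t * σ t * σ (σ t) := by
      rw [map_mul, map_mul, show σ (σ (σ t)) = t from ho t]; ring
    have h14 := c.x_mem hm (r := ⟨14, by decide⟩) rfl (map_one σ)
    have h22 := c.x_mem hm (r := ⟨22, by decide⟩) rfl hN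
    have h23 := c.x_mem hm (r := ⟨23, by decide⟩) rfl (t := 2 * (t * σ t * σ (σ t)))
      (by rw [map_mul, hN, map_ofNat])
    have key := mul_mem (mul_mem (inv_mem (mul_mem h18 h19)) (mul_mem h14 h18))
      (inv_mem (mul_mem (mul_mem h22 h23) h14))
    convert key using 1
    rw [eq_mul_inv_iff_mul_eq, eq_inv_mul_iff_mul_eq]
    refine Subtype.ext ?_
    have e := H68.engD4 [t, σ t, σ (σ t)] (by simp)
      [(18, [(1, [0])]), (13, [(1, [1])]), (12, [(1, [2])]), (19, [(1, [0])]), (16, [(-1, [1])]),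
        (15, [(-1, [2])]), (17, [(1, [1, 2])]), (20, [(-1, [0, 2])]), (21, [(-1, [0, 1])]),
        (22, [(1, [0, 1, 2])]), (23, [(2, [0, 1, 2])]), (14, [(1, [])])]
      [(14, [(1, [])]), (18, [(1, [0])]), (13, [(1, [1])]), (12, [(1, [2])])] (by decide +kernel)
    simp only [Subgroup.coe_mul]
    rw [z ⟨18, by decide⟩, z ⟨19, by decide⟩, z ⟨17, by decide⟩]
    have h3 : σ (σ (σ t)) = t := ho t
    clear_value σ
    simp [H68.evPW] at e
    simp [H68.rhoD4, H68.gamD4, mul_assoc, h3, mul_comm (σ (σ t)) t]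
    rwa [mul_comm (σ t) t]
  rw [Lie.twistedD4, H68.mat_genSubgroup, Subgroup.closure_le]
  rintro _ ⟨w, hw, rfl⟩
  have k1 : ∀ (r : H63.Rt Lie.chevD4) (t : K), H68.twD4.ρ r = r → t ^ p ^ a = t →
      (H68.mat Lie.chevD4 K).wd [(r, t)] ∈ H.map (Lie.chevD4.group K).subtype := fun r t e ht =>
    ⟨_, c.x_mem hm e ht, by simp⟩
  rcases H68.mem_d4Words.1 hw with (⟨t, rfl⟩ | ⟨t, rfl⟩) | ⟨t, h, rfl⟩ | ⟨t, h, rfl⟩
  · exact ⟨_, c.zz_trans hm ([1, 0, 2, 3] : List (Fin 4)) (by decide +kernel) c.pos.2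
      (r' := ⟨18, by decide⟩) (by decide +kernel) (h t), (z _ t).trans (by
        simp [H68.rhoD4, H68.gamD4, hσ, iterateFrobenius_def, sq, pow_mul])⟩
  · exact ⟨_, c.zz_trans hm ([0, 2, 3, 1, 0, 2, 3] : List (Fin 4)) (by decide +kernel) c.pos.2
      (r' := ⟨5, by decide⟩) (by decide +kernel) (h t), (z _ t).trans (by
        simp [H68.rhoD4, H68.gamD4, hσ, iterateFrobenius_def, sq, pow_mul])⟩
  exacts [k1 ⟨14, by decide⟩ t rfl h, k1 ⟨9, by decide⟩ t rfl h]

end Cfsg.Agent.S2192
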