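import Cfsg.Statements.S2194
import Cfsg.Agent.H38.KLDC
import Cfsg.Agent.H38.KLIdx
import Cfsg.Agent.H71.KLLine
import Cfsg.Agent.H77.KLDiv
import Cfsg.Agent.H77.KLA
import Cfsg.Agent.H17.KLMom
import Cfsg.Agent.H17.KLBor
import Cfsg.Agent.H51.KLD10
import Cfsg.Agent.H51.KLPol
import Cfsg.Agent.H73.KLIc
import Cfsg.Agent.H38.KLAF
import Cfsg.Agent.H38.KLSP
import Cfsg.Agent.H76.KLF4
import Cfsg.Agent.H51.KLAr
import Cfsg.Agent.H51.KLAsm3
import Cfsg.Agent.H51.KLRow

set_option autoImplicit false
open Cfsg

namespace Cfsg.Agent.S2194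

/-- Primitive rank 3 actions of the projective special linear groups in dimension at least 5. Let G ≅ PSL_n(F), n ≥ 5, F a finite field with q elements, act faithfully and primitively on a finite set X so that a point stabilizer has exactly three orbits on X. Then X has as many points as there are 2-dimensional subspaces of F^n: |X|·(q² − 1)(q − 1) = (q^n − 1)(q^(n−1) − 1). (The action is in fact the one on the lines of the projective space, or on its subspaces of dimension n − 2; only the number of points is asserted here.) -/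
theorem result {G X : Type*} [Group G] [Finite G] [MulAction G X] [FaithfulSMul G X] [Fintype X] {F : Type*} [Field F] [Fintype F] (n : ℕ) (hn : 5 ≤ n) (e : G ≃* Matrix.ProjectiveSpecialLinearGroup (Fin n) F) (hprim : MulAction.IsPreprimitive G X) (x : X) (h3 : Nat.card (MulAction.orbitRel.Quotient ↥(MulAction.stabilizer G x) X) = 3) :
    Fintype.card X * ((Fintype.card F ^ 2 - 1) * (Fintype.card F - 1)) = (Fintype.card F ^ n - 1) * (Fintype.card F ^ (n - 1) - 1) := by
  exact H51.KL.s2194 (H51.KL.main ⟨H38.KL.jobDC, H38.KL.jobIdx, H71.KL.jobLine, H77.KL.jobDiv,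
    H77.KL.jobA, H17.KLM.jobMom, H17.KLB.jobBor, H51.KL.jobD10, H51.KL.jobPol, H73.KL.jobIc,
    H38.KL.jobAF, H38.KLSP.jobSp, H76.KL.jobF4, H51.KL.jobAr⟩) n hn e hprim x h3

end Cfsg.Agent.S2194
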