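import Cfsg.Statements.S2195
import Cfsg.Agent.H34.KsD2a
import Cfsg.Agent.H34.KsE
import Cfsg.Agent.H38.KSIx
import Cfsg.Agent.H39.KSPt
import Cfsg.Agent.H44.KsD
import Cfsg.Agent.H60.KST1a
import Cfsg.Agent.H73.KSH
import Cfsg.Agent.H79.KSMOM
import Cfsg.Agent.H79.KSSRG
import Cfsg.Agent.H17.KSInt
import Cfsg.Agent.H51.KSAsm
import Cfsg.Agent.H51.KSHs

set_option autoImplicit false
open Cfsg

namespace Cfsg.Agent.S2195

/-- Primitive rank 3 actions of the projective symplectic groups in dimension at least 6 over fields of odd order. Let G ≅ PSp_{2k}(F), k ≥ 3, F a finite field with q elements, q odd, act faithfully and primitively on a finite set X so that a point stabilizer has exactly three orbits. Then X has as many points as the projective space of F^{2k}: |X|·(q − 1) = q^{2k} − 1. (The action is in fact the one on the points of the projective space, all of which are isotropic for the symplectic form; only the number of points is asserted here.) -/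
theorem result {G X : Type*} [Group G] [Finite G] [MulAction G X] [FaithfulSMul G X] [Fintype X] {F : Type*} [Field F] [Fintype F] (k : ℕ) (hk : 3 ≤ k) (hq : Odd (Fintype.card F)) (e : G ≃* Cfsg.PSp k F) (hprim : MulAction.IsPreprimitive G X) (x : X) (h3 : Nat.card (MulAction.orbitRel.Quotient ↥(MulAction.stabilizer G x) X) = 3) :
    Fintype.card X * (Fintype.card F - 1) = Fintype.card F ^ (2 * k) - 1 := by
  exact H51.KS.s2195 (H51.KS.main
    ⟨H34.Ks.jobE, H34.Ks.jobIL, H34.Ks.jobD2a, H44.KS.jobD2b, H44.KS.jobD2c, H73.KS.jobH,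
      H60.KS.jobT1a, H17.KS.jobT1b, H38.KS.jobIX0, H38.KS.jobIX1, H17.KS.jobInt, H79.KS.jobMom,
      H79.KS.jobSRG, H39.KS.jobPt⟩) k hk hq e hprim x h3

end Cfsg.Agent.S2195
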