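import Cfsg.Statements.S2214
import Cfsg.Agent.H63.Fix

set_option autoImplicit false
open Cfsg

namespace Cfsg.Agent.S2214

open Cfsg.Lie H63 H64 H65

/-- Let k be an algebraically closed field of prime characteristic p, G the adjoint Chevalley group of type G₂, B₂, D₄, F₄, E₆, E₇ or E₈ over k (the matrix group generated by the root elements x_s(t), t ∈ k, acting on the Lie algebra), q = p^a with a ≥ 1, and K a subgroup of G containing every root element x_s(t) with t^q = t and consisting of matrices all of whose entries c satisfy c^q = c. Then the centralizer of K in G is trivial, and the normalizer of K in G is exactly the set of elements of G all of whose entries c satisfy c^q = c. -/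
theorem result {k : Type*} [Field k] [IsAlgClosed k] (p : ℕ) [Fact p.Prime] [CharP k p] (D : Cfsg.Lie.ChevalleyDatum) (hD : D ∈ [Cfsg.Lie.chevG2, Cfsg.Lie.chevB2, Cfsg.Lie.chevD4, Cfsg.Lie.chevF4, Cfsg.Lie.chevE6, Cfsg.Lie.chevE7, Cfsg.Lie.chevE8]) (a : ℕ) (ha : 1 ≤ a) (K : Subgroup (GL D.Idx k)) (hKG : K ≤ D.group k)
    (hLK : Subgroup.closure {g : GL D.Idx k | ∃ (s : ℕ) (t : k), t ^ (p ^ a) = t ∧ (g : Matrix D.Idx D.Idx k) = D.x k s t} ≤ K)
    (hKfix : ∀ g ∈ K, ∀ i j : D.Idx, ((g : Matrix D.Idx D.Idx k) i j) ^ (p ^ a) = (g : Matrix D.Idx D.Idx k) i j) :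
    D.group k ⊓ Subgroup.centralizer (K : Set (GL D.Idx k)) = ⊥ ∧
    ∀ g : GL D.Idx k, g ∈ D.group k → (g ∈ Subgroup.normalizer (K : Set (GL D.Idx k)) ↔ ∀ i j : D.Idx, ((g : Matrix D.Idx D.Idx k) i j) ^ (p ^ a) = (g : Matrix D.Idx D.Idx k) i j) := by
  obtain ⟨_, _, h, hA⟩ := ad_of_mem hD k
  set σ := iterateFrobenius k p a
  set θ : GL D.Idx k →* GL D.Idx k := Matrix.GeneralLinearGroup.map σ
  have hθ : ∀ (r : Rt D) t, θ (xU D k r t) = xU D k r (σ t) := fun r t => H63.map_xU σ r t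
  have fix : ∀ g : GL D.Idx k, θ g = g ↔ ∀ i j : D.Idx,
      ((g : Matrix D.Idx D.Idx k) i j) ^ (p ^ a) = (g : Matrix D.Idx D.Idx k) i j := fun g =>
    ⟨fun e i j => congrArg (fun z : GL D.Idx k => (z : Matrix D.Idx D.Idx k) i j) e,
      fun e => Units.ext (Matrix.ext e)⟩
  have hx : ∀ (r : Rt D) t, σ t = t → xU D k r t ∈ K :=
    fun r t ht => hLK (Subgroup.subset_closure ⟨r, t, ht, rfl⟩)
  have hC : ∀ g ∈ D.group k, (∀ y ∈ K, y * g = g * y) → g = 1 := fun g hg hc =>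
    congrArg Subtype.val (hA.eq_one_of_comm (g := ⟨g, hg⟩) fun i =>
      ⟨Subtype.ext (hc _ (hx (simpleR i) 1 (map_one σ))).symm,
        Subtype.ext (hc _ (hx (negR (simpleR i)) 1 (map_one σ))).symm⟩)
  refine ⟨eq_bot_iff.2 fun g hg => hC g hg.1 (Subgroup.mem_centralizer_iff.1 hg.2),
    fun g hg => ⟨fun hn => (fix g).1 (inv_mul_eq_one.1 (hC _ (mul_mem (inv_mem hg)
      (map_mem_group σ hg)) fun y hy => ?_)).symm, fun hf => ?_⟩⟩
  · have e := (fix _).2 (hKfix _ ((Subgroup.mem_normalizer_iff.1 hn y).1 hy))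
    rw [map_mul, map_mul, map_inv, (fix _).2 (hKfix y hy)] at e
    calc y * (g⁻¹ * θ g) = g⁻¹ * (g * y * g⁻¹) * θ g := by group
      _ = g⁻¹ * θ g * y := by rw [← e]; group
  have key : ∀ c ∈ HH D (xU D k), θ c = c → ∀ y ∈ K, c * y * c⁻¹ ∈ K := by
    intro c hc e y hy
    let L := Subgroup.closure {g | ∃ (r : Rt D) (t : k), σ t = t ∧ g = xU D k r t}
    have hL : L ≤ K ⊓ K.comap (MulAut.conj c).toMonoidHom := (Subgroup.closure_le _).2 (by
      rintro _ ⟨r, t, ht, rfl⟩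
      obtain ⟨d, -, hd⟩ := h.stN.HH_conj hc r
      refine ⟨hx r t ht, (show c * xU D k r t * c⁻¹ ∈ K from ?_)⟩
      have : σ (d * 1) = d * 1 := h.stB.x_injective r (by
        rw [← hθ, ← (hd 1).1, map_mul, map_mul, map_inv, e, hθ, map_one])
      rw [(hd t).1]
      exact hx r _ (by rw [map_mul, ht]; simpa using Or.inl this))
    obtain ⟨l, hl, c', hc', l', hl', -, rfl⟩ := exists_of_fix hθ h.stB (K := L)
      (fun r t ht => Subgroup.subset_closure ⟨r, t, ht, rfl⟩) (H64.group_eq (D := D) (F := k) ▸ hKG hy)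
      ((fix y).2 (hKfix y hy))
    have h1 : c' ∈ K := (K.mul_mem_cancel_left (hL hl).1).1 ((K.mul_mem_cancel_right (hL hl').1).1 hy)
    have h2 : c * c' = c' * c :=
      congrArg Subtype.val (h.isMulCommutative_H.is_comm.comm ⟨c, hc⟩ ⟨c', hc'⟩)
    have : c * (l * c' * l') * c⁻¹ = c * l * c⁻¹ * c' * (c * l' * c⁻¹) := by
      calc _ = c * l * c⁻¹ * (c * c') * l' * c⁻¹ := by group
        _ = _ := by rw [h2]; group
    rw [this]
    exact mul_mem (mul_mem (hL hl).2 h1) (hL hl').2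
  obtain ⟨l, hl, c, hc, l', hl', e, rfl⟩ := exists_of_fix hθ h.stB hx
    (H64.group_eq (D := D) (F := k) ▸ hg) ((fix g).2 hf)
  exact mul_mem (mul_mem (K.le_normalizer hl) (RGD.mem_normalizer_of_conj (key c hc e)
    (key _ (inv_mem hc) (by rw [map_inv, e])))) (K.le_normalizer hl')

end Cfsg.Agent.S2214
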