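import Cfsg.Statements.S2222
import Cfsg.Agent.H30.SymTwo
import Cfsg.Agent.H3.FrattiniP

set_option autoImplicit false
open Cfsg

namespace Cfsg.Agent.S2222

/-- In the alternating group of degree n ≥ 5 every subgroup H of odd index is pronormal: for every element g, the subgroups H and gHg⁻¹ are conjugate by an element of the subgroup they generate. -/
theorem result (n : ℕ) (hn : 5 ≤ n)
    (H : Subgroup (alternatingGroup (Fin n))) (hH : Odd H.index) : Cfsg.IsPronormal H := by
  have hex : ∃ R : Sylow 2 (alternatingGroup (Fin n)), (R : Subgroup _) ≤ H := by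
    obtain ⟨T, hT⟩ := H98.exists_isSyl 2 H
    have h1 : H98.IsSyl 2 T ⊤ := by
      refine H98.isSyl_of_not_dvd_relIndex le_top hT.isPGroup ?_
      rw [Subgroup.relIndex_top_right, ← Subgroup.relIndex_mul_index hT.le]
      intro h
      rcases (Nat.Prime.dvd_mul Nat.prime_two).1 h with h | h
      · exact hT.not_dvd_relIndex h
      · exact (Nat.not_even_iff_odd.2 hH) (even_iff_two_dvd.2 h)
    exact ⟨h1.toSylowTop, hT.le⟩
  obtain ⟨R, hR⟩ := hex
  rcases hn.eq_or_lt with rfl | hn
  · have hc : Nat.card (alternatingGroup (Fin 5)) = 60 := by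
      rw [nat_card_alternatingGroup]; simp [Nat.factorial]
    have h1 : H.index ∣ 60 := hc ▸ H.index_dvd_card
    have h2 : H.index = 1 ∨ H.index = 3 ∨ H.index = 5 ∨ H.index = 15 := by
      have := Nat.le_of_dvd (by norm_num) h1
      obtain ⟨k, hk⟩ := hH
      generalize H.index = m at *
      interval_cases m <;> omega
    have hco : H.index.Prime → IsCoatom H := fun hp => by
      exact H3.isCoatom_of_index_prime hp
    rcases h2 with h | h | h | h
    · rw [Subgroup.index_eq_one.1 h]
      intro g
      exact ⟨g, Subgroup.mem_sup_left (Subgroup.mem_top g), rfl⟩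
    · exact H30.SymTwo.pronormal_of_isCoatom (hco (by rw [h]; norm_num))
    · exact H30.SymTwo.pronormal_of_isCoatom (hco (by rw [h]; norm_num))
    · have h3 := H.card_mul_index
      rw [h, hc] at h3
      have h4 : IsPGroup 2 H := IsPGroup.of_card (n := 2) (by omega)
      have h5 := (H98.isSyl_sylow R).eq_of_le h4 hR le_top
      exact H30.SymTwo.pronormal_of_sylow R hR (by rw [h5])
  · exact H30.SymTwo.pronormal_of_sylow R hR
      ((H30.SymTwo.alt_selfnorm hn R).trans (hR.trans Subgroup.le_normalizer))

end Cfsg.Agent.S2222
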