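import Cfsg.Statements.S2228
import Cfsg.Agent.H4.JMain

set_option autoImplicit false
open Cfsg

namespace Cfsg.Agent.S2228

/-- Let G be a finite simple group in which all involutions are conjugate and the centralizer of an involution has a normal extraspecial subgroup of order 32 complemented by a subgroup isomorphic to the alternating group of degree 5 (a group of J₃-type). Then a Sylow 19-subgroup of G is self-centralizing with normalizer-quotient cyclic of order 9, and a Sylow 17-subgroup is self-centralizing with normalizer-quotient cyclic of order 8. -/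
theorem result {G : Type*} [Group G] [Finite G] [IsSimpleGroup G]
    (hone : ∀ x y : G, orderOf x = 2 → orderOf y = 2 → IsConj x y)
    (t : G) (ht : orderOf t = 2) (E A : Subgroup ↥(Subgroup.centralizer ({t} : Set G))) [E.Normal]
    (hE : Cfsg.IsExtraspecial 2 ↥E) (hE32 : Nat.card ↥E = 32) (hEA : E.IsComplement' A)
    (eA : ↥A ≃* ↥(alternatingGroup (Fin 5))) :
    (∀ X : Sylow 19 G, Subgroup.centralizer ((X : Subgroup G) : Set G) = X ∧
        ∃ h : ((X : Subgroup G).subgroupOf (Subgroup.normalizer ((X : Subgroup G) : Set G))).Normal,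
          IsCyclic (↥(Subgroup.normalizer ((X : Subgroup G) : Set G)) ⧸ (X : Subgroup G).subgroupOf _) ∧
          Nat.card (↥(Subgroup.normalizer ((X : Subgroup G) : Set G)) ⧸ (X : Subgroup G).subgroupOf _) = 9) ∧
    (∀ Y : Sylow 17 G, Subgroup.centralizer ((Y : Subgroup G) : Set G) = Y ∧
        ∃ h : ((Y : Subgroup G).subgroupOf (Subgroup.normalizer ((Y : Subgroup G) : Set G))).Normal,
          IsCyclic (↥(Subgroup.normalizer ((Y : Subgroup G) : Set G)) ⧸ (Y : Subgroup G).subgroupOf _) ∧
          Nat.card (↥(Subgroup.normalizer ((Y : Subgroup G) : Set G)) ⧸ (Y : Subgroup G).subgroupOf _) = 8) := by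
  have hf := H4.hf_of_simple ht hE32
  obtain ⟨j, T, -⟩ := (H4.JT_of_quot ht E hE32 hE
    (hEA.symm.QuotientMulEquiv.trans eA) hf).one hf hone
  have : Fact (Nat.Prime 19) := ⟨by norm_num⟩
  have : Fact (Nat.Prime 17) := ⟨by norm_num⟩
  refine ⟨fun X => ?_, fun X => ?_⟩
  · obtain ⟨h1, h2, h3⟩ := T.syl19 X
    exact ⟨h2, H4.nc_quot h1 h2 h3⟩
  · obtain ⟨h1, h2, h3⟩ := T.syl17 X
    exact ⟨h2, H4.nc_quot h1 h2 h3⟩

end Cfsg.Agent.S2228
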