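import Cfsg.Statements.S2239
import Cfsg.Agent.H66.SzSubfield

set_option autoImplicit false
open Cfsg

namespace Cfsg.Agent.S2239

theorem mono {a b : ℕ} (ha : 2 ≤ a) (h : a < b) :
    a ^ 2 * (a - 1) * (a ^ 2 + 1) < b ^ 2 * (b - 1) * (b ^ 2 + 1) := by
  have h1 : a ^ 2 < b ^ 2 := Nat.pow_lt_pow_left h two_ne_zero
  have h2 : a - 1 < b - 1 := by omega
  exact Nat.mul_lt_mul'' (Nat.mul_lt_mul'' h1 h2) (by omega)

open H66 in
theorem aux {F : Type*} [Field F] {T : Tits F} {G : Type*} [Group G] (M : Model T G) {m : ℕ}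
    (hT : T.IsFin m) {K : Type*} [Field K] {T' : Tits K} {G' : Type*} [Group G'] (M' : Model T' G')
    {k : ℕ} (hT' : T'.IsFin k) {E : Subfield F} {S : Subgroup G}
    (hc : Nat.card E = 2 ^ (2 * k + 1)) (h : M.IsSub E S) {S' : Subgroup G} (e : S' ≃* G') :
    ∃ x, S' = S.map (MulAut.conj x).toMonoidHom := by
  have := hT.finite
  have := hT'.finite
  obtain ⟨x, E', j, hj, hc', -, h'⟩ :=
    M.exists_isSub_of_not_solvable hT ((M'.ofEquiv e).not_isSolvable hT')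
  obtain ⟨L, _, T'', hT'', ⟨M''⟩⟩ := h'.exists_model hT hj hc'
  have := hT''.finite
  have h1 := M''.card_G
  rw [(M'.ofEquiv e).card_G] at h1
  have h2 := hT'.eight_le
  have h3 := hT''.eight_le
  have h4 : Nat.card K = Nat.card L := by
    rcases lt_trichotomy (Nat.card K) (Nat.card L) with h | h | h
    · exact absurd h1 (mono (by omega) h).ne
    · exact h
    · exact absurd h1 (mono (by omega) h).ne'
  obtain rfl : E = E' := subfield_eq_of_card (by rw [hc, hc', ← hT'.card, h4, hT''.card])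
  exact ⟨x, h'.eq (h.map_conj x)⟩


/-- Subfield subgroups of the Suzuki group: let q = 2^(2m+1) and s = 2^(2k+1) with m, k ≥ 1 and 2k+1 dividing 2m+1 (so q is a power of s), both groups realised as stabilisers in SL₄ of the Suzuki–Tits ovoid. Then Sz(q) has a subgroup isomorphic to Sz(s), and any two subgroups of Sz(q) isomorphic to Sz(s) are conjugate. -/
theorem result {F : Type*} [Field F] [Fintype F] {m : ℕ} (hm : 1 ≤ m) (hF : Fintype.card F = 2 ^ (2 * m + 1)) {K : Type*} [Field K] [Fintype K] {k : ℕ} (hk : 1 ≤ k) (hK : Fintype.card K = 2 ^ (2 * k + 1)) (hdiv : 2 * k + 1 ∣ 2 * m + 1) :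
    (∃ S : Subgroup ↥(Cfsg.Sz F m), Nonempty (↥S ≃* ↥(Cfsg.Sz K k))) ∧
    ∀ S₁ S₂ : Subgroup ↥(Cfsg.Sz F m), Nonempty (↥S₁ ≃* ↥(Cfsg.Sz K k)) → Nonempty (↥S₂ ≃* ↥(Cfsg.Sz K k)) →
      ∃ g : ↥(Cfsg.Sz F m), S₂ = S₁.map (MulAut.conj g).toMonoidHom := by
  have hT := H66.titsOf_isFin F hm hF
  have hT' := H66.titsOf_isFin K hk hK
  obtain ⟨E, S, hc, h⟩ := (H66.modelA hT').exists_isSub (H66.modelA hT) hT hT' hdiv
  refine ⟨⟨S, h.nonempty_equiv (H66.modelA hT') hT hT' hc⟩, ?_⟩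
  rintro S₁ S₂ ⟨e₁⟩ ⟨e₂⟩
  obtain ⟨x, rfl⟩ := aux _ hT (H66.modelA hT') hT' hc h e₁
  obtain ⟨y, rfl⟩ := aux _ hT (H66.modelA hT') hT' hc h e₂
  refine ⟨y * x⁻¹, ?_⟩
  ext g
  simp only [H66.Model.mem_map_conj, mul_inv_rev, inv_inv, mul_assoc, inv_mul_cancel_left,
    inv_mul_cancel, mul_one]

end Cfsg.Agent.S2239
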