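import Cfsg.Statements.S2240
import Cfsg.Agent.H66.SzSubfield

set_option autoImplicit false
open Cfsg

namespace Cfsg.Agent.S2240

open H66

section

variable {F : Type*} [Field F] {T : Tits F} {G : Type*} [Group G] (M : Model T G) {m : ℕ}

theorem card_eq {E : Subgroup G} (hE : E ≤ M.Z) {L : Subfield F} {b : F} (hb : b ≠ 0)
    (h : ∀ x, x ∈ L ↔ M.u 0 (x * b) ∈ E) : Nat.card L = Nat.card E := by
  refine Nat.card_eq_of_bijective (fun x : L => (⟨_, (h x).mp x.2⟩ : E)) ⟨fun x y e => ?_, ?_⟩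
  · have e' : M.u 0 (x * b) = M.u 0 (y * b) := congrArg Subtype.val e
    exact Subtype.ext (mul_right_cancel₀ hb (M.u_inj.mp e').2)
  · rintro ⟨g, hg⟩
    obtain ⟨c, rfl⟩ := M.mem_Z.mp (hE hg)
    exact ⟨⟨c / b, (h _).mpr (by rwa [div_mul_cancel₀ c hb])⟩, by simp [div_mul_cancel₀ c hb]⟩

theorem dvd_aux (hT : T.IsFin m) {E : Subgroup G} (hE : E ≤ M.Z) {n : ℕ} (hn : 2 ≤ n)
    (hc : Nat.card E = 2 ^ n) (h : ∀ x : G, E ⊓ E.map (MulAut.conj x).toMonoidHom ≠ ⊥ →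
      x ∈ Subgroup.normalizer (E : Set G)) : n ∣ 2 * m + 1 := by
  obtain ⟨g, hg, g1⟩ := E.bot_or_exists_ne_one.resolve_left fun e => by
    rw [e, Subgroup.card_bot] at hc
    exact absurd (Nat.pow_eq_one.mp hc.symm) (by omega)
  obtain ⟨b, rfl⟩ := M.mem_Z.mp (hE hg)
  have hb : b ≠ 0 := fun e => g1 (by simp [e])
  have key : ∀ x, x ≠ 0 → M.u 0 (x * b) ∈ E → ∀ y, M.u 0 y ∈ E ↔ M.u 0 (x * y) ∈ E := by
    intro x x0 hx y
    obtain ⟨k, rfl⟩ := hT.chi_surj x0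
    have e : ∀ y, M.h k * M.u 0 y * (M.h k)⁻¹ = M.u 0 (T.θ k * k ^ 2 * y) := fun y => by
      rw [M.h_conj, mul_zero]
    rw [← e]
    refine Subgroup.mem_normalizer_iff.mp (h _ fun e' => ?_) _
    have : M.u 0 (T.θ k * k ^ 2 * b) ∈ E ⊓ E.map (MulAut.conj (M.h k)).toMonoidHom :=
      ⟨hx, _, hg, e b⟩
    rw [e', Subgroup.mem_bot, M.u_eq_one] at this
    exact mul_ne_zero x0 hb this.2
  let L : Subfield F :=
    { carrier := {x | M.u 0 (x * b) ∈ E}
      mul_mem' := fun {x y} hx hy => by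
        by_cases h0 : x = 0
        · simp [h0]
        · simpa [mul_assoc] using (key x h0 hx _).mp hy
      one_mem' := by simpa using hg
      add_mem' := fun {x y} hx hy => by
        have := E.mul_mem hx hy
        rwa [M.z_mul, ← add_mul] at this
      zero_mem' := by simp
      neg_mem' := fun {x} hx => by rwa [T.neg_eq]
      inv_mem' := fun x hx => by
        by_cases h0 : x = 0
        · simp [h0]
        · exact (key x h0 hx _).mpr (by simpa [h0] using hg) }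
  obtain ⟨k, hk, hd⟩ := hT.card_subfield L
  rw [card_eq M hE hb (L := L) fun _ => Iff.rfl, hc] at hk
  rwa [Nat.pow_right_injective le_rfl hk]

include M in
theorem exists_aux (hT : T.IsFin m) (L : Subfield F) :
    ∃ E : Subgroup G, Cfsg.IsElementaryAbelian 2 E ∧ Nat.card E = Nat.card L ∧
      ∀ x : G, E ⊓ E.map (MulAut.conj x).toMonoidHom ≠ ⊥ → x ∈ Subgroup.normalizer (E : Set G) := by
  have := hT.finite
  have := M.finite
  let E : Subgroup G :=
    { carrier := {g | ∃ b ∈ L, g = M.u 0 b}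
      mul_mem' := by
        rintro _ _ ⟨b, hb, rfl⟩ ⟨c, hc, rfl⟩
        exact ⟨_, add_mem hb hc, M.z_mul b c⟩
      one_mem' := ⟨0, zero_mem _, M.u_zero.symm⟩
      inv_mem' := by
        rintro _ ⟨b, hb, rfl⟩
        exact ⟨b, hb, M.z_inv b⟩ }
  refine ⟨E, ⟨⟨⟨?_⟩⟩, ?_⟩, (card_eq M (E := E) ?_ one_ne_zero fun x => ⟨fun h => ⟨x, h, by simp⟩, ?_⟩).symm,
    fun x hx => ?_⟩
  · rintro ⟨_, b, hb, rfl⟩ ⟨_, c, hc, rfl⟩
    exact Subtype.ext (M.z_comm _ _ _)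
  · rintro _ ⟨b, hb, rfl⟩
    rw [pow_two, M.z_mul_self]
  · rintro _ ⟨b, hb, rfl⟩
    exact M.u_mem_Z b
  · rintro ⟨b, hb, e⟩
    rw [mul_one, M.u_inj] at e
    exact e.2 ▸ hb
  · obtain ⟨_, ⟨⟨b, hb, rfl⟩, _, ⟨c, hc, rfl⟩, e⟩, g1⟩ :=
      (Subgroup.bot_or_exists_ne_one _).resolve_left hx
    change x * M.u 0 c * x⁻¹ = M.u 0 b at e
    have c1 : M.u 0 c ≠ 1 := fun e' => g1 (by rw [← e, e']; group)
    obtain ⟨a, a', k, rfl⟩ := M.mem_B'.mp
      (M.mem_B_of_conj_mem (M.u_mem_Q 0 c) c1 (e ▸ M.Q_le_B (M.u_mem_Q 0 b)))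
    rw [M.uh_conj_z, M.u_inj] at e
    have hk : T.θ k * k ^ 2 ∈ L := by
      rw [eq_div_of_mul_eq (fun e => c1 (by simp [e])) e.2]
      exact div_mem hb hc
    refine Subgroup.mem_normalizer_fintype ?_
    rintro _ ⟨d, hd, rfl⟩
    exact ⟨_, mul_mem hk hd, M.uh_conj_z _ _ _ _⟩

end


/-- Elementary abelian TI-subgroups of the Suzuki group: let q = 2^(2m+1) with m ≥ 1, the group realised as the stabiliser in SL₄ of the Suzuki–Tits ovoid, and n ≥ 2. There is an elementary abelian 2-subgroup E of order 2^n that is a TI-subgroup (every conjugate of E meeting E nontrivially is E itself) if and only if n divides 2m + 1. -/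
theorem result {F : Type*} [Field F] [Fintype F] {m : ℕ} (hm : 1 ≤ m) (hF : Fintype.card F = 2 ^ (2 * m + 1)) (n : ℕ) (hn : 2 ≤ n) :
    (∃ E : Subgroup ↥(Cfsg.Sz F m), Cfsg.IsElementaryAbelian 2 E ∧ Nat.card ↥E = 2 ^ n ∧
      ∀ x : ↥(Cfsg.Sz F m), E ⊓ E.map (MulAut.conj x).toMonoidHom ≠ ⊥ → x ∈ Subgroup.normalizer (E : Set ↥(Cfsg.Sz F m))) ↔ n ∣ 2 * m + 1 := by
  have hT := titsOf_isFin F hm hF
  have M := modelA hT
  constructor
  · rintro ⟨E, hE, hc, h⟩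
    obtain ⟨x, hx⟩ := M.exists_conj_le_Q hT (IsPGroup.of_card hc)
    exact dvd_aux (M.conj x) hT
      (fun g hg => (M.conj x).mem_Z_of_sq ((M.conj x).Q_le_B (hx hg)) (hE.2 g hg)) hn hc h
  · intro h
    obtain ⟨k, rfl⟩ := (odd_two_mul_add_one m).of_dvd_nat h
    obtain ⟨K, _, _, hK⟩ := exists_field k
    have hT' := titsOf_isFin K (by omega) hK
    obtain ⟨i⟩ := hT.nonempty_ringHom hT' h
    have := exists_aux M hT i.fieldRange
    rwa [card_fieldRange, hT'.card] at this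

end Cfsg.Agent.S2240
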