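import Cfsg.Statements.S2249
import Cfsg.Agent.H56.NR2

set_option autoImplicit false
open Cfsg

namespace Cfsg.Agent.S2249

/-- The normal 2-rank of the general linear group over a finite field of odd order q: for n ≥ 1 and S a Sylow 2-subgroup of GL_n(F), the largest rank of an elementary abelian subgroup of S that is normal in S equals n when q ≡ 1 (mod 4) and ⌊(n + 1)/2⌋ when q ≡ 3 (mod 4). -/
theorem result {F : Type*} [Field F] [Fintype F] {q : ℕ} (hF : Fintype.card F = q) (hodd : Odd q) (n : ℕ) (hn : 1 ≤ n) (S : Sylow 2 (Matrix.GeneralLinearGroup (Fin n) F)) :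
    (q % 4 = 1 → ((∃ E : Subgroup ↥(S : Subgroup (Matrix.GeneralLinearGroup (Fin n) F)), E.Normal ∧ Cfsg.IsElementaryAbelian 2 E ∧ 2 ^ (n) ≤ Nat.card ↥E) ∧
      ∀ E : Subgroup ↥(S : Subgroup (Matrix.GeneralLinearGroup (Fin n) F)), E.Normal → Cfsg.IsElementaryAbelian 2 E → Nat.card ↥E ≤ 2 ^ (n))) ∧
    (q % 4 = 3 → ((∃ E : Subgroup ↥(S : Subgroup (Matrix.GeneralLinearGroup (Fin n) F)), E.Normal ∧ Cfsg.IsElementaryAbelian 2 E ∧ 2 ^ ((n + 1) / 2) ≤ Nat.card ↥E) ∧
      ∀ E : Subgroup ↥(S : Subgroup (Matrix.GeneralLinearGroup (Fin n) F)), E.Normal → Cfsg.IsElementaryAbelian 2 E → Nat.card ↥E ≤ 2 ^ ((n + 1) / 2))) := by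
  have h1 : Nat.card F = q := by rw [Nat.card_eq_fintype_card, hF]
  have hq : Odd (Nat.card F) := h1 ▸ hodd
  let e : Matrix.GeneralLinearGroup (Fin n) F ≃* ((Fin n → F) ≃ₗ[F] (Fin n → F)) :=
    Matrix.GeneralLinearGroup.toLin.trans (LinearMap.GeneralLinearGroup.generalLinearEquiv F _)
  have hρ : Function.Injective (e.toMonoidHom.comp (S : Subgroup _).subtype) :=
    e.injective.comp Subtype.val_injective
  refine ⟨fun h => ⟨?_, fun E _ hE => ?_⟩, fun h => ⟨?_, fun E _ hE => ?_⟩⟩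
  · simpa using ((H56.NR.lb_one (V := Fin n → F) (h1 ▸ h)).of_equiv e.symm).sylow S
  · simpa using H56.NR.ub_gl (H56.NR.two_ne hq) hρ hE
  · simpa using ((H56.NR.lb_half (V := Fin n → F) hq).of_equiv e.symm).sylow S
  · simpa using H56.NR.ub_three (hF ▸ h) hρ hE (by
      rw [S.card_eq_multiplicity, Nat.card_congr e.toEquiv, Nat.factorization_def _ Nat.prime_two,
        H56.NR.val_card hq])

end Cfsg.Agent.S2249
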