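import Cfsg.Statements.S2250
import Cfsg.Agent.H56.NR2

set_option autoImplicit false
open Cfsg

namespace Cfsg.Agent.S2250

/-- The normal 2-rank of the symplectic group over a finite field of odd order: for n ≥ 1 and S a Sylow 2-subgroup of Sp_{2n}(F), the largest rank of an elementary abelian subgroup of S that is normal in S equals n. -/
theorem result {F : Type*} [Field F] [Fintype F] (hF : Odd (Fintype.card F)) (n : ℕ) (hn : 1 ≤ n) (S : Sylow 2 ↥(Matrix.symplecticGroup (Fin n) F)) :
    ((∃ E : Subgroup ↥(S : Subgroup ↥(Matrix.symplecticGroup (Fin n) F)), E.Normal ∧ Cfsg.IsElementaryAbelian 2 E ∧ 2 ^ (n) ≤ Nat.card ↥E) ∧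
      ∀ E : Subgroup ↥(S : Subgroup ↥(Matrix.symplecticGroup (Fin n) F)), E.Normal → Cfsg.IsElementaryAbelian 2 E → Nat.card ↥E ≤ 2 ^ (n)) := by
  have hq : Odd (Nat.card F) := by rwa [Nat.card_eq_fintype_card]
  refine ⟨(H56.NR.lb_sp hq n).sylow S, fun E _ hE => H56.NR.ub_sp (H56.NR.two_ne hq)
    (ρ := (Subgroup.subtype _).comp ((H54.spEquivIsom (Fin n) F).toMonoidHom.comp
      (S : Subgroup _).subtype)) (Subtype.val_injective.comp
        ((H54.spEquivIsom (Fin n) F).injective.comp Subtype.val_injective)) hE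
    H54.spB_nondegenerate H54.spB_isAlt (fun s => (H54.spEquivIsom (Fin n) F s).2)
    (by simp [two_mul])⟩

end Cfsg.Agent.S2250
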