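import Cfsg.Statements.S2251
import Cfsg.Agent.H66.SzSubfield

set_option autoImplicit false
open Cfsg

namespace Cfsg.Agent.S2251

/-- The subgroups of the Suzuki group: with q = 2^(2m+1), m ≥ 1, r = 2^m and the group realised as the stabiliser in SL₄ of the Suzuki–Tits ovoid, every proper subgroup is contained in the normalizer of a Sylow 2-subgroup, or in the normalizer of a cyclic subgroup of order q − 1, q + 2r + 1 or q − 2r + 1, or in a subgroup isomorphic to a smaller Suzuki group Sz(s) with s = 2^(2k+1) ≥ 8 and 2k+1 a proper divisor of 2m+1. -/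
theorem result {F : Type*} [Field F] [Fintype F] {m : ℕ} (hm : 1 ≤ m) (hF : Fintype.card F = 2 ^ (2 * m + 1)) (M : Subgroup ↥(Cfsg.Sz F m)) (hM : M ≠ ⊤) :
    (∃ P : Sylow 2 ↥(Cfsg.Sz F m), M ≤ Subgroup.normalizer ((P : Subgroup ↥(Cfsg.Sz F m)) : Set ↥(Cfsg.Sz F m))) ∨
    (∃ U : Subgroup ↥(Cfsg.Sz F m), IsCyclic ↥U ∧ Nat.card ↥U ∈ ({2 ^ (2 * m + 1) - 1, 2 ^ (2 * m + 1) + 2 ^ (m + 1) + 1, 2 ^ (2 * m + 1) - 2 ^ (m + 1) + 1} : Set ℕ) ∧
      M ≤ Subgroup.normalizer (U : Set ↥(Cfsg.Sz F m))) ∨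
    (∃ (K : Type) (_ : Field K) (_ : Fintype K) (k : ℕ), 1 ≤ k ∧ k < m ∧ Fintype.card K = 2 ^ (2 * k + 1) ∧ 2 * k + 1 ∣ 2 * m + 1 ∧
      ∃ S : Subgroup ↥(Cfsg.Sz F m), Nonempty (↥S ≃* ↥(Cfsg.Sz K k)) ∧ M ≤ S) := by
  have hT := H66.titsOf_isFin F hm hF
  rcases (H66.modelA hT).subgroup_cases hT M with ⟨x, hx⟩ | ⟨A, hA, hx⟩ | ⟨x, E, k, hk, hc, hd, h⟩
  · exact Or.inl ⟨((H66.modelA hT).conj x).sylowQ hT, by
      rwa [H66.Model.sylowQ_coe, H66.Model.normalizer_Q]⟩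
  · exact Or.inr (Or.inl ⟨A, hA.1, hA.2, hx⟩)
  · obtain ⟨K, _, _, hK⟩ := H66.exists_field k
    refine Or.inr (Or.inr ⟨K, inferInstance, inferInstance, k, hk, ?_, hK, hd, M, ?_, le_rfl⟩)
    · by_contra h'
      exact hM (h.eq_top_of_le hT hc (by omega))
    · have hT' := H66.titsOf_isFin K hk hK
      exact h.nonempty_equiv (H66.modelA hT') hT hT' hc

end Cfsg.Agent.S2251
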