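import Cfsg.Statements.S2254
import Cfsg.Agent.Base
import Cfsg.Agent.H76.NilSnC

set_option autoImplicit false
open Cfsg

namespace Cfsg.Agent.S2254

/-- Let n ≡ 3 (mod 4). Then every nilpotent subgroup of the symmetric group on n letters has order at most 3 times the order of a Sylow 2-subgroup of the symmetric group on n − 3 letters; the bound is attained by a nilpotent subgroup isomorphic to the direct product of such a Sylow 2-subgroup with a cyclic group of order 3; and any two nilpotent subgroups attaining the bound are conjugate. -/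
theorem result  (n : ℕ) (hn : n % 4 = 3)
    (P : Sylow 2 (Equiv.Perm (Fin (n - 3)))) :
    (∀ N : Subgroup (Equiv.Perm (Fin n)), Group.IsNilpotent N → Nat.card N ≤ 3 * Nat.card P) ∧
    (∃ M : Subgroup (Equiv.Perm (Fin n)), Group.IsNilpotent M ∧ Nat.card M = 3 * Nat.card P ∧
      Nonempty (M ≃* (↥(P : Subgroup (Equiv.Perm (Fin (n - 3)))) × Multiplicative (ZMod 3)))) ∧
    (∀ N₁ N₂ : Subgroup (Equiv.Perm (Fin n)), Group.IsNilpotent N₁ → Group.IsNilpotent N₂ →
      Nat.card N₁ = 3 * Nat.card P → Nat.card N₂ = 3 * Nat.card P →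
      ∃ g : Equiv.Perm (Fin n), N₂ = N₁.map (MulAut.conj g).toMonoidHom) := by
  obtain ⟨k, rfl⟩ : ∃ k, n = 4 * k + 3 := ⟨n / 4, by omega⟩
  have cP : Nat.card P = H76.NS.W (4 * k) := H76.NS.card_sylow_sym P
  have hb : ∀ N : Subgroup (Equiv.Perm (Fin (4 * k + 3))), Group.IsNilpotent N →
      Nat.card N ≤ 3 * Nat.card P := fun N hN => by
    rw [cP, ← H76.NS.B_three]; exact H76.NS.sym_le N hN
  refine ⟨hb, ?_, fun N₁ N₂ h1 h2 c1 c2 => ?_⟩
  · obtain ⟨ψ, hψ, -⟩ := H76.NS.ex_emb (n := 4 * k + 3) (by omega) _ (Subgroup.subtype_injective P.1)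
    exact H76.NS.ex_sub P.isPGroup' ψ hψ
  · obtain ⟨e, he⟩ := IsPGroup.iff_card.1 P.isPGroup'
    rw [he] at hb c1 c2 cP
    obtain ⟨a, T, oa, t1, t2, t3, rfl⟩ := H76.NS.nil_struct h1 c1
    obtain ⟨b, U, ob, u1, u2, u3, rfl⟩ := H76.NS.nil_struct h2 c2
    exact H76.NS.conj_of hb ob t1 t2 t3 u1 u2 u3 (Equiv.Perm.isConj_of_cycleType_eq
      ((H76.NS.three_cycle oa (t2 ▸ Subgroup.card_dvd_of_le t3) (by omega)).trans
        (H76.NS.three_cycle ob (u2 ▸ Subgroup.card_dvd_of_le u3) (by omega)).symm))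

end Cfsg.Agent.S2254
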