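import Cfsg.Statements.S2255
import Cfsg.Agent.Base
import Cfsg.Agent.H76.NilSn

set_option autoImplicit false
open Cfsg

namespace Cfsg.Agent.S2255

/-- Let n be a natural number not congruent to 3 modulo 4, with n ∉ {5, 6, 9}. Then every nilpotent subgroup of the alternating group on n letters has order at most the order of a Sylow 2-subgroup of the alternating group (so the nilpotent subgroups of largest order are exactly the Sylow 2-subgroups). -/
theorem result  (n : ℕ) (hn : n % 4 ≠ 3)
    (h5 : n ≠ 5) (h6 : n ≠ 6) (h9 : n ≠ 9)
    (N : Subgroup (alternatingGroup (Fin n))) (hN : Group.IsNilpotent N)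
    (P : Sylow 2 (alternatingGroup (Fin n))) :
    Nat.card N ≤ Nat.card P := by
  refine (H76.NS.alt_le N hN).trans (max_le ?_ ?_)
  · rcases Nat.lt_or_ge n 2 with h | h
    · refine le_trans ?_ (Nat.zero_le _)
      interval_cases n <;> decide +kernel
    · have := H76.NS.card_sylow_alt h P
      rw [H76.NS.B_eq_W hn]; omega
  · have : H76.NS.e n = 1 := by unfold H76.NS.e; split_ifs <;> omega
    rw [this]; exact Nat.card_pos

end Cfsg.Agent.S2255
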