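import Cfsg.Statements.S2256
import Cfsg.Agent.Base
import Cfsg.Agent.H76.NilSnC

set_option autoImplicit false
open Cfsg

namespace Cfsg.Agent.S2256

/-- Let n ≡ 3 (mod 4) with n ≥ 7. Then every nilpotent subgroup of the alternating group on n letters has order at most 3 times the order of a Sylow 2-subgroup of the alternating group on n − 3 letters; the bound is attained by a nilpotent subgroup isomorphic to the direct product of such a Sylow 2-subgroup with a cyclic group of order 3; and any two nilpotent subgroups of the alternating group attaining the bound are conjugate in it. -/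
theorem result  (n : ℕ) (hn : n % 4 = 3) (h7 : 7 ≤ n)
    (P : Sylow 2 (alternatingGroup (Fin (n - 3)))) :
    (∀ N : Subgroup (alternatingGroup (Fin n)), Group.IsNilpotent N → Nat.card N ≤ 3 * Nat.card P) ∧
    (∃ M : Subgroup (alternatingGroup (Fin n)), Group.IsNilpotent M ∧ Nat.card M = 3 * Nat.card P ∧
      Nonempty (M ≃* (↥(P : Subgroup (alternatingGroup (Fin (n - 3)))) × Multiplicative (ZMod 3)))) ∧
    (∀ N₁ N₂ : Subgroup (alternatingGroup (Fin n)), Group.IsNilpotent N₁ → Group.IsNilpotent N₂ →
      Nat.card N₁ = 3 * Nat.card P → Nat.card N₂ = 3 * Nat.card P →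
      ∃ g : alternatingGroup (Fin n), N₂ = N₁.map (MulAut.conj g).toMonoidHom) := by
  obtain ⟨k, rfl⟩ : ∃ k, n = 4 * k + 3 := ⟨n / 4, by omega⟩
  have cP : 2 * Nat.card P = H76.NS.W (4 * k) := H76.NS.card_sylow_alt (by omega) P
  have hb : ∀ N : Subgroup (alternatingGroup (Fin (4 * k + 3))), Group.IsNilpotent N →
      Nat.card N ≤ 3 * Nat.card P := fun N hN => by
    refine (H76.NS.alt_le N hN).trans (max_le ?_ ?_)
    · rw [H76.NS.B_three]; omega
    · have : H76.NS.e (4 * k + 3) = 1 := by unfold H76.NS.e; split_ifs <;> omega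
      have : 0 < Nat.card P := Nat.card_pos
      omega
  refine ⟨hb, ?_, fun N₁ N₂ h1 h2 c1 c2 => ?_⟩
  · obtain ⟨ψ, hψ, hs⟩ := H76.NS.ex_emb (n := 4 * k + 3) (by omega)
      ((alternatingGroup _).subtype.comp P.1.subtype)
      ((Subgroup.subtype_injective _).comp (Subgroup.subtype_injective _))
    exact H76.NS.ex_sub P.isPGroup' (ψ.codRestrict (alternatingGroup _) fun x => (hs x).trans x.1.1.2)
      fun a b e => hψ (congrArg Subtype.val e)
  · obtain ⟨e, he⟩ := IsPGroup.iff_card.1 P.isPGroup'
    rw [he] at hb c1 c2 cP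
    obtain ⟨a, T, oa, t1, t2, t3, rfl⟩ := H76.NS.nil_struct h1 c1
    obtain ⟨b, U, ob, u1, u2, u3, rfl⟩ := H76.NS.nil_struct h2 c2
    have key : ∀ (c : alternatingGroup (Fin (4 * k + 3))) (T : Subgroup _), orderOf c = 3 →
        Nat.card T = 2 ^ e → T ≤ Subgroup.centralizer {c} → c.1.IsThreeCycle := fun c T o t l => by
      refine H76.NS.three_cycle (e := e) ((Subgroup.orderOf_coe c).trans o) ?_ cP.ge
      rw [← t, ← Subgroup.card_map_of_injective (Subgroup.subtype_injective _)]
      refine Subgroup.card_dvd_of_le ?_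
      rintro _ ⟨x, hx, rfl⟩
      exact Subgroup.mem_centralizer_singleton_iff.2
        (congrArg Subtype.val (Subgroup.mem_centralizer_singleton_iff.1 (l hx)))
    exact H76.NS.conj_of hb ob t1 t2 t3 u1 u2 u3
      (alternatingGroup.isThreeCycle_isConj (by simp; omega) (key a T oa t2 t3) (key b U ob u2 u3))

end Cfsg.Agent.S2256
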