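import Cfsg.Statements.S2257
import Cfsg.Agent.Base
import Cfsg.Agent.H83.Solub

set_option autoImplicit false
open Cfsg H61

namespace Cfsg.Agent.S2257

/-- Let G = PSL_2(F) with F a field of order q = 2^p, p prime, and for x ∈ G call the solubilizer of x the set of y ∈ G such that x and y generate a solvable subgroup. Then the solubilizer of an involution has 3q(q − 1) elements; that of a non-identity element of order dividing q − 1 has 2q(q − 1) elements; and that of a non-identity element of order dividing q + 1 has 2(q + 1) elements. -/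
theorem result (p : ℕ) (hp : p.Prime) {F : Type*} [Field F] [Fintype F]
    (hF : Fintype.card F = 2 ^ p) (x : Matrix.ProjectiveSpecialLinearGroup (Fin 2) F) :
    (orderOf x = 2 → Nat.card {y : Matrix.ProjectiveSpecialLinearGroup (Fin 2) F // Group.IsSolvable ↥(Subgroup.closure ({x, y} : Set (Matrix.ProjectiveSpecialLinearGroup (Fin 2) F)))} = 3 * 2 ^ p * (2 ^ p - 1)) ∧
    (x ≠ 1 → orderOf x ∣ 2 ^ p - 1 → Nat.card {y : Matrix.ProjectiveSpecialLinearGroup (Fin 2) F // Group.IsSolvable ↥(Subgroup.closure ({x, y} : Set (Matrix.ProjectiveSpecialLinearGroup (Fin 2) F)))} = 2 * 2 ^ p * (2 ^ p - 1)) ∧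
    (x ≠ 1 → orderOf x ∣ 2 ^ p + 1 → Nat.card {y : Matrix.ProjectiveSpecialLinearGroup (Fin 2) F // Group.IsSolvable ↥(Subgroup.closure ({x, y} : Set (Matrix.ProjectiveSpecialLinearGroup (Fin 2) F)))} = 2 * (2 ^ p + 1)) := by
  have hF' : Nat.card F = 2 ^ p := by rw [Nat.card_eq_fintype_card, hF]
  have he : Even (Nat.card F) := by rw [hF']; exact (Nat.even_pow' hp.ne_zero).2 even_two
  have : CharP F 2 := CharTwo.of_one_ne_zero_of_two_eq_zero one_ne_zero
    (H61.two_eq_zero_iff_even.2 he)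
  obtain ⟨y, m⟩ := H61.main_psl (F := F) 2
  rw [H61.gcd_two_of_even he Nat.card_pos.ne', Nat.div_one, Nat.div_one, hF'] at m
  have hs := H83.Sol.shape_even hp hF' x
  have hpos : 1 ≤ 2 ^ p := Nat.one_le_two_pow
  have hodd : Odd (2 ^ p + 1) := (hF' ▸ he).add_one
  have hodd' : Odd (2 ^ p - 1) := Nat.Even.sub_odd hpos (hF' ▸ he) odd_one
  have key : ∀ k, k ∣ 2 ^ p - 1 → k ∣ 2 ^ p + 1 → k = 1 := fun k h1 h2 => by
    have h3 := Nat.dvd_sub h2 h1
    rw [show 2 ^ p + 1 - (2 ^ p - 1) = 2 by omega] at h3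
    exact Nat.eq_one_of_dvd_coprimes (Nat.coprime_two_left.2 hodd) h3 h2
  have ss : x ≠ 1 → Odd (orderOf x) → x ^ 2 ≠ 1 := fun h1 h2 h3 => by
    rw [orderOf_eq_prime h3 h1] at h2
    exact absurd h2 (by decide)
  rw [H83.Sol.card_sol]
  refine ⟨fun h => ?_, fun h1 h2 => ?_, fun h1 h2 => ?_⟩
  · obtain ⟨h1, h2⟩ := H61.orderOf_eq_two_iff'.1 h
    rw [H83.Sol.even_inv m h1 h2 hs]
    ring
  · have h3 := ss h1 (hodd'.of_dvd_nat h2)
    rw [H83.Sol.sol_eq_shape (H61.hur_psl F 2) hs]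
    rcases H83.Sol.semisimple m h3 (by rwa [← sq]) with ⟨-, h⟩ | ⟨h, -⟩
    · rw [h, mul_assoc]
    · exact absurd (orderOf_eq_one_iff.1 (key _ h2 h)) h1
  · have h3 := ss h1 (hodd.of_dvd_nat h2)
    rw [H83.Sol.sol_eq_shape (H61.hur_psl F 2) hs]
    rcases H83.Sol.semisimple m h3 (by rwa [← sq]) with ⟨h, -⟩ | ⟨-, h⟩
    · exact absurd (orderOf_eq_one_iff.1 (key _ h h2)) h1
    · exact h

end Cfsg.Agent.S2257
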