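import Cfsg.Statements.S2258
import Cfsg.Agent.Base
import Cfsg.Agent.H83.Solub

set_option autoImplicit false
open Cfsg H61

namespace Cfsg.Agent.S2258

/-- Let G = PSL_2(F) with F a field of order q = 3^p, p an odd prime, and for x ∈ G call the solubilizer of x the set of y ∈ G such that x and y generate a solvable subgroup. Then the solubilizer of an involution has q(q + 1) elements; that of an element of order 3 has q(q + 5)/2 elements; that of an element of order neither 1 nor 2 dividing q − 1 has q(q − 1) elements; and that of an element of order neither 1 nor 2 dividing q + 1 has q + 1 elements. -/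
theorem result (p : ℕ) (hp : p.Prime) (hodd : Odd p) {F : Type*} [Field F] [Fintype F]
    (hF : Fintype.card F = 3 ^ p) (x : Matrix.ProjectiveSpecialLinearGroup (Fin 2) F) :
    (orderOf x = 2 → Nat.card {y : Matrix.ProjectiveSpecialLinearGroup (Fin 2) F // Group.IsSolvable ↥(Subgroup.closure ({x, y} : Set (Matrix.ProjectiveSpecialLinearGroup (Fin 2) F)))} = 3 ^ p * (3 ^ p + 1)) ∧
    (orderOf x = 3 → 2 * Nat.card {y : Matrix.ProjectiveSpecialLinearGroup (Fin 2) F // Group.IsSolvable ↥(Subgroup.closure ({x, y} : Set (Matrix.ProjectiveSpecialLinearGroup (Fin 2) F)))} = 3 ^ p * (3 ^ p + 5)) ∧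
    (x ≠ 1 → orderOf x ≠ 2 → orderOf x ∣ 3 ^ p - 1 → Nat.card {y : Matrix.ProjectiveSpecialLinearGroup (Fin 2) F // Group.IsSolvable ↥(Subgroup.closure ({x, y} : Set (Matrix.ProjectiveSpecialLinearGroup (Fin 2) F)))} = 3 ^ p * (3 ^ p - 1)) ∧
    (x ≠ 1 → orderOf x ≠ 2 → orderOf x ∣ 3 ^ p + 1 → Nat.card {y : Matrix.ProjectiveSpecialLinearGroup (Fin 2) F // Group.IsSolvable ↥(Subgroup.closure ({x, y} : Set (Matrix.ProjectiveSpecialLinearGroup (Fin 2) F)))} = 3 ^ p + 1) := by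
  have hF' : Nat.card F = 3 ^ p := by rw [Nat.card_eq_fintype_card, hF]
  have : CharP F 3 := by
    obtain ⟨r, hr, hc⟩ := H61.exists_char F
    obtain rfl := H61.eq_char_of_prime_dvd (F := F) r Nat.prime_three
      (hF' ▸ dvd_pow_self 3 hp.ne_zero)
    exact hc
  have h8 : 3 ^ p % 8 = 3 := H61.pow_odd_mod_eight (p := 3) (by decide) hodd
  have h3 : 3 ∣ 3 ^ p := dvd_pow_self 3 hp.ne_zero
  have ho : Odd (Nat.card F) := by rw [hF', Nat.odd_iff]; omega
  obtain ⟨y, m⟩ := H61.main_psl (F := F) 3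
  have hs := H83.Sol.shape_three hp hF' (by
    rw [H61.gcd_two_of_odd ho, hF', Nat.odd_iff]; omega) x
  have hm : ¬ IsSquare (-1 : F) := by
    rw [FiniteField.isSquare_neg_one_iff, hF]; omega
  have hK := fun h1 h2 => H83.Sol.count_K' hm (x := x) h1 h2
  have hJ := fun h1 h2 => H83.Sol.count_J' (x := x) h1 h2
  rw [H61.gcd_two_of_odd ho] at m
  rw [hF'] at m hK hJ
  generalize 3 ^ p = q at *
  obtain ⟨d, rfl⟩ : ∃ d, q = 2 * d + 1 := ⟨q / 2, by omega⟩
  rw [show (2 * d + 1 - 1) / 2 = d by omega, show (2 * d + 1 + 1) / 2 = d + 1 by omega] at m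
  have hd : Odd d := by rw [Nat.odd_iff]; omega
  have ss : x ≠ 1 → orderOf x ≠ 2 → ¬ 3 ∣ orderOf x → x ^ 3 ≠ 1 ∧ x * x ≠ 1 ∧
      H83.Sol.sol x = {y | H83.Sol.Shape (H61.PL F) x y} := fun h1 h2 h4 => by
    have h5 : x ^ 3 ≠ 1 := fun e => h4 (by rw [orderOf_eq_prime e h1])
    have h6 : x * x ≠ 1 := fun e => h2 (H61.orderOf_eq_two_iff'.2 ⟨h1, e⟩)
    refine ⟨h5, h6, H83.Sol.sol_eq_shape (H61.hur_psl F 3) fun y hy => (hs y hy).resolve_right ?_⟩
    rintro ⟨e⟩
    rcases H61.orderOf_dvd_of_alt4 e (H83.Sol.l_mem x y) with h | h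
    · exact h6 (by rw [← sq]; exact orderOf_dvd_iff_pow_eq_one.1 h)
    · exact h5 (orderOf_dvd_iff_pow_eq_one.1 h)
  have key : ∀ k, k ∣ 2 * d → k ∣ 2 * (d + 1) → k = 1 ∨ k = 2 := fun k h1 h2 => by
    have h3 := Nat.dvd_sub h2 h1
    rw [show 2 * (d + 1) - 2 * d = 2 by omega] at h3
    exact (Nat.dvd_prime Nat.prime_two).1 h3
  rw [H83.Sol.card_sol]
  refine ⟨fun h => ?_, fun h => ?_, fun h1 h2 h4 => ?_, fun h1 h2 h4 => ?_⟩
  · obtain ⟨h1, h2⟩ := H61.orderOf_eq_two_iff'.1 h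
    exact H83.Sol.three_inv m hd rfl rfl h1 h2 hs (hK h1 h2)
  · have h1 : x ≠ 1 := fun e => by rw [e, orderOf_one] at h; omega
    have h2 : x ^ 3 = 1 := h ▸ pow_orderOf_eq_one x
    rw [H83.Sol.three_three m (Odd.mul (odd_two_mul_add_one d) hd) h1 h2 hs (hJ h1 h2)]
    ring
  · obtain ⟨h5, h6, h7⟩ := ss h1 h2 fun h => by
      have := h.trans h4
      omega
    rw [h7]
    rcases H83.Sol.semisimple m h5 h6 with ⟨-, h⟩ | ⟨h, -⟩
    · rw [h, Nat.add_sub_cancel]; ring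
    · rcases key _ h4 (h.mul_left 2) with h | h
      · exact absurd (orderOf_eq_one_iff.1 h) h1
      · exact absurd h h2
  · obtain ⟨h5, h6, h7⟩ := ss h1 h2 fun h => by
      have := h.trans h4
      omega
    rw [h7]
    rcases H83.Sol.semisimple m h5 h6 with ⟨h, -⟩ | ⟨-, h⟩
    · rcases key _ (h.mul_left 2) h4 with h | h
      · exact absurd (orderOf_eq_one_iff.1 h) h1
      · exact absurd h h2
    · rw [h]; ring

end Cfsg.Agent.S2258
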