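import Cfsg.Statements.S2259
import Cfsg.Agent.H66.SzClass

set_option autoImplicit false
open Cfsg

namespace Cfsg.Agent.S2259

open H66

section

variable {F : Type*} [Field F] {T : Tits F} {G : Type*} [Group G] (M : Model T G) {m : ℕ}

theorem sol_iff (hT : T.IsFin m) (x y : G) :
    Group.IsSolvable (Subgroup.closure ({x, y} : Set G)) ↔
      (∃ g, x ∈ (M.conj g).B ∧ y ∈ (M.conj g).B) ∨ ∃ A : Subgroup G, IsTorus m A ∧
        x ∈ Subgroup.normalizer (A : Set G) ∧ y ∈ Subgroup.normalizer (A : Set G) := by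
  have := hT.finite
  have e : ∀ K : Subgroup G, Subgroup.closure ({x, y} : Set G) ≤ K ↔ x ∈ K ∧ y ∈ K := fun K => by
    simp [Set.insert_subset_iff]
  simp only [← e]
  constructor
  · exact fun _ => M.solvable_cases hT _
  · rintro (⟨g, h⟩ | ⟨A, hA, h⟩)
    · have := (M.conj g).isSolvable_B
      exact Group.isSolvable_of_isSolvable_injective (Subgroup.inclusion_injective h)
    · have := M.isSolvable_normalizer hT hA
      exact Group.isSolvable_of_isSolvable_injective (Subgroup.inclusion_injective h)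

/-- The part of the solubilizer coming from the conjugates of a torus. -/
def S (x : G) (A : Subgroup G) : Set G :=
  {y | y ∉ M.B ∧ ∃ g, g⁻¹ * x * g ∈ Subgroup.normalizer (A : Set G) ∧
    g⁻¹ * y * g ∈ Subgroup.normalizer (A : Set G)}

theorem torus_eq (hT : T.IsFin m) {A A' : Subgroup G} (hA : IsTorus m A) (hA' : IsTorus m A')
    {x y : G} (hx : x ∈ M.Q) (x1 : x ≠ 1) (h1 : x ∈ Subgroup.normalizer (A : Set G))
    (h2 : x ∈ Subgroup.normalizer (A' : Set G)) (h3 : y ∈ Subgroup.normalizer (A : Set G))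
    (h4 : y ∈ Subgroup.normalizer (A' : Set G)) (hy : y ∉ M.B) : A = A' := by
  by_contra h
  refine hy (M.Q_le_B (M.le_Q_of_isPGroup hT (P := Subgroup.normalizer (A : Set G) ⊓
    Subgroup.normalizer (A' : Set G)) (fun k => ⟨4, Subtype.ext ?_⟩) hx x1 ⟨h1, h2⟩ ⟨h3, h4⟩))
  by_contra e
  refine h ((M.isCC_of_isTorus hT hA).eq_of_mem (M.isCC_of_isTorus hT hA')
    (M.pow_four_mem_torus hT hA k.2.1) (M.pow_four_mem_torus hT hA' k.2.2) fun e' => e ?_)
  rw [show 2 ^ 4 = 4 * 4 from rfl, Subgroup.coe_pow, pow_mul, e', one_pow, Subgroup.coe_one]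

theorem mem_norm {A : Subgroup G} {g y : G} :
    y ∈ Subgroup.normalizer (A.map (MulAut.conj g).toMonoidHom : Set G) ↔
      g⁻¹ * y * g ∈ Subgroup.normalizer (A : Set G) := by
  rw [normalizer_map_conj, Model.mem_map_conj]

theorem ncard_S (hT : T.IsFin m) {A : Subgroup G} (hA : IsTorus m A) {x : G} (hx : x ∈ M.Q)
    (x1 : x ≠ 1) {e : ℕ} (he : Nat.card (Subgroup.normalizer (A : Set G)) = e * Nat.card A) :
    {y | y ∈ (Subgroup.normalizer (A : Set G) : Set G) ∧ IsConj x y}.ncard *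
      Nat.card (Subgroup.centralizer ({x} : Set G)) * (e * Nat.card A - e) =
      (S M x A).ncard * (e * Nat.card A) := by
  have := hT.finite
  have := M.finite
  rw [← ncard_conj_mem]
  refine ncard_mul_eq _ _ (fun g y => g⁻¹ * y * g ∈ Subgroup.normalizer (A : Set G))
    (fun g hg => ?_) fun y hy => ?_
  · have h1 := M.card_normalizer_inf_B hT (hA.map_conj g) hx x1 (mem_norm.mpr hg)
    have h2 : Nat.card (Subgroup.normalizer (A.map (MulAut.conj g).toMonoidHom : Set G)) =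
        e * Nat.card A := by rw [normalizer_map_conj, card_map_conj, he]
    rw [card_map_conj, h2] at h1
    rw [← h2, ← Nat.eq_of_mul_eq_mul_right Nat.card_pos h1, ← SetLike.coe_sort_coe,
      ← SetLike.coe_sort_coe, Nat.card_coe_set_eq, Nat.card_coe_set_eq,
      ← Set.ncard_sdiff (SetLike.coe_subset_coe.mpr inf_le_left)]
    congr 1
    ext y
    simp only [S, Set.mem_ofPred_eq, Set.mem_sdiff, SetLike.mem_coe, Subgroup.mem_inf, mem_norm]
    exact ⟨fun h => ⟨h.2, fun h' => h.1.1 h'.2⟩, fun h => ⟨⟨fun h' => h.2 ⟨h.1, h'⟩, g, hg, h.1⟩, h.1⟩⟩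
  · obtain ⟨hyB, c, h1, h2⟩ := hy
    rw [← he, ← ncard_left_coset _ c]
    congr 1
    ext g
    simp only [Set.mem_ofPred_eq, SetLike.mem_coe]
    constructor
    · rintro ⟨h3, h4⟩
      have h5 := torus_eq M hT (hA.map_conj c) (hA.map_conj g) hx x1 (mem_norm.mpr h1)
        (mem_norm.mpr h3) (mem_norm.mpr h2) (mem_norm.mpr h4) hyB
      rw [Subgroup.mem_normalizer_iff]
      intro a
      have h6 := SetLike.ext_iff.mp h5 (g * a * g⁻¹)
      simp only [Model.mem_map_conj] at h6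
      simpa [mul_assoc] using h6.symm
    · intro h
      constructor
      · simpa [mul_assoc] using mul_mem (mul_mem (inv_mem h) h1) h
      · simpa [mul_assoc] using mul_mem (mul_mem (inv_mem h) h2) h

theorem card_sol_two (hT : T.IsFin m) {x : G} (hx : x ∈ M.Q) (x1 : x ≠ 1) {A A' : Subgroup G}
    (hA : IsTorus m A) (hA' : IsTorus m A') (hc : Nat.card A = aP m) (hc' : Nat.card A' = aM m) :
    Nat.card {y // Group.IsSolvable (Subgroup.closure ({x, y} : Set G))} =
      Nat.card M.B + (S M x M.H).ncard + (S M x A).ncard + (S M x A').ncard := by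
  have := hT.finite
  have := M.finite
  have hd : ∀ A A' : Subgroup G, IsTorus m A → IsTorus m A' → Nat.card A ≠ Nat.card A' →
      Disjoint (S M x A) (S M x A') := fun A A' hA hA' h => by
    rw [Set.disjoint_left]
    rintro y ⟨hy, g, h1, h2⟩ ⟨-, g', h3, h4⟩
    have h5 := torus_eq M hT (hA.map_conj g) (hA'.map_conj g') hx x1 (mem_norm.mpr h1)
      (mem_norm.mpr h3) (mem_norm.mpr h2) (mem_norm.mpr h4) hy
    exact h (by rw [← card_map_conj A g, h5, card_map_conj])
  have hB : ∀ A, Disjoint (M.B : Set G) (S M x A) := fun A =>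
    Set.disjoint_left.mpr fun y hy hy' => hy'.1 hy
  have h1 : ∀ k, k = aP m ∨ k = aM m → Nat.card M.H ≠ k := fun k hk e => by
    have h1 := hT.coprime_sub_one.coprime_dvd_right (hT.dvd_of_torus hk)
    have h2 := hT.five_le hk
    rw [← e, M.card_H, Nat.coprime_self] at h1
    rw [← e, M.card_H] at h2
    omega
  have e : {y | Group.IsSolvable (Subgroup.closure ({x, y} : Set G))} =
      (M.B : Set G) ∪ S M x M.H ∪ S M x A ∪ S M x A' := by
    ext y
    rw [Set.mem_ofPred_eq, sol_iff M hT]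
    constructor
    · rintro (⟨g, h1, h2⟩ | ⟨C, hC, h1, h2⟩)
      · rw [Model.mem_conj_B'] at h1 h2
        rw [M.eq_inf_of_fix hx x1 h1] at h2
        exact Or.inl (Or.inl (Or.inl h2))
      · by_cases hy : y ∈ M.B
        · exact Or.inl (Or.inl (Or.inl hy))
        have key : ∀ A, IsTorus m A → Nat.card C = Nat.card A → y ∈ S M x A := fun A hA h => by
          obtain ⟨g, rfl⟩ := M.torus_conj hT hA hC.1 h
          exact ⟨hy, g, mem_norm.mp h1, mem_norm.mp h2⟩
        rcases hC.2 with h | h | h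
        · exact Or.inl (Or.inl (Or.inr (key _ (M.isTorus_H hT) (by rw [h, M.card_H, hT.card]))))
        · exact Or.inl (Or.inr (key _ hA (h.trans hc.symm)))
        · exact Or.inr (key _ hA' (h.trans hc'.symm))
    · have key : ∀ A, IsTorus m A → y ∈ S M x A → ∃ A : Subgroup G, IsTorus m A ∧
          x ∈ Subgroup.normalizer (A : Set G) ∧ y ∈ Subgroup.normalizer (A : Set G) := by
        rintro A hA ⟨-, g, h1, h2⟩
        exact ⟨_, hA.map_conj g, mem_norm.mpr h1, mem_norm.mpr h2⟩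
      rintro (((h | h) | h) | h)
      · exact Or.inl ⟨1, by simpa [Model.mem_conj_B] using M.Q_le_B hx,
          by simpa [Model.mem_conj_B] using h⟩
      exacts [Or.inr (key _ (M.isTorus_H hT) h), Or.inr (key _ hA h), Or.inr (key _ hA' h)]
  change Nat.card {y | Group.IsSolvable (Subgroup.closure ({x, y} : Set G))} = _
  rw [Nat.card_coe_set_eq, e, Set.ncard_union_eq, Set.ncard_union_eq, Set.ncard_union_eq (hB _)]
  · rfl
  · exact (hB _).union_left (hd _ _ (M.isTorus_H hT) hA (h1 _ (Or.inl hc)))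
  · exact ((hB _).union_left (hd _ _ (M.isTorus_H hT) hA' (h1 _ (Or.inr hc')))).union_left
      (hd _ _ hA hA' (by rw [hc, hc']; exact (aM_lt_aP m).ne'))

include M in
theorem card_sol_torus (hT : T.IsFin m) {x : G} (x1 : x ≠ 1) {k : ℕ} (hk : k = aP m ∨ k = aM m)
    (hx : orderOf x ∣ k) :
    Nat.card {y // Group.IsSolvable (Subgroup.closure ({x, y} : Set G))} = 4 * k := by
  have := hT.finite
  have := M.finite
  obtain ⟨A, hA, hc, hxA⟩ := M.exists_torus_mem' hT (Or.inr hk) (orderOf_dvd_iff_pow_eq_one.mp hx)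
  rw [← M.card_normalizer hT hk hA.1 hc]
  refine Nat.card_congr (Equiv.subtypeEquivRight fun y => ?_)
  rw [sol_iff M hT]
  refine ⟨?_, fun h => Or.inr ⟨A, hA, Subgroup.le_normalizer hxA, h⟩⟩
  rintro (⟨g, h1, -⟩ | ⟨C, hC, h1, h2⟩)
  · have h1 := Subgroup.orderOf_dvd_natCard _ h1
    rw [Model.card_B] at h1
    have h2 : (Nat.card F ^ 2 * (Nat.card F - 1)).Coprime (Nat.card F ^ 2 + 1) :=
      Nat.Coprime.mul_left (by simp) hT.coprime_sub_one
    exact absurd (orderOf_eq_one_iff.mp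
      (Nat.eq_one_of_dvd_coprimes h2 h1 (hx.trans (hT.dvd_of_torus hk)))) x1
  · rwa [(M.isCC_of_isTorus hT hA).eq_of_mem (M.isCC_of_isTorus hT hC) hxA
      (M.mem_torus_of_odd hT hC h1 (hA.odd.of_dvd_nat (A.orderOf_dvd_natCard hxA))) x1]

theorem card_sol_H (hT : T.IsFin m) {x : G} (x1 : x ≠ 1) (hx : x ∈ M.H) :
    Nat.card {y // Group.IsSolvable (Subgroup.closure ({x, y} : Set G))} =
      2 * Nat.card F ^ 2 * (Nat.card F - 1) := by
  have := hT.finite
  have := M.finite
  have hw : ∀ y, y ∈ (M.conj M.w).B ↔ y • M.pt 0 0 = M.pt 0 0 := fun y => by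
    rw [Model.mem_conj_B', M.w_inf]
  have e : {y | Group.IsSolvable (Subgroup.closure ({x, y} : Set G))} =
      (M.B : Set G) ∪ (M.conj M.w).B ∪ {y | y * M.w ∈ M.H} := by
    ext y
    rw [Set.mem_ofPred_eq, sol_iff M hT]
    constructor
    · rintro (⟨g, h1, h2⟩ | ⟨C, hC, h1, h2⟩)
      · rw [Model.mem_conj_B'] at h1 h2
        rcases M.fix_of_mem_H hx x1 h1 with h | h <;> rw [h] at h2
        exacts [Or.inl (Or.inl h2), Or.inl (Or.inr ((hw y).mpr h2))]
      · rw [← M.isCC_H.eq_of_mem (M.isCC_of_isTorus hT hC) hx (M.mem_torus_of_odd hT hC h1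
          ((M.isTorus_H hT).odd.of_dvd_nat (M.H.orderOf_dvd_natCard hx))) x1,
          M.mem_normalizer_H hT] at h2
        rcases h2 with ⟨k, rfl⟩ | ⟨k, rfl⟩
        · exact Or.inl (Or.inl (M.H_le_B (M.h_mem_H k)))
        · exact Or.inr (by simpa using M.h_mem_H k)
    · rintro ((h | h) | h)
      · exact Or.inl ⟨1, by simpa [Model.mem_conj_B] using M.H_le_B hx,
          by simpa [Model.mem_conj_B] using h⟩
      · exact Or.inl ⟨M.w, (hw x).mpr (M.mem_H'.mp hx).2, h⟩
      · obtain ⟨k, hk⟩ := M.mem_H.mp h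
        exact Or.inr ⟨_, M.isTorus_H hT, Subgroup.le_normalizer hx,
          (M.mem_normalizer_H hT).mpr (Or.inr ⟨k, by rw [← hk, M.mul_w_w]⟩)⟩
  have h1 := Set.ncard_union_add_ncard_inter (M.B : Set G) (M.conj M.w).B
  have h2 : (M.B : Set G) ∩ (M.conj M.w).B = M.H := by
    ext y
    simp only [Set.mem_inter_iff, SetLike.mem_coe, hw, M.mem_H', M.mem_B]
  change Nat.card {y | Group.IsSolvable (Subgroup.closure ({x, y} : Set G))} = _
  rw [Nat.card_coe_set_eq, e, Set.ncard_union_eq, ncard_right_coset]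
  · rw [h2, ← Nat.card_coe_set_eq (M.H : Set G), ← Nat.card_coe_set_eq (M.B : Set G),
      ← Nat.card_coe_set_eq ((M.conj M.w).B : Set G)] at h1
    simp only [SetLike.coe_sort_coe, Model.card_B] at h1
    rw [h1]
    ring
  · rw [Set.disjoint_left]
    intro y hy h
    obtain ⟨h3, h4⟩ := M.mem_H'.mp h
    rw [mul_smul] at h3 h4
    rcases hy with hy | hy
    · rw [M.w_pt_zero, M.mem_B.mp hy] at h4
      exact M.inf_ne_pt _ _ h4
    · rw [M.w_inf, (hw y).mp hy] at h3
      exact M.pt_ne_inf _ _ h3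

theorem arith {c a s e : ℕ} (ha : 1 ≤ a) (h : a * c * (e * a - e) = s * (e * a)) (he : 0 < e) :
    s = c * (a - 1) := by
  refine Nat.eq_of_mul_eq_mul_right (Nat.mul_pos he ha) ?_
  rw [← h, ← Nat.mul_sub_one]
  ring

include M in
theorem card_sol_sq (hT : T.IsFin m) {x : G} (hx : orderOf x = 2) :
    Nat.card {y // Group.IsSolvable (Subgroup.closure ({x, y} : Set G))} =
      Nat.card F ^ 2 * (4 * Nat.card F - 3) := by
  have := hT.finite
  have := M.finite
  obtain ⟨h2, x1⟩ := orderOf_eq_prime_iff.mp hx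
  obtain ⟨g, hg⟩ := M.exists_conj_mem_Q hT (n := 1) h2
  generalize M.conj g = M at hg
  obtain ⟨A, hA, hc, -⟩ := M.exists_torus_mem' hT (Or.inr (Or.inl rfl)) (one_pow _)
  obtain ⟨A', hA', hc', -⟩ := M.exists_torus_mem' hT (Or.inr (Or.inr rfl)) (one_pow _)
  have key : ∀ A, IsTorus m A → (S M x A).ncard = Nat.card F ^ 2 * (Nat.card A - 1) := by
    intro A hA
    rcases M.card_normalizer_torus hT hA with ⟨-, h⟩ | ⟨-, h⟩ <;>
    · have := ncard_S M hT hA hg x1 h
      rw [M.ncard_normalizer_conj_sq hT hA h2 x1, M.card_centralizer_of_sq hT h2 x1] at this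
      exact arith Nat.card_pos this (by omega)
  rw [card_sol_two M hT hg x1 hA hA' hc hc', key _ hA, key _ hA', key _ (M.isTorus_H hT), M.card_B,
    M.card_H, hc, hc', ← mul_add, ← mul_add, ← mul_add]
  have h3 := aM_add m
  have h4 := five_le_aM hT.hm
  have h5 := hT.eight_le
  rw [← hT.card] at h3
  rw [aP, ← hT.card]
  generalize 2 ^ (m + 1) = r at h3
  congr 1
  omega

include M in
theorem card_sol_four (hT : T.IsFin m) {x : G} (hx : orderOf x = 4) :
    Nat.card {y // Group.IsSolvable (Subgroup.closure ({x, y} : Set G))} =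
      Nat.card F ^ 2 * (Nat.card F + 3) := by
  have := hT.finite
  have := M.finite
  have h4 : x ^ 4 = 1 := hx ▸ pow_orderOf_eq_one x
  have h2 : x ^ 2 ≠ 1 := pow_ne_one_of_lt_orderOf two_ne_zero (by omega)
  have x1 : x ≠ 1 := fun e => h2 (by simp [e])
  obtain ⟨g, hg⟩ := M.exists_conj_mem_Q hT (n := 2) h4
  generalize M.conj g = M at hg
  obtain ⟨A, hA, hc, -⟩ := M.exists_torus_mem' hT (Or.inr (Or.inl rfl)) (one_pow _)
  obtain ⟨A', hA', hc', -⟩ := M.exists_torus_mem' hT (Or.inr (Or.inr rfl)) (one_pow _)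
  have key : ∀ A, IsTorus m A → (Nat.card A = aP m ∨ Nat.card A = aM m) →
      (S M x A).ncard = 2 * Nat.card F * (Nat.card A - 1) := by
    intro A hA hc
    have h := M.card_normalizer hT hc hA.1 rfl
    have := ncard_S M hT hA hg x1 h
    rw [M.ncard_normalizer_conj_four hT hA h h4 h2, M.card_centralizer_of_four hT h4 h2] at this
    exact arith Nat.card_pos this (by omega)
  have hH : S M x M.H = ∅ := by
    rw [Set.eq_empty_iff_forall_notMem]
    rintro y ⟨-, g, h, -⟩
    have h5 := Subgroup.orderOf_dvd_natCard _ h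
    have h6 := (MulAut.conj g⁻¹).orderOf_eq x
    rw [MulAut.conj_apply, inv_inv] at h6
    rw [M.card_normalizer_H hT, h6, hx] at h5
    obtain ⟨j, hj⟩ := hT.odd_sub_one
    omega
  rw [card_sol_two M hT hg x1 hA hA' hc hc', key _ hA (Or.inl hc), key _ hA' (Or.inr hc'), hH,
    M.card_B, hc, hc', add_assoc, ← mul_add, Set.ncard_empty]
  have h3 := aM_add m
  have h4 := five_le_aM hT.hm
  have h5 := hT.eight_le
  rw [← hT.card] at h3
  rw [aP, ← hT.card]
  generalize 2 ^ (m + 1) = r at h3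
  rw [show Nat.card F + r + 1 - 1 + (aM m - 1) = 2 * Nat.card F by omega,
    show Nat.card F + 3 = Nat.card F - 1 + 4 by omega]
  ring

end


/-- Let G be the Suzuki group Sz(q), q = 2^(2m+1) with 2m + 1 prime and m ≥ 1, realised inside Sp_4(F) for F the field of order q, write r = 2^(m+1) (so r² = 2q), and for x ∈ G call the solubilizer of x the set of y ∈ G such that x and y generate a solvable subgroup. Then the solubilizer of an involution has q²(4q − 3) elements; that of an element of order 4 has q²(q + 3) elements; that of a non-identity element of order dividing q − 1 has 2q²(q − 1) elements; that of a non-identity element of order dividing q + r + 1 has 4(q + r + 1) elements; and that of a non-identity element of order dividing q − r + 1 has 4(q − r + 1) elements. -/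
theorem result {F : Type*} [Field F] [Fintype F] {m : ℕ} (hm : 1 ≤ m)
    (hp : (2 * m + 1).Prime) (hF : Fintype.card F = 2 ^ (2 * m + 1)) (x : ↥(Cfsg.Lie.Sz F (2 ^ (m + 1)))) :
    (orderOf x = 2 → Nat.card {y : ↥(Cfsg.Lie.Sz F (2 ^ (m + 1))) // Group.IsSolvable ↥(Subgroup.closure ({x, y} : Set (↥(Cfsg.Lie.Sz F (2 ^ (m + 1))))))} = (2 ^ (2 * m + 1)) ^ 2 * (4 * 2 ^ (2 * m + 1) - 3)) ∧
    (orderOf x = 4 → Nat.card {y : ↥(Cfsg.Lie.Sz F (2 ^ (m + 1))) // Group.IsSolvable ↥(Subgroup.closure ({x, y} : Set (↥(Cfsg.Lie.Sz F (2 ^ (m + 1))))))} = (2 ^ (2 * m + 1)) ^ 2 * (2 ^ (2 * m + 1) + 3)) ∧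
    (x ≠ 1 → orderOf x ∣ 2 ^ (2 * m + 1) - 1 →
      Nat.card {y : ↥(Cfsg.Lie.Sz F (2 ^ (m + 1))) // Group.IsSolvable ↥(Subgroup.closure ({x, y} : Set (↥(Cfsg.Lie.Sz F (2 ^ (m + 1))))))} = 2 * (2 ^ (2 * m + 1)) ^ 2 * (2 ^ (2 * m + 1) - 1)) ∧
    (x ≠ 1 → orderOf x ∣ 2 ^ (2 * m + 1) + 2 ^ (m + 1) + 1 → Nat.card {y : ↥(Cfsg.Lie.Sz F (2 ^ (m + 1))) // Group.IsSolvable ↥(Subgroup.closure ({x, y} : Set (↥(Cfsg.Lie.Sz F (2 ^ (m + 1))))))} = 4 * (2 ^ (2 * m + 1) + 2 ^ (m + 1) + 1)) ∧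
    (x ≠ 1 → orderOf x ∣ 2 ^ (2 * m + 1) - 2 ^ (m + 1) + 1 → Nat.card {y : ↥(Cfsg.Lie.Sz F (2 ^ (m + 1))) // Group.IsSolvable ↥(Subgroup.closure ({x, y} : Set (↥(Cfsg.Lie.Sz F (2 ^ (m + 1))))))} = 4 * (2 ^ (2 * m + 1) - 2 ^ (m + 1) + 1)) := by
  have hT := titsOf_isFin F hm hF
  have M := modelB hT
  refine ⟨fun h => ?_, fun h => ?_, fun x1 h => ?_, fun x1 h => card_sol_torus M hT x1 (Or.inl rfl) h,
    fun x1 h => card_sol_torus M hT x1 (Or.inr rfl) h⟩
  · rw [card_sol_sq M hT h, hT.card]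
  · rw [card_sol_four M hT h, hT.card]
  · obtain ⟨A, hA, hc, hx⟩ := M.exists_torus_mem' hT (Or.inl rfl)
      (orderOf_dvd_iff_pow_eq_one.mp (hT.card ▸ h))
    obtain ⟨g, rfl⟩ := M.eq_conj_H hT hA.1 hc
    rw [card_sol_H _ hT x1 hx, hT.card]

end Cfsg.Agent.S2259
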