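import Cfsg.Statements.S2268
import Cfsg.Agent.Base

set_option autoImplicit false
open Cfsg

namespace Cfsg.Agent.S2268

/-- Let G be a finite group with an abelian Sylow p-subgroup P and let Q ≤ P. Then N_G(Q) = (N_G(Q) ∩ N_G(P))·C_G(Q), so that N_G(Q)/C_G(Q) is a homomorphic image of the subgroup (N_G(Q) ∩ N_G(P))/C_G(P) of N_G(P)/C_G(P); in particular the order of N_G(Q)/C_G(Q) divides the order of N_G(P)/C_G(P). -/
theorem result {G : Type*} [Group G] [Finite G] {p : ℕ} [Fact p.Prime]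
    (P : Sylow p G) (hP : IsMulCommutative (P : Subgroup G)) (Q : Subgroup G) (hQ : Q ≤ (P : Subgroup G)) :
    Subgroup.normalizer (Q : Set G) =
      (Subgroup.normalizer (Q : Set G) ⊓ Subgroup.normalizer ((P : Subgroup G) : Set G)) ⊔ Subgroup.centralizer (Q : Set G) ∧
    ((Subgroup.centralizer (Q : Set G)).subgroupOf (Subgroup.normalizer (Q : Set G))).index ∣ ((Subgroup.centralizer ((P : Subgroup G) : Set G)).subgroupOf (Subgroup.normalizer ((P : Subgroup G) : Set G))).index := by
  set N := Subgroup.normalizer (Q : Set G)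
  set C := Subgroup.centralizer (Q : Set G)
  set M := Subgroup.normalizer ((P : Subgroup G) : Set G)
  have hCN : C ≤ N := Subgroup.centralizer_le_normalizer _
  have h1 : (P : Subgroup G) ≤ C := fun x hx y hy => (hP.is_comm.comm ⟨y, hQ hy⟩ ⟨x, hx⟩ |> congrArg Subtype.val)
  have key : ∀ g ∈ N, ∃ c ∈ C, c * g ∈ M := by
    intro g hg
    have h2 : ((g • P : Sylow p G) : Subgroup G) ≤ C := by
      rintro - ⟨z, hz, rfl⟩ y hy
      have := h1 hz (g⁻¹ * y * g) (by simpa using (Subgroup.mem_normalizer_iff.1 (N.inv_mem hg) y).1 hy)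
      change y * (g * z * g⁻¹) = g * z * g⁻¹ * y
      calc _ = g * (g⁻¹ * y * g * z) * g⁻¹ := by group
        _ = _ := by rw [this]; group
    obtain ⟨h, hh⟩ := MulAction.exists_smul_eq C ((g • P).subtype h2) (P.subtype h1)
    simp_rw [Sylow.smul_subtype, Subgroup.smul_def, smul_smul] at hh
    exact ⟨h, h.2, Sylow.smul_eq_iff_mem_normalizer.1 (Sylow.subtype_injective hh)⟩
  have e : N = N ⊓ M ⊔ C := by
    refine le_antisymm (fun g hg => ?_) (sup_le inf_le_left hCN)
    obtain ⟨c, hc, h⟩ := key g hg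
    rw [← inv_mul_cancel_left c g]
    exact Subgroup.mul_mem _ (Subgroup.mem_sup_right (C.inv_mem hc))
      (Subgroup.mem_sup_left ⟨N.mul_mem (hCN hc) hg, h⟩)
  refine ⟨e, ?_⟩
  set D := Subgroup.centralizer ((P : Subgroup G) : Set G)
  have hDC : D ≤ C := Subgroup.centralizer_le hQ
  have hDM : D ≤ M := Subgroup.centralizer_le_normalizer _
  have hn : (C.subgroupOf N).Normal := Subgroup.normal_subgroupOf_centralizer_normalizer _
  have e2 : (N ⊓ M).subgroupOf N ⊔ C.subgroupOf N = ⊤ := by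
    rw [← Subgroup.subgroupOf_sup inf_le_left hCN, ← e, Subgroup.subgroupOf_self]
  have e3 : (C.subgroupOf N).index = C.relIndex (N ⊓ M) := by
    rw [← Subgroup.relIndex_top_right, ← e2, Subgroup.relIndex_sup_right, Subgroup.relIndex_subgroupOf inf_le_left]
  rw [e3]
  refine (Subgroup.relIndex_dvd_of_le_left _ hDC).trans ?_
  exact Dvd.intro _ (Subgroup.relIndex_mul_relIndex D (N ⊓ M) M (le_inf (hDC.trans hCN) hDM) inf_le_right)

end Cfsg.Agent.S2268
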