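import Cfsg.Statements.S2269
import Cfsg.Agent.Base
import Cfsg.Agent.H70.RealSyl

set_option autoImplicit false
open Cfsg

namespace Cfsg.Agent.S2269

/-- Let n ≥ 5 and let P be an abelian Sylow p-subgroup of the alternating group A_n. Then N(P)/C(P) (taken in A_n) has even order, or P is cyclic, except when n = 5 and p = 2, where P is a four-group and N(P)/C(P) has order 3. -/
theorem result (n : ℕ) (hn : 5 ≤ n) {p : ℕ} [Fact p.Prime]
    (P : Sylow p (alternatingGroup (Fin n))) (hP : IsMulCommutative (P : Subgroup (alternatingGroup (Fin n)))) :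
    (¬ (n = 5 ∧ p = 2) → 2 ∣ ((Subgroup.centralizer ((P : Subgroup (alternatingGroup (Fin n))) : Set (alternatingGroup (Fin n)))).subgroupOf (Subgroup.normalizer ((P : Subgroup (alternatingGroup (Fin n))) : Set (alternatingGroup (Fin n))))).index ∨ IsCyclic (P : Subgroup (alternatingGroup (Fin n)))) ∧
    ((n = 5 ∧ p = 2) → ((Subgroup.centralizer ((P : Subgroup (alternatingGroup (Fin n))) : Set (alternatingGroup (Fin n)))).subgroupOf (Subgroup.normalizer ((P : Subgroup (alternatingGroup (Fin n))) : Set (alternatingGroup (Fin n))))).index = 3 ∧ IsKleinFour (P : Subgroup (alternatingGroup (Fin n)))) := by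
  have hp' : p.Prime := Fact.out
  have : Nontrivial (Fin n) := Fin.nontrivial_iff_two_le.2 (by omega)
  refine ⟨fun h => ?_, ?_⟩
  · by_cases h2 : p = 2
    · subst h2
      have h6 : 6 ≤ n := by omega
      left
      obtain ⟨m, rfl⟩ := Nat.exists_eq_add_of_le' h6
      let a : Equiv.Perm (Fin 6) := c[0, 1, 2, 3] * c[4, 5]
      let b : Equiv.Perm (Fin 6) := c[0, 2] * c[4, 5]
      let f := Equiv.Perm.viaEmbeddingHom (Fin.castAddEmb (n := 6) m |>.trans (finCongr (Nat.add_comm 6 m)).toEmbedding)
      have hf : Function.Injective f := Equiv.Perm.viaEmbeddingHom_injective _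
      have hs : ∀ s : Equiv.Perm (Fin 6), Equiv.Perm.sign s = 1 → f s ∈ alternatingGroup (Fin (m + 6)) := fun s hs => by
        rw [Equiv.Perm.mem_alternatingGroup]
        simp only [f, Equiv.Perm.viaEmbeddingHom, Equiv.Perm.extendDomainHom_apply, Equiv.Perm.sign_extendDomain, hs]
      refine H70.two_dvd_automizer P hP (x := ⟨f a, hs a (by decide)⟩) (k := 2) ?_ (fun e => ?_) (isConj_iff.2 ⟨⟨f b, hs b (by decide)⟩, Subtype.ext ?_⟩)
      · rw [← Subgroup.orderOf_coe, orderOf_injective f hf]
        exact orderOf_eq_prime_pow (by decide) (by decide)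
      · have : f (a * a) = f 1 := by rw [map_mul, map_one]; exact congrArg Subtype.val e
        exact absurd (hf this) (by decide)
      · change f b * f a * (f b)⁻¹ = (f a)⁻¹
        rw [← map_inv, ← map_inv, ← map_mul, ← map_mul]
        exact congrArg f (by decide)
    · have ho := hp'.odd_of_ne_two h2
      by_cases h3 : p + 2 ≤ n
      · left
        obtain ⟨x, hx⟩ := (Equiv.Perm.exists_with_cycleType_iff (Fin n) (m := {p})).2
          ⟨by simp; omega, by simpa using hp'.two_le⟩
        have hx' : x ∈ alternatingGroup (Fin n) := by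
          rw [Equiv.Perm.mem_alternatingGroup, Equiv.Perm.sign_of_cycleType, hx]
          simpa using (ho.add_one).neg_one_pow
        have ho : orderOf x = p ^ 1 := by rw [← Equiv.Perm.lcm_cycleType, hx]; simp
        refine H70.two_dvd_automizer P hP (x := ⟨x, hx'⟩) (k := 1) (by rw [← Subgroup.orderOf_coe, ho]) (fun h => h2 ?_)
          (alternatingGroup.isConj_of (Equiv.Perm.isConj_iff_cycleType_eq.2 x.cycleType_inv.symm) ?_)
        · have := orderOf_dvd_of_pow_eq_one ((pow_two x).trans (congrArg Subtype.val h))
          rw [ho, pow_one] at this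
          exact (Nat.prime_dvd_prime_iff_eq hp' Nat.prime_two).1 this
        · rw [← Equiv.Perm.sum_cycleType]
          simpa [hx] using h3
      · right
        obtain ⟨k, hk⟩ := IsPGroup.iff_card.1 P.isPGroup'
        have h4 : p ^ k ∣ n.factorial := by
          rw [← hk]
          refine (Subgroup.card_subgroup_dvd_card _).trans ((Subgroup.card_subgroup_dvd_card _).trans ?_)
          rw [Nat.card_perm, Nat.card_fin]
        have h5 : k ≤ 1 := by
          have h6 := (hp'.pow_dvd_factorial_iff (n := n) (b := n + 1) (Nat.lt_succ_of_le (Nat.log_le_self _ _))).1 h4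
          by_contra hk2
          have := (hp'.dvd_iff_one_le_factorization (n := n.factorial) n.factorial_ne_zero)
          have h7 := (hp'.pow_dvd_iff_le_factorization n.factorial_ne_zero).1 h4
          rw [Nat.factorization_factorial hp' (b := 2) (Nat.log_lt_of_lt_pow' two_ne_zero (by nlinarith [hp'.two_le]))] at h7
          have : n / p < 2 := Nat.div_lt_of_lt_mul (by omega)
          simp at h7
          omega
        interval_cases k
        · exact isCyclic_of_card_dvd_prime (p := p) (by rw [hk]; simp)
        · exact isCyclic_of_card_dvd_prime (p := p) (by rw [hk]; simp)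
  · rintro ⟨rfl, rfl⟩
    have hG : Nat.card (alternatingGroup (Fin 5)) = 60 := by
      rw [nat_card_alternatingGroup, Nat.card_fin]; rfl
    have h4 : Nat.card P = 4 := by
      rw [P.card_eq_multiplicity, hG]
      rw [show (60 : ℕ) = 2 ^ 2 * 15 by rfl, Nat.factorization_mul (by simp) (by simp),
        Nat.prime_two.factorization_pow]
      simp [Nat.factorization_eq_zero_of_not_dvd (n := 15) (p := 2) (by decide)]
    refine ⟨?_, h4, ?_⟩
    · have k1 := Subgroup.card_dvd_of_injective _ (QuotientGroup.kerLift_injective
        (P : Subgroup (alternatingGroup (Fin 5))).normalizerMonoidHom)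
      rw [Subgroup.normalizerMonoidHom_ker, ← Subgroup.index] at k1
      have k2 : Nat.card (MulAut P) ∣ 24 := by
        have := Subgroup.card_dvd_of_injective (MulAut.toPerm P) (fun a b h => MulEquiv.toEquiv_injective h)
        rwa [Nat.card_perm, h4] at this
      have k3 : ¬ 2 ∣ _ := fun h => P.not_dvd_index (h.trans ((Subgroup.relIndex_dvd_of_le_left
        (Subgroup.normalizer ((P : Subgroup (alternatingGroup (Fin 5))) : Set (alternatingGroup (Fin 5))))
          (P : Subgroup (alternatingGroup (Fin 5))).le_centralizer).trans
          (Subgroup.relIndex_dvd_index_of_le Subgroup.le_normalizer)))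
      have k4 : ((Subgroup.centralizer ((P : Subgroup (alternatingGroup (Fin 5))) : Set (alternatingGroup (Fin 5)))).subgroupOf
          (Subgroup.normalizer ((P : Subgroup (alternatingGroup (Fin 5))) : Set (alternatingGroup (Fin 5))))).index ≠ 1 := fun h => by
        have h' := Subgroup.subgroupOf_eq_top.1 (Subgroup.index_eq_one.1 h)
        have c := (MonoidHom.ker_transferSylow_isComplement' P h').card_mul_card
        rcases (MonoidHom.normal_ker (MonoidHom.transferSylow P h')).eq_bot_or_eq_top with e | e
        · rw [e, h4, hG] at c; simp at c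
        · rw [e, h4, Subgroup.card_top, hG] at c; simp at c
      have k5 := k1.trans k2
      rw [Subgroup.relIndex] at k3
      generalize ((Subgroup.centralizer ((P : Subgroup (alternatingGroup (Fin 5))) : Set (alternatingGroup (Fin 5)))).subgroupOf
          (Subgroup.normalizer ((P : Subgroup (alternatingGroup (Fin 5))) : Set (alternatingGroup (Fin 5))))).index = i at *
      have := Nat.le_of_dvd (by decide) k5
      interval_cases i <;> omega
    · have : Nontrivial P := Finite.one_lt_card_iff_nontrivial.1 (by omega)
      refine (Monoid.exponent_eq_prime_iff Nat.prime_two).2 fun x hx => orderOf_eq_prime (Subtype.ext (Subtype.ext ?_)) hx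
      have k1 : x.1.1 ^ 4 = 1 := by
        have := pow_card_eq_one' (x := x)
        rw [h4] at this
        exact congrArg (fun y : P => y.1.1) this
      have k2 : Equiv.Perm.sign x.1.1 = 1 := x.1.2
      change x.1.1 ^ 2 = 1
      generalize x.1.1 = s at k1 k2
      revert s
      decide +kernel

end Cfsg.Agent.S2269
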