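import Cfsg.Statements.S2284
import Cfsg.Agent.Base
import Cfsg.Agent.H57.AltPres

set_option autoImplicit false
open Cfsg

namespace Cfsg.Agent.S2284

open H57 Equiv Equiv.Perm in
theorem cyclic {G : Type*} [Group G] [IsCyclic G] : HasPres G 2 8 := by
  obtain ⟨g, hg⟩ := IsCyclic.exists_generator (α := G)
  refine HasPres.up (k := 1) (r := 1) ⟨![g], presOn_of_pres1 ?_ ?_⟩ (by omega) (by omega)
  · rw [eq_top_iff]
    intro x _
    have : g ∈ Subgroup.closure (Set.range ![g]) := Subgroup.subset_closure ⟨0, rfl⟩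
    exact (Subgroup.zpowers_le.2 this) (hg x)
  · refine ⟨[FreeGroup.of 0 ^ orderOf g], le_rfl, by simp [pow_orderOf_eq_one],
      fun J _ ρ f hf hs _ b _ hb => ?_⟩
    have : b ∈ Subgroup.zpowers (FreeGroup.of (0 : Fin 1)) := by
      have h : b ∈ Subgroup.closure (Set.range (FreeGroup.of : Fin 1 → _)) := by
        rw [FreeGroup.closure_range_of]; trivial
      refine ((Subgroup.closure_le _).2 ?_) h
      rintro _ ⟨i, rfl⟩
      rw [Subsingleton.elim i 0]
      exact Subgroup.mem_zpowers _
    obtain ⟨k, rfl⟩ := this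
    have h1 : ρ (FreeGroup.of 0) ^ orderOf g = 1 := by simpa using hs
    have h2 : g ^ k = 1 := by simpa using hb
    obtain ⟨m, rfl⟩ := orderOf_dvd_iff_zpow_eq_one.2 h2
    simp only [map_zpow]
    rw [zpow_mul, zpow_natCast, h1, one_zpow]

open H57 Equiv Equiv.Perm in
theorem alt4 : HasPres (alternatingGroup (Fin 4)) 2 8 := by
  refine BasePres.full (α := 2) (β := 3) (s := {0, 1}) (ε := 1) (by decide) (by decide)
    (by decide) ⟨cyc 2 3 1, 0, by decide, by decide, suppIn_cyc' (by simp), ?_, ?_⟩ (by simp)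
  · intro i hi
    simp only [Finset.mem_insert, Finset.mem_singleton] at hi
    rcases hi with rfl | rfl <;> exact Subgroup.subset_closure (by simp)
  · intro C _ π A Z hA hZ
    refine ⟨[A ^ 3, Z ^ 3, (A * Z) ^ 2], by simp, ?_, fun J _ ρ f hf hs _ => ?_⟩
    · simp only [List.mem_cons, List.not_mem_nil, or_false, forall_eq_or_imp, forall_eq, map_mul,
        map_pow, hA, hZ]
      decide
    simp only [List.mem_cons, List.not_mem_nil, or_false, forall_eq_or_imp, forall_eq, map_mul,
      map_pow] at hs
    have := carm_inj' (α := 2) (β := 3) (by decide) f ![1, 0] (by decide) (by decide)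
      ![ρ A, ρ Z] (by simp [Fin.forall_fin_two, hf, hA, hZ])
      (by simp [Fin.forall_fin_two, hs.1, hs.2.1])
      (by simp [Fin.forall_fin_two, hs.2.2, mul_sq_symm hs.2.2])
    refine injOn_of_map hf this ?_
    rw [MonoidHom.map_closure, Set.image_pair, range_two]

open H57 Equiv Equiv.Perm in
theorem sym4 : HasPres (Perm (Fin 4)) 2 8 := by
  refine HasPres.congr (G := (⊤ : Subgroup (Perm (Fin 4)))) ?_ Subgroup.topEquiv
  refine BasePres.full (α := 2) (β := 3) (s := {0, 1}) (ε := -1) (by decide) (by decide)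
    (by decide) ⟨swap 0 1, 0, by decide, by decide, (suppIn_swap 0 1).mono (by rintro _ (rfl | rfl) <;> simp), ?_, ?_⟩
    (fun σ => by simpa using Int.units_eq_one_or (sign σ))
  · intro i hi
    simp only [Finset.mem_insert, Finset.mem_singleton] at hi
    rcases hi with rfl | rfl
    · exact Subgroup.subset_closure (by simp)
    · have : cyc (2 : Fin 4) 3 1 = cj (swap 0 1) (cyc 2 3 0) 1 := by decide
      rw [this]
      exact cj_mem (Subgroup.subset_closure (by simp)) (Subgroup.subset_closure (by simp)) 1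
  · intro C _ π A Z hA hZ
    refine ⟨[A * A, Z ^ 3, (Z * (A * Z * A⁻¹)) ^ 2], by simp, ?_, fun J _ ρ f hf hs _ => ?_⟩
    · simp only [List.mem_cons, List.not_mem_nil, or_false, forall_eq_or_imp, forall_eq, map_mul,
        map_pow, map_inv, hA, hZ]
      decide
    simp only [List.mem_cons, List.not_mem_nil, or_false, forall_eq_or_imp, forall_eq, map_mul,
      map_pow, map_inv] at hs
    have e : swap (0 : Fin 4) 1 * cyc 2 3 0 * swap 0 1 = cyc 2 3 1 := by decide
    have hfx : ∀ i, f (![ρ Z, ρ A * ρ Z * (ρ A)⁻¹] i) = cyc 2 3 (![0, 1] i) := by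
      simp [Fin.forall_fin_two, hf, hA, hZ, e]
    have := carm_inj' (α := 2) (β := 3) (by decide) f ![0, 1] (by decide) (by decide)
      ![ρ Z, ρ A * ρ Z * (ρ A)⁻¹] hfx
      (by simp [Fin.forall_fin_two, hs.2.1])
      (by simp [Fin.forall_fin_two, hs.2.2, mul_sq_symm hs.2.2])
    rw [range_two] at this
    refine injOn_of_map hf (inj_sup_two (t := ρ A) this (fun g hg => conj_mem_closure ?_ hg)
      (by rw [hs.1]; exact one_mem _) fun g hg e' => ?_) ?_
    · rintro _ (rfl | rfl)
      · exact Subgroup.subset_closure (by simp)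
      · have : ρ A * (ρ A * ρ Z * (ρ A)⁻¹) * (ρ A)⁻¹ = ρ A * ρ A * ρ Z * (ρ A * ρ A)⁻¹ := by group
        rw [this, hs.1]
        exact Subgroup.subset_closure (by simp)
    · have := sign_of_mem_closure_cyc (f := f) (by
        rintro _ (rfl | rfl)
        · rw [hf, hZ]; decide
        · simp only [map_mul, map_inv, hf, hZ, hA]; decide) hg
      rw [e', hf, hA] at this
      exact absurd this (by decide)
    · rw [MonoidHom.map_closure, Set.image_pair, Subgroup.closure_le]
      rintro _ (rfl | rfl)
      · exact Subgroup.mem_sup_right (Subgroup.mem_zpowers _)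
      · exact Subgroup.mem_sup_left (Subgroup.subset_closure (by simp))

open H57 Equiv Equiv.Perm in
theorem sym3 : HasPres (Perm (Fin 3)) 2 8 := by
  refine HasPres.congr (G := (⊤ : Subgroup (Perm (Fin 3)))) ?_ Subgroup.topEquiv
  refine BasePres.full (α := 1) (β := 2) (s := {0}) (ε := -1) (by decide) (by decide)
    (by decide) ⟨swap 1 2, 0, by decide, by decide, (suppIn_swap 1 2).mono (by simp), ?_, ?_⟩
    (fun σ => by simpa using Int.units_eq_one_or (sign σ))
  · intro i hi
    simp only [Finset.mem_singleton] at hi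
    rw [hi]
    exact Subgroup.subset_closure (by simp)
  · intro C _ π A Z hA hZ
    refine ⟨[A * A, Z ^ 3, A * Z * A⁻¹ * Z], by simp, ?_, fun J _ ρ f hf hs _ => ?_⟩
    · simp only [List.mem_cons, List.not_mem_nil, or_false, forall_eq_or_imp, forall_eq, map_mul,
        map_pow, map_inv, hA, hZ]
      decide
    simp only [List.mem_cons, List.not_mem_nil, or_false, forall_eq_or_imp, forall_eq, map_mul,
      map_pow, map_inv] at hs
    have := carm_inj' (α := 1) (β := 2) (by decide) f (fun _ : Unit => 0)
      (fun _ _ _ => rfl) (by decide) (fun _ => ρ Z) (by simp [hf, hZ]) (by simp [hs.2.1])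
      (by simp)
    rw [Set.range_const] at this
    refine injOn_of_map hf (inj_sup_two (t := ρ A) this (fun g hg => conj_mem_closure ?_ hg)
      (by rw [hs.1]; exact one_mem _) fun g hg e' => ?_) ?_
    · rintro _ rfl
      rw [eq_inv_of_mul_eq_one_left hs.2.2]
      exact Subgroup.inv_mem _ (Subgroup.subset_closure (by simp))
    · have := sign_of_mem_closure_cyc (f := f) (by
        rintro _ rfl
        rw [hf, hZ]; decide) hg
      rw [e', hf, hA] at this
      exact absurd this (by decide)
    · rw [MonoidHom.map_closure, Set.image_pair, Subgroup.closure_le]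
      rintro _ (rfl | rfl)
      · exact Subgroup.mem_sup_right (Subgroup.mem_zpowers _)
      · exact Subgroup.mem_sup_left (Subgroup.subset_closure (by simp))

/-- For every n, the symmetric group S_n and the alternating group A_n each have a presentation with 2 generators and at most 8 relations. -/
theorem result (n : ℕ) : (∃ rels : Finset (FreeGroup (Fin 2)), rels.card ≤ 8 ∧ Nonempty (PresentedGroup (↑rels : Set (FreeGroup (Fin 2))) ≃* Equiv.Perm (Fin n))) ∧ (∃ rels : Finset (FreeGroup (Fin 2)), rels.card ≤ 8 ∧ Nonempty (PresentedGroup (↑rels : Set (FreeGroup (Fin 2))) ≃* ↥(alternatingGroup (Fin n)))) := by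
    by_cases hn : 5 ≤ n
    · exact ⟨(H57.hasPres_perm (by simpa using hn)).2.out, (H57.hasPres_alt (by simpa using hn)).2.out⟩
    have h3 : IsCyclic (alternatingGroup (Fin 3)) := by
      have : Fact (Nat.Prime 3) := ⟨Nat.prime_three⟩
      refine isCyclic_of_prime_card (p := 3) ?_
      rw [nat_card_alternatingGroup]
      simp [Nat.factorial]
    have h2 : IsCyclic (Equiv.Perm (Fin 2)) := by
      refine isCyclic_of_prime_card (p := 2) ?_
      simp [Nat.card_eq_fintype_card, Fintype.card_perm]
    have : n = 0 ∨ n = 1 ∨ n = 2 ∨ n = 3 ∨ n = 4 := by omega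
    rcases this with rfl | rfl | rfl | rfl | rfl
    · exact ⟨cyclic.out, cyclic.out⟩
    · exact ⟨cyclic.out, cyclic.out⟩
    · exact ⟨cyclic.out, cyclic.out⟩
    · exact ⟨sym3.out, cyclic.out⟩
    · exact ⟨sym4.out, alt4.out⟩

end Cfsg.Agent.S2284
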