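import Cfsg.Statements.S2286
import Cfsg.Agent.Base
import Cfsg.Agent.H57.SL2Short

set_option autoImplicit false
open Cfsg

namespace Cfsg.Agent.S2286

/-- For every finite field F, SL_2(F) and PSL_2(F) have presentations with 3 generators and at most 9 relations; when F has characteristic 2, PSL_2(F) has a presentation with 3 generators and at most 5 relations. -/
theorem result {F : Type*} [Field F] [Fintype F] :
    (∃ rels : Finset (FreeGroup (Fin 3)), rels.card ≤ 9 ∧ Nonempty (PresentedGroup (↑rels : Set (FreeGroup (Fin 3))) ≃* Matrix.SpecialLinearGroup (Fin 2) F)) ∧ (∃ rels : Finset (FreeGroup (Fin 3)), rels.card ≤ 9 ∧ Nonempty (PresentedGroup (↑rels : Set (FreeGroup (Fin 3))) ≃* Matrix.ProjectiveSpecialLinearGroup (Fin 2) F)) ∧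
    (CharP F 2 → ∃ rels : Finset (FreeGroup (Fin 3)), rels.card ≤ 5 ∧ Nonempty (PresentedGroup (↑rels : Set (FreeGroup (Fin 3))) ≃* Matrix.ProjectiveSpecialLinearGroup (Fin 2) F)) := by
    obtain ⟨ζ, hζ⟩ := H57.exists_prim_unit F
    have h : H57.HasPres (Matrix.SpecialLinearGroup (Fin 2) F) 3 8 := ⟨_, H57.presOn_sl2 hζ⟩
    refine ⟨(h.mono (by omega)).out, h.psl.out, fun hc => ?_⟩
    have h2 : (2 : F) = 0 := CharTwo.two_eq_zero
    have h' : H57.HasPres (Matrix.SpecialLinearGroup (Fin 2) F) 3 5 :=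
      ⟨_, H57.presOn_sl2_even hζ h2⟩
    refine (h'.quot (QuotientGroup.mk' _) (QuotientGroup.mk'_surjective _) [] ?_).out
    rw [QuotientGroup.ker_mk']
    have : ({s | s ∈ ([] : List (Matrix.SpecialLinearGroup (Fin 2) F))}) = ∅ := by simp
    rw [this, Subgroup.normalClosure_empty, eq_bot_iff]
    intro A hA
    obtain ⟨r, hr, e⟩ := Matrix.SpecialLinearGroup.mem_center_iff.1 hA
    have : r = 1 := by
      rcases sq_eq_one_iff.1 (by simpa using hr : r ^ 2 = 1) with h | h
      · exact h
      · rw [h, CharTwo.neg_eq]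
    rw [Subgroup.mem_bot]
    ext1
    simp [← e, this]

end Cfsg.Agent.S2286
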