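import Cfsg.Statements.S2290
import Cfsg.Agent.Base
import Cfsg.Agent.H57.SLShort
import Cfsg.Agent.S2402
import Cfsg.Agent.S2403

set_option autoImplicit false
open Cfsg

namespace Cfsg.Agent.S2290

theorem exists_two {K : Type*} [Field K] [Fintype K] (n : ℕ) (hn : 1 ≤ n) :
    ∃ a b : Matrix.ProjectiveSpecialLinearGroup (Fin (n + 1)) K, Subgroup.closure {a, b} = ⊤ := by
  suffices ∃ a b : Matrix.SpecialLinearGroup (Fin (n + 1)) K, Subgroup.closure {a, b} ⊔
      Subgroup.center _ = ⊤ by
    obtain ⟨a, b, h⟩ := this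
    refine ⟨QuotientGroup.mk' _ a, QuotientGroup.mk' _ b, ?_⟩
    have := congrArg (Subgroup.map (QuotientGroup.mk' (Subgroup.center _))) h
    rwa [Subgroup.map_sup, Subgroup.map_top_of_surjective _ (QuotientGroup.mk'_surjective _),
      QuotientGroup.map_mk'_self, sup_bot_eq, MonoidHom.map_closure, Set.image_pair] at this
  have h01 : (0 : Fin (n + 1)) ≠ 1 := by simpa using H57.fin_ne_add_one hn 0
  let w : Matrix.SpecialLinearGroup (Fin (n + 1)) K :=
    ⟨Matrix.diagonal (H57.coxSign K n) * (finRotate (n + 1)).permMatrix K, by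
      rw [Matrix.det_mul, Matrix.det_diagonal, Matrix.det_permutation, sign_finRotate,
        Finset.prod_eq_single (Fin.last n) (f := H57.coxSign K n)
          (fun i _ h => if_neg fun e => h (Fin.ext e)) (by simp)]
      simp [H57.coxSign, ← mul_pow]⟩
  have hw : w.1 = Matrix.of (fun i j => if j.val = i.val + 1 then 1 else
      if i.val = n ∧ j.val = 0 then (-1) ^ n else 0) := by
    ext i j
    rw [Matrix.of_apply, H57.cox_eq]
    simp [w, PEquiv.toMatrix_apply, eq_comm]
  by_cases hK : 3 < Fintype.card K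
  · obtain ⟨k, hk⟩ := IsCyclic.exists_generator (α := Kˣ)
    refine ⟨_, _, S2402.result hK n hn k hk (Matrix.SpecialLinearGroup.diag2n h01 k k.ne_zero)
      (Matrix.SpecialLinearGroup.transvection h01 1) w ?_ rfl hw⟩
    rw [Matrix.SpecialLinearGroup.diag2n_coe]
    congr 1
    ext i
    have : (1 : Fin (n + 1)).val = 1 := Nat.mod_eq_of_lt (show 1 < n + 1 by omega)
    simp only [Fin.ext_iff, this, Fin.val_zero, Units.val_inv_eq_inv_val]
  · exact ⟨_, _, S2403.result (by omega) n hn (Matrix.SpecialLinearGroup.transvection h01 1) w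
      rfl hw⟩

/-- For every finite field F with q elements and n ≥ 2, with q ≥ 4 when n = 2, the simple group PSL_n(F) has a presentation with 2 generators and at most 80 relations. -/
theorem result {F : Type*} [Field F] [Fintype F] (n : ℕ) (hn : 2 ≤ n) (h2 : n = 2 → 4 ≤ Fintype.card F) :
    ∃ rels : Finset (FreeGroup (Fin 2)), rels.card ≤ 80 ∧ Nonempty (PresentedGroup (↑rels : Set (FreeGroup (Fin 2))) ≃* Matrix.ProjectiveSpecialLinearGroup (Fin n) F) := by
  obtain ⟨n, rfl⟩ : ∃ m, n = m + 1 := ⟨n - 1, by omega⟩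
  obtain ⟨a, b, h⟩ := exists_two (K := F) n (by omega)
  have : H57.HasPres (Matrix.SpecialLinearGroup (Fin (n + 1)) F) 5 23 := by
    rcases hn.eq_or_lt with e | e
    · obtain rfl : n = 1 := by omega
      obtain ⟨ζ, hζ⟩ := H57.exists_prim_unit F
      exact H57.HasPres.up ⟨_, H57.presOn_sl2 hζ⟩ (by omega) (by omega)
    · exact (H57.hasPres_sl F e).1
  exact H57.HasPres.out ⟨_, (this.psl.two a b h).mono (by omega)⟩

end Cfsg.Agent.S2290
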