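import Cfsg.Statements.S2292
import Cfsg.Agent.Base
import Cfsg.Agent.H57.HyperGen
import Cfsg.Agent.S2411

set_option autoImplicit false
open Cfsg

namespace Cfsg.Agent.S2292

/-- Let F be a finite field with q elements and m ≥ 2 with (m, q) ≠ (2, 2). Then the simple group PSp_2m(F) has a presentation with 2 generators and at most 80 relations. -/
theorem result {F : Type*} [Field F] [Fintype F] (m : ℕ) (hm : 2 ≤ m) (h22 : ¬ (m = 2 ∧ Fintype.card F = 2)) :
    ∃ rels : Finset (FreeGroup (Fin 2)), rels.card ≤ 80 ∧ Nonempty (PresentedGroup (↑rels : Set (FreeGroup (Fin 2))) ≃* Cfsg.PSp m F) := by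
    obtain ⟨a, b, h⟩ := S2411.result (F := F) m hm fun e => by
      have := Fintype.one_lt_card (α := F)
      omega
    rcases hm.eq_or_lt with rfl | hm'
    · obtain ⟨ζ, hζ⟩ := H57.exists_prim_unit F
      exact H57.HasPres.out ⟨_, ((H57.hasPres_sp F le_rfl (k := 3) ⟨_, H57.presOn_sl2 hζ⟩).2.two a b
        h).mono (by omega)⟩
    · exact H57.HasPres.out ⟨_, ((H57.hasPres_sp F hm (H57.hasPres_sl F hm').2).2.two a b
        h).mono (by omega)⟩

end Cfsg.Agent.S2292
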