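import Cfsg.Statements.S2295
import Cfsg.Agent.Base
import Cfsg.Agent.H57.Dn4

set_option autoImplicit false
open Cfsg

namespace Cfsg.Agent.S2295

/-- Let F be a finite field and n ≥ 4, and let Ω⁺_2n(F) be the commutator subgroup of the orthogonal group of the hyperbolic quadratic form Σ x_i y_i, with PΩ⁺_2n(F) its central quotient. Then Ω⁺_2n(F) has a presentation with 8 generators and at most 31 relations (at most 29 if n = 4 or 5), and PΩ⁺_2n(F) one with 8 generators and at most 32 relations (at most 30 if n = 4 or 5). -/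
theorem result {F : Type*} [Field F] [Fintype F] (n : ℕ) (hn : 4 ≤ n) :
    (∃ rels : Finset (FreeGroup (Fin 8)), rels.card ≤ 31 ∧ Nonempty (PresentedGroup (↑rels : Set (FreeGroup (Fin 8))) ≃* ↥(Cfsg.Omega F (Cfsg.quadFormPlus n F)))) ∧ (∃ rels : Finset (FreeGroup (Fin 8)), rels.card ≤ 32 ∧ Nonempty (PresentedGroup (↑rels : Set (FreeGroup (Fin 8))) ≃* Cfsg.POmega F (Cfsg.quadFormPlus n F))) ∧
    (n ≤ 5 → (∃ rels : Finset (FreeGroup (Fin 8)), rels.card ≤ 29 ∧ Nonempty (PresentedGroup (↑rels : Set (FreeGroup (Fin 8))) ≃* ↥(Cfsg.Omega F (Cfsg.quadFormPlus n F)))) ∧ (∃ rels : Finset (FreeGroup (Fin 8)), rels.card ≤ 30 ∧ Nonempty (PresentedGroup (↑rels : Set (FreeGroup (Fin 8))) ≃* Cfsg.POmega F (Cfsg.quadFormPlus n F)))) := by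
    obtain ⟨n, rfl⟩ := Nat.exists_eq_add_of_le' hn
    have h5 : n + 4 ≤ 5 → H57.HasPres (Cfsg.Omega F (Cfsg.quadFormPlus (n + 4) F)) 8 29 ∧
        H57.HasPres (Cfsg.POmega F (Cfsg.quadFormPlus (n + 4) F)) 8 30 := fun h => by
      obtain rfl | rfl : n = 0 ∨ n = 1 := by omega
      · exact (H57.hasPres_omegaPlus F (H57.hasPres_sl4 F)).imp (·.up (by simp) (by simp))
          (·.up (by simp) (by simp))
      · exact (H57.hasPres_omegaPlus F (n := 1) (H57.hasPres_sl5 F)).imp (·.up (by simp) (by simp))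
          (·.up (by simp) (by simp))
    rw [← and_assoc]
    refine ⟨?_, fun h => (h5 h).imp (·.out) (·.out)⟩
    by_cases h : n = 0
    · exact (h5 (by omega)).imp (fun h => (h.mono (by omega)).out) fun h => (h.mono (by omega)).out
    · exact (H57.hasPres_omegaPlus F (H57.hasPres_sl F (by omega)).1).imp
        (fun h' => (h'.up (by simp) (by simp [h])).out) fun h' => (h'.up (by simp) (by simp [h])).out

end Cfsg.Agent.S2295
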