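import Cfsg.Statements.S2299
import Cfsg.Agent.Base
import Cfsg.Agent.H33.SL2Count

set_option autoImplicit false
open Cfsg

namespace Cfsg.Agent.S2299

/-- Over a finite field F with q elements, q odd, every irreducible complex character of SL₂ has degree 1, q, q + 1, q − 1, (q + 1)/2 or (q − 1)/2; and when q ≥ 5 (so that these six numbers are distinct) there are exactly one irreducible character of degree 1, one of degree q, (q − 3)/2 of degree q + 1, (q − 1)/2 of degree q − 1, two of degree (q + 1)/2 and two of degree (q − 1)/2. -/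
theorem result {F : Type*} [Field F] [Fintype F] (hodd : Odd (Fintype.card F)) :
    (∀ χ : Matrix.SpecialLinearGroup (Fin 2) F → ℂ, Cfsg.IsIrrCharacter (Matrix.SpecialLinearGroup (Fin 2) F) χ →
      χ 1 = 1 ∨ χ 1 = (Fintype.card F : ℂ) ∨ χ 1 = (Fintype.card F : ℂ) + 1 ∨ χ 1 = (Fintype.card F : ℂ) - 1 ∨
        χ 1 = (((Fintype.card F + 1) / 2 : ℕ) : ℂ) ∨ χ 1 = (((Fintype.card F - 1) / 2 : ℕ) : ℂ)) ∧
    (5 ≤ Fintype.card F →
      Nat.card {χ : Cfsg.IrrCharacter (Matrix.SpecialLinearGroup (Fin 2) F) // (χ : Matrix.SpecialLinearGroup (Fin 2) F → ℂ) 1 = 1} = 1 ∧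
      Nat.card {χ : Cfsg.IrrCharacter (Matrix.SpecialLinearGroup (Fin 2) F) // (χ : Matrix.SpecialLinearGroup (Fin 2) F → ℂ) 1 = (Fintype.card F : ℂ)} = 1 ∧
      Nat.card {χ : Cfsg.IrrCharacter (Matrix.SpecialLinearGroup (Fin 2) F) // (χ : Matrix.SpecialLinearGroup (Fin 2) F → ℂ) 1 = (Fintype.card F : ℂ) + 1} = (Fintype.card F - 3) / 2 ∧
      Nat.card {χ : Cfsg.IrrCharacter (Matrix.SpecialLinearGroup (Fin 2) F) // (χ : Matrix.SpecialLinearGroup (Fin 2) F → ℂ) 1 = (Fintype.card F : ℂ) - 1} = (Fintype.card F - 1) / 2 ∧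
      Nat.card {χ : Cfsg.IrrCharacter (Matrix.SpecialLinearGroup (Fin 2) F) // (χ : Matrix.SpecialLinearGroup (Fin 2) F → ℂ) 1 = (((Fintype.card F + 1) / 2 : ℕ) : ℂ)} = 2 ∧
      Nat.card {χ : Cfsg.IrrCharacter (Matrix.SpecialLinearGroup (Fin 2) F) // (χ : Matrix.SpecialLinearGroup (Fin 2) F → ℂ) 1 = (((Fintype.card F - 1) / 2 : ℕ) : ℂ)} = 2) := by
  classical
  obtain ⟨e, he⟩ := H33.exists_isEll (F := F)
  have h3 := Nat.odd_iff.1 hodd
  refine ⟨fun χ hχ => ?_, fun hq => ⟨H33.card_deg_one (by omega), H33.card_deg_q, ?_, ?_,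
    H33.card_deg_half_add hodd (by omega), H33.card_deg_half_sub hodd (by omega)⟩⟩
  · rcases H33.sl2_cases_deg he hχ with h | h | h | h | h | h
    · exact .inl h.2
    · exact .inr (.inl h.2)
    · exact .inr (.inr (.inl h.2))
    · exact .inr (.inr (.inr (.inl h.2)))
    · exact .inr (.inr (.inr (.inr (.inl
        (by linear_combination h.2 / 2 - H33.cast_half_add hodd / 2)))))
    · exact .inr (.inr (.inr (.inr (.inr
        (by linear_combination h.2 / 2 - H33.cast_half_sub hodd / 2)))))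
  · have h1 := H33.card_rsSet (F := F)
    rw [Nat.gcd_eq_right (by omega)] at h1
    rw [H33.card_deg_q_add]; omega
  · have h1 := H33.card_cuspSSet he
    rw [Nat.gcd_eq_right (by omega)] at h1
    rw [H33.card_deg_q_sub he (by omega)]; omega

end Cfsg.Agent.S2299
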