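import Cfsg.Statements.S2300
import Cfsg.Agent.Base
import Cfsg.Agent.H33.SL2Count

set_option autoImplicit false
open Cfsg

namespace Cfsg.Agent.S2300

/-- Over a finite field F with q elements, q even, every irreducible complex character of SL₂ has degree 1, q − 1, q or q + 1; and when q ≥ 4 (so that these four numbers are distinct) there are exactly one irreducible character of degree 1, one of degree q, (q − 2)/2 of degree q + 1 and q/2 of degree q − 1. -/
theorem result {F : Type*} [Field F] [Fintype F] [CharP F 2] :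
    (∀ χ : Matrix.SpecialLinearGroup (Fin 2) F → ℂ, Cfsg.IsIrrCharacter (Matrix.SpecialLinearGroup (Fin 2) F) χ →
      χ 1 = 1 ∨ χ 1 = (Fintype.card F : ℂ) - 1 ∨ χ 1 = (Fintype.card F : ℂ) ∨ χ 1 = (Fintype.card F : ℂ) + 1) ∧
    (4 ≤ Fintype.card F →
      Nat.card {χ : Cfsg.IrrCharacter (Matrix.SpecialLinearGroup (Fin 2) F) // (χ : Matrix.SpecialLinearGroup (Fin 2) F → ℂ) 1 = 1} = 1 ∧
      Nat.card {χ : Cfsg.IrrCharacter (Matrix.SpecialLinearGroup (Fin 2) F) // (χ : Matrix.SpecialLinearGroup (Fin 2) F → ℂ) 1 = (Fintype.card F : ℂ)} = 1 ∧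
      Nat.card {χ : Cfsg.IrrCharacter (Matrix.SpecialLinearGroup (Fin 2) F) // (χ : Matrix.SpecialLinearGroup (Fin 2) F → ℂ) 1 = (Fintype.card F : ℂ) + 1} = (Fintype.card F - 2) / 2 ∧
      Nat.card {χ : Cfsg.IrrCharacter (Matrix.SpecialLinearGroup (Fin 2) F) // (χ : Matrix.SpecialLinearGroup (Fin 2) F → ℂ) 1 = (Fintype.card F : ℂ) - 1} = Fintype.card F / 2) := by
  classical
  obtain ⟨e, he⟩ := H33.exists_isEll (F := F)
  have hF : ringChar F = 2 := ringChar.eq F 2
  have h3 := FiniteField.even_card_iff_char_two.1 hF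
  refine ⟨fun χ hχ => ?_, fun hq => ⟨H33.card_deg_one hq, H33.card_deg_q, ?_, ?_⟩⟩
  · rcases H33.sl2_cases_deg he hχ with h | h | h | h | h | h
    · exact .inl h.2
    · exact .inr (.inr (.inl h.2))
    · exact .inr (.inr (.inr h.2))
    · exact .inr (.inl h.2)
    · exact (h.1.1 hF).elim
    · exact (h.1.1 hF).elim
  · have h1 := H33.card_rsSet (F := F)
    rw [Nat.Coprime.gcd_eq_one (by rw [Nat.coprime_two_right, Nat.odd_iff]; omega)] at h1
    rw [H33.card_deg_q_add]; omega
  · have h1 := H33.card_cuspSSet he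
    rw [Nat.Coprime.gcd_eq_one (by rw [Nat.coprime_two_right, Nat.odd_iff]; omega)] at h1
    rw [H33.card_deg_q_sub he hq]; omega

end Cfsg.Agent.S2300
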