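import Cfsg.Statements.S2332
import Cfsg.Agent.H2.MDSL3
import Cfsg.Agent.H30.PermChar
import Cfsg.Agent.H30.ClassSum
import Cfsg.Agent.H59.RepHeis
import Cfsg.Agent.H57.SLGen

set_option autoImplicit false
open Cfsg

namespace Cfsg.Agent.S2332

/-- Smallest degree of a non-linear irreducible complex representation of SL_n over a finite field with q elements, for n ≥ 3 and (n, q) not one of (3, 2), (3, 4), (4, 2), (4, 3): every irreducible complex representation of SL_n(F) of degree at least 2 has degree at least (q^n − q)/(q − 1), and there is an irreducible complex representation of exactly that degree. -/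
theorem result {F : Type*} [Field F] [Fintype F] [DecidableEq F] (n : ℕ) (hn : 3 ≤ n)
    (hex : (n, Fintype.card F) ≠ (3, 2) ∧ (n, Fintype.card F) ≠ (3, 4) ∧ (n, Fintype.card F) ≠ (4, 2) ∧ (n, Fintype.card F) ≠ (4, 3)) :
    (∀ (k : ℕ) (ρ : Representation ℂ (Matrix.SpecialLinearGroup (Fin n) F) (Fin k → ℂ)), ρ.IsIrreducible → 2 ≤ k → (Fintype.card F ^ n - Fintype.card F) / (Fintype.card F - 1) ≤ k) ∧
    (∃ ρ : Representation ℂ (Matrix.SpecialLinearGroup (Fin n) F) (Fin ((Fintype.card F ^ n - Fintype.card F) / (Fintype.card F - 1)) → ℂ), ρ.IsIrreducible) := by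
    classical
    refine ⟨fun k ρ hρ hk => ?_, ?_⟩
    · let e := Matrix.SpecialLinearGroup.toLin'_equiv (n := Fin n) (R := F)
      let R : SpecialLinearGroup F (Fin n → F) →* Module.End ℂ (Fin k → ℂ) :=
        MonoidHom.comp ρ e.symm.toMonoidHom
      have hR : ∀ g, R (e g) = ρ g := fun g => by simp [R]
      have hψ : AddChar.FiniteField.primitiveChar_to_Complex F ≠ 1 := by
        have := AddChar.FiniteField.primitiveChar_to_Complex_isPrimitive F one_ne_zero
        simpa using this
      obtain ⟨i, j, hij, c, hc⟩ : ∃ (i j : Fin n) (hij : i ≠ j) (c : F),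
          ρ (Matrix.SpecialLinearGroup.transvection hij c) ≠ 1 := by
        by_contra h
        push Not at h
        obtain ⟨g, hg⟩ := H59.exists_ne_one_of_irreducible ρ (by simpa using hk)
        exact hg (H57.sl_transvection_induction (fun g => ρ g = 1) (map_one ρ) h
          (fun A B hA hB => by rw [map_mul, hA, hB, mul_one]) g)
      have h0 : (c • LinearMap.proj j : Module.Dual F (Fin n → F)) (Pi.single i 1) = 0 := by
        simp [hij.symm]
      have h1 : H2.MD.tv (c • LinearMap.proj j : Module.Dual F (Fin n → F)) (Pi.single i 1) =
          e (Matrix.SpecialLinearGroup.transvection hij c) := by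
        refine H2.MD.sl_ext fun x => ?_
        rw [H2.MD.tv_apply h0]
        show _ = Matrix.mulVec (1 + Matrix.single i j c) x
        rw [Matrix.add_mulVec, Matrix.one_mulVec, Matrix.single_mulVec]
        congr 1
        ext l
        by_cases hl : l = i
        · simp [hl]
        · simp [hl]
      have := H2.MD.sl_bound (R := R) hψ (by simpa using hn)
        (by simpa [Nat.card_eq_fintype_card] using hex)
        (fun T hT => H30.exists_scalar_of_commute ρ T fun g => by
          have := hT (e g)
          rw [hR] at this
          exact this.symm) h0 (by rwa [h1, hR])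
      simpa [Nat.card_eq_fintype_card] using this
    · have hq : 2 ≤ Fintype.card F := Fintype.one_lt_card
      have hc := Projectivization.card' F (Fin n → F)
      simp only [Nat.card_eq_fintype_card, Fintype.card_pi, Finset.prod_const, Finset.card_univ,
        Fintype.card_fin] at hc
      have h3 : Fintype.card F ^ 3 ≤ Fintype.card F ^ n := Nat.pow_le_pow_right (by omega) hn
      have hN : 2 ≤ Nat.card (Projectivization F (Fin n → F)) := by
        by_contra h
        have h4 : Nat.card (Projectivization F (Fin n → F)) * (Fintype.card F - 1) ≤
          1 * (Fintype.card F - 1) := Nat.mul_le_mul_right _ (by omega)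
        have h5 : Fintype.card F < Fintype.card F ^ 3 := by
          calc Fintype.card F = Fintype.card F ^ 1 := (pow_one _).symm
            _ < _ := Nat.pow_lt_pow_right (by omega) (by omega)
        omega
      have : Nontrivial (Projectivization F (Fin n → F)) := Finite.one_lt_card_iff_nontrivial.1 hN
      have : MulAction.IsPretransitive (Matrix.SpecialLinearGroup (Fin n) F)
          (Projectivization F (Fin n → F)) := MulAction.isPretransitive_of_is_two_pretransitive
      obtain ⟨k, ρ, hρ, hχ⟩ := (H30.isIrr_fixChar_sub_one_iff
        (G := Matrix.SpecialLinearGroup (Fin n) F) (Projectivization F (Fin n → F))).2 inferInstance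
      have h1 := congrFun hχ 1
      simp only [Representation.char_one, Module.finrank_fin_fun, Pi.sub_apply,
        H30.fixChar_one] at h1
      have h2 : k + 1 = Nat.card (Projectivization F (Fin n → F)) := by
        rw [eq_sub_iff_add_eq] at h1
        exact_mod_cast h1
      have h4 : (Fintype.card F ^ n - Fintype.card F) / (Fintype.card F - 1) = k := by
        rw [hc, ← h2]
        refine Nat.div_eq_of_eq_mul_left (by omega) ?_
        rw [add_mul]
        omega
      rw [h4]
      exact ⟨ρ, hρ⟩

end Cfsg.Agent.S2332
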