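import Cfsg.Statements.S2338
import Cfsg.Agent.S1055
import Cfsg.Agent.H63.AdMat
import Cfsg.Agent.H65.MatOK
import Cfsg.Agent.H65.CommG2
import Cfsg.Agent.H65.MG3
import Cfsg.Agent.H65.MG5

set_option autoImplicit false
open Cfsg

namespace Cfsg.Agent.S2338

/-- Lower bounds for the degrees of non-linear irreducible complex representations of the Chevalley group of type G₂ over a finite field with q elements: the degree is at least q³ + 1 when q ≡ 1 (mod 3) and q > 4, at least q³ − 1 when q ≡ 2 (mod 3) and q > 2, and at least q⁴ + q² + 1 when q ≡ 0 (mod 3) and q > 3. -/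
theorem result {F : Type*} [Field F] [Fintype F] (k : ℕ) (ρ : Representation ℂ (Cfsg.Lie.chevG2.group F) (Fin k → ℂ)) (hρ : ρ.IsIrreducible) (hk : 2 ≤ k) :
    (Fintype.card F % 3 = 1 → 4 < Fintype.card F → Fintype.card F ^ 3 + 1 ≤ k) ∧
    (Fintype.card F % 3 = 2 → 2 < Fintype.card F → Fintype.card F ^ 3 - 1 ≤ k) ∧
    (Fintype.card F % 3 = 0 → 3 < Fintype.card F → Fintype.card F ^ 4 + Fintype.card F ^ 2 + 1 ≤ k) := by
  classical
  have := H65.tabG2
  have := H65.commG2
  have hk' : Module.finrank ℂ (Fin k → ℂ) = k := by simp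
  have h : 2 < Fintype.card F → H65.MG.Cx (H63.xG Cfsg.Lie.chevG2 F) ρ
      (AddChar.FiniteField.primitiveChar_to_Complex F) := fun h2 => by
    obtain ⟨a, a0, a1⟩ := H65.MG.exists_pow_ne (F := F) (n := 1) (by omega) h2
    exact ⟨H63.ad_xG (H65.matOK _ F), (Cfsg.Agent.S1055.result ⟨a, a0, by simpa using a1⟩).1, hρ, hk'.symm ▸ hk,
      by simpa using AddChar.FiniteField.primitiveChar_to_Complex_isPrimitive F one_ne_zero⟩
  obtain ⟨p, hp, n, pp, hn⟩ := FiniteField.card' F
  have h3 : (3 : F) = 0 ↔ Fintype.card F % 3 = 0 := by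
    rw [← Nat.dvd_iff_mod_eq_zero, hn, ← Nat.cast_ofNat, CharP.cast_eq_zero_iff F p,
      Nat.prime_dvd_prime_iff_eq pp Nat.prime_three]
    exact ⟨fun e => e ▸ dvd_pow_self _ n.2.ne', fun e =>
      ((Nat.prime_dvd_prime_iff_eq Nat.prime_three pp).1 (Nat.prime_three.dvd_of_dvd_pow e)).symm⟩
  refine ⟨fun e h4 => ?_, fun e h4 => hk' ▸ (h h4).boundA (mt h3.1 (by omega)) (by omega), fun e h4 => ?_⟩
  · have : Fact (Nat.Prime 3) := ⟨Nat.prime_three⟩
    obtain ⟨ω, hω⟩ := exists_prime_orderOf_dvd_card (G := Fˣ) 3 (by rw [Fintype.card_units]; omega)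
    exact hk' ▸ (h (by omega)).boundB (mt h3.1 (by omega)) h4 (ω := ω)
      (fun e => by rw [Units.val_eq_one.1 e, orderOf_one] at hω; omega)
      (by rw [← Units.val_pow_eq_pow_val, ← hω, pow_orderOf_eq_one, Units.val_one])
  · refine hk' ▸ (h (by omega)).boundC (h3.2 e) ?_
    obtain rfl : p = 3 := ((Nat.prime_dvd_prime_iff_eq Nat.prime_three pp).1 (Nat.prime_three.dvd_of_dvd_pow
      (hn ▸ Nat.dvd_of_mod_eq_zero e))).symm
    rw [hn] at h4 ⊢
    exact Nat.pow_le_pow_right (n := 3) (i := 2) (by omega)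
      ((Nat.pow_lt_pow_iff_right (a := 3) (n := 1) (by omega)).1 h4)

end Cfsg.Agent.S2338
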