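import Cfsg.Statements.S2344
import Cfsg.Agent.H2.MDO9

set_option autoImplicit false
open Cfsg

namespace Cfsg.Agent.S2344

/-- For a finite field F of odd order q > 3 and n ≥ 3, every irreducible complex representation of degree at least 2 of Ω_{2n+1}(F) (the commutator subgroup of the isometry group of the quadratic form x₀² + x₁y₁ + ⋯ + x_ny_n) has degree at least (q^{2n} − 1)/(q² − 1). -/
theorem result {F : Type*} [Field F] [Fintype F] (n : ℕ) (hn : 3 ≤ n) (hodd : Odd (Fintype.card F)) (h3 : 3 < Fintype.card F) :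
    (∀ (k : ℕ) (ρ : Representation ℂ (Cfsg.Omega F (Cfsg.quadFormOdd n F)) (Fin k → ℂ)), ρ.IsIrreducible → 2 ≤ k → (Fintype.card F ^ (2 * n) - 1) / (Fintype.card F ^ 2 - 1) ≤ k) := by
  
      intro k ρ hρ hk
      obtain ⟨r, rfl⟩ : ∃ r, n = r + 3 := ⟨n - 3, by omega⟩
      have h2 : (2 : F) ≠ 0 := Ring.two_ne_zero fun h => by
        have := FiniteField.even_card_iff_char_two.1 h
        rw [Nat.odd_iff] at hodd
        omega
      have hQ := H58.qOdd_nondeg (r + 3) h2
      have hN : Module.finrank F (Unit ⊕ (Fin (r + 3) ⊕ Fin (r + 3)) → F) = 2 * (r + 3) + 1 := by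
        simp; omega
      obtain ⟨R, hR⟩ := H2.MD.transfer _ (H58.coe_qOdd (r + 3) F) hQ (by omega) ρ hρ
      have h := H2.MD.odd_bound hQ (H2.MD.psi_ne_one F) hN (by
        rw [H2.MD.zc, Nat.card_eq_fintype_card (α := F)]
        exact H58.card_zero_qOddc (r + 3) one_ne_zero) (by rwa [Nat.card_eq_fintype_card])
        (by rwa [Nat.card_eq_fintype_card]) (H59.exists_ne_one_of_irreducible R (by simpa using hk))
      rw [Nat.card_eq_fintype_card, Module.finrank_fin_fun] at h
      refine Nat.div_le_of_le_mul ?_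
      have h4 : 1 ≤ Fintype.card F ^ (2 * (r + 3)) := Nat.one_le_pow _ _ (by omega)
      have h5 : 1 ≤ Fintype.card F ^ 2 := Nat.one_le_pow _ _ (by omega)
      zify [h4, h5]
      linarith

end Cfsg.Agent.S2344
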