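import Cfsg.Statements.S2345
import Cfsg.Agent.H2.MDO10

set_option autoImplicit false
open Cfsg

namespace Cfsg.Agent.S2345

/-- For a finite field F with q > 3 elements and n ≥ 4, every irreducible complex representation of degree at least 2 of Ω⁺_{2n}(F) (the commutator subgroup of the isometry group of the hyperbolic quadratic form x₁y₁ + ⋯ + x_ny_n) has degree at least (q^n − 1)(q^{n−1} + q)/(q² − 1). -/
theorem result {F : Type*} [Field F] [Fintype F] (n : ℕ) (hn : 4 ≤ n) (h3 : 3 < Fintype.card F) :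
    (∀ (k : ℕ) (ρ : Representation ℂ (Cfsg.Omega F (Cfsg.quadFormPlus n F)) (Fin k → ℂ)), ρ.IsIrreducible → 2 ≤ k → (Fintype.card F ^ n - 1) * (Fintype.card F ^ (n - 1) + Fintype.card F) / (Fintype.card F ^ 2 - 1) ≤ k) := by
  
      intro k ρ hρ hk
      obtain ⟨r, rfl⟩ : ∃ r, n = r + 4 := ⟨n - 4, by omega⟩
      have hQ := H58.qPlus_nondeg (r + 4) F
      have hN : Module.finrank F (Fin (r + 4) ⊕ Fin (r + 4) → F) = 2 * (r + 4) := by
        simp; omega
      obtain ⟨R, hR⟩ := H2.MD.transfer _ (H58.coe_qPlus (r + 4) F) hQ (by omega) ρ hρ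
      have h1 : Fintype.card F ^ (r + 3) ≤ Fintype.card F ^ (r + 4) :=
        Nat.pow_le_pow_right (by omega) (by omega)
      have h := H2.MD.plus_bound hQ (H2.MD.psi_ne_one F) hN (H58.frame_qPlus F (r + 4)) (by
        rw [H2.MD.zc, H58.card_zero_qPlus' (by omega), Nat.card_eq_fintype_card,
          show 2 * (r + 4) - 1 = 2 * r + 7 by omega, show r + 4 - 1 = r + 3 by omega]
        omega) (by rwa [Nat.card_eq_fintype_card]) (R := R) (by simpa using hk)
      rw [Nat.card_eq_fintype_card, Module.finrank_fin_fun] at h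
      refine Nat.div_le_of_le_mul ?_
      have h4 : 1 ≤ Fintype.card F ^ (r + 4) := Nat.one_le_pow _ _ (by omega)
      have h5 : 1 ≤ Fintype.card F ^ 2 := Nat.one_le_pow _ _ (by omega)
      rw [show r + 4 - 1 = r + 3 by omega]
      zify [h4, h5]
      linarith

end Cfsg.Agent.S2345
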