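import Cfsg.Statements.S2346
import Cfsg.Agent.H2.MDO7

set_option autoImplicit false
open Cfsg

namespace Cfsg.Agent.S2346

/-- For a finite field F with q elements, n ≥ 4, and a, b ∈ F with z₁² + a z₁z₂ + b z₂² anisotropic, every irreducible complex representation of degree at least 2 of Ω⁻_{2n}(F) (the commutator subgroup of the isometry group of x₁y₁ + ⋯ + x_{n−1}y_{n−1} + z₁² + a z₁z₂ + b z₂²) has degree at least (q^n + 1)(q^{n−1} − q)/(q² − 1). -/
theorem result {F : Type*} [Field F] [Fintype F] (n : ℕ) (hn : 4 ≤ n) (a b : F) (hab : ∀ z₁ z₂ : F, z₁ ^ 2 + a * z₁ * z₂ + b * z₂ ^ 2 = 0 → z₁ = 0 ∧ z₂ = 0) :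
    (∀ (k : ℕ) (ρ : Representation ℂ (Cfsg.Omega F (Cfsg.quadFormMinus (n - 1) F a b)) (Fin k → ℂ)), ρ.IsIrreducible → 2 ≤ k → (Fintype.card F ^ n + 1) * (Fintype.card F ^ (n - 1) - Fintype.card F) / (Fintype.card F ^ 2 - 1) ≤ k) := by
  
      intro k ρ hρ hk
      obtain ⟨r, rfl⟩ : ∃ r, n = r + 4 := ⟨n - 4, by omega⟩
      have hQ := H58.qMinus_nondeg (r + 4 - 1) hab
      have hN : Module.finrank F ((Fin (r + 4 - 1) ⊕ Fin (r + 4 - 1)) ⊕ Fin 2 → F) = 2 * (r + 4) := by
        simp; omega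
      obtain ⟨R, hR⟩ := H2.MD.transfer _ (H58.coe_qMinus (r + 4 - 1) F a b) hQ (by omega) ρ hρ
      have hq : 2 ≤ Fintype.card F := Fintype.one_lt_card
      have h1 : Fintype.card F ^ (r + 4) ≤ Fintype.card F ^ (2 * r + 7) :=
        Nat.pow_le_pow_right (by omega) (by omega)
      have h := H2.MD.minus_bound (H2.MD.psi_ne_one F) r hQ hN (by
        rw [H2.MD.zc, H58.card_zero_qMinus' (by omega) hab, Nat.card_eq_fintype_card,
          show 2 * (r + 4) - 1 = 2 * r + 7 by omega, show r + 4 - 1 = r + 3 by omega]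
        omega) (H59.exists_ne_one_of_irreducible R (by simpa using hk))
      rw [Nat.card_eq_fintype_card, Module.finrank_fin_fun] at h
      refine Nat.div_le_of_le_mul ?_
      have h2 : Fintype.card F ≤ Fintype.card F ^ (r + 3) := Nat.le_self_pow (by omega) _
      have h3 : 1 ≤ Fintype.card F ^ 2 := Nat.one_le_pow _ _ (by omega)
      rw [show r + 4 - 1 = r + 3 by omega]
      zify [h2, h3]
      linarith

end Cfsg.Agent.S2346
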