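import Cfsg.Statements.S2347
import Cfsg.Agent.Base
import Cfsg.Agent.H59.SpLS

set_option autoImplicit false
open Cfsg

namespace Cfsg.Agent.S2347

/-- Smallest degree of a non-linear irreducible complex representation of the symplectic group Sp_{2n} over a finite field of odd order q, n ≥ 2: every irreducible complex representation of degree at least 2 has degree at least (q^n − 1)/2, and there is an irreducible complex representation of exactly that degree (a Weil representation). -/
theorem result {F : Type*} [Field F] [Fintype F] [DecidableEq F] (n : ℕ) (hn : 2 ≤ n) (hodd : Odd (Fintype.card F)) :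
    (∀ (k : ℕ) (ρ : Representation ℂ (Matrix.symplecticGroup (Fin n) F) (Fin k → ℂ)), ρ.IsIrreducible → 2 ≤ k → (Fintype.card F ^ n - 1) / 2 ≤ k) ∧
    (∃ ρ : Representation ℂ (Matrix.symplecticGroup (Fin n) F) (Fin ((Fintype.card F ^ n - 1) / 2) → ℂ), ρ.IsIrreducible) := by
  have : Nonempty (Fin n) := ⟨⟨0, by omega⟩⟩
  refine ⟨fun k ρ hirr hk => ?_, ?_⟩
  · have h1 := H59.sp_ls_bound hodd ρ (H59.exists_ne_one_of_irreducible ρ (by simpa using hk))
    simp only [Fintype.card_fin, Module.finrank_fintype_fun_eq_card] at h1
    omega
  · have := H59.exists_weil_sp (l := Fin n) hodd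
    rwa [Fintype.card_fin] at this

end Cfsg.Agent.S2347
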