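import Cfsg.Statements.S2354
import Cfsg.Agent.H66.SzSylow

set_option autoImplicit false
open Cfsg

namespace Cfsg.Agent.S2354

open H66 Polynomial Matrix

/-- Exponent attached to the left end of a letter. -/
def ll (p : ℕ × Bool) : ℕ := 2 * p.1 + (if p.2 then 1 else 2)

/-- Exponent attached to the right end of a letter. -/
def rr (p : ℕ × Bool) : ℕ := 2 * p.1 + (if p.2 then 2 else 1)

theorem rr_ne_ll {p p' : ℕ × Bool} (h : p.1 = p'.1 → p.2 = p'.2) : rr p ≠ ll p' := by
  obtain ⟨i, s⟩ := p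
  obtain ⟨j, t⟩ := p'
  cases s <;> cases t <;> simp [rr, ll] at h ⊢ <;> omega

theorem rr_pos (p : ℕ × Bool) : 0 < rr p := by
  unfold rr
  split_ifs <;> omega

/-- A bound for the degrees. -/
def bd : List (ℕ × Bool) → ℕ
  | p :: p' :: L => max (rr p) (ll p') + bd (p' :: L)
  | _ => 0

section

variable {F : Type*} [Field F]

/-- One step of the recursion. -/
noncomputable def step (r : ℕ) (b : F[X]) (v : Fin 4 → F[X]) : Fin 4 → F[X] :=
  ![b ^ r * v 0 + (b * v 1 + v 3), b * v 0 + v 2, v 1, v 0]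

/-- The generic vector attached to a word. -/
noncomputable def Y (F : Type*) [Field F] (r : ℕ) : List (ℕ × Bool) → Fin 4 → F[X]
  | p :: p' :: L => step r (X ^ rr p + X ^ ll p') (Y F r (p' :: L))
  | _ => ![1, 0, 0, 0]

theorem step_deg {r : ℕ} (hr : 2 ≤ r) {b : F[X]} (hb : 0 < b.natDegree) {v : Fin 4 → F[X]}
    (h0 : v 0 ≠ 0) (h : ∀ i, (v i).natDegree ≤ (v 0).natDegree) :
    (step r b v 0).natDegree = r * b.natDegree + (v 0).natDegree ∧
      ∀ i, (step r b v i).natDegree ≤ (step r b v 0).natDegree := by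
  have b0 : b ≠ 0 := fun e => by simp [e] at hb
  have h1 : (b ^ r * v 0).natDegree = r * b.natDegree + (v 0).natDegree := by
    rw [natDegree_mul (pow_ne_zero _ b0) h0, natDegree_pow]
  have h2 : ∀ i j, (b * v i + v j).natDegree ≤ b.natDegree + (v 0).natDegree := fun i j =>
    (natDegree_add_le _ _).trans (max_le (natDegree_mul_le.trans (by have := h i; omega))
      (by have := h j; omega))
  have h3 : 2 * b.natDegree ≤ r * b.natDegree := Nat.mul_le_mul_right _ hr
  have h4 : (step r b v 0).natDegree = r * b.natDegree + (v 0).natDegree := by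
    rw [← h1]
    exact natDegree_add_eq_left_of_natDegree_lt (by have := h2 1 3; omega)
  refine ⟨h4, fun i => ?_⟩
  rw [h4]
  fin_cases i
  · exact h4.le
  · exact (h2 0 2).trans (by omega)
  · exact (h 1).trans (by omega)
  · exact (h 0).trans (by omega)

theorem natDegree_b {i j : ℕ} (h : i ≠ j) : (X ^ i + X ^ j : F[X]).natDegree = max i j := by
  rcases lt_or_gt_of_ne h with h | h
  · rw [natDegree_add_eq_right_of_natDegree_lt (by simpa using h), natDegree_X_pow,
      max_eq_right h.le]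
  · rw [natDegree_add_eq_left_of_natDegree_lt (by simpa using h), natDegree_X_pow,
      max_eq_left h.le]

theorem Y_deg {r : ℕ} (hr : 2 ≤ r) : ∀ L : List (ℕ × Bool), FreeGroup.IsReduced L →
    Y F r L 0 ≠ 0 ∧ (Y F r L 0).natDegree = r * bd L ∧
      ∀ i, (Y F r L i).natDegree ≤ (Y F r L 0).natDegree
  | [], _ => ⟨by simp [Y], by simp [Y, bd], fun i => by fin_cases i <;> simp [Y]⟩
  | [_], _ => ⟨by simp [Y], by simp [Y, bd], fun i => by fin_cases i <;> simp [Y]⟩
  | p :: p' :: L, h => by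
    rw [FreeGroup.isReduced_cons_cons] at h
    obtain ⟨h1, h2, h3⟩ := Y_deg hr _ h.2
    have h4 := natDegree_b (F := F) (rr_ne_ll h.1)
    have h5 : 0 < max (rr p) (ll p') := lt_max_of_lt_left (rr_pos p)
    obtain ⟨h6, h7⟩ := step_deg hr (h4 ▸ h5) h1 h3
    rw [h4, h2] at h6
    refine ⟨fun e => ?_, h6.trans (mul_add _ _ _).symm, h7⟩
    rw [show step _ _ _ 0 = 0 from e, natDegree_zero] at h6
    have := Nat.mul_pos (by omega : 0 < r) h5
    omega

variable {T : Tits F} {G : Type*} [Group G] (M : Model T G) {m : ℕ}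

/-- The substitution. -/
noncomputable def sub (a : F) (i : ℕ) : G := M.u 0 (a ^ (2 * i + 1)) * M.w * M.u 0 (a ^ (2 * i + 2))

theorem sub_eq (a : F) (p : ℕ × Bool) : cond p.2 (sub M a p.1) (sub M a p.1)⁻¹ =
    M.u 0 (a ^ ll p) * M.w * M.u 0 (a ^ rr p) := by
  obtain ⟨i, s⟩ := p
  cases s
  · simp [sub, ll, rr, M.z_inv, mul_assoc]
  · simp [sub, ll, rr]

theorem Y_eval (hT : T.IsFin m) (a : F) : ∀ (p : ℕ × Bool) (L : List (ℕ × Bool)),
    M.ρ (M.u 0 (a ^ rr p) * FreeGroup.lift (sub M a) (FreeGroup.mk L)) *ᵥ ![1, 0, 0, 0] =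
      fun i => (Y F (2 ^ (m + 1)) (p :: L) i).eval a
  | p, [] => by
    ext i
    rw [← FreeGroup.one_eq_mk, map_one, mul_one, M.ρ_u]
    fin_cases i <;> simp [Y, Tits.uM, mulVec, dotProduct, Fin.sum_univ_four]
  | p, p' :: L => by
    have ih := Y_eval hT a p' L
    rw [FreeGroup.lift_mk] at ih ⊢
    rw [List.map_cons, List.prod_cons, sub_eq, ← mul_assoc, ← mul_assoc, ← mul_assoc, M.z_mul,
      mul_assoc, map_mul, ← mulVec_mulVec, ih, map_mul, M.ρ_u, M.ρ_w]
    ext i
    fin_cases i <;>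
      simp [Y, step, Tits.uM, Tits.wM, mulVec, dotProduct, Fin.sum_univ_four, T.f_zero_left,
        hT.θ_eq, add_assoc]

end


/-- A non-trivial law holds in only finitely many Suzuki groups: for every non-trivial element w of the free group on countably many generators there is N such that for q = 2^(2m+1) with m ≥ N some substitution of elements of the Suzuki group over the field with q elements into w is not the identity. -/
theorem result (w : FreeGroup ℕ) (hw : w ≠ 1) :
    ∃ N : ℕ, ∀ (F : Type*) [Field F] [Fintype F] (m : ℕ), 1 ≤ m → N ≤ m →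
      Fintype.card F = 2 ^ (2 * m + 1) →
      ∃ f : ℕ → ↥(Cfsg.Lie.Sz F (2 ^ (m + 1))), FreeGroup.lift f w ≠ 1 := by
  refine ⟨bd w.toWord, fun F _ _ m hm hN hF => ?_⟩
  have hT := titsOf_isFin F hm hF
  have M := modelB hT
  by_contra h
  push Not at h
  obtain ⟨h1, h2, -⟩ := Y_deg (F := F) (r := 2 ^ (m + 1)) (Nat.le_self_pow (by omega) 2) _
    (FreeGroup.isReduced_toWord (x := w))
  rcases hL : w.toWord with _ | ⟨p, L⟩
  · exact hw (FreeGroup.toWord_eq_nil_iff.mp hL)
  refine h1 (eq_zero_of_natDegree_lt_card_of_eval_eq_zero _ Function.injective_id (fun a => ?_) ?_)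
  · have h3 := h (sub M a)
    rw [← FreeGroup.mk_toWord (x := w), hL, FreeGroup.lift_mk, List.map_cons, List.prod_cons,
      sub_eq, mul_assoc, ← FreeGroup.lift_mk] at h3
    have h4 := congrFun (Y_eval M hT a p L) 0
    rw [eq_inv_of_mul_eq_one_right h3, _root_.mul_inv_rev, M.w_inv, M.z_inv, map_mul, M.ρ_w,
      M.ρ_u] at h4
    rw [hL, id, ← h4]
    simp [Tits.uM, Tits.wM, mulVec, dotProduct, Fin.sum_univ_four]
  · rw [h2, hF, show 2 * m + 1 = m + 1 + m by ring, pow_add 2 (m + 1)]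
    exact Nat.mul_lt_mul_of_pos_left (hN.trans_lt Nat.lt_two_pow_self) (by positivity)

end Cfsg.Agent.S2354
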