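import Cfsg.Statements.S2359
import Cfsg.Agent.H30.ReeInst
import Cfsg.Agent.H30.ReeCount

set_option autoImplicit false
open Cfsg

namespace Cfsg.Agent.S2359

/-- Let R be the small Ree group over the field with q = 3^(2m+1) ≥ 27 elements. If H is a cyclic subgroup of R of order (q−1)/2, then the centralizer of H in R is cyclic of order q−1, and every non-trivial subgroup of H has the same centralizer as H. If H is a cyclic subgroup of order (q+1)/4, then the centralizer of H is abelian of order q+1 with no element of order 4 (so it is the direct product of H and a group of order 4 whose non-identity elements all have order 2), and every non-trivial subgroup of H has the same centralizer as H. -/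
theorem result {K : Type*} [Field K] [Fintype K] {m : ℕ} (hm : 1 ≤ m)
    (hK : Fintype.card K = 3 ^ (2 * m + 1)) (H : Subgroup ↥(Cfsg.Lie.twistedG2 K (3 ^ m))) (hH : IsCyclic H) :
    (Nat.card H = (3 ^ (2 * m + 1) - 1) / 2 →
      IsCyclic ↥(Subgroup.centralizer (H : Set ↥(Cfsg.Lie.twistedG2 K (3 ^ m)))) ∧
        Nat.card ↥(Subgroup.centralizer (H : Set ↥(Cfsg.Lie.twistedG2 K (3 ^ m)))) = 3 ^ (2 * m + 1) - 1 ∧
        ∀ A : Subgroup ↥(Cfsg.Lie.twistedG2 K (3 ^ m)), A ≤ H → A ≠ ⊥ →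
          Subgroup.centralizer (A : Set ↥(Cfsg.Lie.twistedG2 K (3 ^ m))) = Subgroup.centralizer (H : Set ↥(Cfsg.Lie.twistedG2 K (3 ^ m)))) ∧
    (Nat.card H = (3 ^ (2 * m + 1) + 1) / 4 →
      IsMulCommutative ↥(Subgroup.centralizer (H : Set ↥(Cfsg.Lie.twistedG2 K (3 ^ m)))) ∧
        Nat.card ↥(Subgroup.centralizer (H : Set ↥(Cfsg.Lie.twistedG2 K (3 ^ m)))) = 3 ^ (2 * m + 1) + 1 ∧
        (∀ x ∈ Subgroup.centralizer (H : Set ↥(Cfsg.Lie.twistedG2 K (3 ^ m))), orderOf x ≠ 4) ∧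
        ∀ A : Subgroup ↥(Cfsg.Lie.twistedG2 K (3 ^ m)), A ≤ H → A ≠ ⊥ →
          Subgroup.centralizer (A : Set ↥(Cfsg.Lie.twistedG2 K (3 ^ m))) = Subgroup.centralizer (H : Set ↥(Cfsg.Lie.twistedG2 K (3 ^ m)))) := by
  have := (H68.simple_G2 hK hm).1
  have R := H30.reeG2 hK
  have := R.finite_G
  have h27 := H30.le_three_pow hm
  refine ⟨fun h => ?_, fun h => ?_⟩
  · have h0 : H ≠ ⊥ := by rintro rfl; rw [Subgroup.card_bot] at h; omega
    obtain ⟨g, hg⟩ := (R.tor_H₀ hm).conj_of_card_eq (R.tor_H₀ hm).cyc hH (by rw [R.card_H₀])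
      (h.trans R.card_H₀.symm)
    have key := fun A (h : A ≤ H) => H30.centralizer_map_conj (A₁ := A) (g := g)
      (fun y => R.centralizer_H₀) (hg ▸ h)
    rw [key H le_rfl h0]
    exact ⟨((MulAut.conj g).subgroupMap R.H).isCyclic.1 R.isCyclic_H,
      by rw [H30.card_map_conj, R.card_H], key⟩
  · obtain ⟨D⟩ := R.nonempty_NS
    have h0 : H ≠ ⊥ := by rintro rfl; rw [Subgroup.card_bot] at h; omega
    obtain ⟨g, hg⟩ := (D.tor_C hm).conj_of_card_eq (D.tor_C hm).cyc hH (by rw [D.card_C])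
      (h.trans D.card_C.symm)
    have key := fun A (h : A ≤ H) => H30.centralizer_map_conj (A₁ := A) (g := g)
      (fun y => D.centralizer_eq_CC) (hg ▸ h)
    rw [key H le_rfl h0]
    refine ⟨⟨⟨?_⟩⟩, by rw [H30.card_map_conj, D.card_CC], fun x _ => R.orderOf_ne_four x, key⟩
    rintro ⟨_, a, ha, rfl⟩ ⟨_, b, hb, rfl⟩
    exact Subtype.ext ((H30.conj_comm_iff g a b).2 (D.CC_comm ha hb))

end Cfsg.Agent.S2359
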