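import Cfsg.Statements.S2446
import Cfsg.Agent.H68.OuAsm
import Cfsg.Agent.H4.OuG
import Cfsg.Agent.H48.Ore4PL
import Cfsg.Agent.H85.OuDF
import Cfsg.Agent.H1.Ore4MC
import Cfsg.Agent.H42.OuN
import Cfsg.Agent.H29.OuS
import Cfsg.Agent.H29.OuH
import Cfsg.Agent.H70.OuW
import Cfsg.Agent.H49.OuPP

set_option autoImplicit false
open Cfsg

namespace Cfsg.Agent.S2446

/-- In the special unitary group SU(n,q), n ≥ 3, realised over the field F with q² elements as the determinant-one isometries of the standard Hermitian form, and with (n,q) ≠ (3,2), every element is a commutator a·b·a⁻¹·b⁻¹ of two elements of SU(n,q). -/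
theorem result {F : Type*} [Field F] [Fintype F] (n q : ℕ) (hn : 3 ≤ n) (hF : Fintype.card F = q ^ 2) (hex : ¬ (n = 3 ∧ q = 2)) :
    ∀ g : Cfsg.SU n F q, ∃ a b : Cfsg.SU n F q, g = a * b * a⁻¹ * b⁻¹ := by
  exact H68.Ou.main (H49.Ou.jobPP H48.Ou.jobPL H48.Ou.jobK H48.Ou.jobED H1.OuMC.jobM H4.OuG.jobG)
    (H1.OuMC.jobC H48.Ou.jobK) H29.Ou.jobS H29.Ou.jobH H42.Ou.jobN H85.OuDF.jobD
    (H70.OuW.jobW H29.Ou.jobH H42.Ou.jobN H48.Ou.jobED) H85.OuDF.jobF n q hn hF hex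

end Cfsg.Agent.S2446
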