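import Cfsg.Statements.S2448
import Cfsg.Agent.Base
import Cfsg.Agent.H56.OreMain
import Cfsg.Agent.H99.Or5

set_option autoImplicit false
open Cfsg

namespace Cfsg.Agent.S2448

/-- Let F be a finite field and n ≥ 4, and let Ω⁺(2n,F) be the commutator subgroup of the orthogonal group of the quadratic form Σ xᵢyᵢ (n hyperbolic planes). Then every element of Ω⁺(2n,F) is a commutator a·b·a⁻¹·b⁻¹ of two elements of Ω⁺(2n,F). -/
theorem result {F : Type*} [Field F] [Fintype F] (n : ℕ) (hn : 4 ≤ n) : ∀ g : Cfsg.Omega F (Cfsg.quadFormPlus n F), ∃ a b : Cfsg.Omega F (Cfsg.quadFormPlus n F), g = a * b * a⁻¹ * b⁻¹ := by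
  by_cases h2 : (2 : F) = 0
  · haveI : CharP F 2 := CharTwo.of_one_ne_zero_of_two_eq_zero one_ne_zero h2
    exact H56.Ore.omega_of_com _ (H58.coe_qPlus n F)
      fun g hg => H99.Or.omega_comm (H58.qPlus_nondeg n F) (by simp; omega) hg
  · exact H56.Ore.omega_of_com _ (H58.coe_qPlus n F)
      (H56.Ore.main_odd (H58.qPlus_nondeg n F) h2 (by simp; omega))

end Cfsg.Agent.S2448
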