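import Cfsg.Statements.S2449
import Cfsg.Agent.Base
import Cfsg.Agent.H56.OreMain
import Cfsg.Agent.H99.Or5

set_option autoImplicit false
open Cfsg

namespace Cfsg.Agent.S2449

/-- Let F be a finite field and n ≥ 4, and let Ω⁻(2n,F) be the commutator subgroup of the orthogonal group of the quadratic form given by n − 1 hyperbolic planes plus an anisotropic binary form z₁² + a z₁z₂ + b z₂². Then every element of Ω⁻(2n,F) is a commutator a·b·a⁻¹·b⁻¹ of two elements of Ω⁻(2n,F). -/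
theorem result {F : Type*} [Field F] [Fintype F] (n : ℕ) (hn : 4 ≤ n) (a b : F)
    (hab : ∀ z₁ z₂ : F, z₁ ^ 2 + a * z₁ * z₂ + b * z₂ ^ 2 = 0 → z₁ = 0 ∧ z₂ = 0) :
    ∀ g : Cfsg.Omega F (Cfsg.quadFormMinus (n - 1) F a b), ∃ x y : Cfsg.Omega F (Cfsg.quadFormMinus (n - 1) F a b), g = x * y * x⁻¹ * y⁻¹ := by
  by_cases h2 : (2 : F) = 0
  · haveI : CharP F 2 := CharTwo.of_one_ne_zero_of_two_eq_zero one_ne_zero h2
    exact H56.Ore.omega_of_com _ (H58.coe_qMinus (n - 1) F a b)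
      fun g hg => H99.Or.omega_comm (H58.qMinus_nondeg (n - 1) hab) (by simp; omega) hg
  · exact H56.Ore.omega_of_com _ (H58.coe_qMinus (n - 1) F a b)
      (H56.Ore.main_odd (H58.qMinus_nondeg (n - 1) hab) h2 (by simp; omega))

end Cfsg.Agent.S2449
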