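import Cfsg.Statements.S2450
import Cfsg.Agent.Base

set_option autoImplicit false
open Cfsg

namespace Cfsg.Agent.S2450

open Matrix

variable {F : Type*} [Field F]

def mk' (M : Matrix (Fin 2) (Fin 2) F) (h : M.det = 1) : SpecialLinearGroup (Fin 2) F := ⟨M, h⟩

theorem conj_mk (M : Matrix (Fin 2) (Fin 2) F) (h : M.det = 1) (a : SpecialLinearGroup (Fin 2) F) :
    (mk' M h * a * (mk' M h)⁻¹).1 = M * a.1 * adjugate M := rfl

theorem exists_conj (a : SpecialLinearGroup (Fin 2) F)
    (h : a ∉ Subgroup.center (SpecialLinearGroup (Fin 2) F)) :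
    ∃ u : SpecialLinearGroup (Fin 2) F, (u * a * u⁻¹).1 1 0 ≠ 0 := by
  by_contra hc
  push Not at hc
  have h1 := hc 1
  have h2 := hc (mk' !![0, -1; 1, 0] (by simp [det_fin_two]))
  have h3 := hc (mk' !![1, 0; 1, 1] (by simp [det_fin_two]))
  simp only [one_mul, inv_one, mul_one] at h1
  rw [conj_mk] at h2 h3
  simp [adjugate_fin_two, Matrix.mul_apply, Fin.sum_univ_two, vecMul, dotProduct] at h2 h3
  apply h
  rw [Matrix.SpecialLinearGroup.mem_center_iff]
  have hd := a.det_coe
  rw [det_fin_two] at hd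
  have h4 : a.1 1 1 = a.1 0 0 := by linear_combination -h3 + h1 - h2
  refine ⟨a.1 0 0, ?_, ?_⟩
  · rw [h4, h2] at hd
    simpa [sq] using hd
  · ext i j
    fin_cases i <;> fin_cases j <;> simp [h1, h2, h4]

theorem tr_sq {x y : SpecialLinearGroup (Fin 2) F}
    (h : IsConj (x : ProjectiveSpecialLinearGroup (Fin 2) F) y) :
    (trace x.1) ^ 2 = (trace y.1) ^ 2 := by
  obtain ⟨g, hg⟩ := isConj_iff.1 h
  obtain ⟨g, rfl⟩ := QuotientGroup.mk_surjective g
  rw [← QuotientGroup.mk_inv, ← QuotientGroup.mk_mul, ← QuotientGroup.mk_mul, QuotientGroup.eq,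
    Matrix.SpecialLinearGroup.mem_center_iff] at hg
  obtain ⟨r, hr, e⟩ := hg
  have e2 : y.1 = r • (g * x * g⁻¹).1 := by
    have : y = (g * x * g⁻¹) * ((g * x * g⁻¹)⁻¹ * y) := by group
    rw [this, Matrix.SpecialLinearGroup.coe_mul, ← e]
    simp [scalar_apply, ← smul_one_eq_diagonal]
  have e3 : trace (g * x * g⁻¹).1 = trace x.1 := by
    rw [Matrix.SpecialLinearGroup.coe_mul, Matrix.SpecialLinearGroup.coe_mul, trace_mul_cycle,
      ← Matrix.SpecialLinearGroup.coe_mul, inv_mul_cancel]
    simp
  rw [e2, trace_smul, e3, smul_eq_mul, mul_pow]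
  simp only [Fintype.card_fin] at hr
  rw [hr, one_mul]


/-- The Arad–Herzog conjecture for PSL(2,q): let F be a finite field with q ≥ 4 elements. For any two non-identity elements a, b of PSL(2,F), the set of products of a conjugate of a with a conjugate of b is not a single conjugacy class. -/
theorem result {F : Type*} [Field F] [Fintype F] (h4 : 4 ≤ Fintype.card F)
    (a b : Matrix.ProjectiveSpecialLinearGroup (Fin 2) F) (ha : a ≠ 1) (hb : b ≠ 1) (c : Matrix.ProjectiveSpecialLinearGroup (Fin 2) F) :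
    {g : Matrix.ProjectiveSpecialLinearGroup (Fin 2) F | ∃ u v : Matrix.ProjectiveSpecialLinearGroup (Fin 2) F, g = (u * a * u⁻¹) * (v * b * v⁻¹)} ≠ {g | IsConj c g} := by
  classical
  intro h
  obtain ⟨a, rfl⟩ := QuotientGroup.mk_surjective a
  obtain ⟨b, rfl⟩ := QuotientGroup.mk_surjective b
  obtain ⟨c, rfl⟩ := QuotientGroup.mk_surjective c
  obtain ⟨u, hu⟩ := exists_conj a fun e => ha ((QuotientGroup.eq_one_iff _).2 e)
  obtain ⟨v, hv⟩ := exists_conj b fun e => hb ((QuotientGroup.eq_one_iff _).2 e)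
  set A := u * a * u⁻¹ with hA
  set B := v * b * v⁻¹ with hB
  let w : F → SpecialLinearGroup (Fin 2) F := fun s => mk' !![1, s; 0, 1] (by simp [det_fin_two])
  let α := -(A.1 1 0 * B.1 1 0)
  let β := B.1 1 0 * (A.1 0 0 - A.1 1 1) + A.1 1 0 * (B.1 1 1 - B.1 0 0)
  let γ := trace (A.1 * B.1)
  have hα : α ≠ 0 := neg_ne_zero.2 (mul_ne_zero hu hv)
  have key : ∀ s : F, (α * s ^ 2 + β * s + γ) ^ 2 = (trace c.1) ^ 2 := fun s => by
    have h1 : ((A * (w s * B * (w s)⁻¹) : SpecialLinearGroup (Fin 2) F) :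
        ProjectiveSpecialLinearGroup (Fin 2) F) ∈ {g | IsConj (c : ProjectiveSpecialLinearGroup (Fin 2) F) g} := by
      rw [← h]
      refine ⟨u, (w s * v : SpecialLinearGroup (Fin 2) F), ?_⟩
      simp only [hA, hB, QuotientGroup.mk_mul, QuotientGroup.mk_inv]
      group
    rw [tr_sq h1]
    congr 1
    clear_value A B
    rw [Matrix.SpecialLinearGroup.coe_mul, conj_mk]
    simp [α, β, γ, adjugate_fin_two, trace_fin_two, Matrix.mul_apply, Fin.sum_univ_two, vecMul,
      dotProduct]
    ring
  open Polynomial in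
  have hq : ∀ τ : F, (C α * X ^ 2 + C β * X + C (γ - τ)).natDegree = 2 := fun τ =>
    natDegree_quadratic hα
  by_cases h2 : (2 : F) = 0
  · have h3 := Polynomial.eq_zero_of_natDegree_lt_card_of_eval_eq_zero
      (Polynomial.C α * Polynomial.X ^ 2 + Polynomial.C β * Polynomial.X +
        Polynomial.C (γ - trace c.1)) (f := id) Function.injective_id (fun s => by
        have : (α * s ^ 2 + β * s + γ - trace c.1) ^ 2 = 0 := by
          linear_combination key s + (trace c.1 ^ 2 - (α * s ^ 2 + β * s + γ) * trace c.1) * h2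
        have := pow_eq_zero_iff (two_ne_zero) |>.1 this
        simp only [Polynomial.eval_add, Polynomial.eval_mul, Polynomial.eval_C, Polynomial.eval_pow,
          Polynomial.eval_X, id]
        linear_combination this) (by rw [hq]; omega)
    have := hq (trace c.1)
    rw [h3] at this
    simp at this
  · have h5 : Fintype.card F ≠ 4 := fun e => by
      have := FiniteField.cast_card_eq_zero F
      rw [e] at this
      exact h2 (pow_eq_zero_iff (two_ne_zero) |>.1 (by linear_combination this))
    have hne : ∀ τ : F, Polynomial.C α * Polynomial.X ^ 2 + Polynomial.C β * Polynomial.X +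
        Polynomial.C (γ - τ) ≠ 0 := fun τ e => by
      have := hq τ
      rw [e] at this
      simp at this
    refine mul_ne_zero (hne (trace c.1)) (hne (-trace c.1))
      (Polynomial.eq_zero_of_natDegree_lt_card_of_eval_eq_zero _ (f := id) Function.injective_id
        (fun s => ?_) ?_)
    · simp only [Polynomial.eval_add, Polynomial.eval_mul, Polynomial.eval_C, Polynomial.eval_pow,
        Polynomial.eval_X, id]
      linear_combination key s
    · rw [Polynomial.natDegree_mul (hne _) (hne _), hq, hq]; omega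

end Cfsg.Agent.S2450
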