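import Cfsg.Statements.S2455
import Cfsg.Agent.H68.OreSL

set_option autoImplicit false
open Cfsg

namespace Cfsg.Agent.S2455

open H33 H68.OreSL

/-- A strong covering result in the direction of Thompson's conjecture (non-identity elements) for PSL(2,q), q odd: let F be a finite field of odd characteristic p with at least 5 elements and let x ∈ PSL(2,F) have order greater than 2 and not divisible by p (so x is not unipotent). Then every non-identity element of PSL(2,F) is a product of two conjugates of x. -/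
theorem result {F : Type*} [Field F] [Fintype F] (p : ℕ) [Fact p.Prime] [CharP F p] (hp : p ≠ 2) (h5 : 5 ≤ Fintype.card F)
    (x : Matrix.ProjectiveSpecialLinearGroup (Fin 2) F) (hx2 : 2 < orderOf x) (hxp : ¬ p ∣ orderOf x) : ∀ g : Matrix.ProjectiveSpecialLinearGroup (Fin 2) F, g ≠ 1 → ∃ u v : Matrix.ProjectiveSpecialLinearGroup (Fin 2) F, g = (u * x * u⁻¹) * (v * x * v⁻¹) := by
  obtain ⟨x, rfl⟩ := QuotientGroup.mk_surjective x
  intro g hg
  obtain ⟨l, rfl⟩ := QuotientGroup.mk_surjective g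
  have hs := mt mk_eq_one_iff.2 hg
  have h0 := trace_ne_zero hx2
  have h2 : (2 : F) ≠ 0 := Ring.two_ne_zero (by rwa [ringChar.eq F p])
  have h4 : (x : M2 F).trace ^ 2 ≠ 4 := fun h => by
    obtain ⟨ε, h1, h3⟩ : ∃ ε : F, ε * ε = 1 ∧ (x : M2 F).trace = 2 * ε := by
      rcases sq_eq_sq_iff_eq_or_eq_neg.1 (h.trans (by norm_num : (4 : F) = 2 ^ 2)) with h | h
      exacts [⟨1, by simp, by simp [h]⟩, ⟨-1, by simp, by simp [h]⟩]
    have e : ∀ n : ℕ, (x : M2 F) ^ n = ε ^ n • (1 + (n : F) • (ε • (x : M2 F) - 1)) := fun n => by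
      induction n with
      | zero => simp
      | succ n ih =>
        rw [pow_succ, ih, smul_mul_assoc, add_mul, smul_mul_assoc, sub_mul, smul_mul_assoc, sq_eq, h3,
          x.det_coe, pow_succ]
        ext i j
        simp only [Matrix.add_apply, Matrix.smul_apply, Matrix.sub_apply, smul_eq_mul, one_mul, Nat.cast_succ]
        linear_combination (ε ^ n * ((n : F) - 1) * x.1 i j) * h1
    have h5 := orderOf_dvd_of_pow_eq_one (x := (x : Matrix.ProjectiveSpecialLinearGroup (Fin 2) F)) (n := p) (by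
      rw [← QuotientGroup.mk_pow, mk_eq_one_iff, isSc_iff_smul]
      exact ⟨ε ^ p, by rw [Matrix.SpecialLinearGroup.coe_pow, e]; simp⟩)
    rcases (Nat.dvd_prime Fact.out).1 h5 with h | h
    · omega
    · exact hxp (h ▸ dvd_rfl)
  have h5 : -(x : M2 F).trace ≠ (x : M2 F).trace := fun h => h0 (mul_left_cancel₀ h2 (by linear_combination -h))
  by_cases h6 : (l : M2 F).trace = 2
  · obtain ⟨a, b, ha, hb, e⟩ := exists_prod hs (Or.inr (Or.inl ⟨h6, Or.inl h5⟩))
    exact psl_cov h4 ha (Or.inr hb) e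
  · obtain ⟨a, b, ha, hb, e⟩ := exists_prod hs ((em _).symm.imp_right fun h => Or.inr ⟨
      (sq_eq_sq_iff_eq_or_eq_neg.1 (h.trans (by norm_num : (4 : F) = 2 ^ 2))).resolve_left h6, h5.symm⟩)
    exact psl_cov h4 ha (Or.inl hb) e

end Cfsg.Agent.S2455
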