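import Cfsg.Statements.S2456
import Cfsg.Agent.H68.OreSL

set_option autoImplicit false
open Cfsg

namespace Cfsg.Agent.S2456

open H33 H68.OreSL

/-- A strong covering result in the direction of Thompson's conjecture (non-identity elements) for PSL(2,q), q even: let F be a finite field of characteristic 2 with q ≥ 4 elements and let x ∈ PSL(2,F) have order greater than 2 and not dividing q + 1. Then every non-identity element of PSL(2,F) is a product of two conjugates of x. -/
theorem result {F : Type*} [Field F] [Fintype F] [CharP F 2] (h4 : 4 ≤ Fintype.card F)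
    (x : Matrix.ProjectiveSpecialLinearGroup (Fin 2) F) (hx2 : 2 < orderOf x) (hxq : ¬ orderOf x ∣ Fintype.card F + 1) : ∀ g : Matrix.ProjectiveSpecialLinearGroup (Fin 2) F, g ≠ 1 → ∃ u v : Matrix.ProjectiveSpecialLinearGroup (Fin 2) F, g = (u * x * u⁻¹) * (v * x * v⁻¹) := by
  obtain ⟨x, rfl⟩ := QuotientGroup.mk_surjective x
  intro g hg
  obtain ⟨l, rfl⟩ := QuotientGroup.mk_surjective g
  have h2 : (2 : F) = 0 := CharTwo.two_eq_zero
  have h3 : ∀ a : F, a ^ 2 = 4 → a = 0 := fun a h => pow_eq_zero_iff two_ne_zero |>.1 (by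
    linear_combination h + 2 * h2)
  have h5 : ∃ e, e ^ 2 - (x : M2 F).trace * e + 1 = 0 := by
    by_contra h
    push Not at h
    have he : IsEll (Matrix.SpecialLinearGroup.toGL x : M2 F) := isEll_iff.2 fun c => by
      simpa using h c
    exact hxq ((orderOf_map_dvd (QuotientGroup.mk' _) x).trans (he.card_torS ▸
      Subgroup.orderOf_dvd_natCard (TorS _) (Subgroup.mem_centralizer_singleton_iff.2 rfl)))
  obtain ⟨a, b, ha, hb, e⟩ := exists_prod (mt mk_eq_one_iff.2 hg) (t := (x : M2 F).trace)
    ((em _).symm.imp_right fun h => Or.inl ⟨(h3 _ h).trans h2.symm, Or.inr h5⟩)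
  exact psl_cov (mt (h3 _) (trace_ne_zero hx2)) ha (Or.inl hb) e

end Cfsg.Agent.S2456
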