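import Cfsg.Statements.S2457
import Cfsg.Agent.H66.SzTri

set_option autoImplicit false
open Cfsg

namespace Cfsg.Agent.S2457

open H66

section

variable {G : Type*} [Group G]

/-- `g` is a product of two conjugates of `x`. -/
def Cov (x g : G) : Prop := ∃ y z, IsConj x y ∧ IsConj x z ∧ g = y * z

theorem Cov.conj {x g g' : G} (h : Cov x g) (e : IsConj g g') : Cov x g' := by
  obtain ⟨y, z, hy, hz, rfl⟩ := h
  obtain ⟨c, rfl⟩ := isConj_iff.mp e
  exact ⟨_, _, hy.trans (isConj_iff.mpr ⟨c, rfl⟩), hz.trans (isConj_iff.mpr ⟨c, rfl⟩),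
    (conj_mul).symm⟩

theorem Cov.of_conj {x x' g : G} (h : Cov x g) (e : IsConj x' x) : Cov x' g := by
  obtain ⟨y, z, hy, hz, rfl⟩ := h
  exact ⟨y, z, e.trans hy, e.trans hz, rfl⟩

theorem Cov.inv {x g : G} (h : Cov x g⁻¹) : Cov x⁻¹ g := by
  obtain ⟨y, z, hy, hz, e⟩ := h
  obtain ⟨c, rfl⟩ := isConj_iff.mp hy
  obtain ⟨d, rfl⟩ := isConj_iff.mp hz
  exact ⟨d * x⁻¹ * d⁻¹, c * x⁻¹ * c⁻¹, isConj_iff.mpr ⟨d, rfl⟩, isConj_iff.mpr ⟨c, rfl⟩, by
    rw [← inv_inv g, e]; group⟩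

variable {F : Type*} [Field F] {T : Tits F} (M : Model T G) {m : ℕ}

theorem cov_odd (hT : T.IsFin m) {x : G} (hx : M.tr x ≠ 0) {g : G} (g1 : g ≠ 1) : Cov x g := by
  have two := T.two
  have key : ∀ y z, M.tr y = M.tr x → M.tr z = M.tr x → Cov x (y * z) := fun y z hy hz =>
    ⟨y, z, M.isConj_of_tr hT hx hy, M.isConj_of_tr hT hx hz, rfl⟩
  by_cases h4 : g ^ 4 = 1
  · obtain ⟨k, b, hb⟩ := hT.exists_inI hx
    have hk := k.ne_zero
    have hk' := T.θ_ne_zero hk
    have h1 : M.tr (M.u 1 b * M.h k * M.w) = M.tr x := by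
      rw [M.tr_uhw, Tits.f, map_one]
      field_simp
      grind
    have hm : ∀ a b c d, M.u a b * M.h k * M.w * (M.u c d * M.h k * M.w)⁻¹ =
        M.u a b * (M.u c d)⁻¹ := fun a b c d => by group
    by_cases h2 : g ^ 2 = 1
    · have h3 : M.tr (M.u 1 (b + 1) * M.h k * M.w) = M.tr x := by
        rw [← h1, M.tr_uhw, M.tr_uhw, Tits.f, Tits.f, map_add, map_one]
        grind
      have h5 := key _ _ h3 ((M.tr_inv _).trans h1)
      rw [hm, M.u_inv, M.u_mul, T.add_self] at h5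
      refine h5.conj (M.isConj_of_sq hT (by rw [pow_two, M.z_mul_self]) ?_ h2 g1)
      rw [Ne, M.u_eq_one, map_one]
      grind
    · obtain ⟨c, hc⟩ := hT.θ_surj (M.tr x * (T.θ k * k))
      have h3 : M.tr (M.u 0 c * M.h k * M.w) = M.tr x := by
        rw [M.tr_uhw, T.f_zero_left, hc, map_zero]
        field_simp
        ring
      have h5 := key _ _ h1 ((M.tr_inv _).trans h3)
      have h6 := key _ _ h3 ((M.tr_inv _).trans h1)
      rw [hm] at h5 h6
      rw [← inv_inv (_ * _), mul_inv_rev, inv_inv] at h6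
      rw [M.z_inv, M.u_mul] at h5 h6
      rcases M.isConj_or_isConj_inv hT h4 h2 (M.u_pow_four (1 + 0) (b + c + T.θ 1 * 0))
        (by simp [M.u_sq, M.u_eq_one]) with h | h
      exacts [h5.conj h.symm, h6.conj h.symm]
  · have ht : M.tr g ≠ 0 := fun e => h4 ((M.tr_eq_zero_iff hT).mp e)
    obtain ⟨c, hc⟩ := hT.θ_surj (M.tr x)
    obtain ⟨d, hd⟩ := hT.θ_surj (M.tr g)
    obtain ⟨s, hs⟩ := hT.sq_surj (M.tr g)⁻¹
    obtain ⟨y, rfl⟩ := hT.θ_surj s
    have h5 := key _ _ ((M.tr_zwzw 1 c).trans (by rw [one_mul, hc])) ((M.tr_tri c d 0 y).trans (by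
      rw [T.f_zero_left, hs, map_mul, hc, hd, mul_inv_cancel_right₀ ht]))
    refine h5.conj (M.isConj_of_tr hT ?_ ?_).symm
    · exact ht
    · have e : M.w * M.u 0 c * M.w * (M.w * M.u 0 c * M.w) = 1 := by
        simp only [mul_assoc, M.w_w_mul]
        rw [← mul_assoc (M.u 0 c), M.z_mul_self, one_mul, M.w_mul_w]
      rw [mul_assoc, ← mul_assoc (M.w * _ * _), e, one_mul, M.tr_tri', one_mul, hd]

theorem cov_four (hT : T.IsFin m) {g : G} (g1 : g ≠ 1) : Cov (M.u 1 0) g := by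
  have two := T.two
  by_cases h4 : g ^ 4 = 1
  · by_cases h2 : g ^ 2 = 1
    · refine Cov.conj ⟨_, _, IsConj.refl _, IsConj.refl _, rfl⟩ (M.isConj_of_sq hT ?_ ?_ h2 g1)
      · rw [← pow_two, ← pow_mul, M.u_pow_four]
      · simp [M.u_mul_self, M.u_eq_one]
    · obtain ⟨y, b, rfl⟩ := M.exists_conj_u hT h4 h2
      obtain ⟨a, a0, a1⟩ := hT.exists_ne
      have c0 : a + 1 ≠ 0 := fun e => a1 (T.add_eq_zero.mp e)
      have ha := T.norm_eq_zero.not.mpr a0
      obtain ⟨i, j, hi, hj, h⟩ := hT.exists_inI_add (l := T.θ (a + 1) * (a + 1) / (T.θ a * a))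
        (div_ne_zero (T.norm_eq_zero.not.mpr c0) ha)
        (fun e => by simpa using T.norm_inj ((div_eq_one_iff_eq ha).mp e))
        ((b + T.θ a * (a + 1)) / (T.θ a * a))
      refine Cov.conj ⟨_, _, M.isConj_u hT a0 hi, M.isConj_u hT c0 hj, rfl⟩
        (isConj_iff.mpr ⟨y, ?_⟩)
      rw [M.conj_u, M.u_mul]
      congr 3
      · grind
      · have ha' := T.θ_ne_zero a0
        field_simp at h
        grind
  · have ht : M.tr g ≠ 0 := fun e => h4 ((M.tr_eq_zero_iff hT).mp e)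
    obtain ⟨t, hs⟩ := hT.sq_surj (M.tr g)
    obtain ⟨k, hk⟩ := hT.exists_inI (t := t) fun e => ht (by rw [← hs, e]; simp)
    obtain ⟨i, hi, h⟩ := hT.exists_inI_of_add_one hk
    have k0 := k.ne_zero
    have k0' := T.θ_ne_zero k0
    refine Cov.conj ⟨_, M.w * _ * M.w, M.isConj_u hT one_ne_zero hi,
      (M.isConj_u hT (inv_ne_zero k0') hi).trans (isConj_iff.mpr ⟨M.w, by rw [M.w_inv]⟩), rfl⟩
      (M.isConj_of_tr hT ht ?_).symm
    rw [M.tr_uwuw, ← hs]
    simp only [Tits.f, map_mul, map_inv₀, T.sq, map_one]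
    field_simp
    grind

end


/-- A strong covering result in the direction of Thompson's conjecture (non-identity elements) for the Suzuki groups: let q = 2^(2m+1) ≥ 8, F the field with q elements and Sz(q) the Suzuki group over F. For every element x of Sz(q) of order greater than 2, every non-identity element of Sz(q) is a product of two conjugates of x. -/
theorem result {F : Type*} [Field F] [Fintype F] (m : ℕ) (hm : 1 ≤ m) (hF : Fintype.card F = 2 ^ (2 * m + 1))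
    (x : Cfsg.Lie.Sz F (2 ^ (m + 1))) (hx2 : 2 < orderOf x) : ∀ g : Cfsg.Lie.Sz F (2 ^ (m + 1)), g ≠ 1 → ∃ u v : Cfsg.Lie.Sz F (2 ^ (m + 1)), g = (u * x * u⁻¹) * (v * x * v⁻¹) := by
  have hT := titsOf_isFin F hm hF
  have M := modelB hT
  intro g g1
  suffices Cov x g by
    obtain ⟨y, z, hy, hz, rfl⟩ := this
    obtain ⟨c, rfl⟩ := isConj_iff.mp hy
    obtain ⟨d, rfl⟩ := isConj_iff.mp hz
    exact ⟨c, d, rfl⟩
  by_cases h4 : x ^ 4 = 1
  · have h2 : x ^ 2 ≠ 1 := pow_ne_one_of_lt_orderOf two_ne_zero hx2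
    rcases M.isConj_or_isConj_inv hT h4 h2 (M.u_pow_four 1 0)
      (by simp [M.u_sq, M.u_eq_one]) with h | h
    · exact (cov_four M hT g1).of_conj h
    · exact (cov_four M hT (inv_ne_one.mpr g1)).inv.of_conj h
  · exact cov_odd M hT (fun e => h4 ((M.tr_eq_zero_iff hT).mp e)) g1

end Cfsg.Agent.S2457
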