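import Cfsg.Statements.S2459
import Cfsg.Agent.Base
import Cfsg.Agent.H70.M3

set_option autoImplicit false
open Cfsg

namespace Cfsg.Agent.S2459

/-- A form of Thompson's conjecture for PSL(3,q), q > 2 (covering the non-identity elements), with a semisimple class: for F a finite field of characteristic p with more than 2 elements there is an element x of PSL(3,F) of order prime to p such that every non-identity element of PSL(3,F) is a product of two conjugates of x. -/
theorem result {F : Type*} [Field F] [Fintype F] (p : ℕ) [Fact p.Prime] [CharP F p] (h3 : 3 ≤ Fintype.card F) :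
    ∃ x : Matrix.ProjectiveSpecialLinearGroup (Fin 3) F, ¬ p ∣ orderOf x ∧ ∀ g : Matrix.ProjectiveSpecialLinearGroup (Fin 3) F, g ≠ 1 → ∃ u v : Matrix.ProjectiveSpecialLinearGroup (Fin 3) F, g = (u * x * u⁻¹) * (v * x * v⁻¹) := by
  have key : ∀ (x : Matrix.SpecialLinearGroup (Fin 3) F) (n : ℕ), x ^ n = 1 → ¬ p ∣ n →
      ¬ p ∣ orderOf (x : Matrix.ProjectiveSpecialLinearGroup (Fin 3) F) := fun x n h1 h2 h =>
    h2 (h.trans (orderOf_dvd_of_pow_eq_one (by rw [← QuotientGroup.mk_pow, h1, QuotientGroup.mk_one])))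
  obtain ⟨k, hp, hk⟩ := FiniteField.card F p
  have hpq : p ∣ Fintype.card F := hk ▸ dvd_pow_self p k.ne_zero
  rcases h3.eq_or_lt with h | h
  · let x : Matrix.SpecialLinearGroup (Fin 3) F := ⟨H70.M3.x4 F, by simp [H70.M3.x4, Matrix.det_fin_three]⟩
    refine ⟨x, key x 4 (Subtype.ext ?_) fun h4 => ?_, H70.M3.psl_of_prod (fun t => ?_)
      fun A h1 h2 => H70.M3.prod_card_three h.symm h1 h2⟩
    · change H70.M3.x4 F ^ 4 = 1
      ext i j
      fin_cases i <;> fin_cases j <;> simp [H70.M3.x4, pow_succ]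
    · have := Nat.dvd_gcd (h ▸ hpq : p ∣ 3) h4
      exact hp.one_lt.ne' (Nat.dvd_one.1 this)
    · change _ * H70.M3.x4 F = H70.M3.x4 F * _
      ext i j
      fin_cases i <;> fin_cases j <;> simp [H70.M3.x4, Matrix.mul_apply, Fin.sum_univ_three, Matrix.diagonal_apply]
  · classical
    obtain ⟨a, ha⟩ : ∃ a : F, a ∉ ({0, 1, -1} : Finset F) := by
      by_contra hn
      push Not at hn
      have := (Finset.card_le_card (fun a _ => hn a : Finset.univ ⊆ _)).trans Finset.card_le_three
      rw [Finset.card_univ] at this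
      omega
    simp only [Finset.mem_insert, Finset.mem_singleton, not_or] at ha
    have h1 : a * a ≠ 1 := fun e => (mul_self_eq_one_iff.1 e).elim ha.2.1 ha.2.2
    have e : H70.M3.dg a = Matrix.diagonal ![a, 1, a⁻¹] := by
      ext i j
      fin_cases i <;> fin_cases j <;> simp [H70.M3.dg]
    let x : Matrix.SpecialLinearGroup (Fin 3) F := ⟨H70.M3.dg a, by simp [H70.M3.dg, Matrix.det_fin_three, ha.1]⟩
    refine ⟨x, key x (Fintype.card F - 1) (Subtype.ext ?_) fun h4 => ?_, H70.M3.psl_of_prod (fun t => ?_)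
      fun A h2 h3 => H70.M3.prod_dg ha.1 h1 h2 h3⟩
    · change H70.M3.dg a ^ _ = 1
      rw [e, Matrix.diagonal_pow, ← Matrix.diagonal_one]
      congr 1
      ext i
      fin_cases i <;> simp [FiniteField.pow_card_sub_one_eq_one a ha.1]
    · have := (Nat.dvd_sub hpq h4)
      rw [show Fintype.card F - (Fintype.card F - 1) = 1 by omega] at this
      exact hp.one_lt.ne' (Nat.dvd_one.1 this)
    · change _ * H70.M3.dg a = H70.M3.dg a * _
      rw [e, Matrix.diagonal_mul_diagonal, Matrix.diagonal_mul_diagonal]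
      simp only [mul_comm]

end Cfsg.Agent.S2459
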