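import Cfsg.Statements.S2461
import Cfsg.Agent.H68.Ore4

set_option autoImplicit false
open Cfsg

namespace Cfsg.Agent.S2461

/-- A form of Thompson's conjecture for the simple Chevalley groups G₂(q), q ≥ 3 (covering the non-identity elements), with a semisimple class: for F a finite field of characteristic p with at least 3 elements there is an element x of the Chevalley group of type G₂ over F of order prime to p such that every non-identity element of that group is a product of two conjugates of x. -/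
theorem result {F : Type*} [Field F] [Fintype F] (p : ℕ) [Fact p.Prime] [CharP F p] (h3 : 3 ≤ Fintype.card F) :
    ∃ x : Cfsg.Lie.chevG2.group F, ¬ p ∣ orderOf x ∧ ∀ g : Cfsg.Lie.chevG2.group F, g ≠ 1 → ∃ u v : Cfsg.Lie.chevG2.group F, g = (u * x * u⁻¹) * (v * x * v⁻¹) := by
  classical
  have : H65.Tab Lie.chevG2 := H65.tabG2
  have : H65.Comm Lie.chevG2 := H65.commG2
  have hK : ∃ t : F, t ≠ 0 ∧ t ≠ 1 := by
    obtain ⟨t, h⟩ := Fintype.exists_ne_of_one_lt_card (α := {t : F // t ≠ 0})
      (by rw [Fintype.card_subtype_compl, Fintype.card_subtype_eq]; omega) ⟨1, one_ne_zero⟩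
    exact ⟨t, t.2, fun e => h (Subtype.ext e)⟩
  have := H67.isSimpleGroup_chev (D := Lie.chevG2) F (by simp) fun _ => hK
  refine H68.Gow.chev2 (D := Lie.chevG2) hK ⟨0, by decide⟩ ⟨1, by decide⟩ [0, 1, 0, 1, 0, 1] [6, 8, 9, 10, 11]
    [9, 10, 11] 8 [(9, -1, 1, 2), (11, 1, 1, 3), (10, 2, 2, 3)] (by decide +kernel) (by decide +kernel)
    (by decide +kernel) (by decide +kernel) fun t ht r hr => ?_
  have h : t⁻¹ ^ 4 ≠ t⁻¹ ^ 3 := fun e => ht (by rwa [pow_succ, mul_eq_left, inv_eq_one] at e)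
  have h' : t⁻¹ ^ 2 ≠ t⁻¹ ^ 3 := fun e => ht (by rwa [pow_succ _ 2, left_eq_mul, inv_eq_one] at e)
  simp only [List.mem_cons, List.not_mem_nil, or_false] at hr
  rcases hr with rfl | rfl | rfl | rfl | rfl
  · rw [show Lie.chevG2.cartan _ 6 = -3 by decide +kernel, show Lie.chevG2.cartan _ 6 = 2 by decide +kernel]
    exact .inr (.inr (.inr (.inr (.inr ⟨rfl, by rwa [zpow_ofNat, ← inv_pow, ← pow_mul]⟩))))
  · exact .inr (.inr (.inl (by decide +kernel)))
  · exact .inr (.inl (by decide +kernel))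
  · rw [show Lie.chevG2.cartan _ 10 = 3 by decide +kernel, show Lie.chevG2.cartan _ 10 = -1 by decide +kernel]
    exact .inr (.inr (.inr (.inr (.inl ⟨rfl, by rwa [zpow_neg_one]⟩))))
  · rw [show Lie.chevG2.cartan _ 11 = 0 by decide +kernel, show Lie.chevG2.cartan _ 11 = 1 by decide +kernel]
    exact .inl ⟨rfl, by rwa [zpow_one]⟩

end Cfsg.Agent.S2461
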