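import Cfsg.Statements.S2462
import Cfsg.Agent.H68.OreD4

set_option autoImplicit false
open Cfsg

namespace Cfsg.Agent.S2462

/-- A form of Thompson's conjecture for the triality groups ³D₄(q) (covering the non-identity elements) with a semisimple class: for q a power of the prime p and K the field with q³ elements there is an element x of ³D₄(q) (realised over K) of order prime to p such that every non-identity element of ³D₄(q) is a product of two conjugates of x. -/
theorem result {K : Type*} [Field K] [Fintype K] (p : ℕ) [Fact p.Prime] [CharP K p] (q : ℕ) (hq : IsPrimePow q) (hK : Fintype.card K = q ^ 3) :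
    ∃ x : Cfsg.Lie.twistedD4 K q, ¬ p ∣ orderOf x ∧ ∀ g : Cfsg.Lie.twistedD4 K q, g ≠ 1 → ∃ u v : Cfsg.Lie.twistedD4 K q, g = (u * x * u⁻¹) * (v * x * v⁻¹) := by
  obtain ⟨f, hf⟩ := H68.exists_frob hq hK
  have := Fintype.ofFinite (f.eqLocusField (RingHom.id K))
  obtain rfl : Fintype.card (f.eqLocusField (RingHom.id K)) = q := by
    rw [← H68.card_fix hq.one_lt hK, ← Nat.card_eq_fintype_card]
    exact Nat.card_congr (Equiv.subtypeEquivRight fun t => by rw [← hf]; rfl)
  exact H68.Gow.ore_D4 p hK

end Cfsg.Agent.S2462
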