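import Cfsg.Statements.S2463
import Cfsg.Agent.H68.OreF2
import Cfsg.Agent.H68.OreT5

set_option autoImplicit false
open Cfsg

namespace Cfsg.Agent.S2463

/-- A form of Thompson's conjecture for the simple groups of type ²F₄ (covering the non-identity elements) with a semisimple class: if M is a large Ree group ²F₄(2^(2m+1)) with m ≥ 1, or the Tits group, then there is an element x of M of odd order such that every non-identity element of M is a product of two conjugates of x. -/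
theorem result {M : Type*} [Group M] [Finite M] (hM : Cfsg.Lie.Iso2F4 M ∨ Cfsg.Lie.IsoTits M) :
    ∃ x : M, Odd (orderOf x) ∧ ∀ g : M, g ≠ 1 → ∃ u v : M, g = (u * x * u⁻¹) * (v * x * v⁻¹) := by
  have key : ∀ {G : Type} [Group G] {H : Subgroup G} (e : M ≃* H) (x : H), Odd (orderOf x) →
      (∀ g ≠ 1, ∃ u v, g = u * x * u⁻¹ * (v * x * v⁻¹)) →
      ∃ x : M, Odd (orderOf x) ∧ ∀ g : M, g ≠ 1 → ∃ u v : M, g = (u * x * u⁻¹) * (v * x * v⁻¹) := fun e x h1 h2 =>
    ⟨e.symm x, by rwa [e.symm.orderOf_eq], fun g hg => by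
      obtain ⟨u, v, h⟩ := h2 (e g) (by simpa using hg)
      exact ⟨e.symm u, e.symm v, by simpa using congrArg e.symm h⟩⟩
  rcases hM with ⟨K, _, _, m, hm, hK, ⟨e⟩⟩ | ⟨⟨e⟩⟩
  · have := H68.charP_two hK
    obtain ⟨x, h1, h2⟩ := H68.Gow.ore_F4 hm hK
    exact key e x (Nat.odd_iff.2 (Nat.two_dvd_ne_zero.1 h1)) h2
  · obtain ⟨x, h1, h2⟩ := H68.OreT.ore_T
    exact key e x h1 h2

end Cfsg.Agent.S2463
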