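import Cfsg.Statements.S2466
import Cfsg.Agent.Base
import Cfsg.Agent.H91.AltSpectrum

set_option autoImplicit false
open Cfsg

namespace Cfsg.Agent.S2466

theorem exists_dvd {p : ℕ} (hp : p.Prime) (t : Multiset ℕ) (h : p ∣ t.lcm) : ∃ a ∈ t, p ∣ a := by
  induction t using Multiset.induction_on with
  | empty => simp at h; exact absurd h hp.ne_one
  | cons a t ih =>
    rw [Multiset.lcm_cons] at h
    rcases (hp.dvd_lcm (a := a) (b := t.lcm)).mp h with h | h
    · exact ⟨a, by simp, h⟩
    · obtain ⟨b, hb, hpb⟩ := ih h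
      exact ⟨b, by simp [hb], hpb⟩


/-- Adjacency of odd primes in the prime graph of the alternating groups: let r ≠ s be odd primes at most n. The alternating group of degree n has an element of order r·s if and only if r + s ≤ n. -/
theorem result (n r s : ℕ) (hr : r.Prime) (hs : s.Prime) (hr2 : r ≠ 2) (hs2 : s ≠ 2) (hrs : r ≠ s) (hrn : r ≤ n) (hsn : s ≤ n) :
    (r * s ∈ Set.range (orderOf : alternatingGroup (Fin n) → ℕ)) ↔ r + s ≤ n := by
  rw [H91.mem_range_orderOf_alternating, Fintype.card_fin]
  have hcop : Nat.Coprime r s := (Nat.coprime_primes hr hs).mpr hrs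
  constructor
  · rintro ⟨t, h1, h2, -, h4⟩
    obtain ⟨a, ha, hra⟩ := exists_dvd hr t (h4 ▸ Dvd.intro _ rfl)
    obtain ⟨b, hb, hsb⟩ := exists_dvd hs t (h4 ▸ Dvd.intro_left _ rfl)
    have ha2 := h2 a ha
    have hb2 := h2 b hb
    by_cases hab : a = b
    · subst hab
      have h5 := Nat.le_of_dvd (by omega) (hcop.mul_dvd_of_dvd_of_dvd hra hsb)
      have h6 := Multiset.single_le_sum (fun x _ => Nat.zero_le x) a ha
      have h7 := Nat.add_le_mul hr.two_le hs.two_le
      omega
    · obtain ⟨t', rfl⟩ := Multiset.exists_cons_of_mem ha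
      have hb' : b ∈ t' := by
        rcases Multiset.mem_cons.mp hb with h | h
        · exact absurd h.symm hab
        · exact h
      have h6 := Multiset.single_le_sum (fun x _ => Nat.zero_le x) b hb'
      have h7 := Nat.le_of_dvd (by omega) hra
      have h8 := Nat.le_of_dvd (by omega) hsb
      rw [Multiset.sum_cons] at h1
      omega
  · intro h
    refine ⟨{r, s}, by simpa using h, ?_, ?_, ?_⟩
    · simp [hr.two_le, hs.two_le]
    · have h1 := hr.odd_of_ne_two hr2
      have h2 := hs.odd_of_ne_two hs2
      simp only [Multiset.insert_eq_cons, Multiset.sum_cons, Multiset.sum_singleton,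
        Multiset.card_cons, Multiset.card_singleton]
      exact (h1.add_odd h2).add (by decide)
    · simp only [Multiset.insert_eq_cons, Multiset.lcm_cons, Multiset.lcm_singleton, normalize_eq]
      exact hcop.lcm_eq_mul

end Cfsg.Agent.S2466
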