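import Cfsg.Statements.S2467
import Cfsg.Agent.Base
import Cfsg.Agent.H91.AltSpectrum

set_option autoImplicit false
open Cfsg

namespace Cfsg.Agent.S2467

theorem exists_dvd {p : ℕ} (hp : p.Prime) (t : Multiset ℕ) (h : p ∣ t.lcm) : ∃ a ∈ t, p ∣ a := by
  induction t using Multiset.induction_on with
  | empty => simp at h; exact absurd h hp.ne_one
  | cons a t ih =>
    rw [Multiset.lcm_cons] at h
    rcases (hp.dvd_lcm (a := a) (b := t.lcm)).mp h with h | h
    · exact ⟨a, by simp, h⟩
    · obtain ⟨b, hb, hpb⟩ := ih h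
      exact ⟨b, by simp [hb], hpb⟩


/-- Adjacency of 2 and an odd prime in the prime graph of the alternating groups: let r be an odd prime at most n, with n ≥ 4. The alternating group of degree n has an element of order 2r if and only if r + 4 ≤ n. -/
theorem result (n r : ℕ) (hn : 4 ≤ n) (hr : r.Prime) (hr2 : r ≠ 2) (hrn : r ≤ n) :
    (2 * r ∈ Set.range (orderOf : alternatingGroup (Fin n) → ℕ)) ↔ r + 4 ≤ n := by
  rw [H91.mem_range_orderOf_alternating, Fintype.card_fin]
  have hodd := Nat.odd_iff.mp (hr.odd_of_ne_two hr2)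
  have hr1 := hr.two_le
  have aux : ∀ t : Multiset ℕ, (∀ a ∈ t, 2 ≤ a) → (t.sum + t.card) % 2 = 1 → 2 ≤ t.sum := by
    intro t h1 h2
    have : t ≠ 0 := by rintro rfl; simp at h2
    obtain ⟨a, ha⟩ := Multiset.exists_mem_of_ne_zero this
    exact (h1 a ha).trans (Multiset.single_le_sum (fun x _ => Nat.zero_le x) a ha)
  constructor
  · rintro ⟨t, h1, h2, h3, h4⟩
    rw [Nat.even_iff] at h3
    obtain ⟨a, ha, hra⟩ := exists_dvd hr t (h4 ▸ Dvd.intro_left _ rfl)
    obtain ⟨b, hb, hsb⟩ := exists_dvd Nat.prime_two t (h4 ▸ Dvd.intro _ rfl)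
    have ha2 := h2 a ha
    have hb2 := h2 b hb
    obtain ⟨t', rfl⟩ := Multiset.exists_cons_of_mem ha
    by_cases hae : 2 ∣ a
    · have hcop : Nat.Coprime 2 r := (Nat.coprime_primes Nat.prime_two hr).mpr (Ne.symm hr2)
      have h5 := Nat.le_of_dvd (by omega) (hcop.mul_dvd_of_dvd_of_dvd hae hra)
      rw [Multiset.sum_cons, Multiset.card_cons] at h3
      rw [Multiset.sum_cons] at h1
      have := aux t' (fun x hx => h2 x (by simp [hx])) (by omega)
      omega
    · have hb' : b ∈ t' := by
        rcases Multiset.mem_cons.mp hb with h | h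
        · exact absurd (h ▸ hsb) hae
        · exact h
      obtain ⟨t'', rfl⟩ := Multiset.exists_cons_of_mem hb'
      simp only [Multiset.sum_cons, Multiset.card_cons] at h1 h3
      have := aux t'' (fun x hx => h2 x (by simp [hx])) (by omega)
      have h7 := Nat.le_of_dvd (by omega) hra
      omega
  · intro h
    refine ⟨{r, 2, 2}, by simp; omega, ?_, ?_, ?_⟩
    · simp [hr.two_le]
    · simp only [Multiset.insert_eq_cons, Multiset.sum_cons, Multiset.sum_singleton,
        Multiset.card_cons, Multiset.card_singleton, Nat.even_iff]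
      omega
    · have hcop : Nat.Coprime r 2 := (Nat.coprime_primes hr Nat.prime_two).mpr hr2
      simp only [Multiset.insert_eq_cons, Multiset.lcm_cons, Multiset.lcm_singleton, normalize_eq,
        lcm_same]
      rw [mul_comm]; exact hcop.lcm_eq_mul

end Cfsg.Agent.S2467
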