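import Cfsg.Agent.Base
import Cfsg.Statements.S2471
import Cfsg.Agent.H61.PSLMax

set_option autoImplicit false
open Cfsg

namespace Cfsg.Agent.S2471

open H61 MulAction Matrix MatrixGroups

/-- In PSL(2,q) with q odd, the characteristic p is isolated from 2 in the prime graph: for F a finite field of odd characteristic p with at least 5 elements, PSL(2,F) has no element of order 2p. -/
theorem result {F : Type*} [Field F] [Fintype F] (p : ℕ) [Fact p.Prime] [CharP F p] (hp : p ≠ 2) (h5 : 5 ≤ Fintype.card F) (g : Matrix.ProjectiveSpecialLinearGroup (Fin 2) F) :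
    orderOf g ≠ 2 * p := by
  intro h
  obtain ⟨y, m⟩ := main_psl (F := F) p
  have hp0 := (Fact.out : p.Prime).pos
  rcases m.orderOf_cases g with h1 | h1 | h1
  · have := Nat.le_of_dvd hp0 (orderOf_dvd_of_pow_eq_one h1); omega
  · exact m.coprime_d ((Dvd.intro_left _ h.symm).trans h1)
  · exact m.coprime_n ((Dvd.intro_left _ h.symm).trans h1)

end Cfsg.Agent.S2471
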