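import Cfsg.Statements.S2474
import Cfsg.Agent.H53.OSpec

set_option autoImplicit false
open Cfsg

namespace Cfsg.Agent.S2474

open H53

variable {F : Type*} [Field F] [Finite F] {K : Type*} [Field K] [Algebra F K] [IsAlgClosed K]
  [Algebra.IsAlgebraic F K] {p n r s : ℕ} {L L' : Type*} [Group L] [Finite L] [Group L'] [Finite L']
  (h2 : (2 : F) ≠ 0) (hT : Tor p Kˣ) (hQ : QP p (Nat.card F)) (hO : JFam p L (OD (K := K) F n))
  (hS : JFam p L' (SpD (G := Kˣ) (Nat.card F) n))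
include h2 hT hQ hO hS

theorem caseA (hr : r.Prime) (hr2 : r ≠ 2) (hrp : r ≠ p) (hs : s.Prime) (hs2 : s ≠ 2) (hsp : s ≠ p)
    (hrs : r ≠ s) :
    r * s ∈ Set.range (orderOf : L → ℕ) ↔ r * s ∈ Set.range (orderOf : L' → ℕ) := by
  have hro := hr.odd_of_ne_two hr2
  have hso := hs.odd_of_ne_two hs2
  have hc := (Nat.coprime_primes hr hs).2 hrs
  obtain ⟨u, hu⟩ := hT.ex_prime hr hrp
  obtain ⟨v, hv⟩ := hT.ex_prime hs hsp
  constructor
  · intro h
    obtain ⟨m, hm, h3⟩ := hO.exists_of_mem' h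
    have := hm.2.2
    rcases (hm.fd h2).exists_two hT hQ h3 hr hr2 hrp (Dvd.intro _ rfl) hs hs2 hsp
      (Dvd.intro_left _ rfl) hrs with ⟨d, h4, h5⟩ | ⟨d, e, h4, h5, h6⟩
    · obtain ⟨w, hw⟩ := hT.ex _ (h4.not_dvd hQ hT.prime)
      obtain ⟨ε, h7⟩ := h4.exists_tb hw
      exact hS.mem_range_of_dvd ((h7.fd one_pos).pad_sp (n' := d) (by simp) (by omega)) fun N hN =>
        hN.dvd_of_tb_odd (Multiset.le_add_right _ _) h7.pos (hro.mul hso) (hw ▸ dvd_rfl)
    · obtain ⟨ε, h7⟩ := h4.exists_tb hu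
      obtain ⟨ε', h8⟩ := h5.exists_tb hv
      exact hS.mem_range_of_dvd (((h7.fd one_pos).add (h8.fd one_pos)).pad_sp (n' := d + e)
        (by simp; ring) (by omega)) fun N hN => hc.mul_dvd_of_dvd_of_dvd
        (hN.dvd_of_tb_odd ((Multiset.le_add_right _ _).trans (Multiset.le_add_right _ _)) h7.pos hro
          (hu ▸ dvd_rfl))
        (hN.dvd_of_tb_odd ((Multiset.le_add_left _ _).trans (Multiset.le_add_right _ _)) h8.pos hso
          (hv ▸ dvd_rfl))
  · intro h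
    obtain ⟨m, hm, h3⟩ := hS.exists_of_mem' h
    have := hm.2
    rcases hm.1.exists_two hT hQ h3 hr hr2 hrp (Dvd.intro _ rfl) hs hs2 hsp
      (Dvd.intro_left _ rfl) hrs with ⟨d, h4, h5⟩ | ⟨d, e, h4, h5, h6⟩
    · obtain ⟨w, hw⟩ := hT.ex _ (h4.not_dvd hQ hT.prime)
      obtain ⟨ε, h7⟩ := h4.exists_tb hw
      obtain ⟨δ, h8⟩ := exists_rd_tb_odd h2 h7 (hw ▸ hro.mul hso)
      exact hO.mem_range_of_dvd (h8.pad h2 (by simp) (by simp; omega)) fun N hN =>
        hN.dvd_of_tb_odd (Multiset.le_add_right _ _) h7.pos (hro.mul hso) (hw ▸ dvd_rfl)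
    · obtain ⟨ε, h7⟩ := h4.exists_tb hu
      obtain ⟨ε', h8⟩ := h5.exists_tb hv
      obtain ⟨δ, h9⟩ := exists_rd_tb_odd h2 h7 (hu ▸ hro)
      obtain ⟨δ', h10⟩ := exists_rd_tb_odd h2 h8 (hv ▸ hso)
      exact hO.mem_range_of_dvd (((h9.add h2 h10).congr rfl (mul_one 1)).pad h2 (by simp)
        (by simp; omega)) fun N hN => hc.mul_dvd_of_dvd_of_dvd
        (hN.dvd_of_tb_odd ((Multiset.le_add_right _ _).trans (Multiset.le_add_right _ _)) h7.pos hro
          (hu ▸ dvd_rfl))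
        (hN.dvd_of_tb_odd ((Multiset.le_add_left _ _).trans (Multiset.le_add_right _ _)) h8.pos hso
          (hv ▸ dvd_rfl))

theorem caseB (hs : s.Prime) (hs2 : s ≠ 2) (hsp : s ≠ p) :
    s * p ∈ Set.range (orderOf : L → ℕ) ↔ s * p ∈ Set.range (orderOf : L' → ℕ) := by
  have hso := hs.odd_of_ne_two hs2
  have hc := (Nat.coprime_primes hs hT.prime).2 hsp
  obtain ⟨v, hv⟩ := hT.ex_prime hs hsp
  constructor
  · intro h
    obtain ⟨m, hm, h3⟩ := hO.exists_of_mem' h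
    have := hm.2.2
    obtain ⟨d, h4, h5⟩ := (hm.fd h2).exists_char hT hQ h3 hs hs2 hsp (Dvd.intro _ rfl)
      (Dvd.intro_left _ rfl)
    obtain ⟨ε, h7⟩ := h4.exists_tb hv
    exact hS.mem_range_of_dvd (((h7.fd one_pos).add (fd_unip two_pos (by decide))).pad_sp
      (n' := d + 1) (by simp; ring) (by omega)) fun N hN => hc.mul_dvd_of_dvd_of_dvd
        (hN.dvd_of_tb_odd ((Multiset.le_add_right _ _).trans (Multiset.le_add_right _ _)) h7.pos
          hso (hv ▸ dvd_rfl)) (hN.p_dvd hT.prime (u := 1) (by simp) le_rfl)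
  · intro h
    obtain ⟨m, hm, h3⟩ := hS.exists_of_mem' h
    have := hm.2
    obtain ⟨d, h4, h5⟩ := hm.1.exists_char hT hQ h3 hs hs2 hsp (Dvd.intro _ rfl)
      (Dvd.intro_left _ rfl)
    obtain ⟨ε, h7⟩ := h4.exists_tb hv
    obtain ⟨δ, h8⟩ := exists_rd_tb_odd h2 h7 (hv ▸ hso)
    exact hO.mem_range_of_dvd (((h8.add h2 (rd_unip (k := 3) h2 (by decide) (.inl rfl))).congr rfl
      (mul_one 1)).pad h2 (by simp) (by simp; omega)) fun N hN => hc.mul_dvd_of_dvd_of_dvd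
        (hN.dvd_of_tb_odd ((Multiset.le_add_right _ _).trans (Multiset.le_add_right _ _)) h7.pos
          hso (hv ▸ dvd_rfl)) (hN.p_dvd hT.prime (u := 1) (k := 3) (by simp) (by norm_num))

omit hT hQ hO hS in
theorem orderOf_neg_one' : orderOf (-1 : Kˣ) = 2 :=
  orderOf_eq_prime (by simp) (units_neg_one_ne_one h2)

theorem caseC (hn : 2 ≤ n) (hp : p ≠ 2) :
    2 * p ∈ Set.range (orderOf : L → ℕ) ↔ 2 * p ∈ Set.range (orderOf : L' → ℕ) := by
  have hc := (Nat.coprime_primes Nat.prime_two hT.prime).2 hp.symm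
  have key : ∀ (m : Multiset (Kˣ × ℕ)) k l N, 2 ≤ k → (1, k) ∈ m → (-1, l) ∈ m → JSc p m N →
      2 * p ∣ N := fun m k l N hk h3 h4 hN => hc.mul_dvd_of_dvd_of_dvd (orderOf_neg_one' (K := K) h2 ▸
    orderOf_dvd_of_pow_eq_one ((jsc_iff_jone h3).1 hN _ h4).1) (hN.p_dvd hT.prime h3 hk)
  refine iff_of_true ?_ ?_
  · obtain ⟨δ, h3⟩ := (rd_unip (K := K) (k := 3) h2 (by decide) (.inl rfl)).add_neg_pair h2
    exact hO.mem_range_of_dvd (h3.pad h2 (by simp) (by simp; omega)) fun N =>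
      key _ 3 1 N (by norm_num) (by simp) (by simp)
  · exact hS.mem_range_of_dvd (((fd_unip two_pos (by decide)).add (fd_singleton
      (neg_one_zpow_card F) (by simp) two_pos (by decide))).pad_sp (n' := 2) (by simp) hn) fun N =>
      key _ 2 2 N le_rfl (by simp) (by simp)

theorem caseD (hp : p ≠ 2) (hs : s.Prime) (hs2 : s ≠ 2) (hsp : s ≠ p) :
    2 * s ∈ Set.range (orderOf : L → ℕ) ↔ 2 * s ∈ Set.range (orderOf : L' → ℕ) := by
  have hso := hs.odd_of_ne_two hs2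
  have hc := (Nat.coprime_primes Nat.prime_two hs).2 hs2.symm
  obtain ⟨v, hv⟩ := hT.ex_prime hs hsp
  have key : ∀ (m : Multiset (Kˣ × ℕ)) d N, 0 < d → tb (Nat.card F) v d 1 ≤ m → (-1, 1) ∈ m →
      JSc p m N → 2 * s ∣ N := fun m d N hd h3 h4 hN => by
    have h5 := hN.dvd_of_tb_odd h3 hd hso (hv ▸ dvd_rfl)
    have h6 := hN.eq h4 (Multiset.mem_of_le h3 (self_mem_tb hd))
    rw [orderOf_dvd_iff_pow_eq_one.1 (hv ▸ h5 : orderOf v ∣ N)] at h6
    exact hc.mul_dvd_of_dvd_of_dvd (orderOf_neg_one' (K := K) h2 ▸ orderOf_dvd_of_pow_eq_one h6) h5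
  have four : ∀ {d : ℕ} {ε c : ℤ}, 0 < d → ε = 1 ∨ ε = -1 → 2 * c = (Nat.card F : ℤ) ^ d - ε →
      2 * s ∣ c.natAbs → TD (Nat.card F) (2 * (2 * s)) d := fun hd hε hc h =>
    ⟨hd, _, hε, by rw [← hc, Nat.cast_mul]; exact mul_dvd_mul_left _ (Int.natCast_dvd.2 h)⟩
  constructor
  · intro h
    obtain ⟨m, hm, h3⟩ := hO.exists_of_mem' h
    obtain ⟨u, d, ε, k, t, h4, hu, hk, ht, rfl⟩ := (hm.fd h2).exists_tb hT hQ h3 hs hs2 hsp
      (Dvd.intro_left _ rfl)
    obtain ⟨⟨δ, h5⟩, h6, h7⟩ := hm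
    simp only [jdeg_add, jdeg_tb, jdet_add, jdet_tb, one_mul] at h6 h7
    have h8 := Nat.le_mul_of_pos_right (2 * d) hk
    by_cases h9 : d < n
    · obtain ⟨ε', h10⟩ := (h4.td hu).exists_tb hv
      exact hS.mem_range_of_dvd (((h10.fd one_pos).add (fd_replicate (N := 2) (neg_one_zpow_card F)
        (by simp) one_pos fun _ => even_two)).pad_sp (n' := d + 1) (by simp; ring) h9) fun N =>
        key _ d N h4.pos ((Multiset.le_add_right _ _).trans (Multiset.le_add_right _ _)) (by simp)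
    · obtain rfl : d = n := by omega
      have := h4.pos
      obtain rfl : k = 1 := by nlinarith
      obtain ⟨w, rfl⟩ := ht.pos.eq_singleton (by omega)
      obtain rfl : w = 1 := by simpa using h6
      obtain ⟨c, hc'⟩ := exists_two_mul_eq (odd_card h2) d h4.eps
      have h10 := h5.zpow_eq_one h2 h4 (mul_self_ne_one_of_prime hs hs2 hu) (by simp) hc'
      have h11 := four h4.pos h4.eps hc' (h3 _ (by
        rw [jone_add, jone_tb h4.pos, jone_singleton]
        simpa using Int.natCast_dvd.1 (orderOf_dvd_iff_zpow_eq_one.2 h10)))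
      obtain ⟨w, hw⟩ := hT.ex _ (h11.not_dvd hQ hT.prime)
      obtain ⟨ε', h12⟩ := h11.exists_tb hw
      exact hS.mem_range_of_dvd ⟨h12.fd one_pos, by simp⟩ fun N hN =>
        Nat.dvd_of_mul_dvd_mul_left two_pos (hw ▸ hN.dvd_of_tb le_rfl h4.pos)
  · intro h
    obtain ⟨m, hm, h3⟩ := hS.exists_of_mem h
    obtain ⟨u, d, ε, k, t, h4, hu, hk, ht, rfl⟩ := hm.1.exists_tb hT hQ (fun k hk => h3 k hk.jsc)
      hs hs2 hsp (Dvd.intro_left _ rfl)
    have h7 := hm.2
    simp only [jdeg_add, jdeg_tb] at h7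
    have h8 := Nat.le_mul_of_pos_right (2 * d) hk
    by_cases h9 : d < n
    · obtain ⟨ε', h10⟩ := (h4.td hu).exists_tb hv
      obtain ⟨δ, h11⟩ := exists_rd_tb_odd h2 h10 (hv ▸ hso)
      obtain ⟨δ', h12⟩ := h11.add_neg_pair h2
      exact hO.mem_range_of_dvd (h12.pad h2 (by simp) (by simp; omega)) fun N =>
        key _ d N h4.pos (by rw [add_assoc, add_assoc]; exact Multiset.le_add_right _ _) (by simp)
    · obtain rfl : d = n := by omega
      have := h4.pos
      obtain rfl : k = 1 := by nlinarith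
      obtain rfl := ht.pos.eq_zero (by omega)
      obtain ⟨c, hc'⟩ := exists_two_mul_eq (odd_card h2) d h4.eps
      have h10 := h3 c.natAbs (by
        rw [add_zero]
        refine jsc_tb_half (hT.inj hQ) (orderOf_dvd_iff_pow_eq_one.1 ?_)
        have h10 := Int.natCast_dvd.1 (hc' ▸ h4.dvd)
        rwa [Int.natAbs_mul] at h10)
      have h11 := four h4.pos h4.eps hc' h10
      obtain ⟨w, hw⟩ := hT.ex _ ((h11.of_dvd (Dvd.intro_left _ rfl)).not_dvd hQ hT.prime)
      have h12 : w ^ c = 1 := orderOf_dvd_iff_zpow_eq_one.1 (hw ▸ Int.natCast_dvd.2 h10)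
      have h13 : TB (Nat.card F) w d ε := tB_of_dvd h4.pos h4.eps
        (hc' ▸ (orderOf_dvd_iff_zpow_eq_one.2 h12).mul_left 2)
      refine hO.mem_range_of_dvd (((rd_tb h2 h13 hc').congr rfl h12).pad h2 (by simp) (by simp))
        fun N hN => ?_
      rw [jsc_iff_jone (k := 1) (by simp), jone_add, jone_tb h4.pos, hw] at hN
      exact hN.1.1

omit h2 hT hQ hO hS

/-- For q odd and n ≥ 3 the simple groups PΩ(2n+1,q) and PSp(2n,q) (which have the same order but different sets of element orders) have the same prime graph: for all distinct primes r, s, one of them has an element of order r·s if and only if the other does. -/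
theorem result {F : Type*} [Field F] [Fintype F] (hodd : Odd (Fintype.card F)) (n : ℕ) (hn : 3 ≤ n) (r s : ℕ) (hr : r.Prime) (hs : s.Prime) (hrs : r ≠ s) :
    (r * s ∈ Set.range (orderOf : Cfsg.POmega F (Cfsg.quadFormOdd n F) → ℕ)) ↔ (r * s ∈ Set.range (orderOf : Cfsg.PSp n F → ℕ)) := by
  obtain ⟨p, hp⟩ := CharP.exists F
  have := Fact.mk (CharP.char_is_prime F p)
  have h2 := H58.two_ne_zero_of_odd_card hodd
  have hS := jfam_psp (F := F) (AlgebraicClosure F) p n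
  have hO := jfam_pomega_odd (F := F) (AlgebraicClosure F) p h2 (n := n) (by omega)
  have hT := tor_units F (AlgebraicClosure F) p
  have hQ := qp_card F p
  have hp2 : p ≠ 2 := by have := odd_char h2 p; rintro rfl; exact absurd this (by decide)
  wlog h : r = 2 ∨ (s ≠ 2 ∧ r ≠ p) generalizing r s
  · rw [mul_comm]
    exact this s r hs hr hrs.symm (by omega)
  by_cases hr2 : r = 2
  · subst hr2
    by_cases hsp : s = p
    · subst hsp; exact caseC h2 hT hQ hO hS (by omega) hp2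
    · exact caseD h2 hT hQ hO hS hp2 hs hrs.symm hsp
  · obtain ⟨hs2, hrp⟩ := h.resolve_left hr2
    by_cases hsp : s = p
    · subst hsp; exact caseB h2 hT hQ hO hS hr hr2 hrp
    · exact caseA h2 hT hQ hO hS hr hr2 hrp hs hs2 hsp hrs

end Cfsg.Agent.S2474
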