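import Cfsg.Statements.S2479
import Cfsg.Agent.H53.CGL

set_option autoImplicit false
open Cfsg

namespace Cfsg.Agent.S2479

/-- The number of conjugacy classes of SL(n,q): for F a finite field with q elements, the number k of conjugacy classes of SL(n,F) satisfies q^(n−1) < k and k ≤ (5/2)·q^(n−1) for n ≥ 2, and k ≤ q^(n−1) + 3q^(n−2) for n ≥ 3. -/
theorem result {F : Type*} [Field F] [Fintype F] (n : ℕ) (hn : 2 ≤ n) :
    Fintype.card F ^ (n - 1) < Nat.card (ConjClasses (Matrix.SpecialLinearGroup (Fin n) F)) ∧ 2 * Nat.card (ConjClasses (Matrix.SpecialLinearGroup (Fin n) F)) ≤ 5 * Fintype.card F ^ (n - 1) ∧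
      (3 ≤ n → Nat.card (ConjClasses (Matrix.SpecialLinearGroup (Fin n) F)) ≤ Fintype.card F ^ (n - 1) + 3 * Fintype.card F ^ (n - 2)) := by
  rw [← Nat.card_eq_fintype_card]
  obtain ⟨α, hα⟩ := Nat.exists_eq_add_one_of_ne_zero (Nat.card_pos (α := F)).ne'
  have h0 : 0 < α := by have := Finite.one_lt_card (α := F); omega
  have h1 := H53.card_sl_le (F := F) (n := n) (by omega) hα
  have h2 := fun h => Nat.le_of_mul_le_mul_left (h1.trans (H53.SB_one h0 h)) h0
  refine ⟨H53.lt_card_sl hn, ?_, hα ▸ h2⟩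
  rw [hα]
  rcases hn.lt_or_eq with h | rfl
  · have h3 := h2 h
    rw [show n - 1 = n - 2 + 1 by omega, pow_succ] at h3 ⊢
    nlinarith [Nat.zero_le ((α + 1) ^ (n - 2))]
  · have := Nat.le_of_mul_le_mul_left (h1.trans (H53.SB_one_two h0)) h0
    split_ifs at this <;> simp <;> omega

end Cfsg.Agent.S2479
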