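import Cfsg.Statements.S2481
import Cfsg.Agent.H53.CGL

set_option autoImplicit false
open Cfsg

namespace Cfsg.Agent.S2481

/-- The number of conjugacy classes of SU(n,q): for n ≥ 2, q a prime power and F the field with q² elements, the number k of conjugacy classes of SU(n,q) (the determinant-one isometries of the standard Hermitian form on F^n) satisfies q^(n−1) ≤ k ≤ 8.26·q^(n−1). -/
theorem result {F : Type*} [Field F] [Fintype F] (n q : ℕ) (hn : 2 ≤ n) (hF : Fintype.card F = q ^ 2) :
    q ^ (n - 1) ≤ Nat.card (ConjClasses (Cfsg.SU n F q)) ∧ 100 * Nat.card (ConjClasses (Cfsg.SU n F q)) ≤ 826 * q ^ (n - 1) := by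
  have hq : 2 ≤ q := by
    have := Fintype.one_lt_card (α := F)
    rcases q with _ | _ | q <;> simp_all
  refine ⟨H53.le_card_su hF (by omega), Nat.le_of_mul_le_mul_left ?_ q.succ_pos⟩
  rw [mul_left_comm]
  exact (Nat.mul_le_mul_left _ (H53.card_su_le hF (by omega))).trans (H53.SB_gu hq hn)

end Cfsg.Agent.S2481
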