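import Cfsg.Statements.S2482
import Cfsg.Agent.H53.CForm

set_option autoImplicit false
open Cfsg

namespace Cfsg.Agent.S2482

/-- The number of conjugacy classes of Sp(2n,q), q odd: for F a finite field of odd order q and n ≥ 1, the number k of conjugacy classes of Sp(2n,F) satisfies q^n ≤ k ≤ 10.8·q^n. -/
theorem result {F : Type*} [Field F] [Fintype F] (hodd : Odd (Fintype.card F)) (n : ℕ) (hn : 1 ≤ n) :
    Fintype.card F ^ n ≤ Nat.card (ConjClasses (Matrix.symplecticGroup (Fin n) F)) ∧ 5 * Nat.card (ConjClasses (Matrix.symplecticGroup (Fin n) F)) ≤ 54 * Fintype.card F ^ n := by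
  obtain ⟨p, hp⟩ := CharP.exists F
  have := Fact.mk (CharP.char_is_prime F p)
  refine ⟨(Cfsg.Agent.S2385.result rfl p n).symm.trans_le (Finite.card_subtype_le _), ?_⟩
  have h1 := H53.classes_alt (G := Matrix.symplecticGroup (Fin n) F) (fun g => Matrix.toLin' g.1)
    (H58.two_ne_zero_of_odd_card hodd) (H53.isSF_spB (Fin n) F) H53.inv_sp
    fun a b => (H53.isConj_sp_iff_iso a b).2
  have h2 : Module.finrank F (Fin n ⊕ Fin n → F) = 2 * n := by simp [two_mul]
  have h3 : 3 ≤ Fintype.card F := by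
    have := Fintype.one_lt_card (α := F)
    obtain ⟨m, hm⟩ := hodd
    omega
  rw [h2, Nat.card_eq_fintype_card (α := F)] at h1
  have h4 := (Nat.cast_le.2 h1).trans (H53.bd2_sp h3 (N := 2 * n) (by omega) n).1
  have : (5 : ℝ) * Nat.card (ConjClasses (Matrix.symplecticGroup (Fin n) F)) ≤
    54 * Fintype.card F ^ n := by linarith
  exact_mod_cast this

end Cfsg.Agent.S2482
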