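import Cfsg.Statements.S2483
import Cfsg.Agent.H68.CNCP
import Cfsg.Agent.H68.CNCell
import Cfsg.Agent.H68.CNGrow
import Cfsg.Agent.H68.CNId
import Cfsg.Agent.H23.CNPerm
import Cfsg.Agent.H23.CNR1
import Cfsg.Agent.H23.CNQ4
import Cfsg.Agent.H48.CNDec
import Cfsg.Agent.H61.CNTr

set_option autoImplicit false
open Cfsg

namespace Cfsg.Agent.S2483

/-- The covering number of PSL(n,q) is n: let F be a finite field with q ≥ 4 elements and n ≥ 3. For every non-identity element x of PSL(n,F), every element of PSL(n,F) is a product of n conjugates of x; and for some non-identity x, some element is not a product of n − 1 conjugates of x. -/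
theorem result {F : Type*} [Field F] [Fintype F] (h4 : 4 ≤ Fintype.card F) (n : ℕ) (hn : 3 ≤ n) :
    (∀ x : Matrix.ProjectiveSpecialLinearGroup (Fin n) F, x ≠ 1 → ∀ g : Matrix.ProjectiveSpecialLinearGroup (Fin n) F, ∃ f : Fin n → Matrix.ProjectiveSpecialLinearGroup (Fin n) F, g = (List.ofFn fun i => f i * x * (f i)⁻¹).prod) ∧
    (∃ x : Matrix.ProjectiveSpecialLinearGroup (Fin n) F, x ≠ 1 ∧ ∃ g : Matrix.ProjectiveSpecialLinearGroup (Fin n) F, ∀ f : Fin (n - 1) → Matrix.ProjectiveSpecialLinearGroup (Fin n) F, g ≠ (List.ofFn fun i => f i * x * (f i)⁻¹).prod) := by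
  have hG := H68.CN.jobGROW (H23.CNE.jobPERM H23.CNE.jobEKS) H68.CN.jobCELL0 H68.CN.jobCELL1
  exact ⟨H61.CN.jobTR (H68.CN.upper_of hG H48.CN.jobDEC H23.CNR.jobR1 H23.CNQ.jobQM H23.CNQ.jobQ6
    H23.CNQ.jobQ4 H68.CN.jobID2 H68.CN.jobID3 H68.CN.t2St (H68.CN.jobPT H68.CN.t2St)
    (H68.CN.jobEV hG H68.CN.t2St)) F h4 n hn, H61.CN.jobLOW F n hn⟩

end Cfsg.Agent.S2483
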