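import Cfsg.Agent.Base
import Cfsg.Statements.S2485
import Cfsg.Agent.H61.PGLMax
import Cfsg.Agent.H61.PSLOdd

set_option autoImplicit false
open scoped Pointwise
open Cfsg

namespace Cfsg.Agent.S2485

open H61 MulAction Matrix MatrixGroups Pointwise

theorem trace_eq_zero {F : Type*} [Field F] {g : GL (Fin 2) F} (h1 : ProjGenLinGroup.mk g ≠ 1)
    (h2 : ProjGenLinGroup.mk g * ProjGenLinGroup.mk g = 1) : g 0 0 + g 1 1 = 0 := by
  by_contra h
  rw [← map_mul, ← ProjGenLinGroup.mk_one, eq_comm, ProjGenLinGroup.mk_eq_mk_iff] at h2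
  obtain ⟨u, hu⟩ := h2
  have h3 : ∀ i j, (GeneralLinearGroup.scalar (Fin 2) u) i j = (g * g) i j := fun i j => by
    rw [← hu, one_mul]
  have h4 := h3 0 1
  have h5 := h3 1 0
  have h6 := h3 0 0
  have h7 := h3 1 1
  simp [Matrix.mul_apply, Fin.sum_univ_two] at h4 h5 h6 h7
  have h8 : g 0 1 = 0 := mul_left_cancel₀ h (by linear_combination -h4)
  have h9 : g 1 0 = 0 := mul_left_cancel₀ h (by linear_combination -h5)
  have h10 : g 0 0 = g 1 1 := mul_left_cancel₀ h (by linear_combination h7 - h6)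
  have h11 : g 0 0 ≠ 0 := fun h11 => h (by rw [← h10, h11, add_zero])
  refine h1 ?_
  rw [← ProjGenLinGroup.mk_scalar (Units.mk0 _ h11)]
  congr 1
  ext i j
  fin_cases i <;> fin_cases j <;> simp [h8, h9, h10]

theorem commute_of_anti {F : Type*} [Field F] {g w : GL (Fin 2) F}
    (h : (w : Matrix (Fin 2) (Fin 2) F) * g = -(g * w)) :
    ProjGenLinGroup.mk g * ProjGenLinGroup.mk w = ProjGenLinGroup.mk w * ProjGenLinGroup.mk g := by
  rw [← map_mul, ← map_mul, ProjGenLinGroup.mk_eq_mk_iff]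
  refine ⟨-1, Units.ext ?_⟩
  rw [Units.val_mul, Units.val_mul, Units.val_mul, h]
  ext i j
  simp [Matrix.mul_apply, Matrix.diagonal_apply]

theorem exists_common {F : Type*} [Field F] (h2 : (2 : F) ≠ 0) {s t : PGL(2, F)} (hs1 : s ≠ 1)
    (hs : s * s = 1) (ht1 : t ≠ 1) (ht : t * t = 1) (hfix : ∀ x : P1 F, s • x ≠ x) :
    ∃ w : PGL(2, F), w ≠ 1 ∧ s * w = w * s ∧ t * w = w * t := by
  induction s using ProjGenLinGroup.induction_on with | mk s =>
  induction t using ProjGenLinGroup.induction_on with | mk t =>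
  have h3 := trace_eq_zero hs1 hs
  have h4 := trace_eq_zero ht1 ht
  have h5 : s 1 1 = -s 0 0 := by linear_combination h3
  have h6 : t 1 1 = -t 0 0 := by linear_combination h4
  have h7 : s 1 0 ≠ 0 := fun h => hfix (pinf F) (by rw [pgl_mk_smul, gl_smul_pinf_eq_pinf, h])
  set a := s 0 1 * t 1 0 - s 1 0 * t 0 1 with ha
  set b := 2 * (s 0 0 * t 0 1 - s 0 1 * t 0 0) with hb
  set c := 2 * (s 1 0 * t 0 0 - s 0 0 * t 1 0) with hc
  by_cases hd : a * -a - b * c = 0
  · by_cases hc0 : c = 0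
    · have ha0 : a = 0 := by
        rw [hc0] at hd
        exact pow_eq_zero_iff two_ne_zero |>.1 (by linear_combination -hd)
      have hb0 : b = 0 := mul_left_cancel₀ h7 (by
        linear_combination -2 * s 0 0 * (ha0 - ha) - s 0 1 * (hc0 - hc) + s 1 0 * hb)
      refine ⟨_, hs1, rfl, ?_⟩
      rw [← map_mul, ← map_mul]
      congr 1
      ext i j
      fin_cases i <;> fin_cases j <;> simp [Matrix.mul_apply, Fin.sum_univ_two, h5, h6]
      · linear_combination ha - ha0
      · linear_combination hb - hb0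
      · linear_combination hc - hc0
      · linear_combination ha0 - ha
    · refine absurd ?_ (hfix (pt (a / c)))
      rw [pgl_mk_smul, gl_smul_pt_eq_pt, h5]
      field_simp
      linear_combination s 1 0 * hd + 2 * s 0 0 * c * ha + s 0 1 * c * hc + s 1 0 * c * hb
  · let w : GL (Fin 2) F := GeneralLinearGroup.mkOfDetNeZero !![a, b; c, -a]
      (by rwa [det_fin_two_of])
    refine ⟨ProjGenLinGroup.mk w, fun h => ?_, commute_of_anti ?_, commute_of_anti ?_⟩
    · rw [← ProjGenLinGroup.mk_one, eq_comm, ProjGenLinGroup.mk_eq_mk_iff] at h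
      obtain ⟨u, hu⟩ := h
      have h8 : ∀ i j, (GeneralLinearGroup.scalar (Fin 2) u) i j = w i j := fun i j => by
        rw [← hu, one_mul]
      have h9 := h8 0 0
      have h10 := h8 1 1
      simp [w] at h9 h10
      exact mul_ne_zero h2 u.ne_zero (by linear_combination h9 + h10)
    · ext i j
      fin_cases i <;> fin_cases j <;> simp [w, Matrix.mul_apply, Fin.sum_univ_two, h5, ha, hb, hc] <;>
        ring
    · ext i j
      fin_cases i <;> fin_cases j <;> simp [w, Matrix.mul_apply, Fin.sum_univ_two, h6, ha, hb, hc] <;>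
        ring

theorem aux {F : Type*} [Field F] [Finite F] {k : ℕ} (hk : Nat.card F + 1 = 2 ^ k)
    (hq : 3 ≤ Nat.card F) (H : Sylow 2 PGL(2, F)) (x : PGL(2, F)) :
    (H : Subgroup PGL(2, F)) ⊓ MulAut.conj x • (H : Subgroup _) ≠ ⊥ := by
  have hk0 : k ≠ 0 := by rintro rfl; omega
  have hodd : Odd (Nat.card F) := by
    have : 2 ∣ Nat.card F + 1 := hk ▸ dvd_pow_self 2 hk0
    exact Nat.odd_iff.2 (by omega)
  have h2 : (2 : F) ≠ 0 := two_ne_zero_iff_odd.2 hodd
  obtain ⟨p, hp, hc⟩ := exists_char F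
  have hp2 : p ≠ 2 := char_ne_two_iff.2 h2
  obtain ⟨y, m⟩ := main_pgl (F := F) p
  have h := hur_pglF F p
  have h1 : 2 * (Nat.card F + 1) ≤ Nat.card H := by
    refine Nat.le_of_dvd Nat.card_pos ?_
    rw [hk, ← pow_succ']
    refine H.pow_dvd_card_of_pow_dvd_card ?_
    rw [m.card_eq, hk, pow_succ]
    obtain ⟨j, hj⟩ := hodd
    exact Nat.mul_dvd_mul_left _ (Dvd.dvd.mul_left ⟨j, by omega⟩ _)
  obtain ⟨a, b, hab, h3, h4, -⟩ := h.pgroup_le_pairStab Nat.prime_two hp2.symm H.isPGroup'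
    (fun hb => by rw [hb, Subgroup.card_bot] at h1; omega)
  have h5 := card_pairStab_le (G := PGL(2, F)) hab
  have h6 := Subgroup.card_le_of_le h4
  rcases m.tor_cases hab (fun hb => h3 (by simp [hb])) with ⟨-, -, h7⟩ | ⟨ha, hb, -, h7⟩
  · omega
  have h8 := Subgroup.eq_of_le_of_card_ge h4 (by omega)
  obtain ⟨z, hz⟩ := exists_prime_orderOf_dvd_card' (G := tor PGL(2, F) a b) 2
    (by rw [h7, hk]; exact dvd_pow_self 2 hk0)
  rw [← Subgroup.orderOf_coe, orderOf_eq_two_iff'] at hz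
  rw [← h.centralizer_eq_pairStab hab z.2 hz.1 hz.2] at h8
  obtain ⟨w, hw1, hw2, hw3⟩ := exists_common h2 hz.1 hz.2 (t := x * z * x⁻¹) (by simpa using hz.1)
    (by simp [conj_mul, hz.2]) fun c hc => by
      have h9 : rat c ∈ orbit PGL(2, F) (pinf (AlgebraicClosure F)) := by
        rw [orbit_pgl_pinf]; exact ⟨c, rfl⟩
      rcases h.fix_two hz.1 hab z.2.1 z.2.2 (z := rat c) (by rw [pgl_smul_rat, hc]) with h10 | h10
      · exact m.not_mem_orbit h9 (h10 ▸ ha)
      · exact m.not_mem_orbit h9 (h10 ▸ hb)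
  intro hb
  refine hw1 ((Subgroup.eq_bot_iff_forall _).1 hb w ⟨?_, ?_⟩)
  · rw [h8]; exact Subgroup.mem_centralizer_singleton_iff.2 hw2.symm
  · change w ∈ MulAut.conj x • (H : Subgroup PGL(2, F))
    rw [Subgroup.mem_pointwise_smul_iff_inv_smul_mem, h8, Subgroup.mem_centralizer_singleton_iff]
    simp only [MulAut.smul_def, MulAut.conj_inv_apply]
    calc x⁻¹ * w * x * z = x⁻¹ * (w * (x * z * x⁻¹)) * x := by group
      _ = z * (x⁻¹ * w * x) := by rw [← hw3]; group

/-- Let q = 2^k − 1 ≥ 7 be a prime and let G = PGL(2,q), the general linear group of degree 2 over the field with q elements modulo its centre. Then any two Sylow 2-subgroups of G have a non-trivial intersection: for a Sylow 2-subgroup H and every x ∈ G, H ∩ H^x ≠ 1. -/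
theorem result {q k : ℕ} [Fact q.Prime] (hk : q + 1 = 2 ^ k) (hq : 7 ≤ q)
    (H : Sylow 2 (GL (Fin 2) (ZMod q) ⧸ Subgroup.center (GL (Fin 2) (ZMod q))))
    (x : GL (Fin 2) (ZMod q) ⧸ Subgroup.center (GL (Fin 2) (ZMod q))) :
    (H : Subgroup (GL (Fin 2) (ZMod q) ⧸ Subgroup.center (GL (Fin 2) (ZMod q)))) ⊓ MulAut.conj x • (H : Subgroup _) ≠ ⊥ := by
  exact aux (F := ZMod q) (by rwa [Nat.card_zmod]) (by rw [Nat.card_zmod]; omega) H x

end Cfsg.Agent.S2485
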