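import Cfsg.Statements.S2486
import Cfsg.Agent.H57.Unitri
import Cfsg.Agent.H57.Bruhat

set_option autoImplicit false
open scoped Pointwise
open Cfsg

namespace Cfsg.Agent.S2486

open Matrix H57

abbrev F2 := ZMod 2

theorem unit_eq (a : F2) (h : a ≠ 0) : a = 1 := by revert a; decide

theorem mem_U {n : ℕ} {g : GL (Fin n) F2} (h : g ∈ blockGL F2 (id : Fin n → Fin n)) :
    g ∈ unitriGL n F2 :=
  mem_unitriGL.2 ⟨fun _ _ hij => mem_blockGL.1 h hij, fun i => unit_eq _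
    (diag_ne_zero_of_upper (mem_upperTriangularGL.2 fun _ _ hij => mem_blockGL.1 h hij) i)⟩

theorem cell {n : ℕ} (g : GL (Fin n) F2) (h : ∀ u ∈ unitriGL n F2, g * u * g⁻¹ ∈ unitriGL n F2 → u = 1) :
    ∃ a ∈ unitriGL n F2, ∃ b ∈ unitriGL n F2, g = a * permGL (Fin n) F2 Fin.revPerm * b := by
  obtain ⟨σ, a, ha, b, hb, rfl⟩ := bruhat_gl g
  have ha' := mem_U ha
  have hb' := mem_U hb
  refine ⟨a, ha', b, hb', ?_⟩
  have hanti : StrictAnti σ := fun i j hij => by
    by_contra hn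
    have hlt : σ i < σ j := lt_of_le_of_ne (not_lt.1 hn) fun e => hij.ne (σ.injective e)
    let t : GL (Fin n) F2 := SpecialLinearGroup.toGL (SpecialLinearGroup.transvection hij.ne (1 : F2))
    let t' : GL (Fin n) F2 := SpecialLinearGroup.toGL (SpecialLinearGroup.transvection hlt.ne (1 : F2))
    have ht : t ∈ unitriGL n F2 := by
      rw [← map_toGL_unitriSL]; exact ⟨_, transvection_mem_unitriSL hij 1, rfl⟩
    have ht' : t' ∈ unitriGL n F2 := by
      rw [← map_toGL_unitriSL]; exact ⟨_, transvection_mem_unitriSL hlt 1, rfl⟩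
    have ct : (t : Matrix (Fin n) (Fin n) F2) = 1 + single i j 1 := rfl
    have ct' : (t' : Matrix (Fin n) (Fin n) F2) = 1 + single (σ i) (σ j) 1 := rfl
    have e : permGL (Fin n) F2 σ * t = t' * permGL (Fin n) F2 σ := by
      ext r s
      simp only [Units.val_mul, mul_permGL_apply]
      simp only [ct, ct', Matrix.mul_apply, permGL_apply]
      rw [Finset.sum_eq_single (σ.symm r) (fun c _ hc => by
        rw [if_neg, zero_mul]; rintro rfl; simp at hc) (by simp)]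
      simp [Matrix.one_apply, Matrix.single, Equiv.symm_apply_eq, Equiv.eq_symm_apply]
    have h1 := h (b⁻¹ * t * b) (mul_mem (mul_mem (inv_mem hb') ht) hb') (by
      have : a * permGL (Fin n) F2 σ * b * (b⁻¹ * t * b) * (a * permGL (Fin n) F2 σ * b)⁻¹ =
          a * (permGL (Fin n) F2 σ * t) * (permGL (Fin n) F2 σ)⁻¹ * a⁻¹ := by group
      rw [this, e]
      simpa [mul_assoc] using mul_mem ha' (mul_mem ht' (inv_mem ha')))
    have h2 : t = 1 := by
      calc t = b * (b⁻¹ * t * b) * b⁻¹ := by group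
        _ = 1 := by rw [h1]; group
    have h3 := congrArg (fun m : GL (Fin n) F2 => (m : Matrix (Fin n) (Fin n) F2) i j) h2
    simp [ct, hij.ne] at h3
  have hm : StrictMono (σ ∘ Fin.rev) := hanti.comp Fin.rev_strictAnti
  have h4 : σ = Fin.revPerm := by
    ext i
    have := congrFun (StrictMono.eq_id hm) (Fin.rev i)
    simp only [Function.comp, Fin.rev_rev, id] at this
    rw [this]; rfl
  rw [h4]

theorem keyU {n : ℕ} (g g' : SpecialLinearGroup (Fin n) F2)
    (h : ∀ u ∈ unitriSL n F2, g * u * g⁻¹ ∈ unitriSL n F2 → u = 1)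
    (h' : ∀ u ∈ unitriSL n F2, g' * u * g'⁻¹ ∈ unitriSL n F2 → u = 1) :
    ∃ a ∈ unitriSL n F2, ∃ b ∈ unitriSL n F2, g' = a * g * b := by
  have tr : ∀ g : SpecialLinearGroup (Fin n) F2,
      (∀ u ∈ unitriSL n F2, g * u * g⁻¹ ∈ unitriSL n F2 → u = 1) → ∃ a ∈ unitriSL n F2,
        ∃ b ∈ unitriSL n F2, SpecialLinearGroup.toGL (a * g * b) = permGL (Fin n) F2 Fin.revPerm := by
    intro g h
    obtain ⟨a, ha, b, hb, e⟩ := cell (SpecialLinearGroup.toGL g) (by
      rw [← map_toGL_unitriSL]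
      rintro _ ⟨u, hu, rfl⟩ ⟨v, hv, e⟩
      rw [← map_inv, ← map_mul, ← map_mul] at e
      rw [h u hu (SpecialLinearGroup.toGL_injective e ▸ hv), map_one])
    rw [← map_toGL_unitriSL] at ha hb
    obtain ⟨a, ha, rfl⟩ := ha
    obtain ⟨b, hb, rfl⟩ := hb
    refine ⟨a⁻¹, inv_mem ha, b⁻¹, inv_mem hb, ?_⟩
    rw [map_mul, map_mul, e, map_inv, map_inv]; group
  obtain ⟨a, ha, b, hb, e⟩ := tr g h
  obtain ⟨a', ha', b', hb', e'⟩ := tr g' h'
  have := SpecialLinearGroup.toGL_injective (e.trans e'.symm)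
  refine ⟨a'⁻¹ * a, mul_mem (inv_mem ha') ha, b * b'⁻¹, mul_mem hb (inv_mem hb'), ?_⟩
  calc g' = a'⁻¹ * (a' * g' * b') * b'⁻¹ := by group
    _ = _ := by rw [← this]; group

theorem keyP {n : ℕ} [Fact (Nat.Prime 2)] (P : Sylow 2 (SpecialLinearGroup (Fin n) F2))
    (g g' : SpecialLinearGroup (Fin n) F2)
    (h : ∀ u ∈ P, g * u * g⁻¹ ∈ P → u = 1) (h' : ∀ u ∈ P, g' * u * g'⁻¹ ∈ P → u = 1) :
    ∃ a ∈ P, ∃ b ∈ P, g' = a * g * b := by
  obtain ⟨y, hy⟩ := exists_sylow_sl_eq_conj 2 P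
  have tr : ∀ g : SpecialLinearGroup (Fin n) F2, (∀ u ∈ P, g * u * g⁻¹ ∈ P → u = 1) →
      ∀ u ∈ unitriSL n F2, (y⁻¹ * g * y) * u * (y⁻¹ * g * y)⁻¹ ∈ unitriSL n F2 → u = 1 := by
    intro g h u hu hu'
    have := h (y * u * y⁻¹) ((hy _).2 (by simpa [mul_assoc] using hu))
      ((hy _).2 (by simpa [mul_assoc] using hu'))
    calc u = y⁻¹ * (y * u * y⁻¹) * y := by group
      _ = 1 := by rw [this]; group
  obtain ⟨a, ha, b, hb, e⟩ := keyU _ _ (tr g h) (tr g' h')
  refine ⟨y * a * y⁻¹, (hy _).2 (by simpa [mul_assoc] using ha), y * b * y⁻¹,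
    (hy _).2 (by simpa [mul_assoc] using hb), ?_⟩
  calc g' = y * (y⁻¹ * g' * y) * y⁻¹ := by group
    _ = _ := by rw [e]; group


/-- Let n ≥ 4 and let G be a finite group with a normal subgroup N of index 2 isomorphic to SL(n,2) and with trivial centralizer in G (so G is the extension of the simple group L_n(2) by its inverse-transpose automorphism, its full automorphism group). Then any two Sylow 2-subgroups of G have a non-trivial intersection: for a Sylow 2-subgroup H and every x ∈ G, H ∩ H^x ≠ 1. -/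
theorem result {G : Type*} [Group G] [Finite G] {n : ℕ} (hn : 4 ≤ n) (N : Subgroup G) [N.Normal]
    (e : N ≃* Matrix.SpecialLinearGroup (Fin n) (ZMod 2)) (hidx : N.index = 2)
    (hC : Subgroup.centralizer (N : Set G) = ⊥)
    (H : Sylow 2 G) (x : G) :
    (H : Subgroup G) ⊓ MulAut.conj x • (H : Subgroup G) ≠ ⊥ := by
  classical
  have : Fact (Nat.Prime 2) := ⟨Nat.prime_two⟩
  intro hbot
  have htriv : ∀ a ∈ (H : Subgroup G), x⁻¹ * a * x ∈ (H : Subgroup G) → a = 1 := fun a h1 h2 => by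
    rw [← Subgroup.mem_bot, ← hbot]
    refine ⟨h1, ?_⟩
    change _ ∈ MulAut.conj x • (H : Subgroup G)
    rw [Subgroup.mem_pointwise_smul_iff_inv_smul_mem]
    simpa [← map_inv] using h2
  obtain ⟨t, ht, htN⟩ : ∃ t ∈ (H : Subgroup G), t ∉ N := by
    by_contra hc
    push Not at hc
    have h2 := Subgroup.index_dvd_of_le (show (H : Subgroup G) ≤ N from hc)
    rw [hidx] at h2
    exact H.not_dvd_index h2
  obtain ⟨y, hy, h0, hh0, e0⟩ : ∃ y ∈ N, ∃ h0 ∈ (H : Subgroup G), x⁻¹ = h0 * y := by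
    by_cases hx : x⁻¹ ∈ N
    · exact ⟨x⁻¹, hx, 1, one_mem _, by simp⟩
    · refine ⟨t⁻¹ * x⁻¹, ?_, t, ht, by group⟩
      rw [Subgroup.mul_mem_iff_of_index_two hidx]
      simp only [inv_mem_iff] at hx ⊢
      simp [hx, htN]
  have htriv' : ∀ a ∈ (H : Subgroup G), y * a * y⁻¹ ∈ (H : Subgroup G) → a = 1 := fun a h1 h2 =>
    htriv a h1 (by
      have : x⁻¹ * a * x = h0 * (y * a * y⁻¹) * h0⁻¹ := by
        rw [e0, show x = (h0 * y)⁻¹ by rw [← e0, inv_inv]]; group
      rw [this]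
      exact mul_mem (mul_mem hh0 h2) (inv_mem hh0))
  obtain ⟨Q, hQ⟩ : ∃ Q : Sylow 2 N, (Q : Subgroup N) = (H : Subgroup G).subgroupOf N := by
    obtain ⟨Q, hQ⟩ := (H.isPGroup'.comap_of_injective N.subtype N.subtype_injective).exists_le_sylow
    obtain ⟨R, hR⟩ := Q.exists_comap_subtype_eq
    obtain ⟨g, rfl⟩ := MulAction.exists_smul_eq G H R
    refine ⟨Q, (Subgroup.eq_of_le_of_card_ge hQ (le_of_eq ?_)).symm⟩
    rw [← hR]
    let φ : N ≃* N := MulAut.conjNormal g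
    refine (Nat.card_congr (Equiv.subtypeEquiv φ.toEquiv fun a => ?_)).symm
    simp [φ, Subgroup.mem_subgroupOf, Sylow.coe_subgroup_smul,
      Subgroup.mem_pointwise_smul_iff_inv_smul_mem, ← map_inv, mul_assoc]
  let P := Q.mapSurjective (f := e.toMonoidHom) e.surjective
  have hP : ∀ a : N, e a ∈ P ↔ (a : G) ∈ (H : Subgroup G) := fun a => by
    rw [← Subgroup.mem_subgroupOf, ← hQ]
    exact Subgroup.mem_map_iff_mem e.injective
  have tr : ∀ z : N, (∀ a ∈ (H : Subgroup G), z * a * z⁻¹ ∈ (H : Subgroup G) → a = 1) →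
      ∀ u ∈ P, e z * u * (e z)⁻¹ ∈ P → u = 1 := fun z hz u hu hu' => by
    obtain ⟨u, rfl⟩ := e.surjective u
    rw [← map_inv, ← map_mul, ← map_mul, hP] at hu'
    rw [show u = 1 from Subtype.ext (hz u ((hP u).1 hu) hu'), map_one]
  have hy' : t * y * t⁻¹ ∈ N := Subgroup.Normal.conj_mem inferInstance _ hy t
  obtain ⟨a, ha, b, hb, e1⟩ := keyP P (e ⟨y, hy⟩) (e ⟨_, hy'⟩) (tr _ htriv') (tr _ fun a h1 h2 => by
    have h3 := htriv' (t⁻¹ * a * t) (mul_mem (mul_mem (inv_mem ht) h1) ht) (by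
      have := mul_mem (mul_mem (inv_mem ht) h2) ht
      simpa [mul_assoc] using this)
    calc a = t * (t⁻¹ * a * t) * t⁻¹ := by group
      _ = 1 := by rw [h3]; group)
  obtain ⟨a, rfl⟩ := e.surjective a
  obtain ⟨b, rfl⟩ := e.surjective b
  rw [← map_mul, ← map_mul] at e1
  have e2 : t * y * t⁻¹ = a * y * b := congrArg Subtype.val (e.injective e1)
  have h3 := htriv' (b * t) (mul_mem ((hP b).1 hb) ht) (by
    have : y * (b * t) * y⁻¹ = (a : G)⁻¹ * t := by
      calc _ = (a : G)⁻¹ * (a * y * b) * t * y⁻¹ := by group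
        _ = _ := by rw [← e2]; group
    rw [this]
    exact mul_mem (inv_mem ((hP a).1 ha)) ht)
  exact htN (by rw [eq_inv_of_mul_eq_one_right h3]; exact inv_mem b.2)

end Cfsg.Agent.S2486
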