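import Cfsg.Statements.S2487
import Cfsg.Agent.H56.OrthMat
import Cfsg.Agent.H58.QStd

set_option autoImplicit false
open scoped Pointwise
open Cfsg

namespace Cfsg.Agent.S2487

open QuadraticMap H56 H58

theorem gen {G : Type*} [Group G] [Finite G] {p : ℕ} [Fact p.Prime] (T : Subgroup G)
    (hT : IsPGroup p T) (h : ∀ y z : G, ∃ g : G, g ≠ 1 ∧ y⁻¹ * g * y ∈ T ∧ z⁻¹ * g * z ∈ T)
    (H : Sylow p G) (x : G) : (H : Subgroup G) ⊓ MulAut.conj x • (H : Subgroup G) ≠ ⊥ := by
  obtain ⟨P, hP⟩ := hT.exists_le_sylow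
  obtain ⟨y, hy⟩ := MulAction.exists_smul_eq G P H
  obtain ⟨g, hg1, hg2, hg3⟩ := h y (x * y)
  have key : ∀ a : G, y⁻¹ * a * y ∈ T → a ∈ (H : Subgroup G) := fun a ha => by
    rw [← hy, Sylow.coe_subgroup_smul, Subgroup.mem_pointwise_smul_iff_inv_smul_mem]
    simpa [← map_inv] using hP ha
  intro hb
  apply hg1
  rw [← Subgroup.mem_bot, ← hb]
  refine ⟨key g hg2, ?_⟩
  change _ ∈ MulAut.conj x • (H : Subgroup G)
  rw [Subgroup.mem_pointwise_smul_iff_inv_smul_mem]
  apply key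
  simpa [← map_inv, mul_assoc] using hg3

variable {F : Type*} [Field F] {m : ℕ}

theorem pow8 (h01 : ∀ a : F, a = 0 ∨ a = 1) (k : Fin m) (g : O (qPlus m F))
    (hg : ∀ i ≠ k, g (Pi.single (Sum.inl i) 1) = Pi.single (Sum.inl i) 1) : g ^ 8 = 1 := by
  classical
  have h2 : (1 : F) + 1 = 0 := by
    rcases h01 (1 + 1) with h | h
    · exact h
    · exact absurd (add_eq_left.1 h) one_ne_zero
  have hvv : ∀ v : Fin m ⊕ Fin m → F, v + v = 0 := fun v => by
    rw [← one_smul F v, ← add_smul, h2, zero_smul]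
  have h1 : ∀ x, ∀ i ≠ k, g x (Sum.inr i) = x (Sum.inr i) := fun x i hi => by
    rw [← polar_qPlus_single_inl (g x), ← polar_qPlus_single_inl x, ← g.map_polar x, hg i hi]
  have h3 : ∀ x : Fin m ⊕ Fin m → F, (∀ i ≠ k, x (Sum.inr i) = 0) → x (Sum.inl k) = 0 →
      x (Sum.inr k) = 0 → g x = x := fun x a b c => by
    have hx : x = ∑ i : Fin m, x (Sum.inl i) • (Pi.single (Sum.inl i) 1 : Fin m ⊕ Fin m → F) := by
      ext j
      rcases j with j | j
      · simp [Finset.sum_apply, Pi.single_apply]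
      · by_cases hj : j = k
        · simp [Finset.sum_apply, hj, c]
        · simp [Finset.sum_apply, a j hj]
    rw [hx, map_sum]
    refine Finset.sum_congr rfl fun i _ => ?_
    by_cases hi : i = k
    · simp [hi, b]
    · rw [map_smul, hg i hi]
  have hpol : ∀ x y : Fin m ⊕ Fin m → F, (∀ i ≠ k, x (Sum.inr i) = 0) → (∀ i ≠ k, y (Sum.inr i) = 0) →
      polar (qPlus m F) x y = x (Sum.inl k) * y (Sum.inr k) + x (Sum.inr k) * y (Sum.inl k) :=
    fun x y hx hy => by
      rw [polar_qPlus, Finset.sum_eq_single k (fun i _ hi => by simp [hx i hi, hy i hi]) (by simp)]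
  have hQ : ∀ x : Fin m ⊕ Fin m → F, (∀ i ≠ k, x (Sum.inr i) = 0) →
      qPlus m F x = x (Sum.inl k) * x (Sum.inr k) := fun x hx => by
    rw [qPlus_apply, Finset.sum_eq_single k (fun i _ hi => by simp [hx i hi]) (by simp)]
  set e : Fin m ⊕ Fin m → F := Pi.single (Sum.inl k) 1 with he
  set f : Fin m ⊕ Fin m → F := Pi.single (Sum.inr k) 1 with hf
  have eP : ∀ i ≠ k, e (Sum.inr i) = 0 := fun i _ => by simp [he]
  have fP : ∀ i ≠ k, f (Sum.inr i) = 0 := fun i hi => by simp [hf, hi]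
  have gP : ∀ x : Fin m ⊕ Fin m → F, (∀ i ≠ k, x (Sum.inr i) = 0) → ∀ i ≠ k, g x (Sum.inr i) = 0 :=
    fun x hx i hi => by rw [h1 x i hi, hx i hi]
  have q1 : g e (Sum.inl k) * g e (Sum.inr k) = 0 := by
    rw [← hQ _ (gP e eP), g.map_Q, hQ e eP]; simp [he]
  have q2 : g f (Sum.inl k) * g f (Sum.inr k) = 0 := by
    rw [← hQ _ (gP f fP), g.map_Q, hQ f fP]; simp [hf]
  have q3 : g e (Sum.inl k) * g f (Sum.inr k) + g e (Sum.inr k) * g f (Sum.inl k) = 1 := by
    rw [← hpol _ _ (gP e eP) (gP f fP), g.map_polar, hpol e f eP fP]; simp [he, hf]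
  have hco : ∀ x : Fin m ⊕ Fin m → F, (∀ i ≠ k, x (Sum.inr i) = 0) → ∀ j, (j = Sum.inl k ∨ j = Sum.inr k) →
      g x j = x (Sum.inl k) * g e j + x (Sum.inr k) * g f j := fun x hx j hj => by
    have hu := h3 (x - x (Sum.inl k) • e - x (Sum.inr k) • f)
      (fun i hi => by simp [hx i hi, eP i hi, fP i hi]) (by simp [he, hf]) (by simp [he, hf])
    have := congrFun hu j
    simp only [map_sub, map_smul, Pi.sub_apply, Pi.smul_apply, smul_eq_mul] at this
    rcases hj with rfl | rfl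
    · simp [he, hf] at this ⊢
      linear_combination this
    · simp [he, hf] at this ⊢
      linear_combination this
  have hsq : ∀ x : Fin m ⊕ Fin m → F, (∀ i ≠ k, x (Sum.inr i) = 0) →
      g (g x) (Sum.inl k) = x (Sum.inl k) ∧ g (g x) (Sum.inr k) = x (Sum.inr k) := fun x hx => by
    rw [hco _ (gP x hx) _ (Or.inl rfl), hco _ (gP x hx) _ (Or.inr rfl), hco x hx _ (Or.inl rfl),
      hco x hx _ (Or.inr rfl)]
    rcases h01 (g e (Sum.inl k)) with a | a <;> rcases h01 (g e (Sum.inr k)) with b | b <;>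
      rcases h01 (g f (Sum.inl k)) with c | c <;> rcases h01 (g f (Sum.inr k)) with d | d <;>
      rw [a, b] at q1 <;> rw [c, d] at q2 <;> rw [a, b, c, d] at q3 ⊢ <;> simp at q1 q2 q3 ⊢
  refine O.ext fun x => ?_
  set n := g (g x) - x with hn
  have nP : ∀ i ≠ k, n (Sum.inr i) = 0 := fun i hi => by simp [hn, h1 _ i hi]
  set w := g (g n) - n with hw
  have gw : g w = w := h3 w (fun i hi => by simp [hw, h1 _ i hi]) (by simp [hw, (hsq n nP).1])
    (by simp [hw, (hsq n nP).2])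
  have a1 : g (g x) = x + n := by rw [hn]; abel
  have a2 : g (g n) = n + w := by rw [hw]; abel
  have a3 : g (g (g (g x))) = x + w := by
    rw [a1, map_add, map_add, a1, a2]
    calc _ = x + (n + n) + w := by abel
      _ = _ := by rw [hvv, add_zero]
  have a4 : g (g (g (g (g (g (g (g x))))))) = x := by
    rw [a3, map_add, map_add, map_add, map_add, a3, gw, gw, gw, gw, add_assoc, hvv, add_zero]
  simpa [pow_succ] using a4

theorem exg (k : Fin m) (y z : O (qPlus m F)) : ∃ g : O (qPlus m F), g ≠ 1 ∧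
    (∀ i ≠ k, g (y (Pi.single (Sum.inl i) 1)) = y (Pi.single (Sum.inl i) 1)) ∧
    (∀ i ≠ k, g (z (Pi.single (Sum.inl i) 1)) = z (Pi.single (Sum.inl i) 1)) := by
  classical
  let u : {i // i ≠ k} ⊕ {i // i ≠ k} → (Fin m ⊕ Fin m → F) :=
    Sum.elim (fun i => y (Pi.single (Sum.inl i.1) 1)) (fun i => z (Pi.single (Sum.inl i.1) 1))
  let φ : (Fin m ⊕ Fin m → F) →ₗ[F] ({i // i ≠ k} ⊕ {i // i ≠ k} → F) :=
    LinearMap.pi fun j => (qPlus m F).polarBilin (u j)
  have hk : 2 ≤ Module.finrank F (LinearMap.ker φ) := by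
    have h1 := φ.finrank_range_add_finrank_ker
    have h2 := (LinearMap.range φ).finrank_le
    have h3 : 0 < m := k.pos
    simp [Fintype.card_subtype_compl] at h1 h2
    omega
  have hI : ∀ v ∈ LinearMap.ker φ, ∀ j, polar (qPlus m F) v (u j) = 0 := fun v hv j => by
    have := congrFun (LinearMap.mem_ker.1 hv) j
    rw [polar_comm]
    simpa [φ] using this
  suffices h : ∃ g : O (qPlus m F), g ≠ 1 ∧ ∀ j, g (u j) = u j by
    obtain ⟨g, h1, h2⟩ := h
    exact ⟨g, h1, fun i hi => h2 (Sum.inl ⟨i, hi⟩), fun i hi => h2 (Sum.inr ⟨i, hi⟩)⟩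
  have hnd : ∀ v : Fin m ⊕ Fin m → F, v ≠ 0 → ∃ x, polar (qPlus m F) v x ≠ 0 := fun v hv => by
    by_contra h
    push Not at h
    apply hv
    ext j
    rcases j with j | j
    · rw [← polar_qPlus_single_inr v, h]; rfl
    · rw [← polar_qPlus_single_inl v, h]; rfl
  by_cases hs : ∃ v ∈ LinearMap.ker φ, qPlus m F v ≠ 0
  · obtain ⟨v, hv, hq⟩ := hs
    have hv0 : v ≠ 0 := fun h => hq (by simp [h])
    obtain ⟨x, hx⟩ := hnd v hv0
    refine ⟨H56.refl _ v, fun h => ?_, fun j => refl_apply_of_orth (hI v hv j)⟩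
    have := refl_apply (Q := qPlus m F) v x
    rw [h, O.one_apply, eq_comm, sub_eq_self, smul_eq_zero] at this
    rcases this with h' | h'
    · exact mul_ne_zero (inv_ne_zero hq) hx h'
    · exact hv0 h'
  · push Not at hs
    obtain ⟨b, hb⟩ := exists_linearIndependent_of_le_finrank hk
    have hb' := hb.map' (LinearMap.ker φ).subtype (Submodule.ker_subtype _)
    have hp : polar (qPlus m F) (b 0 : Fin m ⊕ Fin m → F) (b 1) = 0 := by
      have := H56.Q_add (qPlus m F) (b 0 : Fin m ⊕ Fin m → F) (b 1)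
      rw [hs _ (Submodule.add_mem _ (b 0).2 (b 1).2), hs _ (b 0).2, hs _ (b 1).2] at this
      simpa using this.symm
    obtain ⟨x, hx⟩ := hnd (b 0) (hb'.ne_zero 0)
    refine ⟨eich _ (b 0 : Fin m ⊕ Fin m → F) (b 1), fun h => ?_,
      fun j => eich_apply_of_orth_orth (hI _ (b 0).2 j) (hI _ (b 1).2 j)⟩
    have := eich_apply (hs _ (b 0).2) hp x
    rw [h, O.one_apply, hs _ (b 1).2] at this
    have h2 : LinearIndependent F ![(b 0 : Fin m ⊕ Fin m → F), (b 1 : Fin m ⊕ Fin m → F)] := by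
      have : ![(b 0 : Fin m ⊕ Fin m → F), (b 1 : Fin m ⊕ Fin m → F)] =
          (LinearMap.ker φ).subtype ∘ b := by
        ext i : 1
        fin_cases i <;> rfl
      rw [this]; exact hb'
    refine hx (neg_eq_zero.1 (LinearIndependent.pair_iff.1 h2 (polar (qPlus m F) (b 1) x)
      (-polar (qPlus m F) (b 0) x) ?_).2)
    rw [neg_smul]
    linear_combination (norm := module) -this


/-- Let m ≥ 4 and let G be the full isometry group of the hyperbolic quadratic form x₁y₁ + ⋯ + x_m y_m on the 2m-dimensional space over the field with 2 elements (the orthogonal group O⁺(2m,2), which contains Ω⁺(2m,2) with index 2). Then any two Sylow 2-subgroups of G have a non-trivial intersection: for a Sylow 2-subgroup H and every x ∈ G, H ∩ H^x ≠ 1. -/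
theorem result {F : Type*} [Field F] [Fintype F] (hF : Fintype.card F = 2) {m : ℕ} (hm : 4 ≤ m)
    (H : Sylow 2 (Cfsg.isometryGroup F (Cfsg.quadFormPlus m F)))
    (x : Cfsg.isometryGroup F (Cfsg.quadFormPlus m F)) :
    (H : Subgroup (Cfsg.isometryGroup F (Cfsg.quadFormPlus m F))) ⊓ MulAut.conj x • (H : Subgroup _) ≠ ⊥ := by
  classical
  have : Fact (Nat.Prime 2) := ⟨Nat.prime_two⟩
  have h01 : ∀ a : F, a = 0 ∨ a = 1 := fun a => by
    have := FiniteField.pow_card a
    rw [hF] at this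
    have h : a * (a - 1) = 0 := by linear_combination this
    rcases mul_eq_zero.1 h with h | h
    · exact Or.inl h
    · exact Or.inr (sub_eq_zero.1 h)
  let k : Fin m := ⟨0, by omega⟩
  let φ := toO (qPlus m F) (coe_qPlus m F)
  let T : Subgroup (Cfsg.isometryGroup F (Cfsg.quadFormPlus m F)) :=
    { carrier := {g | ∀ i ≠ k, φ g (Pi.single (Sum.inl i) 1) = Pi.single (Sum.inl i) 1}
      mul_mem' := fun {a b} ha hb i hi => by rw [map_mul, O.mul_apply, hb i hi, ha i hi]
      one_mem' := fun i _ => by rw [map_one, O.one_apply]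
      inv_mem' := fun {a} ha i hi => by rw [map_inv, O.inv_apply_eq, ha i hi] }
  refine gen T (fun g => ⟨3, Subtype.ext (φ.injective ?_)⟩) (fun y z => ?_) H x
  · rw [Subgroup.coe_pow, map_pow, Subgroup.coe_one, map_one]
    exact pow8 h01 k _ g.2
  · obtain ⟨g, h1, h2, h3⟩ := exg k (φ y) (φ z)
    refine ⟨φ.symm g, fun h => h1 (by rw [← φ.apply_symm_apply g, h, map_one]), fun i hi => ?_,
      fun i hi => ?_⟩
    · rw [map_mul, map_mul, φ.apply_symm_apply, O.mul_apply, O.mul_apply, h2 i hi, map_inv,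
        O.inv_apply_apply]
    · rw [map_mul, map_mul, φ.apply_symm_apply, O.mul_apply, O.mul_apply, h3 i hi, map_inv,
        O.inv_apply_apply]

end Cfsg.Agent.S2487
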