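import Cfsg.Statements.S2488
import Cfsg.Agent.S5057
import Cfsg.Agent.H9.PBasic

set_option autoImplicit false
open scoped Pointwise
open Cfsg

namespace Cfsg.Agent.S2488

def z0 : Equiv.Perm (Fin 6) := Equiv.swap 0 1 * Equiv.swap 2 3

theorem c3 : (Finset.univ.filter (fun y : Equiv.Perm (Fin 6) =>
    y * y = 1 ∧ Equiv.Perm.sign y = 1 ∧ (z0 * y) * (z0 * y) * (z0 * y) = 1)).card < 32 := by
  decide +kernel

theorem c4 : (Finset.univ.filter (fun y : Equiv.Perm (Fin 6) =>
    y * y = 1 ∧ Equiv.Perm.sign y = 1 ∧ (z0 * y) * (z0 * y) * (z0 * y) * (z0 * y) = 1)).card < 32 := by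
  decide +kernel

theorem c5 : (Finset.univ.filter (fun y : Equiv.Perm (Fin 6) =>
    y * y = 1 ∧ Equiv.Perm.sign y = 1 ∧
      (z0 * y) * (z0 * y) * (z0 * y) * (z0 * y) * (z0 * y) = 1)).card < 32 := by
  decide +kernel

theorem c8 : (Finset.univ.filter (fun y : Equiv.Perm (Fin 6) =>
    Equiv.Perm.sign y = 1 ∧ z0 * y = y * z0)).card = 8 := by
  decide +kernel

theorem cnt (k : ℕ) (hk : k = 3 ∨ k = 4 ∨ k = 5) : (Finset.univ.filter (fun y : Equiv.Perm (Fin 6) =>
    y * y = 1 ∧ Equiv.Perm.sign y = 1 ∧ (z0 * y) ^ k = 1)).card < 32 := by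
  rcases hk with rfl | rfl | rfl
  · simpa [pow_succ] using c3
  · simpa [pow_succ] using c4
  · simpa [pow_succ] using c5


/-- Let G be a finite group with a normal subgroup N of index 4 isomorphic to the alternating group of degree 6 and with trivial centralizer in G (so G is the full automorphism group of A₆). Then any two Sylow 2-subgroups of G have a non-trivial intersection: for a Sylow 2-subgroup H and every x ∈ G, H ∩ H^x ≠ 1. -/
theorem result {G : Type*} [Group G] [Finite G] (N : Subgroup G) [N.Normal]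
    (e : N ≃* alternatingGroup (Fin 6)) (hidx : N.index = 4)
    (hC : Subgroup.centralizer (N : Set G) = ⊥)
    (H : Sylow 2 G) (x : G) :
    (H : Subgroup G) ⊓ MulAut.conj x • (H : Subgroup G) ≠ ⊥ := by
  classical
  have : Fact (Nat.Prime 2) := ⟨Nat.prime_two⟩
  have hA : Nat.card (alternatingGroup (Fin 6)) = 360 := by
    have := two_mul_nat_card_alternatingGroup (α := Fin 6)
    rw [Nat.card_perm, Nat.card_eq_fintype_card (α := Fin 6), Fintype.card_fin,
      show Nat.factorial 6 = 720 from rfl] at this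
    omega
  have hN : Nat.card N = 360 := by rw [Nat.card_congr e.toEquiv, hA]
  have hG : Nat.card G = 1440 := by rw [← N.card_mul_index, hN, hidx]
  have hH : Nat.card (H : Subgroup G) = 32 := by
    rw [H.card_eq_multiplicity, hG]
    have : Nat.factorization 1440 2 = 5 := by
      rw [show (1440 : ℕ) = 2 ^ 5 * 45 by norm_num, Nat.factorization_mul (by norm_num) (by norm_num)]
      rw [Nat.Prime.factorization_pow Nat.prime_two]
      simp [Nat.factorization_eq_zero_of_not_dvd (show ¬ 2 ∣ 45 by norm_num)]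
    rw [this]; norm_num
  have hne : N.subgroupOf (H : Subgroup G) ≠ ⊥ := by
    intro h
    have h1 : N.relIndex (H : Subgroup G) ∣ 4 := hidx ▸ N.relIndex_dvd_index_of_normal _
    rw [Subgroup.relIndex, h, Subgroup.index_bot, hH] at h1
    norm_num at h1
  obtain ⟨z, hzN, hzc, hz2⟩ := H9.exists_mem_center_orderOf_eq H.isPGroup' hne
  have hzN' : (z : G) ∈ N := hzN
  have hzo : orderOf (e ⟨z, hzN'⟩) = 2 := by
    rw [MulEquiv.orderOf_eq, ← Subgroup.orderOf_coe]
    exact (Subgroup.orderOf_coe z).trans hz2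
  obtain ⟨y, hy⟩ := S5057.conj _ hzo
  let f : N →* Equiv.Perm (Fin 6) :=
    (alternatingGroup (Fin 6)).subtype.comp ((MulAut.conj y⁻¹).toMonoidHom.comp e.toMonoidHom)
  have hfi : Function.Injective f := fun a b h => by
    have := Subtype.ext h
    simpa using this
  have hfs : ∀ a, Equiv.Perm.sign (f a) = 1 := fun a =>
    Equiv.Perm.mem_alternatingGroup.1 (Subtype.prop _)
  have hfz : f ⟨z, hzN'⟩ = z0 := by
    simp only [f, MonoidHom.comp_apply, MulEquiv.coe_toMonoidHom, MulAut.conj_apply, hy,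
      Subgroup.coe_subtype]
    simp [z0, mul_assoc]
  have hHC : (H : Subgroup G) ≤ Subgroup.centralizer {(z : G)} := fun h hh => by
    rw [Subgroup.mem_centralizer_singleton_iff]
    exact congrArg Subtype.val (Subgroup.mem_center_iff.1 hzc ⟨h, hh⟩)
  have hCc : Nat.card (Subgroup.centralizer {(z : G)}) ≤ 32 := by
    set C := Subgroup.centralizer {(z : G)}
    have h1 : N.relIndex C ≤ 4 := Nat.le_of_dvd (by norm_num) (hidx ▸ N.relIndex_dvd_index_of_normal _)
    have h2 : Nat.card (N.subgroupOf C) ≤ 8 := by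
      rw [← c8, ← Nat.card_eq_finsetCard]
      refine Nat.card_le_card_of_injective (fun a => ⟨f ⟨a.1.1, a.2⟩, ?_⟩) ?_
      · simp only [Finset.mem_filter, Finset.mem_univ, true_and]
        refine ⟨hfs _, ?_⟩
        rw [← hfz, ← map_mul, ← map_mul]
        congr 1
        exact Subtype.ext (Subgroup.mem_centralizer_singleton_iff.1 a.1.2).symm
      · intro a b h
        have h' := congrArg Subtype.val h
        have := hfi h'
        have h3 := congrArg Subtype.val this
        exact Subtype.ext (Subtype.ext h3)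
    have h3 := (N.subgroupOf C).card_mul_index
    rw [← h3]
    calc _ ≤ 8 * 4 := Nat.mul_le_mul h2 h1
      _ = 32 := rfl
  have hHeq : (H : Subgroup G) = Subgroup.centralizer {(z : G)} :=
    Subgroup.eq_of_le_of_card_ge hHC (hH ▸ hCc)
  intro hbot
  set z' : G := x * z * x⁻¹ with hz'
  have hz'N : z' ∈ N := Subgroup.Normal.conj_mem inferInstance _ hzN' x
  have hzz : (z : G) * z = 1 := by
    have : z * z = 1 := by
      have h := pow_orderOf_eq_one z
      rwa [hz2, sq] at h
    exact congrArg Subtype.val this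
  obtain ⟨k, hk, hpow⟩ : ∃ k : ℕ, (k = 3 ∨ k = 4 ∨ k = 5) ∧ ((z : G) * z') ^ k = 1 := by
    have h := S5057.ord (e (⟨z, hzN'⟩ * ⟨z', hz'N⟩))
    rw [MulEquiv.orderOf_eq, ← Subgroup.orderOf_coe] at h
    rcases h with h | h | h
    · exact ⟨3, by simp, orderOf_dvd_iff_pow_eq_one.1 h⟩
    · exact ⟨4, by simp, orderOf_dvd_iff_pow_eq_one.1 h⟩
    · exact ⟨5, by simp, orderOf_dvd_iff_pow_eq_one.1 h⟩
  have hlt := cnt k hk
  rw [← Nat.card_eq_finsetCard, ← hH] at hlt
  refine absurd hlt (not_lt.2 ?_)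
  have hmem : ∀ h : G, h * z' * h⁻¹ ∈ N := fun h => Subgroup.Normal.conj_mem inferInstance _ hz'N h
  refine Nat.card_le_card_of_injective (fun h => ⟨f ⟨_, hmem h.1⟩, ?_⟩) ?_
  · simp only [Finset.mem_filter, Finset.mem_univ, true_and]
    refine ⟨?_, hfs _, ?_⟩
    · rw [← map_mul, ← map_one f]
      congr 1
      apply Subtype.ext
      change (h.1 * z' * h.1⁻¹) * (h.1 * z' * h.1⁻¹) = 1
      calc _ = h.1 * x * ((z : G) * z) * x⁻¹ * h.1⁻¹ := by rw [hz']; group
        _ = 1 := by rw [hzz]; group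
    · rw [← hfz, ← map_mul, ← map_pow, ← map_one f]
      congr 1
      apply Subtype.ext
      change ((z : G) * (h.1 * z' * h.1⁻¹)) ^ k = 1
      have hc : h.1 * z = z * h.1 := Subgroup.mem_centralizer_singleton_iff.1 (hHC h.2)
      have : (z : G) * (h.1 * z' * h.1⁻¹) = h.1 * (z * z') * h.1⁻¹ := by
        rw [← mul_assoc, ← mul_assoc, ← hc]; group
      rw [this, conj_pow, hpow]; group
  · intro a b h
    have h' := congrArg Subtype.val h
    have h'' := hfi h'
    have h1 : a.1 * z' * a.1⁻¹ = b.1 * z' * b.1⁻¹ := congrArg Subtype.val h''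
    have h2 : b.1⁻¹ * a.1 ∈ (H : Subgroup G) ⊓ MulAut.conj x • (H : Subgroup G) := by
      refine ⟨(H : Subgroup G).mul_mem ((H : Subgroup G).inv_mem b.2) a.2, ?_⟩
      change _ ∈ MulAut.conj x • (H : Subgroup G)
      rw [Subgroup.mem_pointwise_smul_iff_inv_smul_mem]
      refine hHeq.ge ?_
      rw [Subgroup.mem_centralizer_singleton_iff]
      simp only [← map_inv, MulAut.smul_def, MulAut.conj_apply, inv_inv]
      rw [hz'] at h1
      calc _ = x⁻¹ * b.1⁻¹ * (a.1 * (x * z * x⁻¹) * a.1⁻¹) * a.1 * x := by group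
        _ = _ := by rw [h1]; group
    rw [hbot, Subgroup.mem_bot] at h2
    exact Subtype.ext (inv_mul_eq_one.1 h2).symm

end Cfsg.Agent.S2488
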