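import Cfsg.Statements.S2493
import Cfsg.Agent.H49.DCov

set_option autoImplicit false
set_option linter.unusedSectionVars false
open Cfsg

namespace Cfsg.Agent.S2493

open Equiv Equiv.Perm

section perm

variable {P : Type*} [Fintype P] [DecidableEq P]

theorem conj_sq {a b : Perm P} (ha : a * a = 1) (hb : b * b = 1) : IsConj a b ↔
    a.support.card = b.support.card := by
  refine ⟨fun h => by obtain ⟨c, rfl⟩ := isConj_iff.1 h; rw [card_support_conj], fun h => ?_⟩
  have h1 := cycleType_of_pow_prime_eq_one (p := 2) (σ := a) (by rwa [sq])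
  have h2 := cycleType_of_pow_prime_eq_one (p := 2) (σ := b) (by rwa [sq])
  rw [← sum_cycleType, ← sum_cycleType, h1, h2, Multiset.sum_replicate, Multiset.sum_replicate,
    smul_eq_mul, smul_eq_mul] at h
  rw [isConj_iff_cycleType_eq, h1, h2, show a.cycleType.card = b.cycleType.card by omega]

theorem disj_swap {x y : P} {τ : Perm P} (hx : τ x = x) (hy : τ y = y) : Disjoint (swap x y) τ := by
  intro i
  by_cases h1 : i = x
  · exact .inr (h1 ▸ hx)
  by_cases h2 : i = y
  · exact .inr (h2 ▸ hy)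
  exact .inl (swap_apply_of_ne_of_ne h1 h2)

theorem swap_mul_sq {x y : P} {τ : Perm P} (hτ : τ * τ = 1) (h : Commute (swap x y) τ) :
    swap x y * τ * (swap x y * τ) = 1 := by
  rw [mul_assoc, ← mul_assoc τ, ← h.eq, mul_assoc, hτ, mul_one, swap_mul_self]

theorem card_swap_mul {x y : P} (h : x ≠ y) {τ : Perm P} (hx : τ x = x) (hy : τ y = y) :
    (swap x y * τ).support.card = τ.support.card + 2 := by
  rw [(disj_swap hx hy).card_support_mul, card_support_swap h, add_comm]

/-- a permutation as a balanced product of two involutions -/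
def Dec (σ : Perm P) (y : P) : Prop := ∃ s t : Perm P, s * s = 1 ∧ t * t = 1 ∧ σ = s * t ∧
  s.support ⊆ σ.support ∧ t.support ⊆ σ.support ∧ s y = y ∧
  ((sign σ = 1 ∧ s.support.card = t.support.card) ∨
    (sign σ = -1 ∧ s.support.card + 2 = t.support.card))

theorem dec (σ : Perm P) (y : P) : Dec σ y := by
  induction hn : σ.support.card using Nat.strong_induction_on generalizing σ y with
  | _ n ih =>
    have key : ∀ y, σ y ≠ y → Dec σ y := by
      intro y hy
      obtain ⟨x, rfl⟩ := σ.surjective y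
      have hx : σ x ≠ x := fun h => hy (by rw [h, h])
      have h1 : (swap x (σ x) * σ).support ⊆ σ.support.erase x := by
        intro i hi
        rw [mem_support] at hi
        rw [Finset.mem_erase, mem_support]
        refine ⟨by rintro rfl; simp at hi, fun h => hi ?_⟩
        rw [mul_apply, h]
        refine swap_apply_of_ne_of_ne (by rintro rfl; exact hx h) ?_
        rintro rfl
        exact hy h
      obtain ⟨s, t, hs, ht, e, h2, h3, h4, h5⟩ := ih _ (by
        have := Finset.card_le_card h1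
        rw [Finset.card_erase_of_mem (mem_support.2 hx)] at this
        have := Finset.card_pos.2 ⟨x, mem_support.2 hx⟩
        omega) (swap x (σ x) * σ) (σ x) rfl
      have hsx : s x = x := notMem_support.1 fun h => by simpa using h1 (h2 h)
      have htx : t x = x := notMem_support.1 fun h => by simpa using h1 (h3 h)
      have h6 := swap_mul_sq hs (disj_swap hsx h4).commute
      have h7 : (swap x (σ x) * s).support ⊆ σ.support := by
        refine (support_mul_le _ _).trans (sup_le ?_ (h2.trans (h1.trans (Finset.erase_subset _ _))))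
        rw [support_swap hx.symm]
        intro i hi
        simp only [Finset.mem_insert, Finset.mem_singleton] at hi
        rcases hi with rfl | rfl
        exacts [mem_support.2 hx, mem_support.2 hy]
      have h8 := card_swap_mul hx.symm hsx h4
      have h9 : sign (swap x (σ x) * σ) = - sign σ := by rw [map_mul, sign_swap hx.symm, neg_one_mul]
      have h10 : swap x (σ x) * s * t = σ := by rw [mul_assoc, ← e, swap_mul_self_mul]
      generalize hν : swap x (σ x) * s = ν at h6 h7 h8 h10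
      have hνx : ν x = σ x := by rw [← hν, mul_apply, hsx, swap_apply_left]
      refine ⟨ν * t * ν⁻¹, ν, by rw [conj_mul, ht]; simp, h6, by rw [← h10]; simp, ?_, h7, ?_, ?_⟩
      · rw [support_conj]
        intro i hi
        obtain ⟨j, hj, rfl⟩ := Finset.mem_map.1 hi
        by_cases h : ν j = j
        · exact h.symm ▸ Finset.erase_subset _ _ (h1 (h3 hj))
        · exact h7 (apply_mem_support.2 (mem_support.2 h))
      · rw [← hνx]; simp [htx]
      · rw [card_support_conj, h8]
        rw [h9] at h5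
        rcases h5 with ⟨h5, h11⟩ | ⟨h5, h11⟩
        · exact .inr ⟨neg_eq_iff_eq_neg.1 h5, by omega⟩
        · exact .inl ⟨neg_inj.1 h5, by omega⟩
    by_cases hy : σ y = y
    swap
    · exact key y hy
    by_cases h1 : σ = 1
    · exact ⟨1, 1, by simp, by simp, by simp [h1], by simp, by simp, rfl, .inl ⟨by simp [h1], rfl⟩⟩
    obtain ⟨x, hx⟩ : ∃ x, σ x ≠ x := by
      by_contra h
      push Not at h
      exact h1 (Equiv.ext h)
    obtain ⟨s, t, hs, ht, e, h2, h3, -, h5⟩ := key x hx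
    exact ⟨s, t, hs, ht, e, h2, h3, notMem_support.1 fun h => mem_support.1 (h2 h) hy, h5⟩

/-- `α` has two cycles of length two -/
def DS (α : Perm P) : Prop := ∃ a b c d, a ≠ b ∧ a ≠ c ∧ a ≠ d ∧ b ≠ c ∧ b ≠ d ∧ c ≠ d ∧
  α a = b ∧ α b = a ∧ α c = d ∧ α d = c

theorem inv_apply {τ : Perm P} (h : τ * τ = 1) (x : P) : τ (τ x) = x := by
  rw [← mul_apply, h, one_apply]

theorem ds_of_sq {τ : Perm P} (h : τ * τ = 1) (hs : sign τ = 1) (h1 : τ ≠ 1) : DS τ := by
  obtain ⟨a, ha⟩ : ∃ x, τ x ≠ x := by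
    by_contra h
    push Not at h
    exact h1 (Equiv.ext h)
  obtain ⟨c, hc⟩ : ∃ x, (swap a (τ a) * τ) x ≠ x := by
    by_contra h
    push Not at h
    have h2 := congrArg sign (Equiv.ext h : swap a (τ a) * τ = 1)
    rw [map_mul, sign_swap ha.symm, hs] at h2
    simp at h2
  have h2 : a ≠ c := by rintro rfl; simp at hc
  have h3 : τ a ≠ c := by rintro rfl; simp [inv_apply h] at hc
  refine ⟨a, τ a, c, τ c, ha.symm, h2, fun e => h3 (by rw [e, inv_apply h]), h3,
    fun e => h2 (τ.injective e), fun e => hc ?_, rfl, inv_apply h a, rfl, inv_apply h c⟩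
  rw [mul_apply, ← e, swap_apply_of_ne_of_ne h2.symm h3.symm]

theorem DS.mul {κ μ : Perm P} (h : DS μ) (hd : Disjoint κ μ) : DS (κ * μ) := by
  obtain ⟨a, b, c, d, h1, h2, h3, h4, h5, h6, ha, hb, hc, hd'⟩ := h
  have key : ∀ x, μ x ≠ x → κ x = x := fun x hx => (hd x).resolve_right hx
  refine ⟨a, b, c, d, h1, h2, h3, h4, h5, h6, ?_, ?_, ?_, ?_⟩ <;> rw [mul_apply]
  · rw [ha, key b (by rw [hb]; exact h1)]
  · rw [hb, key a (by rw [ha]; exact h1.symm)]
  · rw [hc, key d (by rw [hd']; exact h6)]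
  · rw [hd', key c (by rw [hc]; exact h6.symm)]

theorem ds_swap {a b c d : P} (h1 : a ≠ b) (h2 : a ≠ c) (h3 : a ≠ d) (h4 : b ≠ c) (h5 : b ≠ d)
    (h6 : c ≠ d) : DS (swap a b * swap c d) :=
  ⟨a, b, c, d, h1, h2, h3, h4, h5, h6, by simp [swap_apply_def, *], by simp [swap_apply_def, *],
    by simp [swap_apply_def, h2.symm, h3.symm, h4.symm, h5.symm, *],
    by simp [swap_apply_def, h2.symm, h3.symm, h4.symm, h5.symm, *]⟩

theorem v4 {a b c d : P} (h1 : a ≠ b) (h2 : a ≠ c) (h3 : a ≠ d) (h4 : b ≠ c) (h5 : b ≠ d)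
    (h6 : c ≠ d) : swap a c * swap b d * (swap a b * swap c d) = swap a d * swap b c := by
  ext i
  have := h1.symm; have := h2.symm; have := h3.symm; have := h4.symm; have := h5.symm
  have := h6.symm
  by_cases e1 : i = a
  · subst e1; simp [swap_apply_def, *]
  by_cases e2 : i = b
  · subst e2; simp [swap_apply_def, *]
  by_cases e3 : i = c
  · subst e3; simp [swap_apply_def, *]
  by_cases e4 : i = d
  · subst e4; simp [swap_apply_def, *]
  simp [swap_apply_def, *]

/-- the commutator form of an even permutation -/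
def Gd (σ : Perm P) : Prop := ∃ α α' : Perm P, sign α = 1 ∧ DS α ∧ IsConj α α' ∧ σ = α⁻¹ * α'

theorem split_inv {τ : Perm P} (h : τ * τ = 1) {x : P} (hx : τ x ≠ x) : ∃ μ : Perm P,
    τ = swap x (τ x) * μ ∧ μ * μ = 1 ∧ μ x = x ∧ μ (τ x) = τ x ∧ (∀ y, τ y = y → μ y = y) ∧
      τ.support.card = μ.support.card + 2 ∧ sign μ = - sign τ := by
  have h1 : (swap x (τ x) * τ) x = x := by simp
  have h2 : (swap x (τ x) * τ) (τ x) = τ x := by simp [inv_apply h]
  refine ⟨swap x (τ x) * τ, (swap_mul_self_mul _ _ _).symm, swap_mul_sq h ?_, h1, h2, fun y hy => ?_,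
    ?_, by rw [map_mul, sign_swap hx.symm, neg_one_mul]⟩
  · rw [Commute, SemiconjBy, mul_swap_eq_swap_mul, inv_apply h, swap_comm]
  · rw [mul_apply, hy]
    exact swap_apply_of_ne_of_ne (by rintro rfl; exact hx hy)
      (by rintro rfl; exact hx (τ.injective hy))
  · rw [← card_swap_mul hx.symm h1 h2, swap_mul_self_mul]

theorem gd (h5 : 5 ≤ Fintype.card P) {σ : Perm P} (hσ : sign σ = 1) : Gd σ := by
  have ex : ∀ a b c : P, ∃ r s, r ≠ s ∧ r ∉ ({a, b, c} : Finset P) ∧ s ∉ ({a, b, c} : Finset P) := by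
    intro a b c
    obtain ⟨r, hr, s, hs, h⟩ := Finset.one_lt_card.1 (show 1 < ({a, b, c} : Finset P)ᶜ.card by
      rw [Finset.card_compl]
      have := Finset.card_le_three (a := a) (b := b) (c := c)
      omega)
    exact ⟨r, s, h, Finset.mem_compl.1 hr, Finset.mem_compl.1 hs⟩
  by_cases h1 : σ = 1
  · obtain ⟨a⟩ : Nonempty P := Fintype.card_pos_iff.1 (by omega)
    obtain ⟨b, c, hbc, hb, hc⟩ := ex a a a
    obtain ⟨r, s, h, hr, hs⟩ := ex b c c
    simp only [Finset.mem_insert, Finset.mem_singleton, not_or] at hr hs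
    exact ⟨swap b c * swap r s, _, by simp [hbc, h], ds_swap hbc (Ne.symm hr.1) (Ne.symm hs.1)
      (Ne.symm hr.2.1) (Ne.symm hs.2.1) h, IsConj.refl _, by rw [h1, inv_mul_cancel]⟩
  obtain ⟨p, hp⟩ : ∃ x, σ x ≠ x := by
    by_contra h
    push Not at h
    exact h1 (Equiv.ext h)
  obtain ⟨s, t, hs, ht, rfl, -, -, h4, h6⟩ := dec σ p
  replace h6 := (h6.resolve_right fun h => by rw [hσ] at h; exact absurd h.1 (by decide)).2
  have htp : t p ≠ p := fun h => hp (by rw [mul_apply, h, h4])
  have hsi : s⁻¹ = s := inv_eq_of_mul_eq_one_right hs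
  rcases Int.units_eq_one_or (sign s) with h7 | h7
  · refine ⟨s, t, h7, ds_of_sq hs h7 ?_, (conj_sq hs ht).2 h6, by rw [hsi]⟩
    rintro rfl
    have := Finset.card_pos.2 ⟨p, mem_support.2 htp⟩
    simp at h6
    omega
  obtain ⟨p', hp', htp'⟩ : ∃ x, s x ≠ x ∧ t x = x := by
    by_contra h
    push Not at h
    have := Finset.eq_of_subset_of_card_le (s := s.support) (t := t.support)
      (fun x hx => mem_support.2 (h x (mem_support.1 hx))) h6.ge
    exact notMem_support.2 h4 (this ▸ mem_support.2 htp)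
  have hpp : p ≠ p' := by rintro rfl; exact hp' h4
  have hq' : p ≠ s p' := fun e => hpp (s.injective (by rw [h4, ← e]))
  have hq : p' ≠ t p := fun e => hpp (t.injective (by rw [htp', ← e]))
  obtain ⟨μ, e1, a1, a2, a3, a4, a5, a6⟩ := split_inv hs hp'
  obtain ⟨ν, e2, b1, b2, b3, b4, b5, -⟩ := split_inv ht htp
  replace a4 := a4 p h4
  replace b4 := b4 p' htp'
  generalize s p' = q' at *
  generalize t p = q at *
  subst e1 e2
  by_cases h8 : μ = 1
  · obtain rfl : ν = 1 := by
      rw [← support_eq_empty_iff, ← Finset.card_eq_zero]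
      rw [h8, support_one, Finset.card_empty] at a5
      rw [h8] at h6
      omega
    subst h8
    simp only [mul_one]
    by_cases h9 : q = q'
    · subst h9
      obtain ⟨r, u, h, hr, hu⟩ := ex p p' q
      simp only [Finset.mem_insert, Finset.mem_singleton, not_or] at hr hu
      refine ⟨swap r u * swap p' q, swap r u * swap p q, by simp [h, hq],
        ds_swap h hr.2.1 hr.2.2 hu.2.1 hu.2.2 hq, isConj_iff.2 ⟨swap p p', ?_⟩, by
          simp [mul_assoc]⟩
      rw [← conj_mul, ← swap_apply_apply, ← swap_apply_apply, swap_apply_right,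
        swap_apply_of_ne_of_ne hr.1 hr.2.1, swap_apply_of_ne_of_ne hu.1 hu.2.1,
        swap_apply_of_ne_of_ne htp hq.symm]
    · refine ⟨swap p q' * swap p' q, swap p' p * swap q q', by simp [hq, hq'],
        ds_swap hq' hpp htp.symm hp' (Ne.symm h9) hq, isConj_iff.2 ⟨swap p q, ?_⟩, ?_⟩
      · rw [← conj_mul, ← swap_apply_apply, ← swap_apply_apply, swap_apply_right, swap_apply_left,
          swap_apply_of_ne_of_ne hpp.symm hq, swap_apply_of_ne_of_ne hq'.symm (Ne.symm h9)]
        exact (disj_swap (swap_apply_of_ne_of_ne hq.symm htp)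
          (swap_apply_of_ne_of_ne hp' hq'.symm)).commute.eq
      · rw [mul_inv_rev, swap_inv, swap_inv, v4 hpp.symm hq hp'.symm htp.symm hq' h9]
  have d1 : Disjoint (swap p p' * swap p' q') μ := (disj_swap a4 a2).mul_left (disj_swap a2 a3)
  have d2 : Disjoint (swap p p' * swap p q) ν := (disj_swap b2 b4).mul_left (disj_swap b2 b3)
  refine ⟨swap p p' * swap p' q' * μ, swap p p' * swap p q * ν, ?_,
    (ds_of_sq a1 (by rw [a6, h7, neg_neg]) h8).mul d1, d1.isConj_mul ?_ ((conj_sq a1 b1).2 (by omega)) d2,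
    by rw [← hsi]; simp [mul_assoc]⟩
  · rw [mul_assoc, map_mul, h7, sign_swap hpp]; simp
  · have c1 : IsThreeCycle (swap p p' * swap p' q') := by
      rw [swap_comm p]; exact isThreeCycle_swap_mul_swap_same hpp.symm hp'.symm hq'
    have c2 : IsThreeCycle (swap p p' * swap p q) := isThreeCycle_swap_mul_swap_same hpp htp.symm hq
    rw [isConj_iff_cycleType_eq, c1.cycleType, c2.cycleType]

end perm

variable {H P : Type*} [Group H] [Fintype P] [DecidableEq P] {z : H} {π : H →* Perm P}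

theorem lift (D : H49.DC z π) {σ : Perm P} (h : sign σ = 1) : ∃ g, π g = σ :=
  D.range.ge (mem_alternatingGroup.2 h)

theorem nonsplit (D : H49.DC z π) {u : H} (h : DS (π u)) : ∃ w, w * u * w⁻¹ = z * u := by
  obtain ⟨a, b, c, d, h1, h2, h3, h4, h5, h6, ha, hb, hc, hd⟩ := h
  obtain ⟨s, hs⟩ := lift D (σ := swap a b * swap c d) (by simp [h1, h6])
  obtain ⟨w, hw⟩ := lift D (σ := swap a c * swap b d) (by simp [h2, h5])
  have e1 := D.sq_swap h1 h2 h3 h4 h5 h6 hs
  have e2 := D.sq_swap h2 h1 h3 h4.symm h6 h5 hw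
  have e3 := D.sq_swap h3 h1 h2 h5.symm h6.symm h4 (g := w * s) (by
    rw [map_mul, hs, hw, v4 h1 h2 h3 h4 h5 h6])
  have e4 : Commute w (s⁻¹ * u) := by
    have key : ∀ x y : P, (swap c d * swap a b * π u) x = x → (swap c d * swap a b * π u) y = y →
      Disjoint (swap x y) (swap c d * swap a b * π u) := fun x y => disj_swap
    refine D.commute_of_disjoint ?_
    rw [hw, map_mul, map_inv, hs, mul_inv_rev, swap_inv, swap_inv]
    refine (key _ _ ?_ ?_).mul_left (key _ _ ?_ ?_) <;>
      simp [swap_apply_def, h1.symm, h2.symm, h3.symm, h4.symm, h5.symm, h6.symm, *]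
  have e5 : w * s * w⁻¹ = z * s := by
    rw [sq] at e1 e2 e3
    calc w * s * w⁻¹ = w * s * (w * s) * s⁻¹ * (w * w)⁻¹ := by group
      _ = z * s * (s * s)⁻¹ * z⁻¹ := by rw [e3, e2]; group
      _ = z * s := by rw [e1, mul_assoc, ← mul_inv_rev, D.zz, inv_one, mul_one]
  refine ⟨w, ?_⟩
  calc w * u * w⁻¹ = w * s * w⁻¹ * (w * (s⁻¹ * u)) * w⁻¹ := by group
    _ = z * u := by rw [e5, e4.eq]; group

theorem main (D : H49.DC z π) (h5 : 5 ≤ Fintype.card P) (g : H) :
    ∃ a b : H, a * b * a⁻¹ * b⁻¹ = g := by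
  obtain ⟨α, α', h1, h2, h3, e⟩ := gd h5 (mem_alternatingGroup.1 (D.range.le ⟨g, rfl⟩))
  obtain ⟨β, rfl⟩ := isConj_iff.1 h3
  obtain ⟨β', h4, h6⟩ : ∃ β' : Perm P, sign β' = 1 ∧ β' * α * β'⁻¹ = β * α * β⁻¹ := by
    rcases Int.units_eq_one_or (sign β) with h | h
    · exact ⟨β, h, rfl⟩
    obtain ⟨a, b, -, -, hab, -, -, -, -, -, ha, hb, -⟩ := h2
    refine ⟨β * swap a b, by simp [h, hab], ?_⟩
    have : α * swap a b = swap a b * α := by rw [mul_swap_eq_swap_mul, ha, hb, swap_comm]
    rw [mul_assoc β, ← this]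
    simp [mul_assoc]
  obtain ⟨u, rfl⟩ := lift D h1
  obtain ⟨b, rfl⟩ := lift D h4
  rw [← h6] at e
  rcases D.eq_or (g := g) (h := u⁻¹ * (b * u * b⁻¹)) (by simp [e]) with h | h
  · exact ⟨u⁻¹, b, by rw [h]; group⟩
  · obtain ⟨w, hw⟩ := nonsplit D h2
    refine ⟨u⁻¹, b * w, ?_⟩
    calc u⁻¹ * (b * w) * u⁻¹⁻¹ * (b * w)⁻¹ = u⁻¹ * b * (w * u * w⁻¹) * b⁻¹ := by group
      _ = g := by rw [hw, h, ← mul_assoc (u⁻¹ * b), ← (D.cen _).eq]; group

/-- Let n ≥ 5 and let G be a finite perfect group whose centre has order 2 with G/Z(G) isomorphic to the alternating group of degree n (the double cover of the alternating group). Then every element of G is a commutator. -/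
theorem result {G : Type*} [Group G] [Finite G] (hperf : commutator G = ⊤) {n : ℕ} (hn : 5 ≤ n)
    (hZ : Nat.card (Subgroup.center G) = 2) (e : G ⧸ Subgroup.center G ≃* alternatingGroup (Fin n))
    (g : G) :
    ∃ a b : G, a * b * a⁻¹ * b⁻¹ = g := by
  obtain ⟨z, π, D, -⟩ := H49.exists_dc (H := G) (P := Fin n) ⟨hZ, ⟨e⟩, fun L hL => by
    have h1 : commutator G ≤ L := by
      rw [commutator_def, Subgroup.commutator_le]
      intro a _ b _
      obtain ⟨⟨⟨x, hx⟩, ⟨l, hl⟩⟩, rfl⟩ := hL.2 a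
      obtain ⟨⟨⟨y, hy⟩, ⟨m, hm⟩⟩, rfl⟩ := hL.2 b
      rw [SetLike.mem_coe, Subgroup.mem_center_iff] at hx hy
      change x * l * (y * m) * (x * l)⁻¹ * (y * m)⁻¹ ∈ L
      have : x * l * (y * m) * (x * l)⁻¹ * (y * m)⁻¹ = l * m * l⁻¹ * m⁻¹ := by
        calc _ = x * (l * y * m * l⁻¹) * x⁻¹ * m⁻¹ * y⁻¹ := by group
          _ = y * (l * m * l⁻¹ * m⁻¹) * y⁻¹ := by rw [← hx, hy l]; group
          _ = _ := by rw [← hy]; group
      exact this ▸ mul_mem (mul_mem (mul_mem hl hm) (inv_mem hl)) (inv_mem hm)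
    have h2 := hL.disjoint
    rw [hperf, top_le_iff] at h1
    rw [h1, disjoint_top] at h2
    simp [h2] at hZ⟩
  exact main D (by simpa using hn) g

end Cfsg.Agent.S2493
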