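import Cfsg.Statements.S2495
import Cfsg.Agent.H53.LinSpec2

set_option autoImplicit false
open Cfsg

namespace Cfsg.Agent.S2495

/-- Let q be an odd prime power, n ≥ 4 even, and L = PSL(n,q). Then L has an element of order q^(n/2) + 1 if and only if the 2-part of n exceeds the 2-part of q − 1. -/
theorem result {F : Type*} [Field F] [Fintype F] {q : ℕ} (hF : Fintype.card F = q) (hodd : Odd q)
    {n : ℕ} (hn : 4 ≤ n) (heven : Even n) :
    (∃ g : Matrix.ProjectiveSpecialLinearGroup (Fin n) F, orderOf g = q ^ (n / 2) + 1) ↔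
      padicValNat 2 (q - 1) < padicValNat 2 n := by
  obtain ⟨p, hp⟩ := CharP.exists F
  have := Fact.mk (CharP.char_is_prime F p)
  obtain ⟨h, rfl⟩ := heven.two_dvd
  have h1 : 1 < q := hF ▸ Fintype.one_lt_card
  obtain ⟨r, hr, h2⟩ := H53.exists_zsig_int (q := q) (n := 2 * h) (by obtain ⟨c, hc⟩ := hodd; omega)
    (by omega)
  have h3 := (H53.jfam_psl' (F := F) (AlgebraicClosure F) p (2 * h)).half_torus
    (H53.tor_units F _ p) (H53.qp_card F p) (by omega) hr
  rw [Nat.card_eq_fintype_card, hF] at h3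
  simp only [H53.dvd_pow_sub_one_iff, h2] at h3
  have h4 := h3 dvd_rfl fun e he hlt hd => absurd (Nat.le_of_dvd he hd) (by omega)
  rw [show ((q : ℤ) - 1).natAbs = q - 1 by omega,
    show ((q : ℤ) ^ h + 1).natAbs = q ^ h + 1 by norm_cast] at h4
  rw [Nat.mul_div_cancel_left _ two_pos]
  exact h4

end Cfsg.Agent.S2495
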