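import Cfsg.Statements.S2504
import Cfsg.Agent.Base
import Cfsg.Agent.H70.AbPerm

set_option autoImplicit false
open Cfsg

namespace Cfsg.Agent.S2504

/-- The largest order of an abelian subgroup of the alternating group of degree n is 3^k when n = 3k, 4·3^(k−1) when n = 3k + 1, and 16·3^(k−2) when n = 3k + 2, for every k ≥ 2 (so for all degrees n ≥ 6). -/
theorem result (k : ℕ) (hk : 2 ≤ k) :
    IsGreatest {c : ℕ | ∃ A : Subgroup (alternatingGroup (Fin (3 * k))), IsMulCommutative A ∧ Nat.card A = c} (3 ^ k) ∧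
    IsGreatest {c : ℕ | ∃ A : Subgroup (alternatingGroup (Fin (3 * k + 1))), IsMulCommutative A ∧ Nat.card A = c}
      (4 * 3 ^ (k - 1)) ∧
    IsGreatest {c : ℕ | ∃ A : Subgroup (alternatingGroup (Fin (3 * k + 2))), IsMulCommutative A ∧ Nat.card A = c}
      (16 * 3 ^ (k - 2)) := by
  obtain ⟨k, rfl⟩ := Nat.exists_eq_add_of_le' hk
  have key : ∀ n c e b, e < 3 → n = 4 * e + 3 * b → c = 2 ^ (2 * e) * 3 ^ b →
      IsGreatest {c : ℕ | ∃ A : Subgroup (alternatingGroup (Fin n)), IsMulCommutative A ∧ Nat.card A = c} c := by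
    rintro n c e b h1 rfl rfl
    refine ⟨(H70.Ab.ex_alt e b).alt, ?_⟩
    rintro _ ⟨B, hB, rfl⟩
    exact H70.Ab.alt_le e b h1 rfl B hB
  exact ⟨key _ _ 0 (k + 2) (by omega) (by omega) (by simp), key _ _ 1 (k + 1) (by omega) (by omega) (by simp),
    key _ _ 2 k (by omega) (by omega) (by simp)⟩

end Cfsg.Agent.S2504
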