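import Cfsg.Statements.S2505
import Cfsg.Agent.Base
import Cfsg.Agent.H70.AbPerm

set_option autoImplicit false
open Cfsg

namespace Cfsg.Agent.S2505

/-- The largest order of an abelian subgroup of the symmetric group of degree n is 3^k when n = 3k, 4·3^(k−1) when n = 3k + 1, and 2·3^k when n = 3k + 2, for every k ≥ 1. -/
theorem result (k : ℕ) (hk : 1 ≤ k) :
    IsGreatest {c : ℕ | ∃ A : Subgroup (Equiv.Perm (Fin (3 * k))), IsMulCommutative A ∧ Nat.card A = c} (3 ^ k) ∧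
    IsGreatest {c : ℕ | ∃ A : Subgroup (Equiv.Perm (Fin (3 * k + 1))), IsMulCommutative A ∧ Nat.card A = c}
      (4 * 3 ^ (k - 1)) ∧
    IsGreatest {c : ℕ | ∃ A : Subgroup (Equiv.Perm (Fin (3 * k + 2))), IsMulCommutative A ∧ Nat.card A = c}
      (2 * 3 ^ k) := by
  obtain ⟨k, rfl⟩ := Nat.exists_eq_add_of_le' hk
  have key : ∀ n c e b, e < 3 → n = 2 * e + 3 * b → c = 2 ^ e * 3 ^ b → H70.Ab.Ex False n c →
      IsGreatest {c : ℕ | ∃ A : Subgroup (Equiv.Perm (Fin n)), IsMulCommutative A ∧ Nat.card A = c} c := by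
    rintro n c e b h1 h2 rfl ⟨A, a1, a2, -⟩
    refine ⟨⟨A, a1, a2⟩, ?_⟩
    rintro _ ⟨B, hB, rfl⟩
    exact H70.Ab.sym_le e b h1 h2 B hB
  refine ⟨key _ _ 0 (k + 1) (by omega) (by omega) (by simp) (H70.Ab.ex_pow _ _),
    key _ _ 2 k (by omega) (by omega) (by simp) ?_, key _ _ 1 (k + 1) (by omega) (by omega) (by simp) ?_⟩
  · rw [show 3 * (k + 1) + 1 = 3 * k + 4 by ring]
    simpa [mul_comm] using (H70.Ab.ex_pow False k).add (H70.Ab.ex_four False)
  · simpa [mul_comm] using (H70.Ab.ex_pow False (k + 1)).add H70.Ab.ex_two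

end Cfsg.Agent.S2505
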