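import Cfsg.Statements.S2506
import Cfsg.Agent.Base
import Cfsg.Agent.H70.AbPerm

set_option autoImplicit false
open scoped Pointwise
open Cfsg

namespace Cfsg.Agent.S2506

/-- In the alternating group of any degree, any two abelian subgroups of the largest possible order (among abelian subgroups) are conjugate. -/
theorem result (n : ℕ)
    (A B : Subgroup (alternatingGroup (Fin n))) (hA : IsMulCommutative A) (hB : IsMulCommutative B)
    (hAmax : ∀ C : Subgroup (alternatingGroup (Fin n)), IsMulCommutative C → Nat.card C ≤ Nat.card A)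
    (hBmax : ∀ C : Subgroup (alternatingGroup (Fin n)), IsMulCommutative C → Nat.card C ≤ Nat.card B) :
    ∃ g : alternatingGroup (Fin n), B = MulAut.conj g • A := by
  have e : Nat.card A = Nat.card B := le_antisymm (hBmax A hA) (hAmax B hB)
  by_cases h2 : n ≤ 2
  · have : Subsingleton (alternatingGroup (Fin n)) := by
      refine Fintype.card_le_one_iff_subsingleton.1 ?_
      interval_cases n <;> decide
    exact ⟨1, Subsingleton.elim _ _⟩
  have : Nonempty (Fin n) := ⟨⟨0, by omega⟩⟩
  by_cases h5 : n = 5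
  · subst h5
    have h1 : Nat.card A = 5 := by
      obtain ⟨C, c1, c2⟩ := H70.Ab.ex_five.alt
      have h1 := c2 ▸ hAmax C c1
      by_contra h
      obtain ⟨Q, _, c, -, -, -, h3⟩ := H70.Ab.alt_large' A hA (by
        have := Nat.pow_le_pow_left (show 6 ≤ Nat.card A by omega) 3
        simp only [Fintype.card_fin]; omega)
      simp only [Fintype.card_fin] at h3
      omega
    have := Fact.mk Nat.prime_five
    have hG : (Nat.card (alternatingGroup (Fin 5))).factorization 5 = 1 := by
      rw [nat_card_alternatingGroup, Nat.card_fin, show Nat.factorial 5 / 2 = 5 * 12 by rfl,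
        Nat.factorization_mul (by simp) (by simp), Nat.prime_five.factorization]
      simp [Nat.factorization_eq_zero_of_not_dvd (n := 12) (p := 5) (by decide)]
    obtain ⟨g, hg⟩ := MulAction.exists_smul_eq (alternatingGroup (Fin 5)) (Sylow.ofCard (p := 5) A (by rw [hG, h1]; rfl))
      (Sylow.ofCard (p := 5) B (by rw [hG, ← e, h1]; rfl))
    exact ⟨g, (congrArg Sylow.toSubgroup hg).symm⟩
  obtain ⟨a, b, h1, rfl⟩ : ∃ a b, a < 3 ∧ n = 4 * a + 3 * b := ⟨n % 3, (n - 4 * (n % 3)) / 3, by omega, by omega⟩
  obtain ⟨C, c1, c2⟩ := (H70.Ab.ex_alt a b).alt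
  refine H70.Ab.conj_of_large A B hA hB e hBmax ?_
  rw [show Fintype.card (Fin (4 * a + 3 * b)) = 2 * (2 * a) + 3 * b by simp; omega]
  exact (H70.Ab.thresh (2 * a) b (by omega)).trans (Nat.mul_le_mul_left _ (Nat.pow_le_pow_left (c2 ▸ hAmax C c1) 3))

end Cfsg.Agent.S2506
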