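import Cfsg.Statements.S2510
import Cfsg.Agent.H91.SpecAbs

set_option autoImplicit false
open Cfsg

namespace Cfsg.Agent.S2510
open Polynomial H53 H91

theorem psl_pow {F : Type*} [Field F] {n : ℕ} (g : Matrix.SpecialLinearGroup (Fin n) F) (k : ℕ) :
    (QuotientGroup.mk g : Matrix.ProjectiveSpecialLinearGroup (Fin n) F) ^ k = 1 ↔
      Sc (med (g : Matrix (Fin n) (Fin n) F)) k := by
  rw [← QuotientGroup.mk_pow, QuotientGroup.eq_one_iff, Matrix.SpecialLinearGroup.mem_center_iff,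
    sc_med]
  refine exists_congr fun c => ?_
  rw [Matrix.scalar_apply, ← Matrix.smul_one_eq_diagonal, Matrix.SpecialLinearGroup.coe_pow]
  refine ⟨fun h => h.2.symm, fun h => ⟨?_, h.symm⟩⟩
  have := congrArg Matrix.det h
  rwa [Matrix.det_pow, g.det_coe, one_pow, Matrix.det_smul, Matrix.det_one, mul_one,
    eq_comm] at this

theorem fam {F : Type*} [Field F] (n : ℕ) : Fam (Matrix.ProjectiveSpecialLinearGroup (Fin n) F)
    fun s : Multiset F[X] => Ok s ∧ mdeg s = n ∧ mdet s = 1 where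
  ex x := by
    obtain ⟨g, rfl⟩ := QuotientGroup.mk_surjective x
    exact ⟨_, ⟨ok_med (isUnit_sl g), by rw [mdeg_med, Fintype.card_fin],
      by rw [mdet_med, g.det_coe]⟩, psl_pow g⟩
  real s h := by
    obtain ⟨A, rfl⟩ := exists_med_eq (n := Fin n) (fun P hP => (h.1 P hP).1)
      (h.2.1.trans (Fintype.card_fin _).symm)
    exact ⟨_, psl_pow ⟨A, (mdet_med A).symm.trans h.2.2⟩⟩

/-- Let F be a finite field with q = p^a elements, n ≥ 2 (with q ≥ 4 when n = 2), L = PSL(n, F), and let r be a prime dividing q − 1 and not dividing n. Then for every m the direct product L × L × L × (ℤ/r)^m has the same set of element orders as L × L × L; and if n − 1 ≠ p^j for every j ≥ 0 (so never when n = 2, since 1 = p^0), then already L × L × (ℤ/r)^m has the same set of element orders as L × L. -/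
theorem result {F : Type*} [Field F] [Fintype F] (p a n r m : ℕ) (hp : p.Prime) (ha : 1 ≤ a) (hF : Fintype.card F = p ^ a)
    (hn : 2 ≤ n) (hn2 : n = 2 → 4 ≤ Fintype.card F) (hr : r.Prime) (hrq : r ∣ Fintype.card F - 1) (hrn : ¬ r ∣ n) :
    Set.range (orderOf : Matrix.ProjectiveSpecialLinearGroup (Fin n) F × Matrix.ProjectiveSpecialLinearGroup (Fin n) F × Matrix.ProjectiveSpecialLinearGroup (Fin n) F × Multiplicative (Fin m → ZMod r) → ℕ) =
      Set.range (orderOf : Matrix.ProjectiveSpecialLinearGroup (Fin n) F × Matrix.ProjectiveSpecialLinearGroup (Fin n) F × Matrix.ProjectiveSpecialLinearGroup (Fin n) F → ℕ) ∧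
    ((¬ ∃ j : ℕ, n - 1 = p ^ j) →
      Set.range (orderOf : Matrix.ProjectiveSpecialLinearGroup (Fin n) F × Matrix.ProjectiveSpecialLinearGroup (Fin n) F × Multiplicative (Fin m → ZMod r) → ℕ) =
        Set.range (orderOf : Matrix.ProjectiveSpecialLinearGroup (Fin n) F × Matrix.ProjectiveSpecialLinearGroup (Fin n) F → ℕ)) := by
  have := Fact.mk hp
  have : CharP F p := charP_of_card_eq_prime_pow hF
  rw [← Nat.card_eq_fintype_card] at hrq
  obtain ⟨ζ, hζ⟩ := exists_orderOf_eq_of_dvd_card hrq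
  have hN : (∑ i ∈ Finset.range n, Nat.card F ^ i) ∣ Nat.card F ^ n - 1 :=
    Dvd.intro _ (geom_sum_mul_of_one_le Nat.card_pos n)
  obtain ⟨ψ, h1, h2, h3, h4, e, he, hne⟩ := exists_irr_pord (F := F) p (by omega) hN
  have o : Ok (e • ({ψ} : Multiset F[X])) := fun P hP => by
    rw [Multiset.mem_singleton.1 (Multiset.mem_of_mem_nsmul hP)]
    exact ⟨isPP_of_irreducible h1 h2, h3⟩
  have hψ : ψ ∣ X ^ (∑ i ∈ Finset.range n, Nat.card F ^ i) - C 1 := by
    rw [C_1, ← h4]; exact dvd_X_pow_pord_sub_one ψ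
  obtain ⟨c, hc⟩ := (fam (F := F) n).real (e • {ψ}) ⟨o, by rw [mdeg_nsmul, mdeg_singleton, hne,
    mul_comm], by
      rw [mdet_nsmul, mdet_singleton]
      exact C_eq_of_dvd (isPP_of_irreducible h1 h2) (hne ▸ root_pow_geom h1 h2 e) hψ⟩
  have hc1 : orderOf c ∣ ∑ i ∈ Finset.range n, Nat.card F ^ i :=
    orderOf_dvd_of_pow_eq_one ((hc _).2 ⟨1, fun P hP => by
      rw [Multiset.mem_singleton.1 (Multiset.mem_of_mem_nsmul hP)]; exact hψ⟩)
  obtain ⟨d, hd⟩ := (hc _).1 (pow_orderOf_eq_one c)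
  replace hd := hd ψ ((Multiset.mem_nsmul_of_ne_zero he.ne').2 (Multiset.mem_singleton_self ψ))
  have hc2 := pord_dvd_mul hd (pow_card_sub_one (ne_zero_of_dvd ⟨isPP_of_irreducible h1 h2, h3⟩ hd))
  refine (fam n).absorb_det p hr hζ hrn (fun _ _ => Ok.add) (fun _ => id) (fun _ _ _ w _ => w.ok)
    (fun _ => ok_unip) hn (c := c)
    ((coprime_card_pow_sub_one (F := F) p (by omega)).coprime_dvd_left (hc1.trans hN))
    (fun s o₁ d₁ e₁ => ?_) m
  obtain ⟨P, hP⟩ := Multiset.exists_mem_of_ne_zero (s := s) (by rintro rfl; simp [mdeg] at d₁; omega)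
  obtain ⟨t, rfl⟩ := Multiset.exists_cons_of_mem hP
  rw [← Multiset.singleton_add] at *
  by_cases ht : t = 0
  swap
  · exact Or.inl ⟨_, _, rfl, o₁.mono (Multiset.le_add_right _ _),
      o₁.mono (Multiset.le_add_left _ _), by simp, ht⟩
  subst ht
  rw [add_zero] at *
  obtain ⟨⟨φ, k, f1, f2, f3, rfl⟩, f4⟩ := ok_singleton.1 o₁
  rw [coeff_zero_pow_ne_zero_iff f3] at f4
  rw [mdeg_singleton, f1.natDegree_pow, mul_comm] at d₁
  rw [mdet_singleton, nu_pow f1] at e₁
  have f5 := root_pow_geom f1 f2 k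
  rw [d₁, e₁, C_1, ← pord_dvd_iff, ← h4] at f5
  obtain ⟨c', -, f6⟩ := exists_dvd_of_pord_dvd f2 f4 dvd_rfl (f5.trans hc2)
  refine Or.inr fun T hT => ⟨c' ^ p ^ T, fun P hP => ?_⟩
  rw [Multiset.mem_singleton.1 hP]
  exact pow_dvd_of_le p f6 (le_trans (d₁ ▸ Nat.le_mul_of_pos_left k
    (isPP_of_irreducible f1 f2).natDegree_pos) hT)

end Cfsg.Agent.S2510
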