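import Cfsg.Statements.S2511
import Cfsg.Agent.H91.SpecAbs
import Cfsg.Agent.H59.SU

set_option autoImplicit false
open Cfsg

namespace Cfsg.Agent.S2511
open Polynomial H53 H59 H91 Finset

theorem sum_parity {R : Type*} [AddCommMonoid R] (f : ℕ → R) (t : ℕ) :
    ∑ i ∈ range (2 * t + 1), f i = ∑ i ∈ range (t + 1), f (2 * i) + ∑ i ∈ range t, f (2 * i + 1) := by
  induction t with
  | zero => simp
  | succ t ih =>
    rw [show 2 * (t + 1) + 1 = 2 * t + 1 + 1 + 1 by ring, sum_range_succ, sum_range_succ, ih,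
      sum_range_succ _ (t + 1), sum_range_succ (fun i => f (2 * i + 1)) t,
      show 2 * t + 1 + 1 = 2 * (t + 1) by ring]
    abel

theorem sum_period {R : Type*} [CommRing R] {y : R} {d : ℕ} (h : y ^ d = 1) (k : ℕ) :
    ∑ i ∈ range (d * k), y ^ i = k * ∑ i ∈ range d, y ^ i := by
  induction k with
  | zero => simp
  | succ k ih =>
    rw [Nat.mul_succ, sum_range_add, ih]
    simp only [pow_add, pow_mul, h, one_pow, one_mul]
    push_cast; ring

theorem sum_sq_eq {R : Type*} [CommRing R] {y : R} {d : ℕ} (h : y ^ d = 1) (hd : Odd d) (k : ℕ) :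
    ∑ i ∈ range (d * k), (y ^ 2) ^ i = ∑ i ∈ range (d * k), y ^ i := by
  rw [sum_period h, sum_period (by rw [← pow_mul, mul_comm, pow_mul, h, one_pow])]
  obtain ⟨t, rfl⟩ := hd
  rw [sum_parity (fun i => y ^ i), show 2 * t + 1 = t + 1 + t by ring, sum_range_add]
  congr 2
  · exact sum_congr rfl fun i _ => by rw [pow_mul]
  · refine sum_congr rfl fun i _ => ?_
    rw [← pow_mul, show 2 * (t + 1 + i) = 2 * t + 1 + (2 * i + 1) by ring, pow_add, h, one_mul]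

/-- the order of the cyclic maximal torus of `SU_n(q)` -/
def tor (q n : ℕ) : ℕ := (∑ i ∈ range n, (-(q : ℤ)) ^ i).natAbs

theorem tor_mul (q n : ℕ) : tor q n * (q + 1) = ((-(q : ℤ)) ^ n - 1).natAbs := by
  rw [← geom_sum_mul, Int.natAbs_mul, tor]
  congr 1
  omega

theorem tor_odd {q n : ℕ} (h : Odd n) : tor q n * (q + 1) = q ^ n + 1 := by
  rw [tor_mul, h.neg_pow, ← Nat.cast_pow]; omega

theorem tor_even {q m : ℕ} (hq : 1 ≤ q) :
    tor q (2 * m) = (∑ i ∈ range m, (q ^ 2) ^ i) * (q - 1) := by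
  refine Nat.eq_of_mul_eq_mul_right (Nat.succ_pos q) ?_
  have h1 : 1 ≤ q ^ (2 * m) := Nat.one_le_pow _ _ hq
  rw [Nat.succ_eq_add_one, tor_mul, (even_two_mul m).neg_pow, mul_assoc, mul_comm (q - 1),
    ← sq_sub_one_eq hq, geom_sum_mul_of_one_le (Nat.one_le_pow _ _ hq), ← pow_mul, ← Nat.cast_pow]
  omega

theorem dvd_tor_iff {q d o : ℕ} (hd : Odd d) (h : o ∣ q ^ d + 1) (k : ℕ) :
    o ∣ tor q (d * k) ↔ o ∣ ∑ i ∈ range (d * k), (q ^ 2) ^ i := by
  have h1 : (-(q : ZMod o)) ^ d = 1 := by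
    have := (ZMod.natCast_eq_zero_iff _ _).2 h
    push_cast at this
    rw [hd.neg_pow]; linear_combination -this
  rw [tor, ← Int.natCast_dvd, ← ZMod.intCast_zmod_eq_zero_iff_dvd, ← ZMod.natCast_eq_zero_iff]
  push_cast
  rw [← sum_sq_eq h1 hd, neg_sq]

variable {F : Type*} [Field F] [Fintype F] {q n : ℕ} (hF : Fintype.card F = q ^ 2)

theorem psu_pow (hF : Fintype.card F = q ^ 2) (hn : 2 ≤ n) (g : SU n F q) (k : ℕ) :
    (QuotientGroup.mk g : PSU n F q) ^ k = 1 ↔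
      Sc (med ((g : Matrix.SpecialLinearGroup (Fin n) F) : Matrix (Fin n) (Fin n) F)) k := by
  rw [← QuotientGroup.mk_pow, QuotientGroup.eq_one_iff, mem_center_SU_iff hF hn, sc_med]
  rfl

theorem fam (hn : 2 ≤ n) : Fam (PSU n F q) fun s : Multiset F[X] =>
    (Ok s ∧ s.map (pstar (frob hF)) = s) ∧ mdeg s = n ∧ mdet s = 1 where
  ex x := by
    obtain ⟨g, rfl⟩ := QuotientGroup.mk_surjective x
    exact ⟨_, ⟨⟨ok_med (isUnit_sl _), map_pstar_med_GU hF (suToGU n F q g)⟩,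
      by rw [mdeg_med, Fintype.card_fin], by rw [mdet_med, Matrix.SpecialLinearGroup.det_coe]⟩,
      psu_pow hF hn g⟩
  real s h := by
    obtain ⟨A, rfl⟩ := exists_GU_med_eq hF (fun P hP => (h.1.1 P hP).1)
      (fun P hP => (h.1.1 P hP).2) h.1.2 h.2.1
    obtain ⟨g, rfl⟩ := (mem_range_suToGU hF A).2 (Subtype.ext (Units.ext
      ((coe_guDet hF A).trans ((mdet_med _).symm.trans h.2.2))))
    exact ⟨_, psu_pow hF hn g⟩

theorem nu_pstar {P : F[X]} (h : IsPP P ∧ P.coeff 0 ≠ 0) :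
    nu (pstar (frob hF) P) = (frob hF (nu P))⁻¹ := by
  rw [nu, nu, natDegree_pstar, coeff_zero_pstar h.1.monic h.2, map_mul, map_pow, map_neg, map_one,
    mul_inv, ← inv_pow, inv_neg_one]

theorem nu_mul_iff {ν : F} (h : ν ≠ 0) : ν * (frob hF ν)⁻¹ = 1 ↔ ν ^ (q - 1) = 1 := by
  rw [mul_inv_eq_one₀ ((_root_.map_ne_zero _).2 h), frob_apply, eq_comm, pow_q_eq_self_iff hF h]

theorem nu_ne {P : F[X]} (h : P.coeff 0 ≠ 0) : nu P ≠ 0 :=
  mul_ne_zero (pow_ne_zero _ (neg_ne_zero.2 one_ne_zero)) h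

theorem inv_frob {c : F} (h : c ^ (q + 1) = 1) : (frob hF c)⁻¹ = c := by
  rw [frob_apply]; exact inv_eq_of_mul_eq_one_right (by rw [← pow_succ, h])

/-- Let F be a finite field with q² elements, q = p^a, n ≥ 3 with (n, q) ≠ (3, 2), L = PSU(n, q) realised over F, and let r be a prime dividing q + 1 and not dividing n. Then for every m the direct product L × L × L × (ℤ/r)^m has the same set of element orders as L × L × L; and if n − 1 is not a power of p, then already L × L × (ℤ/r)^m has the same set of element orders as L × L. -/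
theorem result {F : Type*} [Field F] [Fintype F] (p a n q r m : ℕ) (hp : p.Prime) (ha : 1 ≤ a) (hq : q = p ^ a) (hF : Fintype.card F = q ^ 2)
    (hn : 3 ≤ n) (hn3 : ¬ (n = 3 ∧ q = 2)) (hr : r.Prime) (hrq : r ∣ q + 1) (hrn : ¬ r ∣ n) :
    Set.range (orderOf : Cfsg.PSU n F q × Cfsg.PSU n F q × Cfsg.PSU n F q × Multiplicative (Fin m → ZMod r) → ℕ) = Set.range (orderOf : Cfsg.PSU n F q × Cfsg.PSU n F q × Cfsg.PSU n F q → ℕ) ∧
    ((¬ ∃ j : ℕ, n - 1 = p ^ j) →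
      Set.range (orderOf : Cfsg.PSU n F q × Cfsg.PSU n F q × Multiplicative (Fin m → ZMod r) → ℕ) = Set.range (orderOf : Cfsg.PSU n F q × Cfsg.PSU n F q → ℕ)) := by
  have := Fact.mk hp
  have : CharP F p := charP_of_card_eq_prime_pow (f := a * 2) (by rw [hF, hq, pow_mul])
  have hQ : Nat.card F = q ^ 2 := Nat.card_eq_fintype_card.trans hF
  have h2q := two_le_q hF
  have hq1 : q + 1 ∣ Nat.card F - 1 := by rw [hQ, sq_sub_one_eq (by omega)]; exact Dvd.intro _ rfl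
  have hσ : ∀ x, frob hF x = x ^ p ^ a := fun x => by rw [frob_apply, hq]
  have hσ2 := frob_frob hF
  obtain ⟨ζ, hζ⟩ := exists_orderOf_eq_of_dvd_card (hrq.trans hq1)
  have hζ1 : ζ ^ (q + 1) = 1 := orderOf_dvd_iff_pow_eq_one.1 (hζ ▸ hrq)
  have fm := fam hF (n := n) (by omega)
  have mem1 : ∀ {P ψ : F[X]} {l : ℕ}, P ∈ l • ({ψ} : Multiset F[X]) → P = ψ := fun hP =>
    Multiset.mem_singleton.1 (Multiset.mem_of_mem_nsmul hP)
  have hN : tor q n ∣ Nat.card F ^ n - 1 := by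
    rw [hQ, ← pow_mul]
    rcases Nat.even_or_odd' n with ⟨l, rfl | rfl⟩
    · rw [tor_even (by omega)]
      refine Dvd.dvd.trans ?_ (Nat.pow_sub_one_dvd_pow_sub_one q (Dvd.intro_left 2 rfl))
      rw [pow_mul, ← geom_sum_mul_of_one_le (Nat.one_le_pow _ _ (by omega)),
        sq_sub_one_eq (by omega)]
      exact Nat.mul_dvd_mul_left _ (Dvd.intro_left _ rfl)
    · rw [mul_comm 2 (2 * l + 1), pow_mul, sq_sub_one_eq (Nat.one_le_pow _ _ (by omega)),
        ← tor_odd (odd_two_mul_add_one l), mul_assoc]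
      exact Dvd.intro _ rfl
  obtain ⟨s₀, ψ, r₀, h1, h2, h3, h4, m₀, a₀⟩ : ∃ (s₀ : Multiset F[X]) (ψ : F[X]),
      ((Ok s₀ ∧ s₀.map (pstar (frob hF)) = s₀) ∧ mdeg s₀ = n ∧ mdet s₀ = 1) ∧ ψ.Monic ∧
      Irreducible ψ ∧ ψ.coeff 0 ≠ 0 ∧ pord ψ = tor q n ∧ ψ ∈ s₀ ∧
      ∀ P ∈ s₀, pord P = tor q n := by
    rcases Nat.even_or_odd' n with ⟨l, rfl | rfl⟩
    · obtain ⟨ψ, h1, h2, h3, h4, e, he, hne⟩ := exists_irr_pord (F := F) (N := tor q (2 * l))
        (n := l) p (by omega) (by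
          rw [tor_even (by omega), hQ, ← geom_sum_mul_of_one_le (Nat.one_le_pow _ _ (by omega)),
            sq_sub_one_eq (by omega)]
          exact Nat.mul_dvd_mul_left _ (Dvd.intro_left _ rfl))
      have i1 := isPP_of_irreducible h1 h2
      refine ⟨e • {ψ} + e • {pstar (frob hF) ψ}, ψ, ⟨⟨Ok.add (fun P hP => mem1 hP ▸ ⟨i1, h3⟩)
        fun P hP => mem1 hP ▸ ⟨i1.pstar hσ2, coeff_zero_pstar_ne_zero h3⟩, ?_⟩, ?_, ?_⟩, h1, h2, h3,
        h4, Multiset.mem_add.2 (Or.inl ((Multiset.mem_nsmul_of_ne_zero he.ne').2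
          (Multiset.mem_singleton_self ψ))), fun P hP => ?_⟩
      · simp [Multiset.map_nsmul, pstar_pstar hσ2 h1, add_comm]
      · rw [mdeg_add, mdeg_nsmul, mdeg_nsmul, mdeg_singleton, mdeg_singleton, natDegree_pstar, hne]
        ring
      · rw [mdet_add, mdet_nsmul, mdet_nsmul, mdet_singleton, mdet_singleton, nu_pstar hF ⟨i1, h3⟩,
          inv_pow, ← map_pow, nu_mul_iff hF (pow_ne_zero _ (nu_ne h3))]
        have := dvd_pow_mul (root_pow_geom h1 h2 e) (q - 1)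
        rw [← hne, hQ, ← tor_even (by omega), ← h4] at this
        exact C_eq_of_dvd i1 this (C_1 (R := F) ▸ dvd_X_pow_pord_sub_one ψ)
      · rcases Multiset.mem_add.1 hP with hP | hP
        · rw [mem1 hP, h4]
        · rw [mem1 hP, pord_pstar hσ2 h1, h4]
    · obtain ⟨ψ, h1, h2, h3, h4, e, he, hne⟩ := exists_irr_pord (F := F) p (by omega) hN
      have i1 := isPP_of_irreducible h1 h2
      have d1 : tor q (2 * l + 1) ∣ q ^ (2 * l + 1) + 1 :=
        Dvd.intro _ (tor_odd (odd_two_mul_add_one l))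
      have e1 : pstar (frob hF) ψ = ψ := pstar_eq_of_pord_dvd p hσ hσ2 h1 h2 h3 (i := l + 1) (by
        rw [h4, hQ, ← hq]
        exact d1.trans (Dvd.intro q (by ring)))
      refine ⟨e • {ψ}, ψ, ⟨⟨fun P hP => mem1 hP ▸ ⟨i1, h3⟩, by simp [Multiset.map_nsmul, e1]⟩,
        by rw [mdeg_nsmul, mdeg_singleton, hne, mul_comm], ?_⟩, h1, h2, h3, h4,
        (Multiset.mem_nsmul_of_ne_zero he.ne').2 (Multiset.mem_singleton_self ψ),
        fun P hP => by rw [mem1 hP, h4]⟩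
      have h5 := (dvd_tor_iff (odd_two_mul_add_one l) d1 1).1 (by rw [mul_one])
      rw [mul_one, ← h4, pord_dvd_iff, ← C_1, ← hQ] at h5
      rw [mdet_nsmul, mdet_singleton]
      exact C_eq_of_dvd i1 (hne ▸ root_pow_geom h1 h2 e) h5
  obtain ⟨c, hc⟩ := fm.real s₀ r₀
  have hc1 : orderOf c ∣ tor q n := orderOf_dvd_of_pow_eq_one ((hc _).2 ⟨1, fun P hP => by
    rw [C_1, ← a₀ P hP]; exact dvd_X_pow_pord_sub_one P⟩)
  obtain ⟨d, hd⟩ := (hc _).1 (pow_orderOf_eq_one c)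
  have i1 := isPP_of_irreducible h1 h2
  have d0 := ne_zero_of_dvd ⟨i1, h3⟩ (hd ψ m₀)
  have hc2 : tor q n ∣ orderOf c * (q + 1) := by
    have h5 := pstar_dvd_pstar (σ := frob hF) (hd _ (r₀.1.2 ▸ Multiset.mem_map_of_mem _ m₀))
    rw [pstar_pstar hσ2 h1, pstar_X_pow_sub_C (orderOf_pos c) d0] at h5
    refine h4 ▸ pord_dvd_mul (hd ψ m₀) ?_
    rw [pow_succ, ← frob_apply hF]
    nth_rewrite 2 [C_eq_of_dvd i1 (hd ψ m₀) h5]
    exact mul_inv_cancel₀ ((_root_.map_ne_zero _).2 d0)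
  refine fm.absorb_det p hr hζ hrn (fun _ _ h h' => ⟨h.1.add h'.1, by rw [Multiset.map_add, h.2, h'.2]⟩)
    (fun _ h => h.1) (fun i _ _ w h => ⟨w.ok, (w.real (frob hF) 1 False ?_ (real_of_rigid hσ2 (by simp)
      False.elim (fun P hP => (h.1 P hP).1) (fun P hP => (h.1 P hP).2) h.2
      (Or.inl (frob_ne_id hF)))).map_pstar⟩)
    (fun _ hk => ⟨ok_unip hk, by simp [pstar_pow, pstar_X_sub_one]⟩) (by omega) (c := c)
    ((coprime_card_pow_sub_one (F := F) p (by omega)).coprime_dvd_left (hc1.trans hN))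
    (fun s o₁ d₁ e₁ => ?_) m
  · rw [frob_apply, ← pow_succ', ← pow_mul, mul_comm, pow_mul, hζ1, one_pow]
  obtain ⟨P, hP⟩ := Multiset.exists_mem_of_ne_zero (s := s) (by rintro rfl; simp [mdeg] at d₁; omega)
  obtain ⟨⟨φ, k, f1, f2, f3, rfl⟩, f4⟩ := o₁.1 P hP
  have f4' := (coeff_zero_pow_ne_zero_iff f3).1 f4
  have fp := (isPP_of_irreducible f1 f2).natDegree_pos
  have split : ∀ s₁ : Multiset F[X], s₁ ≤ s → s₁.map (pstar (frob hF)) = s₁ → s₁ ≠ 0 → s₁ = s ∨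
      ∃ s₁ s₂, s = s₁ + s₂ ∧ (Ok s₁ ∧ s₁.map (pstar (frob hF)) = s₁) ∧
        (Ok s₂ ∧ s₂.map (pstar (frob hF)) = s₂) ∧ s₁ ≠ 0 ∧ s₂ ≠ 0 := fun s₁ l1 l2 l3 => by
    obtain ⟨t, rfl⟩ := exists_add_of_le l1
    by_cases ht : t = 0
    · exact Or.inl (by rw [ht, add_zero])
    · have := o₁.2
      rw [Multiset.map_add, l2, add_right_inj] at this
      exact Or.inr ⟨_, _, rfl, ⟨o₁.1.mono l1, l2⟩, ⟨o₁.1.mono (Multiset.le_add_left _ _), this⟩,
        l3, ht⟩
  have fin : pord φ ∣ tor q n → k ≤ n → (∀ P ∈ s, P = φ ^ k ∨ P = pstar (frob hF) φ ^ k) →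
      ∀ T, n ≤ p ^ T → Sc s (orderOf c * p ^ T) := fun g1 g2 g3 T hT => by
    obtain ⟨c', g4, g5⟩ := exists_dvd_of_pord_dvd f2 f4' hq1 (g1.trans hc2)
    refine ⟨c' ^ p ^ T, fun P hP => ?_⟩
    rcases g3 P hP with rfl | rfl
    · exact pow_dvd_of_le p g5 (g2.trans hT)
    · have g6 := pstar_dvd_pstar (σ := frob hF) g5
      rw [pstar_X_pow_sub_C (orderOf_pos c) (by rintro rfl; simp at g4), inv_frob hF g4] at g6
      exact pow_dvd_of_le p g6 (g2.trans hT)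
  by_cases hs : pstar (frob hF) (φ ^ k) = φ ^ k
  · refine (split {φ ^ k} (Multiset.singleton_le.2 hP) (by simp [hs]) (by simp)).symm.imp_right ?_
    rintro rfl
    rw [mdeg_singleton, f1.natDegree_pow, mul_comm] at d₁
    rw [mdet_singleton, nu_pow f1] at e₁
    rw [pstar_pow] at hs
    obtain ⟨i, i0, hi⟩ := pord_dvd_of_pstar p hσ hσ2 f1 f2 f4' (monic_irreducible_eq_of_pow_eq
      (monic_pstar f1.ne_zero) (irreducible_pstar hσ2 f1 f2) f1 f2 f3 hs).1
    obtain ⟨i, rfl⟩ : ∃ j, i = j + 1 := ⟨i - 1, by omega⟩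
    have g1 : pord φ ∣ q ^ (2 * i + 1) + 1 := by
      refine Nat.Coprime.dvd_of_dvd_mul_left (hq ▸ (pord_coprime p f2 f4').pow_right a) ?_
      rw [hQ, ← hq] at hi
      exact hi.trans (dvd_of_eq (by ring))
    obtain ⟨e, he⟩ : φ.natDegree ∣ 2 * i + 1 := (natDegree_dvd_iff_pord_dvd f2 f4' _).2 (by
      rw [hQ, ← pow_mul, mul_comm 2, pow_mul, sq_sub_one_eq (Nat.one_le_pow _ _ (by omega))]
      exact g1.mul_right _)
    have ho := Nat.odd_mul.1 (he ▸ odd_two_mul_add_one i)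
    have g2 : pord φ ∣ q ^ φ.natDegree + 1 := by
      obtain ⟨t, rfl⟩ := ho.2
      have g3 := (Nat.modEq_iff_dvd' (Nat.one_le_pow _ _ Nat.card_pos)).2
        (pord_dvd_card_pow_sub_one f2 f4')
      have g4 := ((g3.pow t).mul_right (q ^ φ.natDegree)).add_right 1
      rw [one_pow, one_mul, hQ, ← pow_mul, ← pow_mul, ← pow_add,
        show 2 * (φ.natDegree * t) + φ.natDegree = φ.natDegree * (2 * t + 1) by ring, ← he] at g4
      exact (g4.dvd_iff dvd_rfl).2 g1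
    have g3 := root_pow_geom f1 f2 k
    rw [e₁, C_1, ← pord_dvd_iff, hQ, ← dvd_tor_iff ho.1 g2, d₁] at g3
    exact fin g3 (d₁ ▸ Nat.le_mul_of_pos_left k fp) fun P hP => Or.inl (Multiset.mem_singleton.1 hP)
  · have hm : (φ ^ k).Monic := f1.pow k
    refine (split ({φ ^ k} + {pstar (frob hF) (φ ^ k)}) ?_ (by
      rw [Multiset.map_add, Multiset.map_singleton, Multiset.map_singleton, pstar_pstar hσ2 hm,
        add_comm])
      (by simp)).symm.imp_right ?_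
    · rw [Multiset.singleton_add]
      exact (Multiset.cons_le_of_notMem (by simpa using Ne.symm hs)).2 ⟨hP,
        Multiset.singleton_le.2 (o₁.2 ▸ Multiset.mem_map_of_mem _ hP)⟩
    rintro rfl
    rw [mdeg_add, mdeg_singleton, mdeg_singleton, natDegree_pstar, f1.natDegree_pow, ← two_mul,
      mul_comm k] at d₁
    rw [mdet_add, mdet_singleton, mdet_singleton, nu_pstar hF (o₁.1 _ hP), nu_mul_iff hF (nu_ne f4),
      nu_pow f1] at e₁
    have g3 := pord_dvd_mul (root_pow_geom f1 f2 k) e₁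
    rw [hQ, ← tor_even (by omega), d₁] at g3
    exact fin g3 (by nlinarith) fun P hP => by simpa [pstar_pow] using hP

end Cfsg.Agent.S2511
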