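import Cfsg.Statements.S2512
import Cfsg.Agent.H91.SpecAbs
import Cfsg.Agent.H54.SpSimple

set_option autoImplicit false
open Cfsg

namespace Cfsg.Agent.S2512
open Polynomial H53 H91

variable {F : Type*} [Field F] {n : ℕ} {s t : Multiset F[X]}

/-- elementary divisors of a symplectic isometry -/
abbrev RS (s : Multiset F[X]) : Prop := Real (RingHom.id F) (-1) True s

theorem RS.ok (h : RS s) : Ok s := fun P hP =>
  ⟨(real_alt_iff.1 h).1 P hP, (real_alt_iff.1 h).2.1 P hP⟩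

theorem RS.sub (h : RS (s + t)) (h' : RS s) : RS t := by
  classical
  have o := h.ok.mono (Multiset.le_add_left t s)
  have e := h.map_pstar
  rw [Multiset.map_add, h'.map_pstar, add_right_inj] at e
  refine real_alt_iff.2 ⟨fun P hP => (o P hP).1, fun P hP => (o P hP).2, e, fun c hc k hk => ?_⟩
  have h1 := (real_alt_iff.1 h).2.2.2 c hc k hk
  rw [Multiset.count_add] at h1
  exact (Nat.even_add.1 h1).1 ((real_alt_iff.1 h').2.2.2 c hc k hk)

theorem RS.even (h : RS s) : Even (mdeg s) := by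
  obtain ⟨d, B, f, h1, h2, -, rfl⟩ := h
  rw [mdeg, sum_natDegree_ed]
  exact H54.even_finrank_of_isAlt h1.nondegenerate (h2 trivial)

theorem rs_hyp (h : Ok s) : RS (s + s.map (pstar (RingHom.id F))) :=
  real_hyp (fun _ => rfl) (by simp) (fun _ => ⟨rfl, rfl⟩) (fun P hP => (h P hP).1)
    fun P hP => (h P hP).2

theorem psp_pow (g : Matrix.symplecticGroup (Fin n) F) (k : ℕ) :
    (QuotientGroup.mk g : PSp n F) ^ k = 1 ↔
      Sc (med (g : Matrix (Fin n ⊕ Fin n) (Fin n ⊕ Fin n) F)) k := by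
  rw [← QuotientGroup.mk_pow, QuotientGroup.eq_one_iff, sc_med, ← SubmonoidClass.coe_pow]
  constructor
  · intro h
    rcases H54.mem_center_sp_iff.1 h with h | h
    · exact ⟨1, by rw [h, one_smul]; rfl⟩
    · exact ⟨-1, by rw [h, H54.spNegOne_coe, neg_smul, one_smul]⟩
  · rintro ⟨c, hc⟩
    exact Subgroup.mem_center_iff.2 fun a => Subtype.ext (by
      rw [Submonoid.coe_mul, Submonoid.coe_mul, hc, mul_smul_comm, smul_mul_assoc, mul_one, one_mul])

theorem fam (n : ℕ) : Fam (PSp n F) fun s : Multiset F[X] => RS s ∧ mdeg s = 2 * n where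
  ex x := by
    obtain ⟨g, rfl⟩ := QuotientGroup.mk_surjective x
    exact ⟨_, ⟨real_med_sp g, by rw [mdeg_med]; simp [two_mul]⟩, psp_pow g⟩
  real s h := by
    obtain ⟨g, rfl⟩ := exists_sp_med_eq (l := Fin n) h.1 (by rw [Fintype.card_fin]; exact h.2)
    exact ⟨_, psp_pow g⟩

theorem good (h2 : (2 : F) ≠ 0) {x : PSp n F} (hx : ∀ k, Sc (s + t) k → x ^ k = 1) (hs : RS s)
    (ht : RS t) (s0 : s ≠ 0) (t0 : t ≠ 0) (hd : mdeg (s + t) = 2 * n) : GoodAt 2 x := by
  obtain ⟨s', w₁⟩ := exists_tw hs.ok (one_ne_zero (α := F))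
  obtain ⟨t', w₂⟩ := exists_tw ht.ok (neg_ne_zero.2 (one_ne_zero (α := F)))
  exact (fam n).good Nat.prime_two hx hs.ok ht.ok s0 t0 (by simp) (by simp)
    (fun e => h2 (by linear_combination e)) w₁ w₂ ⟨hs.add ht, hd⟩
    ⟨(w₁.real _ _ _ (by simp) hs).add (w₂.real _ _ _ (by simp) ht), by
      rw [mdeg_add, w₁.deg, w₂.deg, ← mdeg_add, hd]⟩

theorem torus [Finite F] (hs : RS s) (hd : mdeg s = 2 * n) {ψ : F[X]} (hψ : ψ ∈ s) :
    ∃ c : PSp n F, pord ψ ∣ orderOf c * 2 := by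
  obtain ⟨c, hc⟩ := (fam n).real s ⟨hs, hd⟩
  obtain ⟨d, h⟩ := (hc _).1 (pow_orderOf_eq_one c)
  have o := hs.ok ψ hψ
  have d0 := ne_zero_of_dvd o (h ψ hψ)
  have h5 := pstar_dvd_pstar (σ := RingHom.id F) (h _ (hs.map_pstar ▸ Multiset.mem_map_of_mem _ hψ))
  rw [pstar_pstar (fun _ => rfl) o.1.monic, pstar_X_pow_sub_C (orderOf_pos c) d0] at h5
  refine ⟨c, pord_dvd_mul (h ψ hψ) ?_⟩
  rw [pow_two]
  nth_rewrite 2 [C_eq_of_dvd o.1 (h ψ hψ) h5]
  exact mul_inv_cancel₀ d0

/-- Let F be a finite field of odd order q = p^a, n ≥ 2 (with q ≥ 3 automatic), and L = PSp(2n, F). Then for every m the direct product L × L × L × (ℤ/2)^m has the same set of element orders as L × L × L; and if 2n − 1 is not a power of p, then already L × L × (ℤ/2)^m has the same set of element orders as L × L. -/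
theorem result {F : Type*} [Field F] [Fintype F] (p a n m : ℕ) (hp : p.Prime) (ha : 1 ≤ a) (hF : Fintype.card F = p ^ a) (hodd : Odd (Fintype.card F))
    (hn : 2 ≤ n) :
    Set.range (orderOf : Cfsg.PSp n F × Cfsg.PSp n F × Cfsg.PSp n F × Multiplicative (Fin m → ZMod 2) → ℕ) = Set.range (orderOf : Cfsg.PSp n F × Cfsg.PSp n F × Cfsg.PSp n F → ℕ) ∧
    ((¬ ∃ j : ℕ, 2 * n - 1 = p ^ j) →
      Set.range (orderOf : Cfsg.PSp n F × Cfsg.PSp n F × Multiplicative (Fin m → ZMod 2) → ℕ) = Set.range (orderOf : Cfsg.PSp n F × Cfsg.PSp n F → ℕ)) := by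
  classical
  have := Fact.mk hp
  have : CharP F p := charP_of_card_eq_prime_pow hF
  have po : Odd p := (Nat.odd_pow_iff (by omega)).1 (hF ▸ hodd)
  have h2 : (2 : F) ≠ 0 := fun e => by
    have := (Nat.prime_dvd_prime_iff_eq hp Nat.prime_two).1
      ((CharP.cast_eq_zero_iff F p 2).1 (by exact_mod_cast e))
    subst this; exact absurd po (by decide)
  rw [← Nat.card_eq_fintype_card] at hodd
  set Q := Nat.card F ^ n with hQ
  have Qo : Odd Q := hodd.pow
  have Q4 : 4 ≤ Q := le_trans (by norm_num) ((Nat.pow_le_pow_left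
    (Finite.one_lt_card (α := F)) 2).trans (Nat.pow_le_pow_right Nat.card_pos hn))
  have hσ : ∀ x : F, RingHom.id F x = x ^ p ^ 0 := fun x => by simp
  have hσ2 : ∀ x : F, RingHom.id F (RingHom.id F x) = x := fun _ => rfl
  have mem1 : ∀ {P ψ : F[X]} {l : ℕ}, P ∈ l • ({ψ} : Multiset F[X]) → P = ψ := fun hP =>
    Multiset.mem_singleton.1 (Multiset.mem_of_mem_nsmul hP)
  have QQ : Nat.card F ^ (2 * n) - 1 = (Q - 1) * (Q + 1) := by
    rw [mul_comm 2, pow_mul, ← hQ, mul_comm, ← Nat.sq_sub_sq, one_pow]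
  obtain ⟨c₁, hc₁⟩ : ∃ c : PSp n F, Q + 1 ∣ orderOf c * 2 := by
    obtain ⟨ψ, h1, h2, h3, h4, e, he, hne⟩ := exists_irr_pord (F := F) (N := Q + 1) (n := 2 * n) p
      (by omega) (QQ ▸ Dvd.intro_left _ rfl)
    refine h4 ▸ torus (s := e • {ψ}) (Real.nsmul hσ2 (by simp) (real_singleton hσ2 (by simp)
      (fun _ => ⟨rfl, rfl⟩) (isPP_of_irreducible h1 h2) h3 (pstar_eq_of_pord_dvd p hσ hσ2 h1 h2 h3
        (i := n) (by rw [h4, pow_zero])) (Or.inr (h2.coprime_iff_not_dvd.2 fun h => ?_))) e)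
      (by rw [mdeg_nsmul, mdeg_singleton, hne, mul_comm])
      ((Multiset.mem_nsmul_of_ne_zero he.ne').2 (Multiset.mem_singleton_self ψ))
    have := Nat.le_of_dvd two_pos (h4 ▸ (pord_dvd_iff ψ 2).2 h)
    omega
  obtain ⟨c₂, hc₂⟩ : ∃ c : PSp n F, Q - 1 ∣ orderOf c * 2 := by
    obtain ⟨ψ, h1, h2, h3, h4, e, he, hne⟩ := exists_irr_pord (F := F) (N := Q - 1) (n := n) p
      (by omega) dvd_rfl
    refine h4 ▸ torus (rs_hyp (s := e • {ψ}) fun P hP => mem1 hP ▸ ⟨isPP_of_irreducible h1 h2, h3⟩)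
      ?_ (Multiset.mem_add.2 (Or.inl
        ((Multiset.mem_nsmul_of_ne_zero he.ne').2 (Multiset.mem_singleton_self ψ))))
    rw [Multiset.map_nsmul, Multiset.map_singleton, mdeg_add, mdeg_nsmul, mdeg_nsmul,
      mdeg_singleton, mdeg_singleton, natDegree_pstar, hne]
    ring
  obtain ⟨c, hc⟩ : ∃ c : PSp n F, ∀ x : PSp n F, orderOf x ∣ Q + 1 ∨ orderOf x ∣ Q - 1 →
      GoodAt 2 x ∨ orderOf x ∣ orderOf c := by
    have key : ∀ (x c : PSp n F) (N : ℕ), N ∣ orderOf c * 2 → orderOf x ∣ N →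
        GoodAt 2 x ∨ (orderOf x ∣ orderOf c ∧ (4 ∣ N → GoodAt 2 x)) := fun x c N h1 h2 => by
      by_cases h : 2 ∣ orderOf x
      · exact Or.inl ⟨x, dvd_rfl, h⟩
      have h3 := ((Nat.prime_two.coprime_iff_not_dvd.2 h).symm).dvd_of_dvd_mul_right (h2.trans h1)
      exact Or.inr ⟨h3, fun h4 => ⟨c, h3, Nat.dvd_of_mul_dvd_mul_right two_pos (h4.trans h1)⟩⟩
    obtain ⟨y, hy⟩ := Qo
    rcases Nat.even_or_odd' y with ⟨z, rfl | rfl⟩
    · exact ⟨c₁, fun x hx => hx.elim (fun h => (key x c₁ _ hc₁ h).imp_right And.left)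
        fun h => Or.inl ((key x c₂ _ hc₂ h).elim id fun h => h.2 (by omega))⟩
    · exact ⟨c₂, fun x hx => hx.symm.elim (fun h => (key x c₂ _ hc₂ h).imp_right And.left)
        fun h => Or.inl ((key x c₁ _ hc₁ h).elim id fun h => h.2 (by omega))⟩
  have key : ∀ T, 2 * n ≤ p ^ T → ∀ u : PSp n F, p ^ T ∣ orderOf u →
      ∀ x : PSp n F, GoodAt 2 x ∨ orderOf x ∣ (orderOf u).lcm (orderOf c) := by
    intro T hT u hu x
    obtain ⟨s, ⟨o₁, d₁⟩, hx⟩ := (fam n).ex x
    have split : ∀ s₁ : Multiset F[X], s₁ ≤ s → RS s₁ → s₁ ≠ 0 → GoodAt 2 x ∨ s₁ = s :=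
      fun s₁ l1 l2 l3 => by
        obtain ⟨t, rfl⟩ := exists_add_of_le l1
        by_cases ht : t = 0
        · exact Or.inr (by rw [ht, add_zero])
        · exact Or.inl (good h2 (fun k => (hx k).2) l2 (o₁.sub l2) l3 ht d₁)
    obtain ⟨P, hP⟩ := Multiset.exists_mem_of_ne_zero (s := s)
      (by rintro rfl; simp [mdeg] at d₁; omega)
    obtain ⟨⟨φ, k, f1, f2, f3, rfl⟩, f4⟩ := o₁.ok P hP
    have f4' := (coeff_zero_pow_ne_zero_iff f3).1 f4
    have i1 := isPP_of_irreducible f1 f2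
    have fp := i1.natDegree_pos
    by_cases hφ : ∃ e : F, e * e = 1 ∧ φ = X - C e
    · obtain ⟨e, he, rfl⟩ := hφ
      have fin : (∀ P ∈ s, P = (X - C e) ^ k) → orderOf x ∣ (orderOf u).lcm (orderOf c) :=
        fun g => by
          refine ((orderOf_dvd_of_pow_eq_one ((hx _).2 ⟨e ^ p ^ T, fun P hP => ?_⟩)).trans hu).trans
            (Nat.dvd_lcm_left _ _)
          have g1 := Multiset.single_le_sum (by simp) _ (Multiset.mem_map_of_mem natDegree hP)
          rw [g P hP] at g1 ⊢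
          rw [f1.natDegree_pow, natDegree_X_sub_C, mul_one] at g1
          simpa using pow_dvd_of_le p (φ := X - C e) (j := 1) (c := e) (by simp)
            (g1.trans (d₁.trans_le hT))
      rcases Nat.even_or_odd k with hk | hk
      · refine (split {(X - C e) ^ k} (Multiset.singleton_le.2 hP) (real_alt_iff.2
          ⟨by simpa using (o₁.ok _ hP).1, by simpa using f4,
            by simp [pstar_pow, pstar_X_sub_C_of_mul_self he], fun d _ l hl => ?_⟩)
          (by simp)).imp_right ?_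
        · rw [Multiset.count_singleton, if_neg]
          · simp
          · intro h
            have := congrArg natDegree h
            simp only [natDegree_pow, natDegree_X_sub_C, mul_one] at this
            exact Nat.not_even_iff_odd.2 hl (this ▸ hk)
        · rintro rfl; exact fin (by simp)
      · have g1 := (real_alt_iff.1 o₁).2.2.2 e he k hk
        have g2 := Multiset.count_pos.2 hP
        have g3 := rs_hyp (ok_singleton.2 (o₁.ok _ hP))
        rw [Multiset.map_singleton, pstar_pow, pstar_X_sub_C_of_mul_self he] at g3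
        refine (split _ ?_ g3 (by simp)).imp_right ?_
        · rw [← two_nsmul, Multiset.nsmul_singleton, ← Multiset.le_count_iff_replicate_le]
          obtain ⟨y, hy⟩ := g1
          omega
        · rintro rfl; exact fin (by simp)
    have cp : IsCoprime φ (X ^ 2 - 1) := isCoprime_X_sq_sub_one f1 f2
      (fun e => hφ ⟨1, by simp, by simp [e]⟩) fun e => hφ ⟨-1, by simp, by simp [e]⟩
    have fin : ∀ s₁ : Multiset F[X], RS s₁ → s₁ ≠ 0 → (∀ ψ ∈ s₁, Irreducible ψ) →
        s = s₁.map (· ^ k) → (k = 1 → pord φ ∣ Q + 1 ∨ pord φ ∣ Q - 1) →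
        (∀ ψ ∈ s₁, pord ψ = pord φ) → GoodAt 2 x ∨ orderOf x ∣ (orderOf u).lcm (orderOf c) := by
      intro s₁ r₁ n₁ g1 g2 g3 g4
      by_cases hk : k = 1
      · refine (hc x ?_).imp_right fun h => h.trans (Nat.dvd_lcm_right _ _)
        have : orderOf x ∣ pord φ := orderOf_dvd_of_pow_eq_one ((hx _).2 ⟨1, fun P hP => by
          rw [g2, hk] at hP
          simp only [pow_one, Multiset.map_id'] at hP
          rw [C_1, ← g4 P hP]; exact dvd_X_pow_pord_sub_one P⟩)
        exact (g3 hk).imp this.trans this.trans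
      have g5 : mdeg s = k * mdeg s₁ := by
        rw [g2, mdeg, mdeg, Multiset.map_map, ← Multiset.sum_map_mul_left]
        exact congrArg _ (Multiset.map_congr rfl fun P _ => natDegree_pow P k)
      obtain ⟨d, hd⟩ := r₁.even
      have d0 : 0 < d := Nat.pos_of_ne_zero (by rintro rfl; rw [g5, hd] at d₁; omega)
      obtain ⟨k, rfl⟩ : ∃ j, k = j + 2 := ⟨k - 2, by omega⟩
      have j0 : k + 2 ≤ (k + 1) * (d + d) := by nlinarith
      refine Or.inl (good h2 (s := s₁) (t := {(X - 1) ^ ((k + 1) * (d + d))}) (fun l hl => ?_) r₁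
        (real_alt_unip (by omega) (Even.mul_left ⟨d, rfl⟩ _)) n₁ (by simp)
        (by rw [mdeg_add, mdeg_unip, ← d₁, g5, hd]; ring))
      obtain ⟨e, he⟩ := hl
      obtain ⟨rfl, l, rfl⟩ := sc_unip p (k := (k + 1) * (d + d)) (by omega)
        (he _ (Multiset.mem_add.2 (Or.inr (Multiset.mem_singleton_self _))))
      refine (hx _).2 ⟨1, fun P hP => ?_⟩
      obtain ⟨ψ, h1, rfl⟩ := Multiset.mem_map.1 (g2 ▸ hP)
      have h3 := he ψ (Multiset.mem_add.2 (Or.inl h1))
      have j1 := j0.trans (Nat.le_pow_clog hp.one_lt _)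
      generalize Nat.clog p ((k + 1) * (d + d)) = T' at h3 j1 ⊢
      rw [mul_comm, pow_mul, C_1, ← one_pow (p ^ T'), ← sub_pow_char_pow] at h3
      have := pow_dvd_of_le p (c := 1) ((g1 ψ h1).prime.dvd_of_dvd_pow h3) j1
      rwa [one_pow, mul_comm] at this
    have hm : (φ ^ k).Monic := f1.pow k
    by_cases hs : pstar (RingHom.id F) φ = φ
    · rcases split {φ ^ k} (Multiset.singleton_le.2 hP) (real_singleton hσ2 (by simp)
        (fun _ => ⟨rfl, rfl⟩) (o₁.ok _ hP).1 f4 (by rw [pstar_pow, hs]) (Or.inr cp.pow_left))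
        (by simp) with h | rfl
      · exact Or.inl h
      refine fin {φ} (real_singleton hσ2 (by simp) (fun _ => ⟨rfl, rfl⟩) i1 f4' hs (Or.inr cp))
        (by simp) (by simpa using f2) (by simp) ?_ (by simp)
      rintro rfl
      rw [mdeg_singleton, pow_one] at d₁
      obtain ⟨i, i0, hi⟩ := pord_dvd_of_pstar p hσ hσ2 f1 f2 f4' hs
      rw [pow_zero] at hi
      obtain ⟨t, ht⟩ : φ.natDegree ∣ i * 2 := (natDegree_dvd_iff_pord_dvd f2 f4' _).2 (by
        rw [pow_mul, ← one_pow 2, Nat.sq_sub_sq]; exact hi.mul_right _)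
      obtain rfl : i = n * t := by rw [d₁] at ht; nlinarith
      have g3 := (Nat.modEq_iff_dvd' (Nat.one_le_pow _ _ Nat.card_pos)).2
        (pord_dvd_card_pow_sub_one f2 f4')
      rw [d₁, mul_comm 2, pow_mul, ← hQ] at g3
      rw [pow_mul, ← hQ] at hi
      rcases Nat.even_or_odd' t with ⟨y, rfl | rfl⟩
      · have g4 := (g3.pow y).add_right 1
        rw [one_pow, ← pow_mul] at g4
        exact Or.inl (((g4.dvd_iff dvd_rfl).2 hi).trans (by obtain ⟨z, hz⟩ := Qo; omega))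
      · have g4 := ((g3.pow y).mul_right Q).add_right 1
        rw [one_pow, one_mul, ← pow_mul, ← pow_succ] at g4
        exact Or.inl ((g4.dvd_iff dvd_rfl).2 hi)
    · have g := rs_hyp (ok_singleton.2 (o₁.ok _ hP))
      rw [Multiset.map_singleton] at g
      rcases split _ (by
        rw [Multiset.singleton_add]
        refine (Multiset.cons_le_of_notMem fun h => hs ?_).2 ⟨hP,
          Multiset.singleton_le.2 (o₁.map_pstar ▸ Multiset.mem_map_of_mem _ hP)⟩
        rw [Multiset.mem_singleton, pstar_pow] at h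
        exact (monic_irreducible_eq_of_pow_eq f1 f2 (monic_pstar f1.ne_zero)
          (irreducible_pstar hσ2 f1 f2) f3 h).1.symm) g (by simp) with h | rfl
      · exact Or.inl h
      refine fin _ (rs_hyp (ok_singleton.2 ⟨i1, f4'⟩)) (by simp)
        (by simp [f2, irreducible_pstar hσ2 f1 f2]) (by simp [pstar_pow]) ?_
        (by simp [pord_pstar hσ2 f1])
      rintro rfl
      rw [mdeg_add, mdeg_singleton, mdeg_singleton, natDegree_pstar, pow_one] at d₁
      exact Or.inr ((natDegree_dvd_iff_pord_dvd f2 f4' n).1 (dvd_of_eq (by omega)))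
  have r₁ : RS ({(X - 1) ^ (2 * n - 2)} : Multiset F[X]) :=
    real_alt_unip (by omega) ⟨n - 1, by omega⟩
  have r₂ : RS ({(X - 1) ^ 2} : Multiset F[X]) := real_alt_unip two_pos even_two
  have d : mdeg ({(X - 1) ^ (2 * n - 2)} + {(X - 1) ^ 2} : Multiset F[X]) = 2 * n := by
    rw [mdeg_add, mdeg_unip, mdeg_unip]; omega
  obtain ⟨w₀, h3, h4⟩ := (fam n).unip p (k := 2 * n - 2) (by omega) ⟨r₁.add r₂, d⟩ (by simp)
  obtain ⟨w, h5, h6⟩ := good h2 (fun k => (h4 k).2) r₁ r₂ (by simp) (by simp) d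
  obtain ⟨u, h7, -⟩ := (fam (F := F) n).unip p (k := 2 * n) (by omega)
    ⟨real_alt_unip (by omega) (even_two_mul n), mdeg_unip⟩ (by simp)
  refine ⟨range_absorb_three m h6 (key _ (Nat.le_pow_clog hp.one_lt _) u h7),
    fun hj => range_absorb_two m h6 (key _ ?_ w (h3.trans h5))⟩
  have e1 := Nat.le_pow_clog hp.one_lt (2 * n - 2)
  have e2 : 2 * n - 1 ≠ p ^ Nat.clog p (2 * n - 2) := fun e => hj ⟨_, e⟩
  obtain ⟨y, hy⟩ : Odd (p ^ Nat.clog p (2 * n - 2)) := po.pow
  omega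

end Cfsg.Agent.S2512
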