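import Cfsg.Statements.S2513
import Cfsg.Agent.S2510

set_option autoImplicit false
open Cfsg

namespace Cfsg.Agent.S2513
open Polynomial H53 H91

theorem exists_mul_range {n d : ℕ} (h0 : 0 < d) (hd : d ≤ n) :
    ∃ e, d ∣ e ∧ e ≤ n ∧ n < 2 * e := by
  refine ⟨d * (n / d), Dvd.intro _ rfl, Nat.mul_div_le n d, ?_⟩
  have h1 := Nat.div_add_mod n d
  have h2 := Nat.mod_lt n h0
  have h3 : d * 1 ≤ d * (n / d) := Nat.mul_le_mul_left d (Nat.div_pos hd h0)
  omega

/-- Let F be the field with two elements, n ≥ 2, L = PSL(n, F) and k₀ = ⌊(n + 3)/2⌋. Then for every k ≥ k₀ the direct product of k copies of L has the same set of element orders as the direct product of k₀ copies of L. -/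
theorem result {F : Type*} [Field F] [Fintype F] (hF : Fintype.card F = 2) (n k : ℕ) (hn : 2 ≤ n) (hk : (n + 3) / 2 ≤ k) :
    Set.range (orderOf : (Fin k → Matrix.ProjectiveSpecialLinearGroup (Fin n) F) → ℕ) = Set.range (orderOf : (Fin ((n + 3) / 2) → Matrix.ProjectiveSpecialLinearGroup (Fin n) F) → ℕ) := by
  have : CharP F 2 := charP_of_card_eq_prime_pow (f := 1) hF
  have hF' : Nat.card F = 2 := Nat.card_eq_fintype_card.trans hF
  have one : ∀ c : F, c ≠ 0 → c = 1 := fun c hc => by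
    have := pow_card_sub_one hc
    rwa [hF', pow_one] at this
  have fm := Cfsg.Agent.S2510.fam (F := F) n
  have det : ∀ s : Multiset F[X], Ok s → mdet s = 1 := fun s hs => one _ (by
    refine Multiset.prod_ne_zero fun h => ?_
    obtain ⟨P, hP, e⟩ := Multiset.mem_map.1 h
    exact mul_ne_zero (pow_ne_zero _ (neg_ne_zero.2 one_ne_zero)) (hs P hP).2 e)
  obtain ⟨u, hu, -⟩ := fm.unip 2 (k := n) (by omega) ⟨ok_unip (by omega), mdeg_unip, mdet_unip⟩
    (by simp)
  have tor : ∀ e, ∃ c : Matrix.ProjectiveSpecialLinearGroup (Fin n) F, 0 < e → e ≤ n →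
      2 ^ e - 1 ∣ orderOf c := fun e => by
    by_cases he : 0 < e ∧ e ≤ n
    swap
    · exact ⟨1, fun h1 h2 => (he ⟨h1, h2⟩).elim⟩
    obtain ⟨ψ, h1, h2, h3, h4, l, hl, hne⟩ := exists_irr_pord (F := F) 2 he.1 dvd_rfl
    have o : Ok (l • ({ψ} : Multiset F[X]) + (n - e) • {(X - 1) ^ 1}) := Ok.add
      (fun P hP => by
        rw [Multiset.mem_singleton.1 (Multiset.mem_of_mem_nsmul hP)]
        exact ⟨isPP_of_irreducible h1 h2, h3⟩)
      fun P hP => ok_unip one_pos P (Multiset.mem_of_mem_nsmul hP)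
    obtain ⟨c, hc⟩ := fm.real _ ⟨o, by
      rw [mdeg_add, mdeg_nsmul, mdeg_nsmul, mdeg_singleton, mdeg_unip, mul_comm l, ← hne]; omega,
      det _ o⟩
    obtain ⟨d, hd⟩ := (hc _).1 (pow_orderOf_eq_one c)
    replace hd := hd ψ (Multiset.mem_add.2 (Or.inl
      ((Multiset.mem_nsmul_of_ne_zero hl.ne').2 (Multiset.mem_singleton_self ψ))))
    rw [one d (ne_zero_of_dvd ⟨isPP_of_irreducible h1 h2, h3⟩ hd), C_1, ← pord_dvd_iff, h4,
      hF'] at hd
    exact ⟨c, fun _ _ => hd⟩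
  choose c hc using tor
  let y : Fin ((n + 3) / 2) → Matrix.ProjectiveSpecialLinearGroup (Fin n) F :=
    fun i => if (i : ℕ) = 0 then u else c (n + 1 - i)
  have hy : ∀ i, orderOf (y i) ∣ orderOf y := fun i =>
    orderOf_dvd_of_pow_eq_one (congrFun (pow_orderOf_eq_one y) i)
  have hy0 : 2 ^ Nat.clog 2 n ∣ orderOf y := hu.trans (hy ⟨0, by omega⟩)
  have hy1 : ∀ d, 0 < d → d ≤ n → 2 ^ d - 1 ∣ orderOf y := fun d h0 hd => by
    obtain ⟨e, h1, h2, h3⟩ := exists_mul_range h0 hd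
    refine (Nat.pow_sub_one_dvd_pow_sub_one 2 h1).trans ((hc e (by omega) h2).trans ?_)
    have := hy ⟨n + 1 - e, by omega⟩
    simp only [y] at this
    rwa [if_neg (by omega), show n + 1 - (n + 1 - e) = e by omega] at this
  have key : ∀ x : Matrix.ProjectiveSpecialLinearGroup (Fin n) F, x ^ orderOf y = 1 := fun x => by
    obtain ⟨s, ⟨h1, h2, -⟩, hx⟩ := fm.ex x
    refine (hx _).2 ⟨1, fun P hP => ?_⟩
    obtain ⟨⟨φ, l, f1, f2, f3, rfl⟩, f4⟩ := h1 P hP
    rw [coeff_zero_pow_ne_zero_iff f3] at f4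
    have f5 : (φ ^ l).natDegree ≤ n :=
      h2 ▸ Multiset.single_le_sum (fun _ _ => Nat.zero_le _) _ (Multiset.mem_map_of_mem _ hP)
    have f6 := (isPP_of_irreducible f1 f2).natDegree_pos
    rw [f1.natDegree_pow] at f5
    rw [C_1, ← pord_dvd_iff, pord_pow 2 f2 f4 f3]
    refine ((pord_coprime 2 f2 f4).pow_right _).mul_dvd_of_dvd_of_dvd
      ((pord_dvd_card_pow_sub_one f2 f4).trans (by rw [hF']; exact hy1 _ f6 (by nlinarith)))
      ((pow_dvd_pow 2 (Nat.clog_mono_right 2 (by nlinarith))).trans hy0)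
  refine Set.Subset.antisymm ?_ ?_
  · rintro _ ⟨x, rfl⟩
    exact exists_orderOf_eq_of_dvd (y := y) (orderOf_dvd_of_pow_eq_one (funext fun i => key _))
  · rintro _ ⟨x, rfl⟩
    refine ⟨fun i => if h : (i : ℕ) < (n + 3) / 2 then x ⟨i, h⟩ else 1, ?_⟩
    rw [orderOf_eq_orderOf_iff]
    refine fun j => ⟨fun h => funext fun i => ?_, fun h => funext fun i => ?_⟩
    · simpa using congrFun h ⟨i, lt_of_lt_of_le i.2 hk⟩
    · by_cases hi : (i : ℕ) < (n + 3) / 2
      · simpa [hi] using congrFun h ⟨i, hi⟩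
      · simp [hi]

end Cfsg.Agent.S2513
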