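import Cfsg.Statements.S2514
import Cfsg.Agent.Base


set_option autoImplicit false
open Cfsg

namespace Cfsg.Agent.S2514

/-- For a finite group X write μ(X) for the set of element orders of X that are maximal under divisibility. Let G and H be finite groups and k ≥ 1 such that μ(H) ⊆ μ(G) and μ(G) has fewer than k elements outside μ(H). Then the direct product of k copies of G has the same set of element orders as the direct product of k − 1 copies of G with H. -/
theorem result {G H : Type*} [Group G] [Finite G] [Group H] [Finite H] (k : ℕ) (hk : 1 ≤ k)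
    (hsub : {n : ℕ | n ∈ Set.range (orderOf : H → ℕ) ∧ ∀ m ∈ Set.range (orderOf : H → ℕ), n ∣ m → m = n} ⊆ {n : ℕ | n ∈ Set.range (orderOf : G → ℕ) ∧ ∀ m ∈ Set.range (orderOf : G → ℕ), n ∣ m → m = n})
    (hfew : ({n : ℕ | n ∈ Set.range (orderOf : G → ℕ) ∧ ∀ m ∈ Set.range (orderOf : G → ℕ), n ∣ m → m = n} \ {n : ℕ | n ∈ Set.range (orderOf : H → ℕ) ∧ ∀ m ∈ Set.range (orderOf : H → ℕ), n ∣ m → m = n}).ncard < k) :
    Set.range (orderOf : (Fin k → G) → ℕ) = Set.range (orderOf : (Fin (k - 1) → G) × H → ℕ) := by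
  have mx : ∀ g : G, ∃ x : G, orderOf g ∣ orderOf x ∧
      ∀ m ∈ Set.range (orderOf : G → ℕ), orderOf x ∣ m → m = orderOf x := fun g => by
    obtain ⟨x, hx, h⟩ := Set.exists_max_image {x : G | orderOf g ∣ orderOf x} orderOf
      (Set.toFinite _) ⟨g, dvd_rfl⟩
    refine ⟨x, hx, ?_⟩
    rintro _ ⟨y, rfl⟩ hy
    exact le_antisymm (h y (hx.trans hy)) (Nat.le_of_dvd (orderOf_pos y) hy)
  have mh : ∀ g : H, ∃ x : G, orderOf g ∣ orderOf x := fun g => by
    obtain ⟨x, hx, h⟩ := Set.exists_max_image {x : H | orderOf g ∣ orderOf x} orderOf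
      (Set.toFinite _) ⟨g, dvd_rfl⟩
    obtain ⟨⟨y, hy⟩, -⟩ := hsub (a := orderOf x) ⟨⟨x, rfl⟩, by
      rintro _ ⟨y, rfl⟩ hy
      exact le_antisymm (h y (hx.trans hy)) (Nat.le_of_dvd (orderOf_pos y) hy)⟩
    exact ⟨y, hy ▸ hx⟩
  obtain ⟨k, rfl⟩ : ∃ j, k = j + 1 := ⟨k - 1, by omega⟩
  change Set.range (orderOf : (Fin (k + 1) → G) → ℕ) = Set.range (orderOf : (Fin k → G) × H → ℕ)
  apply Set.Subset.antisymm
  · rintro _ ⟨g, rfl⟩
    suffices h : ∃ b : (Fin k → G) × H, g ^ orderOf b = 1 by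
      obtain ⟨b, hb⟩ := h
      exact ⟨_, orderOf_pow_orderOf_div (orderOf_pos b).ne' (orderOf_dvd_of_pow_eq_one hb)⟩
    choose x hx hx' using fun i => mx (g i)
    have key : ∀ (i : Fin (k + 1)) (h : H), orderOf (g i) ∣ orderOf ((fun l => x (i.succAbove l), h) :
        (Fin k → G) × H) → ∃ b : (Fin k → G) × H, g ^ orderOf b = 1 := fun i h hi => by
      refine ⟨(fun l => x (i.succAbove l), h), funext fun l => ?_⟩
      rw [Pi.pow_apply, Pi.one_apply, ← orderOf_dvd_iff_pow_eq_one]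
      rcases Fin.eq_self_or_eq_succAbove i l with rfl | ⟨l, rfl⟩
      · exact hi
      · exact (hx _).trans ((orderOf_apply_dvd_orderOf (x := fun l => x (i.succAbove l)) l).trans
          (orderOf_fst_dvd_orderOf (x := (fun l => x (i.succAbove l), h))))
    by_cases hc : ∃ i h, orderOf (h : H) = orderOf (x i)
    · obtain ⟨i, h, e⟩ := hc
      exact key i h ((hx i).trans (e ▸ orderOf_snd_dvd_orderOf (x := (fun l => x (i.succAbove l), h))))
    · obtain ⟨i, -, j, -, hij, e⟩ := Set.exists_ne_map_eq_of_ncard_lt_of_maps_to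
        (s := Set.univ) (f := fun i => orderOf (x i))
        (hfew.trans_eq (by simp [Set.ncard_univ]))
        (fun i _ => ⟨⟨⟨_, rfl⟩, hx' i⟩, fun ⟨⟨h, e⟩, _⟩ => hc ⟨i, h, e⟩⟩)
        ((Set.finite_range (orderOf : G → ℕ)).subset fun _ h => h.1.1)
      obtain ⟨l, rfl⟩ := Fin.exists_succAbove_eq hij.symm
      exact key i 1 ((hx i).trans (e ▸ (orderOf_apply_dvd_orderOf
        (x := fun l => x (i.succAbove l)) l).trans
          (orderOf_fst_dvd_orderOf (x := (fun l => x (i.succAbove l), (1 : H))))))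
  · rintro _ ⟨⟨g, h⟩, rfl⟩
    obtain ⟨x, hx⟩ := mh h
    refine ⟨_, orderOf_pow_orderOf_div (orderOf_pos (Fin.cons x g : Fin (k + 1) → G)).ne'
      (orderOf_dvd_of_pow_eq_one (Prod.ext (funext fun l => ?_) ?_))⟩
    · exact orderOf_dvd_iff_pow_eq_one.mp
        (orderOf_apply_dvd_orderOf (x := (Fin.cons x g : Fin (k + 1) → G)) l.succ)
    · exact orderOf_dvd_iff_pow_eq_one.mp
        (hx.trans (orderOf_apply_dvd_orderOf (x := (Fin.cons x g : Fin (k + 1) → G)) 0))

end Cfsg.Agent.S2514
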