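import Cfsg.Statements.S2516
import Cfsg.Agent.Base

set_option autoImplicit false
open Cfsg

namespace Cfsg.Agent.S2516

theorem pow_eq {F : Type*} [Field F] {V : Type*} [AddCommGroup V] [Module F V]
    {G : Type*} [Group G] (ρ : Representation F G V)
    (x : Multiplicative V ⋊[(MulAutMultiplicative V).symm.toMonoidHom.comp
        ((DistribMulAction.toAddAut ((V →ₗ[F] V)ˣ) V).comp ρ.asGroupHom)] G) (n : ℕ) :
    (x ^ n).left.toAdd = (∑ i ∈ Finset.range n, (ρ x.right) ^ i) x.left.toAdd ∧
      (x ^ n).right = x.right ^ n := by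
  induction n with
  | zero => rw [pow_zero]; simp
  | succ n ih =>
    rw [pow_succ x, SemidirectProduct.mul_left, SemidirectProduct.mul_right, ih.2, toAdd_mul, ih.1,
      Finset.sum_range_succ, LinearMap.add_apply, pow_succ, ← map_pow]
    exact ⟨rfl, rfl⟩


/-- Let F be a field of characteristic p > 0, V a non-zero finite-dimensional F-vector space, G a finite group and ρ a representation of G on V; form the semidirect product V ⋊ G. For g ∈ G of order k, the coset Vg contains an element of order pk if and only if the minimal polynomial of ρ(g) does not divide 1 + X + ⋯ + X^(k−1). -/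
theorem result {F : Type*} [Field F] (p : ℕ) [Fact p.Prime] [CharP F p] {V : Type*} [AddCommGroup V] [Module F V] [FiniteDimensional F V] [Nontrivial V]
    {G : Type*} [Group G] [Finite G] (ρ : Representation F G V) (g : G) :
    (∃ x : Multiplicative V ⋊[(MulAutMultiplicative V).symm.toMonoidHom.comp
        ((DistribMulAction.toAddAut ((V →ₗ[F] V)ˣ) V).comp ρ.asGroupHom)] G,
        x.right = g ∧ orderOf x = p * orderOf g) ↔
      ¬ (minpoly F (ρ g) ∣ ∑ i ∈ Finset.range (orderOf g), (Polynomial.X : Polynomial F) ^ i) := by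
  have hp : p.Prime := Fact.out
  have hk : 0 < orderOf g := orderOf_pos g
  rw [minpoly.dvd_iff]
  simp only [map_sum, map_pow, Polynomial.aeval_X]
  constructor
  · rintro ⟨x, rfl, hx⟩ h
    have h1 : x ^ orderOf x.right = 1 := by
      apply SemidirectProduct.ext
      · apply Multiplicative.toAdd.injective
        rw [(pow_eq ρ x _).1, h]; rfl
      · rw [(pow_eq ρ x _).2, pow_orderOf_eq_one]; rfl
    have h2 := Nat.le_of_dvd hk (orderOf_dvd_of_pow_eq_one h1)
    rw [hx] at h2
    nlinarith [hp.two_le]
  · intro h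
    obtain ⟨v, hv⟩ : ∃ v, (∑ i ∈ Finset.range (orderOf g), (ρ g) ^ i) v ≠ 0 := by
      by_contra hc
      push Not at hc
      exact h (LinearMap.ext hc)
    refine ⟨⟨Multiplicative.ofAdd v, g⟩, rfl, ?_⟩
    set x : Multiplicative V ⋊[(MulAutMultiplicative V).symm.toMonoidHom.comp
        ((DistribMulAction.toAddAut ((V →ₗ[F] V)ˣ) V).comp ρ.asGroupHom)] G :=
      ⟨Multiplicative.ofAdd v, g⟩ with hx
    have hfin : IsOfFinOrder x ∧ orderOf (x ^ orderOf g) = p := by
      have h1 : (x ^ orderOf g).right = 1 := by rw [(pow_eq ρ x _).2]; exact pow_orderOf_eq_one g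
      have h2 : (x ^ orderOf g) ^ p = 1 := by
        apply SemidirectProduct.ext
        · apply Multiplicative.toAdd.injective
          rw [(pow_eq ρ _ _).1, h1]
          simp [← Nat.cast_smul_eq_nsmul F]
        · rw [(pow_eq ρ _ _).2, h1, one_pow]; rfl
      refine ⟨isOfFinOrder_iff_pow_eq_one.2 ⟨orderOf g * p, Nat.mul_pos hk hp.pos, by
        rw [pow_mul, h2]⟩, orderOf_eq_prime h2 fun e => hv ?_⟩
      have := (pow_eq ρ x (orderOf g)).1
      rw [e] at this
      exact this.symm
    have hd : orderOf g ∣ orderOf x := by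
      apply orderOf_dvd_of_pow_eq_one
      have := (pow_eq ρ x (orderOf x)).2
      rw [pow_orderOf_eq_one] at this
      exact this.symm
    have h3 := orderOf_pow_of_dvd hk.ne' hd
    rw [hfin.2] at h3
    rw [h3, Nat.div_mul_cancel hd]

end Cfsg.Agent.S2516
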