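import Cfsg.Statements.S2517
import Cfsg.Agent.H53.OSpec

set_option autoImplicit false
open Cfsg

namespace Cfsg.Agent.S2517

open H53

section comb
variable {G : Type*} [CommGroup G] {Q : ℤ} {t : Multiset (G × ℕ)} {par : ℕ → Prop}
  (hQ : Function.Injective fun u : G => u ^ Q)
include hQ

theorem zpow_of_sq {u : G} (hu : u * u = 1) {d : ℕ} (hd : 0 < d) {ε : ℤ} (hε : ε = 1 ∨ ε = -1) :
    u ^ (Q ^ d - ε) = 1 := orderOf_dvd_iff_zpow_eq_one.1 (tB_of_sq hQ hu hd hε).dvd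

omit hQ in
theorem zpow_of_mem_tb {u : G} {d k : ℕ} {ε : ℤ} (h : TB Q u d ε) {x : G × ℕ} (hx : x ∈ tb Q u d k) :
    x.1 ^ (Q ^ d - ε) = 1 := orderOf_dvd_iff_zpow_eq_one.1
  ((Int.natCast_dvd_natCast.2 (orderOf_dvd_of_mem_tb hx).1).trans h.dvd)

theorem small {K : ℕ} (ht : FD par Q t) (h : ∀ y ∈ t, y.1 * y.1 = 1 → y.2 = 1) (hK : 0 < K)
    (hd : jdeg t ≤ 2 * K + 1) (hK' : K = 1 ∨ (K = 2 ∧ ∃ y ∈ t, 2 ≤ y.2)) :
    ∃ η : ℤ, (η = 1 ∨ η = -1) ∧ ∀ y ∈ t, y.1 ^ (Q ^ 1 - η) = 1 ∧ y.2 ≤ K := by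
  by_cases h1 : ∀ y ∈ t, y.1 * y.1 = 1
  · exact ⟨1, .inl rfl, fun y hy => ⟨zpow_of_sq hQ (h1 y hy) one_pos (.inl rfl),
      (h y hy (h1 y hy)).le.trans hK⟩⟩
  obtain ⟨u, k, hx, hu, hk⟩ : ∃ u k, (u, k) ∈ t ∧ u * u ≠ 1 ∧ K ≤ k := by
    rcases hK' with rfl | ⟨rfl, y, hy, h2⟩
    · push Not at h1
      obtain ⟨y, hy, h2⟩ := h1
      exact ⟨y.1, y.2, hy, h2, ht.pos y hy⟩
    · exact ⟨y.1, y.2, hy, fun h3 => by have := h y hy h3; omega, h2⟩
  obtain ⟨d, ε, s, h2, -, hs, rfl⟩ := ht.step_tb hQ hx hu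
  have := h2.pos
  simp only [jdeg_add, jdeg_tb] at hd
  obtain rfl : d = 1 := by nlinarith
  refine ⟨ε, h2.eps, fun y hy => (Multiset.mem_add.1 hy).elim (fun hy => ⟨zpow_of_mem_tb h2 hy,
    by rw [(orderOf_dvd_of_mem_tb hy).2]; omega⟩) fun hy => ?_⟩
  have h3 : y.1 * y.1 = 1 := by_contra fun h3 => by
    have := hs.two_mul_le hQ (u := y.1) (k := y.2) hy (.inl h3)
    have := hs.pos y hy
    omega
  exact ⟨zpow_of_sq hQ h3 one_pos h2.eps, by have := le_jdeg_of_mem hy; omega⟩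

theorem even_of_no_sq (ht : FD par Q t) (h : ∀ y ∈ t, y.1 * y.1 ≠ 1) :
    Even (jdeg t) ∧ jdet t = 1 := by
  refine ht.induction hQ (p := fun t => Even (jdeg t) ∧ jdet t = 1) (by simp) ?_ ?_
  · intro u d ε k s _ _ _ _ ih
    simp [ih, mul_assoc, Nat.even_add]
  · intro u k s hu _ _ _ hle _
    exact absurd hu (h (u, k) (Multiset.mem_of_le hle (by simp)))

end comb

variable (F : Type*) [Field F] [Finite F] {K : Type*} [Field K] [Algebra F K] [IsAlgClosed K]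
  [Algebra.IsAlgebraic F K] (p : ℕ)

/-- data of an element of `Ω₈⁻(q)` -/
def D8 (m : Multiset (Kˣ × ℕ)) : Prop := RD F (-1) 1 m ∧ jdet m = 1 ∧ jdeg m = 8

/-- the order of `m` divides the order of an element of the affine group -/
def Cov (m : Multiset (Kˣ × ℕ)) : Prop :=
  ∃ (m' : Multiset (Kˣ × ℕ)) (k : ℕ), D8 F m' ∧ (k = 0 ∨ (1, k) ∈ m') ∧ ∀ M, JOne p (m' + {(1, k + 1)}) M → JOne p m M

variable {F p} {m : Multiset (Kˣ × ℕ)} (h2 : (2 : F) ≠ 0) (hT : Tor p Kˣ) (hQ : QP p (Nat.card F))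
  (hp : Odd p)
include h2 hT hQ

theorem exists_full {d : ℕ} (hd : 0 < d) {ε : ℤ} (hε : ε = 1 ∨ ε = -1) :
    ∃ (u : Kˣ) (c : ℤ), 2 * c = (Nat.card F : ℤ) ^ d - ε ∧
      RD F ((-1) ^ c) (-1) (tb (Nat.card F) u d 1) ∧ ∀ (m : Multiset (Kˣ × ℕ)) (M : ℕ),
        tb (Nat.card F) u d 1 ≤ m → JOne p m M →
          ∀ v : Kˣ, v ^ ((Nat.card F : ℤ) ^ d - ε) = 1 → v ^ M = 1 := by
  have h3 := hQ.not_dvd_pow_sub hT.prime hd hε
  obtain ⟨u, -, hu⟩ := hT.ex_int h3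
  obtain ⟨c, hc⟩ := exists_two_mul_eq (odd_card h2) d hε
  have h4 := tB_of_dvd hd hε (orderOf_dvd_iff_zpow_eq_one.2 ((hu _).2 dvd_rfl))
  refine ⟨u, c, hc, (rd_tb h2 h4 hc).congr rfl ((rd_tb h2 h4 hc).sign.2.resolve_left fun h => ?_),
    fun m M hle hM v hv => ?_⟩
  · rw [hu, ← hc] at h
    have := Int.le_of_dvd (a := 2 * |c|) (b := |c|) (abs_pos.2 (by rintro rfl; simp [← hc] at h3))
      (by simpa [abs_mul] using (abs_dvd_abs _ _).2 h)
    have := abs_pos.2 (show c ≠ 0 by rintro rfl; simp [← hc] at h3)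
    omega
  · obtain ⟨b, hb⟩ := (hu M).1 (by
      simpa using (hM _ (Multiset.mem_of_le hle (self_mem_tb hd))).1)
    rw [← zpow_natCast, hb, zpow_mul, hv, one_zpow]

theorem cov_two {d e : ℕ} (hd : 0 < d) (he : 0 < e) (hde : d + e = 4) {ε η : ℤ}
    (hε : ε = 1 ∨ ε = -1) (hη : η = 1 ∨ η = -1)
    (ho : ∀ c, 2 * c = (Nat.card F : ℤ) ^ d - ε + ((Nat.card F : ℤ) ^ e - η) → Odd c)
    (hm : ∀ y ∈ m, (y.1 ^ ((Nat.card F : ℤ) ^ d - ε) = 1 ∨ y.1 ^ ((Nat.card F : ℤ) ^ e - η) = 1) ∧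
      y.2 ≤ 1) : Cov F p m := by
  obtain ⟨u, c, h3, h4, h5⟩ := exists_full h2 hT hQ hd hε
  obtain ⟨v, c', h6, h7, h8⟩ := exists_full h2 hT hQ he hη
  refine ⟨_, 0, ⟨(h4.add h2 h7).congr ?_ (by simp), by simp, by simp; omega⟩, .inl rfl,
    fun M hM y hy => ⟨(hm y hy).1.elim
      (h5 _ M ((Multiset.le_add_right _ _).trans (Multiset.le_add_right _ _)) hM _)
      (h8 _ M ((Multiset.le_add_left _ _).trans (Multiset.le_add_right _ _)) hM _), ?_⟩⟩
  · rw [← zpow_add, (ho (c + c') (by linarith)).neg_zpow, one_zpow]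
  · simp [Nat.clog_of_right_le_one (hm y hy).2]

include hp

theorem cov_three {ε η : ℤ} (hε : ε = 1 ∨ ε = -1) (hη : η = 1 ∨ η = -1)
    (hm : ∀ y ∈ m, (y.1 ^ ((Nat.card F : ℤ) ^ 2 - ε) = 1 ∨ y.1 ^ ((Nat.card F : ℤ) ^ 1 - η) = 1) ∧
      y.2 ≤ 3) : Cov F p m := by
  obtain ⟨u, c, h3, h4, h5⟩ := exists_full h2 hT hQ two_pos hε
  obtain ⟨v, c', h6, h7, h8⟩ := exists_full h2 hT hQ one_pos hη
  refine ⟨_, 1, ⟨((h4.add h2 h7).add_unip_pair h2 odd_one (.inr rfl)).congr rfl (by simp), by simp,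
    by simp⟩, .inr (by simp), fun M hM y hy => ⟨(hm y hy).1.elim
      (h5 _ M (by simp only [add_assoc]; exact Multiset.le_add_right _ _) hM _)
      (h8 _ M ((Multiset.le_add_left _ _).trans
        (by simp only [add_assoc]; exact add_le_add_right (Multiset.le_add_right _ _) _)) hM _),
      (pow_clog_dvd (hm y hy).2).trans ?_⟩⟩
  rw [clog_succ_eq hp hT.prime.one_lt even_two]
  exact (hM (1, 2) (by simp)).2

omit hQ in
theorem cov_unip {s : Multiset (Kˣ × ℕ)} {δ : Kˣ} {a : ℕ} (hs : RD F δ 1 s) (h1 : jdet s = 1)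
    (hd : jdeg s + a + 1 = 8) (ha : Odd a)
    (hm : ∀ y ∈ m, (∃ k, (y.1, k) ∈ s) ∨ y.1 = 1) (hm' : ∀ y ∈ m, y ∈ s ∨ y.2 ≤ a + 2) :
    Cov F p m := by
  refine ⟨_, a, ⟨hs.add_unip_pair h2 ha (.inr rfl), by simp [h1], by simp [hd]⟩, .inr (by simp),
    fun M hM y hy => ⟨?_, ?_⟩⟩
  · rcases hm y hy with ⟨k, h⟩ | h
    · exact (hM (y.1, k) (by simp [h])).1
    · simp [h]
  · rcases hm' y hy with h | h
    · exact (hM y (by simp [h])).2
    · refine (pow_clog_dvd h).trans ?_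
      rw [clog_succ_eq hp hT.prime.one_lt ha.add_one]
      exact (hM (1, a + 1) (by simp)).2

theorem cov_of_sq (hm : OD F 4 m) (h : ∀ y ∈ m, y.1 * y.1 = 1 → y.2 = 1) : Cov F p m := by
  have hi := hT.inj hQ
  have hF := hm.fd h2
  obtain ⟨⟨δ, h3⟩, h4, h5⟩ := hm
  obtain ⟨a, ha⟩ := odd_card h2
  have e1 : ∀ (v : Kˣ) (ε : ℤ), ε = 1 ∨ ε = -1 → v ^ ((Nat.card F : ℤ) ^ 1 - ε) = 1 →
      v ^ ((Nat.card F : ℤ) ^ 2 - 1) = 1 := fun v ε hε hv => by
    rw [show (Nat.card F : ℤ) ^ 2 - 1 = ((Nat.card F : ℤ) ^ 1 - ε) * (Nat.card F + ε) by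
      rcases hε with rfl | rfl <;> ring, zpow_mul, hv, one_zpow]
  have one : ∀ {u d k t}, FD Even (Nat.card F) t → m = tb (Nat.card F) u d k + t → d * k = 4 →
      t = {(1, 1)} := fun ht hm hdk => by
    subst hm
    simp only [jdeg_add, jdeg_tb, mul_assoc, hdk, jdet_add, jdet_tb, one_mul] at h4 h5
    obtain ⟨w, rfl⟩ := ht.pos.eq_singleton (by omega)
    simpa using h4
  by_cases h6 : ∃ u k d ε t, u * u ≠ 1 ∧ TB (Nat.card F) u d ε ∧ 0 < k ∧ FD Even (Nat.card F) t ∧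
      m = tb (Nat.card F) u d k + t ∧ 3 ≤ d
  · obtain ⟨u, k, d, ε, t, hu, h7, hk, ht, h8, hd⟩ := h6
    have h9 := h8 ▸ h5
    simp only [jdeg_add, jdeg_tb] at h9
    obtain rfl : k = 1 := by nlinarith
    obtain rfl | rfl : d = 3 ∨ d = 4 := by omega
    · subst h8
      obtain ⟨η, hη, h10⟩ := small hi ht (fun y hy => h y (Multiset.mem_add.2 (.inr hy))) one_pos
        (by omega) (.inl rfl)
      refine cov_two h2 hT hQ (d := 3) (e := 1) (η := -ε) three_pos one_pos rfl h7.eps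
        (by have := h7.eps; omega) (fun c hc => ⟨4 * a ^ 3 / 2 + 3 * a ^ 2 + 2 * a, by
          rw [ha] at hc
          rw [show 4 * a ^ 3 = 2 * (2 * a ^ 3) by ring, Int.mul_ediv_cancel_left _ two_ne_zero]
          linarith⟩)
        fun y hy => (Multiset.mem_add.1 hy).elim (fun hy => ⟨.inl (zpow_of_mem_tb h7 hy),
          (orderOf_dvd_of_mem_tb hy).2.le⟩) fun hy => ⟨?_, (h10 y hy).2⟩
      by_cases h11 : η = ε
      · subst h11
        refine .inl ?_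
        rw [show (Nat.card F : ℤ) ^ 3 - η = ((Nat.card F : ℤ) ^ 1 - η) *
          (Nat.card F ^ 2 + η * Nat.card F + 1) by rcases hη with rfl | rfl <;> ring, zpow_mul,
          (h10 y hy).1, one_zpow]
      · obtain rfl : η = -ε := by have := h7.eps; omega
        exact .inr (h10 y hy).1
    · obtain rfl := one ht h8 rfl
      subst h8
      obtain ⟨c, hc⟩ := exists_two_mul_eq (odd_card h2) 4 h7.eps
      have h10 := h3.zpow_eq_one h2 h7 hu (by simp) hc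
      rcases h7.eps with rfl | rfl
      · obtain ⟨v, c₁, h11, h12, h13⟩ := exists_full h2 hT hQ two_pos (.inr rfl)
        obtain ⟨w, c₂, h14, h15, h16⟩ := exists_full h2 hT hQ two_pos (.inl rfl)
        refine ⟨_, 0, ⟨(h12.add h2 h15).congr ?_ (by simp), by simp, by simp⟩, .inl rfl,
          fun M hM => ?_⟩
        · rw [← zpow_add, Odd.neg_zpow ⟨2 * a ^ 2 + 2 * a, by rw [ha] at h11 h14; linarith⟩,
            one_zpow]
        · have h17 := h13 _ M ((Multiset.le_add_right _ _).trans (Multiset.le_add_right _ _)) hM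
            (u ^ c₂) (by rw [← zpow_mul, ← h10]; congr 1; nlinarith)
          have h18 := h16 _ M ((Multiset.le_add_left _ _).trans (Multiset.le_add_right _ _)) hM
            (u ^ c₁) (by rw [← zpow_mul, ← h10]; congr 1; nlinarith)
          rw [jone_add, jone_tb four_pos, jone_singleton, orderOf_dvd_iff_pow_eq_one]
          refine ⟨⟨?_, by simp⟩, by simp⟩
          have h19 : u = u ^ c₁ * (u ^ c₂)⁻¹ := by
            rw [← zpow_sub, show c₁ - c₂ = 1 by linarith, zpow_one]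
          rw [h19, mul_pow, inv_pow, h17, h18, inv_one, one_mul]
      · refine ⟨_, 0, ⟨(rd_tb h2 h7 hc).congr ?_ h10, by simp, by simp⟩, .inl rfl, fun M hM => hM⟩
        rw [Odd.neg_zpow ⟨4 * a ^ 4 + 8 * a ^ 3 + 6 * a ^ 2 + 2 * a, by rw [ha] at hc; linarith⟩,
          one_zpow]
  have h7 : ∀ y ∈ m, y.1 ^ ((Nat.card F : ℤ) ^ 2 - 1) = 1 ∨ ∃ t, TB (Nat.card F) y.1 2 (-1) ∧
      FD Even (Nat.card F) t ∧ m = tb (Nat.card F) y.1 2 y.2 + t := fun y hy => by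
    by_cases hu : y.1 * y.1 = 1
    · exact .inl (zpow_of_sq hi hu two_pos (.inl rfl))
    obtain ⟨d, ε, t, h7, hk, ht, h8⟩ := hF.step_tb hi (u := y.1) (k := y.2) hy hu
    have h9 : d < 3 := not_le.1 fun h9 => h6 ⟨_, _, _, _, _, hu, h7, hk, ht, h8, h9⟩
    have h10 := orderOf_dvd_iff_zpow_eq_one.1 h7.dvd
    have := h7.pos
    obtain rfl | rfl : d = 1 ∨ d = 2 := by omega
    · exact .inl (e1 _ _ h7.eps h10)
    · rcases h7.eps with rfl | rfl
      · exact .inl h10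
      · exact .inr ⟨t, h7, ht, h8⟩
  by_cases h8 : ∀ y ∈ m, y.2 ≤ 1
  · exact cov_two h2 hT hQ (d := 2) (e := 2) two_pos two_pos rfl (.inl rfl) (.inr rfl)
      (fun c hc => ⟨2 * a ^ 2 + 2 * a, by rw [ha] at hc; linarith⟩) fun y hy =>
      ⟨(h7 y hy).imp_right fun ⟨_, h9, _⟩ => orderOf_dvd_iff_zpow_eq_one.1 h9.dvd, h8 y hy⟩
  by_cases h9 : ∀ y ∈ m, y.2 ≤ 3
  · by_cases h10 : ∀ y ∈ m, y.1 ^ ((Nat.card F : ℤ) ^ 2 - 1) = 1
    · exact cov_three h2 hT hQ hp (.inl rfl) (.inl rfl) fun y hy => ⟨.inl (h10 y hy), h9 y hy⟩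
    push Not at h8 h10
    obtain ⟨x, hx, h8⟩ := h8
    obtain ⟨⟨u, k⟩, hy, h10⟩ := h10
    obtain ⟨t, h11, ht, rfl⟩ := (h7 _ hy).resolve_left h10
    simp only [jdeg_add, jdeg_tb] at h5
    have hk := hF.pos _ hy
    obtain ⟨η, hη, h12⟩ : ∃ η : ℤ, (η = 1 ∨ η = -1) ∧
        ∀ y ∈ t, y.1 ^ ((Nat.card F : ℤ) ^ 1 - η) = 1 := by
      rcases Multiset.mem_add.1 hx with hx | hx
      · have := (orderOf_dvd_of_mem_tb hx).2
        exact (small hi ht (fun y hy => h y (Multiset.mem_add.2 (.inr hy))) one_pos (by omega)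
          (.inl rfl)).imp fun η h => ⟨h.1, fun y hy => (h.2 y hy).1⟩
      · exact (small hi ht (fun y hy => h y (Multiset.mem_add.2 (.inr hy))) two_pos (by omega)
          (.inr ⟨rfl, x, hx, h8⟩)).imp fun η h => ⟨h.1, fun y hy => (h.2 y hy).1⟩
    exact cov_three h2 hT hQ hp (.inr rfl) hη fun y hy => ⟨(Multiset.mem_add.1 hy).imp
      (zpow_of_mem_tb h11) (h12 y), h9 y hy⟩
  · push Not at h9
    obtain ⟨⟨u, k⟩, hy, h9⟩ := h9
    obtain ⟨d, ε, t, h10, hk, ht, h11⟩ := hF.step_tb hi hy fun h10 => by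
      have := h _ hy h10; omega
    have h12 := h11 ▸ h5
    have := h10.pos
    simp only [jdeg_add, jdeg_tb] at h12 h9
    obtain rfl : d = 1 := by nlinarith
    obtain rfl : k = 4 := by omega
    obtain rfl := one ht h11 rfl
    subst h11
    obtain ⟨c, hc⟩ := exists_two_mul_eq (odd_card h2) 1 h10.eps
    have h13 := rd_tb h2 h10 hc
    exact cov_unip h2 hT hp (a := 3) ((h13.add h2 h13).congr rfl (by
      rcases h13.sign.2 with h | h <;> simp [h])) (by simp) (by simp) (by decide)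
      (by simp [tb_one]) (by simp [tb_one])

theorem cov (hm : OD F 4 m) : Cov F p m := by
  classical
  have hi := hT.inj hQ
  have hF := hm.fd h2
  obtain ⟨⟨δ, h3⟩, h4, h5⟩ := id hm
  obtain ⟨δ', h6⟩ := h3.split_one h2
  have h7 := Multiset.filter_add_not (fun x => x.1 = 1) m
  set m₁ := m.filter fun x => x.1 = 1
  set m₂ := m.filter fun x => ¬ x.1 = 1
  have h8 : ∀ x ∈ m₁, x.1 = 1 := fun x hx => (Multiset.mem_filter.1 hx).2
  have h9 : ∀ x ∈ m₂, x.1 ≠ 1 := fun x hx => (Multiset.mem_filter.1 hx).2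
  rw [← h7, jdet_add, jdet_unip h8, one_mul] at h4
  rw [← h7, jdeg_add] at h5
  obtain ⟨b, hb⟩ := (h6.fd h2).even_jdeg h2 h9 h4
  by_cases h10 : 3 ≤ jdeg m₁
  · refine cov_unip h2 hT hp (a := jdeg m₁ - 2) h6 h4 (by omega) ⟨3 - b, by omega⟩
      (fun y hy => ?_) fun y hy => ?_
    · exact (Multiset.mem_add.1 (h7 ▸ hy)).symm.imp (fun h => ⟨_, h⟩) (h8 y)
    · exact (Multiset.mem_add.1 (h7 ▸ hy)).symm.imp_right fun h => by
        have := le_jdeg_of_mem h; omega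
  obtain ⟨h11, h12⟩ := (h6.fd h2).filter_eq hi (u := -1) (by simp)
  have h13 := Multiset.filter_add_not (fun x => x.1 = -1) m₂
  set m₃ := m₂.filter fun x => x.1 = -1
  set m₄ := m₂.filter fun x => ¬ x.1 = -1
  have h14 : ∀ x ∈ m₃, x.1 = -1 := fun x hx => (Multiset.mem_filter.1 hx).2
  have h15 : ∀ x ∈ m₄, x.1 * x.1 ≠ 1 := fun x hx h => (units_mul_self_eq_one_iff.1 h).elim
    (h9 x (Multiset.mem_filter.1 hx).1) (Multiset.mem_filter.1 hx).2
  obtain ⟨⟨c, hc⟩, h16⟩ := even_of_no_sq hi h12 h15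
  rw [← h13, jdeg_add] at hb
  have h17 : ∀ x ∈ m₃, x.2 < jdeg m₃ := fun x hx => lt_of_le_of_ne (le_jdeg_of_mem hx) fun h => by
    have := h11.two_mul_le hi (u := x.1) (k := x.2) hx (.inr ⟨b - c, by omega⟩)
    have := h11.pos x hx
    omega
  have h18 : ∀ y ∈ m, y ∈ m₁ ∨ y ∈ m₃ ∨ y ∈ m₄ := fun y hy =>
    (Multiset.mem_add.1 (h7 ▸ hy)).imp_right fun h => Multiset.mem_add.1 (h13 ▸ h)
  rw [← h13, jdeg_add] at h5
  by_cases h19 : 4 ≤ jdeg m₃
  · obtain ⟨δ₁, θ, h20⟩ := h12.exists_rd h2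
    obtain ⟨δ₂, h21⟩ := h20.add_neg_pair h2
    refine cov_unip h2 hT hp (a := jdeg m₃ - 3) h21 (by simp [h16]) (by simp; omega)
      ⟨2 - c, by omega⟩ (fun y hy => ?_) fun y hy => ?_
    · rcases h18 y hy with h | h | h
      · exact .inr (h8 y h)
      · exact .inl ⟨1, by simp [h14 y h]⟩
      · exact .inl ⟨y.2, by simp [h]⟩
    · rcases h18 y hy with h | h | h
      · exact .inr (by have := le_jdeg_of_mem h; omega)
      · exact .inr (by have := h17 y h; omega)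
      · exact .inl (by simp [h])
  · refine cov_of_sq h2 hT hQ hp hm fun y hy h => ?_
    have := hF.pos y hy
    rcases h18 y hy with h' | h' | h'
    · have := le_jdeg_of_mem h'; omega
    · have := h17 y h'; omega
    · exact absurd h (h15 y h')

omit hQ in
theorem exists_od (hm : D8 F m) {k M : ℕ} (hk : (1, k) ∈ m) (hM : ∀ N, JOne p m N ↔ M ∣ N)
    (h : ¬ p ^ Nat.clog p (k + 1) ∣ M) : ∃ m' : Multiset (Kˣ × ℕ), OD F 4 m' ∧
      ∀ N, JSc p m' N → p * M ∣ N := by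
  classical
  obtain ⟨h3, h4, h5⟩ := hm
  obtain ⟨δ', h6⟩ := h3.split_one h2
  have h7 := Multiset.filter_add_not (fun x => x.1 = 1) m
  set m₁ := m.filter fun x => x.1 = 1
  set m₂ := m.filter fun x => ¬ x.1 = 1
  have h8 : ∀ x ∈ m₁, x.1 = 1 := fun x hx => (Multiset.mem_filter.1 hx).2
  have h9 : ∀ x ∈ m₂, x.1 ≠ 1 := fun x hx => (Multiset.mem_filter.1 hx).2
  rw [← h7, jdet_add, jdet_unip h8, one_mul] at h4
  rw [← h7, jdeg_add] at h5
  obtain ⟨b, hb⟩ := (h6.fd h2).even_jdeg h2 h9 h4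
  have h10 : ∀ x ∈ m, Nat.clog p x.2 < Nat.clog p (k + 1) := fun x hx => not_le.1 fun h' =>
    h ((pow_dvd_pow p h').trans ((hM M).2 dvd_rfl x hx).2)
  have h11 : Odd k := by rw [eq_pow_of_clog_lt (k := k) hT.prime.one_lt (h10 _ hk)]; exact hp.pow
  have h12 := le_jdeg_of_mem (show (1, k) ∈ m₁ from Multiset.mem_filter.2 ⟨hk, rfl⟩)
  refine ⟨_, ((h6.add h2 (rd_unip h2 (h11.add_even even_two) (.inl rfl))).congr rfl
    (mul_one 1)).pad h2 (by simp [h4]) (by obtain ⟨c, rfl⟩ := h11; simp at h12 ⊢; omega),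
    fun N hN => ?_⟩
  rw [jsc_iff_jone (k := k + 2) (by simp), jone_add, jone_add, jone_singleton] at hN
  have h13 := (pow_clog_dvd (k + 1).le_succ).trans hN.1.2.2
  refine mul_dvd_of_not_pow_dvd hT.prime ((hM N).1 fun x hx => ?_) h13 h
  rcases Multiset.mem_add.1 (h7 ▸ hx) with h' | h'
  · exact ⟨by simp [h8 x h'], (pow_dvd_pow p (h10 x hx).le).trans h13⟩
  · exact hN.1.1 x h'

omit h2 hT hQ hp

/-- Let F be a finite field of odd order q, let Ω₉ be the simple orthogonal group PΩ(9, F), and let Ω₈⁻ be the commutator subgroup of the isometry group of a minus-type non-singular quadratic form on V = F⁸ (the simple group PΩ⁻(8, F), acting on its natural module V). Then Ω₉ and the semidirect product V ⋊ Ω₈⁻ have exactly the same set of element orders. -/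
theorem result {F : Type*} [Field F] [Fintype F] (hF : Odd (Fintype.card F)) (a b : F)
    (hab : ∀ z₁ z₂ : F, z₁ ^ 2 + a * z₁ * z₂ + b * z₂ ^ 2 = 0 → z₁ = 0 ∧ z₂ = 0) :
    Set.range (orderOf : Cfsg.POmega F (Cfsg.quadFormOdd 4 F) → ℕ) =
      Set.range (orderOf :
        (Multiplicative (((Fin 3 ⊕ Fin 3) ⊕ Fin 2) → F)) ⋊[
          (MulAutMultiplicative (((Fin 3 ⊕ Fin 3) ⊕ Fin 2) → F)).symm.toMonoidHom.comp
           ((DistribMulAction.toAddAut (LinearMap.GeneralLinearGroup F (((Fin 3 ⊕ Fin 3) ⊕ Fin 2) → F))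
              (((Fin 3 ⊕ Fin 3) ⊕ Fin 2) → F)).comp
            (Matrix.GeneralLinearGroup.toLin.toMonoidHom.comp
              ((Cfsg.isometryGroup F (Cfsg.quadFormMinus 3 F a b)).subtype.comp
                (Cfsg.Omega F (Cfsg.quadFormMinus 3 F a b)).subtype)))]
          ↥(Cfsg.Omega F (Cfsg.quadFormMinus 3 F a b)) → ℕ) := by
  obtain ⟨p, hp⟩ := CharP.exists F
  have := Fact.mk (CharP.char_is_prime F p)
  have h2 := H58.two_ne_zero_of_odd_card hF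
  have hO := jfam_pomega_odd (F := F) (AlgebraicClosure F) p h2 (n := 4) (by omega)
  have hT := tor_units F (AlgebraicClosure F) p
  have hQ := qp_card F p
  have h := H58.coe_qMinus 3 F a b
  have hn := H58.qMinus_nondeg 3 hab
  have hd : lg (AlgebraicClosure F) (disc (H58.qMinus 3 F a b)) = -1 :=
    (lg_eq_or _).resolve_left fun h3 => H58.not_isPlus_qMinus 3 hab
      ((isPlus_iff_lg (K := AlgebraicClosure F) (d := 4) h2 hn (by simp)).2 (by
        rw [h3, mul_comm, pow_mul]; simp [Even.neg_one_pow (n := 4) (by decide)]))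
  set ρ := (Cfsg.isometryGroup F (Cfsg.quadFormMinus 3 F a b)).subtype.comp
    (Cfsg.Omega F (Cfsg.quadFormMinus 3 F a b)).subtype
  have hρ : Function.Injective ρ := Subtype.val_injective.comp Subtype.val_injective
  have hD : ∀ g, D8 F (jd (AlgebraicClosure F) (ρ g).1) := fun g =>
    ⟨hd ▸ (rd_jd_Omega h2 h hn g).1, (rd_jd_Omega h2 h hn g).2, (jdeg_jd (ρ g).isUnit).trans (by simp)⟩
  have hM : ∀ g N, JOne p (jd (AlgebraicClosure F) (ρ g).1) N ↔ orderOf g ∣ N := fun g N => by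
    rw [← orderOf_dvd_iff_jd p (ρ g).isUnit, orderOf_rep ρ hρ]
  ext N
  constructor
  · intro hN
    obtain ⟨m, hm, h3⟩ := hO.exists_of_mem' hN
    obtain ⟨m', k, ⟨h4, h5, h6⟩, h7, h8⟩ := cov h2 hT hQ (odd_char h2 p) hm
    obtain ⟨g, rfl⟩ := (hd ▸ h4).exists_Omega h2 h hn h5 (h6.trans (by simp))
    exact mem_range_aff p ρ hρ (fun _ _ => rfl) g h7 fun M hM => h3 M (h8 M hM)
  · rintro ⟨x, rfl⟩
    rcases orderOf_aff_cases (AlgebraicClosure F) p ρ hρ (fun _ _ => rfl) x with h3 | ⟨h3, k, h4, h5⟩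
    · obtain ⟨h4, h5, h6⟩ := hD x.right
      refine hO.mem_range_of_dvd (h4.pad h2 h5 (by omega)) fun N hN => ?_
      rw [jsc_iff_jone (k := 1) (by simp [h6]), jone_add, hM] at hN
      exact h3 ▸ hN.1
    · obtain ⟨m, h6, h7⟩ := exists_od h2 hT (odd_char h2 p) (hD x.right) h4 (hM _) h5
      exact hO.mem_range_of_dvd h6 (h3 ▸ h7)

end Cfsg.Agent.S2517
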