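import Cfsg.Statements.S2519
import Cfsg.Agent.Base
import Cfsg.Agent.H67.G2Spec

set_option autoImplicit false
open Cfsg

namespace Cfsg.Agent.S2519

/-- Let F be a finite field of odd order q = p^a ≥ 5. The element orders of the Chevalley group G₂(F) that are maximal under divisibility are exactly p(q + 1), p(q − 1), q² − 1, q² + q + 1, q² − q + 1, together with p² when p is 3 or 5. -/
theorem result {F : Type*} [Field F] [Fintype F] (p a : ℕ) (hp : p.Prime) (hp2 : p ≠ 2) (ha : 1 ≤ a) (hF : Fintype.card F = p ^ a) (hq5 : 5 ≤ Fintype.card F) :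
    {n : ℕ | n ∈ Set.range (orderOf : ↥(Cfsg.Lie.chevG2.group F) → ℕ) ∧ ∀ m ∈ Set.range (orderOf : ↥(Cfsg.Lie.chevG2.group F) → ℕ), n ∣ m → m = n} =
      ({p * (p ^ a + 1), p * (p ^ a - 1), p ^ (2 * a) - 1, p ^ (2 * a) + p ^ a + 1, p ^ (2 * a) - p ^ a + 1} : Set ℕ) ∪
        (if p = 3 ∨ p = 5 then ({p ^ 2} : Set ℕ) else ∅) := by
  haveI := Fact.mk hp
  haveI : CharP F p := charP_of_card_eq_prime_pow hF
  have e : p ^ (2 * a) = (p ^ a) ^ 2 := by rw [← pow_mul, mul_comm]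
  have hpq : p ∣ p ^ a := dvd_pow_self p (by omega)
  rw [e]
  rw [hF] at hq5
  generalize p ^ a = q at hF hpq hq5
  set T : Set ℕ := ({p * (q + 1), p * (q - 1), q ^ 2 - 1, q ^ 2 + q + 1, q ^ 2 - q + 1} : Set ℕ) ∪
    (if p = 3 ∨ p = 5 then ({p ^ 2} : Set ℕ) else ∅) with hT
  have mT : ∀ n, n ∈ T ↔ n = p * (q + 1) ∨ n = p * (q - 1) ∨ n = q ^ 2 - 1 ∨ n = q ^ 2 + q + 1 ∨
      n = q ^ 2 - q + 1 ∨ ((p = 3 ∨ p = 5) ∧ n = p ^ 2) := fun n => by
    rw [hT]; split_ifs with h <;> simp [h, or_assoc, -mul_eq_mul_left_iff]; tauto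
  have h1 : T ⊆ Set.range (orderOf : ↥(Cfsg.Lie.chevG2.group F) → ℕ) := fun n hn => by
    rcases (mT n).1 hn with rfl | rfl | rfl | rfl | rfl | ⟨h, rfl⟩
    iterate 5 exact H67.g2_exists_orderOf p hF (by simp)
    exact (H67.exists_g2_regular p).2 h
  have h2 : ∀ g : ↥(Cfsg.Lie.chevG2.group F), ∃ m ∈ T, orderOf g ∣ m := fun g => by
    rcases H67.g2_orderOf_dvd p hF g with h | h | h | h | h | ⟨h, -⟩ | h
    iterate 5 exact ⟨_, (mT _).2 (by simp), h⟩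
    · exact absurd h hp2
    by_cases h3 : p = 3 ∨ p = 5
    · exact ⟨_, (mT _).2 (by simp [h3]), h 2 (by rcases h3 with rfl | rfl <;> norm_num)⟩
    · have h4 : 7 ≤ p := by
        by_contra h5
        have := hp.two_le
        obtain rfl | rfl : p = 4 ∨ p = 6 := by omega
        all_goals exact absurd hp (by decide)
      exact ⟨p * (q + 1), (mT _).2 (by simp),
        (h 1 (by simpa using h4)).trans (by simp)⟩
  obtain ⟨k, rfl⟩ : ∃ k, q = k + 1 := ⟨q - 1, by omega⟩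
  have e1 : (k + 1) ^ 2 - 1 = k * (k + 2) := by
    rw [show (k + 1) ^ 2 = k * (k + 2) + 1 by ring]; rfl
  have e2 : (k + 1) ^ 2 - (k + 1) + 1 = k ^ 2 + k + 1 := by
    rw [show (k + 1) ^ 2 = k ^ 2 + k + (k + 1) by ring, Nat.add_sub_cancel]
  have hc : ∀ n m : ℕ, n = (k + 1) * m + 1 ∨ n + 1 = (k + 1) * m → ¬ p ∣ n := by
    rintro n m (h | h) hd
    · exact hp.one_lt.ne' (Nat.dvd_one.1 ((Nat.dvd_add_right (hpq.mul_right m)).1 (h ▸ hd)))
    · exact hp.one_lt.ne' (Nat.dvd_one.1 ((Nat.dvd_add_right hd).1 (h ▸ hpq.mul_right m)))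
  have c1 := hc (k + 1 + 1) 1 (.inl (by ring))
  have c2 := hc k 1 (.inr (by ring))
  have c3 := hc (k * (k + 2)) (k + 1) (.inr (by ring))
  have c4 := hc ((k + 1) ^ 2 + (k + 1) + 1) (k + 2) (.inl (by ring))
  have c5 := hc (k ^ 2 + k + 1) k (.inl (by ring))
  have d1 : ∀ {n m : ℕ}, ¬ p ∣ n → n ∣ p * m → 0 < m → n ≤ m := fun h h' hm =>
    Nat.le_of_dvd hm (((Nat.Prime.coprime_iff_not_dvd hp).2 h).symm.dvd_of_dvd_mul_left h')
  have d2 : ∀ {n m : ℕ}, n ∣ m → 0 < m → m < 2 * n → m = n := by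
    rintro n _ ⟨c, rfl⟩ h h'
    obtain rfl : c = 1 := by
      have : 0 < c := Nat.pos_of_mul_pos_left h
      by_contra h3
      have : n * 2 ≤ n * c := Nat.mul_le_mul_left n (by omega)
      omega
    simp
  have d3 : ∀ {n : ℕ}, ¬ p ∣ n → n ∣ p → n = 1 := fun h h' =>
    ((Nat.dvd_prime hp).1 h').resolve_right fun e => h (e ▸ dvd_rfl)
  have d4 : ∀ {n : ℕ}, ¬ p ∣ n → n ∣ p ^ 2 → n = 1 := fun h h' =>
    d3 h (((Nat.Prime.coprime_iff_not_dvd hp).2 h).symm.dvd_of_dvd_mul_left (sq p ▸ h'))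
  have hk : 4 ≤ k := by omega
  have hk2 : 4 * k ≤ k ^ 2 := by nlinarith
  have hp0 := hp.pos
  ext n
  refine ⟨?_, fun hn => ⟨h1 hn, ?_⟩⟩
  · rintro ⟨⟨g, rfl⟩, h⟩
    obtain ⟨m, hm, hd⟩ := h2 g
    exact h m (h1 hm) hd ▸ hm
  rintro _ ⟨g, rfl⟩ hd
  obtain ⟨m, hm, hd'⟩ := h2 g
  suffices m = n from Nat.dvd_antisymm (this ▸ hd') hd
  replace hd := hd.trans hd'
  rw [mT, e1, e2, Nat.add_sub_cancel] at hn hm
  have f1 : k * (k + 2) = k ^ 2 + 2 * k := by ring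
  have f2 : (k + 1) ^ 2 = k ^ 2 + 2 * k + 1 := by ring
  rcases hn with rfl | rfl | rfl | rfl | rfl | ⟨-, rfl⟩ <;>
    rcases hm with rfl | rfl | rfl | rfl | rfl | ⟨-, rfl⟩
  any_goals rfl
  any_goals (refine absurd ((dvd_mul_right p _).trans hd) ?_; assumption)
  any_goals (refine absurd ((dvd_pow_self p two_ne_zero).trans hd) ?_; assumption)
  any_goals (refine absurd (d1 ?_ hd ?_) ?_; assumption; omega; omega)
  any_goals (refine absurd (d4 ?_ hd) ?_; assumption; omega)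
  any_goals (refine d2 hd ?_ ?_; omega; omega)
  · exact absurd (Nat.le_of_dvd (by omega) (Nat.dvd_of_mul_dvd_mul_left hp0 hd)) (by omega)
  · exact absurd (d3 c1 (Nat.dvd_of_mul_dvd_mul_left hp0 (sq p ▸ hd))) (by omega)
  · exact absurd (d2 (Nat.dvd_of_mul_dvd_mul_left hp0 hd) (by omega) (by omega)) (by omega)
  · exact absurd (d3 c2 (Nat.dvd_of_mul_dvd_mul_left hp0 (sq p ▸ hd))) (by omega)
  · exact absurd (Nat.dvd_of_mul_dvd_mul_left hp0 (sq p ▸ hd)) c1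
  · exact absurd (Nat.dvd_of_mul_dvd_mul_left hp0 (sq p ▸ hd)) c2

end Cfsg.Agent.S2519
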