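import Cfsg.Statements.S2520
import Cfsg.Agent.Base
import Cfsg.Agent.H67.G2Spec

set_option autoImplicit false
open Cfsg

namespace Cfsg.Agent.S2520

/-- Let F be a finite field with q = 2^a ≥ 4 elements and G₂(F) the Chevalley group of type G₂ over it. Every element order of G₂(F) maximal under divisibility lies in the set {8, 12, 2(q + 1), 2(q − 1), q² − 1, q² + q + 1, q² − q + 1}, and every member of that set is an element order of G₂(F). -/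
theorem result {F : Type*} [Field F] [Fintype F] (a : ℕ) (ha : 2 ≤ a) (hF : Fintype.card F = 2 ^ a) :
    {n : ℕ | n ∈ Set.range (orderOf : ↥(Cfsg.Lie.chevG2.group F) → ℕ) ∧ ∀ m ∈ Set.range (orderOf : ↥(Cfsg.Lie.chevG2.group F) → ℕ), n ∣ m → m = n} ⊆ ({8, 12, 2 * (2 ^ a + 1), 2 * (2 ^ a - 1), 2 ^ (2 * a) - 1, 2 ^ (2 * a) + 2 ^ a + 1, 2 ^ (2 * a) - 2 ^ a + 1} : Set ℕ) ∧
    ({8, 12, 2 * (2 ^ a + 1), 2 * (2 ^ a - 1), 2 ^ (2 * a) - 1, 2 ^ (2 * a) + 2 ^ a + 1, 2 ^ (2 * a) - 2 ^ a + 1} : Set ℕ) ⊆ Set.range (orderOf : ↥(Cfsg.Lie.chevG2.group F) → ℕ) := by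
  haveI : CharP F 2 := charP_of_card_eq_prime_pow hF
  have e : 2 ^ (2 * a) = (2 ^ a) ^ 2 := by rw [← pow_mul, mul_comm]
  rw [e]
  generalize 2 ^ a = q at hF
  have h1 : ({8, 12, 2 * (q + 1), 2 * (q - 1), q ^ 2 - 1, q ^ 2 + q + 1, q ^ 2 - q + 1} : Set ℕ) ⊆
      Set.range (orderOf : ↥(Cfsg.Lie.chevG2.group F) → ℕ) := by
    rintro n (rfl | rfl | rfl | rfl | rfl | rfl | rfl)
    · exact (H67.exists_g2_regular 2).1 rfl
    · exact H67.exists_g2_twelve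
    all_goals exact H67.g2_exists_orderOf 2 hF (by simp)
  refine ⟨?_, h1⟩
  rintro _ ⟨⟨g, rfl⟩, h⟩
  have key : ∀ m ∈ ({8, 12, 2 * (q + 1), 2 * (q - 1), q ^ 2 - 1, q ^ 2 + q + 1, q ^ 2 - q + 1} :
      Set ℕ), orderOf g ∣ m → orderOf g ∈ ({8, 12, 2 * (q + 1), 2 * (q - 1), q ^ 2 - 1,
        q ^ 2 + q + 1, q ^ 2 - q + 1} : Set ℕ) := fun m hm hd => h m (h1 hm) hd ▸ hm
  rcases H67.g2_orderOf_dvd 2 hF g with h | h | h | h | h | ⟨-, h⟩ | h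
  any_goals exact key _ (by simp) h
  exact key 8 (by simp) (h 3 (by norm_num))

end Cfsg.Agent.S2520
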