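import Cfsg.Statements.S2521
import Cfsg.Agent.Base

set_option autoImplicit false
open Cfsg

namespace Cfsg.Agent.S2521

/-- Let B be a finite group that is the semidirect product of a nilpotent normal subgroup U by an abelian subgroup T (U ∩ T = 1, UT = B), and let t ∈ T have centralizer exactly T. Then every element of the coset tU is conjugate to t in B: for each u ∈ U there is b ∈ B with b t b⁻¹ = t u. -/
theorem result {B : Type*} [Group B] [Finite B] (U T : Subgroup B) [U.Normal] (hU : Group.IsNilpotent ↥U) (hT : IsMulCommutative ↥T)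
    (hcompl : Subgroup.IsComplement' U T) (t : B) (ht : t ∈ T) (hreg : Subgroup.centralizer ({t} : Set B) = T) (u : B) (hu : u ∈ U) :
    ∃ b : B, b * t * b⁻¹ = t * u := by
  classical
  have key : ∀ v : U, t⁻¹ * (v : B) * t * (v : B)⁻¹ ∈ U := by
    intro v
    have h1 : t⁻¹ * (v : B) * t⁻¹⁻¹ ∈ U := (inferInstance : U.Normal).conj_mem _ v.2 t⁻¹
    rw [inv_inv] at h1
    exact U.mul_mem h1 (U.inv_mem v.2)
  let f : U → U := fun v => ⟨_, key v⟩
  have hf : Function.Injective f := by
    intro v w h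
    have h1 : t⁻¹ * (v : B) * t * (v : B)⁻¹ = t⁻¹ * (w : B) * t * (w : B)⁻¹ := congrArg Subtype.val h
    have h2 : (w : B)⁻¹ * v ∈ Subgroup.centralizer ({t} : Set B) := by
      rw [Subgroup.mem_centralizer_singleton_iff]
      have h3 : (v : B) * t * (v : B)⁻¹ = (w : B) * t * (w : B)⁻¹ := by
        have := congrArg (fun x => t * x) h1
        simpa [mul_assoc] using this
      calc (w : B)⁻¹ * v * t = (w : B)⁻¹ * ((v : B) * t * (v : B)⁻¹) * v := by group
        _ = (w : B)⁻¹ * ((w : B) * t * (w : B)⁻¹) * v := by rw [h3]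
        _ = t * ((w : B)⁻¹ * v) := by group
    rw [hreg] at h2
    have h4 : (w : B)⁻¹ * v ∈ U ⊓ T := ⟨U.mul_mem (U.inv_mem w.2) v.2, h2⟩
    rw [hcompl.disjoint.eq_bot, Subgroup.mem_bot] at h4
    exact Subtype.ext (inv_mul_eq_one.1 h4).symm
  obtain ⟨v, hv⟩ := (Finite.injective_iff_surjective.1 hf) ⟨u, hu⟩
  refine ⟨v, ?_⟩
  have h5 : t⁻¹ * (v : B) * t * (v : B)⁻¹ = u := congrArg Subtype.val hv
  rw [← h5]; group

end Cfsg.Agent.S2521
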