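import Cfsg.Statements.S2522
import Cfsg.Agent.H56.RegU2

set_option autoImplicit false
open Cfsg

namespace Cfsg.Agent.S2522

/-- Let K be a field with at least four elements (finite or infinite), n ≥ 3, and J ∈ GL(n, K) the regular unipotent matrix (ones on the diagonal and the superdiagonal, zeros elsewhere). Then every non-scalar g ∈ GL(n, K) with det g = 1 is a product of two GL(n, K)-conjugates of J. -/
theorem result {K : Type*} [Field K] (hK : 4 ≤ Cardinal.mk K) (n : ℕ) (hn : 3 ≤ n) (J g : GL (Fin n) K)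
    (hJ : ∀ i j : Fin n, (J : Matrix (Fin n) (Fin n) K) i j = if i = j then 1 else if j.val = i.val + 1 then 1 else 0)
    (hg : ¬ ∃ c : K, (g : Matrix (Fin n) (Fin n) K) = c • (1 : Matrix (Fin n) (Fin n) K))
    (hdet : (g : Matrix (Fin n) (Fin n) K).det = 1) :
    ∃ x y : GL (Fin n) K, g = (x * J * x⁻¹) * (y * J * y⁻¹) := by
  obtain ⟨n, rfl⟩ := Nat.exists_eq_add_of_le' (show 1 ≤ n by omega)
  obtain ⟨x, y, h, h1, h2, h3, h4⟩ := H56.RegU.exists_mul (V := Fin (n + 1) → K) hK (n := n)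
    (by simp) (by omega) (g := Matrix.toLin' g.1) (by rw [LinearMap.det_toLin', hdet])
    fun l hl => hg ⟨l, Matrix.toLin'.injective (by rw [hl, map_smul, Matrix.toLin'_one]; rfl)⟩
  obtain ⟨a, ha⟩ := H56.RegU.exists_conj hJ h1 h2
  obtain ⟨b, hb⟩ := H56.RegU.exists_conj hJ h3 h4
  refine ⟨a, b, Units.ext ?_⟩
  rw [Units.val_mul, ha, hb, ← LinearMap.toMatrix'_mul, ← h, LinearMap.toMatrix'_toLin']

end Cfsg.Agent.S2522
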