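import Cfsg.Statements.S2524
import Cfsg.Agent.H63.SpW5
import Cfsg.Agent.H28.CharBasis

set_option autoImplicit false
open Cfsg

namespace Cfsg.Agent.S2524

/-- Let F be a finite field of odd order q and G = Sp(2n, F) with n ≥ 2. Then G has exactly four irreducible complex characters of degree (q^n + 1)/2 or (q^n − 1)/2 (two of each), and every other non-principal irreducible character has degree at least (q^n − 1)(q^n − q)/(2(q + 1)). -/
theorem result {F : Type*} [Field F] [Fintype F] (hodd : Odd (Fintype.card F)) (n : ℕ) (hn : 2 ≤ n) :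
    Nat.card {χ : Cfsg.IrrCharacter ↥(Matrix.symplecticGroup (Fin n) F) // (χ : ↥(Matrix.symplecticGroup (Fin n) F) → ℂ) 1 = (((Fintype.card F) ^ n + 1 : ℕ) : ℂ) / 2} = 2 ∧
    Nat.card {χ : Cfsg.IrrCharacter ↥(Matrix.symplecticGroup (Fin n) F) // (χ : ↥(Matrix.symplecticGroup (Fin n) F) → ℂ) 1 = (((Fintype.card F) ^ n - 1 : ℕ) : ℂ) / 2} = 2 ∧
    ∀ χ : Cfsg.IrrCharacter ↥(Matrix.symplecticGroup (Fin n) F),
      (χ : ↥(Matrix.symplecticGroup (Fin n) F) → ℂ) 1 ≠ 1 →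
      (χ : ↥(Matrix.symplecticGroup (Fin n) F) → ℂ) 1 ≠ (((Fintype.card F) ^ n + 1 : ℕ) : ℂ) / 2 →
      (χ : ↥(Matrix.symplecticGroup (Fin n) F) → ℂ) 1 ≠ (((Fintype.card F) ^ n - 1 : ℕ) : ℂ) / 2 →
      (((Fintype.card F) ^ n - 1 : ℕ) : ℝ) * (((Fintype.card F) ^ n - Fintype.card F : ℕ) : ℝ) / (2 * ((Fintype.card F : ℕ) + 1 : ℝ)) ≤ ‖(χ : ↥(Matrix.symplecticGroup (Fin n) F) → ℂ) 1‖ := by
  classical
  have hc : ringChar F ≠ 2 := fun h => by
    rw [FiniteField.even_card_iff_char_two] at h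
    exact absurd hodd (Nat.not_odd_iff_even.2 (Nat.even_iff.2 h))
  have h2 : (2 : F) ≠ 0 := Ring.two_ne_zero hc
  have : Nontrivial (Fin n) := Fin.nontrivial_iff_two_le.2 hn
  obtain ⟨δ, hδ⟩ := FiniteField.exists_nonsquare hc
  have hδ0 : δ ≠ 0 := by rintro rfl; exact hδ IsSquare.zero
  obtain ⟨w, hw⟩ : ∃ w, w ∉ H63.SpW.X (Fin n) F := ⟨1, fun h => one_ne_zero (h ⟨0, by omega⟩)⟩
  have hq : 3 ≤ Fintype.card F := by
    have := Fintype.one_lt_card (α := F)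
    obtain ⟨k, hk⟩ := hodd
    omega
  have hN : Fintype.card F ^ 2 ≤ Fintype.card F ^ n := Nat.pow_le_pow_right (by omega) hn
  obtain ⟨k, hk⟩ := hodd.pow (n := n)
  have h1 : ∀ {d} (ρ : Representation ℂ (Matrix.symplecticGroup (Fin n) F) (Fin d → ℂ)),
      ρ.character 1 = d := fun ρ => by simp
  have h3 : ∀ {d} (ρ : Representation ℂ (Matrix.symplecticGroup (Fin n) F) (Fin d → ℂ)),
      ρ.IsIrreducible → d ≠ 1 → ∃ g, ρ g ≠ 1 := fun {d} ρ hρ hd => by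
    by_contra! h
    obtain ⟨_, h'⟩ := (H28.isIrreducible_iff_submodule ρ).1 hρ
    obtain ⟨x, hx⟩ := exists_ne (0 : Fin d → ℂ)
    have := finrank_span_singleton (K := ℂ) hx
    rw [(h' (ℂ ∙ x) fun g v hv => by rwa [h]).resolve_left (by simpa using hx)] at this
    exact hd (by simpa using this)
  have h4 : ∀ {d} (ρ : Representation ℂ (Matrix.symplecticGroup (Fin n) F) (Fin d → ℂ)),
      d = k + 1 ∨ d = k → H63.SpW.RK ρ ∧ d ≠ 1 := fun {d} ρ hd => by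
    refine ⟨by_contra fun h => ?_, by rcases hd with rfl | rfl <;> nlinarith⟩
    have := H63.SpW.bound h2 (by simpa using hn) h
    rw [Module.finrank_fin_fun, Fintype.card_fin, hk, Nat.add_sub_cancel] at this
    obtain ⟨r, hr⟩ := Nat.exists_eq_add_of_le (show Fintype.card F ≤ 2 * k + 1 by nlinarith)
    rw [hr, Nat.add_sub_cancel_left] at this
    have h5 : 2 * Fintype.card F ≤ r := by nlinarith
    have := (Nat.mul_le_mul_left _ h5).trans this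
    rcases hd with rfl | rfl <;> nlinarith
  have h5 : ∀ d : ℕ, d = k + 1 ∨ d = k → (∃ ρ : Representation ℂ (Matrix.symplecticGroup (Fin n) F) (Fin d → ℂ),
      ρ.IsIrreducible) → 2 ≤ Nat.card {χ : IrrCharacter (Matrix.symplecticGroup (Fin n) F) // χ.1 1 = d} := by
    rintro d hd ⟨ρ, hρ⟩
    obtain ⟨σ, hσ, e⟩ := H63.SpW.exists_twist (l := Fin n) hδ0
    refine Finite.one_lt_card_iff_nontrivial.2 ⟨⟨⟨_, d, ρ, hρ, rfl⟩, h1 ρ⟩, ⟨⟨_, d, ρ.comp σ,
      H28.isIrreducible_comp_of_surjective ρ σ hσ, rfl⟩, h1 _⟩, fun h => ?_⟩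
    obtain ⟨φ⟩ := H28.nonempty_equiv_of_character_eq (ρ.comp σ) ρ (congrArg (·.1.1) h).symm
    obtain ⟨α, hα, m, h0, hm⟩ := H63.SpW.exists_wt h2 hw (h4 ρ hd).1 (h3 ρ hρ (h4 ρ hd).2) hδ
    have hα : α ≠ 0 := by rcases hα with rfl | rfl; exacts [one_ne_zero, hδ0]
    obtain ⟨b, hb⟩ := H63.SpW.type_sq h2 hw (h4 ρ hd).1 hα h0 hm (mul_ne_zero hα hδ0) (m' := φ m)
      (by simpa using h0) (H63.SpW.mem_WS.2 fun u => H63.SpW.mem_Eg.2 fun c => by
        have := congrArg φ (H63.SpW.mem_Eg.1 (H63.SpW.mem_WS.1 hm u) (c * δ))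
        rw [H63.SpW.T, ← e _ u.2, map_smul] at this
        refine (LinearMap.congr_fun (φ.isIntertwining' _) m).symm.trans (this.trans ?_)
        simp only [H63.SpW.wt]
        congr 2; ring)
    exact hδ ⟨b, by rw [mul_left_cancel₀ hα hb, sq]⟩
  have h6 : ∀ ε : ℂ, ε ^ 2 = 1 → ∃ (d : ℕ) (ρ : Representation ℂ (Matrix.symplecticGroup (Fin n) F) (Fin d → ℂ)),
      ρ.IsIrreducible ∧ (2 : ℂ) * d = 2 * k + 1 + ε := fun ε hε => by
    have := H63.SpW.exists_weil' (H59.heisRep_schr (l := Fin n) h2 (ψ := H63.SpW.ψ F) (by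
      simpa using H63.SpW.ψ_prim (F := F) one_ne_zero)) (G := Matrix.symplecticGroup (Fin n) F)
      (fun g v w => by rw [H54.spB_smul]) (fun v w hv hw => H54.sp_exists_smul_eq hv hw) hε
    rwa [Module.finrank_fintype_fun_eq_card, Fintype.card_fun, Fintype.card_fin, hk, Nat.cast_add,
      Nat.cast_mul, Nat.cast_one] at this
  have h7 := h5 (k + 1) (.inl rfl) (by
    obtain ⟨d, ρ, hρ, e⟩ := h6 1 (by simp)
    obtain rfl : d = k + 1 := by exact_mod_cast (by linear_combination e / 2 : (d : ℂ) = k + 1)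
    exact ⟨ρ, hρ⟩)
  have h8 := h5 k (.inr rfl) (by
    obtain ⟨d, ρ, hρ, e⟩ := h6 (-1) (by simp)
    obtain rfl : d = k := by exact_mod_cast (by linear_combination e / 2 : (d : ℂ) = k)
    exact ⟨ρ, hρ⟩)
  have h9 : ∀ χ : {χ : IrrCharacter (Matrix.symplecticGroup (Fin n) F) // χ.1 1 = (k + 1 : ℕ) ∨ χ.1 1 = k},
      ∃ (p : ({1, δ} : Finset F) ×ˢ ({1, -1} : Finset ℂ)) (d : ℕ)
        (ρ : Representation ℂ (Matrix.symplecticGroup (Fin n) F) (Fin d → ℂ)), ρ.IsIrreducible ∧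
        ρ.character = χ.1.1 ∧ H63.SpW.RK ρ ∧ p.1.1 ≠ 0 ∧ (∃ m, m ≠ 0 ∧ m ∈ H63.SpW.WS ρ (H63.SpW.wt p.1.1 w)) ∧
        ∀ g : Matrix.symplecticGroup (Fin n) F, (∀ v : Fin n ⊕ Fin n → F, g • v = -v) →
          ∀ x, ρ g x = p.1.2 • x := by
    rintro ⟨⟨_, d, ρ, hρ, rfl⟩, h⟩
    simp only [h1, Nat.cast_inj] at h
    obtain ⟨α, hα, hm⟩ := H63.SpW.exists_wt h2 hw (h4 ρ h).1 (h3 ρ hρ (h4 ρ h).2) hδ
    obtain ⟨ε, hε, h'⟩ := H63.SpW.exists_eps ρ
    exact ⟨⟨(α, ε), by simp [hα, hε]⟩, d, ρ, hρ, rfl, (h4 ρ h).1, by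
      rcases hα with rfl | rfl; exacts [one_ne_zero, hδ0], hm, h'⟩
  choose p d ρ hρ using h9
  have h10 := Nat.card_le_card_of_injective p fun χ χ' e => by
    obtain ⟨i1, e1, r1, a1, ⟨m, m1, m2⟩, c1⟩ := hρ χ
    obtain ⟨i2, e2, r2, -, ⟨m', m3, m4⟩, c2⟩ := hρ χ'
    rw [← e] at m4 c2
    have := H63.SpW.char_eq h2 hw r1 a1 m1 m2 r2 m3 m4 c1 c2
    rw [e1, e2] at this
    exact Subtype.ext (Subtype.ext this)
  have h11 := (Nat.card_le_card_of_injective (β := {χ : IrrCharacter (Matrix.symplecticGroup (Fin n) F) //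
      χ.1 1 = (k + 1 : ℕ) ∨ χ.1 1 = k}) (Sum.elim
    (fun χ : {χ : IrrCharacter (Matrix.symplecticGroup (Fin n) F) // χ.1 1 = (k + 1 : ℕ)} => ⟨χ.1, .inl χ.2⟩)
    fun χ : {χ : IrrCharacter (Matrix.symplecticGroup (Fin n) F) // χ.1 1 = k} => ⟨χ.1, .inr χ.2⟩)
    (Function.Injective.sumElim (fun _ _ e => Subtype.ext (congrArg (·.1) e))
      (fun _ _ e => Subtype.ext (congrArg (·.1) e)) fun a b e => by
        have := a.2.symm.trans ((congrArg (·.1.1 1) e).trans b.2)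
        simp at this)).trans h10
  rw [Nat.card_sum, Nat.card_eq_finsetCard, Finset.card_product] at h11
  have := Nat.mul_le_mul (Finset.card_le_two (a := 1) (b := δ)) (Finset.card_le_two (a := (1 : ℂ)) (b := -1))
  rw [show ((Fintype.card F ^ n + 1 : ℕ) : ℂ) / 2 = (k + 1 : ℕ) by rw [hk]; push_cast; ring,
    show ((Fintype.card F ^ n - 1 : ℕ) : ℂ) / 2 = k by rw [hk, Nat.add_sub_cancel]; push_cast; ring]
  refine ⟨by omega, by omega, ?_⟩
  rintro ⟨_, d, ρ, hρ, rfl⟩ e1 e2 e3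
  simp only [h1, ne_eq, Nat.cast_inj, Nat.cast_eq_one] at e1 e2 e3
  have h12 := H63.SpW.bound h2 (by simpa using hn) (ρ := ρ) fun h => by
    obtain ⟨α, hα, m, h0, hm⟩ := H63.SpW.exists_wt h2 hw h (h3 ρ hρ e1) hδ
    have h12 := H63.SpW.finrank_le h2 hw h (by rcases hα with rfl | rfl; exacts [one_ne_zero, hδ0]) h0 hm
    have h13 := H59.sp_ls_bound hodd ρ (h3 ρ hρ e1)
    rw [Module.finrank_fin_fun, Fintype.card_fin] at h12 h13
    omega
  rw [Module.finrank_fin_fun, Fintype.card_fin] at h12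
  simp only [h1, Complex.norm_natCast]
  rw [div_le_iff₀ (by positivity), mul_comm (d : ℝ)]
  exact_mod_cast h12

end Cfsg.Agent.S2524
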