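import Cfsg.Statements.S2525
import Cfsg.Agent.Base
import Cfsg.Agent.H67.F4Spec
import Cfsg.Agent.S1062

set_option autoImplicit false
open Cfsg

namespace Cfsg.Agent.S2525

theorem ord_of {K : Type*} [Field K] {x : K} :
    (orderOf x = 1 → x - 1 = 0) ∧ (orderOf x = 2 → x + 1 = 0) ∧
    (orderOf x = 3 → x ^ 2 + x + 1 = 0) ∧ (orderOf x = 4 → x ^ 2 + 1 = 0) ∧
    (orderOf x = 6 → x ^ 2 - x + 1 = 0) ∧ (orderOf x = 8 → x ^ 4 + 1 = 0) ∧
    (orderOf x = 12 → x ^ 4 - x ^ 2 + 1 = 0) := by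
  have h0 := pow_orderOf_eq_one x
  have h1 : ∀ n, n ≠ 0 → n < orderOf x → x ^ n - 1 ≠ 0 := fun n h h' =>
    sub_ne_zero.2 (pow_ne_one_of_lt_orderOf h h')
  refine ⟨fun h => ?_, fun h => ?_, fun h => ?_, fun h => ?_, fun h => ?_, fun h => ?_,
    fun h => ?_⟩ <;> rw [h] at h0 h1
  · linear_combination h0
  · exact mul_left_cancel₀ (h1 1 (by omega) (by omega)) (by linear_combination h0)
  · exact mul_left_cancel₀ (h1 1 (by omega) (by omega)) (by linear_combination h0)
  · exact mul_left_cancel₀ (h1 2 (by omega) (by omega)) (by linear_combination h0)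
  · exact mul_left_cancel₀ (mul_ne_zero (h1 3 (by omega) (by omega)) (h1 2 (by omega) (by omega)))
      (by linear_combination (x - 1) * h0)
  · exact mul_left_cancel₀ (h1 4 (by omega) (by omega)) (by linear_combination h0)
  · exact mul_left_cancel₀ (mul_ne_zero (h1 6 (by omega) (by omega)) (h1 4 (by omega) (by omega)))
      (by linear_combination (x ^ 2 - 1) * h0)

theorem zmod3 : ∀ y : ZMod 3, y ^ 2 + 1 ≠ 0 := by decide

theorem of_ord {r : ℕ} [hr : Fact r.Prime] (h2 : r ≠ 2) {x : ZMod r} :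
    (x ^ 4 - 1 = 0 → orderOf x ∈ [1, 2, 4]) ∧
    ((x ^ 2 - 1) * (x ^ 2 + x + 1) = 0 → orderOf x ∈ [1, 2, 3]) ∧
    ((x ^ 2 - 1) * (x ^ 2 - x + 1) = 0 → orderOf x ∈ [1, 2, 6]) ∧
    (x ^ 4 + 1 = 0 → orderOf x = 8) ∧ (x ^ 4 - x ^ 2 + 1 = 0 → orderOf x = 12) := by
  have h0 : ∀ m : ℕ, m.Prime → (m : ZMod r) = 0 → r = m := fun m hm h =>
    (Nat.prime_dvd_prime_iff_eq hr.out hm).1 ((ZMod.natCast_eq_zero_iff m r).1 h)
  have ht : (2 : ZMod r) ≠ 0 := fun h => h2 (h0 2 Nat.prime_two (by exact_mod_cast h))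
  have h1 : ∀ n, 0 < n → x ^ n = 1 → orderOf x ∈ n.divisors := fun n hn h =>
    Nat.mem_divisors.2 ⟨orderOf_dvd_of_pow_eq_one h, hn.ne'⟩
  have h3 : ∀ n, x ^ n + 1 = 0 → ¬ orderOf x ∣ n := fun n h h' =>
    ht (by linear_combination h - orderOf_dvd_iff_pow_eq_one.1 h')
  have a2 := h1 2 (by omega)
  have a3 := h1 3 (by omega)
  refine ⟨fun h => ?_, fun h => ?_, fun h => ?_, fun h => ?_, fun h => ?_⟩
  · have := h1 4 (by omega) (by linear_combination h)
    revert this; generalize orderOf x = e; revert e; decide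
  · rcases mul_eq_zero.1 h with h | h
    · have := a2 (by linear_combination h)
      revert this; generalize orderOf x = e; revert e; decide
    · have := a3 (by linear_combination (x - 1) * h)
      revert this; generalize orderOf x = e; revert e; decide
  · rcases mul_eq_zero.1 h with h | h
    · have := a2 (by linear_combination h)
      revert this; generalize orderOf x = e; revert e; decide
    · have b := h3 3 (by linear_combination (x + 1) * h)
      have := h1 6 (by omega) (by linear_combination (x ^ 3 - 1) * (x + 1) * h)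
      revert b; revert this; generalize orderOf x = e; revert e; decide
  · have b := h3 4 h
    have := h1 8 (by omega) (by linear_combination (x ^ 4 - 1) * h)
    revert b; revert this; generalize orderOf x = e; revert e; decide
  · have b := h3 6 (by linear_combination (x ^ 2 + 1) * h)
    have c : orderOf x ≠ 4 := fun e => by
      have e1 := ord_of.2.2.2.1 e
      obtain rfl := h0 3 Nat.prime_three (by
        push_cast; linear_combination h - (x ^ 2 - 2) * e1)
      exact zmod3 x e1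
    have := h1 12 (by omega) (by linear_combination (x ^ 6 - 1) * (x ^ 2 + 1) * h)
    revert b c; revert this; generalize orderOf x = e; revert e; decide

theorem ord_mem {F : Type*} [Field F] [Fintype F] [CharP F 2] {r : ℕ} (hr : r.Prime) (h2 : r ≠ 2)
    (h : r ∣ Nat.card ↥(Cfsg.Lie.chevF4.group F)) :
    orderOf ((Fintype.card F : ℕ) : ZMod r) ∈ [1, 2, 3, 4, 6, 8, 12] := by
  haveI := Fact.mk hr
  have hq : 1 ≤ Fintype.card F := Fintype.card_pos
  have h1 : ∀ n, 0 < n → r ∣ Fintype.card F ^ n - 1 →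
      orderOf ((Fintype.card F : ℕ) : ZMod r) ∈ n.divisors := fun n hn h =>
    Nat.mem_divisors.2 ⟨orderOf_dvd_of_pow_eq_one (by
      have := (ZMod.natCast_eq_zero_iff _ r).2 h
      rwa [Nat.cast_sub (Nat.one_le_pow _ _ hq), Nat.cast_pow, Nat.cast_one, sub_eq_zero] at this),
      hn.ne'⟩
  rw [Cfsg.Agent.S1062.result rfl] at h
  simp only [hr.dvd_mul] at h
  rcases h with (((h | h) | h) | h) | h
  · obtain ⟨n, -, hn⟩ := FiniteField.card F 2
    rw [hn, ← pow_mul] at h
    exact absurd ((Nat.prime_dvd_prime_iff_eq hr Nat.prime_two).1 (hr.dvd_of_dvd_pow h)) h2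
  all_goals
    have := h1 _ (by omega) h
    revert this; generalize orderOf ((Fintype.card F : ℕ) : ZMod r) = e; revert e; decide

theorem dvd_iff_cast {r : ℕ} {m : ℤ} : (r : ℤ) ∣ m ↔ (m : ZMod r) = 0 :=
  (ZMod.intCast_zmod_eq_zero_iff_dvd m r).symm

theorem two_case {F : Type*} [Field F] [Fintype F] [CharP F 2] {s : ℕ} (hs : s.Prime) (h2 : s ≠ 2)
    (h : s ∣ Nat.card ↥(Cfsg.Lie.chevF4.group F)) :
    (¬ ∃ x : ↥(Cfsg.Lie.chevF4.group F), orderOf x = 2 * s) ↔
      orderOf ((Fintype.card F : ℕ) : ZMod s) ∈ ({8, 12} : Finset ℕ) := by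
  haveI := Fact.mk hs
  have h0 := ord_mem hs h2 h
  have hsF : (s : F) ≠ 0 := by
    rw [Ne, CharP.cast_eq_zero_iff F 2, Nat.prime_dvd_prime_iff_eq Nat.prime_two hs]; omega
  have ht : ∀ a, (2 : ZMod s) ^ a ≠ 0 := fun a => pow_ne_zero _ fun h =>
    h2 ((Nat.prime_dvd_prime_iff_eq hs Nat.prime_two).1 ((ZMod.natCast_eq_zero_iff 2 s).1 h))
  constructor
  · intro h1
    by_contra h3
    refine h1 (H67.f4_exists_mul 2 rfl hsF ?_)
    simp only [dvd_iff_cast]
    push_cast
    simp only [List.mem_cons, List.not_mem_nil, or_false] at h0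
    obtain ⟨o1, o2, o3, o4, o6, -, -⟩ := ord_of (x := ((Fintype.card F : ℕ) : ZMod s))
    set x := ((Fintype.card F : ℕ) : ZMod s)
    rcases h0 with h | h | h | h | h | h | h
    · exact .inl (by linear_combination (x + 1) * o1 h)
    · exact .inl (by linear_combination (x - 1) * o2 h)
    · exact .inr (.inr (.inl (by linear_combination (x - 1) * o3 h)))
    · exact .inr (.inl (o4 h))
    · exact .inr (.inr (.inr (by linear_combination (x + 1) * o6 h)))
    all_goals simp [h] at h3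
  · rintro h1 ⟨g, hg⟩
    obtain ⟨n, -, hn⟩ := FiniteField.card F 2
    have hq : (2 : ℤ) ∣ Fintype.card F := by
      rw [hn]; exact_mod_cast dvd_pow_self 2 n.ne_zero
    have h3 : (s : ℤ) ∣ orderOf g := by rw [hg]; simp
    have h4 : (2 : ℤ) ∣ orderOf g := by rw [hg]; simp
    obtain ⟨o1, o2, o3, -, -⟩ := of_ord h2 (x := ((Fintype.card F : ℕ) : ZMod s))
    rcases H67.f4_orderOf_dvd 2 rfl g with ⟨a, h | h | h⟩ | h | h
    iterate 3
      have := dvd_iff_cast.1 (h3.trans h)
      push_cast at this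
      have := (mul_eq_zero.1 this).resolve_left (ht a)
      first | have := o1 this | have := o2 this | have := o3 this
      revert this h1; generalize orderOf ((Fintype.card F : ℕ) : ZMod s) = e; revert e; decide
    all_goals
      have := h4.trans h
      have h5 := dvd_pow hq (show 4 ≠ 0 by omega)
      have h6 := dvd_pow hq (show 2 ≠ 0 by omega)
      omega

theorem odd_upper {F : Type*} [Field F] [Fintype F] [CharP F 2] (g : ↥(Cfsg.Lie.chevF4.group F)) :
    ∃ L ∈ [[1, 2, 4], [1, 2, 3], [1, 2, 6], [8], [12]], ∀ s : ℕ, s.Prime → s ≠ 2 →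
      s ∣ orderOf g → orderOf ((Fintype.card F : ℕ) : ZMod s) ∈ L := by
  have key : ∀ {m : ℤ} {a : ℕ}, (orderOf g : ℤ) ∣ (2 : ℕ) ^ a * m → ∀ s : ℕ, s.Prime → s ≠ 2 →
      s ∣ orderOf g → (m : ZMod s) = 0 := fun {m a} h s hs h2 h3 => by
    haveI := Fact.mk hs
    have := dvd_iff_cast.1 ((Int.natCast_dvd_natCast.2 h3).trans h)
    push_cast at this
    exact (mul_eq_zero.1 this).resolve_left (pow_ne_zero _ fun h => h2
      ((Nat.prime_dvd_prime_iff_eq hs Nat.prime_two).1 ((ZMod.natCast_eq_zero_iff 2 s).1 h)))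
  rcases H67.f4_orderOf_dvd 2 rfl g with ⟨a, h | h | h⟩ | h | h
  · exact ⟨_, by simp, fun s hs h2 h3 => haveI := Fact.mk hs
      (of_ord h2).1 (by exact_mod_cast key h s hs h2 h3)⟩
  · exact ⟨_, by simp, fun s hs h2 h3 => haveI := Fact.mk hs
      (of_ord h2).2.1 (by exact_mod_cast key h s hs h2 h3)⟩
  · exact ⟨_, by simp, fun s hs h2 h3 => haveI := Fact.mk hs
      (of_ord h2).2.2.1 (by exact_mod_cast key h s hs h2 h3)⟩
  · exact ⟨[8], by simp, fun s hs h2 h3 => haveI := Fact.mk hs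
      List.mem_singleton.2 ((of_ord h2).2.2.2.1 (by
        have := key (a := 0) (h.mul_left _) s hs h2 h3
        push_cast at this; exact this))⟩
  · exact ⟨[12], by simp, fun s hs h2 h3 => haveI := Fact.mk hs
      List.mem_singleton.2 ((of_ord h2).2.2.2.2 (by
        have := key (a := 0) (h.mul_left _) s hs h2 h3
        push_cast at this; exact this))⟩

theorem odd_lower {F : Type*} [Field F] [Fintype F] [CharP F 2] {r s : ℕ} (hr : r.Prime)
    (hs : s.Prime) (hrs : r ≠ s) (hr2 : r ≠ 2) (hs2 : s ≠ 2)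
    (h : (orderOf ((Fintype.card F : ℕ) : ZMod r), orderOf ((Fintype.card F : ℕ) : ZMod s)) ∈
      [(1, 1), (1, 2), (1, 3), (1, 4), (1, 6), (2, 2), (2, 3), (2, 4), (2, 6), (3, 3), (4, 4),
        (6, 6), (8, 8), (12, 12)]) :
    ∃ x : ↥(Cfsg.Lie.chevF4.group F), orderOf x = r * s := by
  haveI := Fact.mk hr
  haveI := Fact.mk hs
  have hF : ∀ s : ℕ, s.Prime → s ≠ 2 → (s : F) ≠ 0 := fun s hs h => by
    rw [Ne, CharP.cast_eq_zero_iff F 2, Nat.prime_dvd_prime_iff_eq Nat.prime_two hs]; omega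
  have hc := (Nat.coprime_primes hr hs).2 hrs
  have hN : ((r * s : ℕ) : F) ≠ 0 := by
    push_cast; exact mul_ne_zero (hF r hr hr2) (hF s hs hs2)
  have hd : ∀ m : ℤ, (m : ZMod r) = 0 → (m : ZMod s) = 0 → ((r * s : ℕ) : ℤ) ∣ m := fun m h h' => by
    push_cast
    exact (Nat.isCoprime_iff_coprime.2 hc).mul_dvd (dvd_iff_cast.2 h) (dvd_iff_cast.2 h')
  have e1 := fun h => (H67.f4_exists_mul 2 rfl hN h).elim fun g hg =>
    (⟨g ^ 2, by rw [orderOf_pow' _ two_ne_zero, hg]; simp⟩ :
      ∃ x : ↥(Cfsg.Lie.chevF4.group F), orderOf x = r * s)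
  have e2 := H67.f4_exists rfl hN
  have e3 := H67.f4_exists_two rfl (hF r hr hr2) (hF s hs hs2) hc
  simp only [dvd_iff_cast (r := r), dvd_iff_cast (r := s)] at e3
  push_cast at e3
  obtain ⟨o1, o2, o3, o4, o6, o8, o12⟩ := ord_of (x := ((Fintype.card F : ℕ) : ZMod r))
  obtain ⟨p1, p2, p3, p4, p6, p8, p12⟩ := ord_of (x := ((Fintype.card F : ℕ) : ZMod s))
  simp only [List.mem_cons, List.not_mem_nil, or_false, Prod.mk.injEq] at h
  set x := ((Fintype.card F : ℕ) : ZMod r)
  set y := ((Fintype.card F : ℕ) : ZMod s)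
  rcases h with h | h | h | h | h | h | h | h | h | h | h | h | h | h
  · exact e1 (.inl (hd _ (by push_cast; linear_combination (x + 1) * o1 h.1)
      (by push_cast; linear_combination (y + 1) * p1 h.2)))
  · exact e1 (.inl (hd _ (by push_cast; linear_combination (x + 1) * o1 h.1)
      (by push_cast; linear_combination (y - 1) * p2 h.2)))
  · exact e1 (.inr (.inr (.inl (hd _ (by push_cast; linear_combination (x ^ 2 + x + 1) * o1 h.1)
      (by push_cast; linear_combination (y - 1) * p3 h.2)))))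
  · exact e3 (.inr (.inr ⟨by linear_combination (x + 1) * o1 h.1, p4 h.2⟩))
  · exact e3 (.inr (.inl ⟨o1 h.1, p6 h.2⟩))
  · exact e1 (.inl (hd _ (by push_cast; linear_combination (x - 1) * o2 h.1)
      (by push_cast; linear_combination (y - 1) * p2 h.2)))
  · exact e3 (.inl ⟨o2 h.1, p3 h.2⟩)
  · exact e3 (.inr (.inr ⟨by linear_combination (x - 1) * o2 h.1, p4 h.2⟩))
  · exact e1 (.inr (.inr (.inr (hd _ (by push_cast; linear_combination (x ^ 2 - x + 1) * o2 h.1)
      (by push_cast; linear_combination (y + 1) * p6 h.2)))))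
  · exact e1 (.inr (.inr (.inl (hd _ (by push_cast; linear_combination (x - 1) * o3 h.1)
      (by push_cast; linear_combination (y - 1) * p3 h.2)))))
  · exact e1 (.inr (.inl (hd _ (by push_cast; exact o4 h.1) (by push_cast; exact p4 h.2))))
  · exact e1 (.inr (.inr (.inr (hd _ (by push_cast; linear_combination (x + 1) * o6 h.1)
      (by push_cast; linear_combination (y + 1) * p6 h.2)))))
  · exact e2 (.inl (hd _ (by push_cast; exact o8 h.1) (by push_cast; exact p8 h.2)))
  · exact e2 (.inr (hd _ (by push_cast; exact o12 h.1) (by push_cast; exact p12 h.2)))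

/-- Let F be a finite field with q = 2^n elements and G = F₄(F). For an odd prime r let e(r, q) be the multiplicative order of q modulo r. Two distinct primes r, s dividing the order of G are non-adjacent in the prime graph of G (no element of order rs) if and only if, up to swapping r and s, either r = 2 and e(s, q) ∈ {8, 12}, or r, s are both odd with k = e(r, q) < l = e(s, q) and one of: l ∈ {8, 12}; l = 6 and k ∈ {3, 4}; l = 4 and k = 3. -/
theorem result {F : Type*} [Field F] [Fintype F] (n : ℕ) (hn : 1 ≤ n) (hF : Fintype.card F = 2 ^ n)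
    (r s : ℕ) (hr : r.Prime) (hs : s.Prime) (hrs : r ≠ s) (hrG : r ∣ Nat.card ↥(Cfsg.Lie.chevF4.group F)) (hsG : s ∣ Nat.card ↥(Cfsg.Lie.chevF4.group F)) :
    (¬ ∃ x : ↥(Cfsg.Lie.chevF4.group F), orderOf x = r * s) ↔
      ((r = 2 ∧ orderOf ((Fintype.card F : ℕ) : ZMod s) ∈ ({8, 12} : Finset ℕ)) ∨ (s = 2 ∧ orderOf ((Fintype.card F : ℕ) : ZMod r) ∈ ({8, 12} : Finset ℕ)) ∨
       (r ≠ 2 ∧ s ≠ 2 ∧
         ((orderOf ((Fintype.card F : ℕ) : ZMod r) < orderOf ((Fintype.card F : ℕ) : ZMod s) ∧ (orderOf ((Fintype.card F : ℕ) : ZMod s) ∈ ({8, 12} : Finset ℕ) ∨ (orderOf ((Fintype.card F : ℕ) : ZMod s) = 6 ∧ orderOf ((Fintype.card F : ℕ) : ZMod r) ∈ ({3, 4} : Finset ℕ)) ∨ (orderOf ((Fintype.card F : ℕ) : ZMod s) = 4 ∧ orderOf ((Fintype.card F : ℕ) : ZMod r) = 3))) ∨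
          (orderOf ((Fintype.card F : ℕ) : ZMod s) < orderOf ((Fintype.card F : ℕ) : ZMod r) ∧ (orderOf ((Fintype.card F : ℕ) : ZMod r) ∈ ({8, 12} : Finset ℕ) ∨ (orderOf ((Fintype.card F : ℕ) : ZMod r) = 6 ∧ orderOf ((Fintype.card F : ℕ) : ZMod s) ∈ ({3, 4} : Finset ℕ)) ∨ (orderOf ((Fintype.card F : ℕ) : ZMod r) = 4 ∧ orderOf ((Fintype.card F : ℕ) : ZMod s) = 3)))))) := by
  haveI : CharP F 2 := charP_of_card_eq_prime_pow hF
  by_cases hr2 : r = 2
  · subst hr2
    rw [two_case hs hrs.symm hsG]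
    simp [hrs.symm]
  by_cases hs2 : s = 2
  · subst hs2
    rw [mul_comm, two_case hr hr2 hrG]
    simp [hr2]
  have h1 := ord_mem hr hr2 hrG
  have h2 := ord_mem hs hs2 hsG
  have h3 := odd_lower (F := F) hr hs hrs hr2 hs2
  have h4 := odd_lower (F := F) hs hr hrs.symm hs2 hr2
  rw [mul_comm] at h4
  simp only [hr2, hs2, false_and, false_or, ne_eq, not_false_iff, true_and]
  constructor
  · intro h
    have h5 := mt h3 h
    have h6 := mt h4 h
    revert h1 h2 h5 h6
    generalize orderOf ((Fintype.card F : ℕ) : ZMod r) = k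
    generalize orderOf ((Fintype.card F : ℕ) : ZMod s) = l
    intro h1 h2
    revert l; revert k
    decide +kernel
  · rintro h ⟨g, hg⟩
    obtain ⟨L, hL, h5⟩ := odd_upper g
    have h6 := h5 r hr hr2 (hg ▸ dvd_mul_right _ _)
    have h7 := h5 s hs hs2 (hg ▸ dvd_mul_left _ _)
    revert h
    revert h7
    generalize orderOf ((Fintype.card F : ℕ) : ZMod s) = l
    revert l h6
    generalize orderOf ((Fintype.card F : ℕ) : ZMod r) = k
    revert k
    clear h5
    revert L
    decide +kernel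

end Cfsg.Agent.S2525
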