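import Cfsg.Statements.S2544
import Cfsg.Agent.Base
import Cfsg.Agent.H57.AltChar
import Cfsg.Agent.H29.Codeg

set_option autoImplicit false
open Cfsg

namespace Cfsg.Agent.S2544

open Matrix H57

variable {F : Type*} [Field F] {n : ℕ}

/-- Parabolic subgroups of `PSL`. -/
def pbar (n : ℕ) (F : Type*) [Field F] (α : Fin n → ℕ) :
    Subgroup (ProjectiveSpecialLinearGroup (Fin n) F) :=
  ((parabolicGL n F α).comap SpecialLinearGroup.toGL).map (QuotientGroup.mk' _)

lemma diagAt_mem {κ : Type*} [LinearOrder κ] (a : Fin n → κ) (i : Fin n) (c : Fˣ) :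
    diagAt i c ∈ blockGL F a := blockTriangular_diagonal _

lemma conj_diagAt_mem {κ : Type*} [LinearOrder κ] (a : Fin n → κ) (i : Fin n) (c : Fˣ)
    (σ : Equiv.Perm (Fin n)) :
    (permGL (Fin n) F σ)⁻¹ * diagAt i c * permGL (Fin n) F σ ∈ blockGL F a := by
  intro r s h
  have hrs : r ≠ s := fun e => by rw [e] at h; exact lt_irrefl _ h
  rw [← map_inv, Units.val_mul, mul_permGL_apply, Units.val_mul, diagAt_coe, mul_diagonal,
    permGL_apply, if_neg (by simpa using hrs), zero_mul]

lemma index_pbar [Finite F] [NeZero n] (α : Fin n → ℕ) :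
    (pbar n F α).index = (parabolicGL n F α).index := by
  have h1 : Subgroup.center (SpecialLinearGroup (Fin n) F) ≤
      (parabolicGL n F α).comap SpecialLinearGroup.toGL := by
    intro z hz
    obtain ⟨r, -, hr⟩ := Matrix.SpecialLinearGroup.mem_center_iff.1 hz
    change (z : Matrix (Fin n) (Fin n) F).BlockTriangular _
    rw [← hr]
    exact blockTriangular_diagonal _
  have h2 : parabolicGL n F α ⊔ (GeneralLinearGroup.det : GL (Fin n) F →* Fˣ).ker = ⊤ := by
    rw [← Subgroup.comap_map_eq, eq_top_iff]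
    intro g _
    exact ⟨diagAt 0 _, blockTriangular_diagonal _, det_diagAt _ _⟩
  rw [pbar, Subgroup.index_map, QuotientGroup.ker_mk', sup_eq_left.2 h1, QuotientGroup.range_mk',
    Subgroup.index_top, mul_one, Subgroup.index_comap, range_toGL_eq_ker_det]
  have h3 := Subgroup.relIndex_inf_mul_relIndex (parabolicGL n F α)
    (GeneralLinearGroup.det : GL (Fin n) F →* Fˣ).ker ⊤
  have h4 := Subgroup.relIndex_inf_mul_relIndex
    (GeneralLinearGroup.det : GL (Fin n) F →* Fˣ).ker (parabolicGL n F α) ⊤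
  rw [inf_top_eq, Subgroup.relIndex_top_right] at h3 h4
  rw [← Subgroup.relIndex_sup_right, h2, Subgroup.relIndex_top_right, inf_comm, ← h3,
    mul_comm] at h4
  exact (Nat.eq_of_mul_eq_mul_right (Nat.pos_of_ne_zero Subgroup.index_ne_zero_of_finite) h4).symm

lemma exists_sl_double [NeZero n] {α β : Fin n → ℕ} {x y : SpecialLinearGroup (Fin n) F}
    {σ : Equiv.Perm (Fin n)} {c : Fˣ}
    (hx : SpecialLinearGroup.toGL x = permGL (Fin n) F σ * diagAt 0 c) {h k : GL (Fin n) F}
    (hh : h ∈ parabolicGL n F α) (hk : k ∈ parabolicGL n F β)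
    (e : SpecialLinearGroup.toGL y = h * permGL (Fin n) F σ * k) :
    ∃ h ∈ pbar n F α, ∃ k ∈ pbar n F β, (QuotientGroup.mk y : ProjectiveSpecialLinearGroup (Fin n) F) =
      h * QuotientGroup.mk x * k := by
  obtain ⟨s, d, hs⟩ := exists_sl_eq_mul_diagAt h 0
  refine ⟨_, ⟨s, ?_, rfl⟩, _, ⟨x⁻¹ * s⁻¹ * y, ?_, rfl⟩, by simp [mul_assoc]⟩
  · change SpecialLinearGroup.toGL s ∈ parabolicGL n F α
    rw [hs]
    exact mul_mem hh (diagAt_mem (compLabel α) _ _)
  · change SpecialLinearGroup.toGL _ ∈ parabolicGL n F β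
    have : SpecialLinearGroup.toGL (x⁻¹ * s⁻¹ * y) = (diagAt 0 c)⁻¹ *
        ((permGL (Fin n) F σ)⁻¹ * diagAt 0 d * permGL (Fin n) F σ)⁻¹ * k := by
      rw [map_mul, map_mul, map_inv, map_inv, hx, hs, e]; group
    rw [this]
    exact mul_mem (mul_mem (inv_mem (diagAt_mem (compLabel β) _ _))
      (inv_mem (conj_diagAt_mem (compLabel β) _ _ _))) hk

lemma sum_pbar [NeZero n] [Fintype (ProjectiveSpecialLinearGroup (Fin n) F)] {α β : Fin n → ℕ}
    (hα : ∑ i, α i = n) (hβ : ∑ i, β i = n) :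
    ∑ g, fixedPointCharacter (pbar n F α) g * fixedPointCharacter (pbar n F β) g =
      (Nat.card (ProjectiveSpecialLinearGroup (Fin n) F) : ℂ) * Nat.card (Tables α β) := by
  choose w c hw using fun σ : Equiv.Perm (Fin n) => exists_sl_eq_mul_diagAt (permGL (Fin n) F σ) 0
  refine sum_fpc_mul_fpc _ _ (fun σ => QuotientGroup.mk (w σ)) _
    (tableOf_surjective (card_lab_eq α hα) (card_lab_eq β hβ)) (fun g => ?_) fun σ τ => ?_
  · obtain ⟨y, rfl⟩ := QuotientGroup.mk_surjective g
    obtain ⟨σ, h, hh, k, hk, e⟩ := bruhat_gl (SpecialLinearGroup.toGL y)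
    exact ⟨σ, exists_sl_double (hw σ) (blockGL_id_le (lab_mono α hα) hh)
      (blockGL_id_le (lab_mono β hβ) hk) e⟩
  · rw [Subtype.mk.injEq, tableOf_eq_iff_gl (F := F)]
    constructor
    · rintro ⟨h, hh, k, hk, e⟩
      exact exists_sl_double (hw σ) hh (mul_mem hk (diagAt_mem (lab β hβ) 0 (c τ)))
        (by rw [hw, e, mul_assoc])
    · rintro ⟨_, ⟨h, hh, rfl⟩, _, ⟨k, hk, rfl⟩, e⟩
      have e' : (h * w σ * k)⁻¹ * w τ ∈ Subgroup.center _ := QuotientGroup.eq.1 e.symm
      obtain ⟨r, -, hr⟩ := Matrix.SpecialLinearGroup.mem_center_iff.1 e'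
      have hz : SpecialLinearGroup.toGL ((h * w σ * k)⁻¹ * w τ) ∈ blockGL F (lab β hβ) := by
        change ((h * w σ * k)⁻¹ * w τ).1.BlockTriangular _
        rw [← hr]
        exact blockTriangular_diagonal _
      refine ⟨_, hh, _, mul_mem (mul_mem (mul_mem (diagAt_mem (lab β hβ) 0 (c σ)) hk) hz)
        (inv_mem (diagAt_mem (lab β hβ) 0 (c τ))), ?_⟩
      simp only [map_mul, map_inv, hw]
      group

/-- Let F be a finite field of characteristic p and consider the projective special linear group PSL_n(F) with n ≥ 2. This group has an irreducible complex character χ whose degree equals the order of a Sylow p-subgroup (namely q^(n(n−1)/2) when #F = q) and whose restriction to any Sylow p-subgroup P is the regular character of P: χ vanishes on the non-identity elements of P. (This is the Steinberg character.) -/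
theorem result {F : Type*} [Field F] [Fintype F] (p : ℕ) [Fact p.Prime] [CharP F p] (n : ℕ) (hn : 2 ≤ n) : ∃ χ : Matrix.ProjectiveSpecialLinearGroup (Fin n) F → ℂ, Cfsg.IsIrrCharacter (Matrix.ProjectiveSpecialLinearGroup (Fin n) F) χ ∧ ∀ P : Sylow p (Matrix.ProjectiveSpecialLinearGroup (Fin n) F), χ 1 = Nat.card P ∧ ∀ x : Matrix.ProjectiveSpecialLinearGroup (Fin n) F, x ∈ P → x ≠ 1 → χ x = 0 := by
  classical
  have : NeZero n := ⟨by omega⟩
  have := Fintype.ofFinite (ProjectiveSpecialLinearGroup (Fin n) F)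
  have hidx : ∀ α : Fin n → ℕ, ∑ i, α i = n →
      (pbar n F α).index * ∏ i, qfact (Fintype.card F) (α i) = qfact (Fintype.card F) n :=
    fun α hα => by rw [index_pbar, index_parabolicGL_mul α F hα]
  have hirr := isIrrCharacter_altChar (pbar n F) (Fintype.card F) Fintype.card_pos
    (fun _ _ => sum_pbar) hidx (ν := fun _ => 1) monotone_const (by simp)
  have h1 := altChar_one_steinberg (pbar n F) (Fintype.card F) Fintype.card_pos hidx
  refine ⟨_, hirr, fun P => ?_⟩
  have hP : Nat.card P = Fintype.card F ^ (n * (n - 1) / 2) := by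
    obtain ⟨Q⟩ : Nonempty (Sylow p (SpecialLinearGroup (Fin n) F)) := inferInstance
    have h3 : ¬ p ∣ Nat.card (Subgroup.center (SpecialLinearGroup (Fin n) F)) := by
      rw [card_center_sl, Nat.card_eq_fintype_card]
      intro h
      obtain ⟨k, -, hk⟩ := FiniteField.card F p
      have h4 : p ∣ Fintype.card F := hk ▸ dvd_pow_self p k.ne_zero
      have h5 := (Nat.dvd_sub_iff_right Fintype.one_lt_card.le h4).1 (h.trans (Nat.gcd_dvd_right _ _))
      exact (Fact.out : p.Prime).one_lt.ne' (Nat.dvd_one.1 h5)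
    rw [← card_sylow_char_sl p n Q, Sylow.card_eq_multiplicity, Sylow.card_eq_multiplicity,
      Subgroup.card_eq_card_quotient_mul_card_subgroup (Subgroup.center (SpecialLinearGroup (Fin n) F)),
      Nat.factorization_mul Nat.card_pos.ne' Nat.card_pos.ne', Finsupp.add_apply,
      Nat.factorization_eq_zero_of_not_dvd h3, add_zero]
  have h2 : altChar (pbar n F) (fun _ => 1) 1 = Nat.card P := by rw [h1, hP, Nat.cast_pow]
  refine ⟨h2, fun x hx hx1 => H29.eq_zero_of_pow_factorization_dvd (p := p) Fact.out hirr ?_ ?_⟩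
  · rw [H28.charDegree_eq h2, Sylow.card_eq_multiplicity]
  · obtain ⟨k, hk⟩ := (IsPGroup.iff_orderOf.1 P.isPGroup') ⟨x, hx⟩
    rw [Subgroup.orderOf_mk] at hk
    rcases k with _ | k
    · exact absurd (orderOf_eq_one_iff.1 (by simpa using hk)) hx1
    · rw [hk]; exact dvd_pow_self _ (by omega)

end Cfsg.Agent.S2544
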