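import Cfsg.Statements.S2556
import Cfsg.Agent.H72.AutSz
import Cfsg.Agent.H66.SzSylow

set_option autoImplicit false
open Cfsg

namespace Cfsg.Agent.S2556

/-- Let S be a Sylow 2-subgroup of the Suzuki group Sz(q), q = 2ⁿ with n = 2m + 1 ≥ 3 (realised as 4 × 4 matrices over the field with q elements). Then the largest normal 2-subgroup of the automorphism group of S is elementary abelian of order 2^(n²), and the automorphism group of S has order 2^(n²) · n · (q − 1). -/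
theorem result {S : Type*} [Group S] [Finite S] (m : ℕ) (hm : 1 ≤ m)
    {F : Type*} [Field F] [Fintype F] (hF : Fintype.card F = 2 ^ (2 * m + 1))
    (P : Sylow 2 ↥(Cfsg.Lie.Sz F (2 ^ (m + 1)))) (hS : Nonempty (S ≃* ↥(P : Subgroup ↥(Cfsg.Lie.Sz F (2 ^ (m + 1)))))) :
    Cfsg.IsElementaryAbelian 2 (Cfsg.pCore 2 (MulAut S)) ∧ Nat.card ↥(Cfsg.pCore 2 (MulAut S)) = 2 ^ ((2 * m + 1) ^ 2) ∧
      Nat.card (MulAut S) = 2 ^ ((2 * m + 1) ^ 2) * ((2 * m + 1) * (2 ^ (2 * m + 1) - 1)) := by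
  open H72.AS in
  have hT := H66.titsOf_isFin F hm hF
  obtain ⟨x, hx⟩ := (H66.modelB hT).sylow_eq hT P
  rw [hx] at hS
  generalize (H66.modelB hT).conj x = M at hS
  generalize H66.titsOf F m hF = T at hT M hS
  obtain ⟨e⟩ := hS
  haveI : CharP F 2 := charP_of_card_eq_prime_pow hF
  letI := ZMod.algebra F 2
  have hF' : Nat.card F = 2 ^ (2 * m + 1) := by rw [Nat.card_eq_fintype_card, hF]
  choose a b h using fun y : M.Q => M.mem_Q.1 y.2
  have k : ∀ c d, a ⟨_, M.u_mem_Q c d⟩ = c ∧ b ⟨_, M.u_mem_Q c d⟩ = d := fun c d =>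
    M.u_inj.1 (h ⟨_, M.u_mem_Q c d⟩).symm
  have mu : ∀ x y, a (x * y) = a x + a y ∧ b (x * y) = b x + b y + T.θ (a x) * a y := fun x y =>
    M.u_inj.1 (by rw [← h, ← M.u_mul, ← h, ← h]; rfl)
  let C : Co (gal T.θ) ⊤ M.Q :=
    { a := a, b := b, ma := fun x y => (mu x y).1, mb := fun x y => (mu x y).2
      ext := fun x y h1 h2 => Subtype.ext (by rw [h, h, h1, h2])
      sur := fun c => ⟨_, (k c 0).1⟩
      memK := fun _ _ => trivial
      exK := fun c _ => ⟨_, k 0 c⟩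
      nrm := fun c _ => hT.norm_surj c
      cl := fun _ _ _ => ⟨_, k _ _⟩ }
  have := (C.comap e).main (fun h => by
    obtain ⟨t, h0, h1⟩ := hT.exists_ne
    have h2 : ∀ x, T.θ x = x := DFunLike.congr_fun h
    have := T.sq t
    rw [h2, h2, sq] at this
    exact h1 ((mul_eq_left₀ h0).1 this.symm)) fun h => by
    have h2 := orderOf_dvd_natCard (gal T.θ)
    rw [card_gal, rank_eq hF'] at h2
    rw [orderOf_eq_one_iff.1 (Nat.eq_one_of_dvd_coprimes (Nat.Coprime.pow_left 2 (m := 2) (by simp))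
      (orderOf_dvd_of_pow_eq_one h) h2), one_pow]
  rwa [rank_eq hF', AddSubgroup.card_top, hF', ← pow_mul, ← sq] at this

end Cfsg.Agent.S2556
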