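import Cfsg.Statements.S2557
import Cfsg.Agent.H58.W2F

set_option autoImplicit false
open Cfsg

namespace Cfsg.Agent.S2557

/-- The number of conjugacy classes of Sp(2n,q), q even: for F a finite field of even order q and n ≥ 1, the number k of conjugacy classes of Sp(2n,F) satisfies q^n ≤ k ≤ 15.2·q^n. -/
theorem result {F : Type*} [Field F] [Fintype F] (heven : Even (Fintype.card F)) (n : ℕ) (hn : 1 ≤ n) :
    Fintype.card F ^ n ≤ Nat.card (ConjClasses (Matrix.symplecticGroup (Fin n) F)) ∧
      5 * Nat.card (ConjClasses (Matrix.symplecticGroup (Fin n) F)) ≤ 76 * Fintype.card F ^ n := by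
  obtain ⟨p, hp⟩ := CharP.exists F
  have := Fact.mk (CharP.char_is_prime F p)
  refine ⟨(Cfsg.Agent.S2385.result rfl p n).symm.trans_le (Finite.card_subtype_le _), ?_⟩
  have h2 : (2 : F) = 0 := by
    have h := FiniteField.even_card_iff_char_two.2 (Nat.even_iff.1 heven)
    have := ringChar.Nat.cast_ringChar (R := F)
    rw [h] at this
    exact_mod_cast this
  rw [← Nat.card_eq_fintype_card (α := F)]
  exact H58.W2.classes_sp (Γ := Matrix.symplecticGroup (Fin n) F) (fun g => Matrix.toLin' g.1) h2
    (H53.isSF_spB (Fin n) F) H54.spB_isAlt H53.inv_sp (fun a b => (H53.isConj_sp_iff_iso a b).2)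
    (by simp [two_mul])

end Cfsg.Agent.S2557
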