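import Cfsg.Statements.S2559
import Cfsg.Agent.H58.W2G

set_option autoImplicit false
open Cfsg

namespace Cfsg.Agent.S2559

/-- The number of conjugacy classes of the full orthogonal groups O⁺(2n,q) and O⁻(2n,q), q even, 2n ≥ 4: for F a finite field of even order q and n ≥ 2, the number k of conjugacy classes of the isometry group of the hyperbolic quadratic form Σ xᵢyᵢ on F^{2n}, and likewise of the elliptic form Σ xᵢyᵢ + (z₁² + a z₁z₂ + b z₂²) with anisotropic binary part, satisfies q^n/2 ≤ k ≤ 15·q^n. -/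
theorem result {F : Type*} [Field F] [Fintype F] (heven : Even (Fintype.card F)) (n : ℕ) (hn : 2 ≤ n) (a b : F) (hab : ∀ z₁ z₂ : F, z₁ ^ 2 + a * z₁ * z₂ + b * z₂ ^ 2 = 0 → z₁ = 0 ∧ z₂ = 0) :
    (Fintype.card F ^ n ≤ 2 * Nat.card (ConjClasses ↥(Cfsg.isometryGroup F (Cfsg.quadFormPlus n F))) ∧
      Nat.card (ConjClasses ↥(Cfsg.isometryGroup F (Cfsg.quadFormPlus n F))) ≤ 15 * Fintype.card F ^ n) ∧
    (Fintype.card F ^ n ≤ 2 * Nat.card (ConjClasses ↥(Cfsg.isometryGroup F (Cfsg.quadFormMinus (n - 1) F a b))) ∧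
      Nat.card (ConjClasses ↥(Cfsg.isometryGroup F (Cfsg.quadFormMinus (n - 1) F a b))) ≤ 15 * Fintype.card F ^ n) := by
  have h2 : (2 : F) = 0 := by
    have h := FiniteField.even_card_iff_char_two.2 (Nat.even_iff.1 heven)
    have := ringChar.Nat.cast_ringChar (R := F)
    rw [h] at this
    exact_mod_cast this
  rw [H53.card_classes_congr (H56.toO _ (H58.coe_qPlus n F)),
    H53.card_classes_congr (H56.toO _ (H58.coe_qMinus (n - 1) F a b)), ← Nat.card_eq_fintype_card]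
  have h3 : Module.finrank F (Fin n ⊕ Fin n → F) = 2 * n := by simp [two_mul]
  have h4 : Module.finrank F ((Fin (n - 1) ⊕ Fin (n - 1)) ⊕ Fin 2 → F) = 2 * n := by simp; omega
  exact ⟨⟨H58.W2.le_classes_O h2 (H58.qPlus_nondeg n F) hn h3,
    H58.W2.classes_O_le h2 (H58.qPlus_nondeg n F) h3⟩,
    H58.W2.le_classes_O h2 (H58.qMinus_nondeg _ hab) hn h4,
    H58.W2.classes_O_le h2 (H58.qMinus_nondeg _ hab) h4⟩

end Cfsg.Agent.S2559
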