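import Cfsg.Statements.S2648
import Cfsg.Agent.H30.DerLen
import Cfsg.Agent.S0261
import Cfsg.Agent.H54.SpIso
import Cfsg.Agent.H54.SpMat

set_option autoImplicit false
open Cfsg

namespace Cfsg.Agent.S2648

/-- Let q be odd, F a field with q elements and n ≥ 1. A Sylow 2-subgroup R of the symplectic group Sp_{2n}(F) has derived length exactly k + 1, where 2^k ≤ 2n < 2^{k+1}: the (k+1)-st term of its derived series is trivial and the k-th is not. -/
theorem result {F : Type*} [Field F] [Fintype F] [DecidableEq F] (q : ℕ) (hF : Fintype.card F = q) (hq : Odd q) (n : ℕ) (hn : 1 ≤ n) (R : Sylow 2 ↥(Matrix.symplecticGroup (Fin n) F)) : derivedSeries ↥(R : Subgroup ↥(Matrix.symplecticGroup (Fin n) F)) (Nat.log 2 (2 * n) + 1) = ⊥ ∧ derivedSeries ↥(R : Subgroup ↥(Matrix.symplecticGroup (Fin n) F)) (Nat.log 2 (2 * n)) ≠ ⊥ := by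
  subst hF
  have h0 : ((2 : ℕ) : F) ≠ 0 := fun h => by
    haveI := (CharP.charP_iff_prime_eq_zero Nat.prime_two).2 h
    exact Nat.not_even_iff_odd.2 hq (Nat.even_iff.2 (FiniteField.even_card_of_char_two (ringChar.eq F 2)))
  refine ⟨H30.DL.up_gl h0 H30.DL.small_one (fun _ => le_rfl) R.isPGroup'
    ((Matrix.symplecticGroup (Fin n) F).subtype.comp (Subgroup.subtype _)) (fun _ _ e => Subtype.ext (Subtype.ext e))
    (by simpa [two_mul] using Nat.lt_pow_succ_log_self one_lt_two (2 * n)), ?_⟩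
  obtain ⟨P⟩ : Nonempty (Sylow 2 (Matrix.SpecialLinearGroup (Fin 2) F)) := inferInstance
  obtain ⟨k, hk, ⟨e⟩⟩ := Cfsg.Agent.S0261.result hq P
  have g : H30.DL.Good F 2 True 1 2 := ⟨P, inferInstance, inferInstance, Fin 2 → F, inferInstance,
    inferInstance, inferInstance, (Matrix.toLinAlgEquiv' : Matrix (Fin 2) (Fin 2) F ≃ₐ[F] _).toMonoidHom.comp
      (Matrix.SpecialLinearGroup.coeMonoidHom.comp (Subgroup.subtype _)), P.isPGroup', fun h => by
      have := h.le (Subgroup.commutator_mem_commutator (Subgroup.mem_top (e.symm (.a 1)))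
        (Subgroup.mem_top (e.symm (.xa 0))))
      rw [Subgroup.mem_bot, ← map_commutatorElement, map_eq_one_iff _ e.symm.injective,
        commutatorElement_eq_one_iff_mul_comm, QuaternionGroup.a_mul_xa, QuaternionGroup.xa_mul_a,
        QuaternionGroup.xa.injEq, sub_eq_iff_eq_add, zero_add, one_add_one_eq_two, eq_comm] at this
      have := Nat.le_of_dvd two_pos ((ZMod.natCast_eq_zero_iff 2 _).1 (by exact_mod_cast this))
      have := Nat.one_lt_two_pow (show k ≠ 0 by omega)
      omega, by simp,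
    fun _ _ e => Subtype.ext (Subtype.ext (Matrix.toLinAlgEquiv'.injective e)), fun _ =>
      ⟨Matrix.toBilin' !![0, 1; -1, 0], fun u hu => by
        have h1 := hu ![1, 0]
        have h2 := hu ![0, 1]
        simp [Matrix.toBilin'_apply, Fin.sum_univ_two] at h1 h2
        ext i; fin_cases i <;> simp [h1, h2],
      fun u => by simp [Matrix.toBilin'_apply, Fin.sum_univ_two]; ring, fun g u v => by
        have := g.1.2
        rw [Matrix.det_fin_two] at this
        simp [Matrix.toBilin'_apply, Fin.sum_univ_two, Matrix.toLinAlgEquiv'_apply, Matrix.mulVec, dotProduct]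
        linear_combination (u 0 * v 1 - u 1 * v 0) * this⟩⟩
  have le : 2 ^ Nat.log 2 n ≤ n := Nat.pow_log_le_self 2 (by omega)
  obtain ⟨D, _, _, V, _, _, _, ρ, a1, a2, a3, a4, a5⟩ := (g.iter (Nat.log 2 n)).pad
    (Fin (n - 2 ^ Nat.log 2 n) ⊕ Fin (n - 2 ^ Nat.log 2 n) → F) fun _ =>
      ⟨H54.spB _ F, H54.spB_nondegenerate.1, H54.spB_isAlt⟩
  obtain ⟨B, b1, b2, b3⟩ := a5 trivial
  obtain ⟨φ⟩ := H54.nonempty_isom_equiv_sp (b2.isRefl.nondegenerate_iff_separatingLeft.2 b1) b2 (Fin n)
    (by simp at a3 ⊢; omega)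
  rw [mul_comm, Nat.log_mul_base one_lt_two (by omega), add_comm]
  let ψ : D →* H54.Isom B := ((LinearMap.GeneralLinearGroup.generalLinearEquiv F V).toMonoidHom.comp
    ρ.toHomUnits).codRestrict _ fun g => b3 g
  exact H30.DL.low a1 (φ.toMonoidHom.comp ψ) (φ.injective.comp fun x y e => a4 (LinearMap.ext fun v =>
    LinearEquiv.congr_fun (congrArg Subtype.val e) v)) R a2

end Cfsg.Agent.S2648
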