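import Cfsg.Statements.S2688
import Cfsg.Agent.Base
import Cfsg.Agent.H55.LB7
import Cfsg.Agent.H91.LBCore
import Cfsg.Agent.H46.LBRed
import Cfsg.Agent.H46.LBLang

set_option autoImplicit false
open Cfsg

namespace Cfsg.Agent.S2688

/-- A criterion for the failure of local balance in almost simple groups whose socle is one of the Chevalley groups of type G₂, B₂, D₄, F₄, E₆, E₇, E₈ (realised as the explicit matrix group generated by root elements over a finite field F of characteristic r, assumed simple). Let A be a group of automorphisms of that group K containing all inner automorphisms, and β ∈ A an automorphism of prime order p ≠ r that is not inner-diagonal (not induced by conjugation by an element of K times a diagonal automorphism). Then the largest normal subgroup of C_A(β) of order prime to p is nontrivial if and only if β is the composite of an inner-diagonal automorphism with an entrywise field automorphism and p does not divide the number of fixed points of β on K. -/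
theorem result (D : Cfsg.Lie.ChevalleyDatum)
    (hD : D ∈ [Cfsg.Lie.chevG2, Cfsg.Lie.chevB2, Cfsg.Lie.chevD4, Cfsg.Lie.chevF4, Cfsg.Lie.chevE6, Cfsg.Lie.chevE7, Cfsg.Lie.chevE8])
    (F : Type*) [Field F] [Fintype F] (r : ℕ) [Fact r.Prime] [CharP F r] (hK : IsSimpleGroup ↥(D.group F))
    (𝒢 : Subgroup (MulAut (↥(D.group F)))) (hinn : ∀ k : ↥(D.group F), MulAut.conj k ∈ 𝒢)
    (p : ℕ) [Fact p.Prime] (hpr : p ≠ r) (β : MulAut (↥(D.group F))) (hβ : β ∈ 𝒢) (hord : orderOf β = p)
    (hnot : ¬ D.IsInnerDiagonalAutOn (D.group F) β) :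
    Cfsg.pPrimeCore p ↥(𝒢 ⊓ Subgroup.centralizer {β}) ≠ ⊥ ↔
      ((∃ γ φ : MulAut ↥(D.group F), D.IsInnerDiagonalAutOn (D.group F) γ ∧ Cfsg.Lie.IsEntrywiseFieldAutOn (D.group F) φ ∧
          β = φ.trans γ) ∧
        Nat.Coprime p (Nat.card ↥(MonoidHom.eqLocus β.toMonoidHom (MonoidHom.id (↥(D.group F)))))) := by
  exact H91.LB.s2688_of H46.LB.jobLang (fun _ hD _ _ => H91.LB.core_of H46.LB.jobLang
    H46.LB.jobRed2 H46.LB.jobRed3 H55.LB.jobU3 hD) D hD F r 𝒢 hinn p hpr β hord hnot

end Cfsg.Agent.S2688
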