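import Cfsg.Statements.S2738
import Cfsg.Agent.Base
import Cfsg.Agent.H57.SLCard
import Cfsg.Agent.H57.SLGen

set_option autoImplicit false
open Cfsg

namespace Cfsg.Agent.S2738

/-- The special linear group SL(3, 4) has centre of order 3 and does not split over it: no subgroup is a complement to the centre (so SL(3, 4) is a non-split central extension of PSL(3, 4) by a group of order 3). -/
theorem result (F : Type*) [Field F] [Fintype F] (hF : Fintype.card F = 4) : Nat.card ↥(Subgroup.center (Matrix.SpecialLinearGroup (Fin 3) F)) = 3 ∧ ¬ ∃ K : Subgroup (Matrix.SpecialLinearGroup (Fin 3) F), Subgroup.IsComplement' (Subgroup.center (Matrix.SpecialLinearGroup (Fin 3) F)) K := by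
  have h1 : Nat.card ↥(Subgroup.center (Matrix.SpecialLinearGroup (Fin 3) F)) = 3 := by
    rw [H57.card_center_sl]; simp [hF]
  refine ⟨h1, fun ⟨K, hK⟩ => ?_⟩
  have h2 : K ⊔ Subgroup.center _ = ⊤ := by rw [sup_comm]; exact hK.sup_eq_top
  have hN : K.Normal := by
    refine ⟨fun x hx g => ?_⟩
    obtain ⟨⟨z, k⟩, rfl⟩ := hK.2 g
    have := Subgroup.mem_center_iff.1 z.2
    have e : (z : Matrix.SpecialLinearGroup (Fin 3) F) * k * x * ((z : Matrix.SpecialLinearGroup (Fin 3) F) * k)⁻¹ =
      k * x * (k : Matrix.SpecialLinearGroup (Fin 3) F)⁻¹ := by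
      rw [mul_inv_rev, ← mul_assoc, mul_assoc (z : Matrix.SpecialLinearGroup (Fin 3) F), mul_assoc (z : Matrix.SpecialLinearGroup (Fin 3) F), ← this, mul_inv_cancel_right]
    dsimp only
    rw [e]
    exact K.mul_mem (K.mul_mem k.2 hx) (K.inv_mem k.2)
  have h3 := Subgroup.Normal.commutator_le_of_self_sup_commutative_eq_top h2 inferInstance
  rw [H57.sl_commutator_eq_top_of_three_le (by simp), top_le_iff] at h3
  have h4 := hK.disjoint
  rw [h3, disjoint_top] at h4
  rw [h4] at h1
  simp at h1

end Cfsg.Agent.S2738
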