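import Cfsg.Statements.S2896
import Cfsg.Agent.Base
import Cfsg.Agent.H98.PIrr
import Cfsg.Agent.H14.FStar

set_option autoImplicit false
open Cfsg

namespace Cfsg.Agent.S2896

open Subgroup H98
open scoped commutatorElement


/-- Let p be a prime dividing the order of the finite group G, S a Sylow p-subgroup of G and X a subgroup of S. (i) If some nontrivial element z of the centre of X has F*(C_G(z)) = O_p(C_G(z)), then F*(N_G(X)) = O_p(N_G(X)). (ii) G has parabolic characteristic p if and only if F*(C_G(z)) = O_p(C_G(z)) for every nontrivial z ∈ Ω₁(Z(S)). (iii) If F*(C_G(z)) = O_p(C_G(z)) for every element z of S of order p, then G has local characteristic p. -/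
theorem result {G : Type*} [Group G] [Finite G] {p : ℕ} [Fact p.Prime] (hdiv : p ∣ Nat.card G) (S : Sylow p G) (X : Subgroup G) (hX : X ≤ (S : Subgroup G)) : (∀ z : G, z ≠ 1 → z ∈ X → (∀ x ∈ X, x * z = z * x) → Cfsg.generalizedFittingSubgroup ↥(Subgroup.centralizer ({z} : Set G)) = Cfsg.pCore p ↥(Subgroup.centralizer ({z} : Set G)) → Cfsg.generalizedFittingSubgroup ↥(Subgroup.normalizer (X : Set G)) = Cfsg.pCore p ↥(Subgroup.normalizer (X : Set G))) ∧ (Cfsg.IsOfParabolicCharacteristic p G ↔ ∀ z : G, z ≠ 1 → z ∈ Cfsg.omegaOne p ((S : Subgroup G) ⊓ Subgroup.centralizer ((S : Subgroup G) : Set G)) → Cfsg.generalizedFittingSubgroup ↥(Subgroup.centralizer ({z} : Set G)) = Cfsg.pCore p ↥(Subgroup.centralizer ({z} : Set G))) ∧ ((∀ z : G, z ∈ (S : Subgroup G) → orderOf z = p → Cfsg.generalizedFittingSubgroup ↥(Subgroup.centralizer ({z} : Set G)) = Cfsg.pCore p ↥(Subgroup.centralizer ({z} : Set G))) → Cfsg.IsOfLocalCharacteristic p G) := by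
  simp only [H14.fstar_eq_pCore_iff_centralizer, ← H98.charP_iff]
  have key : ∀ (X : Subgroup G) (z : G), IsPGroup p X → z ∈ X → z ∈ centralizer (X : Set G) →
      H98.CharP p (centralizer ({z} : Set G)) → H98.CharP p (normalizer (X : Set G)) := by
    intro X z h1 h2 h3 h4
    rw [← centralizer_zpowers, ← top_inf_eq (centralizer _)] at h4
    have := h4.normalizer_of_centralizer h1 (zpowers_le.mpr h2) le_top
      (le_centralizer_iff.mp (zpowers_le.mpr h3))
    rwa [top_inf_eq] at this
  refine ⟨fun z _ h1 h2 h3 => key X z (S.isPGroup'.to_le hX) h1 h2 h3, ?_, fun h => ⟨hdiv, fun T h1 h2 => ?_⟩⟩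
  · rw [parCharP_top_iff]
    constructor
    · intro h z h1 h2
      have := h.centralizer_elt (isSyl_sylow S) (oz_le _ h2) (oz_le_centralizer _ h2) h1
      rwa [top_inf_eq] at this
    · intro h
      exact parCharP_of_oz (isSyl_sylow S) fun z h1 h2 => by rw [top_inf_eq]; exact h z h2 h1
  · obtain ⟨g, -, hg⟩ := (isSyl_sylow S).exists_cj_le h1 le_top
    obtain ⟨z, hz, hz1⟩ := ((oz p (cj g T)).bot_or_exists_ne_one).resolve_left
      (oz_ne_bot (isPGroup_cj g h1) (by rwa [Ne, cj_eq_bot_iff]))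
    have hz' := mem_oz.mp hz
    have := (key _ z (isPGroup_cj g h1) hz'.1 hz'.2.1
      (h z (hg hz'.1) (orderOf_eq_prime hz'.2.2 hz1))).cj g⁻¹
    rw [cj_normalizer, cj_inv_cj] at this
    exact H98.charP_iff.mp this

end Cfsg.Agent.S2896
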