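import Cfsg.Statements.S2897
import Cfsg.Agent.Base
import Cfsg.Agent.H98.PIrr

set_option autoImplicit false
open Cfsg

namespace Cfsg.Agent.S2897

open Subgroup H98
open scoped commutatorElement


/-- Let p be a prime dividing the order of the finite group G, suppose G has parabolic characteristic p, let S be a Sylow p-subgroup of G and G₁ a normal subgroup of G. If Ω₁(Z(S ∩ G₁)) is nontrivial and contained in Ω₁(Z(S)), then G₁ has parabolic characteristic p. -/
theorem result {G : Type*} [Group G] [Finite G] {p : ℕ} [Fact p.Prime] (hdiv : p ∣ Nat.card G) (hG : Cfsg.IsOfParabolicCharacteristic p G) (S : Sylow p G) (G₁ : Subgroup G) [G₁.Normal] (hne : Cfsg.omegaOne p (((S : Subgroup G) ⊓ G₁) ⊓ Subgroup.centralizer (((S : Subgroup G) ⊓ G₁ : Subgroup G) : Set G)) ≠ ⊥) (hle : Cfsg.omegaOne p (((S : Subgroup G) ⊓ G₁) ⊓ Subgroup.centralizer (((S : Subgroup G) ⊓ G₁ : Subgroup G) : Set G)) ≤ Cfsg.omegaOne p ((S : Subgroup G) ⊓ Subgroup.centralizer ((S : Subgroup G) : Set G))) : Cfsg.IsOfParabolicCharacteristic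 p ↥G₁ := by
  have hs : SubN G₁ ⊤ := SubN.of_normal le_top (top_le_normalizer _)
  refine parCharP_iff.mpr (parCharP_of_oz ((isSyl_sylow S).inf_subN hs) fun z h1 h2 => ?_)
  exact ((parCharP_top_iff.mp hG).centralizer_elt (isSyl_sylow S) (oz_le _ (hle h1))
    (oz_le_centralizer _ (hle h1)) h2).subN (hs.inf_right _)

end Cfsg.Agent.S2897
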