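import Cfsg.Statements.S2898
import Cfsg.Agent.Base
import Cfsg.Agent.H98.PIrr
import Cfsg.Agent.H2.PrimeCore

set_option autoImplicit false
open Cfsg

namespace Cfsg.Agent.S2898

open Subgroup H98
open scoped commutatorElement


/-- Let G be a finite group of even order with parabolic characteristic 2. If the centre of G ⧸ O(G) is trivial, then O(G) = 1. -/
theorem result {G : Type*} [Group G] [Finite G] (h2 : 2 ∣ Nat.card G) (hG : Cfsg.IsOfParabolicCharacteristic 2 G) [hN : (Cfsg.oddCore G).Normal] (hZ : Subgroup.center (G ⧸ Cfsg.oddCore G) = ⊥) : Cfsg.oddCore G = ⊥ := by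
  haveI : Fact (Nat.Prime 2) := ⟨Nat.prime_two⟩
  by_contra hne
  obtain ⟨S, hS⟩ := exists_isSyl 2 (⊤ : Subgroup G)
  have hpar := parCharP_top_iff.mp hG
  set O := Cfsg.oddCore G with hO
  have hodd : (Nat.card O).Coprime 2 := (H2.odd_card_oddCore G).coprime_two_right
  have h1 : ∀ z ∈ oz 2 S, z ≠ 1 → O ⊓ centralizer {z} = ⊥ := by
    intro z hz hz1
    have hc := hpar.centralizer_elt hS (oz_le _ hz) (oz_le_centralizer _ hz) hz1
    rw [top_inf_eq] at hc
    have hr : res 2 (O ⊓ centralizer {z}) = O ⊓ centralizer {z} :=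
      res_eq_self_of_coprime (Nat.Coprime.coprime_dvd_left (card_dvd_of_le inf_le_left) hodd)
    rw [← hr]
    refine hc.res_eq_bot inf_le_right ?_
    rw [hr, ← commutator_eq_bot_iff_le_centralizer, eq_bot_iff]
    have a : ⁅O ⊓ centralizer {z}, Cfsg.pCoreOf 2 (centralizer {z})⁆ ≤ O ⊓ Cfsg.pCoreOf 2 (centralizer {z}) :=
      le_inf ((commutator_mono inf_le_left le_rfl).trans (commutator_le_left _ _))
        (commutator_le_right' (le_normalizer_pCoreOf_of_le inf_le_right))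
    refine a.trans (le_bot_iff.mpr ?_)
    rw [← res_eq_self_of_coprime (p := 2)
      (Nat.Coprime.coprime_dvd_left (card_dvd_of_le (inf_le_left : O ⊓ _ ≤ O)) hodd)]
    exact res_eq_bot_of_isPGroup (isPGroup_pCoreOf _).to_inf_right
  have h2' : ∀ z : G, z ^ 2 = 1 → O ⊓ centralizer {z} = ⊥ → ∀ x ∈ O, z * x * z⁻¹ = x⁻¹ := by
    intro z hz h x hx
    have hinj : Function.Injective fun y : O => (⟨y * (z * y⁻¹ * z⁻¹),
        mul_mem y.2 (hN.conj_mem _ (inv_mem y.2) z)⟩ : O) := by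
      intro a b hab
      have e : (a : G) * (z * (a : G)⁻¹ * z⁻¹) = b * (z * (b : G)⁻¹ * z⁻¹) := congrArg Subtype.val hab
      have : (b : G)⁻¹ * a ∈ O ⊓ centralizer {z} := mem_inf.mpr ⟨mul_mem (inv_mem b.2) a.2, by
        rw [mem_centralizer_singleton_iff]
        calc (b : G)⁻¹ * a * z = (b : G)⁻¹ * (a * (z * (a : G)⁻¹ * z⁻¹)) * z * a := by group
          _ = _ := by rw [e]; group⟩
      rw [h, mem_bot, inv_mul_eq_one] at this
      exact Subtype.ext this.symm
    obtain ⟨y, hy⟩ := (Finite.injective_iff_surjective.mp hinj) ⟨x, hx⟩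
    have e : (y : G) * (z * y⁻¹ * z⁻¹) = x := congrArg Subtype.val hy
    have hz' : z⁻¹ = z := by rw [inv_eq_iff_mul_eq_one, ← pow_two, hz]
    rw [← e]
    calc z * ((y : G) * (z * y⁻¹ * z⁻¹)) * z⁻¹ = z * y * z * y⁻¹ * (z ^ 2)⁻¹ := by group
      _ = _ := by rw [hz, mul_inv_rev, mul_inv_rev, mul_inv_rev, inv_inv, hz']; simp [mul_assoc]
  have hSne : S ≠ ⊥ := fun e => (hS.eq_bot_iff.mp e) (by rwa [card_top])
  have hC : S ⊓ centralizer (O : Set G) = ⊥ := by
    by_contra e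
    obtain ⟨z, hz, hz1⟩ := ((_ ⊓ oz 2 S).bot_or_exists_ne_one).resolve_left
      (inf_oz_ne_bot hS.isPGroup inf_le_left
        (le_normalizer_inf le_normalizer (le_normalizer_of_normal' _ _)) e)
    have := h1 z hz.2 hz1
    rw [inf_of_le_left] at this
    · exact hne this
    · intro x hx
      rw [mem_centralizer_singleton_iff]
      exact hz.1.2 x hx
  have hC2 : centralizer (O : Set G) ≤ O := by
    have := (hS.inf_of_le_normalizer le_top (le_normalizer_of_normal' _ (centralizer (O : Set G)))).eq_bot_iff.mp hC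
    exact H2.le_oddCore (Nat.odd_iff.mpr (Nat.two_dvd_ne_zero.mp this))
  obtain ⟨z, hz, hz1⟩ := ((oz 2 S).bot_or_exists_ne_one).resolve_left (oz_ne_bot hS.isPGroup hSne)
  have hz2 := (mem_oz.mp hz).2.2
  have hinv := h2' z hz2 (h1 z hz hz1)
  have : (z : G ⧸ O) ∈ center (G ⧸ O) := by
    rw [mem_center_iff]
    intro q
    obtain ⟨g, rfl⟩ := QuotientGroup.mk_surjective q
    rw [← QuotientGroup.mk_mul, ← QuotientGroup.mk_mul, QuotientGroup.eq]
    refine hC2 fun x hx => ?_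
    have a := hinv _ (hN.conj_mem _ (inv_mem hx) g)
    have b := hinv _ hx
    have hz' : z⁻¹ = z := by rw [inv_eq_iff_mul_eq_one, ← pow_two, hz2]
    have c : z⁻¹ * x⁻¹ * z = x := by rw [← b]; group
    have a' : z * g * x⁻¹ = g * x * g⁻¹ * z * g := by
      calc z * g * x⁻¹ = z * (g * x⁻¹ * g⁻¹) * z⁻¹ * z * g := by group
        _ = _ := by rw [a]; group
    have b' : x * z⁻¹ = z⁻¹ * x⁻¹ := by rw [← b]; group
    calc x * ((g * z)⁻¹ * (z * g)) = (x * z⁻¹) * g⁻¹ * z * g := by group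
      _ = z⁻¹ * g⁻¹ * (g * x⁻¹ * g⁻¹ * z * g) := by rw [b']; group
      _ = z⁻¹ * g⁻¹ * (g * x⁻¹ * g⁻¹ * (z * g * x⁻¹) * x) := by group
      _ = _ := by rw [a']; group
  rw [hZ, mem_bot, QuotientGroup.eq_one_iff] at this
  have h3 : z ∈ O ⊓ centralizer {z} := ⟨this, mem_centralizer_singleton_iff.mpr rfl⟩
  rw [h1 z hz hz1] at h3
  exact hz1 h3

end Cfsg.Agent.S2898
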