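import Cfsg.Statements.S2905
import Cfsg.Agent.H96.PMin
import Cfsg.Agent.H18.Subnormal

set_option autoImplicit false
open Cfsg

namespace Cfsg.Agent.S2905

open Subgroup H98 H96

/-- Let P be a finite p-minimal group (a Sylow p-subgroup S is not normal and lies in a unique maximal subgroup M of P) and let F be the normal core of M. Then: every subnormal subgroup N of P contained in M satisfies N ∩ S ≤ O_p(P); if O^p(P) has a normal Sylow p-subgroup then the order of P has at most two prime divisors; every normal subgroup N of P either contains O^p(P) or is contained in F; and O^p(P)F ⧸ F is a minimal normal subgroup of P ⧸ F. -/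
theorem result {P : Type*} [Group P] [Finite P] {p : ℕ} [Fact p.Prime] (hP : Cfsg.IsPMinimal p P) (S : Sylow p P) (M : Subgroup P) (hM : IsCoatom M) (hSM : (S : Subgroup P) ≤ M) [hF : M.normalCore.Normal] : (∀ N : Subgroup P, N.IsSubnormal → N ≤ M → N ⊓ (S : Subgroup P) ≤ Cfsg.pCore p P) ∧ ((∀ T : Sylow p ↥(Cfsg.pResidual p P), (T : Subgroup ↥(Cfsg.pResidual p P)).Normal) → (Nat.card P).primeFactors.card ≤ 2) ∧ (∀ N : Subgroup P, N.Normal → Cfsg.pResidual p P ≤ N ∨ N ≤ M.normalCore) ∧ (∀ N : Subgroup P, N.Normal → M.normalCore ≤ N → N ≤ Cfsg.pResidual p P ⊔ M.normalCore → N = M.normalCore ∨ N = Cfsg.pResidual p P ⊔ M.normalCore) ∧ M.normalCore < Cfsg.pResidual p P ⊔ M.normalCore := by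
  have hT := isSyl_sylow S
  have hU := umax_top (hP S).2 hM hSM
  have hF' : ⊤ ≤ normalizer (M.normalCore : Set P) := (normalizer_eq_top _).ge
  have h3 : ∀ N : Subgroup P, N.Normal → pResidual p P ≤ N ∨ N ≤ M.normalCore := by
    intro N hN
    by_cases h : N ≤ M
    · exact Or.inr (normal_le_normalCore.2 h)
    · left
      rw [← res_top]
      exact hU.res_le S.isPGroup' le_top h (le_top.trans (normalizer_eq_top N).ge)
  have hres : ¬ pResidual p P ≤ M := by rw [← res_top]; exact hU.res_not_le hT
  refine ⟨fun N hN hNM => ?_, fun hcl => ?_, h3, fun N hN h1 h2 => ?_,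
    right_lt_sup.2 fun h => hres (h.trans M.normalCore_le)⟩
  · obtain ⟨K, ⟨h1, h2, h4⟩, hmax⟩ := WellFounded.has_min (wellFounded_gt (α := Subgroup P))
      {K | N ≤ K ∧ K ≤ M ∧ K.IsSubnormal} ⟨N, le_rfl, hNM, hN⟩
    have h5 : (S : Subgroup P) ≤ normalizer (K : Set P) := by
      intro s hs
      refine mem_normalizer_of_cj_le ?_
      by_contra h6
      refine hmax (K ⊔ cj s K) ⟨h1.trans le_sup_left, sup_le h2 (cj_le_of_le_of_mem h2 (hSM hs)),
        H18.isSubnormal_sup h4 ?_⟩ (left_lt_sup.2 h6)
      have := (subN_top_iff.2 h4).cj s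
      rwa [cj_top, subN_top_iff] at this
    have h6 : ⊤ ≤ normalizer (K : Set P) := by
      rcases IsSubnormal.iff_eq_top_or_exists.1 h4 with h7 | ⟨K₁, h7, h8, h9⟩
      · exact absurd (h7 ▸ h2) hU.not_le
      · refine hU.le_of_not_inf_le h5 fun h10 => hmax K₁ ⟨h1.trans h7.le, ?_, h8⟩ h7
        exact (le_inf le_top ((normal_subgroupOf_iff_le_normalizer h7.le).1 h9)).trans h10
    rw [← pCoreOf_top, inf_comm]
    exact (inf_le_inf_left _ h1).trans (hU.inf_le_pCoreOf hT h2 h6)
  · set R := pResidual p P with hR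
    have hRn : R.Normal := pResidual_normal'
    have hRn' : ⊤ ≤ normalizer (R : Set P) := (normalizer_eq_top _).ge
    have hSR := hT.inf_of_le_normalizer le_top (le_top.trans hRn')
    set Q := (S : Subgroup P) ⊓ R with hQ
    have hQn : R ≤ normalizer (Q : Set P) := by
      obtain ⟨X, hX⟩ := hSR.exists_sylow
      rw [← normal_subgroupOf_iff_le_normalizer inf_le_right, ← hX]
      exact hcl X
    have hQe : Q = pCoreOf p R := hSR.eq_pCoreOf hQn
    have hQn' : ⊤ ≤ normalizer (Q : Set P) := hQe ▸ le_normalizer_pCoreOf hRn'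
    by_contra hc
    apply hres
    have key : ∀ t : ℕ, t.Prime → ¬ t ∣ M.relIndex R := by
      intro t ht
      have : Fact t.Prime := ⟨ht⟩
      obtain ⟨X, hX⟩ := exists_isSyl t R
      have h1 := hX.frattini le_top hRn'
      set K := normalizer ((X ⊔ Q : Subgroup P) : Set P) with hK
      have h2 : K ⊔ R = ⊤ := top_le_iff.1 (h1.ge.trans (sup_le_sup_right (inf_le_right.trans
        (H98.le_normalizer_sup le_rfl (le_top.trans hQn'))) _))
      have h4 : ¬ p ∣ K.relIndex ⊤ := by
        rw [← h2, relIndex_sup_of_le_normalizer (le_top.trans hRn')]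
        exact fun h5 => hSR.not_dvd_relIndex (h5.trans
          (relIndex_dvd_of_le_left _ (le_sup_right.trans le_normalizer)))
      obtain ⟨Y, hY⟩ := exists_isSyl p K
      obtain ⟨g, -, e⟩ := (isSyl_of_not_dvd hY le_top h4).exists_cj_eq hT
      have hX' := hX.cj_of_mem_normalizer (hRn' (mem_top g))
      have h5 : (S : Subgroup P) ≤ normalizer ((cj g X ⊔ Q : Subgroup P) : Set P) := by
        rw [← cj_eq_self (hQn' (mem_top g)), ← cj_sup, ← cj_normalizer, ← e]
        exact cj_mono g hY.le
      rcases hU.uniq (S ⊔ (cj g X ⊔ Q)) le_sup_left le_top with h6 | h6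
      · exact fun h7 => hX'.not_dvd_relIndex (h7.trans
          (relIndex_dvd_of_le_left _ ((le_sup_left.trans le_sup_right).trans h6)))
      · exfalso
        apply hc
        have h7 := H12.card_sup_mul_card_inf h5
        have h8 := H12.card_sup_mul_card_inf (A := cj g X) (le_top.trans hQn')
        rw [h6, card_top] at h7
        obtain ⟨a, ha⟩ := IsPGroup.iff_card.1 S.isPGroup'
        obtain ⟨b, hb⟩ := IsPGroup.iff_card.1 hSR.isPGroup
        obtain ⟨c, hc'⟩ := IsPGroup.iff_card.1 hX'.isPGroup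
        have h9 : Nat.card P ∣ p ^ a * (t ^ c * p ^ b) := by
          rw [← ha, ← hb, ← hc', ← h8]
          exact (Dvd.intro _ h7).trans (mul_dvd_mul_left _ (Dvd.intro _ rfl))
        refine (Finset.card_le_card (t := {p, t}) fun r hr => ?_).trans Finset.card_le_two
        have hr' := Nat.prime_of_mem_primeFactors hr
        have h10 := (Nat.dvd_of_mem_primeFactors hr).trans h9
        simp only [hr'.dvd_mul, Finset.mem_insert, Finset.mem_singleton] at h10 ⊢
        rcases h10 with h10 | h10 | h10
        · exact Or.inl ((Nat.prime_dvd_prime_iff_eq hr' Fact.out).1 (hr'.dvd_of_dvd_pow h10))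
        · exact Or.inr ((Nat.prime_dvd_prime_iff_eq hr' ht).1 (hr'.dvd_of_dvd_pow h10))
        · exact Or.inl ((Nat.prime_dvd_prime_iff_eq hr' Fact.out).1 (hr'.dvd_of_dvd_pow h10))
    rw [← relIndex_eq_one]
    by_contra h1
    obtain ⟨t, ht, h2⟩ := Nat.exists_prime_and_dvd h1
    exact key t ht h2
  · rcases h3 N hN with h | h
    · exact Or.inr (le_antisymm h2 (sup_le h h1))
    · exact Or.inl (le_antisymm h h1)

end Cfsg.Agent.S2905
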