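import Cfsg.Statements.S2906
import Cfsg.Agent.Base
import Cfsg.Agent.H98.IsoP

set_option autoImplicit false
open Cfsg

namespace Cfsg.Agent.S2906

open Subgroup H98
open scoped commutatorElement


/-- Let P be a finite p-minimal group with O_p(P) = 1, S a Sylow p-subgroup of P and K a component of P. Then O^p(P) = F*(P) = E(P) is generated by the S-conjugates of K, and the subgroup K·N_S(K) is again p-minimal. -/
theorem result {P : Type*} [Group P] [Finite P] {p : ℕ} [Fact p.Prime] (hP : Cfsg.IsPMinimal p P) (hOp : Cfsg.pCore p P = ⊥) (S : Sylow p P) (K : Subgroup P) (hK : Cfsg.IsComponent K) : Cfsg.pResidual p P = Cfsg.generalizedFittingSubgroup P ∧ Cfsg.generalizedFittingSubgroup P = Cfsg.layer P ∧ Cfsg.layer P = ⨆ s : ↥(S : Subgroup P), K.map (MulAut.conj (s : P)).toMonoidHom ∧ Cfsg.IsPMinimal p ↥(K ⊔ ((S : Subgroup P) ⊓ Subgroup.normalizer (K : Set P))) := by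
  obtain ⟨hSn, hM⟩ := hP S
  obtain ⟨M, hM⟩ := H96.exists_umax_top hM
  have hS := isSyl_sylow S
  set T := (S : Subgroup P)
  have h0 : ∀ N : Subgroup P, ⊤ ≤ normalizer (N : Set P) → K ≤ N → ¬ p ∣ Nat.card N → N ≤ M :=
    fun N hn hKN hd => le_of_invSylP hS.isPGroup hd (le_top.trans hn) fun r hr Q h1 h2 => by
      haveI := Fact.mk hr
      haveI := h1.isPGroup.isNilpotent
      by_contra e
      refine not_solvable_of_comp hK (H := Q) ?_ inferInstance
      exact (res_eq_self_of_perfect (p := p) (H14.comp_perfect hK)).ge.trans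
        ((res_mono le_top).trans (hM.res_le hS.isPGroup le_top e h2))
  have h1 : ∀ N : Subgroup P, ⊤ ≤ normalizer (N : Set P) → K ≤ N → ¬ N ≤ M := fun N hn hKN e => by
    have hd : ¬ p ∣ Nat.card N := (hS.inf_of_le_normalizer le_top (le_top.trans hn)).eq_bot_iff.1
      (eq_bot_iff.2 ((hM.inf_le_pCoreOf hS e hn).trans (pCoreOf_top.trans hOp).le))
    refine H14.comp_not_le_centralizer hK (hKN.trans (le_of_invSylP hS.isPGroup hd (le_top.trans hn)
      fun r hr Q h1 h2 => le_centralizer_iff.1 (commutator_eq_bot_iff_le_centralizer.1 ?_)))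
    haveI := Fact.mk hr
    haveI := h1.isPGroup.isNilpotent
    refine H14.comp_commutator_solvable hK inferInstance (le_top.trans (ge_of_eq
      (hM.eq_of_not_le h2 le_top fun e' => hM.not_le ?_)))
    exact (h1.frattini le_top hn).ge.trans (sup_le (inf_le_right.trans e') e)
  have hE := H14.comp_le_layer hK
  have nX : ⊤ ≤ normalizer (ncl T K : Set P) := by
    refine (hM.sup_eq le_top (h1 _ le_normalizer_of_normal hE)).ge.trans
      (sup_le (le_normalizer_ncl _ _) (le_normalizer_iSup fun s => ?_))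
    exact H14.layer_le_normalizer_comp (H14.comp_map_conj hK s)
  have h2 : res p ⊤ ≤ ncl T K :=
    hM.res_le hS.isPGroup le_top (h1 _ nX (le_ncl _ _)) (le_normalizer_ncl _ _)
  have h3 : ncl T K ≤ layer P := ncl_le hE le_normalizer_of_normal
  have h4 : layer P ≤ res p ⊤ :=
    (res_eq_self_of_perfect (p := p) H14.layer_perfect).ge.trans (res_mono le_top)
  have h5 : generalizedFittingSubgroup P = layer P := sup_eq_left.2
    ((res_eq_self_of_coprime (coprime_card_of_le_fitting hOp le_rfl)).ge.trans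
      ((res_mono le_top).trans (h2.trans h3)))
  refine ⟨by rw [h5, ← res_top, le_antisymm (h2.trans h3) h4], h5, le_antisymm ((h4.trans h2).trans
    (ncl_le_iff.2 fun s hs => le_iSup_of_le ⟨s, hs⟩ le_rfl))
    (iSup_le fun s => H14.comp_le_layer (H14.comp_map_conj hK _)), ?_⟩
  have hKM : ¬ K ≤ M := fun e => h1 _ nX (le_ncl _ _) (ncl_le e (hM.le.trans le_normalizer))
  have hKs := hS.inf_subN (subN_top_iff.2 hK.1)
  set U := T ⊓ normalizer (K : Set P)
  have hKU : T ⊓ K ≤ U := inf_le_inf_left _ le_normalizer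
  have hU : IsSyl p U (K ⊔ U) := by
    refine isSyl_of_not_dvd_relIndex le_sup_right (hS.isPGroup.to_le inf_le_left) fun e => ?_
    rw [sup_comm, H96.relIndex_sup_of_le_normalizer inf_le_right] at e
    refine hKs.not_dvd_relIndex (e.trans (relIndex_dvd_of_le_left K hKU))
  refine (H96.isPMinimal_iff_umax hU).2 ⟨fun e => ?_, M ⊓ (K ⊔ U),
    le_inf (inf_le_left.trans hM.le) le_sup_right,
    inf_lt_right.2 fun e => hKM (le_sup_left.trans e), fun X e1 e2 => or_iff_not_imp_right.2 fun e3 =>
      le_inf ?_ e2⟩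
  · have h6 : T ⊓ K ≤ pCoreOf p K := le_pCoreOf hKs.isPGroup inf_le_right (by
      rw [show T ⊓ K = U ⊓ K from le_antisymm (le_inf hKU inf_le_right) (inf_le_inf_right _ inf_le_left)]
      exact le_normalizer_inf (le_sup_left.trans e) le_normalizer)
    have h7 := hKs.eq_bot_iff.1 (eq_bot_iff.2 (h6.trans
      ((SubNIn.pCoreOf_le (subN_top_iff.2 hK.1)).trans (pCoreOf_top.trans hOp).le)))
    haveI := H2.pPrimeCore_characteristic p P
    have h8 := H2.le_pPrimeCore_of_isSubnormal hK.1
      ((Nat.Prime.coprime_iff_not_dvd (Fact.out : p.Prime)).2 h7).symm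
    exact hKM (h8.trans (h0 _ le_normalizer_of_normal h8 (H2.not_dvd_card_pPrimeCore p P)))
  · have h6 : X = U ⊔ (K ⊓ X) := by
      rw [← sup_inf_of_le_left inf_le_right e1, sup_comm, inf_eq_right.2 e2]
    refine h6.le.trans (sup_le (inf_le_left.trans hM.le) ((le_ncl T _).trans ?_))
    by_contra e4
    refine e3 (le_antisymm e2 (sup_le (le_trans (le_of_perfect_of_le_sup_cent (H14.comp_perfect hK)
      inf_le_left (hE.trans (h4.trans ((hM.res_le hS.isPGroup le_top e4
        (le_normalizer_ncl _ _)).trans (ncl_le_iff.2 fun s hs => ?_))))) inf_le_right) e1))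
    rcases H14.comp_eq_or_commute (H14.comp_map_conj hK s) hK with e5 | e5
    · have h7 : s ∈ U := ⟨hs, cj_eq_self_iff.1 e5⟩
      exact (cj_eq_self (le_normalizer_inf inf_le_right (e1.trans le_normalizer) h7)).le.trans le_sup_left
    · exact (cj_mono s inf_le_left).trans
        (le_sup_of_le_right (commutator_eq_bot_iff_le_centralizer.1 e5))

end Cfsg.Agent.S2906
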