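import Cfsg.Statements.S2907
import Cfsg.Agent.H9.ExtraAut

set_option autoImplicit false
open Cfsg

namespace Cfsg.Agent.S2907

open scoped commutatorElement

/-- Let X be a finite semi-extraspecial p-group and x an element of X outside the centre. Then the index of C_X(x) in X equals the order of Z(X), and the commutators [x, y], y ∈ X, form exactly the centre Z(X). -/
theorem result {X : Type*} [Group X] [Finite X] {p : ℕ} [Fact p.Prime] (hX : Cfsg.IsSemiExtraspecial p X) (x : X) (hx : x ∉ Subgroup.center X) : (Subgroup.centralizer ({x} : Set X)).index = Nat.card ↥(Subgroup.center X) ∧ {z : X | ∃ y : X, z = x * y * x⁻¹ * y⁻¹} = (Subgroup.center X : Set X) := by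
  have hp : p.Prime := Fact.out
  have hc : ∀ a b : X, ⁅a, b⁆ ∈ Subgroup.center X := fun a b =>
    hX.1.2.2 ▸ H9.commutatorElement_mem_commutator a b
  let f : X →* X := MonoidHom.mk' (fun y => ⁅x, y⁆) fun a b => by
    rw [H9.commutatorElement_mul_right', (H9.commute_of_mem_center (hc x b) a).eq,
      mul_inv_cancel_right]
  have hle : f.range ≤ Subgroup.center X := by
    rintro _ ⟨y, rfl⟩
    exact hc x y
  have h1 : f.range = Subgroup.center X := by
    by_contra hne
    have h2 : f.range.subgroupOf (Subgroup.center X) ≠ ⊤ := fun h =>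
      hne (le_antisymm hle (Subgroup.subgroupOf_eq_top.mp h))
    obtain ⟨M, hM, hleM⟩ := (eq_top_or_exists_le_coatom _).resolve_left h2
    have h3 : (M.map (Subgroup.center X).subtype).subgroupOf (Subgroup.center X) = M :=
      Subgroup.comap_map_eq_self_of_injective (Subgroup.subtype_injective _) M
    set Y := M.map (Subgroup.center X).subtype with hY
    have hYZ : Y ≤ Subgroup.center X := Subgroup.map_subtype_le M
    obtain ⟨hn, hE⟩ := hX.2 Y hYZ (h3.symm ▸ hM)
    have h4 : (x : X ⧸ Y) ∈ Subgroup.center (X ⧸ Y) := H9.mem_centralMod.mpr fun g =>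
      ⟨⟨_, hc x g⟩, hleM ⟨g, rfl⟩, rfl⟩
    rw [← hE.1.2.2, commutator_def, ← Subgroup.map_top_of_surjective _ (QuotientGroup.mk'_surjective Y),
      ← Subgroup.map_commutator, ← commutator_def, hX.1.2.2] at h4
    obtain ⟨z, hz, h5⟩ := h4
    have h6 : z⁻¹ * x ∈ Y := QuotientGroup.eq.mp h5
    exact hx (((Subgroup.center X).mul_mem_cancel_left ((Subgroup.center X).inv_mem hz)).mp (hYZ h6))
  constructor
  · rw [← h1, ← Subgroup.index_ker]
    congr 1
    ext y
    rw [Subgroup.mem_centralizer_singleton_iff, MonoidHom.mem_ker]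
    exact eq_comm.trans commutatorElement_eq_one_iff_mul_comm.symm
  · rw [← h1]
    ext z
    exact ⟨fun ⟨y, h⟩ => ⟨y, h.symm⟩, fun ⟨y, h⟩ => ⟨y, h.symm⟩⟩

end Cfsg.Agent.S2907
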