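import Cfsg.Statements.S2908
import Cfsg.Agent.Base
import Cfsg.Agent.H98.Coprime
import Cfsg.Agent.H1.Coprime

set_option autoImplicit false
open Cfsg

namespace Cfsg.Agent.S2908

open Subgroup Cfsg H98
open scoped commutatorElement

/-- Let P be a p-subgroup of a finite group, normalized by a p-subgroup A and by a subgroup B of order prime to p that commutes elementwise with A. If [P, B] ≤ [P, A], then B centralizes P. -/
theorem result {G : Type*} [Group G] [Finite G] {p : ℕ} [Fact p.Prime] (P A B : Subgroup G) (hP : IsPGroup p ↥P) (hA : IsPGroup p ↥A) (hB : ¬ p ∣ Nat.card ↥B) (hnA : A ≤ Subgroup.normalizer (P : Set G)) (hnB : B ≤ Subgroup.normalizer (P : Set G)) (hAB : ⁅A, B⁆ = ⊥) (hcomm : ⁅P, B⁆ ≤ ⁅P, A⁆) : ⁅P, B⁆ = ⊥ := by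
  by_contra hne
  set Q := ⁅P, B⁆ with hQ
  set C := P ⊓ centralizer (B : Set G) with hC
  have hQP : Q ≤ P := commutator_le_left' hnB
  have hAB' : A ≤ centralizer (B : Set G) := commutator_eq_bot_iff_le_centralizer.1 hAB
  have hPQ : P ≤ normalizer (Q : Set G) := normalizer_commutator_ge_left P B
  have hAQ : A ≤ normalizer (Q : Set G) :=
    le_normalizer_commutator hnA (le_normalizer_of_le_centralizer hAB')
  have hBQ : B ≤ normalizer (Q : Set G) := le_normalizer_commutator hnB le_normalizer
  have hres : res p B = B := res_eq_self_of_coprime ((Fact.out : p.Prime).coprime_iff_not_dvd.2 hB).symm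
  have hQB : ⁅Q, B⁆ = Q := commutator_commutator_of_res_eq hP hnB hres
  have hPA : IsPGroup p ↥(A ⊔ P) := hA.to_sup_of_normal_right' hP hnA
  set N := ⁅Q, A ⊔ P⁆ with hN
  have hNQ : N < Q := commutator_lt_of_isPGroup (hP.to_le hQP) hPA (sup_le hAQ hPQ) hne
  have hAPN : A ⊔ P ≤ normalizer (N : Set G) := normalizer_commutator_ge_right _ _
  have hBN : B ≤ normalizer (N : Set G) :=
    le_normalizer_commutator hBQ (le_normalizer_sup
      (le_normalizer_of_le_centralizer (le_centralizer_iff.1 hAB')) hnB)
  have hQC : Q ⊔ C = P := by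
    refine H1.commutator_sup_centralizer hnB ?_ (Or.inr (by have := hP.isNilpotent; infer_instance))
    obtain ⟨n, hn⟩ := hP.exists_card_eq
    rw [hn]
    exact Nat.Coprime.pow_right n ((Fact.out : p.Prime).coprime_iff_not_dvd.2 hB).symm
  have hCN : C ≤ normalizer (N : Set G) := (inf_le_left.trans le_sup_right).trans hAPN
  have hAC : A ≤ normalizer (C : Set G) :=
    le_normalizer_inf hnA (hAB'.trans le_normalizer)
  have h1 : ⁅P, A⁆ ≤ N ⊔ C := by
    conv_lhs => rw [← hQC]
    refine commutator_sup_left_le ?_ (le_sup_right.trans le_normalizer) ?_ ?_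
    · refine le_normalizer_of_commutator_le (A := P) ?_ (sup_le (hNQ.le.trans hQP) inf_le_left)
      rw [Subgroup.commutator_comm]
      exact (commutator_mono le_rfl le_sup_right).trans le_sup_left
    · exact (commutator_mono le_rfl le_sup_left).trans le_sup_left
    · exact (commutator_le_left' hAC).trans le_sup_right
  have h2 : Q ≤ N := by
    rw [← hQB]
    refine (commutator_mono (hcomm.trans h1) le_rfl).trans ?_
    rw [commutator_sup_centralizer_left inf_le_right (Or.inl hCN)]
    exact commutator_le_left' hBN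
  exact absurd h2 (not_le_of_gt hNQ)

end Cfsg.Agent.S2908
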