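import Cfsg.Statements.S2909
import Cfsg.Agent.Base
import Cfsg.Agent.S2908
import Cfsg.Agent.H99.SPE

set_option autoImplicit false
open Cfsg

namespace Cfsg.Agent.S2909

open Subgroup Cfsg H98 H99
open scoped commutatorElement

/-- Let p be a prime, E a normal p-subgroup of the finite group G, and U a non-cyclic elementary abelian p-subgroup of G such that either C_E(U) = C_E(u) for every nontrivial u ∈ U, or [E, U] = [E, ⟨u⟩] for every nontrivial u ∈ U. If R is a subgroup of order prime to p normalized by U, then [R, U] centralizes E. -/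
theorem result {G : Type*} [Group G] [Finite G] {p : ℕ} [Fact p.Prime] (E : Subgroup G) [E.Normal] (hE : IsPGroup p ↥E) (U : Subgroup G) (hU : Cfsg.IsElementaryAbelian p U) (hnc : ¬ IsCyclic ↥U) (hcond : (∀ u ∈ U, u ≠ 1 → E ⊓ Subgroup.centralizer (U : Set G) = E ⊓ Subgroup.centralizer ({u} : Set G)) ∨ (∀ u ∈ U, u ≠ 1 → ⁅E, U⁆ = ⁅E, Subgroup.zpowers u⁆)) (R : Subgroup G) (hR : ¬ p ∣ Nat.card ↥R) (hRU : U ≤ Subgroup.normalizer (R : Set G)) : ⁅R, U⁆ ≤ Subgroup.centralizer (E : Set G) := by
  have hUp : IsPGroup p U := isPGroup_iff_forall.2 fun a ha => ⟨1, by rw [pow_one]; exact hU.2 a ha⟩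
  have := hU.1
  have hn : ∀ (N : Subgroup G) [N.Normal] (A : Subgroup G), A ≤ normalizer (N : Set G) := by
    intro N _ A
    rw [normalizer_eq_top]; exact le_top
  rw [Subgroup.commutator_comm]
  refine (le_stab_iff.1 ?_).2
  refine H1.le_of_noncyclic_centralizer_le hnc hRU ?_ _ fun u hu hu1 => ?_
  · obtain ⟨n, hn⟩ := hUp.exists_card_eq
    rw [hn]
    exact Nat.Coprime.pow_left n ((Fact.out : p.Prime).coprime_iff_not_dvd.2 hR)
  refine le_stab_iff.2 ⟨hn _ _, ?_⟩
  set C := R ⊓ centralizer ({u} : Set G) with hC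
  have hcu : centralizer ({u} : Set G) = centralizer (zpowers u : Set G) := by
    rw [zpowers_eq_closure, centralizer_closure]
  have hUu : U ≤ centralizer ({u} : Set G) := fun v hv =>
    mem_centralizer_singleton_iff.2 (le_centralizer U hu v hv)
  have hUC : U ≤ normalizer (C : Set G) := le_normalizer_inf hRU (hUu.trans le_normalizer)
  set B := ⁅U, C⁆ with hB
  have hBC : B ≤ C := commutator_le_right' hUC
  have hBp : ¬ p ∣ Nat.card B := not_dvd_card_of_le (hBC.trans inf_le_left) hR
  have hup : IsPGroup p (zpowers u) := hUp.to_le (zpowers_le.2 hu)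
  have huB : ⁅zpowers u, B⁆ = ⊥ := by
    rw [Subgroup.commutator_comm, Subgroup.commutator_eq_bot_iff_le_centralizer, ← hcu]
    exact hBC.trans inf_le_right
  rcases hcond with h | h
  · rw [le_centralizer_iff]
    refine thompson_AB hE hup
      (res_eq_self_of_coprime ((Fact.out : p.Prime).coprime_iff_not_dvd.2 hBp).symm)
      (hn _ _) (hn _ _) huB ?_
    rw [← hcu, le_centralizer_iff]
    have h1 : C ≤ normalizer (centralizer ((E ⊓ centralizer ({u} : Set G) : Subgroup G) : Set G) : Set G) :=
      le_normalizer_centralizer (le_normalizer_inf (hn _ _) (inf_le_right.trans le_normalizer))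
    refine (commutator_mono ?_ le_rfl).trans (commutator_le_left' h1)
    rw [← h u hu hu1, le_centralizer_iff]
    exact inf_le_right
  · rw [← Subgroup.commutator_eq_bot_iff_le_centralizer, Subgroup.commutator_comm]
    refine Cfsg.Agent.S2908.result E (zpowers u) B hE hup hBp (hn _ _) (hn _ _) huB ?_
    have h1 : C ≤ normalizer ((⁅E, zpowers u⁆ : Subgroup G) : Set G) :=
      le_normalizer_commutator (hn _ _) (le_normalizer_of_le_centralizer (hcu ▸ inf_le_right))
    have h2 : U ≤ stab E ⁅E, zpowers u⁆ := by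
      rw [← h u hu hu1]
      exact le_stab_iff.2 ⟨normalizer_commutator_ge_right _ _, le_rfl⟩
    exact (le_stab_iff.1 ((commutator_mono h2 le_rfl).trans
      (commutator_le_left' (le_normalizer_stab (hn _ _) h1)))).2

end Cfsg.Agent.S2909
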