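import Cfsg.Statements.S2911
import Cfsg.Agent.H12.ExtTransfer
import Cfsg.Agent.H98.Baumann
import Cfsg.Agent.S1244

set_option autoImplicit false
open Cfsg

namespace Cfsg.Agent.S2911

open Subgroup H98
open scoped commutatorElement

theorem aux : ∀ w : Multiplicative (ZMod 2) × DihedralGroup 4, (∀ x, x * w = w * x) →
    (∃ a b : Multiplicative (ZMod 2) × DihedralGroup 4, w = ⁅a, b⁆) ∨
      ∃ a b : Multiplicative (ZMod 2) × DihedralGroup 4, w * (Multiplicative.ofAdd 1, 1) = ⁅a, b⁆ := by decide +kernel

/-- A finite group whose Sylow 2-subgroups are isomorphic to the direct product of a group of order 2 and a dihedral group of order 8 has a subgroup of index two. -/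
theorem result {G : Type*} [Group G] [Finite G] (S : Sylow 2 G) (hS : Nonempty (↥(S : Subgroup G) ≃* Multiplicative (ZMod 2) × DihedralGroup 4)) : ∃ H : Subgroup G, H.index = 2 := by
  obtain ⟨e⟩ := hS
  let y : (S : Subgroup G) := e.symm (Multiplicative.ofAdd 1, 1)
  have h1 : ∀ x : (S : Subgroup G), x * y = y * x := fun x => e.injective (by
    rw [map_mul, map_mul, e.apply_symm_apply]; exact Prod.ext (mul_comm _ _) (by simp))
  have h2 : (y : G) ∉ ⁅(S : Subgroup G), (S : Subgroup G)⁆ := fun h => by
    rw [← map_subtype_commutator] at h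
    obtain ⟨x, hx, e1⟩ := h
    obtain rfl : x = y := Subtype.ext e1
    have := Abelianization.commutator_subset_ker ((MonoidHom.fst _ _).comp e.toMonoidHom) hx
    simp only [y, MonoidHom.mem_ker, MonoidHom.comp_apply, MulEquiv.coe_toMonoidHom, e.apply_symm_apply] at this
    exact absurd this (by decide)
  have h3 := H12.not_mem_res_of_extremal (isSyl_sylow S) (R := S) le_rfl (y := y)
    (congrArg Subtype.val (show y * y = 1 from e.injective (by
      rw [map_mul, e.apply_symm_apply, map_one e]; decide))) y.2 h2 y.2 S.isPGroup'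
    (fun r hr => congrArg Subtype.val (h1 ⟨r, hr⟩)) fun a ha => by
      have hn := mem_normalizer_of_cj_le ha
      let w : (S : Subgroup G) := ⟨a * y * a⁻¹, conj_mem_of_mem_normalizer hn y.2⟩
      have h4 : ∀ u v, ((e.symm ⁅u, v⁆ : (S : Subgroup G)) : G) ∈ ⁅(S : Subgroup G), (S : Subgroup G)⁆ :=
        fun u v => by
          rw [map_commutatorElement]; exact commutator_mem_commutator (e.symm u).2 (e.symm v).2
      rcases aux (e w) (fun x => by
        obtain ⟨x, rfl⟩ := e.surjective x
        have := congrArg Subtype.val (h1 ⟨_, conj_mem_of_mem_normalizer' hn x.2⟩)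
        rw [← map_mul, ← map_mul]
        refine congrArg e (Subtype.ext ?_)
        change (x : G) * (a * y * a⁻¹) = a * y * a⁻¹ * x
        change a⁻¹ * x * a * y = y * (a⁻¹ * x * a) at this
        calc (x : G) * (a * y * a⁻¹) = a * (a⁻¹ * x * a * y) * a⁻¹ := by group
          _ = _ := by rw [this]; group) with ⟨u, v, e1⟩ | ⟨u, v, e1⟩
      · have h5 := h4 u v
        rw [← e1, e.symm_apply_apply] at h5
        exact absurd ((mem_normalizer_iff.1 (le_normalizer_commutator (zpowers_le.2 hn) (zpowers_le.2 hn)
          (mem_zpowers a)) _).2 h5) h2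
      · have h5 := h4 u v
        rwa [← e1, map_mul, e.symm_apply_apply] at h5
  haveI : (res 2 (⊤ : Subgroup G)).Normal := normal_of_top_le_normalizer (self_le_normalizer_res ⊤)
  exact Cfsg.Agent.S1244.exists_index_two (isPGroup_quotient_iff_res_le (N := res 2 ⊤).2 res_top.ge) (QuotientGroup.mk' _) y
    fun e => h3 ((QuotientGroup.eq_one_iff _).1 e)

end Cfsg.Agent.S2911
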