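import Cfsg.Statements.S2912
import Cfsg.Agent.Base
import Cfsg.Agent.H99.ClassTwoRep
import Cfsg.Agent.H98.Basic
import Cfsg.Agent.H99.Product

set_option autoImplicit false
open Cfsg

namespace Cfsg.Agent.S2912

open Subgroup Cfsg H98 H99
open scoped commutatorElement

/-- Let p and r be distinct primes, let E be an extraspecial subgroup of order p^(2w+1) of a finite group, and let A be an elementary abelian r-subgroup normalized by E on which E acts faithfully (C_E(A) = 1). If n ≥ 1 is least with p dividing rⁿ − 1 (the smallest dimension of a faithful representation of a group of order p over the field with r elements), then the order of A is at least r^(n·p^w). -/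
theorem result {G : Type*} [Group G] [Finite G] {p r : ℕ} [Fact p.Prime] [hr : Fact r.Prime] (hpr : p ≠ r) (E A : Subgroup G) (w : ℕ) (hE : Cfsg.IsExtraspecial p ↥E) (hEcard : Nat.card ↥E = p ^ (2 * w + 1)) (hA : Cfsg.IsElementaryAbelian r A) (hnorm : E ≤ Subgroup.normalizer (A : Set G)) (hfaith : E ⊓ Subgroup.centralizer (A : Set G) = ⊥) (n : ℕ) (hn : 1 ≤ n) (hdiv : p ∣ r ^ n - 1) (hmin : ∀ k : ℕ, 1 ≤ k → p ∣ r ^ k - 1 → n ≤ k) : r ^ (n * p ^ w) ≤ Nat.card ↥A := by
  have hAc := hA.1
  set Z := (center E).map E.subtype with hZ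
  have hZE : Z ≤ E := map_subtype_le _
  have hZc : Nat.card Z = p := by rw [card_map_of_injective E.subtype_injective, hE.2]
  have hEZ : E ≤ normalizer (Z : Set G) := le_normalizer_map_subtype _
  obtain ⟨a, ha⟩ : ∃ a, Nat.card A = r ^ a :=
    IsPGroup.exists_card_eq fun x => ⟨1, Subtype.ext (by rw [pow_one]; exact hA.2 x x.2)⟩
  have hcop : (Nat.card Z).Coprime (Nat.card A) := by
    rw [hZc, ha]
    exact Nat.Coprime.pow_right _ ((Nat.coprime_primes Fact.out hr.out).2 hpr)
  have hW := H1.centralizer_inf_commutator_eq_bot (hZE.trans hnorm) hcop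
  have hWA : ⁅A, Z⁆ ≤ A := commutator_le_left' (hZE.trans hnorm)
  have hW1 : ⁅A, Z⁆ ≠ ⊥ := by
    intro h
    rw [Subgroup.commutator_comm, Subgroup.commutator_eq_bot_iff_le_centralizer] at h
    have : Z = ⊥ := le_bot_iff.1 (hfaith ▸ le_inf hZE h)
    rw [this, card_bot] at hZc
    exact (Fact.out : p.Prime).one_lt.ne hZc
  obtain ⟨V, ⟨hV1, hVW, hEV⟩, hVmin⟩ := Set.Finite.exists_minimal
    (s := {V : Subgroup G | V ≠ ⊥ ∧ V ≤ ⁅A, Z⁆ ∧ E ≤ normalizer (V : Set G)}) (Set.toFinite _)
    ⟨_, hW1, le_rfl, le_normalizer_commutator hnorm hEZ⟩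
  have hVA : V ≤ A := hVW.trans hWA
  have hVc : IsMulCommutative V := isMulCommutative_of_le hAc hVA
  letI : CommGroup V := { (inferInstance : Group V) with mul_comm := hVc.is_comm.comm }
  have : Nontrivial V := (nontrivial_iff_ne_bot V).2 hV1
  obtain ⟨k, d, h1, h2, h3⟩ := exists_card_eq_pow_of_irreducible
    (H1.restrictAut (H1.conjAut E) V (H1.conjAut_mem hEV)) (by
      intro W hW
      by_cases hb : W = ⊥
      · exact Or.inl hb
      right
      have h1 := hVmin (y := W.map V.subtype) ⟨by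
        rwa [Ne, map_eq_bot_iff_of_injective _ V.subtype_injective], (map_subtype_le _).trans hVW, by
        intro e he
        refine mem_normalizer_of_cj_le ?_
        rintro _ ⟨_, ⟨x, hx, rfl⟩, rfl⟩
        exact mem_map_of_mem V.subtype (hW ⟨e, he⟩ x hx)⟩ (map_subtype_le _)
      rw [eq_top_iff]
      intro x _
      obtain ⟨y, hy, he⟩ := h1 x.2
      rwa [← Subtype.ext he]) (by
      intro g e
      rw [← hE.1.2.2]
      exact commutator_mem_commutator (mem_top g) (mem_top e)) (by
      intro z hz h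
      by_contra hz1
      have h1 : zpowers z = center E := by
        refine eq_of_le_of_card_ge (zpowers_le.2 hz) ?_
        rcases (Nat.dvd_prime Fact.out).1 (hE.2 ▸ card_dvd_of_le (zpowers_le.2 hz)) with h | h
        · exact absurd (zpowers_eq_bot.1 (card_eq_one.1 h)) hz1
        · rw [h, hE.2]
      have h2 : Z ≤ centralizer (V : Set G) := by
        rw [hZ, ← h1, MonoidHom.map_zpowers, zpowers_le]
        intro v hv
        have h3 : (z : G) * v * (z : G)⁻¹ = v :=
          congrArg Subtype.val (show H1.restrictAut (H1.conjAut E) V (H1.conjAut_mem hEV) z ⟨v, hv⟩ = ⟨v, hv⟩ by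
            rw [h]; rfl)
        calc v * (z : G) = (z : G) * v * (z : G)⁻¹ * z := by rw [h3]
          _ = z * v := by group
      exact hV1 (le_bot_iff.1 (hW ▸ le_inf (le_inf hVA (le_centralizer_iff.1 h2)) hVW)))
  have hr1 := hr.out.one_lt
  have hd : d ≠ 0 := by
    rintro rfl
    exact hV1 (card_eq_one.1 h1)
  have hk : k ∣ r ^ a := ((dvd_pow_self k hd).trans (h1 ▸ card_dvd_of_le hVA)).trans ha.dvd
  obtain ⟨m, -, rfl⟩ := (Nat.dvd_prime_pow hr.out).1 hk
  have hm : 1 ≤ m := by
    rcases m with _ | m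
    · rw [pow_zero, one_pow] at h1
      exact absurd (card_eq_one.1 h1) hV1
    · omega
  have h4 := hmin m hm (hE.2 ▸ h3)
  have h5 : (center E).index = (p ^ w) ^ 2 := by
    have := (center E).card_mul_index
    rw [hE.2, hEcard, pow_succ'] at this
    rw [Nat.eq_of_mul_eq_mul_left (Fact.out : p.Prime).pos this, ← pow_mul, mul_comm]
  rw [h5] at h2
  have h6 : p ^ w ≤ d := (Nat.pow_le_pow_iff_left two_ne_zero).1 h2
  refine le_trans ?_ (card_le_of_le hVA)
  rw [h1, ← pow_mul]
  exact Nat.pow_le_pow_right hr.out.pos (Nat.mul_le_mul h4 h6)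

end Cfsg.Agent.S2912
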