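import Cfsg.Statements.S2922
import Cfsg.Agent.Base
import Cfsg.Agent.H98.PIrr
import Cfsg.Agent.H14.FStar

set_option autoImplicit false
open Cfsg

namespace Cfsg.Agent.S2922

open Subgroup H98
open scoped commutatorElement


/-- Let p be a prime, X a finite group, B a p-subgroup of X and C a normal subgroup of B. If N_X(C) has characteristic p (its generalized Fitting subgroup is O_p(N_X(C))), then N_X(B) and C_X(B) have characteristic p. -/
theorem result {X : Type*} [Group X] [Finite X] {p : ℕ} [Fact p.Prime] (B C : Subgroup X) (hB : IsPGroup p ↥B) (hCB : C ≤ B) (hCn : (C.subgroupOf B).Normal) (hC : Cfsg.generalizedFittingSubgroup ↥(Subgroup.normalizer (C : Set X)) = Cfsg.pCore p ↥(Subgroup.normalizer (C : Set X))) : Cfsg.generalizedFittingSubgroup ↥(Subgroup.normalizer (B : Set X)) = Cfsg.pCore p ↥(Subgroup.normalizer (B : Set X)) ∧ Cfsg.generalizedFittingSubgroup ↥(Subgroup.centralizer (B : Set X)) = Cfsg.pCore p ↥(Subgroup.centralizer (B : Set X)) := by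
  rw [H14.fstar_eq_pCore_iff_centralizer, ← H98.charP_iff] at hC ⊢
  rw [H14.fstar_eq_pCore_iff_centralizer, ← H98.charP_iff]
  have hn : B ≤ normalizer (C : Set X) := (normal_subgroupOf_iff_le_normalizer hCB).mp hCn
  have h1 := hC.inf_centralizer hB (le_normalizer_of_le hn)
  rw [inf_of_le_right ((centralizer_anti hCB).trans (centralizer_le_normalizer _))] at h1
  refine ⟨H98.CharP.of_inf_centralizer hB le_normalizer le_rfl ?_, h1⟩
  rwa [inf_of_le_right (centralizer_le_normalizer _)]

end Cfsg.Agent.S2922
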