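import Cfsg.Statements.S2924
import Cfsg.Agent.Base
import Cfsg.Agent.H84.TwoPart
import Cfsg.Agent.H14.FStar
import Cfsg.Agent.H10.ModPPrime
import Cfsg.Agent.H1.CoprimeGen
import Cfsg.Agent.H5.FrobStruct
import Cfsg.Agent.H17.SylowIn

set_option autoImplicit false
open Cfsg

namespace Cfsg.Agent.S2924

section
variable {X : Type*} [Group X] [Finite X]

/-- the core of the centralizer of `y`, as a subgroup of `X` -/
abbrev cA (y : X) : Subgroup X :=
  (Cfsg.oddCore ↥(Subgroup.centralizer ({y} : Set X))).map (Subgroup.centralizer ({y} : Set X)).subtype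

/-- the 2-core of the centralizer of `y`, as a subgroup of `X` -/
abbrev cU (y : X) : Subgroup X :=
  (Cfsg.pCore 2 ↥(Subgroup.centralizer ({y} : Set X))).map (Subgroup.centralizer ({y} : Set X)).subtype

theorem odd_cA (y : X) : Odd (Nat.card (cA y)) := by
  rw [Subgroup.card_map_of_injective (Subgroup.subtype_injective _)]
  exact H2.odd_card_oddCore _

theorem odd_of_mem {y a : X} (h : a ∈ cA y) : Odd (orderOf a) :=
  (odd_cA y).of_dvd_nat (Subgroup.orderOf_dvd_natCard _ h)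

omit [Finite X] in
theorem norm_cA (y : X) :
    Subgroup.centralizer ({y} : Set X) ≤ Subgroup.normalizer (cA y : Set X) :=
  Subgroup.le_normalizer.trans (H2.normalizer_le_normalizer_map_subtype _ _)

omit [Finite X] in
theorem norm_cU (y : X) :
    Subgroup.centralizer ({y} : Set X) ≤ Subgroup.normalizer (cU y : Set X) :=
  Subgroup.le_normalizer.trans (H2.normalizer_le_normalizer_map_subtype _ _)

theorem cent_cU {x y b : X} (hx : x * x = 1) (hxy : x * y = y * x) (hb : b ∈ cA x)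
    (hby : b * y = y * b) : b ∈ Subgroup.centralizer (cU y : Set X) := by
  have hU : IsPGroup 2 (cU y) := H2.isPGroup_map_pCore_subtype _
  have hbx : b * x = x * b :=
    Subgroup.mem_centralizer_singleton_iff.mp (Subgroup.map_subtype_le _ hb)
  refine H10.pxq_elem (P := Subgroup.zpowers x)
    (H84.isPGroup_zpowers_of_pow (k := 1) (by simpa [sq] using hx)) hU
    (Subgroup.zpowers_le.mpr (norm_cU y (Subgroup.mem_centralizer_singleton_iff.mpr hxy)))
    (Nat.coprime_two_right.mpr (odd_of_mem hb))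
    (norm_cU y (Subgroup.mem_centralizer_singleton_iff.mpr hby)) ?_ ?_
  · rintro _ ⟨k, rfl⟩
    exact ((show Commute b x from hbx).zpow_right k).eq.symm
  · rintro u ⟨hu, hux⟩
    have h1 : u ∈ Subgroup.centralizer ({x} : Set X) :=
      Subgroup.mem_centralizer_singleton_iff.mpr (hux x (Subgroup.mem_zpowers x)).symm
    have h2 : u * b * u⁻¹ * b⁻¹ ∈ cA x := (cA x).mul_mem
      ((Subgroup.mem_normalizer_iff.mp (norm_cA x h1) b).mp hb) ((cA x).inv_mem hb)
    have h3 : u * b * u⁻¹ * b⁻¹ ∈ cU y := by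
      have := (cU y).mul_mem hu ((Subgroup.mem_normalizer_iff.mp (norm_cU y
        (Subgroup.mem_centralizer_singleton_iff.mpr hby)) _).mp ((cU y).inv_mem hu))
      simpa only [mul_assoc] using this
    have h4 := Subgroup.disjoint_def.mp (H2.disjoint_of_isPGroup_of_coprime hU
      (Nat.coprime_two_right.mpr (odd_cA x))) h3 h2
    exact Subgroup.mem_centralizer_singleton_iff.mpr
      (commutatorElement_eq_one_iff_mul_comm.mp h4)

theorem inverts {x z : X} (hx : x * x = 1) (hz : z * z = 1) (hxz : x * z = z * x)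
    (hF : Cfsg.generalizedFittingSubgroup ↥(Subgroup.centralizer ({z} : Set X)) =
      Cfsg.pCore 2 ↥(Subgroup.centralizer ({z} : Set X))) {a : X} (ha : a ∈ cA x) :
    z * a * z⁻¹ = a⁻¹ := by
  have h1 : cA x ⊓ Subgroup.centralizer {z} = ⊥ := by
    rw [eq_bot_iff]
    rintro b ⟨hb, hbz⟩
    have h2 := cent_cU hx hxz hb (Subgroup.mem_centralizer_singleton_iff.mp hbz)
    have h3 : (⟨b, hbz⟩ : Subgroup.centralizer ({z} : Set X)) ∈ Cfsg.pCore 2 _ :=
      H14.centralizer_pCore_le_of_fstar_eq hF fun u hu => Subtype.ext (h2 u ⟨u, hu, rfl⟩)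
    exact Subgroup.disjoint_def.mp (H2.disjoint_of_isPGroup_of_coprime
      (H2.isPGroup_map_pCore_subtype _) (Nat.coprime_two_right.mpr (odd_cA x))) ⟨_, h3, rfl⟩ hb
  obtain ⟨y, -, rfl⟩ := H5.exists_commutator_eq_of_fpf
    (norm_cA x (Subgroup.mem_centralizer_singleton_iff.mpr hxz.symm)) h1 ha
  have hz' : z⁻¹ = z := inv_eq_of_mul_eq_one_right hz
  calc z * (y * z * y⁻¹ * z⁻¹) * z⁻¹ = z * y * z * y⁻¹ * (z * z)⁻¹ := by group
    _ = (y * z * y⁻¹ * z⁻¹)⁻¹ := by rw [hz]; nth_rewrite 2 [← hz']; group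

omit [Finite X] in
theorem comm_of_inverts {A : Subgroup X} {z : X} (h : ∀ a ∈ A, z * a * z⁻¹ = a⁻¹) {a b : X}
    (ha : a ∈ A) (hb : b ∈ A) : a * b = b * a := by
  have h1 := h _ (A.mul_mem ha hb)
  have h2 : z * (a * b) * z⁻¹ = a⁻¹ * b⁻¹ := by rw [← h a ha, ← h b hb]; group
  rw [h2, ← mul_inv_rev, inv_inj] at h1
  exact h1.symm

theorem balance {x y z b : X} (hx : x * x = 1) (hxy : x * y = y * x)
    (hE : Cfsg.layer ↥(Subgroup.centralizer ({y} : Set X)) = ⊥)
    (hzy : ∀ a ∈ cA y, z * a * z⁻¹ = a⁻¹) (hzb : z * b * z⁻¹ = b⁻¹) (hb : b ∈ cA x)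
    (hby : b * y = y * b) : b ∈ cA y := by
  have hbC : b ∈ Subgroup.centralizer ({y} : Set X) := Subgroup.mem_centralizer_singleton_iff.mpr hby
  have h1 := cent_cU hx hxy hb hby
  have h2 : b ∈ Subgroup.centralizer (cA y : Set X) := by
    refine H84.mem_of_pow_two_pow_mem_of_odd (k := 1) (fun a ha => ?_) (odd_of_mem hb)
    have h3 := hzy _ ((Subgroup.mem_normalizer_iff.mp (norm_cA y hbC) _).mp ((cA y).inv_mem ha))
    have h4 : z * (b * a⁻¹ * b⁻¹) * z⁻¹ = b⁻¹ * a * b := by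
      calc z * (b * a⁻¹ * b⁻¹) * z⁻¹
          = (z * b * z⁻¹) * (z * a * z⁻¹)⁻¹ * (z * b * z⁻¹)⁻¹ := by group
        _ = b⁻¹ * a * b := by rw [hzb, hzy a ha]; group
    rw [h4] at h3
    calc a * b ^ 2 ^ 1 = b * (b⁻¹ * a * b) * b := by rw [pow_one, sq]; group
      _ = b ^ 2 ^ 1 * a := by rw [h3, pow_one, sq]; group
  have h3 : (⟨b, hbC⟩ : Subgroup.centralizer ({y} : Set X)) ∈
      Cfsg.pCore 2 _ ⊔ Cfsg.pPrimeCore 2 _ := by
    refine H2.fitting_le_pCore_sup_pPrimeCore 2 _ (H14.centralizer_fstar_le_fitting ?_)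
    rw [H14.fstar_eq_fitting_iff.mpr hE]
    refine Subgroup.centralizer_le (H2.fitting_le_pCore_sup_pPrimeCore 2 _) ?_
    rw [← Subgroup.zpowers_le, ← Subgroup.le_centralizer_iff, sup_le_iff,
      Subgroup.le_centralizer_iff, Subgroup.le_centralizer_iff (K := Subgroup.zpowers _),
      Subgroup.zpowers_le, Subgroup.zpowers_le]
    exact ⟨fun u hu => Subtype.ext (h1 u ⟨u, hu, rfl⟩), fun u hu => Subtype.ext (h2 u ⟨u, hu, rfl⟩)⟩
  rw [← SetLike.mem_coe, Subgroup.mul_normal] at h3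
  obtain ⟨u, hu, a, ha, hua⟩ := h3
  have h4 : (u : X) * a = b := congrArg Subtype.val hua
  have h5 : (a : X) ∈ cA y := ⟨a, ha, rfl⟩
  have h6 : Commute b (a : X)⁻¹ := (show Commute (a : X) b from h2 a h5).symm.inv_right
  have h7 : (u : X) = b * (a : X)⁻¹ := by rw [← h4, mul_inv_cancel_right]
  have h8 : Odd (orderOf (u : X)) := by
    rw [h7]
    exact ((odd_of_mem hb).mul (odd_of_mem ((cA y).inv_mem h5))).of_dvd_nat
      h6.orderOf_mul_dvd_mul_orderOf
  obtain ⟨k, hk⟩ := H2.isPGroup_map_pCore_subtype (p := 2) _ (⟨u, ⟨u, hu, rfl⟩⟩ : cU y)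
  have h9 : (u : X) ∈ (⊥ : Subgroup X) :=
    H84.mem_of_pow_two_pow_mem_of_odd (k := k) (congrArg Subtype.val hk) h8
  rw [← h4, Subgroup.mem_bot.mp h9, one_mul]
  exact h5

omit [Finite X] in
theorem card_le_two {Q : Type*} [Group Q] [IsCyclic Q] (h : ∀ q : Q, q ^ 2 = 1) :
    Nat.card Q ≤ 2 := by
  rw [← IsCyclic.exponent_eq_card]
  exact Nat.le_of_dvd two_pos (Monoid.exponent_dvd_of_forall_pow_eq_one h)

theorem conj_cA (n y : X) {a : X} (ha : a ∈ cA y) : n * a * n⁻¹ ∈ cA (n * y * n⁻¹) := by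
  have key : ∀ c, c ∈ Subgroup.centralizer ({n * y * n⁻¹} : Set X) ↔
      n⁻¹ * c * n ∈ Subgroup.centralizer ({y} : Set X) := fun c => by
    rw [Subgroup.mem_centralizer_singleton_iff, Subgroup.mem_centralizer_singleton_iff]
    constructor
    · intro h
      calc n⁻¹ * c * n * y = n⁻¹ * (c * (n * y * n⁻¹)) * n := by group
        _ = y * (n⁻¹ * c * n) := by rw [h]; group
    · intro h
      calc c * (n * y * n⁻¹) = n * (n⁻¹ * c * n * y) * n⁻¹ := by group
        _ = n * y * n⁻¹ * c := by rw [h]; group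
  refine H2.le_map_pPrimeCore_subtype (A := (cA y).map (MulAut.conj n).toMonoidHom) ?_ ?_ ?_
    (H17.conj_mem_map_conj n ha)
  · intro c hc
    exact (key c).mpr (Subgroup.map_subtype_le _ (H17.mem_map_conj_iff.mp hc))
  · intro c hc
    rw [← H17.map_conj_eq_iff_mem_normalizer, H17.map_conj_map_conj,
      show c * n = n * (n⁻¹ * c * n) by group, ← H17.map_conj_map_conj,
      H17.map_conj_eq_iff_mem_normalizer.mpr (norm_cA y ((key c).mp hc))]
  · rw [H17.card_map_conj]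
    exact Nat.coprime_two_right.mpr (odd_cA y)

end

/-- Let X be a finite group and Y an elementary abelian 2-subgroup of X of order at least 8 such that C_X(x) has no components (E(C_X(x)) = 1) for every nontrivial x ∈ Y, and F*(C_X(z)) = O₂(C_X(z)) for some nontrivial z ∈ Y. Then the subgroup generated by the cores O(C_X(y)), y ∈ Y nontrivial, has odd order and is normalized by N_X(Y). -/
theorem result {X : Type*} [Group X] [Finite X] (Y : Subgroup X) (hY : Cfsg.IsElementaryAbelian 2 Y) (h8 : 8 ≤ Nat.card ↥Y) (hE : ∀ x ∈ Y, x ≠ 1 → Cfsg.layer ↥(Subgroup.centralizer ({x} : Set X)) = ⊥) (hz : ∃ z ∈ Y, z ≠ 1 ∧ Cfsg.generalizedFittingSubgroup ↥(Subgroup.centralizer ({z} : Set X)) = Cfsg.pCore 2 ↥(Subgroup.centralizer ({z} : Set X))) : Odd (Nat.card ↥(⨆ y : {y : X // y ∈ Y ∧ y ≠ 1}, (Cfsg.oddCore ↥(Subgroup.centralizer ({(y : X)} : Set X))).map (Subgroup.centralizer ({(y : X)} : Set X)).subtype)) ∧ Subgroup.normalizer (Y : Set X) ≤ Subgroup.normalizer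 ((⨆ y : {y : X // y ∈ Y ∧ y ≠ 1}, (Cfsg.oddCore ↥(Subgroup.centralizer ({(y : X)} : Set X))).map (Subgroup.centralizer ({(y : X)} : Set X)).subtype : Subgroup X) : Set X) := by
  obtain ⟨z, hzY, -, hF⟩ := hz
  have := hY.1
  have hsq : ∀ x ∈ Y, x * x = 1 := fun x hx => by rw [← sq, hY.2 x hx]
  have hcm : ∀ x ∈ Y, ∀ y ∈ Y, x * y = y * x := fun x hx y hy =>
    congrArg Subtype.val (hY.1.is_comm.comm (⟨x, hx⟩ : Y) ⟨y, hy⟩)
  have hinv : ∀ x ∈ Y, ∀ a ∈ cA x, z * a * z⁻¹ = a⁻¹ := fun x hx a ha =>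
    inverts (hsq x hx) (hsq z hzY) (hcm x hx z hzY) hF ha
  have hbal : ∀ x ∈ Y, ∀ y ∈ Y, y ≠ 1 → ∀ b ∈ cA x, b * y = y * b → b ∈ cA y :=
    fun x hx y hy hy1 b hb hby => balance (hsq x hx) (hcm x hx y hy) (hE y hy hy1) (hinv y hy)
      (hinv x hx b hb) hb hby
  have hYp : IsPGroup 2 Y := fun y => ⟨1, Subtype.ext (by simpa using hY.2 y y.2)⟩
  have hYn : ∀ x ∈ Y, Y ≤ Subgroup.normalizer (cA x : Set X) := fun x hx y hy =>
    norm_cA x (Subgroup.mem_centralizer_singleton_iff.mpr (hcm y hy x hx))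
  have hcomm : ∀ x ∈ Y, ∀ w ∈ Y, cA x ≤ Subgroup.centralizer (cA w : Set X) := by
    intro x hx w hw
    refine H1.le_of_cocyclic_centralizer_le (hYn x hx)
      (H2.coprime_card_of_isPGroup hYp (Nat.coprime_two_right.mpr (odd_cA x))) _ ?_
    rintro Y0 hY0 hc b ⟨hb, hbY⟩
    have hnc : ¬ IsCyclic Y0 := fun h => by
      have h1 : Nat.card Y0 ≤ 2 := card_le_two fun q => Subtype.ext (hY.2 q (hY0 q.2))
      have h2 : Nat.card (Y ⧸ Y0.subgroupOf Y) ≤ 2 := card_le_two fun q => by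
        obtain ⟨y, rfl⟩ := QuotientGroup.mk_surjective q
        rw [← QuotientGroup.mk_pow, show y ^ 2 = 1 from Subtype.ext (hY.2 y y.2),
          QuotientGroup.mk_one]
      have h3 := Subgroup.card_eq_card_quotient_mul_card_subgroup (Y0.subgroupOf Y)
      rw [Nat.card_congr (Subgroup.subgroupOfEquivOfLe hY0).toEquiv] at h3
      have := Nat.mul_le_mul h2 h1
      omega
    have : IsMulCommutative Y0 := ⟨⟨fun a b => Subtype.ext (hcm a (hY0 a.2) b (hY0 b.2))⟩⟩
    have h1 : cA w ≤ Subgroup.centralizer ({b} : Set X) := by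
      refine H1.le_of_noncyclic_centralizer_le hnc (hY0.trans (hYn w hw))
        (H2.coprime_card_of_isPGroup (hYp.to_le hY0) (Nat.coprime_two_right.mpr (odd_cA w))) _ ?_
      rintro a ha ha1 c ⟨hc, hca⟩
      exact Subgroup.mem_centralizer_singleton_iff.mpr (comm_of_inverts (hinv a (hY0 ha))
        (hbal w hw a (hY0 ha) ha1 c hc (Subgroup.mem_centralizer_singleton_iff.mp hca))
        (hbal x hx a (hY0 ha) ha1 b hb (hbY a ha).symm))
    exact fun c hc => Subgroup.mem_centralizer_singleton_iff.mp (h1 hc)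
  set J := ⨆ y : {y : X // y ∈ Y ∧ y ≠ 1}, cA (y : X) with hJ
  have hJc : J ≤ Subgroup.centralizer (J : Set X) := by
    refine iSup_le fun x => Subgroup.le_centralizer_iff.mp (iSup_le fun w => ?_)
    exact hcomm w w.2.1 x x.2.1
  refine ⟨?_, ?_⟩
  · rw [← Nat.not_even_iff_odd, even_iff_two_dvd]
    intro h2
    obtain ⟨⟨j, hj⟩, hj2⟩ := exists_prime_orderOf_dvd_card' 2 h2
    rw [← Subgroup.orderOf_coe] at hj2
    have key : ∀ g, g ∈ J → Odd (orderOf g) := fun g hg => by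
      induction hg using Subgroup.iSup_induction' with
      | hp i x hx => exact odd_of_mem hx
      | h1 => simp
      | hmul x y hx hy ihx ihy =>
        exact (ihx.mul ihy).of_dvd_nat
          (show Commute x y from hJc hy x hx).orderOf_mul_dvd_mul_orderOf
    have := key j hj
    rw [hj2] at this
    exact absurd this (by decide)
  · have key : ∀ n ∈ Subgroup.normalizer (Y : Set X), ∀ g ∈ J, n * g * n⁻¹ ∈ J := by
      intro n hn g hg
      have : J ≤ J.comap (MulAut.conj n).toMonoidHom := iSup_le fun y a ha =>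
        le_iSup (fun y : {y : X // y ∈ Y ∧ y ≠ 1} => cA (y : X))
          ⟨n * y * n⁻¹, (Subgroup.mem_normalizer_iff.mp hn _).mp y.2.1,
            fun h => y.2.2 (by simpa using h)⟩ (conj_cA n y ha)
      exact this hg
    intro n hn
    rw [Subgroup.mem_normalizer_iff]
    exact fun g => ⟨key n hn g, fun h => by
      simpa [mul_assoc] using key n⁻¹ (Subgroup.inv_mem _ hn) _ h⟩

end Cfsg.Agent.S2924
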