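import Cfsg.Statements.S2925
import Cfsg.Agent.Base
import Cfsg.Agent.H99.Iso

set_option autoImplicit false
open Cfsg

namespace Cfsg.Agent.S2925

open Subgroup Cfsg H98 H99
open scoped commutatorElement

/-- Let K be a component of the finite group X and T a Sylow 2-subgroup of X. If some abelian normal subgroup Y of T does not normalize K, then K ⧸ Z(K) has abelian Sylow 2-subgroups. -/
theorem result {X : Type*} [Group X] [Finite X] (K : Subgroup X) (hK : Cfsg.IsComponent K) (T : Sylow 2 X) (Y : Subgroup X) (hYT : Y ≤ (T : Subgroup X)) (hYn : (Y.subgroupOf (T : Subgroup X)).Normal) (hYab : IsMulCommutative ↥Y) (hnot : ¬ Y ≤ Subgroup.normalizer (K : Set X)) (P : Sylow 2 (↥K ⧸ Subgroup.center ↥K)) : IsMulCommutative ↥(P : Subgroup (↥K ⧸ Subgroup.center ↥K)) := by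
  obtain ⟨y, hy, hyn⟩ := SetLike.not_le_iff_exists.1 hnot
  have hS : IsSyl 2 ((T : Subgroup X) ⊓ K) K :=
    (isSyl_sylow T).inf_subN (subN_top_iff.2 (H14.comp_subnormal hK))
  have hTY : (T : Subgroup X) ≤ normalizer (Y : Set X) := (normal_subgroupOf_iff_le_normalizer hYT).1 hYn
  have hc : ∀ k ∈ K, y * k * y⁻¹ ∈ centralizer (K : Set X) := fun k hk m hm =>
    (H14.commutator_eq_bot_iff_comm.1 (H14.comp_commute_of_ne (H14.comp_map_conj hK y) hK
      fun h => hyn (cj_eq_self_iff.1 h)) _ (conj_mem_cj hk) m hm).symm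
  have hY : ∀ s ∈ (T : Subgroup X), s * (y * s⁻¹ * y⁻¹) ∈ Y := by
    intro s hs
    have := Y.mul_mem (conj_mem_of_mem_normalizer (hTY hs) hy) (Y.inv_mem hy)
    simpa [mul_assoc] using this
  have key : ∀ s ∈ (T : Subgroup X) ⊓ K, ∀ t ∈ (T : Subgroup X) ⊓ K,
      ⁅s, t⁆ ∈ centralizer (K : Set X) := by
    intro s hs t ht
    have h1 := hc _ (K.inv_mem hs.2)
    have h2 := hc _ (K.inv_mem ht.2)
    have h3 : s * (y * s⁻¹ * y⁻¹) * (t * (y * t⁻¹ * y⁻¹)) = t * (y * t⁻¹ * y⁻¹) * (s * (y * s⁻¹ * y⁻¹)) :=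
      le_centralizer Y (hY t (Subgroup.mem_inf.1 ht).1) _ (hY s (Subgroup.mem_inf.1 hs).1)
    generalize y * s⁻¹ * y⁻¹ = u at h1 h3
    generalize y * t⁻¹ * y⁻¹ = v at h2 h3
    have e1 := h1 t ht.2
    have e2 := h2 s hs.2
    have h4 : s * t * (u * v) = t * s * (v * u) := by
      calc s * t * (u * v) = s * (t * u) * v := by group
        _ = s * u * (t * v) := by rw [e1]; group
        _ = t * v * (s * u) := h3
        _ = t * (v * s) * u := by group
        _ = t * s * (v * u) := by rw [← e2]; group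
    have h5 : (t * s)⁻¹ * (s * t) = v * u * (u * v)⁻¹ := by
      calc (t * s)⁻¹ * (s * t) = (t * s)⁻¹ * (s * t * (u * v)) * (u * v)⁻¹ := by group
        _ = _ := by rw [h4]; group
    have h6 : (t * s)⁻¹ * (s * t) ∈ centralizer (K : Set X) := by
      rw [h5]
      exact mul_mem (mul_mem h2 h1) (inv_mem (mul_mem h1 h2))
    have h7 := h6 (t * s) (K.mul_mem ht.2 hs.2)
    have h8 : ⁅s, t⁆ = (t * s)⁻¹ * (s * t) := by
      calc ⁅s, t⁆ = t * s * ((t * s)⁻¹ * (s * t)) * (t * s)⁻¹ := by rw [commutatorElement_def]; group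
        _ = _ := by rw [h7]; group
    rwa [h8]
  have h1 := (hS.subgroupOf_top).map (QuotientGroup.mk' (center K))
  rw [map_top_of_surjective _ (QuotientGroup.mk'_surjective _)] at h1
  obtain ⟨g, -, hg⟩ := h1.exists_cj_eq (isSyl_sylow P)
  rw [← hg]
  have h2 : IsMulCommutative ↥((((T : Subgroup X) ⊓ K).subgroupOf K).map (QuotientGroup.mk' (center K))) := by
    refine ⟨⟨?_⟩⟩
    rintro ⟨_, s, hs, rfl⟩ ⟨_, t, ht, rfl⟩
    apply Subtype.ext
    change QuotientGroup.mk' _ s * QuotientGroup.mk' _ t = QuotientGroup.mk' _ t * QuotientGroup.mk' _ s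
    rw [← commutatorElement_eq_one_iff_mul_comm, ← map_commutatorElement, QuotientGroup.mk'_apply,
      QuotientGroup.eq_one_iff, mem_center_iff]
    intro k
    exact Subtype.ext (key s hs t ht k k.2)
  exact map_isMulCommutative _ _

end Cfsg.Agent.S2925
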