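import Cfsg.Statements.S2932
import Cfsg.Agent.H96.A7a

set_option autoImplicit false
open Cfsg

namespace Cfsg.Agent.S2932

open Subgroup H98 H96

/-- Let p be a prime. Inside a finite ambient group let V be an elementary abelian p-subgroup and G a subgroup normalizing V and acting faithfully on it (G ∩ C(V) = 1), and let L ≤ G act on V as SL₂(F) on its natural module, F a finite field of characteristic p, with L ≅ SL₂(F). If every Sylow p-subgroup of N_G(L) is a Sylow p-subgroup of G, then either L is normal in G, or F has 4 elements and G is isomorphic to the alternating group of degree 7. -/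
theorem result {X : Type*} [Group X] [Finite X] {p : ℕ} [Fact p.Prime] (F : Type) [Field F] [Fintype F] [CharP F p] (V G L : Subgroup X) (hV : Cfsg.IsElementaryAbelian p V) (hGV : G ≤ Subgroup.normalizer (V : Set X)) (hfaith : G ⊓ Subgroup.centralizer (V : Set X) = ⊥) (hLG : L ≤ G) (hnat : Cfsg.IsNaturalSL2Module F V L) (hLiso : Nonempty (↥L ≃* Matrix.SpecialLinearGroup (Fin 2) F)) (hSyl : ∀ S : Sylow p ↥(G ⊓ Subgroup.normalizer (L : Set X)), ∀ P : Sylow p ↥G, Nat.card S = Nat.card P) : (L.subgroupOf G).Normal ∨ (Fintype.card F = 4 ∧ Nonempty (↥G ≃* ↥(alternatingGroup (Fin 7)))) := by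
  obtain ⟨n, hp, hF⟩ := FiniteField.card F p
  obtain ⟨h1, ρ, ψ, h2, -, h4⟩ := hnat
  obtain ⟨s, ρ', h5, h6, h7⟩ := exists_sec_sl (F := F) (R := ⊤) (E := L) (U := V) (U₀ := ⊥)
    ⟨h1, bot_le, ρ, AddMonoidHom.toMultiplicativeRight ψ.toAddMonoidHom, MonoidHom.range_eq_top.2 h2,
      fun m => ⟨(ψ.symm m.toAdd).toMul, congrArg Multiplicative.ofAdd (ψ.apply_symm_apply _)⟩,
      fun u => ⟨fun e => congrArg Subtype.val (show u = 1 from ψ.map_eq_zero_iff.1 e),
        fun e => by rw [show u = 1 from Subtype.ext e, map_one]⟩, h4⟩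
  have hG : G ≤ nn V ⊥ := le_inf hGV (le_normalizer_bot G)
  have hL : s.bar L = (sl F).range := by rw [s.bar_eq_map h5 ρ' _ h7, h6, MonoidHom.range_eq_map]
  have hi : ∀ g ∈ G, s.α g = 1 → g = 1 := fun g hg e => mem_bot.1 (hfaith ▸ ⟨hg, fun v hv =>
    (commutatorElement_eq_one_iff_mul_comm.1 ((s.α_eq_one (hG hg)).1 e v hv)).symm⟩)
  obtain ⟨T, hT⟩ := exists_isSyl p (G ⊓ normalizer (L : Set X))
  obtain ⟨P, hP⟩ := exists_isSyl p G
  have hT' : IsSyl p T G := hP.of_card_ge hT.isPGroup (hT.le.trans inf_le_left) (by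
    obtain ⟨⟨S, rfl⟩, Q, rfl⟩ := And.intro hT.exists_sylow_map hP.exists_sylow_map
    rw [card_map_of_injective (subtype_injective _), card_map_of_injective (subtype_injective _)]
    exact (hSyl S Q).ge)
  rcases sl_normal_or_alt7 hF (Γ := s.bar G) (T := s.bar T) (hL ▸ s.bar_mono hLG) ((hT'.subgroupOf hG).map _)
    (hL ▸ s.bar_le_normalizer (hT'.le.trans hG) (hT.le.trans inf_le_right)) with h | ⟨h, ⟨e⟩⟩
  · refine Or.inl ((normal_subgroupOf_iff_le_normalizer hLG).2 fun g hg => mem_normalizer_fintype fun l hl => ?_)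
    have h8 := conj_mem_of_mem_normalizer (h (s.α_mem hG hg)) (hL ▸ s.α_mem h5 hl)
    have h9 : g * l * g⁻¹ ∈ G := mul_mem (mul_mem hg (hLG hl)) (inv_mem hg)
    rw [← s.α_conj (hG hg) (h5 hl), ← hL] at h8
    obtain ⟨y, hy, e⟩ := s.exists_α h8
    have := hi _ (mul_mem (inv_mem (hLG hy)) h9)
      (by rw [s.α_mul (inv_mem (h5 hy)) (hG h9), s.α_inv (h5 hy), e, inv_mul_cancel])
    exact inv_mul_eq_one.1 this ▸ hy
  · let τ : G →* Au (Fin 2 → F) := s.π.comp (inclusion hG)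
    have e1 : τ.range = s.bar G := le_antisymm (by rintro _ ⟨x, rfl⟩; exact ⟨_, x.2, rfl⟩)
      (by rintro _ ⟨x, hx, rfl⟩; exact ⟨⟨x, hx⟩, rfl⟩)
    exact Or.inr ⟨h, ⟨(MonoidHom.ofInjective ((injective_iff_map_eq_one τ).2 fun x e =>
      Subtype.ext (hi x x.2 ((s.α_eq (hG x.2)).trans e)))).trans ((MulEquiv.subgroupCongr e1).trans e)⟩⟩

end Cfsg.Agent.S2932
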