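import Cfsg.Statements.S2955
import Cfsg.Agent.H52.SylCh

set_option autoImplicit false
open Cfsg

namespace Cfsg.Agent.S2955

/-- Let p be a prime dividing the order of the finite group G and 𝓕 a conjugation-closed family of subgroups that controls Sylow p-intersections in G. Suppose the Sylow p-subgroups of G are chain-connected: any two of them are joined by a chain of Sylow p-subgroups, consecutive ones distinct with nontrivial intersection, all containing the intersection of the two ends (equivalently, the graph on the Sylow p-subgroups whose edges are the distinct pairs meeting nontrivially is connected). Then for every Sylow p-subgroup S, G is generated by N_G(S) together with the members of 𝓕 that meet S in a Sylow p-subgroup of themselves. -/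
theorem result {G : Type*} [Group G] [Finite G] (p : ℕ) [Fact p.Prime] (hdiv : p ∣ Nat.card G)
    (𝓕 : Set (Subgroup G)) (h𝓕 : Cfsg.IsNormalSet 𝓕) (hc : Cfsg.ControlsSylowIntersections p 𝓕)
    (hconn : Cfsg.IsSylowChainConnected p G) (S : Sylow p G) :
    (⨆ X ∈ Cfsg.sylowMembers p 𝓕 (S : Subgroup G), X) ⊔ Subgroup.normalizer ((S : Subgroup G) : Set G) = ⊤ := by
  rw [eq_top_iff]
  intro g _
  set H := (⨆ X ∈ Cfsg.sylowMembers p 𝓕 (S : Subgroup G), X) ⊔
    Subgroup.normalizer ((S : Subgroup G) : Set G) with hH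
  have h1 : ∀ X ∈ 𝓕, H98.IsSyl p ((S : Subgroup G) ⊓ X) X → X ≤ H := fun X a b =>
    (le_iSup₂_of_le (f := fun X (_ : X ∈ Cfsg.sylowMembers p 𝓕 (S : Subgroup G)) => X) X
      (H52.SC.mem_sylowMembers.2 ⟨a, b⟩) le_rfl).trans le_sup_left
  obtain ⟨n, c, h0, hl, -, h2⟩ :=
    hconn S ((H98.isSyl_sylow S).cj_of_mem (g := g) trivial).toSylowTop
  have key : ∀ i, ∃ h ∈ H, H98.cj h S = c i := fun i =>
    Fin.induction ⟨1, one_mem _, by rw [H98.cj_one, h0]⟩ (fun j ih =>
      (H52.SC.ctl_top_iff.1 hc _ _ (H98.isSyl_sylow _) (H98.isSyl_sylow _) (h2 j).2).reach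
        (H52.SC.normalSet_cj h𝓕) h1 ih) i
  obtain ⟨h, hh, e⟩ := key (Fin.last n)
  rw [hl, H98.IsSyl.coe_toSylowTop] at e
  have h3 : h⁻¹ * g ∈ H := (le_sup_right : _ ≤ H) (by
    rw [← H98.cj_eq_self_iff, ← H98.cj_cj, ← e, H98.cj_inv_cj])
  simpa using H.mul_mem hh h3

end Cfsg.Agent.S2955
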