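import Cfsg.Statements.S2958
import Cfsg.Agent.H98.Basic

set_option autoImplicit false
open Cfsg

namespace Cfsg.Agent.S2958

/-- Let X, A, B be subgroups of a group G such that G is generated by the conjugates of X and every conjugate of X is contained in A or in B. Then A = G or B = G. -/
theorem result {G : Type*} [Group G] (X A B : Subgroup G) (hgen : (⨆ g : G, X.map (MulAut.conj g).toMonoidHom) = ⊤) (hcover : ∀ g : G, X.map (MulAut.conj g).toMonoidHom ≤ A ∨ X.map (MulAut.conj g).toMonoidHom ≤ B) : A = ⊤ ∨ B = ⊤ := by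
  by_cases hA : ∀ g, H98.cj g X ≤ A
  · exact Or.inl (eq_top_iff.2 (hgen.ge.trans (iSup_le hA)))
  obtain ⟨g₀, h0⟩ := not_forall.1 hA
  refine Or.inr ?_
  let Y : Subgroup G := ⨆ g : {g : G // ¬ H98.cj g X ≤ A}, H98.cj g X
  have hY : ∀ g, ¬ H98.cj g X ≤ A → H98.cj g X ≤ Y := fun g h =>
    le_iSup (fun g : {g : G // ¬ H98.cj g X ≤ A} => H98.cj (g : G) X) ⟨g, h⟩
  have h1 : ∀ a ∈ A, H98.cj a Y ≤ Y := fun a ha => by
    rw [H98.cj_le_iff]
    refine iSup_le fun g => H98.cj_le_iff.1 ?_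
    rw [H98.cj_cj]
    refine hY _ fun h => g.2 ?_
    rw [← H98.cj_cj, H98.cj_le_iff, H98.cj_eq_self_of_mem (A.inv_mem ha)] at h
    exact h
  have h2 : A ≤ Subgroup.normalizer (Y : Set G) := fun a ha =>
    H98.cj_eq_self_iff.1 (le_antisymm (h1 a ha) (H98.le_cj_iff.2 (h1 _ (A.inv_mem ha))))
  have h3 : ⊤ ≤ Subgroup.normalizer (Y : Set G) := hgen.ge.trans (iSup_le fun g => by
    by_cases h : H98.cj g X ≤ A
    · exact h.trans h2
    · exact (hY g h).trans Subgroup.le_normalizer)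
  have h4 : Y ≤ B := iSup_le fun g => (hcover g).resolve_left g.2
  refine eq_top_iff.2 (hgen.ge.trans (iSup_le fun g => le_trans ?_ h4))
  have := H98.cj_le_of_le (hY g₀ h0) (h3 (Subgroup.mem_top (g * g₀⁻¹)))
  rwa [H98.cj_cj, inv_mul_cancel_right] at this

end Cfsg.Agent.S2958
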