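import Cfsg.Statements.S2961
import Cfsg.Agent.Base
import Cfsg.Agent.H98.CharP

set_option autoImplicit false
open Cfsg

namespace Cfsg.Agent.S2961

open Subgroup H98
open scoped commutatorElement


/-- Let G be a finite group of characteristic p (C_G(O_p(G)) ≤ O_p(G)), p prime, T a Sylow p-subgroup of G and Q a normal subgroup of T with C_T(Q) ≤ Q. Then every subgroup L of G containing Q has characteristic p: C_L(O_p(L)) ≤ O_p(L). -/
theorem result {G : Type*} [Group G] [Finite G] {p : ℕ} [Fact p.Prime] (hG : Subgroup.centralizer (Cfsg.pCore p G : Set G) ≤ Cfsg.pCore p G) (T : Sylow p G) (Q : Subgroup G) (hQT : Q ≤ (T : Subgroup G)) (hQn : (T : Subgroup G) ≤ Subgroup.normalizer (Q : Set G)) (hC : (T : Subgroup G) ⊓ Subgroup.centralizer (Q : Set G) ≤ Q) (L : Subgroup G) (hQL : Q ≤ L) : Subgroup.centralizer (Cfsg.pCore p ↥L : Set ↥L) ≤ Cfsg.pCore p ↥L := by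
  have hc := charP_top_iff.mpr hG
  have hQ := T.isPGroup'.to_le hQT
  have h1 := hc.inf_centralizer_le_of_isSyl (isSyl_sylow T) hQT hQn hC
  exact charP_iff.mp (hc.of_selfCentralizing_le hQ ((isSyl_sylow T).pCoreOf_le.trans hQn)
    (hQ.to_le ((inf_le_inf_right _ le_top).trans h1)) hQL le_top)

end Cfsg.Agent.S2961
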