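import Cfsg.Agent.Base
import Cfsg.Statements.S2963

set_option autoImplicit false
open Cfsg

namespace Cfsg.Agent.S2963

theorem top_of {α : Type*} [Fintype α] [DecidableEq α] (M : Subgroup (Equiv.Perm α)) (x y : α) (hxy : x ≠ y)
    (h1 : ∀ g : Equiv.Perm α, g x = x → g ∈ M) (h2 : Equiv.swap x y ∈ M) : M = ⊤ := by
  rw [eq_top_iff]
  intro g _
  by_cases hg : g x = x
  · exact h1 g hg
  · have h3 : Equiv.swap y (g x) ∈ M := h1 _ (Equiv.swap_apply_of_ne_of_ne hxy (Ne.symm hg))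
    have h4 : Equiv.swap x y * Equiv.swap y (g x) * g ∈ M := h1 _ (by simp)
    have h5 := M.mul_mem (M.inv_mem (M.mul_mem h2 h3)) h4
    rwa [inv_mul_cancel_left] at h5

/-- Let n be odd. If the symmetric group of degree n is a minimal parabolic group for the prime 2, that is, a Sylow 2-subgroup is not normal and lies in exactly one maximal subgroup, then n = 2^m + 1 for some natural number m. -/
theorem result (n : ℕ) (hn : Odd n) (h : Cfsg.IsPMinimal 2 (Equiv.Perm (Fin n))) : ∃ m : ℕ, n = 2 ^ m + 1 := by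
  classical
  have : Fact (Nat.Prime 2) := ⟨Nat.prime_two⟩
  obtain ⟨S⟩ : Nonempty (Sylow 2 (Equiv.Perm (Fin n))) := inferInstance
  obtain ⟨hnn, M, ⟨hM, hSM⟩, huniq⟩ := h S
  have hle : ∀ K : Subgroup (Equiv.Perm (Fin n)), K ≠ ⊤ → (S : Subgroup _) ≤ K → K ≤ M := by
    intro K hK hSK
    obtain ⟨M', hM', hKM'⟩ := (eq_top_or_exists_le_coatom K).resolve_left hK
    rw [← huniq M' ⟨hM', hSK.trans hKM'⟩]
    exact hKM'
  have hnd : ¬ 2 ∣ Nat.card (Fin n) := by
    rw [Nat.card_eq_fintype_card, Fintype.card_fin]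
    exact hn.not_two_dvd_nat
  obtain ⟨x, hx⟩ := S.isPGroup'.nonempty_fixed_point_of_prime_not_dvd_card (Fin n) hnd
  have hx' : ∀ s ∈ (S : Subgroup (Equiv.Perm (Fin n))), s x = x := fun s hs => hx ⟨s, hs⟩
  by_cases hy : ∀ y, y = x
  · exfalso
    apply hnn
    have : Subsingleton (Fin n) := ⟨fun a b => (hy a).trans (hy b).symm⟩
    exact ⟨fun a ha g => by rwa [Subsingleton.elim (g * a * g⁻¹) a]⟩
  obtain ⟨y, hyx⟩ := not_forall.1 hy
  let O : Set (Fin n) := MulAction.orbit (S : Subgroup (Equiv.Perm (Fin n))) y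
  have hxO : x ∉ O := by
    rintro ⟨s, hs⟩
    have h1 : (s : Equiv.Perm (Fin n)) y = x := hs
    exact hyx ((s : Equiv.Perm (Fin n)).injective (h1.trans (hx' s s.2).symm))
  have hyO : y ∈ O := MulAction.mem_orbit_self y
  have hOs : ∀ s ∈ (S : Subgroup (Equiv.Perm (Fin n))), ∀ w ∈ O, s w ∈ O := by
    rintro s hs w ⟨t, rfl⟩
    exact ⟨⟨s, hs⟩ * t, rfl⟩
  by_cases hall : ∀ w, w ∈ insert x O
  · obtain ⟨m, hm⟩ := S.isPGroup'.card_orbit y
    refine ⟨m, ?_⟩
    have h1 : (insert x O).ncard = n := by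
      rw [Set.eq_univ_of_forall hall, Set.ncard_univ, Nat.card_eq_fintype_card, Fintype.card_fin]
    rw [Set.ncard_insert_of_notMem hxO] at h1
    rw [← h1, ← hm]
    rfl
  exfalso
  obtain ⟨w, hw⟩ := not_forall.1 hall
  let K : Subgroup (Equiv.Perm (Fin n)) :=
    { carrier := {g | ∀ v, g v ∈ insert x O ↔ v ∈ insert x O}
      one_mem' := fun v => Iff.rfl
      mul_mem' := fun {a b} ha hb v => (ha (b v)).trans (hb v)
      inv_mem' := fun {a} ha v => by
        have := ha (a⁻¹ v)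
        simpa using this.symm }
  have hSK : (S : Subgroup _) ≤ K := by
    have h1 : ∀ s ∈ (S : Subgroup (Equiv.Perm (Fin n))), ∀ v ∈ insert x O, s v ∈ insert x O := by
      rintro s hs v (rfl | hv)
      · exact Or.inl (hx' s hs)
      · exact Or.inr (hOs s hs v hv)
    intro s hs v
    refine ⟨fun hv => ?_, h1 s hs v⟩
    have := h1 _ (Subgroup.inv_mem _ hs) _ hv
    simpa using this
  have hK : K ≠ ⊤ := by
    intro hK
    have h1 : Equiv.swap x w ∈ K := hK ▸ Subgroup.mem_top _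
    have h2 := (h1 x).2 (Or.inl rfl)
    rw [Equiv.swap_apply_left] at h2
    exact hw h2
  have hst : MulAction.stabilizer (Equiv.Perm (Fin n)) x ≠ ⊤ := by
    intro hK
    have h1 : Equiv.swap x y ∈ MulAction.stabilizer (Equiv.Perm (Fin n)) x := hK ▸ Subgroup.mem_top _
    have h2 : Equiv.swap x y x = x := h1
    rw [Equiv.swap_apply_left] at h2
    exact hyx h2
  refine hM.1 (top_of M x y (Ne.symm hyx) (fun g hg => hle _ hst (fun s hs => hx' s hs) hg) (hle K hK hSK fun v => ?_))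
  rw [Equiv.swap_apply_def]
  split_ifs with h1 h2
  · subst h1
    exact ⟨fun _ => Or.inl rfl, fun _ => Or.inr hyO⟩
  · subst h2
    exact ⟨fun _ => Or.inr hyO, fun _ => Or.inl rfl⟩
  · rfl

end Cfsg.Agent.S2963
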