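import Cfsg.Statements.S2981
import Cfsg.Agent.H96.Bridge2
import Cfsg.Agent.H98.Baumann
import Cfsg.Agent.H12.Offender

set_option autoImplicit false
open Cfsg

namespace Cfsg.Agent.S2981

open Subgroup H98 H96 H12

/-- The local C**(G,T)-Theorem for minimal parabolic groups. Let G be a finite p-minimal group (a Sylow p-subgroup T is not normal and lies in exactly one maximal subgroup) of characteristic p (C_G(O_p(G)) ≤ O_p(G)), and suppose G ≠ C**(G,T), the subgroup generated by C_G(Ω₁(Z(T))) and N_G(J(T)) (J(T) generated by the elementary abelian p-subgroups of T of largest order). Put V = Ω₁(Z(O_p(G))) and C = C_G(V). Then there are subgroups E₁, …, E_r of G containing C such that: J(G)TC = G and the E_i C/C form an internal direct product equal to J(G)C/C; any two of the E_i are conjugate by an element of T; V = C_V(⟨E_i⟩)·∏[V, E_i] with [V, E_i, E_j] = 1 for i ≠ j; for some n ≥ 1, each E_i/C is isomorphic to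 SL₂(pⁿ), or p = 2 and to the symmetric group of degree 2ⁿ + 1; and E_i acts on [V, E_i]/C_{[V,E_i]}(E_i) as the natural two-dimensional SL₂(pⁿ)-module, respectively as the symmetric group of degree 2ⁿ+1 on its even-weight permutation module. -/
theorem result {G : Type*} [Group G] [Finite G] {p : ℕ} [Fact p.Prime] (hmin : Cfsg.IsPMinimal p G) (hG : Subgroup.centralizer (Cfsg.pCore p G : Set G) ≤ Cfsg.pCore p G) (T : Sylow p G) (hne : Cfsg.cStarStarOf p (T : Subgroup G) ≠ ⊤) : ∃ (r : ℕ) (E : Fin r → Subgroup G), (∀ i, Subgroup.centralizer (Cfsg.omegaOneCenter p (Cfsg.pCore p G) : Set G) ≤ E i) ∧ Cfsg.thompsonSubgroup p G ⊔ (T : Subgroup G) ⊔ Subgroup.centralizer (Cfsg.omegaOneCenter p (Cfsg.pCore p G) : Set G) = ⊤ ∧ (⨆ i, E i) = Cfsg.thompsonSubgroup p G ⊔ Subgroup.centralizer (Cfsg.omegaOneCenter p (Cfsg.pCore p G) : Set G) ∧ (∀ i j, i ≠ j → ⁅E i, E j⁆ ≤ Subgroup.centralizer (Cfsg.omegaOneCenter p (Cfsg.pCore p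 G) : Set G)) ∧ (∀ i, E i ⊓ (⨆ j ∈ {j | j ≠ i}, E j) ≤ Subgroup.centralizer (Cfsg.omegaOneCenter p (Cfsg.pCore p G) : Set G)) ∧ (∀ i j, ∃ t ∈ (T : Subgroup G), (E i).map (MulAut.conj t).toMonoidHom = E j) ∧ (Cfsg.omegaOneCenter p (Cfsg.pCore p G) ⊓ Subgroup.centralizer ((⨆ i, E i : Subgroup G) : Set G)) ⊔ (⨆ i, ⁅Cfsg.omegaOneCenter p (Cfsg.pCore p G), E i⁆) = Cfsg.omegaOneCenter p (Cfsg.pCore p G) ∧ (∀ i j, i ≠ j → ⁅⁅Cfsg.omegaOneCenter p (Cfsg.pCore p G), E i⁆, E j⁆ = ⊥) ∧ ∀ i, ∃ n : ℕ, 1 ≤ n ∧ ((∃ (F : Type) (_ : Field F) (_ : Fintype F), Fintype.card F = p ^ n ∧ (∃ _ : ((Subgroup.centralizer (Cfsg.omegaOneCenter p (Cfsg.pCore p G) : Set G)).subgroupOf (E i)).Normal, Nonempty (↥(E i) ⧸ (Subgroup.centralizer (Cfsg.omegaOneCenter p (Cfsg.pCore p G) : Set G)).subgroupOf (E i) ≃* Matrix.SpecialLinearGroup (Fin 2) F)) ∧ Cfsg.ActsAsSL2OnSection F ⊤ (E i) ⁅Cfsg.omegaOneCenter p (Cfsg.pCore p G), E i⁆ (⁅Cfsg.omegaOneCenter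 p (Cfsg.pCore p G), E i⁆ ⊓ Subgroup.centralizer ((E i : Subgroup G) : Set G))) ∨ (p = 2 ∧ (∃ _ : ((Subgroup.centralizer (Cfsg.omegaOneCenter p (Cfsg.pCore p G) : Set G)).subgroupOf (E i)).Normal, Nonempty (↥(E i) ⧸ (Subgroup.centralizer (Cfsg.omegaOneCenter p (Cfsg.pCore p G) : Set G)).subgroupOf (E i) ≃* Equiv.Perm (Fin (2 ^ n + 1)))) ∧ Cfsg.ActsAsOddPermModuleOnSection (2 ^ n + 1) ⊤ (E i) ⁅Cfsg.omegaOneCenter p (Cfsg.pCore p G), E i⁆ (⁅Cfsg.omegaOneCenter p (Cfsg.pCore p G), E i⁆ ⊓ Subgroup.centralizer ((E i : Subgroup G) : Set G)))) := by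
  have hT := isSyl_sylow T
  obtain ⟨M, hM⟩ := exists_umax_top (hmin T).2
  have eQ : pCoreOf p (⊤ : Subgroup G) = pCore p G := H98.pCoreOf_top
  have h1 : centralizer (oz p (T : Subgroup G) : Set G) ⊔ normalizer (jt p (T : Subgroup G) : Set G) ≤ M :=
    hM.le_of_ne ((le_centralizer_oz _).trans le_sup_left) le_top hne
  have hQT : pCore p G ≤ T := eQ ▸ hT.pCoreOf_le
  have hQn : ⊤ ≤ normalizer (pCore p G : Set G) := eQ ▸ self_le_normalizer_pCoreOf (⊤ : Subgroup G)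
  obtain ⟨V, hV⟩ : ∃ V, V = oz p (pCore p G) := ⟨_, rfl⟩
  rw [show omegaOneCenter p (pCore p G) = V from hV.symm]
  have hVe : IsElementaryAbelian p V := hV ▸ ea_oz _
  have hVT : V ≤ T := hV.le.trans ((oz_le _).trans hQT)
  have hn : ⊤ ≤ normalizer (V : Set G) := hV ▸ le_normalizer_oz hQn
  have hO : pCoreOf p ⊤ ≤ centralizer (V : Set G) := by rw [eQ, hV]; exact le_centralizer_oz _
  have hZ : oz p (T : Subgroup G) ≤ V ⊓ centralizer ((T : Subgroup G) : Set G) := le_inf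
    (hV ▸ le_oz (ea_oz _) ((oz_le_centralizer _).trans ((centralizer_le hQT).trans hG))
      ((oz_le_centralizer _).trans (centralizer_le hQT))) (oz_le_centralizer _)
  have hC := (inf_le_right (a := ⊤)).trans ((centralizer_le hZ).trans (le_sup_left.trans h1))
  have h2 : ¬ jt p (T : Subgroup G) ≤ centralizer (V : Set G) := fun e => by
    have h3 : jt p (T : Subgroup G) ≤ pCore p G := eQ ▸ (le_inf (jt_le _) e).trans
      (hM.inf_le_pCoreOf hT ((le_inf le_top (centralizer_le inf_le_left)).trans hC)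
        (H98.le_normalizer_centralizer hn))
    have h4 := le_normalizer_jt (p := p) hQn
    rw [jt_eq_of_le h3 hQT] at h4
    exact hM.not_le (h4.trans (le_sup_right.trans h1))
  rw [jt, thompsonSubgroupOf_eq, sSup_le_iff] at h2
  push Not at h2
  obtain ⟨A, hA, hA0⟩ := h2
  have hAo := aOff_of_best (bestOffender_of_mem_maxEA hVe hVT hA)
  obtain ⟨r, E, c⟩ := mp_ambient hVe hn hT hM hO hC le_top hAo hA0
  have hJ : ⊤ ≤ normalizer (thompsonSubgroup p G : Set G) :=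
    thompsonSubgroupOf_top (p := p) (G := G) ▸ le_normalizer_jt le_normalizer
  have h3 : (⨆ i, E i) = thompsonSubgroup p G ⊔ centralizer (V : Set G) := le_antisymm
    (by simpa using c.nrml _ le_top hJ A (le_inf (thompsonSubgroup_eq (p := p) (G := G) ▸
      le_sSup (mem_maxEA_top_of_sylow T hA)) hA.1) hAo hA0)
    (sup_le (thompsonSubgroup_eq (p := p) (G := G) ▸ sSup_le fun B hB => c.off B le_top
      (aOff_of_best (bestOffender_of_mem_maxEA hVe le_top hB)))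
      (((top_inf_eq _).ge.trans (c.cle ⟨0, c.pos⟩)).trans (le_iSup E _)))
  have key : ∀ i {H : Type} [Group H], (∃ ρ : E i →* H, Function.Surjective ρ ∧
      ρ.ker = (centralizer (V : Set G)).subgroupOf (E i)) →
      ∃ _ : ((centralizer (V : Set G)).subgroupOf (E i)).Normal,
        Nonempty (E i ⧸ (centralizer (V : Set G)).subgroupOf (E i) ≃* H) :=
    fun i _ _ ⟨ρ, h1, h2⟩ => h2 ▸ ⟨ρ.normal_ker, ⟨QuotientGroup.quotientKerEquivOfSurjective ρ h1⟩⟩
  refine ⟨r, E, fun i => (top_inf_eq _).ge.trans (c.cle i), by rw [sup_right_comm, ← h3, c.top], h3,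
    c.comm, c.inf, c.trans, c.fxs, c.cmm, fun i => ?_⟩
  obtain ⟨n, hn, ⟨F, _, _, h1, h2, h3⟩ | ⟨h1, h2, h3⟩⟩ := c.type i
  · exact ⟨n, hn, Or.inl ⟨F, _, _, h1, key i h2, h3⟩⟩
  · exact ⟨n, hn, Or.inr ⟨h1, key i h2, h3⟩⟩

end Cfsg.Agent.S2981
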