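import Cfsg.Statements.S2998
import Cfsg.Agent.Base
import Cfsg.Agent.H99.Iso

set_option autoImplicit false
open Cfsg

namespace Cfsg.Agent.S2998

open Subgroup Cfsg H98 H99

/-- Let G be a finite group, p a prime, P a Sylow p-subgroup of G and x ∈ P an element such that N_G(R) ≤ C_G(x) for every nontrivial subgroup R of P. Then P ≤ C_G(x); every G-conjugate of x lying in P equals x (so g ∈ C_G(x) whenever g x g⁻¹ ∈ P); and for every normal subgroup N of G, the image of x in G ⧸ N has the same property with respect to the image of P: the normalizer of every nontrivial subgroup of the image of P centralizes the image of x. -/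
theorem result {G : Type*} [Group G] [Finite G] {p : ℕ} [Fact p.Prime] (P : Sylow p G) (x : G) (hxP : x ∈ (P : Subgroup G)) (hlc : ∀ R : Subgroup G, R ≤ (P : Subgroup G) → R ≠ ⊥ → Subgroup.normalizer (R : Set G) ≤ Subgroup.centralizer ({x} : Set G)) : (P : Subgroup G) ≤ Subgroup.centralizer ({x} : Set G) ∧ (∀ g : G, g * x * g⁻¹ ∈ (P : Subgroup G) → g * x * g⁻¹ = x) ∧ ∀ (N : Subgroup G) [N.Normal], ∀ R : Subgroup (G ⧸ N), R ≤ (P : Subgroup G).map (QuotientGroup.mk' N) → R ≠ ⊥ → Subgroup.normalizer (R : Set (G ⧸ N)) ≤ Subgroup.centralizer ({(QuotientGroup.mk x : G ⧸ N)} : Set (G ⧸ N)) := by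
  have h1 : (P : Subgroup G) ≤ centralizer ({x} : Set G) := by
    by_cases hb : (P : Subgroup G) = ⊥
    · rw [hb]; exact bot_le
    · exact le_normalizer.trans (hlc P le_rfl hb)
  refine ⟨h1, fun g hg => ?_, fun N _ R hR hR1 => ?_⟩
  · by_cases hx1 : x = 1
    · simp [hx1]
    by_cases ht : centralizer ({x} : Set G) = ⊤
    · exact conj_eq_of_mem_centralizer (ht ▸ mem_top g)
    have hd := dvd_orderOf_of_mem_pgroup P.isPGroup' hxP hx1
    have hX : IsStronglyPEmbedded p (centralizer ({x} : Set G)) :=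
      ⟨hd.trans (orderOf_dvd_natCard x), ht, P, (H84.kGeneratedCore_one_le_iff P.isPGroup').2 hlc⟩
    exact conj_eq_of_mem_centralizer (spe_mem_of_conj hX (h1 hxP) hd (h1 hg))
  · have hs : SubN (R.comap (QuotientGroup.mk' N)) (((P : Subgroup G).map (QuotientGroup.mk' N)).comap
        (QuotientGroup.mk' N)) := (subN_of_isPGroup (P.isPGroup'.map _) hR).comap _
    have hP : IsSyl p (P : Subgroup G) (((P : Subgroup G).map (QuotientGroup.mk' N)).comap
        (QuotientGroup.mk' N)) := isSyl_sylow_of_le P (le_comap_map _ _)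
    have hT := hP.inf_subN hs
    have hT1 : (P : Subgroup G) ⊓ R.comap (QuotientGroup.mk' N) ≠ ⊥ := by
      intro hb
      apply hR1
      rw [eq_bot_iff]
      intro r hr
      obtain ⟨y, hy, rfl⟩ := hR hr
      have : y ∈ (⊥ : Subgroup G) := hb ▸ ⟨hy, hr⟩
      rw [mem_bot.1 this, map_one]
      exact one_mem _
    intro g hg
    obtain ⟨g, rfl⟩ := QuotientGroup.mk'_surjective N g
    have hg' : g ∈ normalizer ((R.comap (QuotientGroup.mk' N) : Subgroup G) : Set G) :=
      comap_le_normalizer_comap (QuotientGroup.mk' N) le_rfl hg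
    obtain ⟨a, ha, n, hn, rfl⟩ := hT.frattini_mem hg'
    have key : ∀ c ∈ centralizer ({x} : Set G),
        QuotientGroup.mk' N c ∈ centralizer ({(QuotientGroup.mk x : G ⧸ N)} : Set (G ⧸ N)) := by
      intro c hc
      rw [mem_centralizer_singleton_iff] at hc ⊢
      rw [QuotientGroup.mk'_apply, ← QuotientGroup.mk_mul, hc, QuotientGroup.mk_mul]
    rw [map_mul]
    refine mul_mem (key a (hlc _ inf_le_left hT1 ha)) ?_
    obtain ⟨y, hy, he⟩ := hR hn
    rw [← he]
    exact key y (h1 hy)

end Cfsg.Agent.S2998
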