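import Cfsg.Statements.S2999
import Cfsg.Agent.H96.Bridge

set_option autoImplicit false
open Cfsg

namespace Cfsg.Agent.S2999

open Subgroup H98 H96

/-- Let p be a prime and let P and V be subgroups of a finite group with V elementary abelian, P normalizing V and acting faithfully on it (P ∩ C(V) = 1). Suppose P is p-minimal (a Sylow p-subgroup T of P is not normal and lies in a unique maximal subgroup M of P) and A ≤ T is an elementary abelian subgroup such that: |V/C_V(A)| ≤ |A| while |A₀|·|C_V(A₀)| < |A|·|C_V(A)| for every nontrivial proper subgroup A₀ of A; [C_V(T), P] ≠ 1; and P = ⟨A, xAx⁻¹⟩ for every x ∈ P outside M. Then, with q = |A|, there is a field F with q elements such that P ≅ SL₂(F), C_V(A) = [V, A]·C_V(P), and P acts on V/C_V(P) as SL₂(F) on its natural two-dimensional module. -/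
theorem result {G : Type*} [Group G] [Finite G] {p : ℕ} [Fact p.Prime] (V P : Subgroup G) (hV : Cfsg.IsElementaryAbelian p V) (hPV : P ≤ Subgroup.normalizer (V : Set G)) (hfaith : P ⊓ Subgroup.centralizer (V : Set G) = ⊥) (hmin : Cfsg.IsPMinimal p ↥P) (T : Sylow p ↥P) (M : Subgroup ↥P) (hM : IsCoatom M) (hTM : (T : Subgroup ↥P) ≤ M) (A : Subgroup G) (hAT : A ≤ ((T : Subgroup ↥P).map P.subtype)) (hAel : Cfsg.IsElementaryAbelian p A) (hi : Nat.card ↥V ≤ Nat.card ↥A * Nat.card ↥(V ⊓ Subgroup.centralizer ((A : Subgroup G) : Set G)) ∧ ∀ A₀ : Subgroup G, A₀ ≤ A → A₀ ≠ ⊥ → A₀ ≠ A → Nat.card ↥A₀ * Nat.card ↥(V ⊓ Subgroup.centralizer ((A₀ : Subgroup G) : Set G)) < Nat.card ↥A * Nat.card ↥(V ⊓ Subgroup.centralizer ((A : Subgroup G) : Set G))) (hii : ⁅(V ⊓ Subgroup.centralizer ((((T : Subgroup ↥P).map P.subtype) : Subgroup G) : Set G)), P⁆ ≠ ⊥) (hiii : ∀ x : ↥P, x ∉ M → A ⊔ A.map (MulAut.conj (x : G)).toMonoidHom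 = P) : ∃ (F : Type) (_ : Field F) (_ : Fintype F), Fintype.card F = Nat.card ↥A ∧ Nonempty (↥P ≃* Matrix.SpecialLinearGroup (Fin 2) F) ∧ (V ⊓ Subgroup.centralizer ((A : Subgroup G) : Set G)) = ⁅V, A⁆ ⊔ (V ⊓ Subgroup.centralizer ((P : Subgroup G) : Set G)) ∧ Cfsg.ActsAsSL2OnSection F ⊤ P V (V ⊓ Subgroup.centralizer ((P : Subgroup G) : Set G)) := by
  have := hV.1
  obtain ⟨Γ, _, _, _, _, ⟨b⟩⟩ := exists_br hPV
  have h0 := Md.nsmul_eq_zero hV
  have hT := isSyl_map_subtype T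
  have hAP : A ≤ P := hAT.trans hT.le
  have hU := umax_map_subtype (hmin T).2 hM hTM
  have hU' := b.umax hU (hfaith ▸ bot_le)
  set M' := b.bar (M.map P.subtype)
  have hgen : ∀ x ∈ (⊤ : Subgroup Γ), x ∉ M' → b.bar A ⊔ cj x (b.bar A) = ⊤ := fun x _ hx => by
    obtain ⟨y, rfl⟩ := b.surj x
    have hy : y ∉ M := fun e => hx (b.mem_bar (mem_map_of_mem _ e))
    rw [← b.bar_cj, ← b.bar_sup hAP (cj_le_of_le_of_mem hAP y.2), hiii y hy, b.bar_self]
  have hAM : b.bar A ≤ M' := (b.bar_mono hAT).trans hU'.le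
  obtain ⟨x, hx, hx0⟩ := hU'.exists_not_mem
  have hA : MinOff p (Md V) (b.bar A) := by
    refine ⟨b.ea hAel, fun e => ?_, by rw [b.wt_bar hfaith hAP]; exact hi.1, fun B h1 h2 h3 => ?_⟩
    · have := hgen x hx hx0
      rw [e, cj_bot, sup_bot_eq] at this
      exact hU'.not_le (this ▸ bot_le)
    · have h4 : b.pre B ≤ A := b.pre_bar' hfaith hAP ▸ b.pre_mono h1
      rw [← b.bar_pre B, b.wt_bar hfaith hAP, b.wt_bar hfaith (b.pre_le B)]
      exact hi.2 _ h4 (fun e => h2 (by rw [← b.bar_pre B, e, b.bar_bot]))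
        fun e => h3 (by rw [← e, b.bar_pre])
  have hS := b.isSyl hT
  have hz : ¬ fx (Md V) (b.bar (T.1.map P.subtype)) ≤ fx (Md V) (⊤ : Subgroup Γ) := fun e => hii (by
    rw [← b.up_fx hT.le, ← b.bar_le_ctr le_rfl, b.bar_self]; exact le_fx_iff.1 e)
  have hX : ∀ X : Subgroup Γ, b.bar A ≤ X → X ≤ M' ∨ X = ⊤ := fun X h1 => by
    refine or_iff_not_imp_left.2 fun h2 => ?_
    obtain ⟨y, hy, hy0⟩ := SetLike.not_le_iff_exists.1 h2
    exact top_le_iff.1 (hgen y trivial hy0 ▸ sup_le h1 (cj_le_of_le_of_mem h1 hy))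
  have hUA : UMax (b.bar A ⊔ pCoreOf p ⊤) M' ⊤ :=
    ⟨sup_le hAM (hS.pCoreOf_le.trans hU'.le), hU'.lt, fun X h1 _ => hX X (le_sup_left.trans h1)⟩
  have hc : ∀ x ∈ (⊤ : Subgroup Γ), x ∉ M' → _ := fun x hx hx0 =>
    core2 hA hUA (fun y hy hy0 e => hU'.not_le (hgen y hy hy0 ▸ sup_le hAM e)) hS
      (b.bar_mono hAT) hz hx hx0
  have htv := (hc x hx hx0).2.2
  have hH : CoreHyp (Md V) ⊤ M' (b.bar A) := ⟨le_top, hgen, fun x hx hx0 => (hc x hx hx0).1,
    htv.quad, htv.idx.le, fun e => hz ((fx_anti (b.bar_mono hAT)).trans e)⟩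
  have hQ : pCoreOf p (⊤ : Subgroup Γ) = ⊥ := by
    have hcQ : ∀ g : Γ, cj g (pCoreOf p ⊤) = pCoreOf p ⊤ := fun g =>
      cj_eq_self (self_le_normalizer_pCoreOf ⊤ trivial)
    have key : ∀ y ∉ M', fx (Md V) (cj y (b.bar A)) ≤ fx (Md V) (pCoreOf p (⊤ : Subgroup Γ)) := by
      intro y hy v hv
      obtain ⟨w, hw, u, hu, rfl⟩ := exists_add_of_sup (hc y trivial hy).2.1 v
      rw [cj_sup, hcQ, fx_sup, AddSubgroup.mem_inf] at hw
      exact add_mem hw.2 (fx_anti le_top (hH.fx_inf trivial hy ▸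
        ⟨hu, (add_mem_cancel_left hw.1).1 hv⟩))
    refine fx_eq_top (V := Md V) (top_le_iff.1 ((hH.counts hx hx0).2.2.1 ▸ sup_le ?_ (key x hx0)))
    intro v hv
    have := key x hx0 (smul_mem_fx_cj.2 hv)
    rwa [← hcQ x, smul_mem_fx_cj] at this
  have hB := hH.blk Fact.out h0 hAM hx hx0 fun k hk e => faith_of_pCoreOf h0 hQ hk e
  have hB' := hB
  rw [← b.bar_self] at hB hB'
  obtain ⟨F, _, _, ⟨m⟩⟩ := hB'
  refine ⟨F, inferInstance, inferInstance, ?_, ⟨(b.equiv hfaith le_rfl).trans m.ρ⟩, ?_, ?_⟩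
  · rw [← Nat.card_eq_fintype_card, ← m.card_eq, Nat.card_congr (b.equiv hfaith hAP).toEquiv]
  · rw [← b.up_fx hAP, hB.fx_eq, up_sup, b.up_cm_top hAP, b.up_fx le_rfl]
  · simpa only [up_top] using b.actsAs le_rfl m (U := ⊤) (by rw [nrm_top]; exact le_top)
      (top_sup_eq _)

end Cfsg.Agent.S2999
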