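import Cfsg.Statements.S3003
import Cfsg.Agent.Base
import Cfsg.Agent.H98.PIrr
import Cfsg.Agent.H1.CoprimeGen
import Cfsg.Agent.H3.FrattiniP

set_option autoImplicit false
open Cfsg

namespace Cfsg.Agent.S3003

open Subgroup H98
open scoped commutatorElement


/-- Let G be a finite group, p a prime and Q a large p-subgroup of G: C_G(Q) ≤ Q and N_G(U) ≤ N_G(Q) for every nontrivial subgroup U of C_G(Q). Let Q ≤ G₁ ≤ G, let R be a subgroup of order prime to p normalized by G₁, and let U ≤ G₁ be a p-subgroup. If U contains a nontrivial element which is G₁-conjugate to an element of Z(Q), then C_R(U) = 1. In particular, if U is elementary abelian of order at least p² and every maximal subgroup of U contains a nontrivial element G₁-conjugate into Z(Q), then R = 1. -/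
theorem result {G : Type*} [Group G] [Finite G] {p : ℕ} [Fact p.Prime] (Q : Subgroup G) (hQp : IsPGroup p ↥Q) (hlarge : Cfsg.IsLarge Q) (G₁ : Subgroup G) (hQG : Q ≤ G₁) (R : Subgroup G) (hR : (Nat.card ↥R).Coprime p) (hGR : G₁ ≤ Subgroup.normalizer (R : Set G)) (U : Subgroup G) (hUG : U ≤ G₁) (hUp : IsPGroup p ↥U) : ((∃ x ∈ U, x ≠ 1 ∧ ∃ g ∈ G₁, g * x * g⁻¹ ∈ Q ⊓ Subgroup.centralizer (Q : Set G)) → R ⊓ Subgroup.centralizer (U : Set G) = ⊥) ∧ (Cfsg.IsElementaryAbelian p U → p ^ 2 ≤ Nat.card ↥U → (∀ U₀ : Subgroup G, U₀ ≤ U → IsCoatom (U₀.subgroupOf U) → ∃ x ∈ U₀, x ≠ 1 ∧ ∃ g ∈ G₁, g * x * g⁻¹ ∈ Q ⊓ Subgroup.centralizer (Q : Set G)) → R = ⊥) := by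
  have key : ∀ x : G, x ≠ 1 → (∃ g ∈ G₁, g * x * g⁻¹ ∈ Q ⊓ centralizer (Q : Set G)) →
      R ⊓ centralizer {x} = ⊥ := by
    rintro x hx ⟨g, hg, hy⟩
    have hQR : Q ⊓ R = ⊥ := by
      rw [← res_eq_self_of_coprime (p := p)
        (Nat.Coprime.coprime_dvd_left (card_dvd_of_le (inf_le_right : Q ⊓ R ≤ R)) hR)]
      exact res_eq_bot_of_isPGroup hQp.to_inf_left
    have h1 := hlarge.2 (zpowers (g * x * g⁻¹)) (zpowers_le.mpr hy.2)
      (by rw [Ne, zpowers_eq_bot]; simpa using hx)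
    have h2 : R ⊓ centralizer (zpowers (g * x * g⁻¹) : Set G) ≤ Q := by
      refine le_trans ?_ hlarge.1
      rw [← commutator_eq_bot_iff_le_centralizer, eq_bot_iff, ← hQR]
      exact le_inf (commutator_le_right' (inf_le_right.trans ((centralizer_le_normalizer _).trans h1)))
        ((commutator_mono inf_le_left le_rfl).trans (commutator_le_left' (hQG.trans hGR)))
    have h3 : R ⊓ centralizer (zpowers (g * x * g⁻¹) : Set G) = ⊥ :=
      le_bot_iff.mp (hQR ▸ le_inf h2 inf_le_left)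
    rwa [← cj_zpowers, ← cj_centralizer, ← cj_eq_self (hGR hg), ← cj_inf, cj_eq_bot_iff,
      centralizer_zpowers] at h3
  have key2 : ∀ Y : Subgroup G, (∃ x ∈ Y, x ≠ 1 ∧ ∃ g ∈ G₁, g * x * g⁻¹ ∈ Q ⊓ centralizer (Q : Set G)) →
      R ⊓ centralizer (Y : Set G) = ⊥ := by
    rintro Y ⟨x, hx, h1, h2⟩
    rw [eq_bot_iff, ← key x h1 h2]
    exact inf_le_inf_left R (centralizer_le (Set.singleton_subset_iff.mpr hx))
  refine ⟨key2 U, fun hea hcard h => ?_⟩
  haveI := hea.1
  obtain ⟨n, hn⟩ := IsPGroup.iff_card.mp hUp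
  refine le_bot_iff.mp (H1.le_of_cocyclic_centralizer_le (hUG.trans hGR)
    (by rw [hn]; exact Nat.Coprime.pow_left n hR.symm) ⊥ fun Y hY hc => ?_)
  by_cases hYU : Y.subgroupOf U = ⊤
  · have hne : (⊥ : Subgroup U) ≠ ⊤ := by
      intro e
      have h1 : Nat.card U = 1 := by rw [← card_top, ← e, card_bot]
      have := (Nat.one_lt_pow two_ne_zero (Fact.out : p.Prime).one_lt).trans_le hcard
      omega
    obtain ⟨M, hM, -⟩ := H3.exists_coatom_ge hne
    obtain ⟨x, hx, h2⟩ := h (M.map U.subtype) (map_subtype_le M)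
      (by rwa [subgroupOf, comap_map_eq_self_of_injective U.subtype_injective])
    exact (key2 Y ⟨x, subgroupOf_eq_top.mp hYU (map_subtype_le M hx), h2⟩).le
  · refine (key2 Y (h Y hY (H3.isCoatom_of_index_prime ?_))).le
    obtain ⟨g, hg⟩ := hc.exists_ofOrder_eq_natCard
    have h1 : g ^ p = 1 := by
      obtain ⟨u, rfl⟩ := QuotientGroup.mk_surjective g
      rw [← QuotientGroup.mk_pow, show u ^ p = 1 from Subtype.ext (hea.2 u u.2), QuotientGroup.mk_one]
    have h2 := orderOf_dvd_of_pow_eq_one h1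
    rw [hg, ← index_eq_card] at h2
    rcases (Nat.dvd_prime Fact.out).mp h2 with h3 | h3
    · exact absurd (index_eq_one.mp h3) hYU
    · rw [h3]; exact Fact.out

end Cfsg.Agent.S3003
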