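import Cfsg.Statements.S3009
import Cfsg.Agent.H92.NatQ

set_option autoImplicit false
open Cfsg

namespace Cfsg.Agent.S3009

/-- Let p be a prime and let G and V be subgroups of a finite group with V elementary abelian and normalized by G, and G isomorphic to SL₂(F) for a finite field F with pⁿ elements. Suppose G acts irreducibly and nontrivially on V by conjugation (no G-invariant subgroups of V other than 1 and V, and [V, G] ≠ 1), and let S be a Sylow p-subgroup of G and V₀ = C_V(S). If [V, S, S] = 1 or |V| ≤ |V₀|², then G acts on V as SL₂(F) on its natural two-dimensional module; in particular |V| = |F|². -/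
theorem result {X : Type*} [Group X] [Finite X] {p : ℕ} [Fact p.Prime] (G V : Subgroup X) (hV : Cfsg.IsElementaryAbelian p V) (hGV : G ≤ Subgroup.normalizer (V : Set X)) (F : Type) [Field F] [Fintype F] (n : ℕ) (hF : Fintype.card F = p ^ n) (hG : Nonempty (↥G ≃* Matrix.SpecialLinearGroup (Fin 2) F)) (hirr : ∀ U : Subgroup X, U ≤ V → G ≤ Subgroup.normalizer (U : Set X) → U = ⊥ ∨ U = V) (hnt : ⁅V, G⁆ ≠ ⊥) (S : Sylow p ↥G) (hyp : ⁅⁅V, (S : Subgroup ↥G).map G.subtype⁆, (S : Subgroup ↥G).map G.subtype⁆ = ⊥ ∨ Nat.card ↥V ≤ Nat.card ↥(V ⊓ Subgroup.centralizer (((S : Subgroup ↥G).map G.subtype : Subgroup X) : Set X)) ^ 2) : Cfsg.ActsAsSL2OnSection F ⊤ G V ⊥ := by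
  classical
  have := charP_of_card_eq_prime_pow hF
  obtain ⟨e₀⟩ := hG
  obtain ⟨g, hg⟩ := MulAction.exists_smul_eq G ((H11.sylU p).comapOfInjective e₀.toMonoidHom
    e₀.injective (by rw [MonoidHom.range_eq_top.2 e₀.surjective]; exact le_top)) S
  let e : G ≃* Matrix.SpecialLinearGroup (Fin 2) F := (MulAut.conj g⁻¹).trans e₀
  have hS : ∀ x : G, x ∈ (S : Subgroup G) ↔ e x ∈ H11.uSub F := fun x => by
    rw [← hg, Sylow.coe_subgroup_smul, Subgroup.mem_pointwise_smul_iff_inv_smul_mem, ← map_inv]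
    rfl
  have hS' : ∀ x, x ∈ (S : Subgroup G).map G.subtype ↔ ∃ t, (e.symm (H11.uMat t) : X) = x := by
    intro x
    constructor
    · rintro ⟨y, hy, rfl⟩
      obtain ⟨t, ht⟩ := H11.mem_uSub.1 ((hS y).1 hy)
      exact ⟨t, by rw [ht, e.symm_apply_apply]; rfl⟩
    · rintro ⟨t, rfl⟩
      exact ⟨_, (hS _).2 (by rw [e.apply_symm_apply]; exact H11.uMat_mem_uSub t), rfl⟩
  generalize (S : Subgroup G).map G.subtype = T at hS' hyp
  have hc : ∀ (g : G) (v : X), v ∈ V → (g : X) * v * (g : X)⁻¹ ∈ V := fun g v hv =>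
    (Subgroup.mem_normalizer_iff.1 (hGV g.2) v).1 hv
  let i1 : AddCommGroup (Additive V) :=
    { (inferInstance : AddGroup (Additive V)) with
      add_comm := fun a b => hV.1.is_comm.comm (Additive.toMul a) (Additive.toMul b) }
  let i2 : DistribMulAction (Matrix.SpecialLinearGroup (Fin 2) F) (Additive V) :=
    { smul := fun g m => Additive.ofMul ⟨_, hc (e.symm g) _ m.toMul.2⟩
      one_smul := fun m => Subtype.ext (by
        change (e.symm 1 : X) * m.toMul * (e.symm 1 : X)⁻¹ = m.toMul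
        simp)
      mul_smul := fun g h m => Subtype.ext (by
        change (e.symm (g * h) : X) * m.toMul * (e.symm (g * h) : X)⁻¹ =
          (e.symm g : X) * ((e.symm h : X) * m.toMul * (e.symm h : X)⁻¹) * (e.symm g : X)⁻¹
        simp [mul_assoc])
      smul_zero := fun g => Subtype.ext (by
        change (e.symm g : X) * 1 * (e.symm g : X)⁻¹ = 1
        simp)
      smul_add := fun g a b => Subtype.ext (by
        change (e.symm g : X) * (a.toMul * b.toMul) * (e.symm g : X)⁻¹ =
          (e.symm g : X) * a.toMul * (e.symm g : X)⁻¹ * ((e.symm g : X) * b.toMul * (e.symm g : X)⁻¹)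
        simp [mul_assoc]) }
  have hs : ∀ (g : Matrix.SpecialLinearGroup (Fin 2) F) (m : Additive V),
      ((g • m).toMul : X) = (e.symm g : X) * m.toMul * (e.symm g : X)⁻¹ := fun _ _ => rfl
  have hext : ∀ {a b : Additive V}, (a.toMul : X) = b.toMul → a = b := fun h => Subtype.ext h
  have hU : ∀ m : Additive V, m ∈ H92.NQ.U F (Additive V) ↔
      (m.toMul : X) ∈ Subgroup.centralizer (T : Set X) := fun m => by
    rw [Subgroup.mem_centralizer_iff]
    constructor
    · intro h x hx
      obtain ⟨t, rfl⟩ := (hS' x).1 hx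
      have := hs (H11.uMat t) m
      rw [h t] at this
      exact (eq_mul_inv_iff_mul_eq.1 this).symm
    · intro h t
      apply hext
      rw [hs, h _ ((hS' _).2 ⟨t, rfl⟩), mul_inv_cancel_right]
  obtain ⟨θ, hθ⟩ := H92.NQ.main (F := F) (M := Additive V) (p := p)
    (fun v => hext (hV.2 _ v.toMul.2)) (fun Y hY => by
      have hm : ∀ x, x ∈ Y.toSubgroup.map V.subtype ↔ ∃ y ∈ Y, (y.toMul : X) = x := fun x =>
        ⟨fun ⟨y, hy, h⟩ => ⟨Additive.ofMul y, hy, h⟩, fun ⟨y, hy, h⟩ => ⟨y.toMul, hy, h⟩⟩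
      have hn : ∀ (g : G) (x : X), x ∈ Y.toSubgroup.map V.subtype →
          (g : X) * x * (g : X)⁻¹ ∈ Y.toSubgroup.map V.subtype := fun g x hx => by
        obtain ⟨y, hy, rfl⟩ := (hm x).1 hx
        exact (hm _).2 ⟨_, hY (e g) y hy, by rw [hs, e.symm_apply_apply]⟩
      rcases hirr (Y.toSubgroup.map V.subtype) (Subgroup.map_subtype_le _) (fun g hg =>
        Subgroup.mem_normalizer_iff.2 fun x => ⟨hn ⟨g, hg⟩ x, fun h => by
          simpa [mul_assoc] using hn ⟨g, hg⟩⁻¹ _ h⟩) with h | h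
      · refine Or.inl (eq_bot_iff.2 fun y hy => hext ?_)
        have := (hm _).2 ⟨y, hy, rfl⟩
        rwa [h] at this
      · refine Or.inr (eq_top_iff.2 fun y _ => ?_)
        obtain ⟨z, hz, e⟩ := (hm y.toMul).1 (by rw [h]; exact y.toMul.2)
        exact hext e ▸ hz) (by
      by_contra h
      push Not at h
      refine hnt (Subgroup.commutator_eq_bot_iff_le_centralizer.2 fun v hv =>
        Subgroup.mem_centralizer_iff.2 fun x hx => ?_)
      have := hs (e ⟨x, hx⟩) (Additive.ofMul ⟨v, hv⟩)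
      rw [h, e.symm_apply_apply] at this
      exact (eq_mul_inv_iff_mul_eq.1 this).symm) (hyp.imp (fun h t v => by
      rw [hU, sub_eq_add_neg]
      refine Subgroup.commutator_eq_bot_iff_le_centralizer.1 h ?_
      rw [Subgroup.commutator_comm]
      exact Subgroup.commutator_mem_commutator ((hS' _).2 ⟨t, rfl⟩) v.toMul.2) fun h => by
      refine h.trans (le_of_eq ?_)
      congr 1
      refine (Nat.card_congr (Equiv.ofBijective
        (fun m : H92.NQ.U F (Additive V) => (⟨m.1.toMul, m.1.toMul.2, (hU _).1 m.2⟩ :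
          ↥(V ⊓ Subgroup.centralizer (T : Set X)))) ⟨fun a b h => Subtype.ext (hext
            (congrArg (fun z : ↥(V ⊓ Subgroup.centralizer (T : Set X)) => (z : X)) h)), fun a => ⟨⟨Additive.ofMul ⟨a, a.2.1⟩, (hU _).2 a.2.2⟩,
              rfl⟩⟩)).symm)
  refine ⟨hGV, bot_le, e.toMonoidHom, AddMonoidHom.toMultiplicativeRight θ.symm.toAddMonoidHom,
    MonoidHom.range_eq_top.2 e.surjective, fun x => ?_, fun u => ?_, fun g u => ?_⟩
  · exact ⟨(θ x.toAdd).toMul, θ.symm_apply_apply _⟩
  · change θ.symm (Additive.ofMul u) = 0 ↔ _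
    rw [map_eq_zero_iff _ θ.symm.injective, Subgroup.mem_bot]
    exact ⟨fun h => congrArg (fun m : Additive V => (m.toMul : X)) h, fun h => hext h⟩
  · refine ⟨(e g • Additive.ofMul u).toMul, by rw [hs, e.symm_apply_apply]; rfl, ?_⟩
    change θ.symm (e g • Additive.ofMul u) = Matrix.mulVec _ (θ.symm (Additive.ofMul u))
    rw [AddEquiv.symm_apply_eq]
    exact ((hθ (e g) _).trans (by rw [θ.apply_symm_apply])).symm

end Cfsg.Agent.S3009
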