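import Cfsg.Statements.S3011
import Cfsg.Agent.Base
import Cfsg.Agent.H99.Sidki

set_option autoImplicit false
open Cfsg

namespace Cfsg.Agent.S3011

open Subgroup Cfsg H98 H99

/-- Let G be a finite group and V a nontrivial elementary abelian 2-subgroup of G of order at most 4 such that, whenever an element of V inverts an element h of G of odd order, some nontrivial element of V commutes with h. Then V meets O₂(G) nontrivially. (The case of order at most 4 has a short argument from the Baer–Suzuki theorem.) -/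
theorem result {G : Type*} [Group G] [Finite G] (V : Subgroup G) (hV : Cfsg.IsElementaryAbelian 2 V) (hV1 : V ≠ ⊥) (hS : Cfsg.IsSidkiPair V) (h4 : Nat.card V ≤ 4) : V ⊓ Cfsg.pCore 2 G ≠ ⊥ := by
  intro hO
  have hex : ∀ t ∈ V, t ≠ 1 → ∃ h : G, h ≠ 1 ∧ Odd (orderOf h) ∧ t * h * t⁻¹ = h⁻¹ := by
    intro t ht h1
    refine exists_inverted_of_not_mem (elemAb_sq hV ht) fun h => h1 ?_
    have : t ∈ V ⊓ pCore 2 G := ⟨ht, h⟩
    rwa [hO, mem_bot] at this
  have hno : ∀ t h : G, h ≠ 1 → Odd (orderOf h) → t * h * t⁻¹ = h⁻¹ → t * h = h * t → False := by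
    intro t h h1 ho hi hc
    refine h1 (eq_one_of_odd_of_eq_inv ho ?_)
    rw [← hi, hc, mul_inv_cancel_right]
  obtain ⟨⟨a₀, ha₀⟩, ha₀1⟩ := (ne_bot_iff_exists_ne_one).1 hV1
  have ha₀1' : a₀ ≠ 1 := fun h => ha₀1 (Subtype.ext h)
  obtain ⟨x, hx1, hxo, hxi⟩ := hex a₀ ha₀ ha₀1'
  obtain ⟨b, hb, hb1, hbx⟩ := hS x a₀ ha₀ hxo hxi
  have hab₀ : a₀ ≠ b := fun h => hno a₀ x hx1 hxo hxi (h ▸ hbx)
  obtain ⟨y, hy1, hyo, hyi⟩ := hex b hb hb1
  obtain ⟨a, ha, ha1, hay⟩ := hS y b hb hyo hyi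
  have hab : a ≠ b := fun h => hno b y hy1 hyo hyi (h ▸ hay)
  have ebx : b * x * b⁻¹ = x := by rw [hbx]; group
  have eay : a * y * a⁻¹ = y := by rw [hay]; group
  have hax : a * x * a⁻¹ = x⁻¹ := by
    rcases mem_four hV h4 ha₀ hb ha ha₀1' hb1 hab₀ ha1 with h | h | h
    · rw [h, hxi]
    · exact absurd h hab
    · rw [h]
      calc a₀ * b * x * (a₀ * b)⁻¹ = a₀ * (b * x * b⁻¹) * a₀⁻¹ := by group
        _ = x⁻¹ := by rw [ebx, hxi]
  have hzo : Odd (orderOf (y⁻¹ * x * y)) := by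
    have := (MulAut.conj y⁻¹).orderOf_eq x
    rw [MulAut.conj_apply, inv_inv] at this
    rwa [this]
  have hz1 : y⁻¹ * x * y ≠ 1 := by
    intro h
    apply hx1
    calc x = y * (y⁻¹ * x * y) * y⁻¹ := by group
      _ = 1 := by rw [h]; group
  have haz : a * (y⁻¹ * x * y) * a⁻¹ = (y⁻¹ * x * y)⁻¹ := by
    calc a * (y⁻¹ * x * y) * a⁻¹ = (a * y * a⁻¹)⁻¹ * (a * x * a⁻¹) * (a * y * a⁻¹) := by group
      _ = _ := by rw [eay, hax]; group
  have hbz : b * (y⁻¹ * x * y) * b⁻¹ = y * x * y⁻¹ := by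
    calc b * (y⁻¹ * x * y) * b⁻¹ = (b * y * b⁻¹)⁻¹ * (b * x * b⁻¹) * (b * y * b⁻¹) := by group
      _ = _ := by rw [ebx, hyi]; group
  obtain ⟨w, hw, hw1, hwz⟩ := hS _ a ha hzo haz
  rcases mem_four hV h4 ha hb hw ha1 hb1 hab hw1 with rfl | rfl | rfl
  · exact hno _ _ hz1 hzo haz hwz
  · have h1 : y * x * y⁻¹ = y⁻¹ * x * y := by rw [← hbz, hwz]; group
    have h2 : x * y = y * x := by
      refine commute_of_commute_sq hyo ?_
      calc x * (y * y) = y * (y⁻¹ * x * y) * y := by group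
        _ = y * y * x := by rw [← h1]; group
    obtain ⟨u, hu, hu1, hux, huy⟩ := sidki_pair hV hS ha hw hxo hyo h2 hax hay hyi hbx
    rcases mem_four hV h4 ha hw hu ha1 hb1 hab hu1 with rfl | rfl | rfl
    · exact hno _ _ hx1 hxo hax hux
    · exact hno _ _ hy1 hyo hyi huy
    · refine hno _ _ hx1 hxo ?_ hux
      calc a * w * x * (a * w)⁻¹ = a * (w * x * w⁻¹) * a⁻¹ := by group
        _ = x⁻¹ := by rw [ebx, hax]
  · have h1 : y * x⁻¹ * y⁻¹ = y⁻¹ * x * y := by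
      calc y * x⁻¹ * y⁻¹ = (a * y * a⁻¹) * (a * x * a⁻¹) * (a * y * a⁻¹)⁻¹ := by rw [eay, hax]
        _ = a * (b * (y⁻¹ * x * y) * b⁻¹) * a⁻¹ := by rw [hbz]; group
        _ = a * b * (y⁻¹ * x * y) * (a * b)⁻¹ := by group
        _ = _ := by rw [hwz]; group
    obtain ⟨s, hso, h3⟩ : ∃ s : G, Odd (orderOf s) ∧ s * x⁻¹ * s⁻¹ = x := by
      refine ⟨y * y, odd_orderOf_mul_of_commute rfl hyo hyo, ?_⟩
      calc (y * y) * x⁻¹ * (y * y)⁻¹ = y * (y * x⁻¹ * y⁻¹) * y⁻¹ := by simp only [mul_inv_rev, mul_assoc]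
        _ = x := by rw [h1]; group
    have h2 : s * x * s⁻¹ = x⁻¹ := by
      calc s * x * s⁻¹ = (s * x⁻¹ * s⁻¹)⁻¹ := by group
        _ = x⁻¹ := by rw [h3]
    refine hno _ _ hx1 hxo h2 (commute_of_commute_sq (w := x) hso ?_).symm
    calc x * (s * s) = (s * x⁻¹ * s⁻¹) * (s * s) := by rw [h3]
      _ = s * x⁻¹ * s := by simp only [mul_assoc, inv_mul_cancel_left]
      _ = s * (s * x * s⁻¹) * s := by rw [h2]
      _ = s * s * x := by simp only [mul_assoc, inv_mul_cancel, mul_one]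

end Cfsg.Agent.S3011
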