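import Cfsg.Statements.S3013
import Cfsg.Agent.Base
import Cfsg.Agent.H99.Sidki

set_option autoImplicit false
open Cfsg

namespace Cfsg.Agent.S3013

open Subgroup Cfsg H98 H99

/-- Let G be a finite group and V a nontrivial elementary abelian 2-subgroup of G satisfying the Sidki pair condition. Let v ∈ V and let x be an element of odd order inverted by v, and put C = C_G(v) ∩ C_G(x), the centralizer of the dihedral subgroup generated by v and x. Then C ∩ V is nontrivial and satisfies the Sidki pair condition inside C: every odd-order element of C inverted by an element of C ∩ V commutes with a nontrivial element of C ∩ V. -/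
theorem result {G : Type*} [Group G] [Finite G] (V : Subgroup G) (hV : Cfsg.IsElementaryAbelian 2 V) (hV1 : V ≠ ⊥) (hS : Cfsg.IsSidkiPair V) (v x : G) (hv : v ∈ V) (hx : Odd (orderOf x)) (hinv : v * x * v⁻¹ = x⁻¹) (C : Subgroup G) (hC : C = Subgroup.centralizer ({v} : Set G) ⊓ Subgroup.centralizer ({x} : Set G)) : C ⊓ V ≠ ⊥ ∧ Cfsg.IsSidkiPair ((C ⊓ V).subgroupOf C) := by
  subst hC
  have key : ∀ w ∈ V, w * x = x * w →
      w ∈ centralizer ({v} : Set G) ⊓ centralizer ({x} : Set G) ⊓ V := fun w hw hc =>
    ⟨⟨mem_centralizer_singleton_iff.2 (elemAb_comm hV hw hv), mem_centralizer_singleton_iff.2 hc⟩, hw⟩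
  constructor
  · obtain ⟨w, hw, hw1, hc⟩ := hS x v hv hx hinv
    intro h
    exact hw1 (mem_bot.1 (h ▸ key w hw hc))
  · intro h u hu ho hi
    obtain ⟨w, hw, hw1, h1, h2⟩ := sidki_pair hV hS (u := u) (h := h) hu.2 hv (by rwa [orderOf_coe]) hx
      (mem_centralizer_singleton_iff.1 h.2.2) (congrArg Subtype.val hi)
      (mem_centralizer_singleton_iff.1 u.2.2) hinv (mem_centralizer_singleton_iff.1 h.2.1).symm
    exact ⟨⟨w, (key w hw h2).1⟩, key w hw h2, fun h => hw1 (congrArg Subtype.val h), Subtype.ext h1⟩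

end Cfsg.Agent.S3013
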