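import Cfsg.Statements.S3014
import Cfsg.Agent.Base
import Cfsg.Agent.H99.WTriple

set_option autoImplicit false
open Cfsg

namespace Cfsg.Agent.S3014

open Subgroup Cfsg H98 H99

/-- Let G be a finite group and H ≤ M ≤ G subgroups such that for every g ∈ G the subgroup generated by H and g H g⁻¹ meets M exactly in H. If H is a maximal subgroup of M and M is a maximal subgroup of G, then the normal closure of H in G meets M exactly in H. -/
theorem result {G : Type*} [Group G] [Finite G] (H M : Subgroup G) (hHM : H ≤ M) (hcl : ∀ g : G, (H ⊔ H.map (MulAut.conj g).toMonoidHom) ⊓ M = H) (hmaxH : IsCoatom (H.subgroupOf M)) (hmaxM : IsCoatom M) : Subgroup.normalClosure (H : Set G) ⊓ M = H := by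
  have hn : M ≤ normalizer (H : Set G) := fun m hm => by
    refine mem_normalizer_of_cj_le ?_
    rw [← hcl m]
    refine le_inf ?_ ?_
    · rw [hcl m]; exact le_sup_right
    · rw [hcl m]; exact cj_le_of_le_of_mem hHM hm
  by_cases h : ∀ a : G, a ∉ M → ∀ y ∈ M, a⁻¹ * y * a ∈ M → a⁻¹ * y * a ∈ H
  · obtain ⟨K, hK, -, hKM⟩ := exists_normal_inf_eq hHM (commutator_le_of_isCoatom hHM hn hmaxH) h
    refine le_antisymm ?_ (le_inf le_normalClosure hHM)
    rw [← hKM]
    refine inf_le_inf_right _ ?_
    rw [hKM]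
    exact normalClosure_le_normal (show H ≤ K from hKM ▸ inf_le_left)
  push Not at h
  obtain ⟨a, ha, y, hy, hz, hzH⟩ := h
  set T := H ⊔ cj a⁻¹ H with hT
  have hTM : T ⊓ M = H := hcl a⁻¹
  have h1 : a⁻¹ * y * a ∈ normalizer (T : Set G) := by
    refine le_normalizer_sup (H := zpowers _) (zpowers_le.2 (hn hz)) (zpowers_le.2 ?_) (mem_zpowers _)
    rw [← cj_normalizer]
    simpa using conj_mem_cj (g := a⁻¹) (hn hy)
  have h2 : M ≤ normalizer (T : Set G) := by
    have := hmaxH.2 ((normalizer (T : Set G)).subgroupOf M) (lt_of_le_of_ne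
      (subgroupOf_mono M (le_sup_left.trans le_normalizer)) fun he => hzH (by
        have h3 : (⟨_, hz⟩ : M) ∈ (normalizer (T : Set G)).subgroupOf M := h1
        rw [← he] at h3
        exact h3))
    exact subgroupOf_eq_top.1 this
  have h3 : H.Normal ∨ T.Normal := by
    by_cases hTle : T ≤ M
    · left
      have h4 : cj a⁻¹ H ≤ H := by
        rw [← hTM]
        refine le_inf ?_ ?_
        · rw [hTM]; exact le_sup_right
        · rw [hTM]; exact le_sup_right.trans hTle
      exact normalizer_eq_top_iff.1 (hmaxM.2 _ (lt_of_le_of_ne hn fun he =>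
        ha (inv_mem_iff.1 (he ▸ mem_normalizer_of_cj_le h4))))
    · right
      exact normalizer_eq_top_iff.1 (hmaxM.2 _ (lt_of_le_of_ne h2 fun he => hTle (he ▸ le_normalizer)))
  refine le_antisymm ?_ (le_inf le_normalClosure hHM)
  rcases h3 with h3 | h3
  · rw [normalClosure_eq_self]
    exact inf_le_left
  · refine le_trans (inf_le_inf_right _ ?_) hTM.le
    exact normalClosure_le_normal (show H ≤ T from le_sup_left)

end Cfsg.Agent.S3014
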