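import Cfsg.Statements.S3015
import Cfsg.Agent.Base
import Cfsg.Agent.H99.WTriple
import Cfsg.Agent.H99.Product

set_option autoImplicit false
open Cfsg

namespace Cfsg.Agent.S3015

open Subgroup Cfsg H98 H99

/-- Let G be a finite non-abelian simple group, M a maximal subgroup of G and H a normal subgroup of M of prime index in M. Then G is generated by H together with one of its conjugates. -/
theorem result {G : Type*} [Group G] [Finite G] [IsSimpleGroup G] (hG : ¬ IsMulCommutative G) (M H : Subgroup G) (hmaxM : IsCoatom M) (hHM : H ≤ M) (hHn : (H.subgroupOf M).Normal) (hidx : (H.relIndex M).Prime) : ∃ g : G, H ⊔ H.map (MulAut.conj g).toMonoidHom = ⊤ := by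
  by_contra hcon
  push Not at hcon
  set q := H.relIndex M with hq
  have : Fact q.Prime := ⟨hidx⟩
  have hn : M ≤ normalizer (H : Set G) := (normal_subgroupOf_iff_le_normalizer hHM).1 hHn
  have hM1 : M ≠ ⊥ := by
    intro h
    rw [h, relIndex_bot_right] at hq
    exact hidx.one_lt.ne' hq
  have hnorm : ∀ T : Subgroup G, T ≠ ⊥ → T ≠ ⊤ → M ≤ normalizer (T : Set G) →
      normalizer (T : Set G) = M := by
    intro T h1 h2 h3
    by_contra hne
    have := normalizer_eq_top_iff.1 (hmaxM.2 _ (lt_of_le_of_ne h3 (Ne.symm hne)))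
    exact (this.eq_bot_or_eq_top).elim h1 h2
  have hmaxH : IsCoatom (H.subgroupOf M) := by
    refine ⟨fun h => hidx.one_lt.ne' ?_, fun K hK => ?_⟩
    · rw [hq, relIndex, h, index_top]
    · have h1 := index_dvd_of_le hK.le
      rcases (Nat.dvd_prime hidx).1 h1 with h | h
      · exact index_eq_one.1 h
      · exact absurd (eq_of_le_of_card_ge hK.le (by
          have h2 := K.card_mul_index
          have h3 := (H.subgroupOf M).card_mul_index
          rw [h] at h2
          exact (Nat.eq_of_mul_eq_mul_right hidx.pos (h2.trans h3.symm)).le)) hK.ne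
  have hc := commutator_le_of_isCoatom hHM hn hmaxH
  have hres : res q M ≤ H := by
    rw [res_le_iff]
    intro x hx
    refine ⟨1, ?_⟩
    have := (H.subgroupOf M).pow_index_mem ⟨x, hx⟩
    rw [pow_one]
    exact this
  have h : ∀ a : G, a ∉ M → ∀ y ∈ M, a⁻¹ * y * a ∈ M → a⁻¹ * y * a ∈ H := by
    intro a ha y hy hz
    by_contra hzH
    set T := H ⊔ cj a⁻¹ H with hT
    have h1 : a⁻¹ * y * a ∈ normalizer (T : Set G) := by
      refine le_normalizer_sup (H := zpowers _) (zpowers_le.2 (hn hz)) (zpowers_le.2 ?_) (mem_zpowers _)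
      rw [← cj_normalizer]
      simpa using conj_mem_cj (g := a⁻¹) (hn hy)
    have h2 : M ≤ normalizer (T : Set G) := by
      have := hmaxH.2 ((normalizer (T : Set G)).subgroupOf M) (lt_of_le_of_ne
        (subgroupOf_mono M (le_sup_left.trans le_normalizer)) fun he => hzH (by
          have h3 : (⟨_, hz⟩ : M) ∈ (normalizer (T : Set G)).subgroupOf M := h1
          rw [← he] at h3
          exact h3))
      exact subgroupOf_eq_top.1 this
    have hMn := hnorm M hM1 hmaxM.1 le_normalizer
    by_cases hH1 : H = ⊥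
    · -- `M` has prime order and `a⁻¹ y a` generates both `M` and its conjugate
      have h3 : zpowers (a⁻¹ * y * a) = M := by
        have := hmaxH.2 ((zpowers (a⁻¹ * y * a)).subgroupOf M) (lt_of_le_of_ne
          (subgroupOf_mono M (hH1 ▸ bot_le)) fun he => hzH (by
            have h3 : (⟨_, hz⟩ : M) ∈ (zpowers (a⁻¹ * y * a)).subgroupOf M := mem_zpowers _
            rw [← he] at h3
            exact h3))
        exact le_antisymm (zpowers_le.2 hz) (subgroupOf_eq_top.1 this)
      have h4 : cj a M ≤ M := by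
        rw [cj_le_iff]
        conv_lhs => rw [← h3]
        rw [zpowers_le, mem_cj]
        simpa [mul_assoc] using hy
      exact ha (hMn ▸ mem_normalizer_of_cj_le h4)
    have hT1 : T ≠ ⊥ := fun h => hH1 (le_bot_iff.1 (h ▸ le_sup_left))
    have hTM : T ≤ M := (hnorm T hT1 (hcon a⁻¹) h2) ▸ le_normalizer
    have hHa : cj a⁻¹ H ≤ M := le_sup_right.trans hTM
    have hR : res q H = res q M := res_eq_of_le hres hHM
    have h3 : cj a⁻¹ (res q M) ≤ res q M := by
      conv_lhs => rw [← hR, cj_res]
      exact res_mono hHa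
    have hR1 : res q M = ⊥ := by
      by_contra hne
      have h4 := hnorm _ hne (fun h => hmaxM.1 (eq_top_iff.2 (h ▸ res_le M))) (self_le_normalizer_res M)
      exact ha (inv_mem_iff.1 (h4 ▸ mem_normalizer_of_cj_le h3))
    have hMp : IsPGroup q M := res_eq_bot_iff.1 hR1
    have hlt : cj a⁻¹ H < M := by
      refine lt_of_le_of_ne hHa fun he => ?_
      have h4 : H = M := eq_of_le_of_card_ge hHM (by rw [← he, card_cj])
      rw [h4, relIndex_self] at hq
      exact hidx.one_lt.ne' hq
    have h4 := lt_inf_normalizer hMp hlt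
    have hHt : H ≠ ⊤ := fun h => hmaxM.1 (eq_top_iff.2 (h ▸ hHM))
    rw [← cj_normalizer, hnorm H hH1 hHt hn] at h4
    -- `M ⊓ M^a` properly contains `H^a`, which has prime index in `M^a`
    have h5 : H < cj a M ⊓ M := by
      have := (cj_lt_cj_iff (g := a)).2 h4
      rwa [cj_inf, cj_cj_inv, cj_cj_inv] at this
    have h6 := hmaxH.2 ((cj a M).subgroupOf M) (lt_of_le_of_ne
      (subgroupOf_mono M (h5.le.trans inf_le_left)) fun he => h5.ne (by
        have := congrArg (map M.subtype) he
        rwa [subgroupOf_map_subtype, subgroupOf_map_subtype, inf_eq_left.2 hHM] at this))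
    have h7 : cj a⁻¹ M ≤ M := le_cj_iff.1 (subgroupOf_eq_top.1 h6)
    exact ha (inv_mem_iff.1 (hMn ▸ mem_normalizer_of_cj_le h7))
  obtain ⟨K, hK, hGK, hKM⟩ := exists_normal_inf_eq hHM hc h
  rcases hK.eq_bot_or_eq_top with rfl | rfl
  · apply hG
    rw [le_bot_iff, commutator_eq_bot_iff_center_eq_top] at hGK
    exact ⟨⟨fun a b => (mem_center_iff.1 (hGK ▸ mem_top b) a)⟩⟩
  · rw [top_inf_eq] at hKM
    rw [hKM, relIndex_self] at hq
    exact hidx.one_lt.ne' hq

end Cfsg.Agent.S3015
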