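import Cfsg.Statements.S3020
import Cfsg.Agent.Base
import Cfsg.Agent.H99.Iso

set_option autoImplicit false
open Cfsg

namespace Cfsg.Agent.S3020

open Subgroup Cfsg H98 H99

/-- Let G be a finite group, p a prime and H an abelian p-subgroup of G that is extremely closed (for every g, the subgroup generated by H and g H g⁻¹ meets N_G(H) exactly in H). Then for every g ∈ G, the subgroup T generated by H and g H g⁻¹ is the product of H with O_{p'}(T), and H meets O_{p'}(T) trivially; that is, O_{p'}(T) is a normal p-complement of H in T. -/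
theorem result {G : Type*} [Group G] [Finite G] {p : ℕ} [Fact p.Prime] (H : Subgroup G) (hHp : IsPGroup p H) (hHab : IsMulCommutative H) (hcl : Cfsg.IsExtremelyClosed H) (g : G) (T : Subgroup G) (hT : T = H ⊔ H.map (MulAut.conj g).toMonoidHom) : H ⊔ (Cfsg.pPrimeCore p ↥T).map T.subtype = T ∧ H ⊓ (Cfsg.pPrimeCore p ↥T).map T.subtype = ⊥ := by
  have h1 : T ⊓ normalizer (H : Set G) = H := hT ▸ hcl g
  have hHT : H ≤ T := hT ▸ le_sup_left
  have hS : IsSyl p H T := isSyl_of_isSyl_normalizer (by rw [h1]; exact isSyl_self hHp)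
  obtain ⟨P, hP⟩ := hS.exists_sylow
  have hN : normalizer ((P : Subgroup T) : Set T) ≤ centralizer ((P : Subgroup T) : Set T) := by
    rw [hP, centralizer_subgroupOf hHT, ← subgroupOf_normalizer_eq hHT]
    intro y hy
    have h2 : (y : G) ∈ H := h1 ▸ (⟨y.2, hy⟩ : (y : G) ∈ T ⊓ normalizer (H : Set G))
    exact le_centralizer H h2
  have hc := MonoidHom.ker_transferSylow_isComplement' P hN
  have h2 : (MonoidHom.transferSylow P hN).ker ≤ pPrimeCore p T :=
    H2.le_pPrimeCore_of_not_dvd (H7.not_dvd_card_of_isComplement' P hc)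
  generalize (MonoidHom.transferSylow P hN).ker = K at hc h2
  refine ⟨le_antisymm (sup_le hHT (map_subtype_le _)) ?_, ?_⟩
  · have h3 := congrArg (map T.subtype) hc.sup_eq_top
    rw [Subgroup.map_sup, hP, subgroupOf_map_subtype, inf_eq_left.2 hHT, map_subtype_top] at h3
    conv_lhs => rw [← h3]
    exact sup_le ((map_mono h2).trans le_sup_right) le_sup_left
  · exact (H2.disjoint_of_isPGroup_of_coprime hHp (H2.coprime_card_map_pPrimeCore_subtype T)).eq_bot

end Cfsg.Agent.S3020
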