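import Cfsg.Statements.S3023
import Cfsg.Agent.Base
import Cfsg.Agent.H98.PIrr

set_option autoImplicit false
open Cfsg

namespace Cfsg.Agent.S3023

open Subgroup H98
open scoped commutatorElement


/-- Let p be a prime, G a finite group of parabolic characteristic p (every p-local subgroup containing a Sylow p-subgroup of G has characteristic p), S a Sylow p-subgroup of G and G₁ a subnormal subgroup of G. If the centre of S ∩ G₁ is nontrivial and contained in the centre of S, then G₁ has parabolic characteristic p. -/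
theorem result {G : Type*} [Group G] [Finite G] {p : ℕ} [Fact p.Prime] (hG : Cfsg.IsOfParabolicCharacteristic p G) (S : Sylow p G) (G₁ : Subgroup G) (hsn : G₁.IsSubnormal) (hne : ((S : Subgroup G) ⊓ G₁) ⊓ Subgroup.centralizer (((S : Subgroup G) ⊓ G₁ : Subgroup G) : Set G) ≠ ⊥) (hle : ((S : Subgroup G) ⊓ G₁) ⊓ Subgroup.centralizer (((S : Subgroup G) ⊓ G₁ : Subgroup G) : Set G) ≤ (S : Subgroup G) ⊓ Subgroup.centralizer ((S : Subgroup G) : Set G)) : Cfsg.IsOfParabolicCharacteristic p ↥G₁ := by
  have hs : SubN G₁ ⊤ := subN_top_iff.mpr hsn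
  refine parCharP_iff.mpr (parCharP_of_oz ((isSyl_sylow S).inf_subN hs) fun z h1 h2 => ?_)
  have h3 := hle (H12.omegaOne_le _ h1)
  exact ((parCharP_top_iff.mp hG).centralizer_elt (isSyl_sylow S) h3.1 h3.2 h2).subN (hs.inf_right _)

end Cfsg.Agent.S3023
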