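import Cfsg.Statements.S3025
import Cfsg.Agent.Base
import Cfsg.Agent.H99.SPE2
import Cfsg.Agent.H99.Product

set_option autoImplicit false
open Cfsg

namespace Cfsg.Agent.S3025

open Subgroup Cfsg H98 H99

/-- Let F be a finite group and H a nontrivial subgroup of F that is contained in every nontrivial subgroup of F which H normalizes. Then F has a nontrivial normal subgroup N contained in every nontrivial normal subgroup of F (a unique minimal normal subgroup), N is simple, and one of the following holds: C_F(N) = 1; or H = N has prime order p, C_F(N) is cyclic of order a power of p, and F/C_F(N) is cyclic of order dividing p − 1; or H = N has order 2, N is central in F, and F is a generalized quaternion group. -/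
theorem result {F : Type*} [Group F] [Finite F] (H : Subgroup F) (hH : H ≠ ⊥)
    (hmin : ∀ R : Subgroup F, R ≠ ⊥ → H ≤ Subgroup.normalizer (R : Set F) → H ≤ R) :
    ∃ N : Subgroup F, N.Normal ∧ N ≠ ⊥ ∧ (∀ M : Subgroup F, M.Normal → M ≠ ⊥ → N ≤ M) ∧ IsSimpleGroup ↥N ∧
      (Subgroup.centralizer (N : Set F) = ⊥ ∨
       (H = N ∧ (Nat.card N).Prime ∧ IsCyclic ↥(Subgroup.centralizer (N : Set F)) ∧
          (∃ k : ℕ, 1 ≤ k ∧ Nat.card ↥(Subgroup.centralizer (N : Set F)) = Nat.card N ^ k) ∧
          (∃ g : F, Subgroup.centralizer (N : Set F) ⊔ Subgroup.zpowers g = ⊤) ∧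
          (Subgroup.centralizer (N : Set F)).index ∣ Nat.card N - 1) ∨
       (H = N ∧ Nat.card N = 2 ∧ Subgroup.centralizer (N : Set F) = ⊤ ∧
          ∃ k : ℕ, 1 ≤ k ∧ Nonempty (F ≃* QuaternionGroup (2 ^ k)))) := by
  have hn : ∀ (N : Subgroup F) [N.Normal] (A : Subgroup F), A ≤ normalizer (N : Set F) := by
    intro N _ A
    rw [normalizer_eq_top]; exact le_top
  set N := normalClosure (H : Set F) with hN
  have hHN : H ≤ N := le_normalClosure
  have hN1 : N ≠ ⊥ := fun h => hH (le_bot_iff.1 (h ▸ hHN))
  have hNmin : ∀ M : Subgroup F, M.Normal → M ≠ ⊥ → N ≤ M := fun M hM h1 =>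
    normalClosure_le_normal (hmin M h1 (hn M H))
  have hsimple : IsSimpleGroup N := by
    have : Nontrivial N := (nontrivial_iff_ne_bot N).2 hN1
    refine ⟨fun K hK => ?_⟩
    by_cases hK1 : K = ⊥
    · exact Or.inl hK1
    right
    have h1 : K.map N.subtype ≠ ⊥ := by
      rwa [Ne, map_eq_bot_iff_of_injective _ N.subtype_injective]
    have h2 : N ≤ K.map N.subtype := by
      refine (closure_le _).2 fun y hy => ?_
      obtain ⟨h, hh, hc⟩ := Group.mem_conjugatesOfSet_iff.1 hy
      obtain ⟨g, rfl⟩ := isConj_iff.1 hc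
      have h3 := hmin (cj g⁻¹ (K.map N.subtype)) (by rwa [Ne, cj_eq_bot_iff]) (by
        rw [← cj_normalizer]
        refine hHN.trans ?_
        exact (cj_eq_self_of_normal g⁻¹ N).ge.trans (cj_mono _ (le_normalizer_map_subtype K))) hh
      rwa [mem_cj, inv_inv] at h3
    rw [eq_top_iff]
    intro x _
    obtain ⟨y, hy, he⟩ := h2 x.2
    rwa [← Subtype.ext he]
  refine ⟨N, inferInstance, hN1, hNmin, hsimple, ?_⟩
  by_cases hC : centralizer (N : Set F) = ⊥
  · exact Or.inl hC
  right
  set C := centralizer (N : Set F) with hCdef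
  have hNC : N ≤ C := hNmin _ inferInstance hC
  have hcomm : IsMulCommutative N := (isMulCommutative_iff_le_centralizer N).2 hNC
  have hprime : (Nat.card N).Prime := by
    letI : CommGroup N := { (inferInstance : Group N) with mul_comm := hcomm.is_comm.comm }
    exact IsSimpleGroup.prime_card
  set p := Nat.card N with hp
  have : Fact p.Prime := ⟨hprime⟩
  have hHN' : H = N := by
    refine eq_of_le_of_card_ge hHN ?_
    rcases (Nat.dvd_prime hprime).1 (card_dvd_of_le hHN) with h | h
    · exact absurd (card_eq_one.1 h) hH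
    · exact h.ge
  have hsub : ∀ R ≤ C, R ≠ ⊥ → N ≤ R := fun R hR h1 =>
    hHN' ▸ hmin R h1 (le_normalizer_of_le_centralizer (hHN.trans (le_centralizer_iff.1 hR)))
  have hCp : IsPGroup p C := by
    rw [← res_eq_bot_iff, eq_bot_iff]
    refine res_le_of_forall fun x hx ho => ?_
    by_contra hx1
    have h1 := card_dvd_of_le (hsub _ (zpowers_le.2 hx) fun h => hx1 (h ▸ mem_zpowers x))
    rw [Nat.card_zpowers] at h1
    exact hprime.one_lt.ne' (Nat.Coprime.eq_one_of_dvd ho.symm h1)
  have huniq : ∀ A B : Subgroup C, Nat.card A = p → Nat.card B = p → A = B := by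
    have key : ∀ A : Subgroup C, Nat.card A = p → A.map C.subtype = N := by
      intro A hA
      have h1 : Nat.card (A.map C.subtype) = p := by rwa [card_map_of_injective C.subtype_injective]
      refine (eq_of_le_of_card_ge (hsub _ (map_subtype_le A) fun h => ?_) h1.le).symm
      rw [h, card_bot] at h1
      exact hprime.one_lt.ne h1
    exact fun A B hA hB => map_injective C.subtype_injective ((key A hA).trans (key B hB).symm)
  have hcycN : IsCyclic N := isCyclic_of_prime_card rfl
  have hker : (MulAut.conjNormal : F →* MulAut N).ker = C := by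
    ext g
    rw [MonoidHom.mem_ker, hCdef, mem_centralizer_iff]
    constructor
    · intro h y hy
      have h1 : MulAut.conjNormal g (⟨y, hy⟩ : N) = ⟨y, hy⟩ := by rw [h]; rfl
      have h2 : g * y * g⁻¹ = y := congrArg Subtype.val h1
      calc y * g = g * y * g⁻¹ * g := by rw [h2]
        _ = g * y := by group
    · intro h
      ext y
      change g * y * g⁻¹ = y
      rw [← h y y.2, mul_inv_cancel_right]
  have hidx : C.index ∣ p - 1 := by
    rw [← hker, index_ker, ← Nat.totient_prime hprime, hp, ← IsCyclic.card_mulAut]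
    exact card_subgroup_dvd_card _
  rcases H3.isCyclic_or_quaternion_of_unique hCp huniq with h | ⟨h2, n, ⟨e⟩⟩
  · left
    refine ⟨hHN', hprime, h, ?_, ?_, hidx⟩
    · obtain ⟨k, hk⟩ := hCp.exists_card_eq
      refine ⟨k, Nat.one_le_iff_ne_zero.2 ?_, hk⟩
      rintro rfl
      exact hC (card_eq_one.1 hk)
    · have h1 : IsCyclic (MulAut N) :=
        isCyclic_of_surjective (IsCyclic.mulAutMulEquiv N).symm (IsCyclic.mulAutMulEquiv N).symm.surjective
      obtain ⟨⟨_, g, rfl⟩, hg⟩ := IsCyclic.exists_generator (α := (MulAut.conjNormal : F →* MulAut N).range)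
      refine ⟨g, eq_top_iff.2 fun x _ => ?_⟩
      obtain ⟨k, hk⟩ := hg ⟨_, x, rfl⟩
      have h2 : MulAut.conjNormal (H := N) g ^ k = MulAut.conjNormal x := congrArg Subtype.val hk
      have h3 : x * (g ^ k)⁻¹ ∈ C := by
        rw [← hker, MonoidHom.mem_ker, map_mul, map_inv, map_zpow, h2, mul_inv_cancel]
      have := mul_mem (mem_sup_left h3) (mem_sup_right (zpow_mem_zpowers g k))
      rwa [inv_mul_cancel_right] at this
  · right
    have h3 : C = ⊤ := by
      rw [h2] at hidx
      exact index_eq_one.1 (Nat.dvd_one.1 hidx)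
    refine ⟨hHN', h2, h3, n + 1, Nat.le_add_left 1 n, ⟨(topEquiv.symm.trans (MulEquiv.subgroupCongr h3.symm)).trans e⟩⟩

end Cfsg.Agent.S3025
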