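import Cfsg.Statements.S3027
import Cfsg.Agent.Base
import Cfsg.Agent.H98.PIrr
import Cfsg.Agent.H2.MinNormal

set_option autoImplicit false
open Cfsg

namespace Cfsg.Agent.S3027

open Subgroup H98
open scoped commutatorElement


/-- Let G be a finite group and D a normal subgroup of G such that G/D is perfect (that is, G = G′D). Then among the subnormal subgroups B of G with BD = G there is a least one, and it is normal in G. -/
theorem result {G : Type*} [Group G] [Finite G] (D : Subgroup G) [D.Normal] (hperf : ⁅(⊤ : Subgroup G), (⊤ : Subgroup G)⁆ ⊔ D = ⊤) :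
    ∃ B : Subgroup G, B.Normal ∧ B ⊔ D = ⊤ ∧ ∀ B' : Subgroup G, B'.IsSubnormal → B' ⊔ D = ⊤ → B ≤ B' := by
  let f := QuotientGroup.mk' D
  have hf : ∀ X : Subgroup G, X ⊔ D = ⊤ ↔ X.map f = ⊤ := fun X => by
    constructor
    · intro h
      rw [← map_top_of_surjective f (QuotientGroup.mk'_surjective D), ← h, Subgroup.map_sup,
        (Subgroup.map_eq_bot_iff D).mpr (QuotientGroup.ker_mk' D).ge, sup_bot_eq]
    · intro h
      have := congrArg (comap f) h
      rwa [comap_map_eq, QuotientGroup.ker_mk', comap_top] at this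
  have hc : ∀ X Y Z : Subgroup G, X ⊔ D = ⊤ → Y ⊔ D = ⊤ → ⁅X, Y⁆ ≤ Z → Z ⊔ D = ⊤ := by
    intro X Y Z h1 h2 h3
    rw [eq_top_iff]
    refine le_trans ?_ (sup_le_sup_right h3 D)
    rw [top_le_iff, hf, map_commutator, (hf X).mp h1, (hf Y).mp h2,
      ← map_top_of_surjective f (QuotientGroup.mk'_surjective D), ← map_commutator,
      (hf _).mp hperf, map_top_of_surjective f (QuotientGroup.mk'_surjective D)]
  obtain ⟨B, ⟨hB1, hB2⟩, hB⟩ := H2.exists_minimal_subgroup (fun B : Subgroup G => B.Normal ∧ B ⊔ D = ⊤)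
    ⟨⊤, inferInstance, top_sup_eq _⟩
  obtain ⟨E, ⟨e1, e2, e3⟩, hE⟩ := H2.exists_minimal_subgroup
    (fun E : Subgroup G => E ≤ B ∧ B ≤ normalizer (E : Set G) ∧ E ⊔ D = ⊤) ⟨B, le_rfl, le_normalizer, hB2⟩
  have hEn : E.Normal := normal_of_top_le_normalizer fun g _ => by
    have a1 : cj g E ≤ B := cj_le_of_le e1 (top_le_normalizer B (mem_top g))
    have a2 : B ≤ normalizer (cj g E : Set G) := by
      rw [← cj_normalizer, ← cj_eq_self_of_normal g B]; exact cj_mono g e2
    have a3 : cj g E ⊔ D = ⊤ := by rw [← cj_eq_self_of_normal g D, ← cj_sup, e3, cj_top]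
    have := hE (E ⊓ cj g E) ⟨inf_le_left.trans e1, le_normalizer_inf e2 a2, hc _ _ _ e3 a3
      (le_inf (commutator_le_left' (a1.trans e2)) (commutator_le_right' (e1.trans a2)))⟩ inf_le_left
    have h := inf_eq_left.mp this
    rw [le_cj_iff] at h
    exact inv_mem_iff.mp (mem_normalizer_of_cj_le h)
  have hEB : E = B := hB E ⟨hEn, e3⟩ e1
  subst hEB
  refine ⟨E, hB1, hB2, fun B' h1 h2 => ?_⟩
  have hs := subN_top_iff.mpr h1
  clear h1
  induction hs with
  | refl => exact le_top
  | step K L k1 k2 _ ih =>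
    have hL := ih (top_le_iff.mp (h2 ▸ sup_le_sup_right k1 D))
    have := hE (E ⊓ K) ⟨inf_le_left, le_normalizer_inf le_normalizer (hL.trans k2), hc _ _ _ hB2 h2
      (le_inf (commutator_le_left' (le_normalizer_of_normal' _ _)) (commutator_le_right' (hL.trans k2)))⟩
      inf_le_left
    exact inf_eq_left.mp this

end Cfsg.Agent.S3027
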