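import Cfsg.Statements.S3031
import Cfsg.Agent.H7.Hyperfocal

set_option autoImplicit false
open Cfsg

namespace Cfsg.Agent.S3031

/-- Let G be a finite group, p the smallest prime dividing |G| and P a Sylow p-subgroup. Suppose that P is cyclic, or that P has a subgroup D with 1 < |D| < |P| such that every subgroup E of P of order |D|, and also every subgroup E of P of order 4 when |D| = 2, satisfies g E g⁻¹ ∩ N_G(E) ≤ E for all g ∈ G (E is strongly closed in its normalizer with respect to G). Then G has a normal p-complement. -/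
theorem result {G : Type*} [Group G] [Finite G] {p : ℕ} [Fact p.Prime] (hdiv : p ∣ Nat.card G)
    (hmin : ∀ q : ℕ, q.Prime → q ∣ Nat.card G → p ≤ q) (P : Sylow p G)
    (h : IsCyclic ↥(P : Subgroup G) ∨ ∃ D : Subgroup G, D ≤ (P : Subgroup G) ∧ 1 < Nat.card D ∧ Nat.card D < Nat.card (P : Subgroup G) ∧
      ∀ E : Subgroup G, E ≤ (P : Subgroup G) → (Nat.card E = Nat.card D ∨ (Nat.card D = 2 ∧ Nat.card E = 4)) →
        ∀ g : G, E.map (MulAut.conj g).toMonoidHom ⊓ Subgroup.normalizer (E : Set G) ≤ E) :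
    Cfsg.HasNormalPComplement p G := by
  have hp : p.Prime := Fact.out
  have hcop := H7.coprime_pred_of_forall_le hp hmin
  have hcyc : ∀ {R : Subgroup G} {g : G}, H7.MinAct p R g → ¬ IsCyclic R := fun hg hc =>
    hg.not_mem (H7.mem_centralizer_of_isCyclic hg.isPGroup hc hg.mem_normalizer hg.coprime (hcop _))
  rcases h with h | ⟨D, hD, hD1, hDP, h⟩
  · by_contra hn
    obtain ⟨R, hR, g, hg⟩ := H7.exists_minAct_of_not_hasNPC P hn
    exact hcyc hg (Subgroup.isCyclic_of_le hR)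
  obtain ⟨k, hk⟩ := IsPGroup.iff_card.mp (P.isPGroup'.to_le hD)
  rw [hk] at h hD1 hDP
  have hsc : ∀ E : Subgroup G, E ≤ P → (Nat.card E = p ^ k ∨ (p ^ k = 2 ∧ Nat.card E = 4)) →
      ∀ x ∈ E, ∀ g : G, g * x * g⁻¹ ∈ (P : Subgroup G) → g * x * g⁻¹ ∈ E := by
    intro E hE hc x hx g hg
    have hN : (P : Subgroup G) ≤ Subgroup.normalizer (E : Set G) := by
      by_contra hn
      have h1 : (P : Subgroup G) ⊓ Subgroup.normalizer (E : Set G) < P :=
        inf_lt_left.mpr hn
      obtain ⟨t, ht, ht'⟩ := SetLike.exists_of_lt (H7.lt_inf_normalizer P.isPGroup' h1)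
      refine ht' ⟨ht.1, H7.mem_normalizer_of_forall fun y hy => h E hE hc t ⟨⟨y, hy, rfl⟩, ?_⟩⟩
      exact (H7.conj_mem_of_mem_normalizer ht.2 ⟨hE hy, Subgroup.le_normalizer hy⟩).2
    exact h E hE hc g ⟨⟨x, hx, rfl⟩, hN hg⟩
  have hstep : ∀ F E U : Subgroup G, F ≤ P → Nat.card F = p ^ (k + 1) → E ≤ F →
      Nat.card E = p ^ k → U ≤ F → ∀ g ∈ Subgroup.normalizer (U : Set G),
      Nat.Coprime (orderOf g) p → ∀ x ∈ U, x⁻¹ * (g * x * g⁻¹) ∈ E := by
    intro F E U hF hcF hE hcE hU g hg hc x hx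
    have hi : E.relIndex F = p := by
      have := H7.relIndex_mul_card hE
      rw [hcE, hcF, pow_succ, mul_comm] at this
      exact Nat.eq_of_mul_eq_mul_left (pow_pos hp.pos k) this
    have hn : (E.subgroupOf F).Normal := H9.normal_of_index_eq (P.isPGroup'.to_le hF) hi
    have hFE : F ≤ Subgroup.normalizer (E : Set G) :=
      (Subgroup.normal_subgroupOf_iff_le_normalizer hE).mp hn
    refine (H7.inv_mul_conj_mem_of_relIndex_dvd (V := E ⊓ U)
      (H1.le_normalizer_inf (hU.trans hFE) Subgroup.le_normalizer) ?_ hg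
      (H7.mem_normalizer_of_forall fun y hy => ?_) hc (hcop g) hx).1
    · rw [Subgroup.inf_relIndex_right, ← Subgroup.relIndex_subgroupOf hU, ← hi]
      exact Subgroup.relIndex_dvd_index_of_normal _ _
    · have := H7.conj_mem_of_mem_normalizer hg hy.2
      exact ⟨hsc E (hE.trans hF) (Or.inl hcE) y hy.1 g (hF (hU this)), this⟩
  have hk1 : p ^ (k + 1) ≤ Nat.card P := by
    obtain ⟨n, hn⟩ := IsPGroup.iff_card.mp P.isPGroup'
    rw [hn] at hDP ⊢
    exact Nat.pow_le_pow_right hp.pos ((Nat.pow_lt_pow_iff_right hp.one_lt).mp hDP)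
  have hmax : ∀ F : Subgroup G, F ≤ P → Nat.card F = p ^ (k + 1) → ∀ M : Subgroup F, IsCoatom M →
      Nat.card (M.map F.subtype) = p ^ k := by
    intro F hF hcF M hM
    have h1 := M.index_mul_card
    rw [H3.index_eq_of_isCoatom_pgroup (P.isPGroup'.to_le hF) hM, hcF, pow_succ'] at h1
    rw [Subgroup.card_map_of_injective F.subtype_injective]
    exact Nat.eq_of_mul_eq_mul_left hp.pos h1
  have hfr : ∀ F U : Subgroup G, F ≤ P → Nat.card F = p ^ (k + 1) → U ≤ F →
      ∀ g ∈ Subgroup.normalizer (U : Set G), Nat.Coprime (orderOf g) p →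
      ∀ x ∈ U, x⁻¹ * (g * x * g⁻¹) ∈ (frattini F).map F.subtype := by
    intro F U hF hcF hU g hg hc x hx
    refine ⟨⟨_, hU (mul_mem (inv_mem hx) (H7.conj_mem_of_mem_normalizer hg hx))⟩,
      H3.mem_frattini_iff.mpr fun M hM => ?_, rfl⟩
    exact (Subgroup.mem_map_iff_mem F.subtype_injective).mp
      (hstep F _ U hF hcF (Subgroup.map_subtype_le M) (hmax F hF hcF M hM) hU g hg hc x hx)
  refine H7.hasNPC_of_inf_pResidual_le_frattini P fun x hx => ?_
  suffices hs : (P : Subgroup G) ⊓ pResidual p G ≤ (frattini P).map (P : Subgroup G).subtype by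
    obtain ⟨y, hy, e⟩ := hs ⟨x.2, hx⟩
    exact (Subtype.ext e : y = x) ▸ hy
  refine H7.inf_pResidual_le_of_forall P _ fun U hU g hg hc x hx => ?_
  rcases le_total (Nat.card U) (p ^ (k + 1)) with hle | hle
  · obtain ⟨F, h1, h2, h3⟩ := H7.exists_card_between hU P.isPGroup' hle hk1
    exact H3.map_frattini_subtype_mono_pgroup P.isPGroup' h2 (hfr F U h2 h3 h1 g hg hc x hx)
  suffices hs : g ∈ Subgroup.centralizer (U : Set G) by
    rw [← hs x hx]; simp
  by_contra hn
  have hUp := P.isPGroup'.to_le hU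
  obtain ⟨R, hR, hm⟩ := H7.exists_minAct_le hUp hg hc hn
  obtain ⟨a, ha, ha'⟩ := SetLike.exists_of_lt hm.frattini_lt
  have hRE : ∀ E : Subgroup G, E ≤ P → (Nat.card E = p ^ k ∨ (p ^ k = 2 ∧ Nat.card E = 4)) →
      a ∈ E → R ≤ E := by
    intro E hE hcE haE
    by_contra hne
    refine ha' (hm.le_frattini (inf_lt_left.mpr hne) (H7.mem_normalizer_of_forall fun y hy => ?_)
      ⟨ha, haE⟩)
    have := H7.conj_mem_of_mem_normalizer hm.mem_normalizer hy.1
    exact ⟨this, hsc E hE hcE y hy.2 g (hU (hR this))⟩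
  have haU : Subgroup.zpowers a ≤ U := Subgroup.zpowers_le.mpr (hR ha)
  have hkk : p ^ k ≤ p ^ (k + 1) := Nat.pow_le_pow_right hp.pos (Nat.le_succ k)
  by_cases ho : orderOf a ≤ p ^ k
  · obtain ⟨E, h1, h2, h3⟩ := H7.exists_card_between haU hUp (by rwa [Nat.card_zpowers])
      (hkk.trans hle)
    have hE := hRE E (h2.trans hU) (Or.inl h3) (h1 (Subgroup.mem_zpowers a))
    obtain ⟨F, h4, h5, h6⟩ := H7.exists_card_between h2 hUp (h3 ▸ hkk) hle
    have hF := h5.trans hU
    have hgF : g ∈ Subgroup.normalizer (F : Set G) := by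
      refine H7.mem_normalizer_of_forall fun y hy => ?_
      rcases eq_top_or_exists_le_coatom (Subgroup.zpowers (⟨y, hy⟩ : F)) with e | ⟨M, hM, e⟩
      · have : IsCyclic F := isCyclic_iff_exists_zpowers_eq_top.mpr ⟨_, e⟩
        exact (hcyc hm (Subgroup.isCyclic_of_le (hE.trans h4))).elim
      · exact Subgroup.map_subtype_le M (hsc _ ((Subgroup.map_subtype_le M).trans hF)
          (Or.inl (hmax F hF h6 M hM)) y ⟨_, e (Subgroup.mem_zpowers _), rfl⟩ g
          (hU (H7.conj_mem_of_mem_normalizer hg (h5 hy))))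
    have h7 := H1.le_centralizer_of_commutator_le_frattini (Subgroup.zpowers_le.mpr hgF)
      (H1.coprime_card_of_isPGroup (P.isPGroup'.to_le hF) (by rwa [Nat.card_zpowers])) (by
        rw [Subgroup.commutator_le]
        intro y hy b hb
        have := hfr F F hF h6 le_rfl b (Subgroup.zpowers_le.mpr hgF hb)
          (hc.coprime_dvd_left (orderOf_dvd_of_mem_zpowers hb)) y⁻¹ (inv_mem hy)
        rwa [inv_inv, ← mul_assoc, ← mul_assoc] at this)
    exact hm.not_mem (Subgroup.centralizer_le (hE.trans h4) (h7 (Subgroup.mem_zpowers g)))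
  · have hk0 : p ≤ p ^ k := Nat.le_self_pow (by rintro rfl; simp at hD1) p
    rcases hm.pow_eq_one ha with h1 | ⟨rfl, h1⟩
    · exact ho ((Nat.le_of_dvd hp.pos (orderOf_dvd_of_pow_eq_one h1)).trans hk0)
    have h2 : orderOf a ∣ 2 ^ 2 := orderOf_dvd_of_pow_eq_one h1
    obtain ⟨j, hj, e⟩ := (Nat.dvd_prime_pow Nat.prime_two).mp h2
    rw [e, not_le, Nat.pow_lt_pow_iff_right one_lt_two] at ho
    have hk2 : k ≠ 0 := by rintro rfl; simp at hD1
    obtain rfl : j = 2 := by omega
    obtain rfl : k = 1 := by omega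
    exact hcyc hm (Subgroup.isCyclic_of_le (hRE _ (haU.trans hU)
      (Or.inr ⟨rfl, by rw [Nat.card_zpowers, e]; rfl⟩) (Subgroup.mem_zpowers a)))

end Cfsg.Agent.S3031
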