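import Cfsg.Statements.S3049
import Cfsg.Agent.Base
import Cfsg.Agent.H99.ZStarMin
import Cfsg.Agent.H99.Product

set_option autoImplicit false
open Cfsg

namespace Cfsg.Agent.S3049

open Subgroup Cfsg H98 H99
open scoped commutatorElement

/-- Let G be a finite group and p an odd prime with O_{p'}(G) = 1. Suppose that G has p-rank at most 2 (no elementary abelian subgroup of order p³) and that some element x of order p is isolated in G (no G-conjugate of x other than x commutes with x) and not central. Then the generalized Fitting subgroup F*(G) is a non-abelian simple group. Since O_{p'}(G) = 1, such an x is not central modulo O_{p'}(G): the hypotheses describe a counterexample to the Z*_p statement in p-rank at most 2. -/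
theorem result {G : Type*} [Group G] [Finite G] {p : ℕ} [Fact p.Prime] (hp : p ≠ 2) (hcore : Cfsg.pPrimeCore p G = ⊥)
    (hrank : Cfsg.PRankLE p 2 G) (x : G) (hx : orderOf x = p) (hiso : Cfsg.IsIsolated x) (hnc : x ∉ Subgroup.center G) :
    IsSimpleGroup ↥(Cfsg.generalizedFittingSubgroup G) ∧ ¬ IsMulCommutative ↥(Cfsg.generalizedFittingSubgroup G) := by
  have hpx := H84.isPGroup_zpowers_of_orderOf hx
  obtain ⟨P, hP, hxP⟩ := exists_isSyl_le hpx le_top
  have hxP' : x ∈ P := hxP (mem_zpowers x)
  -- some component is not centralized by `x`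
  obtain ⟨L, hL, hLx⟩ : ∃ L : Subgroup G, IsComponent L ∧ ⁅L, zpowers x⁆ ≠ ⊥ := by
    by_contra hn
    push Not at hn
    refine hnc (iso_mem_center_of_mem_pCore (p := p) hiso (zpowers_le.1 ?_))
    refine H14.le_pCore_of_commutator hcore
      (H14.commutator_eq_bot_symm (H14.layer_commutator_eq_bot hn)) ?_
    rw [Subgroup.commutator_eq_bot_iff_le_centralizer, zpowers_le]
    exact fun y hy => mem_centralizer_singleton_iff.1 (iso_pCore_le hiso hpx hy)
  -- no element of order `p` of `P` centralizes `L`
  have key : ∀ z ∈ P, z ∈ centralizer (L : Set G) → orderOf z = p → False := by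
    intro z hzP hzL hzo
    have hxz : Commute z x := mem_centralizer_singleton_iff.1 (iso_le_centralizer hiso hP.isPGroup hxP' hzP)
    have hn : x ∉ zpowers z := by
      intro h
      apply hLx
      rw [Subgroup.commutator_comm, Subgroup.commutator_eq_bot_iff_le_centralizer, zpowers_le]
      exact (zpowers_le.2 hzL) h
    obtain ⟨hE1, hE2, hE3⟩ := exists_noncyclic_of_commute hzo hx hxz hn
    set E := zpowers z ⊔ zpowers x with hE
    set H := L ⊔ E with hH
    have hHz : H ≤ centralizer ({z} : Set G) := by
      refine sup_le (fun l hl => mem_centralizer_singleton_iff.2 (hzL l hl)) (sup_le ?_ ?_)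
      · exact zpowers_le.2 (mem_centralizer_singleton_iff.2 rfl)
      · exact zpowers_le.2 (mem_centralizer_singleton_iff.2 hxz.symm)
    obtain ⟨T, hT, hET⟩ := exists_isSyl_le hE1 (le_sup_right : E ≤ H)
    have hxT : x ∈ T := hET (mem_sup_right (mem_zpowers x))
    have hzx : zpowers z ≤ normalizer (zpowers x : Set G) := by
      refine le_normalizer_of_le_centralizer ?_
      rintro _ ⟨i, rfl⟩ _ ⟨j, rfl⟩
      exact ((hxz.zpow_zpow i j).symm).eq
    have hEexp : ∀ e ∈ E, e ^ p = 1 := by
      intro e he
      obtain ⟨_, ⟨i, rfl⟩, _, ⟨j, rfl⟩, rfl⟩ := (mem_sup_left_norm hzx).1 he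
      change (z ^ i * x ^ j) ^ p = 1
      rw [(hxz.zpow_zpow i j).mul_pow, ← zpow_natCast, ← zpow_natCast, ← zpow_mul, ← zpow_mul,
        mul_comm i, mul_comm j, zpow_mul, zpow_mul, zpow_natCast, zpow_natCast, ← hzo,
        pow_orderOf_eq_one, hzo, ← hx, pow_orderOf_eq_one]
      simp
    have hEcard : p ^ 2 ≤ Nat.card E := by
      obtain ⟨n, hn⟩ := hE1.exists_card_eq
      rw [hn]
      refine Nat.pow_le_pow_right (Fact.out : p.Prime).pos ?_
      by_contra hlt
      apply hE3
      have : n = 0 ∨ n = 1 := by omega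
      rcases this with rfl | rfl
      · have := (Nat.card_eq_one_iff_unique.1 hn).1
        exact isCyclic_of_subsingleton
      · exact isCyclic_of_prime_card (by rw [hn, pow_one])
    have hOm : ∀ y ∈ T, y ^ p = 1 → y ∈ E := by
      intro y hy hyp
      have hyE : zpowers y ≤ centralizer (E : Set G) := by
        rw [zpowers_le, centralizer_sup]
        refine ⟨?_, ?_⟩
        · rintro _ ⟨i, rfl⟩
          exact ((show Commute y z from mem_centralizer_singleton_iff.1 (hHz (hT.le hy))).zpow_right i).symm
        · rintro _ ⟨i, rfl⟩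
          exact ((show Commute y x from mem_centralizer_singleton_iff.1
            (iso_le_centralizer hiso hT.isPGroup hxT hy)).zpow_right i).symm
      have hA := hrank (zpowers y ⊔ E) (isMulCommutative_sup_of_le_centralizer inferInstance hE2 hyE) (by
        intro a ha
        obtain ⟨_, ⟨i, rfl⟩, e, he, rfl⟩ :=
          (mem_sup_left_norm (le_normalizer_of_le_centralizer hyE)).1 ha
        have hc : Commute (y ^ i) e := (hyE (zpow_mem_zpowers y i) e he).symm
        change (y ^ i * e) ^ p = 1
        rw [hc.mul_pow, hEexp e he, ← zpow_natCast, ← zpow_mul, mul_comm i, zpow_mul, zpow_natCast, hyp]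
        simp)
      have h3 : E = zpowers y ⊔ E := eq_of_le_of_card_ge le_sup_right (hA.trans hEcard)
      rw [h3]
      exact mem_sup_left (mem_zpowers y)
    obtain ⟨T', rfl⟩ := hT.exists_sylow_map
    have hnpc : HasNormalPComplement p H := by
      refine H7.hasNPC_of_normalizer_centralizer_sylow T' fun Q hQ _ g hg hgo => ?_
      refine mem_centralizer_of_omega hp (T'.isPGroup'.to_le hQ) hg hgo fun y hy hyp => ?_
      apply Subtype.ext
      have hy1 : (y : G) ∈ E := hOm y (mem_map_of_mem _ (hQ hy)) (congrArg Subtype.val hyp)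
      have hy2 : (g : G) * y * (g : G)⁻¹ ∈ (T' : Subgroup H).map H.subtype :=
        mem_map_of_mem H.subtype (hQ (conj_mem_of_mem_normalizer hg hy))
      obtain ⟨_, ⟨i, rfl⟩, _, ⟨j, rfl⟩, he⟩ := (mem_sup_left_norm hzx).1 hy1
      have hgz : (g : G) * z ^ i * (g : G)⁻¹ = z ^ i := by
        rw [← conj_zpow, conj_eq_of_mem_centralizer (hHz g.2)]
      change (g : G) * y = y * g
      have hgx : (g : G) * x ^ j * (g : G)⁻¹ = x ^ j := by
        by_cases hj : x ^ j = 1
        · rw [hj]; group
        have h1 : (g : G) * x ^ j * (g : G)⁻¹ ∈ (T' : Subgroup H).map H.subtype := by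
          have := mul_mem (inv_mem (hET (mem_sup_left (zpow_mem_zpowers z i)))) hy2
          rw [he, ← hgz] at this
          simpa [mul_assoc] using this
        have h2 : x ∈ zpowers (x ^ j) := by
          have : Nat.card (zpowers x) = p := by rw [Nat.card_zpowers, hx]
          have h3 : zpowers (x ^ j) = zpowers x := by
            refine eq_of_le_of_card_ge (zpowers_le.2 (zpow_mem_zpowers x j)) ?_
            rw [this, Nat.card_zpowers]
            exact Nat.le_of_dvd (orderOf_pos _) (dvd_orderOf_of_mem_pgroup hpx (zpow_mem_zpowers x j) hj)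
          exact h3 ▸ mem_zpowers x
        obtain ⟨k, hk⟩ := h2
        have h3 : (g : G) * x * (g : G)⁻¹ ∈ (T' : Subgroup H).map H.subtype := by
          have := zpow_mem h1 k
          rw [conj_zpow] at this
          simp only at hk
          rwa [hk] at this
        rw [← conj_zpow, iso_conj_eq hiso hT.isPGroup hxT h3]
      simp only at he
      rw [he]
      calc (g : G) * (z ^ i * x ^ j) = (g * z ^ i * (g : G)⁻¹) * (g * x ^ j * (g : G)⁻¹) * g := by group
        _ = z ^ i * x ^ j * g := by rw [hgz, hgx]
    have h1 := H7.hasNPC_iff_not_dvd.1 (H7.hasNPC_of_le (le_sup_left : L ≤ H) hnpc)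
    have h2 := res_eq_of_perfect (p := p) (H14.comp_perfect hL)
    rw [← card_map_of_injective L.subtype_injective] at h1
    change ¬ p ∣ Nat.card (res p L) at h1
    rw [h2] at h1
    exact h1 (dvd_card_comp hcore hL)
  have hO2 : pCore p G = ⊥ := by
    by_contra h
    obtain ⟨z, hz, hzo⟩ := H84.exists_orderOf_eq_of_isPGroup (isPGroup_pCore p G) h
    refine key z (hP.pCoreOf_le (pCoreOf_top (p := p) (G := G) ▸ hz)) (fun l hl => ?_) hzo
    exact H14.commutator_eq_bot_iff_comm.1 (H14.comp_commutator_pCore hL p) l hl z hz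
  have huniq : ∀ K : Subgroup G, IsComponent K → K = L := by
    intro K hK
    by_contra hne
    have h1 : IsSyl p (P ⊓ K) K := hP.inf_subN (subN_top_iff.2 (H14.comp_subnormal hK))
    obtain ⟨z, hz, hzo⟩ := H84.exists_orderOf_eq_of_isPGroup h1.isPGroup
      fun h => (h1.eq_bot_iff.1 h) (dvd_card_comp hcore hK)
    refine key z hz.1 (fun l hl => ?_) hzo
    exact (H14.commutator_eq_bot_iff_comm.1 (H14.comp_commute_of_ne hK hL hne) z hz.2 l hl).symm
  have hEL : layer G = L :=
    le_antisymm (H14.layer_le fun K hK => (huniq K hK).le) (H14.comp_le_layer hL)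
  rw [H14.fstar_eq_of_pPrimeCore_eq_bot hcore, hO2, sup_bot_eq, hEL]
  refine ⟨H14.simple_of_quasi (H14.comp_quasi hL) ?_, H14.quasi_not_comm (H14.comp_quasi hL)⟩
  have h1 : L ⊓ centralizer (L : Set G) ≤ pCore p G := by
    refine H14.le_pCore_of_commutator hcore ?_ (by rw [hO2, commutator_bot_right])
    rw [hEL, H14.commutator_eq_bot_iff_comm]
    exact fun a ha b hb => (ha.2 b hb).symm
  rw [hO2, ← map_subtype_center, le_bot_iff, map_eq_bot_iff_of_injective _ L.subtype_injective] at h1
  exact h1

end Cfsg.Agent.S3049
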