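import Cfsg.Statements.S3038
import Cfsg.Agent.Base
import Cfsg.Agent.H27.Bb7
import Cfsg.Agent.S3049
-- import your own Cfsg.Agent.* helpers here

set_option autoImplicit false
open Cfsg

namespace Cfsg.Agent.S3038

/-- Let G be a finite group and p an odd prime with O_{p'}(G) = 1. Suppose that G has p-rank at most 2 and that some element x of order p is isolated in G and not central. Then F*(G) is a non-abelian simple group, and for every Sylow p-subgroup P of F*(G), either no conjugate of x lies in P and P is cyclic, or some conjugate of x lies in P and either P is extraspecial of order p³ and exponent p, or p = 3 and P has order 3^{2k+1} for some k ≥ 2 and is of maximal class (nilpotency class 2k). Since O_{p'}(G) = 1, such an x is not central modulo O_{p'}(G): the hypotheses describe a counterexample to the Z*_p statement in p-rank at most 2, and the conclusion records the structure it would have. -/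
theorem result {G : Type*} [Group G] [Finite G] {p : ℕ} [Fact p.Prime] (hp : p ≠ 2) (hcore : Cfsg.pPrimeCore p G = ⊥)
    (hrank : Cfsg.PRankLE p 2 G) (x : G) (hx : orderOf x = p) (hiso : Cfsg.IsIsolated x) (hnc : x ∉ Subgroup.center G) :
    IsSimpleGroup ↥(Cfsg.generalizedFittingSubgroup G) ∧ ¬ IsMulCommutative ↥(Cfsg.generalizedFittingSubgroup G) ∧
    ∀ P : Sylow p ↥(Cfsg.generalizedFittingSubgroup G),
      ((∀ g : G, g * x * g⁻¹ ∉ ((P : Subgroup ↥(Cfsg.generalizedFittingSubgroup G)).map (Cfsg.generalizedFittingSubgroup G).subtype)) ∧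
          IsCyclic ↥(P : Subgroup ↥(Cfsg.generalizedFittingSubgroup G))) ∨
      ((∃ g : G, g * x * g⁻¹ ∈ ((P : Subgroup ↥(Cfsg.generalizedFittingSubgroup G)).map (Cfsg.generalizedFittingSubgroup G).subtype)) ∧
        ((Cfsg.IsExtraspecial p ↥(P : Subgroup ↥(Cfsg.generalizedFittingSubgroup G)) ∧
            Nat.card (P : Subgroup ↥(Cfsg.generalizedFittingSubgroup G)) = p ^ 3 ∧
            ∀ y ∈ (P : Subgroup ↥(Cfsg.generalizedFittingSubgroup G)), y ^ p = 1) ∨
         (p = 3 ∧ ∃ k : ℕ, 2 ≤ k ∧ Nat.card (P : Subgroup ↥(Cfsg.generalizedFittingSubgroup G)) = 3 ^ (2 * k + 1) ∧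
            ∃ _ : Group.IsNilpotent ↥(P : Subgroup ↥(Cfsg.generalizedFittingSubgroup G)),
              Group.nilpotencyClass ↥(P : Subgroup ↥(Cfsg.generalizedFittingSubgroup G)) = 2 * k))) := by
  obtain ⟨hs, hna⟩ := Cfsg.Agent.S3049.result hp hcore hrank x hx hiso hnc
  have hLn : (Cfsg.generalizedFittingSubgroup G).Normal := H14.fstar_normal G
  generalize Cfsg.generalizedFittingSubgroup G = L at hs hna hLn
  refine ⟨hs, hna, fun P => ?_⟩
  have hpp : p.Prime := Fact.out
  obtain ⟨T, hT⟩ := (P.isPGroup'.map L.subtype).exists_le_sylow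
  obtain ⟨Q, hQ⟩ := (H99.isPGroup_zpowers_of_pow (p := p) ⟨1, by rw [hx, pow_one]⟩).exists_le_sylow
  obtain ⟨g, hg⟩ := MulAction.exists_smul_eq G Q T
  have hyT : g * x * g⁻¹ ∈ (T : Subgroup G) := by
    rw [← hg, Sylow.coe_subgroup_smul]
    exact Subgroup.smul_mem_pointwise_smul x (MulAut.conj g) _ (hQ (Subgroup.mem_zpowers x))
  have hyi : Cfsg.IsIsolated (g * x * g⁻¹) := fun h hc => by
    have h1 := hiso (g⁻¹ * h * g) (by
      have := hc.map (MulAut.conj g⁻¹)
      simp only [MulAut.conj_apply] at this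
      convert this using 1 <;> group)
    calc _ = g * (g⁻¹ * h * g * x * (g⁻¹ * h * g)⁻¹) * g⁻¹ := by group
      _ = _ := by rw [h1]
  have hyp : (g * x * g⁻¹) ^ p = 1 := by rw [conj_pow, ← hx, pow_orderOf_eq_one]; simp
  by_cases hxL : x ∈ L
  · right
    have hyL : g * x * g⁻¹ ∈ L := hLn.conj_mem x hxL g
    have hyP : (⟨_, hyL⟩ : L) ∈ (P : Subgroup L) := by
      rw [← P.is_maximal' (T.isPGroup'.comap_subtype (K := L)) (Subgroup.map_le_iff_le_comap.mp hT)]
      exact hyT
    have hL : commutator L = ⊤ := (hs.eq_bot_or_eq_top_of_normal _ inferInstance).resolve_left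
      fun h => hna ⟨⟨fun a b => commutatorElement_eq_one_iff_mul_comm.mp (Subgroup.mem_bot.mp
        (h ▸ Subgroup.commutator_mem_commutator (Subgroup.mem_top a) (Subgroup.mem_top b)))⟩⟩
    have hr := H48.pRankLE_subgroup hrank L
    obtain ⟨hm, h⟩ := H27.Bb.sylow_struct hp hr hL P hyP (fun h => by
        have h1 : g * x * g⁻¹ = 1 := congrArg Subtype.val h
        rw [conj_eq_one_iff] at h1
        rw [h1, orderOf_one] at hx
        exact hpp.one_lt.ne hx) (Subtype.ext hyp)
      (H99.iso_normalizer_le (H99.iso_subgroup hyi hyL) P.isPGroup' hyP)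
    refine ⟨⟨g, ⟨_, hyP, rfl⟩⟩, ?_⟩
    rcases h with h | ⟨h3, k, hk, hc, u, hu⟩
    · obtain ⟨h1, h2⟩ := H27.Bb.extraspecial_of_cube (H48.pRankLE_subgroup hr P) hm h
      exact Or.inl ⟨h1, h, fun y hy => congrArg Subtype.val (h2 ⟨y, hy⟩)⟩
    · refine Or.inr ⟨h3, k, hk, h3 ▸ hc, P.isPGroup'.isNilpotent, ?_⟩
      rw [H9.nilpotencyClass_eq_of_card_centralizer (2 * k - 1) P
        (by rw [hc]; congr 1; omega) u hu]
      omega
  · left
    refine ⟨fun h hh => hxL ?_, ?_⟩
    · simpa [mul_assoc] using hLn.conj_mem _ (Subgroup.map_subtype_le _ hh) h⁻¹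
    rw [H48.isCyclic_iff_pRankLE_one hp P.isPGroup', H48.pRankLE_iff_subgroup]
    intro E hE hEe
    have hyL : g * x * g⁻¹ ∉ L := fun hh => hxL (by simpa [mul_assoc] using hLn.conj_mem _ hh g⁻¹)
    have hc : ∀ e ∈ E.map L.subtype, Commute e (g * x * g⁻¹) := fun e he =>
      Subgroup.mem_centralizer_singleton_iff.mp
        (H99.iso_le_centralizer hyi T.isPGroup' hyT (hT (Subgroup.map_mono hE he)))
    have hn : g * x * g⁻¹ ∈ Subgroup.normalizer ((E.map L.subtype : Subgroup G) : Set G) :=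
      Subgroup.centralizer_le_normalizer _ (Subgroup.mem_centralizer_iff.mpr hc)
    have h1 := H9.card_sup_zpowers_of_normalizes (p := p) hn
      (fun h => hyL (Subgroup.map_subtype_le _ h)) (hyp ▸ one_mem _)
    have hE1 := hEe.1
    have h2 := hrank (E.map L.subtype ⊔ Subgroup.zpowers (g * x * g⁻¹)) ⟨⟨fun a b => Subtype.ext (by
      obtain ⟨v, hv, i, ha⟩ := (H9.mem_sup_zpowers_of_normalizes hn).mp a.2
      obtain ⟨w, hw, j, hb⟩ := (H9.mem_sup_zpowers_of_normalizes hn).mp b.2
      have hvw : Commute v w := congrArg Subtype.val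
        (mul_comm' (⟨v, hv⟩ : E.map L.subtype) ⟨w, hw⟩)
      rw [Subgroup.coe_mul, Subgroup.coe_mul, ha, hb]
      exact (hvw.mul_right ((hc v hv).zpow_right j)).mul_left
        (((hc w hw).symm.zpow_left i).mul_right ((Commute.refl _).zpow_zpow i j)))⟩⟩ fun a ha => by
      obtain ⟨_, ⟨v, hv, rfl⟩, i, rfl⟩ := (H9.mem_sup_zpowers_of_normalizes hn).mp ha
      rw [((hc _ ⟨v, hv, rfl⟩).zpow_right i).mul_pow, ← map_pow, hEe.2 v hv, map_one, ← zpow_natCast,
        ← zpow_mul, mul_comm i, zpow_mul, zpow_natCast, hyp, one_zpow, one_mul]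
    rw [h1, Subgroup.card_map_of_injective L.subtype_injective, sq] at h2
    rw [pow_one]
    exact Nat.le_of_mul_le_mul_left h2 hpp.pos

end Cfsg.Agent.S3038
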