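import Cfsg.Statements.S3044
import Cfsg.Agent.Base
import Cfsg.Agent.H98.IsoP

set_option autoImplicit false
open Cfsg

namespace Cfsg.Agent.S3044

open Subgroup H98
open scoped commutatorElement


/-- Let G be a finite group, p a prime, S a Sylow p-subgroup of G and P a p-minimal subgroup of G containing S (S is not normal in P and lies in exactly one maximal subgroup of P). Let L be the subgroup generated by N_G(S) and all p-minimal subgroups of G containing S other than P, and suppose P is isolated: O_p(L) is not contained in O_p(P). Put Y for the normal closure of O^p(P) in G. Then G = YL; P is again isolated in the subgroup YS (the subgroup L₀ generated by N_{YS}(S) and the p-minimal subgroups of YS containing S other than P has O_p(L₀) not contained in O_p(P)); and either Y = O^p(P), or p divides |Y/O_p(Y)|, Y/O_p(Y) is generated by its components (a central product of quasisimple groups), and S permutes these components transitively by conjugation. -/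
theorem result {G : Type*} [Group G] [Finite G] {p : ℕ} [Fact p.Prime] (S : Sylow p G) (P : Subgroup G) (hSP : (S : Subgroup G) ≤ P) (hPmin : Cfsg.IsPMinimal p ↥P)
    (L Y : Subgroup G)
    (hL : L = Subgroup.normalizer ((S : Subgroup G) : Set G) ⊔ ⨆ P' : {P' : Subgroup G // (S : Subgroup G) ≤ P' ∧ Cfsg.IsPMinimal p ↥P' ∧ P' ≠ P}, (P' : Subgroup G))
    (hiso : ¬ (Cfsg.pCore p ↥L).map L.subtype ≤ (Cfsg.pCore p ↥P).map P.subtype)
    (hY : Y = Subgroup.normalClosure (((Cfsg.pResidual p ↥P).map P.subtype : Subgroup G) : Set G)) :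
    Y ⊔ L = ⊤ ∧
    ¬ (Cfsg.pCore p ↥((Subgroup.normalizer ((S : Subgroup G) : Set G) ⊓ (Y ⊔ (S : Subgroup G))) ⊔
          ⨆ P' : {P' : Subgroup G // (S : Subgroup G) ≤ P' ∧ P' ≤ Y ⊔ (S : Subgroup G) ∧ Cfsg.IsPMinimal p ↥P' ∧ P' ≠ P}, (P' : Subgroup G))).map
        (Subgroup.subtype _) ≤ (Cfsg.pCore p ↥P).map P.subtype ∧
    ((Cfsg.pResidual p ↥P).map P.subtype = Y ∨
     ∃ _ : (Cfsg.pCore p ↥Y).Normal,
       p ∣ Nat.card (↥Y ⧸ Cfsg.pCore p ↥Y) ∧ Cfsg.layer (↥Y ⧸ Cfsg.pCore p ↥Y) = ⊤ ∧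
       ∀ K₁ K₂ : Subgroup (↥Y ⧸ Cfsg.pCore p ↥Y), Cfsg.IsComponent K₁ → Cfsg.IsComponent K₂ →
         ∃ s ∈ (S : Subgroup G), ((K₂.comap (QuotientGroup.mk' (Cfsg.pCore p ↥Y))).map Y.subtype) = (((K₁.comap (QuotientGroup.mk' (Cfsg.pCore p ↥Y))).map Y.subtype)).map (MulAut.conj s).toMonoidHom) := by
  have h := isoP_of (isSyl_sylow S) hSP hPmin hL hiso
  obtain rfl : Y = ncl ⊤ (res p P) := hY.trans (ncl_top _).symm
  haveI : (pCore p G).Normal := pCoreOf_top (p := p) (G := G) ▸
    normal_of_top_le_normalizer (self_le_normalizer_pCoreOf ⊤)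
  haveI : (pCore p (ncl ⊤ (res p P))).Normal := pCoreOf_top (p := p) (G := ncl ⊤ (res p P)) ▸
    normal_of_top_le_normalizer (self_le_normalizer_pCoreOf ⊤)
  refine ⟨top_le_iff.1 (h.gen.ge.trans (sup_le le_sup_right (le_sup_of_le_left (le_ncl _ _)))),
    fun e => hiso (le_trans (pCoreOf_le_pCoreOf ?_ ?_) e),
    h.main.2.imp And.left fun e => ⟨this, e.2⟩⟩
  · rw [hL]
    exact sup_le_sup inf_le_left (iSup_le fun ⟨Q, h1, _, h3⟩ => le_iSup_of_le ⟨Q, h1, h3⟩ le_rfl)
  · exact h.RS.trans (le_sup_of_le_left (le_inf le_normalizer le_sup_right))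

end Cfsg.Agent.S3044
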