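import Cfsg.Statements.S3048
import Cfsg.Agent.Base
import Cfsg.Agent.H99.Sidki

set_option autoImplicit false
universe u
open Cfsg

namespace Cfsg.Agent.S3048

open Subgroup Cfsg H98 H99
open scoped commutatorElement

/-- Minimal counterexample reduction for the Sidki pair problem. Let G be a finite group and V a nontrivial elementary abelian 2-subgroup satisfying the Sidki pair condition with V ∩ O₂(G) = 1. Suppose that for every finite group H of smaller order, every nontrivial elementary abelian 2-subgroup W of H satisfying the Sidki pair condition meets O₂(H) nontrivially, and that the same holds in G for every such subgroup W of order smaller than that of V. Then the generalized Fitting subgroup F*(G) is a non-abelian simple group and G = V F*(G). -/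
theorem result {G : Type u} [Group G] [Finite G] (V : Subgroup G) (hV : Cfsg.IsElementaryAbelian 2 V) (hV1 : V ≠ ⊥) (hS : Cfsg.IsSidkiPair V) (hVO : V ⊓ Cfsg.pCore 2 G = ⊥) (hminG : ∀ (H : Type u) [Group H] [Finite H] (W : Subgroup H), Nat.card H < Nat.card G → Cfsg.IsElementaryAbelian 2 W → W ≠ ⊥ → Cfsg.IsSidkiPair W → W ⊓ Cfsg.pCore 2 H ≠ ⊥) (hminV : ∀ W : Subgroup G, Nat.card W < Nat.card V → Cfsg.IsElementaryAbelian 2 W → W ≠ ⊥ → Cfsg.IsSidkiPair W → W ⊓ Cfsg.pCore 2 G ≠ ⊥) : IsSimpleGroup ↥(Cfsg.generalizedFittingSubgroup G) ∧ ¬ IsMulCommutative ↥(Cfsg.generalizedFittingSubgroup G) ∧ V ⊔ Cfsg.generalizedFittingSubgroup G = ⊤ := by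
  have : Fact (Nat.Prime 2) := ⟨Nat.prime_two⟩
  have hVp := elemAb_isPGroup hV
  -- quotients
  have hquot : ∀ (K : Subgroup G) [K.Normal], K ≠ ⊥ → V ⊓ K = ⊥ → pCore 2 (G ⧸ K) ≠ ⊥ := by
    intro K _ hK hVK h
    refine hminG (G ⧸ K) (V.map (QuotientGroup.mk' K)) ?_ (elemAb_map hV _) ?_ (sidki_map K hV hS hVK)
      (by rw [h, inf_bot_eq])
    · rw [card_eq_card_quotient_mul_card_subgroup K]
      exact lt_mul_of_one_lt_right Nat.card_pos ((one_lt_card_iff_ne_bot K).2 hK)
    · rw [Ne, Subgroup.map_eq_bot_iff, QuotientGroup.ker_mk']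
      exact fun h => hV1 (by rw [← hVK, inf_eq_left.2 h])
  have hO : pCore 2 G = ⊥ := by
    by_contra h
    exact hquot _ h hVO (H2.pCore_quotient_pCore 2 G)
  -- proper subgroups
  have hsub : ∀ H U : Subgroup G, H ≠ ⊤ → U ≤ H → U ≤ V → U ≠ ⊥ →
      (∀ h ∈ H, ∀ u ∈ U, Odd (orderOf h) → u * h * u⁻¹ = h⁻¹ → ∃ w ∈ U, w ≠ 1 ∧ w * h = h * w) →
      U ⊓ pCoreOf 2 H ≠ ⊥ := by
    intro H U hH hUH hUV hU1 hs hb
    refine hminG H (U.subgroupOf H) ?_ (elemAb_subgroupOf (elemAb_of_le hV hUV) H) ?_ ?_ ?_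
    · rw [← card_top (G := G)]
      exact card_lt_card_of_lt (lt_top_iff_ne_top.2 hH)
    · rw [Ne, subgroupOf_eq_bot, disjoint_iff, inf_eq_left.2 hUH]
      exact hU1
    · intro h u hu ho hi
      obtain ⟨w, hw, hw1, hc⟩ := hs h h.2 u hu (by rwa [orderOf_coe]) (congrArg Subtype.val hi)
      exact ⟨⟨w, hUH hw⟩, hw, fun h => hw1 (congrArg Subtype.val h), Subtype.ext hc⟩
    · rw [← pCoreOf_subgroupOf, eq_bot_iff]
      intro y hy
      have : (y : G) ∈ U ⊓ pCoreOf 2 H := hy
      rw [hb, mem_bot] at this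
      exact mem_bot.2 (Subtype.ext this)
  -- a `2`-subgroup normal in an overgroup of a subnormal subgroup centralizes it
  have hcen : ∀ H N : Subgroup G, N.IsSubnormal → N ≤ H → H ≤ normalizer (N : Set G) →
      pCoreOf 2 H ≤ centralizer (N : Set G) := by
    intro H N hN hNH hHN
    rw [← Subgroup.commutator_eq_bot_iff_le_centralizer, eq_bot_iff, ← hO, ← pCoreOf_top]
    refine le_trans ?_ (SubNIn.pCoreOf_le (subN_top_iff.2 hN))
    rw [pCoreOf_eq_inf_of_normal hNH hHN]
    exact le_inf (commutator_le_left' (le_normalizer_pCoreOf_of_le hNH))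
      (commutator_le_right' ((pCoreOf_le H).trans hHN))
  have hodd : ∀ N H : Subgroup G, ∀ U ≤ V, U ≤ normalizer (N : Set G) → ∀ h ∈ U ⊔ N,
      Odd (orderOf h) → h ∈ N := fun N H U hU hUN h hh ho =>
    res_sup_le_right (hVp.to_le hU) hUN (mem_res_of_coprime hh (Nat.coprime_two_right.2 ho))
  have hnl : ∀ (N : Subgroup G) [N.Normal] (A : Subgroup G), A ≤ normalizer (N : Set G) := by
    intro N _ A
    rw [normalizer_eq_top]; exact le_top
  have hZ : center G = ⊥ := by
    by_contra h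
    have hZ2 : ¬ 2 ∣ Nat.card (center G) := by
      intro hd
      obtain ⟨z, hz, hzo⟩ := (H84.dvd_card_iff_exists_orderOf _).1 hd
      have : (zpowers z).Normal := normal_of_top_le_normalizer (le_normalizer_of_le_centralizer
        fun g _ y hy => (mem_center_iff.1 ((zpowers_le.2 hz) hy) g).symm)
      exact H84.zpowers_ne_bot_of_orderOf hzo
        (le_bot_iff.1 (hO ▸ H2.le_pCore (H84.isPGroup_zpowers_of_orderOf hzo)))
    refine hquot _ h (H2.disjoint_of_isPGroup_of_coprime hVp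
      (Nat.prime_two.coprime_iff_not_dvd.2 hZ2).symm).eq_bot ?_
    set K := (pCore 2 (G ⧸ center G)).comap (QuotientGroup.mk' (center G)) with hK
    obtain ⟨T, hT⟩ := exists_isSyl 2 K
    have h1 := hT.map (QuotientGroup.mk' (center G))
    rw [hK, map_comap_eq_self_of_surjective (QuotientGroup.mk'_surjective _)] at h1
    have h2 := h1.eq_of_isPGroup (isPGroup_pCore 2 _)
    have h3 : K = T ⊔ center G := by
      rw [hK, ← h2, comap_map_eq, QuotientGroup.ker_mk']
    have h4 : T.Normal := by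
      apply normal_of_top_le_normalizer
      intro g _
      obtain ⟨a, ha, n, hn, rfl⟩ := hT.frattini_mem (hnl K ⊤ (mem_top g))
      refine mul_mem ha ?_
      rw [h3] at hn
      exact sup_le le_normalizer ((center_le_centralizer _).trans (centralizer_le_normalizer _)) hn
    have h5 : T = ⊥ := le_bot_iff.1 (hO ▸ H2.le_pCore hT.isPGroup)
    rw [← h2, h5, Subgroup.map_bot]
  have hsup : ∀ (N : Subgroup G) [N.Normal], N ≠ ⊥ → V ⊔ N = ⊤ := by
    intro N hN hN1
    by_contra hne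
    set M := centralizer (N : Set G) with hM
    have hMt : M ≠ ⊤ := by
      intro h
      refine hN1 (le_bot_iff.1 (hZ ▸ fun n hn => mem_center_iff.2 fun g => ?_))
      have : g ∈ M := h ▸ mem_top g
      exact (this n hn).symm
    have key : ∀ U ≤ V, U ≠ ⊥ →
        (∀ h ∈ N, ∀ u ∈ U, Odd (orderOf h) → u * h * u⁻¹ = h⁻¹ → ∃ w ∈ U, w ≠ 1 ∧ w * h = h * w) →
        U ⊓ M ≠ ⊥ := by
      intro U hU hU1 hs hb
      refine hsub (U ⊔ N) U (fun h => hne (eq_top_iff.2 (h ▸ sup_le_sup_right hU N))) le_sup_left hU hU1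
        (fun h hh u hu ho => hs h (hodd N ⊤ U hU (hnl N U) h hh ho) u hu ho) ?_
      rw [eq_bot_iff, ← hb]
      exact inf_le_inf_left _ (hcen _ N hN.isSubnormal le_sup_right (hnl N _))
    have hW := key V le_rfl hV1 fun h _ u hu ho hi => hS h u hu ho hi
    refine hsub M (V ⊓ M) hMt inf_le_right inf_le_left hW (fun h hh u hu ho hi => ?_) ?_
    · have h1 := key (V ⊓ centralizer ({h} : Set G)) inf_le_left (by
        obtain ⟨w, hw, hw1, hc⟩ := hS h u hu.1 ho hi
        intro hb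
        exact hw1 (mem_bot.1 (hb ▸ ⟨hw, mem_centralizer_singleton_iff.2 hc⟩))) (by
        intro n hn v hv hno hni
        obtain ⟨w, hw, hw1, h1, h2⟩ := sidki_pair hV hS hu.1 hv.1 ho hno (hh n hn).symm hi
          (hu.2 n hn).symm hni (mem_centralizer_singleton_iff.1 hv.2)
        exact ⟨w, ⟨hw, mem_centralizer_singleton_iff.2 h1⟩, hw1, h2⟩)
      obtain ⟨⟨w, hw⟩, hw1⟩ := ne_bot_iff_exists_ne_one.1 h1
      exact ⟨w, ⟨hw.1.1, hw.2⟩, fun h => hw1 (Subtype.ext h), mem_centralizer_singleton_iff.1 hw.1.2⟩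
    · rw [eq_bot_iff, ← hO, ← pCoreOf_top]
      exact inf_le_right.trans (pCoreOf_le_pCoreOf_of_normal le_top (hnl M ⊤))
  obtain ⟨⟨v₀, hv₀⟩, hv₀1⟩ := ne_bot_iff_exists_ne_one.1 hV1
  have hv₀1' : v₀ ≠ 1 := fun h => hv₀1 (Subtype.ext h)
  have hVV : V ≤ centralizer (V : Set G) := (isMulCommutative_iff_le_centralizer V).1 hV.1
  -- no abelian normal subgroup
  have hab : ∀ (N : Subgroup G) [N.Normal], N ≤ centralizer (N : Set G) → N = ⊥ := by
    intro N hN hNc
    by_contra hN1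
    have hfix : ∀ v ∈ V, v ≠ 1 → N ⊓ centralizer ({v} : Set G) = ⊥ := by
      intro v hv hv1
      by_contra hne
      have hVv : V ≤ centralizer ({v} : Set G) := fun w hw =>
        mem_centralizer_singleton_iff.2 (elemAb_comm hV hw hv)
      have : (N ⊓ centralizer ({v} : Set G)).Normal := by
        apply normal_of_top_le_normalizer
        rw [← hsup N hN1]
        refine sup_le (le_normalizer_inf (hnl N V) (hVv.trans le_normalizer)) ?_
        exact le_normalizer_of_le_centralizer (hNc.trans (centralizer_anti inf_le_left))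
      have h1 := hsup _ hne
      refine hv1 (mem_bot.1 (hZ ▸ mem_center_iff.2 fun g => mem_centralizer_singleton_iff.1 ?_))
      exact sup_le hVv inf_le_right (h1 ▸ mem_top g)
    have hN2 : ¬ 2 ∣ Nat.card N := by
      intro hd
      obtain ⟨T, hT⟩ := exists_isSyl 2 N
      have h1 := hT.eq_pCoreOf (le_normalizer_of_le_centralizer (hNc.trans (centralizer_anti hT.le)))
      have h2 : pCoreOf 2 N ≤ pCoreOf 2 ⊤ := pCoreOf_le_pCoreOf_of_normal le_top (hnl N ⊤)
      rw [pCoreOf_top, hO, le_bot_iff, ← h1] at h2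
      exact (hT.eq_bot_iff.1 h2) hd
    obtain ⟨⟨n, hn⟩, hn1⟩ := ne_bot_iff_exists_ne_one.1 hN1
    have h1 : v₀ * n * v₀⁻¹ ∈ N := hN.conj_mem n hn v₀
    have h2 : n⁻¹ * (v₀ * n * v₀⁻¹) ∈ N := mul_mem (inv_mem hn) h1
    obtain ⟨w, hw, hw1, hc⟩ := hS _ v₀ hv₀ (Nat.coprime_two_right.1
      ((H7.not_dvd_card_iff_forall_coprime N).1 hN2 _ h2)) (by
        have e := elemAb_sq hV hv₀
        calc v₀ * (n⁻¹ * (v₀ * n * v₀⁻¹)) * v₀⁻¹ = v₀ * n⁻¹ * v₀ * n * (v₀ * v₀)⁻¹ := by group
          _ = v₀ * n⁻¹ * v₀⁻¹ * n := by rw [e, elemAb_inv hV hv₀]; group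
          _ = _ := by group)
    have h3 : n⁻¹ * (v₀ * n * v₀⁻¹) ∈ N ⊓ centralizer ({w} : Set G) :=
      ⟨h2, mem_centralizer_singleton_iff.2 hc.symm⟩
    rw [hfix w hw hw1, mem_bot, inv_mul_eq_one] at h3
    have h4 : n ∈ N ⊓ centralizer ({v₀} : Set G) := by
      refine ⟨hn, mem_centralizer_singleton_iff.2 ?_⟩
      calc n * v₀ = v₀ * n * v₀⁻¹ * v₀ := by rw [← h3]
        _ = v₀ * n := by group
    rw [hfix v₀ hv₀ hv₀1', mem_bot] at h4
    exact hn1 (Subtype.ext h4)
  have hF : fittingSubgroup G = ⊥ := by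
    have := H2.fitting_normal G
    have h1 := hab (fittingSubgroup G ⊓ centralizer (fittingSubgroup G : Set G))
      (inf_le_right.trans (centralizer_anti inf_le_left))
    by_contra hne
    have := H2.fitting_isNilpotent G
    have h2 : Nontrivial (fittingSubgroup G) := (nontrivial_iff_ne_bot _).2 hne
    rw [← map_subtype_center, map_eq_bot_iff_of_injective _ (subtype_injective _)] at h1
    exact Group.IsNilpotent.center_ne_bot _ h1
  have hFs : generalizedFittingSubgroup G = layer G := by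
    rw [generalizedFittingSubgroup, hF, sup_bot_eq]
  have : Nontrivial G := ⟨⟨v₀, 1, hv₀1'⟩⟩
  have hE : layer G ≠ ⊥ := hFs ▸ H14.fstar_ne_bot
  obtain ⟨L, hL⟩ : ∃ L : Subgroup G, IsComponent L := by
    by_contra hn
    push Not at hn
    exact hE (H14.layer_eq_bot_iff.2 hn)
  have hZL : ∀ l ∈ L, l ∈ centralizer (L : Set G) → l = 1 := fun l h1 h2 =>
    mem_bot.1 (hF ▸ H14.comp_center_le_fitting hL ⟨h1, h2⟩)
  have hcj : ∀ g : G, g ∉ normalizer (L : Set G) → ∀ l ∈ L, g * l * g⁻¹ ∈ centralizer (L : Set G) := by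
    intro g hg l hl m hm
    exact (H14.commutator_eq_bot_iff_comm.1 (H14.comp_commute_of_ne (H14.comp_map_conj hL g) hL
      fun h => hg (cj_eq_self_iff.1 h)) _ (conj_mem_cj hl) m hm).symm
  have := H14.layer_normal G
  have hEs := hsup _ hE
  have hLn : L.Normal := by
    by_contra hnn
    set U := V ⊓ normalizer (L : Set G) with hU
    by_cases hU1 : U = ⊥
    · have hnot : ∀ v ∈ V, v ≠ 1 → v ∉ normalizer (L : Set G) := fun v hv h1 h2 =>
        h1 (mem_bot.1 (hU1 ▸ ⟨hv, h2⟩))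
      have hres : res 2 L ≠ ⊥ := by
        rw [res_eq_of_perfect (H14.comp_perfect hL)]
        exact H14.comp_ne_bot hL
      obtain ⟨l, hl, hlo, hl1⟩ : ∃ l ∈ L, (orderOf l).Coprime 2 ∧ l ≠ 1 := by
        by_contra hn
        push Not at hn
        exact hres (le_bot_iff.1 (res_le_of_forall fun x hx ho => mem_bot.2 (hn x hx ho)))
      have hlo' := Nat.coprime_two_right.1 hlo
      have c1 := hcj v₀ (hnot v₀ hv₀ hv₀1') l⁻¹ (inv_mem hl)
      have e := elemAb_sq hV hv₀
      have hinv : v₀ * (l * (v₀ * l⁻¹ * v₀⁻¹)) * v₀⁻¹ = (l * (v₀ * l⁻¹ * v₀⁻¹))⁻¹ := by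
        calc v₀ * (l * (v₀ * l⁻¹ * v₀⁻¹)) * v₀⁻¹ = v₀ * l * v₀ * l⁻¹ * (v₀ * v₀)⁻¹ := by group
          _ = v₀ * l * v₀⁻¹ * l⁻¹ := by rw [e, elemAb_inv hV hv₀]; group
          _ = _ := by group
      have hho : Odd (orderOf (l * (v₀ * l⁻¹ * v₀⁻¹))) :=
        odd_orderOf_mul_of_commute (c1 l hl) hlo' (by
          have := (MulAut.conj v₀).orderOf_eq l⁻¹
          rw [MulAut.conj_apply, orderOf_inv] at this
          rwa [this])
      obtain ⟨w, hw, hw1, hc⟩ := hS _ v₀ hv₀ hho hinv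
      refine hl1 (hZL l hl ?_)
      by_cases hwv : w = v₀
      · subst hwv
        have h1 : l * (w * l⁻¹ * w⁻¹) = 1 := by
          refine eq_one_of_odd_of_eq_inv hho ?_
          rw [← hinv, hc, mul_inv_cancel_right]
        rw [mul_eq_one_iff_eq_inv.1 h1]
        exact inv_mem c1
      · have hwv1 : w * v₀ ≠ 1 := fun h => hwv (by rw [mul_eq_one_iff_eq_inv.1 h, elemAb_inv hV hv₀])
        have c2 := hcj w (hnot w hw hw1) l hl
        have c3 := hcj _ (hnot _ (mul_mem hw hv₀) hwv1) l⁻¹ (inv_mem hl)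
        have e2 : l = (w * l * w⁻¹) * (w * v₀ * l⁻¹ * (w * v₀)⁻¹) * (v₀ * l⁻¹ * v₀⁻¹)⁻¹ := by
          calc l = w * (l * (v₀ * l⁻¹ * v₀⁻¹)) * w⁻¹ * (v₀ * l⁻¹ * v₀⁻¹)⁻¹ := by rw [hc]; group
            _ = _ := by group
        rw [e2]
        exact mul_mem (mul_mem c2 c3) (inv_mem c1)
    · have hHL : U ⊔ L ≤ normalizer (L : Set G) := sup_le inf_le_right le_normalizer
      have h1 := hsub (U ⊔ L) U (fun h => hnn (normal_of_top_le_normalizer (h ▸ hHL))) le_sup_left
        inf_le_left hU1 (by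
          intro h hh u hu ho hi
          have hhL := hodd L ⊤ U inf_le_left inf_le_right h hh ho
          by_cases hh1 : h = 1
          · obtain ⟨⟨w, hw⟩, hw1⟩ := ne_bot_iff_exists_ne_one.1 hU1
            exact ⟨w, hw, fun h => hw1 (Subtype.ext h), by rw [hh1, mul_one, one_mul]⟩
          obtain ⟨w, hw, hw1, hc⟩ := hS h u hu.1 ho hi
          refine ⟨w, ⟨hw, ?_⟩, hw1, hc⟩
          by_contra hwn
          have := hcj w hwn h hhL
          rw [hc, mul_inv_cancel_right] at this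
          exact hh1 (hZL h hhL this))
      obtain ⟨⟨w, hw⟩, hw1⟩ := ne_bot_iff_exists_ne_one.1 h1
      have hwL : w ∈ centralizer (L : Set G) :=
        hcen _ L (H14.comp_subnormal hL) le_sup_right hHL hw.2
      -- `w` centralizes the normal closure of `L`
      have h2 : normalClosure (L : Set G) ≤ centralizer ({w} : Set G) := by
        refine (closure_le _).2 fun y hy => ?_
        obtain ⟨l, hl, hc⟩ := Group.mem_conjugatesOfSet_iff.1 hy
        obtain ⟨g, rfl⟩ := isConj_iff.1 hc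
        obtain ⟨v, hv, e, he, rfl⟩ := (mem_sup_left_norm (hnl (layer G) V)).1 (hEs ▸ mem_top g)
        have h3 : e * l * e⁻¹ ∈ L := conj_mem_of_mem_normalizer (H14.layer_le_normalizer_comp hL he) hl
        have h4 := hwL _ h3
        have h5 := elemAb_comm hV hv hw.1.1
        refine mem_centralizer_singleton_iff.2 ?_
        calc v * e * l * (v * e)⁻¹ * w = v * (e * l * e⁻¹) * (v⁻¹ * w * v) * v⁻¹ := by group
          _ = v * (e * l * e⁻¹ * w) * v⁻¹ := by rw [mul_assoc v⁻¹, ← h5]; group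
          _ = (v * w) * (e * l * e⁻¹) * v⁻¹ := by rw [h4]; group
          _ = _ := by rw [h5]; group
      have h3 := hsup (normalClosure (L : Set G))
        fun h => H14.comp_ne_bot hL (le_bot_iff.1 (h ▸ le_normalClosure))
      refine hw1 (Subtype.ext (mem_bot.1 (hZ ▸ mem_center_iff.2 fun g => mem_centralizer_singleton_iff.1 ?_)))
      refine sup_le (fun v hv => mem_centralizer_singleton_iff.2 (elemAb_comm hV hv hw.1.1)) h2
        (h3 ▸ mem_top g)
  have hLs := hsup L (H14.comp_ne_bot hL)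
  have hEL : layer G = L := by
    refine le_antisymm (H14.layer_le fun K hK => ?_) (H14.comp_le_layer hL)
    rw [← H14.comp_perfect hK]
    refine (commutator_mono le_top le_top).trans ?_
    rw [← hLs]
    refine commutator_sup_left_le (hnl L _) (hnl L _) ?_ (commutator_le_left _ _)
    refine commutator_sup_right_le (hnl L _) (hnl L _) ?_ (commutator_le_right _ _)
    rw [Subgroup.commutator_eq_bot_iff_le_centralizer.2 hVV]
    exact bot_le
  rw [hFs, hEL]
  refine ⟨H14.simple_of_quasi (H14.comp_quasi hL) ?_, H14.quasi_not_comm (H14.comp_quasi hL), hLs⟩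
  rw [eq_bot_iff]
  intro z hz
  refine mem_bot.2 (Subtype.ext (hZL z z.2 fun y hy => ?_))
  exact congrArg Subtype.val (mem_center_iff.1 hz ⟨y, hy⟩)

end Cfsg.Agent.S3048
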