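import Cfsg.Statements.S3050
import Cfsg.Agent.H47.Higman

set_option autoImplicit false
open Cfsg

namespace Cfsg.Agent.S3050

/-- Let G be a finite group with a normal 2-subgroup Q such that G/Q is isomorphic to SL(2, 2ⁿ) with n ≥ 2, and suppose some element of G of order 3 fixes no nonidentity element of Q under conjugation. Then Q is elementary abelian and is the direct product of normal subgroups of G on each of which G acts as SL(2, 2ⁿ) acts on its natural two-dimensional module (a Galois twist of the natural action allowed). -/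
theorem result {G : Type*} [Group G] [Finite G]
    (Q : Subgroup G) [Q.Normal] (hQ : IsPGroup 2 ↥Q) (n : ℕ) (hn : 2 ≤ n)
    (K : Type*) [Field K] [Fintype K] (hK : Fintype.card K = 2 ^ n)
    (e : G ⧸ Q ≃* Matrix.SpecialLinearGroup (Fin 2) K)
    (x : G) (hx : orderOf x = 3) (hfpf : ∀ q ∈ Q, x * q * x⁻¹ = q → q = 1) :
    Cfsg.IsElementaryAbelian 2 Q ∧
      ∃ (k : ℕ) (V : Fin k → Subgroup G), (∀ i, V i ≤ Q ∧ (V i).Normal ∧
        Cfsg.ActsAsSL2OnSection K ⊤ ⊤ (V i) ⊥) ∧ iSupIndep V ∧ ⨆ i, V i = Q := by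
  classical
  have : CharP K 2 := by
    obtain ⟨p, hp⟩ := CharP.exists K
    obtain ⟨m, hpp, hm⟩ := FiniteField.card K p
    have : p = 2 := (Nat.prime_dvd_prime_iff_eq hpp Nat.prime_two).1
      (hpp.dvd_of_dvd_pow (n := n) (by rw [← hK, hm]; exact dvd_pow_self p m.ne_zero))
    exact this ▸ hp
  have h4 : 4 ≤ Nat.card K := by
    rw [Nat.card_eq_fintype_card, hK]
    exact Nat.pow_le_pow_right (n := 2) (by norm_num) hn
  let π : G →* Matrix.SpecialLinearGroup (Fin 2) K := e.toMonoidHom.comp (QuotientGroup.mk' Q)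
  have hker : π.ker = Q := by
    ext g
    simp [π]
  have hs : Function.Surjective π := e.surjective.comp (QuotientGroup.mk'_surjective Q)
  have h := H47.hig_of_fpf hs (hker ▸ hQ) hx (hker ▸ hfpf)
  obtain ⟨hc, h2, k, Θ, inj, hr, hΘ⟩ := h.coords h4
  rw [hker] at hc h2 hr
  refine ⟨⟨⟨⟨fun a b => Subtype.ext (hc _ a.2 _ b.2)⟩⟩, fun a ha => by rw [pow_two, h2 a ha]⟩, ?_⟩
  let s : Fin k → (Multiplicative (Fin 2 → K) →* G) := fun i =>
    Θ.comp (AddMonoidHom.toMultiplicative (AddMonoidHom.single (fun _ : Fin k => Fin 2 → K) i))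
  have sv : ∀ i v, s i (Multiplicative.ofAdd v) = Θ (Multiplicative.ofAdd (Pi.single i v)) :=
    fun _ _ => rfl
  have sinj : ∀ i, Function.Injective (s i) := fun i a b hab => by
    have := inj hab
    exact Multiplicative.toAdd.injective (Pi.single_injective i (congrArg Multiplicative.toAdd this))
  have sconj : ∀ i g v, g * s i (Multiplicative.ofAdd v) * g⁻¹ =
      s i (Multiplicative.ofAdd ((π g : Matrix (Fin 2) (Fin 2) K).mulVec v)) := fun i g v => by
    rw [sv, sv, hΘ]
    congr 2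
    funext j
    by_cases hj : j = i
    · subst hj; simp
    · simp [hj]
  have snorm : ∀ i, (s i).range.Normal := fun i => ⟨by
    rintro _ ⟨v, rfl⟩ g
    exact ⟨_, (sconj i g v.toAdd).symm⟩⟩
  refine ⟨k, fun i => (s i).range, fun i => ⟨?_, snorm i, ?_, bot_le, π.comp (Subgroup.subtype ⊤),
    (MonoidHom.ofInjective (sinj i)).symm.toMonoidHom, ?_, (MonoidHom.ofInjective (sinj i)).symm.surjective,
    fun u => ?_, fun g u => ?_⟩, fun i => ?_, ?_⟩
  · rintro _ ⟨v, rfl⟩
    exact hr ▸ ⟨_, rfl⟩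
  · have := snorm i
    exact Subgroup.le_normalizer_of_normal
  · rw [MonoidHom.range_eq_top]
    intro y
    obtain ⟨g, rfl⟩ := hs y
    exact ⟨⟨g, trivial⟩, rfl⟩
  · simp
  · obtain ⟨v, rfl⟩ := (MonoidHom.ofInjective (sinj i)).surjective u
    refine ⟨MonoidHom.ofInjective (sinj i) (Multiplicative.ofAdd
      ((π g : Matrix (Fin 2) (Fin 2) K).mulVec v.toAdd)), (sconj i g v.toAdd).symm, ?_⟩
    simp
  · have : ⨆ j, ⨆ (_ : j ≠ i), (s j).range ≤ Subgroup.map Θ (MonoidHom.ker
        (AddMonoidHom.toMultiplicative (Pi.evalAddMonoidHom (fun _ : Fin k => Fin 2 → K) i))) := by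
      refine iSup_le fun j => iSup_le fun hj => ?_
      rintro _ ⟨v, rfl⟩
      refine ⟨_, ?_, rfl⟩
      change Multiplicative.ofAdd ((Pi.single j v.toAdd : Fin k → Fin 2 → K) i) = 1
      simp [hj.symm]
    refine Disjoint.mono_right this (Subgroup.disjoint_def.2 ?_)
    rintro _ ⟨v, rfl⟩ ⟨w, hw, hw'⟩
    have e1 : w = Multiplicative.ofAdd (Pi.single i v.toAdd) := inj hw'
    subst e1
    have : Multiplicative.ofAdd ((Pi.single i v.toAdd : Fin k → Fin 2 → K) i) = 1 := hw
    rw [Pi.single_eq_same] at this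
    have hv : v = 1 := this
    rw [hv, map_one]
  · apply le_antisymm
    · refine iSup_le fun i => ?_
      rintro _ ⟨v, rfl⟩
      exact hr ▸ ⟨_, rfl⟩
    · rw [← hr]
      rintro _ ⟨w, rfl⟩
      have : w = Multiplicative.ofAdd (∑ i, Pi.single i (w.toAdd i)) := by
        rw [Finset.univ_sum_single]; rfl
      rw [this]
      induction (Finset.univ : Finset (Fin k)) using Finset.induction_on with
      | empty => simp
      | insert a t ha ih =>
        rw [Finset.sum_insert ha, ofAdd_add, map_mul]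
        exact mul_mem (Subgroup.mem_iSup_of_mem a ⟨Multiplicative.ofAdd (w.toAdd a), rfl⟩) ih

end Cfsg.Agent.S3050
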