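import Cfsg.Statements.S3053
import Cfsg.Agent.H98.CharP
import Cfsg.Agent.H9.ClassTwo

set_option autoImplicit false
open Cfsg

namespace Cfsg.Agent.S3053

open Subgroup H98 H9
open scoped commutatorElement

theorem str {P : Type*} [Group P] [Finite P] {p : ℕ} [Fact p.Prime] (hp : p ≠ 2) (hE : IsExtraspecial p P)
    (hcard : Nat.card P = p ^ 3) (hexp : Monoid.exponent P = p ^ 2) :
    (∀ u v : P, ⁅u, v⁆ ∈ center P) ∧ (∀ z ∈ center P, z ^ p = 1) ∧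
    (∀ u v : P, u ^ p = 1 → v ^ p = 1 → (u * v) ^ p = 1 ∧ u * v = v * u) ∧
    (∀ e : P, e ^ p = 1 → ∃ k : ℤ, ∀ u, ⁅u, e⁆ = (u ^ p) ^ k) ∧
    ∀ z ∈ center P, z ≠ 1 → ∀ w ∈ center P, w ∈ zpowers z := by
  have pp : p.Prime := Fact.out
  have h1 : ∀ u v : P, ⁅u, v⁆ ∈ center P := fun u v => hE.1.2.2 ▸ commutatorElement_mem_commutator u v
  have h2 : ∀ z ∈ center P, z ^ p = 1 := fun z hz =>
    congrArg Subtype.val (hE.2 ▸ pow_card_eq_one' (x := (⟨z, hz⟩ : center P)))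
  have h3 : ∀ z ∈ center P, z ≠ 1 → ∀ w ∈ center P, w ∈ zpowers z := fun z hz h w hw => by
    obtain ⟨k, hk⟩ := mem_zpowers_of_prime_card hE.2 (g := ⟨z, hz⟩) (g' := ⟨w, hw⟩)
      fun e => h (congrArg Subtype.val e)
    exact ⟨k, congrArg Subtype.val hk⟩
  let f : P →* P := MonoidHom.mk' (· ^ p) fun u v => mul_pow_of_odd (commute_of_mem_center (h1 _ _) _)
    (commute_of_mem_center (h1 _ _) _) (pp.odd_of_ne_two hp) (h2 _ (h1 _ _))
  have h4 : ∀ u, f u ∈ center P := fun u => hE.1.2.1 ▸ pow_mem_frattini hE.1.1 u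
  obtain ⟨x, hx⟩ : ∃ x, f x ≠ 1 := by
    by_contra h
    simp only [not_exists, not_not] at h
    have := Nat.le_of_dvd pp.pos (hexp ▸ Monoid.exponent_dvd_of_forall_pow_eq_one h)
    nlinarith [pp.two_le]
  have h5 : Nat.card f.ker = p ^ 2 := by
    have e1 : f.range = center P := le_antisymm (fun _ ⟨u, e⟩ => e ▸ h4 u) fun w hw =>
      zpowers_le.2 (f.mem_range.2 ⟨x, rfl⟩) (h3 _ (h4 x) hx w hw)
    have := f.ker.card_mul_index
    rw [index_ker, e1, hE.2, hcard, pow_succ] at this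
    exact Nat.eq_of_mul_eq_mul_right pp.pos this
  have h6 : ∀ u v : P, u ^ p = 1 → v ^ p = 1 → u * v = v * u := fun u v hu hv => congrArg Subtype.val
    ((IsPGroup.isMulCommutative_of_card_eq_prime_sq h5).1.1 ⟨u, hu⟩ ⟨v, hv⟩)
  refine ⟨h1, h2, fun u v hu hv => ⟨mul_mem (s := f.ker) hu hv, h6 u v hu hv⟩, fun e he => ?_, h3⟩
  obtain ⟨k, hk⟩ := h3 _ (h4 x) hx _ (h1 x e)
  refine ⟨k, fun u => ?_⟩
  obtain ⟨j, hj⟩ := h3 _ (h4 x) hx _ (h4 u)
  have h7 : ⁅(x ^ j)⁻¹ * u, e⁆ = 1 := commutatorElement_eq_one_iff_mul_comm.2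
    (h6 _ _ (show f _ = 1 by rw [map_mul, map_inv, map_zpow, ← hj, inv_mul_cancel]) he)
  change _ = f u ^ k
  rw [← hj, ← zpow_mul, mul_comm, zpow_mul, show f x ^ k = _ from hk,
    ← commutatorElement_zpow_left (commute_of_mem_center (h1 _ _) _), ← mul_inv_cancel_left (x ^ j) u,
    commutatorElement_mul_left', h7, mul_one, mul_inv_cancel, one_mul]

theorem main {G : Type*} [Group G] [Finite G] {p : ℕ} [Fact p.Prime] (hp : p ≠ 2) {T : Subgroup G}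
    (hP : IsSyl p T ⊤) (hE : IsExtraspecial p T) (hcard : Nat.card T = p ^ 3) (hexp : Monoid.exponent T = p ^ 2) :
    IsStronglyClosed ((center T).map T.subtype) T := by
  have pp : p.Prime := Fact.out
  obtain ⟨s1, s2, s3, s4, s5⟩ := str hp hE hcard hexp
  set Z := (center T).map T.subtype
  have z0 : ∀ {z}, z ∈ Z ↔ z ∈ T ∧ ∀ u ∈ T, u * z = z * u :=
    ⟨fun ⟨z, hz, e⟩ => e ▸ ⟨z.2, fun u hu => congrArg Subtype.val (mem_center_iff.1 hz ⟨u, hu⟩)⟩,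
      fun h => ⟨⟨_, h.1⟩, mem_center_iff.2 fun u => Subtype.ext (h.2 u u.2), rfl⟩⟩
  have t3 : ∀ u ∈ T, ∀ v ∈ T, u ^ p = 1 → v ^ p = 1 → (u * v) ^ p = 1 ∧ u * v = v * u := fun u hu v hv h h' =>
    (s3 ⟨u, hu⟩ ⟨v, hv⟩ (Subtype.ext h) (Subtype.ext h')).imp (congrArg Subtype.val) (congrArg Subtype.val)
  let E : Subgroup G :=
    { carrier := {x | x ∈ T ∧ x ^ p = 1}
      one_mem' := ⟨one_mem T, one_pow p⟩
      mul_mem' := fun ha hb => ⟨mul_mem ha.1 hb.1, (t3 _ ha.1 _ hb.1 ha.2 hb.2).1⟩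
      inv_mem' := fun ha => ⟨inv_mem ha.1, by rw [inv_pow, ha.2, inv_one]⟩ }
  have eT : E ≤ T := fun _ h => h.1
  have t1 : ∀ u ∈ T, ∀ v ∈ T, ⁅u, v⁆ ∈ Z := fun u hu v hv => ⟨_, s1 ⟨u, hu⟩ ⟨v, hv⟩, rfl⟩
  have t2 : Z ≤ E := fun _ ⟨z, hz, e⟩ => e ▸ ⟨z.2, congrArg Subtype.val (s2 z hz)⟩
  have t4 : ∀ e ∈ E, ∃ k : ℤ, ∀ u ∈ T, ⁅u, e⁆ = (u ^ p) ^ k := fun e he =>
    (s4 ⟨e, he.1⟩ (Subtype.ext he.2)).imp fun k h u hu => congrArg Subtype.val (h ⟨u, hu⟩)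
  have t5 : ∀ z ∈ Z, z ≠ 1 → Z = zpowers z := by
    rintro _ ⟨z, hz, rfl⟩ h
    refine le_antisymm ?_ (zpowers_le.2 ⟨z, hz, rfl⟩)
    rintro _ ⟨w, hw, rfl⟩
    obtain ⟨k, hk⟩ := s5 z hz (fun e => h (congrArg Subtype.val e)) w hw
    exact ⟨k, congrArg Subtype.val hk⟩
  have nE : normalizer (T : Set G) ≤ normalizer (E : Set G) := fun n hn => mem_normalizer_of_cj_le
    (map_le_iff_le_comap.2 fun x hx => (⟨conj_mem_of_mem_normalizer hn hx.1, by
      rw [conj_pow, hx.2, mul_one, mul_inv_cancel]⟩ : n * x * n⁻¹ ∈ E))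
  have t6 : ∀ e ∈ E, e ∉ Z → ∀ z ∈ Z, ∃ u ∈ T, u * e * u⁻¹ = z * e := fun e he h z hz => by
    obtain ⟨u, hu, h1⟩ : ∃ u ∈ T, ⁅u, e⁆ ≠ 1 := by
      by_contra h1
      simp only [not_exists, not_and, not_not] at h1
      exact h (z0.2 ⟨he.1, fun u hu => commutatorElement_eq_one_iff_mul_comm.1 (h1 u hu)⟩)
    obtain ⟨k, rfl⟩ := t5 _ (t1 u hu e he.1) h1 ▸ hz
    refine ⟨u ^ k, zpow_mem hu k, ?_⟩
    rw [H9.conj_eq_commutatorElement_mul, commutatorElement_zpow_left ((z0.1 (t1 u hu e he.1)).2 u hu)]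
  have key : ∀ n ∈ normalizer (E : Set G), n ∈ normalizer (Z : Set G) → ∀ e ∈ E, ⁅n, e⁆ ∈ Z := by
    intro n h1 h2
    let Y : Subgroup G :=
      { carrier := {g | g ∈ normalizer (E : Set G) ∧ ∀ e ∈ E, ⁅g, e⁆ ∈ Z}
        one_mem' := ⟨one_mem _, fun e _ => by simp⟩
        mul_mem' := fun {a b} ha hb => ⟨mul_mem ha.1 hb.1, fun e he => by
          rw [show ⁅a * b, e⁆ = ⁅a, b * e * b⁻¹⁆ * ⁅b, e⁆ by group]
          exact mul_mem (ha.2 _ (conj_mem_of_mem_normalizer hb.1 he)) (hb.2 e he)⟩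
        inv_mem' := fun {a} ha => ⟨inv_mem ha.1, fun e he => by
          rw [show ⁅a⁻¹, e⁆ = ⁅a, a⁻¹ * e * a⁆⁻¹ by group]
          exact inv_mem (ha.2 _ (conj_mem_of_mem_normalizer' ha.1 he))⟩ }
    have y1 : normalizer (T : Set G) ≤ Y := fun m hm => ⟨nE hm, fun e he => by
      have h3 := conj_mem_of_mem_normalizer (nE hm) he
      obtain ⟨k, hk⟩ := t4 e he
      refine z0.2 ⟨eT (mul_mem h3 (inv_mem he)), fun u hu => ?_⟩
      have h4 : ⁅u, m * e * m⁻¹⁆ = ⁅u, e⁆ := by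
        rw [hk u hu, show ⁅u, m * e * m⁻¹⁆ = m * ⁅m⁻¹ * u * m, e⁆ * m⁻¹ by group,
          hk _ (conj_mem_of_mem_normalizer' hm hu), ← conj_zpow, ← conj_pow]
        group
      rw [commutatorElement_def, (t3 _ h3.1 _ (inv_mem he).1 h3.2 (inv_mem he).2).2]
      calc _ = e⁻¹ * (⁅u, e⁆⁻¹ * u) * (m * e * m⁻¹) := by group
        _ = _ := by rw [← h4]; group⟩
    have y2 : n ∈ normalizer (Y : Set G) := mem_normalizer_of_cj_le (map_le_iff_le_comap.2 fun g hg =>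
      (⟨mul_mem (mul_mem h1 hg.1) (inv_mem h1), fun e he => by
        rw [show ⁅n * g * n⁻¹, e⁆ = n * ⁅g, n⁻¹ * e * n⁆ * n⁻¹ by group]
        exact conj_mem_of_mem_normalizer h2 (hg.2 _ (conj_mem_of_mem_normalizer' h1 he))⟩ : n * g * n⁻¹ ∈ Y))
    obtain ⟨a, ha, b, hb, e⟩ := (hP.of_le (le_normalizer.trans y1) le_top).frattini_mem y2
    exact (e ▸ mul_mem (y1 ha) hb : n ∈ Y).2
  refine ⟨map_subtype_le _, fun z hz g hy => by_contra fun hy' => ?_⟩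
  have z1 : z ≠ 1 := fun e => hy' (by simp [e])
  set y := g * z * g⁻¹ with hyd
  have yE : y ∈ E := ⟨hy, by rw [hyd, conj_pow, (t2 hz).2, mul_one, mul_inv_cancel]⟩
  have nZ : ∀ m : G, m * z * m⁻¹ ∈ Z → m ∈ normalizer (Z : Set G) := fun m hm => mem_normalizer_of_cj_le (by
    conv_lhs => rw [t5 z hz z1, cj, MonoidHom.map_zpowers]
    exact zpowers_le.2 hm)
  obtain ⟨c, hc, h1⟩ := (hP.of_le (K := centralizer {z}) (fun u hu => mem_centralizer_singleton_iff.2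
    ((z0.1 hz).2 u hu)) le_top).exists_cj_le (isPGroup_cj g⁻¹ (hP.isPGroup.to_le eT)) fun x hx => by
      have h2 : g * x * g⁻¹ ∈ E := by simpa using mem_cj.1 hx
      have := (t3 _ h2.1 _ hy h2.2 yE.2).2
      refine mem_centralizer_singleton_iff.2 ?_
      calc x * z = g⁻¹ * (g * x * g⁻¹ * y) * g := by rw [hyd]; group
        _ = _ := by rw [this, hyd]; group
  rw [cj_cj] at h1
  set h := c * g⁻¹ with hh
  have h2 : h ∈ normalizer (E : Set G) := mem_normalizer_of_cj_le fun x hx => ⟨h1 hx, by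
    obtain ⟨x, hx, rfl⟩ := hx
    rw [← map_pow, hx.2, map_one]⟩
  have h3 : h * y * h⁻¹ = z := by
    calc _ = c * z * c⁻¹ := by rw [hh, hyd]; group
      _ = z := by rw [mem_centralizer_singleton_iff.1 hc, mul_inv_cancel_right]
  clear_value y h
  have h4 : h * z * h⁻¹ ∉ Z := fun e => hy' (by
    have := conj_mem_of_mem_normalizer' (nZ h e) hz
    rwa [← h3, show h⁻¹ * (h * y * h⁻¹) * h = y by group] at this)
  have h5 := conj_mem_of_mem_normalizer h2 (t2 hz)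
  set w := h * z * h⁻¹ with hw
  have h6 : w * w ∉ Z := fun e => h4 (by
    obtain ⟨k, hk⟩ := pp.odd_of_ne_two hp
    have := pow_mem e (k + 1)
    rwa [← sq, ← pow_mul, show 2 * (k + 1) = p + 1 by omega, pow_succ, h5.2, one_mul] at this)
  have tE := le_normalizer.trans nE
  obtain ⟨u, hu, e1⟩ := t6 y yE hy' _ (mul_mem hz hz)
  obtain ⟨v, hv, e2⟩ := t6 _ (mul_mem h5 h5) h6 z hz
  let m := h⁻¹ * v⁻¹ * h * u * h⁻¹
  have m1 : m ∈ normalizer (E : Set G) :=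
    mul_mem (mul_mem (mul_mem (mul_mem (inv_mem h2) (inv_mem (tE hv))) h2) (tE hu)) (inv_mem h2)
  have m2 : m * z * m⁻¹ = z * z := by
    calc _ = h⁻¹ * v⁻¹ * (h * (u * (h⁻¹ * z * h) * u⁻¹) * h⁻¹) * v * h := by simp only [m]; group
      _ = h⁻¹ * v⁻¹ * (w * w * (h * y * h⁻¹)) * v * h := by
        rw [show h⁻¹ * z * h = y by rw [← h3]; group, e1, hw]; group
      _ = h⁻¹ * v⁻¹ * (v * (w * w) * v⁻¹) * v * h := by rw [h3, (z0.1 hz).2 _ (mul_mem h5.1 h5.1), e2]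
      _ = _ := by rw [hw]; group
  obtain ⟨s, hs, e3⟩ := t6 y yE hy' _ (key m m1 (nZ m (m2 ▸ mul_mem hz hz)) y yE)
  let r := h * s⁻¹ * m * h⁻¹
  have r1 : r * z * r⁻¹ = z := by
    calc _ = h * s⁻¹ * (m * (h⁻¹ * z * h) * m⁻¹) * s * h⁻¹ := by simp only [r]; group
      _ = z := by
        rw [show h⁻¹ * z * h = y by rw [← h3]; group, H9.conj_eq_commutatorElement_mul m, ← e3, ← h3]; group
  refine h4 ?_
  have := key r (mul_mem (mul_mem (mul_mem h2 (inv_mem (tE hs))) m1) (inv_mem h2)) (nZ r (r1.symm ▸ hz)) w h5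
  rwa [show ⁅r, w⁆ = h * (s⁻¹ * (m * z * m⁻¹)) * s * z⁻¹ * h⁻¹ by simp only [r, hw]; group, m2,
    (z0.1 (mul_mem hz hz)).2 _ (inv_mem hs), show h * (z * z * s⁻¹) * s * z⁻¹ * h⁻¹ = w by rw [hw]; group] at this

/-- Let p be an odd prime and G a finite group with a Sylow p-subgroup P that is extraspecial of order p³ and exponent p². Then the centre of P is strongly closed in P with respect to G: a G-conjugate of an element of Z(P) that lies in P already lies in Z(P). In particular a nontrivial central element of P is conjugate in G to no noncentral element of P. -/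
theorem result {G : Type*} [Group G] [Finite G]
    {p : ℕ} [Fact p.Prime] (hp : p ≠ 2) (P : Sylow p G) (hE : Cfsg.IsExtraspecial p ↥P)
    (hcard : Nat.card P = p ^ 3) (hexp : Monoid.exponent ↥P = p ^ 2) :
    Cfsg.IsStronglyClosed ((Subgroup.center ↥P).map (P : Subgroup G).subtype) (P : Subgroup G) := by
  exact main hp (isSyl_sylow P) hE hcard hexp

end Cfsg.Agent.S3053
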