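import Cfsg.Statements.S3057
import Cfsg.Agent.Base
import Cfsg.Agent.H99.SPE2
import Cfsg.Agent.H18.PSolv

set_option autoImplicit false
open Cfsg

namespace Cfsg.Agent.S3057

open Subgroup Cfsg H98 H99

/-- Let p be a prime and G a finite p-solvable group of order divisible by p, with Sylow p-subgroup P. Then the Sylow p-subgroups of G fail to be chain-connected through nontrivial intersections (equivalently, G has a strongly p-embedded subgroup) if and only if O_p(G) = 1 and P is cyclic or, for p = 2, generalized quaternion. -/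
theorem result {G : Type*} [Group G] [Finite G]
    (p : ℕ) [Fact p.Prime] (hdiv : p ∣ Nat.card G) (hsol : Cfsg.IsPSolvable p G) (P : Sylow p G) :
    ¬ Cfsg.IsSylowChainConnected p G ↔
      Cfsg.pCore p G = ⊥ ∧ (IsCyclic ↥P ∨ (p = 2 ∧ ∃ n : ℕ, Nonempty (↥P ≃* QuaternionGroup (2 ^ n)))) := by
  rw [not_chainConnected_iff]
  constructor
  · rintro ⟨X, hX⟩
    refine ⟨spe_pCore_eq_bot hX, ?_⟩
    have hcyc : ∀ A ≤ (P : Subgroup G), IsMulCommutative A → IsCyclic A := by
      intro A hA hcomm
      by_contra hn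
      obtain ⟨T, hT, hTX, -⟩ := spe_exists_isSyl hX
      obtain ⟨g, -, hg⟩ := hT.exists_cj_le (P.isPGroup'.to_le hA) le_top
      have e : A ≃* cj g A := (MulAut.conj g).subgroupMap A
      have hc : IsMulCommutative (cj g A) := ⟨⟨fun a b => by
        obtain ⟨a, rfl⟩ := e.surjective a
        obtain ⟨b, rfl⟩ := e.surjective b
        rw [← map_mul, ← map_mul, mul_comm' a b]⟩⟩
      have hO : pPrimeCore p G ≤ X :=
        spe_le_of_noncyclic hX (hg.trans hTX) (isPGroup_cj g (P.isPGroup'.to_le hA))
          (fun h => hn (isCyclic_of_surjective e.symm e.symm.surjective))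
          (by rw [normalizer_eq_top]; exact le_top) (H2.not_dvd_card_pPrimeCore p G)
      have hY := spe_map_mk hX _ (H2.not_dvd_card_pPrimeCore p G)
        (by rw [sup_eq_left.2 hO]; exact spe_ne_top hX)
      have h1 := H18.centralizer_pCore_le (H18.isPSolvable_quotient hsol _)
        (H2.pPrimeCore_quotient_pPrimeCore p G)
      rw [spe_pCore_eq_bot hY, centralizer_bot'] at h1
      obtain ⟨y, -, hy⟩ := spe_exists hY
      rw [mem_bot.1 (h1 (mem_top y)), orderOf_one] at hy
      exact (Fact.out : p.Prime).one_lt.ne hy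
    rcases H3.isCyclic_or_quaternion_of_unique P.isPGroup'
      (unique_of_abelian_cyclic P.isPGroup' hcyc) with h | ⟨h, n, hn⟩
    · exact Or.inl h
    · exact Or.inr ⟨h, n + 1, hn⟩
  · rintro ⟨hO, h⟩
    have hP1 : (P : Subgroup G) ≠ ⊥ := fun hb =>
      ((isSyl_sylow P).eq_bot_iff.1 hb) (by rwa [card_top])
    refine ⟨_, spe_normalizer_omegaOne hO P hP1 (unique_of_cyclic_or_quaternion P.isPGroup' ?_)⟩
    rcases h with h | ⟨-, n, hn⟩
    · exact Or.inl h
    · exact Or.inr ⟨_, hn⟩

end Cfsg.Agent.S3057
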