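import Cfsg.Statements.S3059
import Cfsg.Agent.Base
import Cfsg.Agent.H99.SPE

set_option autoImplicit false
open Cfsg

namespace Cfsg.Agent.S3059

open Subgroup Cfsg H98 H99

/-- Let p be a prime and H a strongly p-embedded subgroup of the finite group G in the classical sense: H is proper, p divides the order of H, and H ∩ gHg⁻¹ has order prime to p for every g outside H. Then for every normal subgroup N of G of order divisible by p, G = H · O^p(N), where O^p(N) is the subgroup generated by the elements of N of order prime to p. -/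
theorem result {G : Type*} [Group G] [Finite G]
    (p : ℕ) [Fact p.Prime] (H : Subgroup G) (hH : H ≠ ⊤) (hpH : p ∣ Nat.card H)
    (hse : ∀ g : G, g ∉ H → ¬ p ∣ Nat.card ↥(H ⊓ H.map (MulAut.conj g).toMonoidHom))
    (N : Subgroup G) [N.Normal] (hN : p ∣ Nat.card N) :
    H ⊔ Subgroup.closure {g : G | g ∈ N ∧ (orderOf g).Coprime p} = ⊤ := by
  have hX : IsStronglyPEmbedded p H := H84.spe_iff_not_dvd.2 ⟨hH, hpH, hse⟩
  obtain ⟨T, hT, hTH, -, h⟩ := spe_exists_mul hX N hN
  rw [← res_eq_closure, eq_top_iff]
  intro g _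
  obtain ⟨a, ha, n, hn, rfl⟩ := h g
  obtain ⟨t, ht, r, hr, rfl⟩ := hT.exists_mul_res hn
  exact mul_mem (mem_sup_left ha) (mul_mem (mem_sup_left (hTH ht)) (mem_sup_right hr))

end Cfsg.Agent.S3059
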