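import Cfsg.Statements.S3064
import Cfsg.Agent.Base
import Cfsg.Agent.H99.ZStarMin
import Cfsg.Agent.H99.Product
import Cfsg.Agent.H5.FrobThm

set_option autoImplicit false
open Cfsg

namespace Cfsg.Agent.S3064

open Subgroup Cfsg H98 H99
open scoped Pointwise

theorem aux.{u_1} (p : ℕ) [Fact p.Prime] (n : ℕ) : ∀ (G : Type u_1) [Group G] [Finite G], Nat.card G = n →
    ∀ x : G, IsPGroup p (zpowers x) → IsIsolated x →
    (∀ H : Subgroup G, (Nat.card H).Coprime p → (∀ h ∈ H, x * h * x⁻¹ ∈ H) → ∀ h ∈ H, x * h = h * x) →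
    x ∈ center G := by
  induction n using Nat.strong_induction_on with
  | _ n ih =>
  intro G _ _ hn x hp hiso hb
  by_contra hx
  set C := centralizer ({x} : Set G) with hC
  have hxC : x ∈ C := mem_centralizer_singleton_iff.2 rfl
  have hCt : C ≠ ⊤ := by
    intro h
    refine hx (mem_center_iff.2 fun g => mem_centralizer_singleton_iff.1 ?_)
    rw [← hC, h]
    trivial
  have hle : ∀ H : Subgroup G, x ∈ H → H ≠ ⊤ → H ≤ C := by
    intro H hxH hH
    have h1 : Nat.card H < n := by
      rw [← hn, ← card_top (G := G)]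
      exact card_lt_card_of_lt (lt_top_iff_ne_top.2 hH)
    have h2 := ih _ h1 H rfl ⟨x, hxH⟩ (by
      refine isPGroup_of_map_injective H.subtype_injective ?_
      rw [MonoidHom.map_zpowers]
      exact hp) (iso_subgroup hiso hxH) (by
      intro K hK h1 k hk
      apply Subtype.ext
      refine hb (K.map H.subtype) (by rwa [card_map_of_injective H.subtype_injective]) ?_ k
        (mem_map_of_mem H.subtype hk)
      rintro _ ⟨a, ha, rfl⟩
      exact mem_map_of_mem H.subtype (h1 a ha))
    intro h hh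
    exact mem_centralizer_singleton_iff.2 (congrArg Subtype.val (mem_center_iff.1 h2 ⟨h, hh⟩))
  have hZC : center G ≤ C := fun z hz => mem_centralizer_singleton_iff.2 (mem_center_iff.1 hz x).symm
  have hTI : ∀ g, g ∉ C → ∀ y ∈ C, g⁻¹ * y * g ∈ C → y ∈ center G := by
    intro g hg y hy hy2
    by_contra hyZ
    have h1 : centralizer ({y} : Set G) ≤ C := by
      refine hle _ (mem_centralizer_singleton_iff.2 (mem_centralizer_singleton_iff.1 hy).symm) fun h => ?_
      refine hyZ (mem_center_iff.2 fun g => mem_centralizer_singleton_iff.1 ?_)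
      rw [h]
      trivial
    have h2 : g * x * g⁻¹ ∈ centralizer ({y} : Set G) := by
      rw [mem_centralizer_singleton_iff] at hy2 ⊢
      calc g * x * g⁻¹ * y = g * (x * (g⁻¹ * y * g)) * g⁻¹ := by group
        _ = y * (g * x * g⁻¹) := by rw [← hy2]; group
    exact hg (mem_centralizer_of_conj_eq (hiso g (mem_centralizer_singleton_iff.1 (h1 h2)).symm))
  set π := QuotientGroup.mk' (center G) with hπ
  have hcm : (C.map π).comap π = C := by
    rw [comap_map_eq, QuotientGroup.ker_mk', sup_eq_left.2 hZC]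
  have hx1 : π x ≠ 1 := fun h => hx ((QuotientGroup.eq_one_iff x).1 h)
  have hF : IsFrobeniusComplement (C.map π) := by
    refine ⟨fun h => hx1 (mem_bot.1 (h ▸ mem_map_of_mem π hxC)), fun h => hCt ?_, fun g hg => ?_⟩
    · rw [← hcm, h, comap_top]
    · obtain ⟨g, rfl⟩ := QuotientGroup.mk'_surjective _ g
      rw [eq_bot_iff]
      rintro _ ⟨⟨y, hy, rfl⟩, hy2⟩
      rw [← cj_eq_smul] at hy2
      have h1 : g⁻¹ * y * g ∈ C := by
        rw [← hcm, mem_comap, map_mul, map_mul, map_inv]
        exact mem_cj.1 hy2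
      exact mem_bot.2 ((QuotientGroup.eq_one_iff y).2
        (hTI g (fun h => hg (mem_map_of_mem π h)) y hy h1))
  have := H5.frobKer_normal hF
  set Kb := H5.frobKer hF with hKb
  have hKp : ¬ p ∣ Nat.card Kb := by
    intro hd
    obtain ⟨T, hT, hxT⟩ := exists_isSyl_le (hp.map π) le_top
    have h1 : IsSyl p (T ⊓ Kb) Kb :=
      hT.inf_of_le_normalizer le_top (by rw [normalizer_eq_top]; exact le_top)
    refine inf_centralizer_ne_bot h1.isPGroup (hp.map π)
      (le_normalizer_inf (hxT.trans le_normalizer) (by rw [normalizer_eq_top]; exact le_top))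
      (fun h => (h1.eq_bot_iff.1 h) hd) ?_
    rw [eq_bot_iff, ← H5.frobKer_inf_centralizer hF (π x) (mem_map_of_mem π hxC) hx1]
    refine le_inf (inf_le_left.trans inf_le_right) fun y hy => ?_
    exact mem_centralizer_singleton_iff.2 (hy.2 _ (mem_map_of_mem π (mem_zpowers x))).symm
  set K := Kb.comap π with hK
  obtain ⟨T, hT⟩ := exists_isSyl p K
  have hTZ : T ≤ center G := by
    have h1 := hT.map π
    rw [hK, map_comap_eq_self_of_surjective (QuotientGroup.mk'_surjective _)] at h1
    have h2 := h1.eq_bot_iff.2 hKp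
    rwa [Subgroup.map_eq_bot_iff, QuotientGroup.ker_mk'] at h2
  have h1 := not_dvd_card_res_of_central hT fun t ht k _ => mem_center_iff.1 (hTZ ht) k
  have hKC : K ≤ C := by
    rw [← hT.sup_res]
    refine sup_le (hTZ.trans hZC) fun r hr => ?_
    refine mem_centralizer_singleton_iff.2 (hb _ ((Fact.out : p.Prime).coprime_iff_not_dvd.2 h1).symm
      (fun h hh => conj_mem_of_mem_normalizer (normalizer_le_normalizer_res K ?_) hh) r hr).symm
    rw [normalizer_eq_top]
    trivial
  apply hF.2.1
  rw [eq_top_iff, ← (H5.frobKer_isComplement' hF).sup_eq_top]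
  refine sup_le ?_ le_rfl
  rw [← hKb, ← map_comap_eq_self_of_surjective (QuotientGroup.mk'_surjective (center G)) Kb]
  exact map_mono hKC

/-- Let S be a Sylow p-subgroup of the finite group G and x an element of S such that (i) x is the only G-conjugate of x lying in S, and (ii) x centralizes every subgroup of order prime to p that it normalizes. Then x lies in the centre of G. -/
theorem result {G : Type*} [Group G] [Finite G] {p : ℕ} [Fact p.Prime]
    (S : Sylow p G) (x : G) (hx : x ∈ S)
    (hU : ∀ g : G, g⁻¹ * x * g ∈ S → g⁻¹ * x * g = x)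
    (hb : ∀ H : Subgroup G, (Nat.card H).Coprime p → (∀ h ∈ H, x * h * x⁻¹ ∈ H) → ∀ h ∈ H, x * h = h * x) :
    x ∈ Subgroup.center G := by
  have hp : IsPGroup p (zpowers x) := S.isPGroup'.to_le (zpowers_le.2 hx)
  refine aux p _ G rfl x hp (fun g hg => ?_) hb
  have hc : zpowers x ≤ normalizer (cj g (zpowers x) : Set G) := by
    refine le_normalizer_of_le_centralizer ?_
    rintro _ ⟨i, rfl⟩ _ ⟨_, ⟨j, rfl⟩, rfl⟩
    change g * x ^ j * g⁻¹ * x ^ i = x ^ i * (g * x ^ j * g⁻¹)
    rw [← conj_zpow]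
    exact (hg.zpow_zpow i j).symm
  obtain ⟨h, -, hle⟩ := (isSyl_sylow S).exists_cj_le
    (hp.to_sup_of_normal_right' (isPGroup_cj g hp) hc) le_top
  have h1 := hU h⁻¹ (by
    rw [inv_inv]; exact hle (conj_mem_cj (mem_sup_left (mem_zpowers x))))
  have h2 := hU (h * g)⁻¹ (by
    have := hle (conj_mem_cj (mem_sup_right (conj_mem_cj (mem_zpowers x))))
    rw [inv_inv, show h * g * x * (h * g)⁻¹ = h * (g * x * g⁻¹) * h⁻¹ by group]
    exact this)
  rw [inv_inv] at h1 h2
  calc g * x * g⁻¹ = h⁻¹ * (h * g * x * (h * g)⁻¹) * h := by group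
    _ = h⁻¹ * (h * x * h⁻¹) * h := by rw [h2, h1]
    _ = x := by group

end Cfsg.Agent.S3064
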