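import Cfsg.Statements.S3067
import Cfsg.Agent.Base
import Cfsg.Agent.H86.ZStarElt
import Cfsg.Agent.H1.InvSylow
import Cfsg.Agent.H2.PrimeCore

set_option autoImplicit false
open Cfsg

namespace Cfsg.Agent.S3067

theorem p2 {G : Type*} [Group G] (x : G) (hx : x * x = 1) : IsPGroup 2 (Subgroup.zpowers x) := by
  rintro ⟨_, k, rfl⟩
  exact ⟨1, Subtype.ext (by
    change (x ^ k) ^ 2 ^ 1 = 1
    rw [pow_one, ← zpow_natCast, ← zpow_mul, mul_comm, zpow_mul, zpow_natCast, pow_two, hx,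
      one_zpow])⟩

open Subgroup in
theorem key {G : Type*} [Group G] [Finite G] (τ : G) (hτ : orderOf τ = 2) (α : MulAut G)
    (hcop : (orderOf α).Coprime (Nat.card G))
    (H : ∀ c ∈ Subgroup.centralizer ({τ} : Set G), α c = c) (M : Subgroup G)
    (hM : ∀ g, g ∈ M ↔ α g = g) :
    (∃ S : Sylow 2 G, τ ∈ (S : Subgroup G) ∧ (S : Subgroup G) ≤ M) ∧
      ∀ g : G, g * τ * g⁻¹ ∈ M → g * τ * g⁻¹ * τ ∈ M.normalCore := by
  classical
  have tt : τ * τ = 1 := by rw [← pow_two, ← hτ, pow_orderOf_eq_one]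
  have tM : τ ∈ M := (hM τ).2 (H τ (mem_centralizer_singleton_iff.2 rfl))
  have se : ∀ g : G, g * τ * g⁻¹ ∈ M → g ∈ M := fun g hg => by
    have h1 := (hM _).1 hg
    simp only [map_mul, map_inv, (hM τ).1 tM] at h1
    have h2 : α (g⁻¹ * α g) = g⁻¹ * α g := H _ (mem_centralizer_singleton_iff.2 (by
      calc g⁻¹ * α g * τ = g⁻¹ * (α g * τ * (α g)⁻¹) * α g := by group
        _ = _ := by rw [h1]; group))
    obtain ⟨c, hc⟩ : ∃ c, c = g⁻¹ * α g := ⟨_, rfl⟩
    rw [← hc] at h2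
    have h3 : ∀ k : ℕ, (α ^ k) g = g * c ^ k := fun k => by
      induction k with
      | zero => simp
      | succ k ih => rw [pow_succ', MulAut.mul_apply, ih, map_mul, map_pow, h2, pow_succ', ← mul_assoc,
          eq_inv_mul_iff_mul_eq.1 hc]
    have h4 := h3 (orderOf α)
    rw [pow_orderOf_eq_one, MulAut.one_apply, eq_comm, mul_eq_left] at h4
    have h5 : c = 1 := orderOf_eq_one_iff.1 ((Nat.coprime_self _).1 ((hcop.coprime_dvd_left
        (orderOf_dvd_of_pow_eq_one h4)).coprime_dvd_right (orderOf_dvd_natCard c)))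
    exact (hM g).2 (inv_mul_eq_one.1 (hc.symm.trans h5)).symm
  let φ : zpowers α →* MulAut G := (zpowers α).subtype
  have cop : (Nat.card (zpowers α)).Coprime (Nat.card G) := by rwa [Nat.card_zpowers]
  have sol : Group.IsSolvable (zpowers α) := inferInstance
  have fx : ∀ a : zpowers α, ∀ x ∈ M, φ a x = x := fun a x hx => by
    obtain ⟨a, ha⟩ := a
    obtain ⟨k, rfl⟩ := (mem_zpowers_iff_mem_range_orderOf.1 ha |> Finset.mem_image.1).imp
      fun _ h => h.2
    change (α ^ k) x = x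
    induction k with
    | zero => rfl
    | succ k ih => rw [pow_succ, MulAut.mul_apply, (hM x).1 hx, ih (pow_mem (mem_zpowers α) k)]
  obtain ⟨T, hT, hTi⟩ := H1.exists_invariant_sylow_ge φ cop (.inl sol) 2 _ (p2 τ tt)
    (fun a x hx => by rwa [fx a x (zpowers_le.2 tM hx)])
  have tT : τ ∈ (T : Subgroup G) := hT (mem_zpowers τ)
  have TM : (T : Subgroup G) ≤ M := by
    have := T.isPGroup'.isNilpotent
    have h1 : M.subgroupOf (T : Subgroup G) = ⊤ := by
      by_contra h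
      obtain ⟨x, h2, h3⟩ := SetLike.exists_of_lt (normalizerCondition_of_isNilpotent _
        (lt_top_iff_ne_top.2 h))
      exact h3 (se x ((mem_normalizer_iff.1 h2 ⟨τ, tT⟩).1 tM))
    exact subgroupOf_eq_top.1 h1
  have inv : ∀ Q : Subgroup G, IsPGroup 2 Q → (∀ a, ∀ x ∈ Q, φ a x ∈ Q) → Q ≤ M := fun Q h1 h2 => by
    obtain ⟨P, h3, h4⟩ := H1.exists_invariant_sylow_ge φ cop (.inl sol) 2 Q h1 h2
    obtain ⟨c, h5, rfl⟩ := H1.invariant_sylow_conj φ cop (.inl sol) 2 T P hTi h4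
    have h6 : c ∈ M := (hM c).2 (h5 ⟨α, mem_zpowers α⟩)
    refine h3.trans ?_
    rintro _ ⟨x, hx, rfl⟩
    exact mul_mem (mul_mem h6 (TM hx)) (inv_mem h6)
  have xx : ∀ g : G, g * τ * g⁻¹ * (g * τ * g⁻¹) = 1 := fun g => by
    calc _ = g * (τ * τ) * g⁻¹ := by group
      _ = 1 := by rw [tt]; group
  have K : ∀ g g' : G, g * τ * g⁻¹ * (g' * τ * g'⁻¹) ∈ M → g⁻¹ * g' ∈ M := fun g g' hu => by
    have a1 := xx g
    have a2 := xx g'
    obtain ⟨x, hx⟩ : ∃ x, x = g * τ * g⁻¹ := ⟨_, rfl⟩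
    obtain ⟨y, hy⟩ : ∃ y, y = g' * τ * g'⁻¹ := ⟨_, rfl⟩
    rw [← hx] at a1 hu
    rw [← hy] at a2 hu
    have hN := H1.invariant_normalizer φ (M := zpowers (x * y))
      fun a z hz => by rwa [fx a z (zpowers_le.2 hu hz)]
    have e : ∀ k : ℤ, x * (x * y) ^ k * x⁻¹ = (x * y) ^ (-k) := fun k => by
      rw [← conj_zpow, zpow_neg, ← inv_zpow]
      congr 1
      rw [← mul_assoc, a1, one_mul, mul_inv_rev, inv_eq_of_mul_eq_one_right a2]
    have xN : x ∈ normalizer (zpowers (x * y) : Set G) := by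
      refine mem_normalizer_fintype ?_
      rintro _ ⟨k, rfl⟩
      exact ⟨-k, (e k).symm⟩
    obtain ⟨P, hP⟩ := H1.exists_invariant_sylow (H1.restrictAut φ _ hN)
      (cop.coprime_dvd_right (card_subgroup_dvd_card _)) (.inl sol) 2
    have PM := inv _ (P.isPGroup'.map (Subgroup.subtype _)) (by
      rintro a _ ⟨z, hz, rfl⟩
      exact ⟨_, hP a z hz, rfl⟩)
    obtain ⟨Q, hQ⟩ := (p2 (⟨x, xN⟩ : normalizer (zpowers (x * y) : Set G))
      (Subtype.ext a1)).exists_le_sylow
    obtain ⟨k, rfl⟩ := MulAction.exists_smul_eq (normalizer (zpowers (x * y) : Set G)) Q P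
    have b1 : (k : G) * x * (k : G)⁻¹ ∈ M := PM ⟨_, ⟨_, hQ (mem_zpowers _), rfl⟩, rfl⟩
    have b2 : (k : G) * (x * y) * (k : G)⁻¹ ∈ M :=
      zpowers_le.2 hu ((mem_normalizer_iff.1 k.2 _).1 (mem_zpowers _))
    generalize (k : G) = k at b1 b2
    have b3 := se (k * g) (by convert b1 using 1; rw [hx]; group)
    have b4 := se (k * g') (by convert mul_mem (inv_mem b1) b2 using 1; rw [hy]; group)
    convert mul_mem (inv_mem b3) b4 using 1
    group
  refine ⟨⟨T, tT, TM⟩, fun g hg h => ?_⟩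
  let r : G ⧸ M → G := fun a => if a = (h : G ⧸ M) then h * g else a.out
  have hr : ∀ a, (r a : G ⧸ M) = a := fun a => by
    simp only [r]
    split_ifs with e
    · rw [e, QuotientGroup.mk_mul_of_mem _ (se g hg)]
    · exact QuotientGroup.out_eq' a
  have K' : ∀ g g' : G, ((g * τ * g⁻¹ : G) : G ⧸ M) = (g' * τ * g'⁻¹ : G) → (g : G ⧸ M) = g' :=
    fun g g' e => QuotientGroup.eq.2 (K _ _ (by
      have := QuotientGroup.eq.1 e
      rwa [inv_eq_of_mul_eq_one_right (xx g)] at this))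
  obtain ⟨a, ha⟩ := Finite.surjective_of_injective
    (f := fun a => ((r a * τ * (r a)⁻¹ : G) : G ⧸ M)) (fun a b e => by
      rw [← hr a, ← hr b]; exact K' _ _ e) ((h * τ * h⁻¹ : G) : G ⧸ M)
  have h1 : r a = h * g := if_pos ((hr a).symm.trans (K' _ _ ha))
  have h2 := QuotientGroup.eq.1 ha
  rw [inv_eq_of_mul_eq_one_right (xx _), h1] at h2
  convert h2 using 1
  group

/-- Let G be a finite non-abelian simple group, τ an involution of G, and α a nontrivial automorphism of G whose order is coprime to the order of G. Then α moves some element of the centralizer of τ: α does not fix C_G(τ) elementwise. -/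
theorem result {G : Type*} [Group G] [Finite G] [IsSimpleGroup G]
    (hG : ¬ IsMulCommutative G) (τ : G) (hτ : orderOf τ = 2) (α : MulAut G) (hα : α ≠ 1)
    (hcop : (orderOf α).Coprime (Nat.card G)) :
    ∃ c ∈ Subgroup.centralizer ({τ} : Set G), α c ≠ c := by
  classical
  by_contra! H
  let M : Subgroup G := α.toMonoidHom.eqLocus (MonoidHom.id G)
  obtain ⟨⟨S, h1, h2⟩, h3⟩ := key τ hτ α hcop H M fun _ => Iff.rfl
  have tt : τ * τ = 1 := by rw [← pow_two, ← hτ, pow_orderOf_eq_one]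
  have t1 : τ ≠ 1 := by rintro rfl; simp at hτ
  have hc : M.normalCore = ⊥ := (IsSimpleGroup.eq_bot_or_eq_top_of_normal _ inferInstance).resolve_right
    fun e => hα (MulEquiv.ext fun x => M.normalCore_le (e ▸ Subgroup.mem_top x))
  have hO : oddCore G = ⊥ := (IsSimpleGroup.eq_bot_or_eq_top_of_normal _ inferInstance).resolve_right
    fun e => by
      have := H2.odd_card_oddCore G
      rw [e, Subgroup.card_top] at this
      exact Nat.not_even_iff_odd.2 this (even_iff_two_dvd.2 (hτ ▸ orderOf_dvd_natCard τ))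
  have hz := H86.zstar_elt_center hO S h1 fun a ha g hg => by
    have : a = 1 ∨ a = τ := by
      obtain ⟨k, hk, rfl⟩ := Finset.mem_image.1 (mem_zpowers_iff_mem_range_orderOf.1 ha)
      rw [hτ, Finset.mem_range] at hk
      interval_cases k <;> simp
    rcases this with rfl | rfl
    · simp
    · have := h3 g (h2 hg)
      rw [hc, Subgroup.mem_bot, mul_eq_one_iff_eq_inv] at this
      rw [this, inv_eq_of_mul_eq_one_right tt]
  have hZ : Subgroup.center G = ⊤ :=
    (IsSimpleGroup.eq_bot_or_eq_top_of_normal _ inferInstance).resolve_left fun e => t1 (by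
      rwa [e, Subgroup.mem_bot] at hz)
  exact hG ⟨⟨fun a b => (Subgroup.mem_center_iff.1 (hZ ▸ Subgroup.mem_top b) a)⟩⟩

end Cfsg.Agent.S3067
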