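import Cfsg.Statements.S3074
import Cfsg.Agent.H9.HeisStd
import Cfsg.Agent.H78.XSMap

set_option autoImplicit false
open Cfsg

namespace Cfsg.Agent.S3074

/-- Let p be an odd prime. A Sylow p-subgroup of Qd(p), the split extension of an elementary abelian group of order p² by SL₂(p) acting naturally, is extraspecial of order p³ and exponent p. -/
theorem result (p : ℕ) [Fact p.Prime] (hp : p ≠ 2) (P : Sylow p ↥(Cfsg.qd p)) :
    Cfsg.IsExtraspecial p ↥P ∧ Nat.card P = p ^ 3 ∧ Monoid.exponent ↥P = p := by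
  classical
  have hp' : p.Prime := Fact.out
  let f : H27.Heis (H9.heisβ p Unit) →* Cfsg.qd p := MonoidHom.mk'
    (fun h => ⟨⟨!![1, h.v.1 (), h.w; 0, 1, h.v.2 (); 0, 0, 1], by simp [Matrix.det_fin_three]⟩,
      Subgroup.subset_closure ⟨rfl, rfl, rfl⟩⟩) fun a b => by
      apply Subtype.ext
      apply Subtype.ext
      change (!![1, (a * b).v.1 (), (a * b).w; 0, 1, (a * b).v.2 (); 0, 0, 1] :
        Matrix _ _ (ZMod p)) = !![1, a.v.1 (), a.w; 0, 1, a.v.2 (); 0, 0, 1] *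
          !![1, b.v.1 (), b.w; 0, 1, b.v.2 (); 0, 0, 1]
      simp [H27.Heis.mul_v, H27.Heis.mul_w, H9.heisβ_apply, dotProduct, add_comm, add_left_comm]
      exact add_assoc _ _ _
  have hf : Function.Injective f := by
    intro a b h
    have h1 : (!![1, a.v.1 (), a.w; 0, 1, a.v.2 (); 0, 0, 1] : Matrix _ _ (ZMod p)) =
      !![1, b.v.1 (), b.w; 0, 1, b.v.2 (); 0, 0, 1] := congrArg (fun x => x.1.1) h
    ext
    · exact congrFun (congrFun h1 0) 2
    · exact congrFun (congrFun h1 0) 1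
    · exact congrFun (congrFun h1 1) 2
  have hc : Nat.card f.range = p ^ 3 := by
    rw [← Nat.card_congr (MonoidHom.ofInjective hf).toEquiv, H9.heis_card]
    rfl
  obtain ⟨Q, hQ⟩ := (IsPGroup.of_card hc).exists_le_sylow
  obtain ⟨k, hk⟩ := IsPGroup.iff_card.mp Q.isPGroup'
  have h1 : p ^ k ∣ Nat.card (Matrix.GeneralLinearGroup (Fin 3) (ZMod p)) :=
    hk ▸ (Subgroup.card_subgroup_dvd_card _).trans ((Subgroup.card_subgroup_dvd_card _).trans
      (Subgroup.card_dvd_of_injective _ Matrix.SpecialLinearGroup.toGL_injective))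
  rw [Matrix.card_GL_field, Fin.prod_univ_three, ZMod.card] at h1
  have h2 : k ≤ 3 := by
    by_contra h
    have h3 : p ^ 4 ∣ p ^ 3 * ((p ^ 3 - 1) * (p ^ 2 - 1) * (p ^ 1 - 1)) := by
      refine ((pow_dvd_pow p (by omega)).trans h1).trans (dvd_of_eq ?_)
      have e1 : p ^ 3 - p ^ 1 = p * (p ^ 2 - 1) := by rw [Nat.mul_sub_one]; ring_nf
      have e2 : p ^ 3 - p ^ 2 = p ^ 2 * (p ^ 1 - 1) := by rw [Nat.mul_sub_one]; ring_nf
      simp only [Fin.val_zero, Fin.val_one, Fin.val_two, pow_zero]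
      rw [e1, e2]
      ring
    rw [pow_succ, Nat.mul_dvd_mul_iff_left (pow_pos hp'.pos 3)] at h3
    have h4 : ∀ j, j ≠ 0 → ¬ p ∣ p ^ j - 1 := fun j hj hd =>
      hp'.one_lt.ne' (Nat.dvd_one.mp ((Nat.dvd_sub_iff_right (Nat.one_le_pow _ _ hp'.pos)
        (dvd_pow_self p hj)).mp hd))
    rcases (Nat.Prime.dvd_mul hp').mp h3 with h5 | h5
    · rcases (Nat.Prime.dvd_mul hp').mp h5 with h6 | h6
      · exact h4 3 (by norm_num) h6
      · exact h4 2 (by norm_num) h6
    · exact h4 1 (by norm_num) h5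
  have h3 : f.range = Q := Subgroup.eq_of_le_of_card_ge hQ (by
    rw [hk, hc]; exact Nat.pow_le_pow_right hp'.pos h2)
  let e : H27.Heis (H9.heisβ p Unit) ≃* P :=
    ((MonoidHom.ofInjective hf).trans (MulEquiv.subgroupCongr h3)).trans (Sylow.equiv Q P)
  have hE := H78.isExtraspecial_of_equiv e (H9.heis_isExtraspecial p _)
  have hc' : Nat.card P = p ^ 3 := by
    rw [← Nat.card_congr e.toEquiv, H9.heis_card]
    rfl
  refine ⟨hE, hc', ?_⟩
  have : Nontrivial P := Finite.one_lt_card_iff_nontrivial.mp (by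
    rw [hc']; exact Nat.one_lt_pow (by norm_num) hp'.one_lt)
  rw [Monoid.exponent_eq_prime_iff hp']
  intro g hg
  refine orderOf_eq_prime ?_ hg
  obtain ⟨x, rfl⟩ := e.surjective g
  rw [← map_pow, H9.heis_pow_eq_one p _ hp, map_one]

end Cfsg.Agent.S3074
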