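import Cfsg.Statements.S3075
import Cfsg.Agent.H96.Pure2

set_option autoImplicit false
open Cfsg

namespace Cfsg.Agent.S3075

open Subgroup H96 H98 MatrixGroups
open scoped commutatorElement

theorem comm_le {G : Type*} [Group G] (N : Subgroup G) [N.Normal] [IsCyclic N] :
    commutator G ≤ centralizer (N : Set G) := by
  refine commutator_le.2 fun x _ y _ n hn => ?_
  have h1 : MulAut.conjNormal (H := N) ⁅x, y⁆ = 1 := by
    rw [map_commutatorElement, commutatorElement_eq_one_iff_mul_comm]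
    exact (IsCyclic.mulAutMulEquiv N).injective (by rw [map_mul, map_mul, mul_comm])
  exact (mul_inv_eq_iff_eq_mul.1 (congrArg (fun σ : MulAut N => ((σ ⟨n, hn⟩ : N) : G)) h1)).symm

/-- Let p be an odd prime and N a finite group with a normal elementary abelian subgroup A of order p² that is its own centralizer in N, such that N/A is isomorphic to SL₂(p) (over any field F with p elements). Then N splits over A: some subgroup U of N satisfies A ∩ U = 1 and AU = N. -/
theorem result {N : Type*} [Group N] [Finite N] {p : ℕ} [Fact p.Prime] (hp : p ≠ 2)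
    (A : Subgroup N) [A.Normal] (hAcomm : IsMulCommutative A) (hAcard : Nat.card A = p ^ 2) (hAexp : Monoid.exponent ↥A = p)
    (hAself : Subgroup.centralizer (A : Set N) = A)
    {F : Type*} [Field F] [Fintype F] (hF : Fintype.card F = p) (e : N ⧸ A ≃* Matrix.SpecialLinearGroup (Fin 2) F) :
    ∃ U : Subgroup N, A ⊓ U = ⊥ ∧ A ⊔ U = ⊤ := by
  have pp : p.Prime := Fact.out
  obtain ⟨k, hk⟩ := pp.odd_of_ne_two hp
  have hZ : Fintype.card (ZMod p) = p ^ 1 := by simp
  let ε := e.trans (slCongr (ZMod.ringEquivOfPrime F pp hF).symm)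
  let π : N →* SL(2, ZMod p) := ε.toMonoidHom.comp (QuotientGroup.mk' A)
  have h1 : ∀ x, π x = 1 ↔ x ∈ A := fun x => ε.map_eq_one_iff.trans (QuotientGroup.eq_one_iff x)
  have h2 : Function.Surjective π := ε.surjective.comp (QuotientGroup.mk'_surjective A)
  have h3 : ∀ a ∈ A, a ^ p = 1 := fun a ha =>
    congrArg Subtype.val (hAexp ▸ Monoid.pow_exponent_eq_one (⟨a, ha⟩ : A))
  have h4 : ∀ a ∈ A, ∀ b ∈ A, a * b = b * a := fun a ha b hb => (hAself.ge hb) a ha
  obtain ⟨t, ht, t1, t2⟩ : ∃ t ∈ commutator N, π t = -1 ∧ t * t = 1 := by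
    obtain ⟨g, hg, e1⟩ := NS.ng_mem hZ hp
    obtain rfl := sl_inj (e1.trans NS.sl_neg_one.symm)
    obtain ⟨t, ht, e2⟩ : (-1 : SL(2, ZMod p)) ∈ (commutator N).map π := by
      rwa [map_commutator_eq, MonoidHom.range_eq_top.2 h2]
    refine ⟨t ^ p, pow_mem ht p, by rw [map_pow, e2, hk, pow_succ, pow_mul]; simp, ?_⟩
    rw [← (Commute.refl t).mul_pow]; exact h3 _ ((h1 _).1 (by simp [e2]))
  have t3 : t⁻¹ = t := inv_eq_of_mul_eq_one_right t2
  have h5 : ∀ n : N, ∃ a ∈ A, n * t * n⁻¹ = a * t := fun n =>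
    ⟨n * t * n⁻¹ * t⁻¹, (h1 _).1 (by simp [t1]), by group⟩
  have h6 : ∀ a ∈ A, (a ^ (k + 1)) * a ^ (k + 1) = a := fun a ha => by
    rw [← pow_add, show k + 1 + (k + 1) = p + 1 by omega, pow_succ, h3 a ha, one_mul]
  refine ⟨centralizer {t}, by_contra fun hB => ?_, eq_top_iff.2 fun n _ => ?_⟩
  · haveI : (A ⊓ centralizer {t}).Normal := ⟨fun b hb n => ⟨Normal.conj_mem ‹_› b hb.1 n, by
      obtain ⟨a, ha, e1⟩ := h5 n⁻¹
      have e2 : b * (a * t) = a * t * b := by
        rw [← mul_assoc, h4 b hb.1 a ha, mul_assoc, mem_centralizer_singleton_iff.1 hb.2, mul_assoc]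
      rw [← e1] at e2
      refine mem_centralizer_singleton_iff.2 ?_
      calc n * b * n⁻¹ * t = n * (b * (n⁻¹ * t * n⁻¹⁻¹)) * n⁻¹ := by group
        _ = _ := by rw [e2]; group⟩⟩
    set B := A ⊓ centralizer {t}
    haveI : IsCyclic (A.map (QuotientGroup.mk' B)) := by
      refine isCyclic_of_card_dvd_prime (p := p) ?_
      have e1 : B.relIndex A * Nat.card B = p ^ 2 := by
        rw [← hAcard, ← card_mul_index (B.subgroupOf A), mul_comm,
          Nat.card_congr (subgroupOfEquivOfLe inf_le_left).toEquiv]; rfl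
      have e2 : p ∣ Nat.card B := by
        obtain ⟨i, -, hi⟩ := (Nat.dvd_prime_pow pp).1 (Dvd.intro_left _ e1)
        rcases i with _ | i
        · exact absurd (card_eq_one.1 hi) hB
        · exact hi ▸ dvd_pow_self p i.succ_ne_zero
      rw [← relIndex_ker, QuotientGroup.ker_mk']
      obtain ⟨c, hc⟩ := e2
      rw [hc, sq, mul_left_comm] at e1
      exact Dvd.intro _ (Nat.eq_of_mul_eq_mul_left pp.pos e1)
    haveI := Normal.map ‹A.Normal› _ (QuotientGroup.mk'_surjective B)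
    refine H61.sl_neg_one_ne_one (NS.two_ne hZ hp) (t1.symm.trans ((h1 t).2 (hAself.le fun a ha => ?_)))
    have e1 := comm_le (A.map (QuotientGroup.mk' B)) (commutator_mono le_top le_top
      (map_commutator_eq N (QuotientGroup.mk' B) ▸ mem_map_of_mem _ ht)) _ ⟨a, ha, rfl⟩
    have e2 : ⁅a, t⁆ ∈ B := (QuotientGroup.eq_one_iff _).1
      ((map_commutatorElement (QuotientGroup.mk' B) a t).trans (commutatorElement_eq_one_iff_mul_comm.2 e1))
    have e3 := mem_centralizer_singleton_iff.1 e2.2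
    have e5 : ⁅a, t⁆ * ⁅a, t⁆ = 1 := by
      calc ⁅a, t⁆ * ⁅a, t⁆ = ⁅a, t⁆ * t⁻¹ * (t * ⁅a, t⁆) := by group
        _ = a * t * a⁻¹ * (t * t)⁻¹ * a * t * a⁻¹ := by rw [← e3]; group
        _ = 1 := by rw [t2, inv_one, mul_one, inv_mul_cancel_right, mul_assoc a, t2]; group
    rw [← commutatorElement_eq_one_iff_mul_comm, ← h6 _ e2.1, ← (Commute.refl _).mul_pow, e5, one_pow]
  obtain ⟨a, ha, e1⟩ := h5 n
  have e2 : t * a * t⁻¹ = a⁻¹ := by
    have : a * t * (a * t) = 1 := by rw [← e1]; calc _ = n * (t * t) * n⁻¹ := by group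
      _ = 1 := by rw [t2]; group
    rw [t3, eq_inv_iff_mul_eq_one, mul_eq_one_comm, ← this]; group
  have e3 : a ^ (k + 1) * t * (a ^ (k + 1))⁻¹ = a * t := by
    calc _ = a ^ (k + 1) * ((t * a * t⁻¹) ^ (k + 1))⁻¹ * t := by rw [conj_pow]; group
      _ = _ := by rw [e2, inv_pow, inv_inv, h6 a ha]
  rw [← mul_inv_cancel_left (a ^ (k + 1)) n]
  refine mul_mem (mem_sup_left (pow_mem ha _)) (mem_sup_right (mem_centralizer_singleton_iff.2 ?_))
  calc _ = (a ^ (k + 1))⁻¹ * (n * t * n⁻¹) * n := by group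
    _ = _ := by rw [e1, ← e3]; group

end Cfsg.Agent.S3075
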