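import Cfsg.Statements.S3076
import Cfsg.Agent.Base
import Cfsg.Agent.H99.Iso

set_option autoImplicit false
open Cfsg

namespace Cfsg.Agent.S3076

open Subgroup Cfsg H98 H99

theorem res_comap_le {M : Type*} [Group M] [Finite M] {p : ℕ} [Fact p.Prime] (D : Subgroup M) [D.Normal] :
    res p ((pCore p (M ⧸ D)).comap (QuotientGroup.mk' D)) ≤ D := by
  have := (isPGroup_map_iff (p := p) (QuotientGroup.mk' D) ((pCore p (M ⧸ D)).comap (QuotientGroup.mk' D))).1
    ((isPGroup_pCore p _).to_le (map_comap_le _ _))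
  rwa [QuotientGroup.ker_mk'] at this

theorem le_comap_of_res {M : Type*} [Group M] [Finite M] {p : ℕ} [Fact p.Prime] (D L : Subgroup M)
    [D.Normal] [hL : L.Normal] (h : res p L ≤ D) :
    L ≤ (pCore p (M ⧸ D)).comap (QuotientGroup.mk' D) := by
  rw [← map_le_iff_le_comap]
  have := hL.map _ (QuotientGroup.mk'_surjective D)
  exact H2.le_pCore ((isPGroup_map_iff _ L).2 (by rwa [QuotientGroup.ker_mk']))

theorem aux {M : Type*} [Group M] [Finite M] {p : ℕ} [Fact p.Prime] (H T C : Subgroup M) [H.Normal]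
    [C.Normal] (hC : C = centralizer (H : Set M)) (hT : IsSyl p T ⊤) (hHT : H ≤ T) :
    (H ≤ (pCore p (M ⧸ C)).comap (QuotientGroup.mk' C) ∧
      ¬ p ∣ H.relIndex ((pCore p (M ⧸ C)).comap (QuotientGroup.mk' C))) ↔
    (T ⊓ C ≤ H ∧ pPrimePCore p M = H ⊔ C) := by
  have hn : ∀ (N : Subgroup M) [N.Normal] (A : Subgroup M), A ≤ normalizer (N : Set M) := by
    intro N _ A
    rw [normalizer_eq_top]; exact le_top
  have hH : IsPGroup p H := hT.isPGroup.to_le hHT
  have hO : pPrimeCore p M ≤ C :=
    hC ▸ H2.le_centralizer_of_disjoint_normal (H2.disjoint_pPrimeCore_of_isPGroup hH).symm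
  have h21 : pPrimePCore p M ≤ (pCore p (M ⧸ C)).comap (QuotientGroup.mk' C) := by
    unfold pPrimePCore
    exact le_comap_of_res _ _ ((res_comap_le _).trans hO)
  have hHC : H ⊔ C ≤ (pCore p (M ⧸ C)).comap (QuotientGroup.mk' C) :=
    le_comap_of_res _ _ (res_sup_le_right hH (hn _ _))
  have hX : T ⊓ C ≤ H → res p C ≤ pPrimeCore p M := by
    intro h
    have : (res p C).Normal := normal_of_top_le_normalizer (le_normalizer_res (hn _ _))
    refine H2.le_pPrimeCore_of_not_dvd (not_dvd_card_res_of_central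
      (hT.inf_of_le_normalizer le_top (hn _ _)) (h.trans ?_))
    rw [hC]
    exact le_centralizer_centralizer H
  constructor
  · rintro ⟨h1, h2⟩
    have hS := isSyl_of_not_dvd_relIndex h1 hH h2
    have h3 : T ⊓ C ≤ H := hS.le_of_le_normalizer' (hT.isPGroup.to_le inf_le_left)
      ((inf_le_right.trans le_sup_right).trans hHC) (hn _ _)
    refine ⟨h3, le_antisymm (h21.trans ?_) ?_⟩
    · rw [← hS.sup_res]
      exact sup_le_sup_left (res_comap_le C) H
    · refine le_comap_of_res _ _ ?_
      rw [res_sup_eq_right hH (hn _ _)]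
      exact hX h3
  · rintro ⟨h1, h2⟩
    refine ⟨le_sup_left.trans hHC, ?_⟩
    have h3 : (pCore p (M ⧸ C)).comap (QuotientGroup.mk' C) = H ⊔ C := by
      refine le_antisymm ?_ hHC
      rw [← h2]
      refine le_comap_of_res _ _ ?_
      rw [← res_res]
      exact (res_mono (res_comap_le C)).trans (hX h1)
    have h4 := hT.inf_of_le_normalizer (N := H ⊔ C) le_top (hn _ _)
    rw [inf_comm, sup_inf_of_le_left (hn _ _) hHT, inf_comm C T, sup_eq_left.2 h1] at h4
    rw [h3]
    exact h4.not_dvd_relIndex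

/-- Let P be a Sylow p-subgroup of the finite group G and H ≤ P a subgroup with N_P(H) a Sylow p-subgroup of N_G(H). Let N be the preimage in N_G(H) of O_p(N_G(H)/C_G(H)). Then H is a Sylow p-subgroup of N if and only if C_P(H) ≤ H and O_{p',p}(N_G(H)) = H·C_G(H). -/
theorem result {G : Type*} [Group G] [Finite G] {p : ℕ} [Fact p.Prime]
    (P : Sylow p G) (H : Subgroup G) (hHP : H ≤ (P : Subgroup G))
    (hSyl : ¬ p ∣ ((P : Subgroup G) ⊓ Subgroup.normalizer (H : Set G)).relIndex (Subgroup.normalizer (H : Set G)))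
    [hC : ((Subgroup.centralizer (H : Set G)).subgroupOf (Subgroup.normalizer (H : Set G))).Normal] :
    (H ≤ ((Cfsg.pCore p (↥(Subgroup.normalizer (H : Set G)) ⧸
              (Subgroup.centralizer (H : Set G)).subgroupOf (Subgroup.normalizer (H : Set G)))).comap
            (QuotientGroup.mk' _)).map (Subgroup.normalizer (H : Set G)).subtype ∧
      ¬ p ∣ H.relIndex (((Cfsg.pCore p (↥(Subgroup.normalizer (H : Set G)) ⧸
              (Subgroup.centralizer (H : Set G)).subgroupOf (Subgroup.normalizer (H : Set G)))).comap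
            (QuotientGroup.mk' _)).map (Subgroup.normalizer (H : Set G)).subtype)) ↔
    ((P : Subgroup G) ⊓ Subgroup.centralizer (H : Set G) ≤ H ∧
      (Cfsg.pPrimePCore p ↥(Subgroup.normalizer (H : Set G))).map (Subgroup.normalizer (H : Set G)).subtype =
        H ⊔ Subgroup.centralizer (H : Set G)) := by
  set M := normalizer (H : Set G) with hM
  have hHM : H ≤ M := le_normalizer
  have hCM : centralizer (H : Set G) ≤ M := centralizer_le_normalizer _
  have : (H.subgroupOf M).Normal := normal_in_normalizer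
  have hT : IsSyl p (((P : Subgroup G) ⊓ M).subgroupOf M) ⊤ :=
    (isSyl_of_not_dvd_relIndex inf_le_right (P.isPGroup'.to_le inf_le_left) hSyl).subgroupOf_top
  have key := aux (H.subgroupOf M) _ ((centralizer (H : Set G)).subgroupOf M)
    (centralizer_subgroupOf hHM).symm hT (subgroupOf_mono M (le_inf hHP hHM))
  have e1 : ∀ A : Subgroup G, A ≤ M → (A.subgroupOf M).map M.subtype = A := fun A hA => by
    rw [subgroupOf_map_subtype, inf_eq_left.2 hA]
  refine Iff.trans (and_congr ?_ ?_) (key.trans (and_congr ?_ ?_))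
  · have e2 : ∀ K : Subgroup M, H ≤ K.map M.subtype ↔ H.subgroupOf M ≤ K := fun K => by
      conv_rhs => rw [← map_le_map_iff_of_injective M.subtype_injective, e1 H hHM]
    exact e2 _
  · have e2 : ∀ K : Subgroup M, H.relIndex (K.map M.subtype) = (H.subgroupOf M).relIndex K := fun K => by
      rw [← relIndex_map_map_of_injective _ _ M.subtype_injective, e1 H hHM]
    exact not_congr (by rw [← e2])
  · constructor
    · intro h x hx
      exact h (show (⟨x, hCM hx.2⟩ : M) ∈ _ from ⟨⟨hx.1, hCM hx.2⟩, hx.2⟩)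
    · intro h x hx
      exact h ⟨hx.1.1, hx.2⟩
  · conv_rhs => rw [← e1 (centralizer (H : Set G)) hCM]
    conv_rhs => rhs; lhs; rw [← e1 H hHM]
    rw [← Subgroup.map_sup]
    exact (map_injective M.subtype_injective).eq_iff.symm

end Cfsg.Agent.S3076
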