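import Cfsg.Statements.S3087
import Cfsg.Agent.Base
import Cfsg.Agent.H99.Product

set_option autoImplicit false
open Cfsg

namespace Cfsg.Agent.S3087

/-- Let p be a prime, G a finite group acting linearly on a finite vector space V over the field with p elements, W a G-invariant subspace, and A a subgroup of G with |A|·|C_V(A)| ≥ |B|·|C_V(B)| for every subgroup B of A. Then |A|·|C_W(A)| ≥ |B|·|C_W(B)| for every subgroup B of A that contains C_A(W); that is, the image of A in the group induced on W satisfies the same maximality condition. -/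
theorem result {G V : Type*} [Group G] [Finite G] [AddCommGroup V] [Finite V] (p : ℕ) [Fact p.Prime] [Module (ZMod p) V]
    (ρ : Representation (ZMod p) G V) (W : Submodule (ZMod p) V) (hW : ∀ g : G, ∀ w ∈ W, ρ g w ∈ W)
    (A : Subgroup G)
    (hP : ∀ B : Subgroup G, B ≤ A →
      Nat.card ↥B * Nat.card {v : V // ∀ b ∈ B, ρ b v = v} ≤ Nat.card ↥A * Nat.card {v : V // ∀ a ∈ A, ρ a v = v})
    (B : Subgroup G) (hBA : B ≤ A) (hCB : ∀ a ∈ A, (∀ w ∈ W, ρ a w = w) → a ∈ B) :
    Nat.card ↥B * Nat.card {w : W // ∀ b ∈ B, ρ b w = w} ≤ Nat.card ↥A * Nat.card {w : W // ∀ a ∈ A, ρ a w = w} := by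
  classical
  let CV : Subgroup G → AddSubgroup V := fun X =>
    { carrier := {v | ∀ b ∈ X, ρ b v = v}
      add_mem' := fun {u v} hu hv b hb => by rw [map_add, hu b hb, hv b hb]
      zero_mem' := fun b _ => map_zero _
      neg_mem' := fun {u} hu b hb => by rw [map_neg, hu b hb] }
  have c1 : ∀ X : Subgroup G, Nat.card {v : V // ∀ b ∈ X, ρ b v = v} =
      Nat.card (CV X).toSubgroup := fun X => rfl
  have c2 : ∀ X : Subgroup G, Nat.card {w : W // ∀ b ∈ X, ρ b w = w} =
      Nat.card ↥((CV X).toSubgroup ⊓ W.toAddSubgroup.toSubgroup) := fun X =>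
    Nat.card_congr ⟨fun w => ⟨Multiplicative.ofAdd w.1.1, w.2, w.1.2⟩,
      fun w => ⟨⟨Multiplicative.toAdd w.1, w.2.2⟩, w.2.1⟩, fun _ => rfl, fun _ => rfl⟩
  have hle : (CV A).toSubgroup ≤ (CV B).toSubgroup := fun v hv b hb => hv b (hBA hb)
  have h1 := H99.card_mul_card_le_of_le
    (H := (CV B).toSubgroup ⊓ W.toAddSubgroup.toSubgroup) (K := (CV A).toSubgroup)
    (L := (CV B).toSubgroup) inf_le_left hle
  have h2 : (CV B).toSubgroup ⊓ W.toAddSubgroup.toSubgroup ⊓ (CV A).toSubgroup =
      (CV A).toSubgroup ⊓ W.toAddSubgroup.toSubgroup := by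
    rw [inf_comm, ← inf_assoc, inf_eq_left.2 hle]
  rw [h2] at h1
  have h3 := hP B hBA
  rw [c1, c1] at h3
  rw [c2, c2]
  have p : 0 < Nat.card (CV A).toSubgroup := Nat.card_pos
  generalize Nat.card ↥((CV B).toSubgroup ⊓ W.toAddSubgroup.toSubgroup) = wb at *
  generalize Nat.card ↥((CV A).toSubgroup ⊓ W.toAddSubgroup.toSubgroup) = wa at *
  generalize Nat.card (CV A).toSubgroup = va at *
  generalize Nat.card (CV B).toSubgroup = vb at *
  apply Nat.le_of_mul_le_mul_right _ p
  calc Nat.card B * wb * va = Nat.card B * (wb * va) := by ring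
    _ ≤ Nat.card B * (vb * wa) := Nat.mul_le_mul_left _ h1
    _ = (Nat.card B * vb) * wa := by ring
    _ ≤ (Nat.card A * va) * wa := Nat.mul_le_mul_right _ h3
    _ = Nat.card A * wa * va := by ring

end Cfsg.Agent.S3087
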