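import Cfsg.Agent.Base
import Cfsg.Statements.S3155

set_option autoImplicit false
open Cfsg

namespace Cfsg.Agent.S3155

/-- Let B be the direct product of three cyclic groups of order 4. Then the automorphism of B inverting every element is not the square of any automorphism of B. -/
theorem result {B : Type*} [CommGroup B] [Finite B] (hB : Nonempty (B ≃* Multiplicative (ZMod 4 × ZMod 4 × ZMod 4)))
    (τ : B ≃* B) : τ.trans τ ≠ MulEquiv.inv B := by
  obtain ⟨e⟩ := hB
  intro h
  haveI : Fact (1 < 4) := ⟨by norm_num⟩
  let σ : (ZMod 4 × ZMod 4 × ZMod 4) →+ (ZMod 4 × ZMod 4 × ZMod 4) :=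
    AddMonoidHom.toMultiplicative.symm
      (e.toMonoidHom.comp (τ.toMonoidHom.comp e.symm.toMonoidHom))
  let f := σ.toZModLinearMap 4
  have hf : f ∘ₗ f = (-1 : ZMod 4) • LinearMap.id := by
    refine LinearMap.ext fun x => ?_
    have h1 := DFunLike.congr_fun h (e.symm (Multiplicative.ofAdd x))
    simp only [MulEquiv.trans_apply, MulEquiv.inv_apply] at h1
    show (e (τ (e.symm (e (τ (e.symm (Multiplicative.ofAdd x))))))).toAdd = _
    rw [e.symm_apply_apply, h1, map_inv, e.apply_symm_apply]
    simp
  have h2 := congrArg LinearMap.det hf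
  rw [LinearMap.det_comp, LinearMap.det_smul, LinearMap.det_id] at h2
  simp only [Module.finrank_prod, Module.finrank_self] at h2
  revert h2
  generalize LinearMap.det f = d
  revert d
  decide

end Cfsg.Agent.S3155
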