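import Cfsg.Statements.S3156
import Cfsg.Agent.H86.UHAut

set_option autoImplicit false
open Cfsg

namespace Cfsg.Agent.S3156

open H86

theorem eq_one_of_fix {F : Type*} [Field F] [Fintype F] [CharP F 2]
    (hF : Fintype.card F = 4 ^ 2) (ρ : MulAut (UH (H59.frob hF) (H59.frob_frob hF)))
    (h3 : ∀ x, ρ (ρ (ρ x)) = x) (h : ∀ x, x.a = 0 → ρ x = x) : ρ = 1 := by
  have hne := H59.frob_ne_id hF
  have two : (2 : F) = 0 := CharTwo.two_eq_zero
  have hN : ∀ x, (ρ x).a * (ρ x).a ^ 4 = x.a * x.a ^ 4 := fun x => by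
    have := congrArg UH.b (h _ (UH.sq_a x))
    rwa [map_mul, UH.sq_b, UH.sq_b] at this
  have h1 : ∀ x, (ρ x).a = x.a := fun x => by
    have e1 := hN (x * ρ x)
    have e2 := hN (ρ (x * ρ x))
    simp only [map_mul, h3, UH.mul_a] at e1 e2
    generalize (ρ (ρ x)).a = c at *
    generalize (ρ x).a = b at *
    generalize x.a = a at *
    obtain ⟨u, rfl⟩ : ∃ u, b = a + u := ⟨b - a, by ring⟩
    obtain ⟨v, rfl⟩ : ∃ v, c = a + u + v := ⟨c - a - u, by ring⟩
    have k1 : v ^ 5 = u ^ 5 := by grind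
    have k2 : (u + v) ^ 5 = u ^ 5 := by grind
    have : u ^ 6 = 0 := by grind
    rw [pow_eq_zero_iff (by norm_num)] at this
    rw [this, add_zero]
  refine MulEquiv.ext fun x => ?_
  have hz : (x⁻¹ * ρ x).a = 0 := by simp [h1]
  have e1 := h _ hz
  have e2 := UH.sq_eq_one_iff.mpr hz
  have e3 := h3 x
  obtain ⟨z, hz⟩ : ∃ z, ρ x = x * z := ⟨_, (mul_inv_cancel_left _ _).symm⟩
  rw [hz, inv_mul_cancel_left] at e1 e2
  rw [hz, map_mul, map_mul, hz, map_mul, hz, e1, e1, mul_assoc, mul_assoc, e2, mul_one] at e3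
  exact hz.trans e3

/-- If a finite group T is isomorphic to a Sylow 2-subgroup of the projective special unitary group of dimension 3 with parameter 4 (realised over the field with 16 elements), then no subgroup of the automorphism group of T is isomorphic to the symmetric group of degree 3. -/
theorem result {T : Type*} [Group T] [Finite T] (hT : (∃ (F : Type) (_ : Field F) (_ : Fintype F), Fintype.card F = 16 ∧ ∃ S : Sylow 2 (Cfsg.PSU 3 F 4), Nonempty (T ≃* ↥(S : Subgroup (Cfsg.PSU 3 F 4))))) (H : Subgroup (MulAut T)) : ¬ Nonempty (↥H ≃* Equiv.Perm (Fin 3)) := by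
  obtain ⟨F, _, _, hF, S, ⟨e1⟩⟩ := hT
  have := charP_two_of_card (n := 4) hF
  have hF' : Fintype.card F = (2 ^ 2) ^ 2 := hF
  obtain ⟨e2⟩ := UH.nonempty_equiv_PSU (q := 2 ^ 2) hF' S
  rintro ⟨e3⟩
  let f : Equiv.Perm (Fin 3) →* MulAut (UH (H59.frob hF') (H59.frob_frob hF')) :=
    (MulAut.congr (e1.trans e2.symm)).toMonoidHom.comp (H.subtype.comp e3.symm.toMonoidHom)
  have hf : Function.Injective f :=
    (MulAut.congr _).injective.comp (H.subtype_injective.comp e3.symm.injective)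
  have key : ∀ s, s * s = 1 → ∀ x, x.a = 0 → f s x = x := fun s hs x hx =>
    UH.fix_center hF' (f s) (fun y => by rw [← MulAut.mul_apply, ← map_mul, hs, map_one]; rfl) hx
  have := eq_one_of_fix (F := F) hF' (f (Equiv.swap 0 1 * Equiv.swap 1 2)) (fun x => by
    rw [← MulAut.mul_apply, ← MulAut.mul_apply, ← map_mul, ← map_mul,
      show _ * _ * _ = (1 : Equiv.Perm (Fin 3)) by decide, map_one]; rfl) fun x hx => by
    rw [map_mul, MulAut.mul_apply, key _ (by decide) x hx, key _ (by decide) x hx]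
  exact absurd (hf (this.trans (map_one f).symm)) (by decide)

end Cfsg.Agent.S3156
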