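import Cfsg.Statements.S3162
import Cfsg.Agent.H72.AutSz
import Cfsg.Agent.H86.UH

set_option autoImplicit false
open Cfsg

namespace Cfsg.Agent.S3162

/-- Let S be a Sylow 2-subgroup of the special unitary group of dimension 3 with parameter q = 2^n (n ≥ 2; realised over the field with q² elements). Then the largest normal 2-subgroup of the automorphism group of S is elementary abelian of order 2^(2n²), and the automorphism group has order 2^(2n²) · 2n(q² − 1). -/
theorem result {S : Type*} [Group S] [Finite S] (n : ℕ) (hn : 2 ≤ n) {F : Type*} [Field F] [Fintype F] (hF : Fintype.card F = 4 ^ n)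
    (P : Sylow 2 ↥(Cfsg.SU 3 F (2 ^ n))) (hS : Nonempty (S ≃* ↥(P : Subgroup ↥(Cfsg.SU 3 F (2 ^ n))))) :
    Cfsg.IsElementaryAbelian 2 (Cfsg.pCore 2 (MulAut S)) ∧ Nat.card ↥(Cfsg.pCore 2 (MulAut S)) = 2 ^ (2 * n ^ 2) ∧
      Nat.card (MulAut S) = 2 ^ (2 * n ^ 2) * (2 * n * ((2 ^ n) ^ 2 - 1)) := by
  open H72.AS in
  have hq : Fintype.card F = (2 ^ n) ^ 2 := by rw [hF, ← pow_mul, mul_comm, pow_mul]; rfl
  have hF' : Nat.card F = 2 ^ (2 * n) := by rw [Nat.card_eq_fintype_card, hF, pow_mul]; rfl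
  haveI : CharP F 2 := charP_of_card_eq_prime_pow (Nat.card_eq_fintype_card.symm.trans hF')
  letI := ZMod.algebra F 2
  obtain ⟨e⟩ := hS
  obtain ⟨e'⟩ := H86.UH.nonempty_equiv_SU hq P
  let C : Co (gal (H59.frob hq)) ((H59.frob hq).eqLocus (RingHom.id F)).toAddSubgroup
      (H86.UH (H59.frob hq) (H59.frob_frob hq)) :=
    { a := H86.UH.a, b := H86.UH.b, ma := fun _ _ => rfl, mb := fun _ _ => rfl
      ext := fun _ _ => H86.UH.ext
      sur := H86.UH.exists_a (H59.frob_ne_id hq)
      memK := fun _ => H86.UH.fix_of_a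
      exK := fun c h => ⟨H86.UH.zc _ c h, rfl, rfl⟩
      nrm := fun c h => H59.exists_norm_eq' (H59.frob_ne_id hq) (H59.frob_frob hq) h
      cl := fun l τ x => ⟨⟨l * τ x.a, H59.frob hq l * l * τ x.b, by
        have c : ∀ t, H59.frob hq (τ t) = τ (H59.frob hq t) := comm' (gal (H59.frob hq)) τ
        have := congrArg τ x.h
        simp only [map_mul, map_add, c, H59.frob_frob] at this ⊢
        linear_combination (H59.frob hq l * l) * this⟩, rfl, rfl⟩ }
  have := (C.comap (e.trans e'.symm)).main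
    (fun h => H59.frob_ne_id hq (RingHom.ext fun x => DFunLike.congr_fun h x))
    fun _ => AlgEquiv.ext (H59.frob_frob hq)
  rwa [rank_eq hF', show Nat.card ((H59.frob hq).eqLocus (RingHom.id F)).toAddSubgroup = 2 ^ n from
    H59.card_fixed hq, Nat.card_eq_fintype_card (α := F), hq, ← pow_mul,
    show n * (2 * n) = 2 * n ^ 2 by ring] at this

end Cfsg.Agent.S3162
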