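import Cfsg.Statements.S3178
import Cfsg.Agent.H86.Misc

set_option autoImplicit false
open Cfsg

namespace Cfsg.Agent.S3178

theorem aux {G : Type*} [Group G] {k : ℕ} {a b : G} (e : ℕ) (hk : k = 2 ^ e)
    (ha : orderOf a = 8 * k) (hb : b * b = 1) (hr : b * a * b⁻¹ = a ^ (4 * k + 1))
    {X : Subgroup G} (hX : ∀ g ∈ X, ∃ i : ℤ, g = a ^ i ∨ g = b * a ^ i) (hp : IsPGroup 2 X)
    (h2 : a ^ (2 * (k : ℤ)) ∈ X) {f : G → G} (hf : H86.OddAut X f) : ∀ g ∈ X, f g = g := by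
  have hk0 : 0 < k := by rw [hk]; positivity
  have h1 : ∀ i : ℤ, a ^ i = 1 ↔ 8 * (k : ℤ) ∣ i := fun i => by
    rw [← orderOf_dvd_iff_zpow_eq_one, ha]; push_cast; rfl
  have hb' : b⁻¹ = b := inv_eq_of_mul_eq_one_right hb
  have h3 : ∀ i : ℤ, b * a ^ i * b = a ^ ((4 * k + 1) * i) := fun i => by
    nth_rewrite 2 [← hb']
    rw [← conj_zpow, hr, ← zpow_natCast, ← zpow_mul]; push_cast; rfl
  have h4 : ∀ i : ℤ, b * a ^ i * (b * a ^ i) = a ^ (2 * ((2 * k + 1) * i)) := fun i => by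
    rw [← mul_assoc, h3, ← zpow_add]; congr 1; ring
  have hcop : IsCoprime (4 * (k : ℤ)) (2 * k + 1) := by
    rw [hk]; push_cast
    rw [show (4 : ℤ) * 2 ^ e = 2 ^ (e + 2) by ring]
    exact IsCoprime.pow_left ⟨-2 ^ e, 1, by ring⟩
  have h5 : ∀ i : ℤ, a ^ (4 * k * (2 * i)) = 1 := fun i => (h1 _).mpr ⟨i, by ring⟩
  have hz : ∀ i : ℤ, 4 * (k : ℤ) ∣ i → a ^ i = 1 ∨ a ^ i = a ^ (4 * (k : ℤ)) := by
    rintro _ ⟨c, rfl⟩
    obtain ⟨d, rfl | rfl⟩ := Int.even_or_odd' c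
    · exact Or.inl (h5 d)
    · right; rw [mul_add, zpow_add, h5, one_mul, mul_one]
  have hz1 : a ^ (4 * (k : ℤ)) ≠ 1 := fun e => by
    have := Int.le_of_dvd (by omega) ((h1 _).mp e); omega
  have hzX : a ^ (4 * (k : ℤ)) ∈ X := by
    have := X.mul_mem h2 h2; rwa [← zpow_add, show 2 * (k : ℤ) + 2 * k = 4 * k by ring] at this
  have hzz : a ^ (4 * (k : ℤ)) * a ^ (4 * (k : ℤ)) = 1 := by
    rw [← zpow_add, h1]; exact ⟨1, by ring⟩
  have hsq : ∀ i : ℤ, a ^ i * a ^ i = 1 → a ^ i = 1 ∨ a ^ i = a ^ (4 * (k : ℤ)) := fun i e => by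
    rw [← zpow_add, h1] at e
    obtain ⟨c, hc⟩ := e
    exact hz i ⟨c, by linarith⟩
  have hsq' : ∀ i : ℤ, b * a ^ i * (b * a ^ i) = 1 → 4 * (k : ℤ) ∣ i := fun i e => by
    rw [h4, h1] at e
    obtain ⟨c, hc⟩ := e
    exact hcop.dvd_of_dvd_mul_left ⟨c, by linarith⟩
  have hfz : f (a ^ (4 * (k : ℤ))) = a ^ (4 * (k : ℤ)) := by
    have e1 : f (a ^ (4 * (k : ℤ))) = f (a ^ (2 * (k : ℤ))) * f (a ^ (2 * (k : ℤ))) := by
      rw [← hf.mul _ h2 _ h2, ← zpow_add]; congr 2; ring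
    obtain ⟨j, hj⟩ : ∃ j : ℤ, f (a ^ (4 * (k : ℤ))) = a ^ j := by
      obtain ⟨i, e | e⟩ := hX _ (hf.mem _ h2)
      · exact ⟨i + i, by rw [e1, e, zpow_add]⟩
      · exact ⟨_, by rw [e1, e, h4]⟩
    refine hj ▸ (hsq j (by rw [← hj, ← hf.mul _ hzX _ hzX, hzz, hf.map_one])).resolve_left ?_
    rw [← hj, hf.eq_one_iff hzX]; exact hz1
  have hfa : ∀ i : ℤ, a ^ i * a ^ i = 1 → f (a ^ i) = a ^ i := fun i e => by
    rcases hsq i e with e | e <;> rw [e]
    · exact hf.map_one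
    · exact hfz
  have hinv : ∀ w ∈ X, w * w = 1 → f w = w := by
    intro w hw hww
    obtain ⟨i, rfl | rfl⟩ := hX w hw
    · exact hfa i hww
    have hfw : f (b * a ^ i) * f (b * a ^ i) = 1 := by rw [← hf.mul _ hw _ hw, hww, hf.map_one]
    obtain ⟨j, e | e⟩ := hX _ (hf.mem _ hw)
    · exact hf.fix_of_fix hw (by rw [e] at hfw ⊢; exact hfa j hfw)
    · rw [e] at hfw
      rcases hz (j - i) (dvd_sub (hsq' j hfw) (hsq' i hww)) with e' | e'
      · rw [e, mul_right_inj, ← mul_inv_eq_one, ← zpow_sub, e']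
      · exact hf.fix_of_mul hw hzX hfz (e := 1) (by rw [pow_one, pow_two, hzz])
          (by rw [e, ← e']; group)
  -- the subgroup `⟨a², b⟩`
  have hc : ∀ i : ℤ, a ^ (2 * i) * b = b * a ^ (2 * i) := fun i => by
    have := h3 (2 * i)
    rw [add_mul, zpow_add, h5, one_mul, one_mul] at this
    nth_rewrite 1 [← this]
    rw [mul_assoc, hb, mul_one]
  let Y : Subgroup G :=
    { carrier := {g | ∃ i : ℤ, g = a ^ (2 * i) ∨ g = b * a ^ (2 * i)}
      one_mem' := ⟨0, Or.inl (by simp)⟩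
      mul_mem' := by
        rintro _ _ ⟨i, rfl | rfl⟩ ⟨j, rfl | rfl⟩ <;> refine ⟨i + j, ?_⟩
        · left; group
        · right; rw [← mul_assoc, hc]; group
        · right; group
        · left; rw [mul_assoc, ← mul_assoc _ b, hc, ← mul_assoc, ← mul_assoc, hb]; group
      inv_mem' := by
        rintro _ ⟨i, rfl | rfl⟩ <;> refine ⟨-i, ?_⟩
        · left; group
        · right; rw [mul_inv_rev, hb', ← hc]; group }
  have hY : ∀ g ∈ X, g ∈ Y ↔ g ^ (2 * (2 * (k : ℤ))) = 1 := by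
    intro g hg
    have key : ∀ i : ℤ, 8 * (k : ℤ) ∣ 4 * k * i → ∃ j, i = 2 * j := by
      rintro i ⟨c, hc⟩
      exact ⟨c, mul_left_cancel₀ (show 4 * (k : ℤ) ≠ 0 by omega) (by linarith)⟩
    have hbp : ∀ i : ℤ, (b * a ^ i) ^ (2 * (2 * (k : ℤ))) = a ^ (4 * k * ((2 * k + 1) * i)) :=
      fun i => by rw [zpow_mul, zpow_two, h4, ← zpow_mul]; congr 1; ring
    constructor
    · rintro ⟨i, rfl | rfl⟩
      · rw [← zpow_mul, h1]; exact ⟨i, by ring⟩
      · rw [hbp, h1]; exact ⟨(2 * k + 1) * i, by ring⟩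
    · intro e
      obtain ⟨i, rfl | rfl⟩ := hX g hg
      · rw [← zpow_mul, h1] at e
        obtain ⟨j, rfl⟩ := key i (by rwa [show 4 * (k : ℤ) * i = i * (2 * (2 * k)) by ring])
        exact ⟨j, Or.inl rfl⟩
      · rw [hbp, h1] at e
        obtain ⟨j, hj⟩ := key _ e
        exact ⟨j - k * i, Or.inr (by congr 2; linarith)⟩
  have hfY : H86.OddAut (X ⊓ Y) f := hf.restrict inf_le_left fun g hg =>
    ⟨hf.mem g hg.1, (hY _ (hf.mem g hg.1)).mpr
      ((hf.zpow_eq_one_iff hg.1 _).mpr ((hY g hg.1).mp hg.2))⟩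
  refine hf.fix_of_index_two hp (Y := X ⊓ Y) inf_le_left
    (hfY.fix_of_abelian hp.to_inf_left ?_ fun w hw => hinv w hw.1) ?_
  · rintro _ ⟨-, i, rfl | rfl⟩ _ ⟨-, j, rfl | rfl⟩
    · group
    · rw [← mul_assoc, hc]; group
    · rw [← mul_assoc, hc]; group
    · rw [mul_assoc, ← mul_assoc _ b, hc, mul_assoc b (a ^ (2 * j)), ← mul_assoc (a ^ (2 * j)), hc]
      group
  · intro c hc' d hd hcY hdY
    refine ⟨X.mul_mem (X.inv_mem hc') hd, ?_⟩
    have hodd : ∀ g ∈ X, g ∉ X ⊓ Y → ∃ y ∈ Y, g = y * a := by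
      intro g hg hg'
      obtain ⟨i, e⟩ := hX g hg
      obtain ⟨j, rfl | rfl⟩ := Int.even_or_odd' i
      · exact absurd ⟨hg, j, e⟩ hg'
      · rcases e with rfl | rfl
        · exact ⟨_, ⟨j, Or.inl rfl⟩, by group⟩
        · exact ⟨_, ⟨j, Or.inr rfl⟩, by group⟩
    obtain ⟨y, hy, rfl⟩ := hodd c hc' hcY
    obtain ⟨w, hw, rfl⟩ := hodd d hd hdY
    obtain ⟨i, e | e⟩ := Y.mul_mem (Y.inv_mem hy) hw
    · exact ⟨i, Or.inl (by rw [show (y * a)⁻¹ * (w * a) = a⁻¹ * (y⁻¹ * w) * a by group, e]; group)⟩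
    · refine ⟨i - 2 * k, Or.inr ?_⟩
      have := h3 (-1)
      rw [show (y * a)⁻¹ * (w * a) = a⁻¹ * (y⁻¹ * w) * a by group, e,
        show a⁻¹ * (b * a ^ (2 * i)) * a = b⁻¹ * (b * a ^ (-1 : ℤ) * b) * a ^ (2 * i) * a by group,
        this, hb']
      group

/-- Groups with a modular Sylow 2-subgroup have a normal 2-complement. Let S, of order 2^(n+1) with n ≥ 3, be a Sylow 2-subgroup of a finite group G, and suppose S contains an element a of order 2^n and an involution b with b a b⁻¹ = a^(2^(n-1) + 1); so S is the non-abelian 2-group with a cyclic subgroup of index 2 that is neither dihedral, semidihedral nor generalized quaternion. Then G has a normal 2-complement. -/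
theorem result {G : Type*} [Group G] [Finite G]
    (S : Sylow 2 G) (n : ℕ) (hn : 3 ≤ n) (hS : Nat.card ↥(S : Subgroup G) = 2 ^ (n + 1))
    (a b : G) (ha : a ∈ (S : Subgroup G)) (hb : b ∈ (S : Subgroup G))
    (hao : orderOf a = 2 ^ n) (hbo : orderOf b = 2) (hrel : b * a * b⁻¹ = a ^ (2 ^ (n - 1) + 1)) :
    Cfsg.HasNormalPComplement 2 G := by
  obtain ⟨e, rfl⟩ : ∃ e, n = e + 3 := ⟨n - 3, by omega⟩
  have hbb : b * b = 1 := by rw [← pow_two, ← hbo, pow_orderOf_eq_one]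
  have ha' : orderOf a = 8 * 2 ^ e := by rw [hao]; ring
  have hr : b * a * b⁻¹ = a ^ (4 * 2 ^ e + 1) := by
    rw [hrel, show e + 3 - 1 = e + 2 by omega]; congr 2; ring
  have hbn : b ∉ Subgroup.zpowers a := by
    rintro ⟨i, rfl⟩
    simp only at hr
    rw [show a ^ i * a * (a ^ i)⁻¹ = a by group, pow_succ, right_eq_mul] at hr
    have := Nat.le_of_dvd (by positivity) (orderOf_dvd_of_pow_eq_one hr)
    have : 0 < 2 ^ e := by positivity
    omega
  have hi : (Subgroup.zpowers a).relIndex S = 2 := by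
    have h1 := H7.relIndex_mul_card (Subgroup.zpowers_le.mpr ha)
    rw [Nat.card_zpowers, hao, hS, pow_succ' 2 (e + 3)] at h1
    exact Nat.eq_of_mul_eq_mul_right (by positivity) h1
  have hmem : ∀ g ∈ (S : Subgroup G), ∃ i : ℤ, g = a ^ i ∨ g = b * a ^ i := by
    intro g hg
    by_cases h1 : g ∈ Subgroup.zpowers a
    · obtain ⟨i, hi⟩ := h1
      exact ⟨i, Or.inl hi.symm⟩
    · obtain ⟨i, hi⟩ : b⁻¹ * g ∈ Subgroup.zpowers a := by
        have := (Subgroup.mul_mem_iff_of_index_two (H := (Subgroup.zpowers a).subgroupOf S) hi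
          (a := ⟨b⁻¹, inv_mem hb⟩) (b := ⟨g, hg⟩)).mpr
          (by simp [Subgroup.mem_subgroupOf, hbn, h1])
        exact this
      exact ⟨i, Or.inr (by simp only at hi; rw [hi]; group)⟩
  refine H7.hasNPC_of_controls_fusion S fun _ hx g hg => H86.fusion_rel_two S
    (H86.equivalence_conj_mem S) (fun _ _ s hs => ⟨s, hs, rfl⟩) ?_ hx g hg
  intro X hX hC hO
  refine absurd hO (H86.not_oddActs_of_forall fun f hf => aux e rfl ha' hbb hr
    (fun g hg => hmem g (hX hg)) (S.isPGroup'.to_le hX) (hC _ (zpow_mem ha _) fun c hc => ?_) hf)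
  obtain ⟨i, rfl | rfl⟩ := hmem c (hX hc)
  · group
  · have h1 : b * a ^ (2 * ((2 ^ e : ℕ) : ℤ)) * b⁻¹ = a ^ (2 * ((2 ^ e : ℕ) : ℤ)) := by
      rw [← conj_zpow, hr, ← zpow_natCast, ← zpow_mul, zpow_eq_zpow_iff_modEq, ha']
      exact (Int.modEq_iff_dvd.mpr ⟨-2 ^ e, by push_cast; ring⟩)
    rw [mul_assoc, ← zpow_add, add_comm, zpow_add, ← mul_assoc, mul_inv_eq_iff_eq_mul.mp h1,
      mul_assoc]

end Cfsg.Agent.S3178
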