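import Cfsg.Statements.S3180
import Cfsg.Agent.Base
import Cfsg.Agent.H17.SylowIn

set_option autoImplicit false
open Cfsg

namespace Cfsg.Agent.S3180

/-- Let P be a Sylow p-subgroup of a finite group J and P₁ a subgroup of P that is weakly closed in P with respect to J. If J acts on a set and two points, each fixed by every element of P₁, lie in one J-orbit, then they lie in one orbit of the normalizer of P₁ in J. -/
theorem result {J : Type*} [Group J] [Finite J]
    {p : ℕ} [Fact p.Prime] (P : Sylow p J) (P₁ : Subgroup J) (hW : Cfsg.IsWeaklyClosed P₁ (P : Subgroup J))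
    {Ω : Type*} [MulAction J Ω] (x y : Ω) (hx : ∀ g ∈ P₁, g • x = x) (hy : ∀ g ∈ P₁, g • y = y)
    (hc : ∃ g : J, g • x = y) :
    ∃ g ∈ Subgroup.normalizer (P₁ : Set J), g • x = y := by
  obtain ⟨g, rfl⟩ := hc
  have hP₁ : IsPGroup p P₁ := P.isPGroup'.to_le hW.1
  obtain ⟨T, hT1, hT⟩ := H17.exists_sylIn_ge (H := MulAction.stabilizer J (g • x))
    (fun a ha => hy a ha) hP₁
  obtain ⟨h, hh, hh2⟩ := hT.exists_conj_le (A := P₁.map (MulAut.conj g).toMonoidHom) (by
    rintro _ ⟨a, ha, rfl⟩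
    show (g * a * g⁻¹) • g • x = g • x
    rw [← mul_smul, inv_mul_cancel_right, mul_smul, hx a ha]) (hP₁.map _)
  obtain ⟨k, -, hk⟩ := (H17.sylIn_top P).exists_conj_le le_top hT.2.1
  have h1 := hW.2 k (by rintro _ ⟨a, ha, rfl⟩; exact hk a (hT1 ha))
  have h2 := hW.2 (k * (h * g)) (by
    rw [← H17.map_conj_map_conj, ← H17.map_conj_map_conj]
    rintro _ ⟨_, ⟨a, ha, rfl⟩, rfl⟩; exact hk _ (hh2 a ha))
  rw [H17.map_conj_eq_iff_mem_normalizer] at h1 h2
  refine ⟨h * g, by simpa using Subgroup.mul_mem _ (Subgroup.inv_mem _ h1) h2, ?_⟩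
  rw [mul_smul]
  exact hh

end Cfsg.Agent.S3180
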