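import Cfsg.Statements.S3195
import Cfsg.Agent.Base
import Cfsg.Agent.H83.BaerSuzuki

set_option autoImplicit false
open Cfsg

namespace Cfsg.Agent.S3195

theorem odd_sq {G : Type*} [Group G] {h g : G} (ho : Odd (orderOf h)) (hc : Commute (h * h) g) :
    Commute h g := by
  obtain ⟨m, hm⟩ := ho
  have : h = (h * h) ^ (m + 1) := by
    rw [← pow_two, ← pow_mul, show 2 * (m + 1) = orderOf h + 1 by omega, pow_succ,
      pow_orderOf_eq_one, one_mul]
  rw [this]
  exact hc.pow_left _

theorem odd_sq_one {G : Type*} [Group G] {h : G} (ho : Odd (orderOf h)) (hc : h * h = 1) :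
    h = 1 := by
  have h1 : orderOf h ∣ 2 := orderOf_dvd_of_pow_eq_one (by rw [pow_two, hc])
  rcases (Nat.dvd_prime Nat.prime_two).mp h1 with h2 | h2
  · exact orderOf_eq_one_iff.mp h2
  · rw [h2] at ho; exact absurd ho (by decide)

theorem exists_conj {G : Type*} [Group G] {h : G} (ho : Odd (orderOf h)) :
    ∃ k : ℤ, ∀ a : G, a * h * a⁻¹ = h⁻¹ → h ^ k * a * (h ^ k)⁻¹ = a * h := by
  obtain ⟨m, hm⟩ := ho
  refine ⟨m, fun a ha => ?_⟩
  rw [H83.zpow_conj_of_inverts ha]
  have h1 : h ^ (-2 * (m : ℤ)) = h ^ (1 : ℤ) := by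
    rw [zpow_eq_zpow_iff_modEq, hm, Int.modEq_iff_dvd]
    exact ⟨1, by push_cast; ring⟩
  rw [h1, zpow_one]

theorem not_both {G : Type*} [Group G] {h a : G} (ho : Odd (orderOf h)) (h1 : h ≠ 1)
    (ha : a * h * a⁻¹ = h⁻¹) (hc : Commute a h) : False := by
  rw [hc.eq, mul_inv_cancel_right] at ha
  exact h1 (odd_sq_one ho (by nth_rewrite 1 [ha]; simp))

theorem core {G : Type*} [Group G] {a b H K : G} (hab : Commute a b)
    (hH : Odd (orderOf H)) (hH1 : H ≠ 1) (hK : Odd (orderOf K)) (hK1 : K ≠ 1)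
    (haH : a * H * a⁻¹ = H⁻¹) (hbH : Commute b H) (hbK : b * K * b⁻¹ = K⁻¹) (haK : Commute a K)
    (h1 : ∀ g : G, Commute (g * a * g⁻¹) a ∨ Commute (g * a * g⁻¹) b ∨
      Commute (g * a * g⁻¹) (a * b))
    (h2 : ∀ g : G, Commute (g * (a * b) * g⁻¹) a ∨ Commute (g * (a * b) * g⁻¹) b ∨
      Commute (g * (a * b) * g⁻¹) (a * b)) : False := by
  have hcH : (a * b) * H * (a * b)⁻¹ = H⁻¹ := by
    rw [← haH, mul_assoc a b H, hbH.eq]; group
  have hcK : (a * b) * K * (a * b)⁻¹ = K⁻¹ := by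
    rw [← hbK, hab.eq, mul_assoc b a K, haK.eq]; group
  obtain ⟨i, hi⟩ := exists_conj hH
  obtain ⟨j, hj⟩ := exists_conj hK
  have hja : K ^ j * a * (K ^ j)⁻¹ = a := by
    rw [← (haK.zpow_right j).eq]; group
  have key : ∀ x y : G, Commute (((K ^ j)⁻¹ * H ^ i) * x * ((K ^ j)⁻¹ * H ^ i)⁻¹) y →
      Commute (H ^ i * x * (H ^ i)⁻¹) (K ^ j * y * (K ^ j)⁻¹) := by
    intro x y h
    have := h.map (MulAut.conj (K ^ j))
    simp only [MulAut.conj_apply] at this
    convert this using 1
    group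
  have eH : ∀ x : G, x * H * x⁻¹ = H⁻¹ → H * x = x * H⁻¹ := fun x hx => by
    simpa using H83.zpow_mul_of_inverts hx 1
  have eK : ∀ x : G, x * K * x⁻¹ = K⁻¹ → K * x = x * K⁻¹ := fun x hx => by
    simpa using H83.zpow_mul_of_inverts hx 1
  have hHK : Commute H K := by
    rcases h1 ((K ^ j)⁻¹ * H ^ i) with h | h | h <;> have h' := key _ _ h
    · rw [hi a haH, hja] at h'
      have : Commute a H := by
        have := ((Commute.refl a).inv_left.mul_left h').symm
        simpa using this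
      exact (not_both hH hH1 haH this).elim
    · rw [hi a haH, hj b hbK] at h'
      have e := h'.eq
      have e1 : a * H * (b * K) = a * b * (H * K) := by
        rw [mul_assoc a H, ← mul_assoc H b, ← hbH.eq]; group
      have e2 : b * K * (a * H) = a * b * (K * H) := by
        rw [mul_assoc b K, ← mul_assoc K a, ← haK.eq, hab.eq]; group
      rw [e1, e2] at e
      exact mul_left_cancel e
    · rw [hi a haH, hj _ hcK] at h'
      have e := h'.eq
      have e1 : a * H * (a * b * K) = a * (a * b) * (H⁻¹ * K) := by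
        rw [mul_assoc a H, ← mul_assoc H (a * b), eH _ hcH]; group
      have e2 : a * b * K * (a * H) = a * (a * b) * (K * H) := by
        rw [mul_assoc (a * b) K, ← mul_assoc K a, ← haK.eq]
        calc a * b * (a * K * H) = a * (b * a) * (K * H) := by group
          _ = _ := by rw [← hab.eq]
      rw [e1, e2] at e
      have e3 : H⁻¹ * K = K * H := mul_left_cancel e
      have e4 : K * H * K⁻¹ = H⁻¹ := by rw [← e3]; group
      have e5 : Commute (K * K) H := by
        have : K * K * H * (K * K)⁻¹ = H := by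
          calc K * K * H * (K * K)⁻¹ = K * (K * H * K⁻¹) * K⁻¹ := by group
            _ = K * H⁻¹ * K⁻¹ := by rw [e4]
            _ = (K * H * K⁻¹)⁻¹ := by group
            _ = H := by rw [e4, inv_inv]
        exact mul_inv_eq_iff_eq_mul.mp this
      exact (not_both hH hH1 e4 (odd_sq hK e5)).elim
  rcases h2 ((K ^ j)⁻¹ * H ^ i) with h | h | h <;> have h' := key _ _ h
  · rw [hi _ hcH, hja] at h'
    have : Commute a H := by
      have := (((Commute.refl a).mul_left hab.symm).inv_left.mul_left h').symm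
      simpa [mul_assoc] using this
    exact not_both hH hH1 haH this
  · rw [hi _ hcH, hj b hbK] at h'
    have h3 : Commute (a * b * H) b := (hab.mul_left (Commute.refl b)).mul_left hbH.symm
    have h4 : Commute (a * b * H) K := by
      have := h3.inv_right.mul_right h'
      simpa using this
    have h5 : Commute (a * b) K := by
      have := h4.mul_left hHK.inv_left
      simpa using this
    exact not_both hK hK1 hcK h5
  · rw [hi _ hcH, hj _ hcK] at h'
    have e := h'.eq
    have e1 : a * b * H * (a * b * K) = (a * b) * (a * b) * (H⁻¹ * K) := by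
      rw [mul_assoc (a * b) H, ← mul_assoc H (a * b), eH _ hcH]; group
    have e2 : a * b * K * (a * b * H) = (a * b) * (a * b) * (K⁻¹ * H) := by
      rw [mul_assoc (a * b) K, ← mul_assoc K (a * b), eK _ hcK]; group
    rw [e1, e2] at e
    have e3 : H⁻¹ * K = K⁻¹ * H := mul_left_cancel e
    have e4 : K * K = H * H := by
      calc K * K = H * (H⁻¹ * K) * K := by group
        _ = H * (K⁻¹ * (H * K)) := by rw [e3]; group
        _ = H * H := by rw [hHK.eq]; group
    have e5 : Commute (H * H) a := by rw [← e4]; exact (haK.mul_right haK).symm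
    exact not_both hH hH1 haH (odd_sq hH e5).symm


/-- Let A be a Klein four-subgroup of a finite group G. If every G-conjugate of every involution of A commutes with some involution of A (its centralizer meets A nontrivially), then A meets the largest normal 2-subgroup O₂(G) nontrivially. -/
theorem result {G : Type*} [Group G] [Finite G]
    (A : Subgroup G) (hA : IsKleinFour ↥A)
    (h : ∀ a ∈ A, a ≠ 1 → ∀ g : G, A ⊓ Subgroup.centralizer ({g * a * g⁻¹} : Set G) ≠ ⊥) :
    A ⊓ Cfsg.pCore 2 G ≠ ⊥ := by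
  intro hbot
  have hsq : ∀ x ∈ A, x * x = 1 := fun x hx =>
    congrArg Subtype.val (IsKleinFour.mul_self (⟨x, hx⟩ : A))
  have hcm : ∀ x ∈ A, ∀ y ∈ A, Commute x y := fun x hx y hy =>
    congrArg Subtype.val ((IsKleinFour.isMulCommutative (G := A)).is_comm.comm ⟨x, hx⟩ ⟨y, hy⟩)
  have h3 : ∀ x ∈ A, ∀ y ∈ A, ∀ z ∈ A, x ≠ 1 → y ≠ 1 → x ≠ y → z ≠ 1 →
      z = x ∨ z = y ∨ z = x * y := by
    intro x hx y hy z hz hx1 hy1 hxy hz1
    by_contra hh
    push Not at hh
    apply hh.2.2
    exact congrArg Subtype.val (IsKleinFour.eq_mul_of_ne_all (x := (⟨x, hx⟩ : A)) (y := ⟨y, hy⟩)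
      (z := ⟨z, hz⟩) (by simpa using hx1) (by simpa using hy1) (by simpa using hxy)
      (by simpa using hz1) (by simpa using hh.1) (by simpa using hh.2.1))
  have h4 : ∀ a ∈ A, a ≠ 1 → ∀ g : G, ∃ z ∈ A, z ≠ 1 ∧ Commute (g * a * g⁻¹) z := by
    intro a ha ha1 g
    obtain ⟨⟨z, hz⟩, hz1⟩ := (Subgroup.ne_bot_iff_exists_ne_one).mp (h a ha ha1 g)
    exact ⟨z, hz.1, by simpa using hz1, (Subgroup.mem_centralizer_singleton_iff.mp hz.2).symm⟩
  have step : ∀ x ∈ A, x ≠ 1 → ∃ H : G, Odd (orderOf H) ∧ H ≠ 1 ∧ ∃ e ∈ A, e ≠ 1 ∧ e ≠ x ∧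
      Commute e H ∧ ∀ f ∈ A, f ≠ 1 → f ≠ e → f * H * f⁻¹ = H⁻¹ := by
    intro x hx hx1
    have hn : ¬ IsPGroup 2 (Subgroup.normalClosure ({x} : Set G)) := by
      intro hp
      have : x ∈ A ⊓ Cfsg.pCore 2 G :=
        ⟨hx, H83.le_pCore_of_normal inferInstance hp (Subgroup.subset_normalClosure rfl)⟩
      rw [hbot] at this
      exact hx1 this
    obtain ⟨H, -, -, hp, hp2, hinv⟩ := H83.exists_inverted_odd_prime (hsq x hx) hn
    have ho : Odd (orderOf H) := hp.odd_of_ne_two hp2
    have hH1 : H ≠ 1 := by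
      rintro rfl
      simp only [orderOf_one] at hp
      exact Nat.not_prime_one hp
    obtain ⟨i, hi⟩ := exists_conj ho
    obtain ⟨e, he, he1, hce⟩ := h4 x hx hx1 (H ^ i)
    rw [hi x hinv] at hce
    have hce' : Commute e H := by
      have := ((hcm x hx e he).inv_left.mul_left hce).symm
      simpa using this
    have hex : e ≠ x := by
      rintro rfl
      exact not_both ho hH1 hinv hce'
    refine ⟨H, ho, hH1, e, he, he1, hex, hce', ?_⟩
    intro f hf hf1 hfe
    rcases h3 x hx e he f hf hx1 he1 hex.symm hf1 with rfl | rfl | rfl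
    · exact hinv
    · exact absurd rfl hfe
    · rw [← hinv, mul_assoc x e H, hce'.eq]; group
  obtain ⟨⟨x, hx⟩, hx1⟩ : ∃ x : A, x ≠ 1 := by
    have : Nontrivial A := Finite.one_lt_card_iff_nontrivial.mp (by rw [hA.card_four]; norm_num)
    exact exists_ne 1
  have hx1' : x ≠ 1 := by simpa using hx1
  obtain ⟨H, hH, hH1, e, he, he1, -, heH, hinvH⟩ := step x hx hx1'
  obtain ⟨K, hK, hK1, f, hf, hf1, hfe, hfK, hinvK⟩ := step e he he1
  have h5 : ∀ a ∈ A, a ≠ 1 → ∀ g : G, Commute (g * a * g⁻¹) f ∨ Commute (g * a * g⁻¹) e ∨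
      Commute (g * a * g⁻¹) (f * e) := by
    intro a ha ha1 g
    obtain ⟨z, hz, hz1, hc⟩ := h4 a ha ha1 g
    rcases h3 f hf e he z hz hf1 he1 hfe hz1 with rfl | rfl | rfl
    · exact Or.inl hc
    · exact Or.inr (Or.inl hc)
    · exact Or.inr (Or.inr hc)
  refine core (hcm f hf e he) hH hH1 hK hK1 (hinvH f hf hf1 hfe) heH (hinvK e he he1 hfe.symm) hfK
    (h5 f hf hf1) (h5 _ (A.mul_mem hf he) ?_)
  intro hh
  exact hfe (mul_right_cancel (hh.trans (hsq e he).symm))

end Cfsg.Agent.S3195
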