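import Cfsg.Statements.S3196
import Cfsg.Agent.Base
import Cfsg.Agent.H83.BaerSuzuki

set_option autoImplicit false
open Cfsg

namespace Cfsg.Agent.S3196

theorem polar {G : Type*} [Group G] [Finite G] {p : ℕ} (hp : p.Prime) (S : Set G)
    (hord : ∀ x ∈ S, orderOf x = p) (hconj : ∀ x ∈ S, ∀ g : G, g * x * g⁻¹ ∈ S)
    (hmul : ∀ a ∈ S, ∀ b ∈ S, Commute a b → ∀ i : ℤ, a ^ i * b ≠ 1 → a ^ i * b ∈ S)
    (hline : ∀ a ∈ S, ∀ b ∈ S, Commute a b → b ∉ Subgroup.zpowers a → ∀ w ∈ S,
      Commute a w ∨ ∃ i : ℤ, Commute (a ^ i * b) w)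
    (a : G) (ha : a ∈ S) (b : G) (hb : b ∈ S) (hab : Commute a b) (hba : b ∉ Subgroup.zpowers a) :
    ∃ w ∈ S, ∀ u ∈ S, Commute u w := by
  have hF : Fact p.Prime := ⟨hp⟩
  have hne : ∀ {a b : G} (i : ℤ), b ∉ Subgroup.zpowers a → a ^ i * b ≠ 1 := by
    intro a b i h h'
    exact h ⟨-i, by simp only [zpow_neg]; exact (eq_inv_of_mul_eq_one_right h').symm⟩
  have hsymm : ∀ x ∈ S, ∀ y ∈ S, x ∈ Subgroup.zpowers y → y ∈ Subgroup.zpowers x := by
    intro x hx y hy hxy
    have : Subgroup.zpowers x = Subgroup.zpowers y :=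
      Subgroup.eq_of_le_of_card_ge (Subgroup.zpowers_le.mpr hxy)
        (by rw [Nat.card_zpowers, Nat.card_zpowers, hord x hx, hord y hy])
    rw [this]; exact Subgroup.mem_zpowers y
  have hzc : ∀ {x y z : G}, x ∈ Subgroup.zpowers y → Commute y z → Commute x z := by
    rintro x y z ⟨k, rfl⟩ h
    exact h.zpow_left k
  obtain ⟨w, hw, hmax⟩ := Set.exists_max_image S (fun w => {u ∈ S | Commute u w}.ncard)
    (Set.toFinite _) ⟨a, ha⟩
  refine ⟨w, hw, ?_⟩
  by_contra hcon
  push Not at hcon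
  obtain ⟨u', hu', hu'w⟩ := hcon
  have claim1 : ∀ v ∈ S, (∀ u ∈ S, Commute u w → Commute u v) → v ∈ Subgroup.zpowers w := by
    intro v hv h
    by_contra hvw
    have hwv := h w hw (Commute.refl w)
    rcases hline w hw v hv hwv hvw u' hu' with h1 | ⟨i, hi⟩
    · exact hu'w h1.symm
    · have ht := hmul w hw v hv hwv i (hne i hvw)
      have h2 := hmax _ ht
      have h3 : {u ∈ S | Commute u w} ⊂ {u ∈ S | Commute u (w ^ i * v)} := by
        refine ⟨fun u hu => ⟨hu.1, (hu.2.zpow_right i).mul_right (h u hu.1 hu.2)⟩, fun hh => ?_⟩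
        exact hu'w (hh ⟨hu', hi.symm⟩).2
      exact absurd (Set.ncard_lt_ncard h3) (not_lt.mpr h2)
  have claim2 : ∃ c ∈ S, Commute u' c ∧ c ∉ Subgroup.zpowers u' := by
    have h0 : ∃ c ∈ S, Commute c u' ∧ Commute c a ∧ Commute c b := by
      rcases hline a ha b hb hab hba u' hu' with h1 | ⟨i, hi⟩
      · exact ⟨a, ha, h1, Commute.refl a, hab⟩
      · exact ⟨_, hmul a ha b hb hab i (hne i hba), hi,
          ((Commute.refl a).zpow_left i).mul_left hab.symm,
          (hab.zpow_left i).mul_left (Commute.refl b)⟩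
    obtain ⟨c, hc, h1, h2, h3⟩ := h0
    by_cases hcu : c ∈ Subgroup.zpowers u'
    · have h4 := hsymm c hc u' hu' hcu
      by_cases hau : a ∈ Subgroup.zpowers u'
      · refine ⟨b, hb, hzc h4 h3, fun hbu => hba ?_⟩
        exact (Subgroup.zpowers_le.mpr (hsymm a ha u' hu' hau)) hbu
      · exact ⟨a, ha, hzc h4 h2, hau⟩
    · exact ⟨c, hc, h1.symm, hcu⟩
  obtain ⟨c, hc, hcu, hcu'⟩ := claim2
  obtain ⟨x, hx, hxw, hxy⟩ : ∃ x ∈ S, Commute x w ∧ Commute x u' := by
    rcases hline u' hu' c hc hcu hcu' w hw with h1 | ⟨i, hi⟩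
    · exact absurd h1 hu'w
    · exact ⟨_, hmul u' hu' c hc hcu i (hne i hcu'), hi,
        ((Commute.refl u').zpow_left i).mul_left hcu.symm⟩
  set y := u' with hy
  have hyx : y ∉ Subgroup.zpowers x := fun h => hu'w (hzc h hxw)
  have hxw' : x ∉ Subgroup.zpowers w := fun h => hu'w (hzc (hsymm x hx w hw h) hxy).symm
  obtain ⟨u₀, hu₀, hu₀w, hu₀x⟩ : ∃ u₀ ∈ S, Commute u₀ w ∧ ¬ Commute u₀ x := by
    by_contra hh
    push Not at hh
    exact hxw' (claim1 x hx hh)
  set w' := y * w * y⁻¹ with hw'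
  have hxw2 : Commute x w' := (hxy.mul_right hxw).mul_right hxy.inv_right
  have claim3 : ∀ u ∈ S, Commute u w → ¬ Commute u x → Commute u w' := by
    intro u hu huw hux
    rcases hline x hx y hu' hxy hyx u hu with h1 | ⟨i, hi⟩
    · exact absurd h1.symm hux
    · have : w' = (x ^ i * y) * w * (x ^ i * y)⁻¹ := by
        have e : (x ^ i * y) * w * (x ^ i * y)⁻¹ = x ^ i * w' * (x ^ i)⁻¹ := by rw [hw']; group
        rw [e, (hxw2.zpow_left i).eq]; group
      rw [this]
      exact (hi.symm.mul_right huw).mul_right hi.symm.inv_right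
  have hmul1 : ∀ s ∈ S, ∀ t ∈ S, Commute s t → ¬ Commute s x → Commute t x →
      s * t ∈ S ∧ ¬ Commute (s * t) x := by
    intro s hs t ht hst hsx htx
    have h1 : ¬ Commute (s * t) x := fun h => hsx (by simpa using h.mul_left htx.inv_left)
    refine ⟨?_, h1⟩
    have := hmul s hs t ht hst 1 (by
      rw [zpow_one]; intro h; rw [h] at h1; exact h1 (Commute.one_left x))
    rwa [zpow_one] at this
  have claim4 : Commute w w' := by
    obtain ⟨h1, h2⟩ := hmul1 u₀ hu₀ w hw hu₀w hu₀x hxw.symm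
    have h3 := claim3 _ h1 (hu₀w.mul_left (Commute.refl w)) h2
    simpa using (claim3 u₀ hu₀ hu₀w hu₀x).inv_left.mul_left h3
  set v := w ^ (-1 : ℤ) * w' with hv
  have hv1 : v ≠ 1 := by
    intro h
    apply hu'w
    rw [hv, zpow_neg_one, inv_mul_eq_one, hw'] at h
    exact (mul_inv_eq_iff_eq_mul.mp h.symm)
  have hvS : v ∈ S := hmul w hw w' (hconj w hw y) claim4 (-1) hv1
  have hvx : Commute v x := (hxw.symm.zpow_left _).mul_left hxw2.symm
  have hvw : Commute v w := ((Commute.refl w).zpow_left _).mul_left claim4.symm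
  have hvu : ∀ u ∈ S, Commute u w → ¬ Commute u x → Commute u v := fun u hu huw hux =>
    (huw.zpow_right _).mul_right (claim3 u hu huw hux)
  have claim5 : ∀ u ∈ S, Commute u w → Commute u v := by
    intro u hu huw
    by_cases hux : Commute u x
    swap
    · exact hvu u hu huw hux
    by_contra huv
    have h1 : ∀ t ∈ S, Commute t w → ¬ Commute t x → ¬ Commute t u := by
      intro t ht htw htx htu
      obtain ⟨h2, h3⟩ := hmul1 t ht u hu htu htx hux
      apply huv
      simpa using (hvu t ht htw htx).inv_left.mul_left (hvu _ h2 (htw.mul_left huw) h3)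
    have hu₀v : u₀ ∉ Subgroup.zpowers v := fun h => hu₀x (hzc h hvx)
    have hvu₀ := (hvu u₀ hu₀ hu₀w hu₀x).symm
    rcases hline v hvS u₀ hu₀ hvu₀ hu₀v u hu with h2 | ⟨i, hi⟩
    · exact huv h2.symm
    · refine h1 _ (hmul v hvS u₀ hu₀ hvu₀ i (hne i hu₀v)) ((hvw.zpow_left i).mul_left hu₀w) ?_ hi
      intro h
      exact hu₀x (by simpa using (hvx.zpow_left i).inv_left.mul_left h)
  obtain ⟨k, hk⟩ := claim1 v hvS claim5
  simp only at hk
  have h6 : y * w * y⁻¹ = w ^ (k + 1) := by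
    rw [← hw', add_comm, zpow_add, hk, hv]; group
  have h7 : ∀ n : ℕ, y ^ n * w * (y ^ n)⁻¹ = w ^ ((k + 1) ^ n) := by
    intro n
    induction n with
    | zero => simp
    | succ n ih =>
      calc y ^ (n + 1) * w * (y ^ (n + 1))⁻¹ = y * (y ^ n * w * (y ^ n)⁻¹) * y⁻¹ := by group
        _ = (y * w * y⁻¹) ^ ((k + 1) ^ n) := by rw [ih, conj_zpow]
        _ = _ := by rw [h6, ← zpow_mul, pow_succ']
  have h8 := h7 p
  have hyp : y ^ p = 1 := by rw [← hord y hu']; exact pow_orderOf_eq_one y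
  rw [hyp, one_mul, inv_one, mul_one] at h8
  have h9 : w ^ ((k + 1) ^ p) = w ^ (k + 1) := by
    rw [zpow_eq_zpow_iff_modEq, hord w hw, ← ZMod.intCast_eq_intCast_iff]
    push_cast
    exact ZMod.pow_card _
  rw [h9, ← h6] at h8
  exact hu'w (mul_inv_eq_iff_eq_mul.mp h8.symm)


/-- Let p be a prime and K a set of subgroups of order p of a finite group G, closed under conjugation, such that at least two distinct members of K commute elementwise, and whenever two distinct members X, Y of K commute: every subgroup of order p of the group XY they generate belongs to K, and every member W of K has centralizer meeting XY nontrivially. Then some member V of K commutes elementwise with every member of K and lies in O_p(G); in particular G is not simple. -/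
theorem result {G : Type*} [Group G] [Finite G]
    {p : ℕ} (hp : p.Prime) (K : Set (Subgroup G)) (hK : ∀ X ∈ K, Nat.card ↥X = p)
    (hKc : ∀ X ∈ K, ∀ g : G, X.map (MulAut.conj g).toMonoidHom ∈ K)
    (hex : ∃ X ∈ K, ∃ Y ∈ K, X ≠ Y ∧ ∀ x ∈ X, ∀ y ∈ Y, x * y = y * x)
    (ha : ∀ X ∈ K, ∀ Y ∈ K, X ≠ Y → (∀ x ∈ X, ∀ y ∈ Y, x * y = y * x) →
      ∀ Z : Subgroup G, Z ≤ X ⊔ Y → Nat.card ↥Z = p → Z ∈ K)
    (hb : ∀ X ∈ K, ∀ Y ∈ K, X ≠ Y → (∀ x ∈ X, ∀ y ∈ Y, x * y = y * x) →
      ∀ W ∈ K, (X ⊔ Y) ⊓ Subgroup.centralizer (W : Set G) ≠ ⊥) :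
    (∃ V ∈ K, (∀ W ∈ K, ∀ v ∈ V, ∀ w ∈ W, v * w = w * v) ∧ V ≤ Cfsg.pCore p G) ∧ ¬ IsSimpleGroup G := by
  have hF : Fact p.Prime := ⟨hp⟩
  set S : Set G := {x | Subgroup.zpowers x ∈ K} with hS
  have hord : ∀ x ∈ S, orderOf x = p := fun x hx => by
    rw [← Nat.card_zpowers]; exact hK _ hx
  have hgen : ∀ X ∈ K, ∀ x ∈ X, x ≠ 1 → Subgroup.zpowers x = X := by
    intro X hX x hx hx1
    apply Subgroup.eq_of_le_of_card_ge (Subgroup.zpowers_le.mpr hx)
    have h1 : Nat.card (Subgroup.zpowers x) ∣ p :=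
      hK X hX ▸ Subgroup.card_dvd_of_le (Subgroup.zpowers_le.mpr hx)
    rcases (Nat.dvd_prime hp).mp h1 with h2 | h2
    · rw [Nat.card_zpowers, orderOf_eq_one_iff] at h2
      exact absurd h2 hx1
    · rw [h2, hK X hX]
  have hgen' : ∀ X ∈ K, ∃ x ∈ S, Subgroup.zpowers x = X := by
    intro X hX
    have : X ≠ ⊥ := by
      rintro rfl
      have := hK _ hX
      rw [Subgroup.card_bot] at this
      exact hp.ne_one this.symm
    obtain ⟨⟨x, hx⟩, hx1⟩ := Subgroup.ne_bot_iff_exists_ne_one.mp this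
    have h1 := hgen X hX x hx (by simpa using hx1)
    exact ⟨x, by simpa [hS, h1] using hX, h1⟩
  have hconj : ∀ x ∈ S, ∀ g : G, g * x * g⁻¹ ∈ S := by
    intro x hx g
    have := hKc _ hx g
    rwa [MonoidHom.map_zpowers] at this
  have hcz : ∀ a b : G, Commute a b → ∀ x ∈ Subgroup.zpowers a, ∀ y ∈ Subgroup.zpowers b,
      x * y = y * x := by
    rintro a b hab _ ⟨i, rfl⟩ _ ⟨j, rfl⟩
    exact (hab.zpow_zpow i j).eq
  have hpow : ∀ x ∈ S, x ^ p = 1 := fun x hx => by rw [← hord x hx]; exact pow_orderOf_eq_one x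
  have hmul : ∀ a ∈ S, ∀ b ∈ S, Commute a b → ∀ i : ℤ, a ^ i * b ≠ 1 → a ^ i * b ∈ S := by
    intro a haS b hbS hab i h1
    by_cases he : Subgroup.zpowers a = Subgroup.zpowers b
    · have : a ^ i * b ∈ Subgroup.zpowers a :=
        Subgroup.mul_mem _ (Subgroup.zpow_mem_zpowers a i) (he ▸ Subgroup.mem_zpowers b)
      change Subgroup.zpowers _ ∈ K
      rw [hgen _ haS _ this h1]; exact haS
    · apply ha _ haS _ hbS he (hcz a b hab)
      · rw [Subgroup.zpowers_le]
        exact Subgroup.mul_mem_sup (Subgroup.zpow_mem_zpowers a i) (Subgroup.mem_zpowers b)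
      · rw [Nat.card_zpowers]
        apply orderOf_eq_prime _ h1
        rw [(hab.zpow_left i).mul_pow, hpow b hbS, ← zpow_natCast, ← zpow_mul, mul_comm i,
          zpow_mul, zpow_natCast, hpow a haS, one_zpow, one_mul]
  have hline : ∀ a ∈ S, ∀ b ∈ S, Commute a b → b ∉ Subgroup.zpowers a → ∀ w ∈ S,
      Commute a w ∨ ∃ i : ℤ, Commute (a ^ i * b) w := by
    intro a haS b hbS hab hba w hw
    have he : Subgroup.zpowers a ≠ Subgroup.zpowers b := fun h => hba (h ▸ Subgroup.mem_zpowers b)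
    obtain ⟨⟨z, hz, hzw⟩, hz1⟩ :=
      Subgroup.ne_bot_iff_exists_ne_one.mp (hb _ haS _ hbS he (hcz a b hab) _ hw)
    have hz1' : z ≠ 1 := fun h => hz1 (Subtype.ext h)
    have hzw' : Commute z w := (hzw w (Subgroup.mem_zpowers w)).symm
    have hform : ∃ i j : ℤ, z = a ^ i * b ^ j := by
      have hz' : z ∈ Subgroup.closure ({a} ∪ {b} : Set G) := by
        rw [Subgroup.closure_union, ← Subgroup.zpowers_eq_closure, ← Subgroup.zpowers_eq_closure]
        exact hz
      clear hz1 hz1' hzw hzw' hz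
      induction hz' using Subgroup.closure_induction with
      | mem x hx =>
        rcases hx with rfl | rfl
        · exact ⟨1, 0, by simp⟩
        · exact ⟨0, 1, by simp⟩
      | one => exact ⟨0, 0, by simp⟩
      | mul x y _ _ hx hy =>
        obtain ⟨i, j, rfl⟩ := hx
        obtain ⟨k, l, rfl⟩ := hy
        refine ⟨i + k, j + l, ?_⟩
        rw [zpow_add, zpow_add, mul_assoc, mul_assoc, ← mul_assoc (b ^ j),
          ← (hab.zpow_zpow k j).eq, mul_assoc]
      | inv x _ hx =>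
        obtain ⟨i, j, rfl⟩ := hx
        exact ⟨-i, -j, by rw [mul_inv_rev, ← zpow_neg, ← zpow_neg, (hab.zpow_zpow _ _).eq]⟩
    obtain ⟨i, j, rfl⟩ := hform
    by_cases hj : b ^ j = 1
    · left
      rw [hj, mul_one] at hz1' hzw'
      have := hgen _ haS _ (Subgroup.zpow_mem_zpowers a i) hz1'
      obtain ⟨k, hk⟩ : a ∈ Subgroup.zpowers (a ^ i) := this ▸ Subgroup.mem_zpowers a
      rw [← hk]; exact hzw'.zpow_left k
    · right
      have := hgen _ hbS _ (Subgroup.zpow_mem_zpowers b j) hj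
      obtain ⟨k, hk⟩ : b ∈ Subgroup.zpowers (b ^ j) := this ▸ Subgroup.mem_zpowers b
      simp only at hk
      refine ⟨i * k, ?_⟩
      have h2 := hzw'.zpow_left k
      rwa [(hab.zpow_zpow i j).mul_zpow, hk, ← zpow_mul] at h2
  obtain ⟨X, hX, Y, hY, hXY, hc⟩ := hex
  obtain ⟨a, haS, rfl⟩ := hgen' X hX
  obtain ⟨b, hbS, rfl⟩ := hgen' Y hY
  have hb1 : ∀ b ∈ S, b ≠ 1 := by
    intro b hbS h
    have := hord b hbS
    rw [h, orderOf_one] at this
    exact hp.ne_one this.symm
  obtain ⟨w, hw, hall⟩ := polar hp S hord hconj hmul hline a haS b hbS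
    (hc a (Subgroup.mem_zpowers a) b (Subgroup.mem_zpowers b))
    (fun h => hXY (hgen _ hX b h (hb1 b hbS)).symm)
  refine ⟨⟨Subgroup.zpowers w, hw, ?_, ?_⟩, ?_⟩
  · intro W hW
    obtain ⟨u, hu, rfl⟩ := hgen' W hW
    exact hcz w u (hall u hu).symm
  · rw [Subgroup.zpowers_le]
    apply H83.mem_pCore_of_baer_suzuki
    intro g
    have hcm := hall _ (hconj w hw g)
    rintro ⟨d, hd⟩
    refine ⟨1, Subtype.ext ?_⟩
    simp only [pow_one, SubmonoidClass.mk_pow, OneMemClass.coe_one]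
    have hcomm : IsMulCommutative (Subgroup.closure ({w, g * w * g⁻¹} : Set G)) :=
      Subgroup.isMulCommutative_closure (by
        rintro x (rfl | rfl) y (rfl | rfl)
        · rfl
        · exact hcm.symm.eq
        · exact hcm.eq
        · rfl)
    induction hd using Subgroup.closure_induction with
    | mem x hx =>
      rcases hx with rfl | rfl
      · exact hpow _ hw
      · exact hpow _ (hconj w hw g)
    | one => simp
    | mul x y hx hy hx' hy' =>
      have : Commute x y := congrArg Subtype.val (hcomm.is_comm.comm ⟨x, hx⟩ ⟨y, hy⟩)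
      rw [this.mul_pow, hx', hy', one_mul]
    | inv x _ hx => rw [inv_pow, hx, inv_one]
  · intro hsimple
    have h1 : Subgroup.normalClosure ({w} : Set G) ≤ Subgroup.centralizer {w} := by
      unfold Subgroup.normalClosure
      rw [Subgroup.closure_le]
      intro x hx
      simp only [Group.mem_conjugatesOfSet_iff, Set.mem_singleton_iff, exists_eq_left,
        isConj_iff] at hx
      obtain ⟨c, rfl⟩ := hx
      exact Subgroup.mem_centralizer_singleton_iff.mpr (hall _ (hconj w hw c)).eq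
    rcases hsimple.eq_bot_or_eq_top_of_normal (Subgroup.normalClosure ({w} : Set G)) inferInstance
      with h2 | h2
    · have : w ∈ Subgroup.normalClosure ({w} : Set G) := Subgroup.subset_normalClosure rfl
      rw [h2] at this
      exact hb1 w hw this
    have hn : (Subgroup.zpowers w).Normal := ⟨by
      rintro _ ⟨k, rfl⟩ g
      have : Commute g w := Subgroup.mem_centralizer_singleton_iff.mp (h1 (h2 ▸ Subgroup.mem_top g))
      simp only
      rw [(this.zpow_right k).eq]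
      simp⟩
    rcases hsimple.eq_bot_or_eq_top_of_normal _ hn with h3 | h3
    · exact hb1 w hw (Subgroup.zpowers_eq_bot.mp h3)
    have h4 := hgen _ hw a (h3 ▸ Subgroup.mem_top a) (hb1 a haS)
    have h5 := hgen _ hw b (h3 ▸ Subgroup.mem_top b) (hb1 b hbS)
    exact hXY (h4.trans h5.symm)

end Cfsg.Agent.S3196
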