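import Cfsg.Statements.S3200
import Cfsg.Agent.H4.KegelC
import Cfsg.Agent.H46.Hall

set_option autoImplicit false
open Cfsg H46

namespace Cfsg.Agent.S3200

/-- Let H be a finite group in which a Sylow 2-subgroup has an abelian complement (an abelian subgroup meeting it trivially whose product with it is all of H). Then H is solvable, and every subgroup and every quotient group of H again has a Sylow 2-subgroup with an abelian complement. -/
theorem result {H : Type*} [Group H] [Finite H]
    (S : Sylow 2 H) (C : Subgroup H) (hC : IsMulCommutative ↥C) (hSC : Subgroup.IsComplement' (S : Subgroup H) C) :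
    Group.IsSolvable H ∧
    (∀ L : Subgroup H, ∃ (P : Sylow 2 ↥L) (D : Subgroup ↥L), IsMulCommutative ↥D ∧ Subgroup.IsComplement' (P : Subgroup ↥L) D) ∧
    (∀ (N : Subgroup H) [N.Normal], ∃ (P : Sylow 2 (H ⧸ N)) (D : Subgroup (H ⧸ N)),
      IsMulCommutative ↥D ∧ Subgroup.IsComplement' (P : Subgroup (H ⧸ N)) D) := by
  have hC' : IsPiHallOf {2}ᶜ C ⊤ := by
    refine H46.isPiHallOf_compl_mk le_top ?_ ?_
    · rw [H46.isPi_compl_singleton Nat.prime_two, ← hSC.symm.index_eq_card]
      exact S.not_dvd_index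
    · rw [Subgroup.relIndex_top_right, hSC.index_eq_card]
      exact H46.isPi_of_isPGroup Nat.prime_two S.isPGroup'
  have compl : ∀ {G : Type _} [Group G] [Finite G] (D : Subgroup G), IsPiHallOf {2}ᶜ D ⊤ →
      ∀ P : Sylow 2 G, Subgroup.IsComplement' (P : Subgroup G) D := by
    intro G _ _ D hD P
    have h1 := H46.isSylowOf_top P
    exact Subgroup.isComplement'_of_coprime ((h1.card_mul hD).trans Subgroup.card_top)
      (h1.isPi.coprime hD.isPi)
  have hs : Group.IsSolvable H := by
    refine H4.kegel_wielandt (A := (S : Subgroup H)) (B := C) S.isPGroup'.isNilpotent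
      (by let _ : CommGroup C := { (inferInstance : Group C) with mul_comm := hC.1.1 }
          infer_instance) fun g => ?_
    obtain ⟨⟨a, b⟩, e⟩ := hSC.2 g
    exact ⟨a, a.2, b, b.2, e.symm⟩
  have hs' : Group.IsSolvable (⊤ : Subgroup H) := inferInstance
  refine ⟨hs, fun L => ?_, fun N _ => ?_⟩
  · obtain ⟨D, hD⟩ := H46.hall_exists {2}ᶜ (inferInstance : Group.IsSolvable (⊤ : Subgroup L))
    obtain ⟨g, -, hg⟩ := H46.hall_le_cj hs' hC' (hD.isPi.map L.subtype) le_top
    have hc := H46.comm_cj hC g
    refine ⟨default, D, ⟨⟨fun a b => Subtype.ext (Subtype.ext ?_)⟩⟩, compl D hD _⟩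
    have := congrArg Subtype.val (hc.1.1 ⟨_, hg (Subgroup.mem_map_of_mem _ a.2)⟩
      ⟨_, hg (Subgroup.mem_map_of_mem _ b.2)⟩)
    exact this
  · refine ⟨default, C.map (QuotientGroup.mk' N), inferInstance, compl _ ?_ _⟩
    refine H46.isPiHallOf_compl_mk le_top (hC'.isPi.map _) ?_
    have h1 := hC'.idx'
    rw [Subgroup.relIndex_top_right] at h1 ⊢
    exact h1.of_dvd (Subgroup.index_map_dvd _ (QuotientGroup.mk'_surjective N))

end Cfsg.Agent.S3200
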