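import Cfsg.Agent.Base
import Cfsg.Statements.S3201
import Cfsg.Agent.H85.GQ1
import Cfsg.Agent.H9.PBasic

set_option autoImplicit false
open Cfsg

namespace Cfsg.Agent.S3201

/-- Let S be a finite 2-group whose centre Z(S) has n ≥ 2 distinct maximal subgroups C₁, …, Cₙ with trivial intersection such that each quotient S/Cᵢ is a non-abelian group with exactly one involution (a generalized quaternion group). Then S is the internal direct product of an elementary abelian subgroup and a non-abelian subgroup with exactly one involution. -/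
theorem result {S : Type*} [Group S] [Finite S]
    (hS : IsPGroup 2 S) (n : ℕ) (hn : 2 ≤ n) (C : Fin n → Subgroup ↥(Subgroup.center S))
    (hCmax : ∀ i, IsCoatom (C i)) (hCinj : Function.Injective C) (hCint : ⨅ i, C i = ⊥)
    (hCq : ∀ i, ∃ (_ : ((C i).map (Subgroup.center S).subtype).Normal),
      ¬ IsMulCommutative (S ⧸ (C i).map (Subgroup.center S).subtype) ∧
      ∃! x : S ⧸ (C i).map (Subgroup.center S).subtype, orderOf x = 2) :
    ∃ E Q : Subgroup S, Cfsg.IsInternalDirectProduct E Q ⊤ ∧ Cfsg.IsElementaryAbelian 2 E ∧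
      ¬ IsMulCommutative ↥Q ∧ ∃! x : ↥Q, orderOf x = 2 := by
  classical
  let Z := Subgroup.center S
  have hidx : ∀ i, (C i).index = 2 := fun i => H9.index_of_isCoatom (hS.to_subgroup Z) (hCmax i)
  let N : Fin n → Subgroup S := fun i => (C i).map Z.subtype
  have hNZ : ∀ i, N i ≤ Z := fun i => Subgroup.map_subtype_le _
  have hmem : ∀ i (z : S) (hz : z ∈ Z), z ∈ N i ↔ (⟨z, hz⟩ : Z) ∈ C i := by
    intro i z hz
    constructor
    · rintro ⟨y, hy, rfl⟩
      exact hy
    · intro h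
      exact ⟨_, h, rfl⟩
  have hint : ∀ z ∈ Z, (∀ i, z ∈ N i) → z = 1 := by
    intro z hz h
    have : (⟨z, hz⟩ : Z) ∈ ⨅ i, C i := Subgroup.mem_iInf.2 fun i => (hmem i z hz).1 (h i)
    rw [hCint, Subgroup.mem_bot] at this
    exact congrArg Subtype.val this
  have hmul : ∀ i, ∀ u ∈ Z, ∀ v ∈ Z, u ∉ N i → v ∉ N i → u * v ∈ N i := by
    intro i u hu v hv hu' hv'
    rw [hmem i _ (Z.mul_mem hu hv)]
    have := (Subgroup.mul_mem_iff_of_index_two (hidx i) (a := ⟨u, hu⟩) (b := ⟨v, hv⟩)).2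
      (by rw [← hmem, ← hmem]; tauto)
    exact this
  have hsq : ∀ z ∈ Z, z * z = 1 := by
    intro z hz
    refine hint _ (Z.mul_mem hz hz) fun i => ?_
    by_cases h : z ∈ N i
    · exact (N i).mul_mem h h
    · exact hmul i z hz z hz h h
  have hex : ∀ i, ∃ z ∈ Z, z ∉ N i := by
    intro i
    by_contra hc
    push Not at hc
    apply (hCmax i).1
    rw [eq_top_iff]
    intro z _
    exact (hmem i z.1 z.2).1 (hc _ z.2)
  -- elements whose square lies in `N i` are central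
  have hc : ∀ i (x : S), x * x ∈ N i → x ∈ Z := by
    intro i x hx
    obtain ⟨hn', -, w, -, hwu⟩ := hCq i
    haveI : (N i).Normal := hn'
    obtain ⟨z, hz, hzN⟩ := hex i
    by_cases hxN : x ∈ N i
    · exact hNZ i hxN
    have o1 : orderOf (QuotientGroup.mk x : S ⧸ N i) = 2 := by
      apply orderOf_eq_prime
      · rw [pow_two, ← QuotientGroup.mk_mul, QuotientGroup.eq_one_iff]; exact hx
      · rw [Ne, QuotientGroup.eq_one_iff]; exact hxN
    have o2 : orderOf (QuotientGroup.mk z : S ⧸ N i) = 2 := by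
      apply orderOf_eq_prime
      · rw [pow_two, ← QuotientGroup.mk_mul, hsq z hz]; rfl
      · rw [Ne, QuotientGroup.eq_one_iff]; exact hzN
    have := (hwu _ o2).trans (hwu _ o1).symm
    rw [QuotientGroup.eq] at this
    have h3 := Z.mul_mem hz (hNZ i this)
    simpa using h3
  have hd : ∀ x y : S, x ∉ Z → y ∉ Z → x * x ∈ Z → y * y ∈ Z → x * x = y * y := by
    intro x y hx hy hx2 hy2
    have h1 : x * x * (y * y) = 1 :=
      hint _ (Z.mul_mem hx2 hy2) fun i =>
        hmul i _ hx2 _ hy2 (fun h => hx (hc i x h)) (fun h => hy (hc i y h))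
    have h2 := hsq _ hy2
    exact mul_right_cancel (h1.trans h2.symm)
  set i0 : Fin n := ⟨0, by omega⟩
  obtain ⟨hn', hna, hu⟩ := hCq i0
  haveI : (N i0).Normal := hn'
  obtain ⟨m, a, b, h⟩ := H85.exists_GQ_top (G := S ⧸ N i0) (hS.to_quotient (N i0)) hna hu
  obtain ⟨α, rfl⟩ := QuotientGroup.mk_surjective a
  obtain ⟨β, rfl⟩ := QuotientGroup.mk_surjective b
  have hk0 : (2 ^ (m + 1) : ℕ) ≠ 0 := by positivity
  have hz1 := h.z_ne_one hk0
  have hzN : α ^ 2 ^ (m + 1) ∉ N i0 := by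
    intro h'
    apply hz1
    rw [← QuotientGroup.mk_pow, QuotientGroup.eq_one_iff]; exact h'
  have hzZ : α ^ 2 ^ (m + 1) ∈ Z := by
    apply hc i0
    rw [← QuotientGroup.eq_one_iff, QuotientGroup.mk_mul, QuotientGroup.mk_pow]
    exact h.z_mul_z
  have key : ∀ x : S, (QuotientGroup.mk x : S ⧸ N i0) * QuotientGroup.mk x =
      QuotientGroup.mk α ^ 2 ^ (m + 1) → x ∉ Z ∧ x * x ∈ Z := by
    intro x hx
    constructor
    · intro hxZ
      apply hz1
      rw [← hx, ← QuotientGroup.mk_mul, hsq x hxZ]; rfl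
    · rw [← QuotientGroup.mk_mul, ← QuotientGroup.mk_pow, eq_comm, QuotientGroup.eq] at hx
      have := Z.mul_mem hzZ (hNZ i0 hx)
      simpa using this
  have k1 := key (α ^ 2 ^ m) (by rw [QuotientGroup.mk_pow, ← pow_add, pow_succ]; congr 1; ring)
  have k2 := key β h.bb
  have k3 := key (β * α) (by
    have := h.ba_sq 1
    simpa using this)
  have e1 : β * β = α ^ 2 ^ (m + 1) := by
    rw [hd _ _ k2.1 k1.1 k2.2 k1.2, ← pow_add, pow_succ]; congr 1; ring
  have e2 : β * α * β⁻¹ = α⁻¹ := by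
    have := hd _ _ k3.1 k2.1 k3.2 k2.2
    calc β * α * β⁻¹ = α⁻¹ * β⁻¹ * (β * α * (β * α)) * α⁻¹ * β⁻¹ * α * β⁻¹ * (β * α⁻¹ * β * α * β⁻¹) := by group
      _ = α⁻¹ * β⁻¹ * (β * β) * α⁻¹ * β⁻¹ * α * β⁻¹ * (β * α⁻¹ * β * α * β⁻¹) := by rw [this]
      _ = α⁻¹ := by
        have h5 : α * β * α = β := by
          have : β * (α * β * α) = β * β := by rw [← this]; group
          exact mul_left_cancel this
        calc α⁻¹ * β⁻¹ * (β * β) * α⁻¹ * β⁻¹ * α * β⁻¹ * (β * α⁻¹ * β * α * β⁻¹)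
            = α⁻¹ * β * α⁻¹ * α * β⁻¹ := by group
          _ = α⁻¹ := by group
  have hord : orderOf α = 2 * 2 ^ (m + 1) := by
    apply Nat.dvd_antisymm
    · rw [orderOf_dvd_iff_pow_eq_one, mul_comm, pow_mul, pow_two]
      exact hsq _ hzZ
    · rw [← h.ord]
      exact orderOf_map_dvd (QuotientGroup.mk' (N i0)) α
  have hnm : β ∉ Subgroup.zpowers α := by
    rintro ⟨k, hk⟩
    apply h.notMem
    refine ⟨k, ?_⟩
    simp only at hk ⊢
    rw [← hk]; simp
  have hQ := H86.GQ_closure hord e1 e2 hnm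
  refine ⟨N i0, Subgroup.closure {α, β}, ⟨le_top, le_top, ?_, ?_, ?_⟩, ⟨⟨⟨fun x y => ?_⟩⟩, ?_⟩, ?_, ?_⟩
  · intro a ha b _
    exact (Subgroup.mem_center_iff.1 (hNZ i0 ha) b).symm
  · rw [eq_bot_iff]
    rintro g ⟨hg1, hg2⟩
    rcases hQ.eq_of_sq hk0 hg2 (hsq g (hNZ i0 hg1)) with h1 | h1
    · rw [h1]; exact Subgroup.one_mem _
    · exact absurd (h1 ▸ hg1) hzN
  · rw [eq_top_iff]
    intro g _
    obtain ⟨i, d, hd', hg | hg⟩ := H85.GQ_lift_mem h g
    · rw [hg]
      exact Subgroup.mul_mem _ (Subgroup.mem_sup_right (hQ.a_mem i)) (Subgroup.mem_sup_left hd')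
    · rw [hg]
      exact Subgroup.mul_mem _ (Subgroup.mem_sup_right (hQ.ba_mem i)) (Subgroup.mem_sup_left hd')
  · exact Subtype.ext (Subgroup.mem_center_iff.1 (hNZ i0 y.2) x.1)
  · intro a ha
    rw [pow_two]; exact hsq a (hNZ i0 ha)
  · intro hcomm
    have := congrArg Subtype.val (hcomm.1.1 ⟨β, hQ.b_mem⟩ ⟨α, hQ.a_mem'⟩)
    simp only [Subgroup.coe_mul] at this
    have h2 : α = α⁻¹ := by rw [← e2, this]; group
    have h3 : α ^ 2 = 1 := by rw [pow_two]; nth_rewrite 1 [h2]; exact inv_mul_cancel α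
    have h4 := orderOf_dvd_of_pow_eq_one h3
    rw [hord] at h4
    have := Nat.le_of_dvd (by norm_num) h4
    have h5 : 2 ≤ 2 ^ (m + 1) := by
      calc 2 = 2 ^ 1 := by norm_num
        _ ≤ 2 ^ (m + 1) := Nat.pow_le_pow_right (by norm_num) (by omega)
    omega
  · refine ⟨⟨α ^ 2 ^ (m + 1), Subgroup.pow_mem _ hQ.a_mem' _⟩, ?_, ?_⟩
    · simp only
      rw [← Subgroup.orderOf_coe]
      apply orderOf_eq_prime
      · rw [pow_two]; exact hQ.z_mul_z
      · exact hQ.z_ne_one hk0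
    · intro y hy
      rw [← Subgroup.orderOf_coe] at hy
      have h1 : (y : S) * y = 1 := by rw [← pow_two, ← hy]; exact pow_orderOf_eq_one _
      rcases hQ.eq_of_sq hk0 y.2 h1 with h2 | h2
      · rw [h2, orderOf_one] at hy; omega
      · exact Subtype.ext h2

end Cfsg.Agent.S3201
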