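import Cfsg.Agent.Base
import Cfsg.Statements.S3202
import Cfsg.Agent.H85.GQ1

set_option autoImplicit false
open Cfsg

namespace Cfsg.Agent.S3202

/-- Let S be a finite 2-group of 2-rank exactly 2 and D a maximal subgroup of the centre of S such that S/D is a non-abelian group with exactly one involution (a generalized quaternion group). Then S has a nontrivial cyclic characteristic subgroup. -/
theorem result {S : Type*} [Group S]
    [Finite S] (hS : IsPGroup 2 S) (hr2 : Cfsg.PRankLE 2 2 S) (hr1 : ¬ Cfsg.PRankLE 2 1 S)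
    (D : Subgroup ↥(Subgroup.center S)) (hD : IsCoatom D)
    (hq : ∃ (_ : (D.map (Subgroup.center S).subtype).Normal),
      ¬ IsMulCommutative (S ⧸ D.map (Subgroup.center S).subtype) ∧
      ∃! x : S ⧸ D.map (Subgroup.center S).subtype, orderOf x = 2) :
    ∃ C : Subgroup S, C ≠ ⊥ ∧ IsCyclic ↥C ∧ C.Characteristic := by
  obtain ⟨hn, hna, hu⟩ := hq
  set N := D.map (Subgroup.center S).subtype with hN
  have hNc : N ≤ Subgroup.center S := Subgroup.map_subtype_le D
  obtain ⟨m, a, b, h⟩ := H85.exists_GQ_top (hS.to_quotient N) hna hu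
  obtain ⟨α, rfl⟩ := QuotientGroup.mk_surjective a
  obtain ⟨β, rfl⟩ := QuotientGroup.mk_surjective b
  have hle := H85.commutator_le_zpowers_of_GQ hNc h
  refine ⟨commutator S, ?_, ?_, inferInstance⟩
  · intro hb
    apply hna
    refine ⟨⟨fun x y => ?_⟩⟩
    obtain ⟨x, rfl⟩ := QuotientGroup.mk_surjective x
    obtain ⟨y, rfl⟩ := QuotientGroup.mk_surjective y
    have : x * y * x⁻¹ * y⁻¹ ∈ commutator S :=
      Subgroup.commutator_mem_commutator (Subgroup.mem_top x) (Subgroup.mem_top y)
    rw [hb, Subgroup.mem_bot] at this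
    have h2 : x * y = y * x := by
      calc x * y = (x * y * x⁻¹ * y⁻¹) * (y * x) := by group
        _ = y * x := by rw [this, one_mul]
    rw [← QuotientGroup.mk_mul, ← QuotientGroup.mk_mul, h2]
  · exact Subgroup.isCyclic_of_le hle

end Cfsg.Agent.S3202
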