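import Cfsg.Statements.S3208
import Cfsg.Agent.Base
import Cfsg.Agent.H17.SylowIn
import Cfsg.Agent.H2.Core
import Cfsg.Agent.H84.Isolated

set_option autoImplicit false
open Cfsg

namespace Cfsg.Agent.S3208

/-- Let j be an involution of a finite group G, H a subgroup of G, and T a Sylow 2-subgroup of H ∩ C_G(j) containing j such that ⟨j⟩ is a characteristic subgroup of T. Then T is a Sylow 2-subgroup of H. -/
theorem result {G : Type*} [Group G] [Finite G]
    (j : G) (hj : orderOf j = 2) (H T : Subgroup G) (hT : T ≤ H ⊓ Subgroup.centralizer ({j} : Set G)) (h2 : IsPGroup 2 ↥T)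
    (hSyl : ¬ 2 ∣ T.relIndex (H ⊓ Subgroup.centralizer ({j} : Set G))) (hjT : j ∈ T)
    (hchar : ((Subgroup.zpowers j).subgroupOf T).Characteristic) :
    ¬ 2 ∣ T.relIndex H := by
  classical
  have hS : H17.SylIn 2 T (H ⊓ Subgroup.centralizer ({j} : Set G)) := ⟨hT, h2, hSyl⟩
  refine (H17.sylIn_of_sylIn_normalizer (hS.mono
    (le_inf (hT.trans inf_le_left) Subgroup.le_normalizer) (inf_le_inf_left _ ?_))).2.2
  intro x hx
  have h1 := H2.normalizer_le_normalizer_map_subtype T ((Subgroup.zpowers j).subgroupOf T) hx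
  rw [Subgroup.subgroupOf_map_subtype, inf_of_le_left (Subgroup.zpowers_le.mpr hjT)] at h1
  have h3 := (Subgroup.mem_normalizer_iff.mp h1 j).mp (Subgroup.mem_zpowers j)
  have h4 : orderOf (x * j * x⁻¹) = 2 := by rw [H84.orderOf_conj', hj]
  rw [Subgroup.mem_centralizer_singleton_iff]
  rw [mem_zpowers_iff_mem_range_orderOf, hj] at h3
  obtain ⟨k, hk, hk2⟩ := Finset.mem_image.mp h3
  have hk' := Finset.mem_range.mp hk
  interval_cases k
  · rw [← hk2] at h4; simp at h4
  · rw [pow_one] at hk2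
    exact mul_inv_eq_iff_eq_mul.mp hk2.symm

end Cfsg.Agent.S3208
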