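import Cfsg.Statements.S3209
import Cfsg.Agent.H35.LCFus1

set_option autoImplicit false
open Cfsg

namespace Cfsg.Agent.S3209

/-- Let L₁ ≅ SL₂(q₁) and L₂ ≅ SL₂(q₂), q₁ and q₂ odd, be elementwise-commuting subgroups of a finite group meeting in ⟨j⟩ for an involution j. Then L₁L₂ has exactly two conjugacy classes of involutions: the central involution j, and one further class (there is an involution x ≠ j in L₁L₂, and every involution of L₁L₂ other than j is conjugate to x by an element of L₁L₂). -/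
theorem result {G : Type*} [Group G] [Finite G]
    {F₁ : Type*} [Field F₁] [Fintype F₁] {F₂ : Type*} [Field F₂] [Fintype F₂]
    (hF₁ : Odd (Fintype.card F₁)) (hF₂ : Odd (Fintype.card F₂)) (L₁ L₂ : Subgroup G)
    (e₁ : ↥L₁ ≃* Matrix.SpecialLinearGroup (Fin 2) F₁) (e₂ : ↥L₂ ≃* Matrix.SpecialLinearGroup (Fin 2) F₂)
    (hc : ∀ x ∈ L₁, ∀ y ∈ L₂, x * y = y * x) (j : G) (hj : orderOf j = 2) (hm : L₁ ⊓ L₂ = Subgroup.zpowers j) :
    ∃ x ∈ L₁ ⊔ L₂, orderOf x = 2 ∧ x ≠ j ∧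
      ∀ y ∈ L₁ ⊔ L₂, orderOf y = 2 → y = j ∨ ∃ g ∈ L₁ ⊔ L₂, g * x * g⁻¹ = y := by
  have P := H35.LCF.pr_of hF₁ hF₂ e₁ e₂ hc hj hm
  obtain ⟨a, ha, ha2⟩ := P.f₁.ex
  obtain ⟨b, hb, hb2⟩ := P.f₂.ex
  obtain ⟨h1, h2, h3⟩ := P.prod_inv ha hb ha2 hb2
  refine ⟨a * b, P.mem_sup.2 ⟨a, ha, b, hb, rfl⟩, H12.LC.ord_two h2 h1, h3, fun y hy hy2 => ?_⟩
  exact (P.inv_conj ha hb ha2 hb2 hy (H12.LC.mul_self_of_ord hy2)).resolve_left
    (H12.LC.ne_one_of_ord hy2)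

end Cfsg.Agent.S3209
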