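import Cfsg.Statements.S3210
import Cfsg.Agent.H35.LCFus1

set_option autoImplicit false
open Cfsg

namespace Cfsg.Agent.S3210

/-- Let G be a finite group with subgroups L₁ ≅ SL₂(q₁) and L₂ ≅ SL₂(q₂), q₁ and q₂ odd prime powers, which commute elementwise and meet in ⟨j⟩ for an involution j, and suppose L₁L₂ has index 2 in C_G(j). Then every element n of C_G(j) outside L₁L₂ either normalizes both L₁ and L₂, or conjugates L₁ onto L₂; in the second case q₁ = q₂ and there is an element n′ of C_G(j) outside L₁L₂ conjugating L₁ onto L₂ with n′² ∈ ⟨j⟩. -/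
theorem result {G : Type*} [Group G] [Finite G]
    {F₁ : Type*} [Field F₁] [Fintype F₁] {F₂ : Type*} [Field F₂] [Fintype F₂]
    (hF₁ : Odd (Fintype.card F₁)) (hF₂ : Odd (Fintype.card F₂)) (L₁ L₂ : Subgroup G)
    (e₁ : ↥L₁ ≃* Matrix.SpecialLinearGroup (Fin 2) F₁) (e₂ : ↥L₂ ≃* Matrix.SpecialLinearGroup (Fin 2) F₂)
    (hc : ∀ x ∈ L₁, ∀ y ∈ L₂, x * y = y * x) (j : G) (hj : orderOf j = 2) (hm : L₁ ⊓ L₂ = Subgroup.zpowers j)
    (hle : L₁ ⊔ L₂ ≤ Subgroup.centralizer ({j} : Set G)) (hi : (L₁ ⊔ L₂).relIndex (Subgroup.centralizer ({j} : Set G)) = 2) (n : G) (hn : n ∈ Subgroup.centralizer ({j} : Set G)) (hn' : n ∉ L₁ ⊔ L₂) :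
    (L₁.map (MulAut.conj n).toMonoidHom = L₁ ∧ L₂.map (MulAut.conj n).toMonoidHom = L₂) ∨
      (L₁.map (MulAut.conj n).toMonoidHom = L₂ ∧ Fintype.card F₁ = Fintype.card F₂ ∧
        ∃ n' ∈ Subgroup.centralizer ({j} : Set G), n' ∉ L₁ ⊔ L₂ ∧ L₁.map (MulAut.conj n').toMonoidHom = L₂ ∧ n' ^ 2 ∈ Subgroup.zpowers j) := by
  have P := H35.LCF.pr_of hF₁ hF₂ e₁ e₂ hc hj hm
  have hN : ((L₁ ⊔ L₂).subgroupOf (Subgroup.centralizer ({j} : Set G))).Normal :=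
    Subgroup.normal_of_index_eq_two hi
  have nrm : ∀ c ∈ Subgroup.centralizer ({j} : Set G), ∀ y ∈ L₁ ⊔ L₂, c * y * c⁻¹ ∈ L₁ ⊔ L₂ :=
    fun c hc y hy => Subgroup.mem_subgroupOf.1
      (hN.conj_mem ⟨y, hle hy⟩ (Subgroup.mem_subgroupOf.2 hy) ⟨c, hc⟩)
  rcases P.dich hn (nrm n hn) (fun y hy => by simpa using nrm n⁻¹ (Subgroup.inv_mem _ hn) y hy)
    with h | ⟨h1, h2⟩
  · exact Or.inl h
  · refine Or.inr ⟨h1, H35.LCF.card_eq_of_swap e₁ e₂ h1, ?_⟩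
    have h4 : n * n ∈ L₁ ⊔ L₂ := by
      have := H35.LCF.pow_idx_mem nrm hn
      rwa [hi, pow_two] at this
    obtain ⟨l, hl, h5, h6⟩ := P.fix_swap h1 h2 h4
    refine ⟨_, Subgroup.mul_mem _ hn (Subgroup.inv_mem _ (hle (Subgroup.mem_sup_left hl))), ?_,
      h5, h6⟩
    intro h7
    exact P.ne ((P.map_of_mem h7).symm.trans h5)

end Cfsg.Agent.S3210
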