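import Cfsg.Statements.S3213
import Cfsg.Agent.H68.Sp43

set_option autoImplicit false
open Cfsg

namespace Cfsg.Agent.S3213

/-- Let F be the field with 3 elements and K the field with 5 elements. For every injective homomorphism φ from SL₂(K) into the symplectic group Sp₄(F) (4 × 4 matrices g with g J gᵀ = J for the standard alternating matrix J) and every element x of order 3 of SL₂(K), the vectors of F⁴ fixed by φ(x) form a 2-dimensional subspace that is totally isotropic for the alternating form defined by J. -/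
theorem result {F : Type*} [Field F] [Fintype F] (hF : Fintype.card F = 3)
    {K : Type*} [Field K] [Fintype K] (hK : Fintype.card K = 5)
    (φ : Matrix.SpecialLinearGroup (Fin 2) K →* ↥(Matrix.symplecticGroup (Fin 2) F)) (hφ : Function.Injective φ)
    (x : Matrix.SpecialLinearGroup (Fin 2) K) (hx : orderOf x = 3) :
    Module.finrank F ↥(LinearMap.ker (Matrix.toLin' ((φ x : Matrix (Fin 2 ⊕ Fin 2) (Fin 2 ⊕ Fin 2) F)) - LinearMap.id)) = 2 ∧
      ∀ v w : Fin 2 ⊕ Fin 2 → F, (φ x : Matrix (Fin 2 ⊕ Fin 2) (Fin 2 ⊕ Fin 2) F).mulVec v = v →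
        (φ x : Matrix (Fin 2 ⊕ Fin 2) (Fin 2 ⊕ Fin 2) F).mulVec w = w →
          dotProduct v ((Matrix.J (Fin 2) F).mulVec w) = 0 := by
  obtain ⟨c, h1, h2⟩ := H68.Sp43.exists_five hK x hx
  let ψ := (Matrix.symplecticGroup (Fin 2) F).subtype.comp φ
  have inj : Function.Injective ψ := Subtype.val_injective.comp hφ
  refine H68.Sp43.main hF (h := ψ (c * x * c⁻¹)) (SymplecticGroup.mem_iff'.1 (φ x).2) ?_
    (ψ.toHomUnits c) (by rw [map_mul, map_mul, ← map_inv]; rfl) ?_ ?_
  · show ψ x ^ 3 = 1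
    rw [← map_pow, ← hx, pow_orderOf_eq_one, map_one]
  · show (ψ x * _ * (ψ x * _)) ^ 5 = 1
    rw [← map_mul, ← map_mul, ← map_pow, h1, map_one]
  · show ψ x * _ * (ψ x * _) ≠ 1
    rwa [← map_mul, ← map_mul, Ne, map_eq_one_iff ψ inj]

end Cfsg.Agent.S3213
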