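import Cfsg.Statements.S3215
import Cfsg.Agent.Base
import Cfsg.Agent.H1.Coprime2
import Cfsg.Agent.H2.MinNormal
import Cfsg.Agent.H5.FrobCompl

set_option autoImplicit false
open Cfsg

namespace Cfsg.Agent.S3215

open Subgroup

theorem quot_cyc {H C : Type*} [Group H] [Group C] [IsCyclic C] (f : H →* C) {K : Subgroup H}
    (h : f.ker ≤ K) : K.Normal ∧ ∀ _ : K.Normal, IsCyclic (H ⧸ K) := by
  refine ⟨?_, fun _ => ?_⟩
  · rw [← comap_map_eq_self h]
    have : IsMulCommutative C := inferInstance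
    exact Normal.comap ⟨fun n hn g => by rwa [mul_comm' g, mul_inv_cancel_right]⟩ f
  · have : IsCyclic (H ⧸ f.ker) := isCyclic_of_surjective _ (QuotientGroup.quotientKerEquivRange f).symm.surjective
    exact isCyclic_of_surjective (QuotientGroup.map f.ker K (MonoidHom.id H) h) fun q => by
      obtain ⟨x, rfl⟩ := QuotientGroup.mk_surjective q
      exact ⟨QuotientGroup.mk x, rfl⟩

theorem le_of_hall {Q : Type*} [Group Q] [Finite Q] {X N : Subgroup Q} [N.Normal] (hX : Odd (Nat.card X))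
    (hN : Odd (Nat.card N)) {k : ℕ} (hk : X.index ∣ 2 ^ k) : N ≤ X := by
  have a := (relIndex_dvd_index_of_le (le_sup_left : X ≤ X ⊔ N)).trans hk
  have b := (relIndex_dvd_card X (X ⊔ N)).trans (H2.card_sup_dvd_mul X N)
  have := Nat.eq_one_of_dvd_coprimes (Nat.Coprime.pow_left k (Nat.coprime_two_left.2 (hX.mul hN))) a b
  exact le_sup_right.trans (relIndex_eq_one.1 this)

theorem exists_inv {G : Type*} [Group G] [Finite G] {D : Subgroup G} (hD : IsPGroup 2 D) (h : D ≠ ⊥) :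
    ∃ t ∈ D, orderOf t = 2 := by
  obtain ⟨n, hn⟩ := IsPGroup.iff_card.1 hD
  obtain ⟨t, ht⟩ := exists_prime_orderOf_dvd_card' (G := D) 2 (by
    rw [hn]
    refine dvd_pow_self 2 fun e => h ?_
    rw [e, pow_zero] at hn
    exact card_eq_one.1 hn)
  exact ⟨t, t.2, by rw [← ht, orderOf_coe]⟩

section
variable {H : Type*} [Group H] [Finite H]
  (hI : ∀ t : H, orderOf t = 2 → Cfsg.HasNormalPComplement 2 ↥(Subgroup.centralizer ({t} : Set H)))
include hI

theorem step_a {t x y : H} (ht : orderOf t = 2) (hx : Odd (orderOf x)) (xt : x * t = t * x)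
    (hy : y ∈ pCore 2 H) (yt : y * t = t * y) : x * y = y * x := by
  obtain ⟨P, N, hn, hc⟩ := hI t ht
  have := H2.pCore_characteristic 2 H
  obtain ⟨k, hk⟩ := IsPGroup.iff_card.1 P.2
  have xN : (⟨x, mem_centralizer_singleton_iff.2 xt⟩ : centralizer ({t} : Set H)) ∈ N := by
    refine zpowers_le.2 (N.pow_index_mem _) (mem_zpowers_pow_iff.2 ?_)
    rw [hc.symm.index_eq_card, hk, ← orderOf_coe]
    exact Nat.Coprime.pow_left k (Nat.coprime_two_left.2 hx)
  have nN : (Nat.card N).Coprime 2 := by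
    rw [← hc.index_eq_card]
    exact ((Nat.Prime.coprime_iff_not_dvd Nat.prime_two).2 P.not_dvd_index).symm
  have := H2.le_centralizer_of_disjoint_normal (H2.disjoint_of_isPGroup_of_coprime
    ((H2.pCore_isPGroup 2 H).comap_subtype (K := centralizer ({t} : Set H))) nN)
    (show (⟨y, mem_centralizer_singleton_iff.2 yt⟩ : centralizer ({t} : Set H)) ∈ _ from hy)
  exact congrArg Subtype.val (mem_centralizer_iff.1 this _ xN)

variable (hC : centralizer (pCore 2 H : Set H) ≤ pCore 2 H)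
include hC

theorem step_b {x y : H} (hx : Odd (orderOf x)) (x1 : x ≠ 1) (hy : y ∈ pCore 2 H) (xy : x * y = y * x) :
    y = 1 := by
  by_contra y1
  have := H2.pCore_characteristic 2 H
  have hY := H2.pCore_isPGroup 2 H
  have hD : IsPGroup 2 (pCore 2 H ⊓ centralizer (zpowers x : Set H) : Subgroup H) := hY.to_inf_left
  have mc : ∀ w, w ∈ centralizer (zpowers x : Set H) ↔ x * w = w * x := fun w =>
    ⟨fun h => mem_centralizer_iff.1 h x (mem_zpowers x), fun h => mem_centralizer_iff.2 (by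
      rintro _ ⟨k, rfl⟩
      exact (Commute.zpow_left h k).eq)⟩
  obtain ⟨t, ⟨tY, tx⟩, ht⟩ := exists_inv hD fun e => y1 (by
    have : y ∈ pCore 2 H ⊓ centralizer (zpowers x : Set H) := ⟨hy, (mc y).2 xy⟩
    rwa [e] at this)
  have c : (Nat.card (zpowers x)).Coprime 2 := by rw [Nat.card_zpowers]; exact Nat.coprime_two_right.2 hx
  have := H1.thompson_pq hD c inf_le_right _ (pCore 2 H) rfl hY le_normalizer_of_normal le_normalizer_of_normal
    fun w hw => (mc w).2 (step_a hI ht hx ((mc t).1 tx) hw.1 (mem_centralizer_iff.1 hw.2 t ⟨tY, tx⟩).symm)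
  exact x1 (disjoint_def.1 (H2.disjoint_of_isPGroup_of_coprime hY c)
    (hC (this (mem_zpowers x))) (mem_zpowers x))

theorem step_c (hY : pCore 2 H ≠ ⊥) {x w : H} (hx : Odd (orderOf x)) (x1 : x ≠ 1) (xw : x * w = w * x) :
    Odd (orderOf w) := by
  rw [← Nat.not_even_iff_odd]
  intro he
  have ht : orderOf (w ^ (orderOf w / 2)) = 2 := orderOf_pow_orderOf_div (orderOf_pos w).ne' he.two_dvd
  have := H2.pCore_characteristic 2 H
  have hK : IsPGroup 2 (pCore 2 H ⊔ zpowers (w ^ (orderOf w / 2)) : Subgroup H) :=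
    (H2.pCore_isPGroup 2 H).to_sup_of_normal_left
      (IsPGroup.of_card (n := 1) (by rw [Nat.card_zpowers, ht, pow_one]))
  have := hK.isNilpotent
  obtain ⟨⟨y, ⟨hy, hy'⟩, yc⟩, y1⟩ := ne_bot_iff_exists_ne_one.1 (H2.inf_inf_centralizer_ne_bot
    (N := pCore 2 H) (K := pCore 2 H ⊔ zpowers (w ^ (orderOf w / 2))) le_normalizer_of_normal
    (by rwa [inf_eq_left.2 le_sup_left]))
  exact y1 (Subtype.ext (step_b hI hC hx x1 hy (step_a hI ht hx (Commute.pow_right xw _).eq hy
    (mem_centralizer_iff.1 yc _ (mem_sup_right (mem_zpowers _))).symm)))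

end

/-- Let H be a finite solvable group with no nontrivial normal subgroup of odd order in which the centralizer of every involution has a normal 2-complement. Let X be a Hall 2'-subgroup of H (odd order, index a power of 2) and Y = O₂(H). Then no non-identity element of X commutes with a non-identity element of Y (so for X ≠ 1 the group XY is a Frobenius group with kernel Y), every Sylow subgroup of X is cyclic, XY is normal in H, and H/XY is a cyclic 2-group. -/
theorem result {H : Type*} [Group H] [Finite H] (hsol : Group.IsSolvable H)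
    (hO : Cfsg.oddCore H = ⊥)
    (hI : ∀ t : H, orderOf t = 2 → Cfsg.HasNormalPComplement 2 ↥(Subgroup.centralizer ({t} : Set H)))
    (X : Subgroup H) (hXodd : Odd (Nat.card X)) (hXidx : ∃ k : ℕ, X.index = 2 ^ k) :
    (∀ x ∈ X, x ≠ 1 → ∀ y ∈ Cfsg.pCore 2 H, y ≠ 1 → x * y ≠ y * x) ∧
      (∀ (p : ℕ) [Fact p.Prime] (P : Sylow p ↥X), IsCyclic ↥(P : Subgroup ↥X)) ∧
      (X ⊔ Cfsg.pCore 2 H).Normal ∧
      ∀ hN : (X ⊔ Cfsg.pCore 2 H).Normal, IsCyclic (H ⧸ (X ⊔ Cfsg.pCore 2 H)) ∧ IsPGroup 2 (H ⧸ (X ⊔ Cfsg.pCore 2 H)) := by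
  have hC := H2.centralizer_pCore_le (G := H) (p := 2) hO
  have := H2.pCore_characteristic 2 H
  have hY2 := H2.pCore_isPGroup 2 H
  have odd : ∀ x ∈ X, Odd (orderOf x) := fun x hx => hXodd.of_dvd_nat (X.orderOf_dvd_natCard hx)
  obtain ⟨k, hk⟩ := hXidx
  have fin : ∀ {C : Type _} [Group C] [IsCyclic C] (f : H →* C), f.ker ≤ X ⊔ pCore 2 H →
      (X ⊔ Cfsg.pCore 2 H).Normal ∧ ∀ hN : (X ⊔ Cfsg.pCore 2 H).Normal,
        IsCyclic (H ⧸ (X ⊔ Cfsg.pCore 2 H)) ∧ IsPGroup 2 (H ⧸ (X ⊔ Cfsg.pCore 2 H)) := fun f hf => by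
    refine ⟨(quot_cyc f hf).1, fun hN => ⟨(quot_cyc f hf).2 hN, ?_⟩⟩
    obtain ⟨j, -, hj⟩ := (Nat.dvd_prime_pow Nat.prime_two).1
      (hk ▸ index_dvd_of_le (le_sup_left : X ≤ X ⊔ pCore 2 H))
    exact IsPGroup.of_card hj
  refine ⟨fun x hx x1 y hy y1 e => y1 (step_b hI hC (odd x hx) x1 hy e), ?_⟩
  by_cases hY : pCore 2 H = ⊥
  · have : Subsingleton H := ⟨fun a b => by
      have : ∀ c : H, c = 1 := fun c => mem_bot.1 (hY ▸ hC (by rw [hY]; simp [mem_centralizer_iff]))
      rw [this a, this b]⟩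
    exact ⟨fun p _ P => inferInstance, fin (MonoidHom.id H) fun x _ => Subsingleton.elim 1 x ▸ one_mem _⟩
  have fpf : ∀ A : Subgroup H, Odd (Nat.card A) → ∀ h ∈ A, h ≠ 1 → pCore 2 H ⊓ centralizer {h} = ⊥ :=
    fun A hA h hh h1 => eq_bot_iff.2 fun y hy => step_b hI hC (hA.of_dvd_nat (A.orderOf_dvd_natCard hh)) h1
      hy.1 (mem_centralizer_singleton_iff.1 hy.2).symm
  refine ⟨fun p hp P => (H5.isZGroup_of_fpf_of_odd hY le_normalizer_of_normal (fpf X hXodd) hXodd).1 p hp.out P, ?_⟩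
  let π := QuotientGroup.mk' (pCore 2 H)
  have hπ : Function.Surjective π := QuotientGroup.mk'_surjective _
  by_cases hT : (⊤ : Subgroup (H ⧸ pCore 2 H)) = ⊥
  · refine fin (1 : H →* (⊥ : Subgroup H)) fun x _ => mem_sup_right ?_
    exact (QuotientGroup.eq_one_iff x).1 (mem_bot.1 (hT ▸ mem_top _))
  obtain ⟨r, M, hr, hMn, -, hM, hea, hMr, -⟩ := H2.exists_elementaryAbelian_normal_le ⊤ hT
  have : Fact r.Prime := ⟨hr⟩
  have r2 : r ≠ 2 := by
    rintro rfl
    exact hM (le_bot_iff.1 (H2.pCore_quotient_pCore 2 H ▸ H2.le_pCore hMr))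
  obtain ⟨R⟩ : Nonempty (Sylow r (M.comap π)) := inferInstance
  have hf := π.subgroupComap_surjective_of_surjective M hπ
  have hR : (R : Subgroup (M.comap π)).map (π.subgroupComap M) = ⊤ :=
    ((R.mapSurjective hf).is_maximal' (hMr.to_subgroup ⊤) le_top).symm
  have hR' := R.2.map (M.comap π).subtype
  have oR : Odd (Nat.card ((R : Subgroup (M.comap π)).map (M.comap π).subtype)) := by
    obtain ⟨n, hn⟩ := IsPGroup.iff_card.1 hR'
    rw [hn]; exact (hr.odd_of_ne_two r2).pow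
  obtain ⟨⟨ρ, hρ⟩, gen⟩ := ((H5.isCyclic_or_quaternion_of_fpf hY le_normalizer_of_normal (fpf _ oR)
    hR').resolve_right fun h => r2 h.1).exists_generator
  have hρM : π ρ ∈ M := by
    obtain ⟨a, -, rfl⟩ := hρ
    exact a.2
  have genM : ∀ m ∈ M, m ∈ zpowers (π ρ) := fun m hm => by
    obtain ⟨a, ha, e⟩ : (⟨m, hm⟩ : M) ∈ (R : Subgroup (M.comap π)).map (π.subgroupComap M) := hR ▸ mem_top _
    obtain ⟨j, hj⟩ := gen ⟨a, a, ha, rfl⟩
    exact ⟨j, by
      have := congrArg (fun x => π x.1) hj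
      simp only [SubgroupClass.coe_zpow, map_zpow] at this
      exact this.trans (congrArg Subtype.val e)⟩
  have ρ1 : π ρ ≠ 1 := fun e => hM (eq_bot_iff.2 fun m hm => by simpa [e] using genM m hm)
  have cM : Nat.card M = r := by
    rw [show M = zpowers (π ρ) from le_antisymm genM (zpowers_le.2 hρM), Nat.card_zpowers]
    exact orderOf_eq_prime (hea.2 _ hρM) ρ1
  have : IsCyclic M := isCyclic_of_prime_card cM
  have : IsCyclic (MulAut M) := by
    have : IsCyclic (ZMod (Nat.card M))ˣ := cM ▸ ZMod.isCyclic_units_prime hr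
    exact isCyclic_of_surjective _ (IsCyclic.mulAutMulEquiv M).symm.surjective
  have oρ : Odd (orderOf ρ) := oR.of_dvd_nat (Subgroup.orderOf_dvd_natCard _ hρ)
  let φ : H ⧸ pCore 2 H →* MulAut M := MulAut.conjNormal
  have oK : Odd (Nat.card φ.ker) := by
    rw [← Nat.not_even_iff_odd]
    intro he
    obtain ⟨⟨q, hq⟩, o2⟩ := exists_prime_orderOf_dvd_card' (G := φ.ker) 2 he.two_dvd
    obtain ⟨m, rfl⟩ := hπ q
    have c : π m * π ρ * (π m)⁻¹ = π ρ :=
      congrArg (fun a : MulAut M => (a ⟨π ρ, hρM⟩).1) (show φ (π m) = 1 from hq)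
    obtain ⟨n, hn, e⟩ := H1.exists_centralizer_mem_coset (A := zpowers ρ) (N := pCore 2 H)
      le_normalizer_of_normal (H1.coprime_card_of_isPGroup hY2
        (by rw [Nat.card_zpowers]; exact Nat.coprime_two_right.2 oρ)) (.inl inferInstance) m (by
        rintro _ ⟨j, rfl⟩
        refine (QuotientGroup.eq_one_iff _).1 (show π _ = 1 from ?_)
        simp only [map_mul, map_inv, map_zpow]
        rw [(Commute.zpow_left (show Commute (π ρ) (π m) from (mul_inv_eq_iff_eq_mul.1 c).symm) j).eq]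
        group)
    have := (step_c hI hC hY oρ (fun e => ρ1 (by rw [e, map_one]))
      (mem_centralizer_iff.1 e ρ (mem_zpowers ρ))).of_dvd_nat (orderOf_map_dvd π _)
    rw [map_mul, show π n = 1 from (QuotientGroup.eq_one_iff n).2 hn, mul_one,
      (orderOf_coe (⟨π m, hq⟩ : φ.ker)).trans o2] at this
    exact absurd this (by decide)
  have le := le_of_hall (hXodd.of_dvd_nat (card_map_dvd X π)) oK (hk ▸ index_map_dvd X hπ)
  refine fin (φ.comp π) fun x hx => ?_
  have : x ∈ (X.map π).comap π := le hx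
  rwa [comap_map_eq, QuotientGroup.ker_mk'] at this

end Cfsg.Agent.S3215
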