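import Cfsg.Statements.S3231
import Cfsg.Agent.Base
import Cfsg.Agent.H59.U6G

set_option autoImplicit false
open Cfsg

namespace Cfsg.Agent.S3231

/-- Let G be a finite group with an involution z, H = C_G(z), such that J = O₂(H) is extraspecial of order 2⁹ with C_H(J) ≤ J and H/J ≅ Aut(PSp₄(3)). Then either G has a subgroup G₀ of index 2 with G₀ ≅ U₆(2) and C_G(G₀) = 1 (so that G embeds in Aut(G₀)), or G = H·O(G). -/
theorem result {G : Type*} [Group G] [Finite G] (z : G) (hz : orderOf z = 2)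
    {F : Type*} [Field F] [Fintype F] (hF : Fintype.card F = 3) {K : Type*} [Field K] [Fintype K] (hK : Fintype.card K = 4)
    (hJ : Cfsg.IsExtraspecial 2 ↥(Cfsg.pCore 2 ↥(Subgroup.centralizer ({z} : Set G)))) (hJc : Nat.card ↥(Cfsg.pCore 2 ↥(Subgroup.centralizer ({z} : Set G))) = 2 ^ 9)
    (hCJ : Subgroup.centralizer ((Cfsg.pCore 2 ↥(Subgroup.centralizer ({z} : Set G))) : Set ↥(Subgroup.centralizer ({z} : Set G))) ≤ Cfsg.pCore 2 ↥(Subgroup.centralizer ({z} : Set G))) [hJn : (Cfsg.pCore 2 ↥(Subgroup.centralizer ({z} : Set G))).Normal]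
    (e : (↥(Subgroup.centralizer ({z} : Set G)) ⧸ Cfsg.pCore 2 ↥(Subgroup.centralizer ({z} : Set G))) ≃* MulAut (Cfsg.PSp 2 F)) :
    (∃ G₀ : Subgroup G, G₀.index = 2 ∧ Nonempty (↥G₀ ≃* Cfsg.PSU 6 K 2) ∧ Subgroup.centralizer (G₀ : Set G) = ⊥) ∨
      Subgroup.centralizer ({z} : Set G) ⊔ Cfsg.oddCore G = ⊤ := by
  refine or_iff_not_imp_right.mpr fun hne => ?_
  obtain ⟨ψ⟩ := H59.U6.exists_equivA hF
  obtain ⟨y, hy, ok, hc⟩ := H59.U6.main hz hJ hJc hCJ (Or.inr rfl) (e.trans ψ) hne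
  obtain ⟨φ⟩ := ok.equiv_PSU hy hK
  refine ⟨_, ?_, ⟨φ⟩, ok.cent_eq_bot hy⟩
  have := (Subgroup.closure (conjugatesOf z)).card_mul_index
  rw [Nat.card_congr φ.toEquiv, H59.U6.card_PSU6 hK, hc, H59.U6.cardWM] at this
  omega

end Cfsg.Agent.S3231
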