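import Cfsg.Statements.S3246
import Cfsg.Agent.H52.LocA

set_option autoImplicit false
open Cfsg

namespace Cfsg.Agent.S3246

/-- Let G be a finite group whose Sylow 2-subgroup S has a self-centralizing normal subgroup of rank at least 3. Suppose that either every maximal 2-local subgroup of G is 2-constrained with no nontrivial normal subgroup of odd order, or the centralizer of every involution of G is 2-constrained with no nontrivial normal subgroup of odd order. Then S normalizes no nontrivial subgroup of G of odd order and every 2-local subgroup of G is 2-constrained. -/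
theorem result {G : Type*} [Group G] [Finite G]
    (S : Sylow 2 G) (A : Subgroup G) (hA : Cfsg.IsSCN (S : Subgroup G) A) (hA3 : ¬ Cfsg.PRankLE 2 2 ↥A)
    (h : (∀ M : Subgroup G, Cfsg.IsMaximalTwoLocal M → Cfsg.IsPConstrained 2 ↥M ∧ Cfsg.oddCore ↥M = ⊥) ∨
      (∀ t : G, orderOf t = 2 → Cfsg.IsPConstrained 2 ↥(Subgroup.centralizer ({t} : Set G)) ∧
        Cfsg.oddCore ↥(Subgroup.centralizer ({t} : Set G)) = ⊥)) :
    (∀ X : Subgroup G, Odd (Nat.card ↥X) → (S : Subgroup G) ≤ Subgroup.normalizer (X : Set G) → X = ⊥) ∧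
      (∀ T : Subgroup G, IsPGroup 2 ↥T → T ≠ ⊥ → Cfsg.IsPConstrained 2 ↥(Subgroup.normalizer (T : Set G))) := by
  have key : ∀ T : Subgroup G, IsPGroup 2 ↥T → T ≠ ⊥ →
      H98.CharP 2 (Subgroup.normalizer (T : Set G)) := by
    intro T hT h1
    rcases h with h | h
    · obtain ⟨M, hM, hle, hmax⟩ := H52.Loc.exists_maximal_above Cfsg.IsTwoLocal
        (H := Subgroup.normalizer (T : Set G)) ⟨T, hT, h1, rfl⟩
      obtain ⟨a, b⟩ := h M ⟨hM, hmax⟩
      have := (H52.Loc.charP_of_pcon a b).inf_normalizer hT (Subgroup.le_normalizer.trans hle)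
      rwa [inf_eq_right.2 hle] at this
    · obtain ⟨z, hz, o⟩ := H52.Loc.exists_order_p hT h1
      exact H52.Loc.charP_nor_of_cen hT hz (H52.Loc.charP_of_pcon (h z o).1 (h z o).2)
  refine ⟨fun X ho hn => ?_, fun T hT h1 => H52.Loc.pcon_of_charP (key T hT h1)⟩
  simp only [Cfsg.PRankLE, not_forall, not_le] at hA3
  obtain ⟨E, -, hE, h4⟩ := hA3
  have hE2 : H85.E2 (E.map A.subtype) := (H85.e2_iff_sq.2 hE).map _
  have hc : Nat.card (E.map A.subtype) = Nat.card E :=
    Subgroup.card_map_of_injective A.subtype_injective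
  refine H52.Loc.no_odd_signalizer (H98.isSyl_sylow S) hE2
    ((Subgroup.map_subtype_le _).trans hA.1) ?_ (fun t o => ?_) ho hn
  · obtain ⟨n, hn⟩ := hE2.exists_card
    rw [← hc, hn] at h4
    rw [hn]
    exact Nat.pow_le_pow_right (n := 2) (i := 3) (by norm_num)
      ((Nat.pow_lt_pow_iff_right (by norm_num)).1 h4)
  · have hP := H52.Loc.pgroup_zpowers o
    have h1 : Subgroup.zpowers t ≠ ⊥ := by
      rw [Ne, Subgroup.zpowers_eq_bot]
      rintro rfl
      simp at o
    have := key _ hP h1
    rwa [H14.charP_normalizer_iff hP, H52.Loc.cen_zpowers] at this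

end Cfsg.Agent.S3246
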