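import Cfsg.Statements.S3266
import Cfsg.Agent.Base
import Cfsg.Agent.H61.SL2Lift
import Cfsg.Agent.H83.InvPair

set_option autoImplicit false
open Cfsg

namespace Cfsg.Agent.S3266

open scoped MatrixGroups
open H61

section grp
variable {G : Type*} [Group G] [Finite G]

theorem graph_of (t : G) (ht : orderOf t = 2)
    (hA : ∀ x y : G, orderOf x = 2 → orderOf y = 2 →
      ∃ z : G, orderOf z = 2 ∧ Odd (orderOf (x * z)) ∧ Odd (orderOf (z * y)))
    (hB : ∃ x y : G, orderOf x = 2 ∧ orderOf y = 2 ∧ orderOf (x * y) = 2) :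
    (SimpleGraph.fromRel fun x y : {x : G // IsConj t x} => Odd (orderOf (x.1 * y.1))).Connected ∧
      (SimpleGraph.fromRel fun x y : {x : G // IsConj t x} =>
        Odd (orderOf (x.1 * y.1))).diam = 2 := by
  have sq : ∀ x : G, orderOf x = 2 → x * x = 1 := fun x hx => by
    rw [← sq, ← hx, pow_orderOf_eq_one]
  have cj : ∀ x y : G, orderOf x = 2 → orderOf y = 2 → Odd (orderOf (x * y)) → IsConj x y :=
    fun x y hx hy h => H83.isConj_of_odd_orderOf_mul (sq x hx) (sq y hy) h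
  have cj' : ∀ x : G, orderOf x = 2 → IsConj t x := fun x hx => by
    obtain ⟨z, hz, h1, h2⟩ := hA t x ht hx
    exact (cj _ _ ht hz h1).trans (cj _ _ hz hx h2)
  have o2 : ∀ x : {x : G // IsConj t x}, orderOf x.1 = 2 := fun x => by
    obtain ⟨c, hc⟩ := isConj_iff.1 x.2
    rw [← hc, ← MulAut.conj_apply, MulEquiv.orderOf_eq, ht]
  set Γ := SimpleGraph.fromRel fun x y : {x : G // IsConj t x} => Odd (orderOf (x.1 * y.1))
  have one : ∀ x y : {x : G // IsConj t x}, Odd (orderOf (x.1 * y.1)) → Γ.edist x y ≤ 1 := by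
    intro x y h
    by_cases hxy : x = y
    · simp [hxy]
    · exact (SimpleGraph.edist_eq_one_iff_adj.2
        ((SimpleGraph.fromRel_adj _ _ _).2 ⟨hxy, .inl h⟩)).le
  have two : ∀ x y, Γ.edist x y ≤ 2 := by
    intro x y
    obtain ⟨z, hz, h1, h2⟩ := hA x.1 y.1 (o2 x) (o2 y)
    refine (Γ.edist_triangle (v := ⟨z, cj' z hz⟩)).trans ?_
    rw [← one_add_one_eq_two]
    exact add_le_add (one _ _ h1) (one _ _ h2)
  obtain ⟨x, y, hx, hy, hxy⟩ := hB
  have h2 : 2 ≤ Γ.edist ⟨x, cj' x hx⟩ ⟨y, cj' y hy⟩ := by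
    by_contra h
    have h3 : Γ.edist ⟨x, cj' x hx⟩ ⟨y, cj' y hy⟩ ≤ 1 := by
      rw [not_le, ← one_add_one_eq_two] at h
      exact Order.le_of_lt_add_one h
    rcases SimpleGraph.edist_le_one_iff_adj_or_eq.1 h3 with h4 | h4
    · obtain ⟨-, h5 | h5⟩ := (SimpleGraph.fromRel_adj _ _ _).1 h4
      · rw [hxy] at h5; exact absurd h5 (by decide)
      · have : orderOf (y * x) = 2 := by
          rw [← hxy, show y * x = x⁻¹ * (x * y) * x⁻¹⁻¹ by group, ← MulAut.conj_apply,
            MulEquiv.orderOf_eq]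
        rw [this] at h5; exact absurd h5 (by decide)
    · obtain rfl : x = y := congrArg Subtype.val h4
      rw [sq x hx, orderOf_one] at hxy
      omega
  have he : Γ.ediam = 2 := le_antisymm (SimpleGraph.ediam_le_of_edist_le two)
    (h2.trans SimpleGraph.edist_le_ediam)
  have : Nonempty {x : G // IsConj t x} := ⟨⟨t, IsConj.refl t⟩⟩
  refine ⟨SimpleGraph.connected_of_ediam_ne_top (by rw [he]; decide), ?_⟩
  rw [SimpleGraph.diam, he]
  rfl

end grp

variable {F : Type*} [Field F]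

theorem ord_two {g : SL(2, F)} (h : tr g = 0) (h1 : proj F g ≠ 1) : orderOf (proj F g) = 2 :=
  orderOf_eq_prime (by rw [sq]; exact psl_mul_self_eq_one_iff.2 (.inr h)) h1

theorem ne_one_of_tr (h2 : (2 : F) ≠ 0) {g : SL(2, F)} (h : tr g = 0) : proj F g ≠ 1 := by
  intro h1
  rcases proj_eq_one_iff.1 h1 with rfl | rfl
  · exact h2 (by simpa using h)
  · exact h2 (by simpa using h)

theorem lift_inv {x : PSL(2, F)} (hx : orderOf x = 2) :
    ∃ g : SL(2, F), proj F g = x ∧ tr g = 0 := by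
  obtain ⟨g, rfl⟩ := proj_surjective x
  refine ⟨g, rfl, (psl_mul_self_eq_one_iff.1 ?_).resolve_left ?_⟩
  · have := pow_orderOf_eq_one (proj F g)
    rwa [hx, sq] at this
  · intro h
    have h' : proj F g = 1 := h
    rw [h', orderOf_one] at hx
    omega

/-- elements of trace `s` have odd order modulo the centre -/
def Good (s : F) : Prop := ∀ g : SL(2, F), tr g = s → Odd (orderOf (proj F g))

theorem Good.neg {s : F} (h : Good s) : Good (-s) := fun g hg => by
  have := h (-g) (by rw [tr_neg, hg, neg_neg])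
  rwa [show proj F (-g) = proj F g from psl_mk_neg g] at this

theorem pow_mul_sub (g : SL(2, F)) {l m : F} (hlm : l * m = 1) (h : tr g = l + m) (n : ℕ) :
    (g : Matrix (Fin 2) (Fin 2) F) ^ n * ((g : Matrix (Fin 2) (Fin 2) F) - m • 1) =
      l ^ n • ((g : Matrix (Fin 2) (Fin 2) F) - m • 1) := by
  have h1 : (g : Matrix (Fin 2) (Fin 2) F) * ((g : Matrix (Fin 2) (Fin 2) F) - m • 1) =
      l • ((g : Matrix (Fin 2) (Fin 2) F) - m • 1) := by
    have h2 := sl_mul_self g
    rw [Matrix.SpecialLinearGroup.coe_mul, h] at h2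
    rw [mul_sub, h2, smul_sub, smul_smul, hlm, one_smul, Matrix.mul_smul, mul_one, add_smul]
    abel
  induction n with
  | zero => simp
  | succ n ih => rw [pow_succ, mul_assoc, h1, Matrix.mul_smul, ih, smul_smul, pow_succ']

theorem good_two [Finite F] (h2 : (2 : F) ≠ 0) : Good (2 : F) := by
  intro g hg
  have := Fintype.ofFinite F
  obtain ⟨p, hc, n, hp, -⟩ := FiniteField.card' F
  have := Fact.mk hp
  have h1 : ∀ k : ℕ, (g : Matrix (Fin 2) (Fin 2) F) ^ k =
      1 + (k : F) • ((g : Matrix (Fin 2) (Fin 2) F) - (1 : F) • 1) := by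
    intro k
    induction k with
    | zero => simp
    | succ k ih =>
      have h3 := pow_mul_sub g (l := 1) (m := 1) (one_mul 1) (by rw [hg]; norm_num) k
      rw [one_pow, one_smul F (_ - _), mul_sub, one_smul, mul_one] at h3
      rw [pow_succ, sub_eq_iff_eq_add.1 h3, ih, one_smul, Nat.cast_succ, add_smul, one_smul]
      abel
  have h3 : g ^ p = 1 := Subtype.ext (by
    rw [Matrix.SpecialLinearGroup.coe_pow, h1, CharP.cast_eq_zero, zero_smul, add_zero]; rfl)
  exact (hp.odd_of_ne_two (char_ne_two_iff.2 h2)).of_dvd_nat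
    ((orderOf_proj_dvd g).trans (orderOf_dvd_of_pow_eq_one h3))

theorem good_split [Fintype F] (h : Fintype.card F % 4 = 3) (h2 : (2 : F) ≠ 0) {l : F}
    (hl : l ≠ 0) : Good (l + l⁻¹) := by
  by_cases h1 : l = l⁻¹
  · have h3 : l * l = 1 := by nth_rewrite 2 [h1]; exact mul_inv_cancel₀ hl
    rcases mul_self_eq_one_iff.1 h3 with rfl | rfl
    · rw [inv_one, one_add_one_eq_two]; exact good_two h2
    · rw [inv_neg, inv_one, ← neg_add, one_add_one_eq_two]; exact (good_two h2).neg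
  intro g hg
  set n := Fintype.card F / 2 with hn
  have hno : Odd n := by rw [Nat.odd_iff]; omega
  have h3 : l ^ n * l ^ n = 1 := by
    rw [← pow_add, show n + n = Fintype.card F - 1 by omega]
    exact FiniteField.pow_card_sub_one_eq_one l hl
  have h4 : l⁻¹ ^ n = l ^ n := by rw [inv_pow]; exact inv_eq_of_mul_eq_one_right h3
  have h5 := pow_mul_sub g (mul_inv_cancel₀ hl) hg n
  have h6 := pow_mul_sub g (inv_mul_cancel₀ hl) (hg.trans (add_comm _ _)) n
  rw [h4] at h6
  have h7 : (l - l⁻¹) • ((g ^ n : SL(2, F)) : Matrix (Fin 2) (Fin 2) F) =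
      (l ^ n * (l - l⁻¹)) • 1 := by
    have h8 := congrArg₂ (· - ·) h5 h6
    simp only [← mul_sub, ← smul_sub, sub_sub_sub_cancel_left, ← sub_smul] at h8
    rw [Matrix.mul_smul, mul_one, smul_smul] at h8
    rw [Matrix.SpecialLinearGroup.coe_pow, h8]
  have h9 := proj_eq_one_iff.2 (sl_eq_of_smul_eq (sub_ne_zero.2 h1) h7)
  rw [map_pow] at h9
  exact hno.of_dvd_nat (orderOf_dvd_of_pow_eq_one h9)

theorem exists_third {X Y : SL(2, F)} (hX : tr X = 0) (hY : tr Y = 0) {c s t d : F}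
    (hc : tr (X * Y) = c) (hD : 4 - c ^ 2 ≠ 0) (hd : d ^ 2 = 4 - c ^ 2 - s ^ 2 - t ^ 2 - c * s * t) :
    ∃ Z : SL(2, F), tr Z = 0 ∧ tr (X * Z) = s ∧ tr (Z * Y) = t := by
  have h1 := sl_det X
  have h2 := sl_det Y
  have hX' : X 1 1 = - X 0 0 := by rw [tr] at hX; linear_combination hX
  have hY' : Y 1 1 = - Y 0 0 := by rw [tr] at hY; linear_combination hY
  rw [tr, sl_mul_apply, sl_mul_apply, hX', hY'] at hc
  rw [hX'] at h1
  rw [hY'] at h2
  obtain ⟨a, ha⟩ : ∃ a, a * (4 - c ^ 2) = -2 * s - c * t := ⟨_, div_mul_cancel₀ _ hD⟩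
  obtain ⟨b, hb⟩ : ∃ b, b * (4 - c ^ 2) = -c * s - 2 * t := ⟨_, div_mul_cancel₀ _ hD⟩
  obtain ⟨e, he⟩ : ∃ e, e * (4 - c ^ 2) = d := ⟨_, div_mul_cancel₀ _ hD⟩
  have hs : -2 * a + b * c = s := mul_right_cancel₀ hD (by linear_combination -2 * ha + c * hb)
  have ht : a * c - 2 * b = t := mul_right_cancel₀ hD (by linear_combination c * ha - 2 * hb)
  have hdet : a ^ 2 + b ^ 2 - a * b * c + e ^ 2 * (4 - c ^ 2) = 1 := by
    apply mul_right_cancel₀ hD
    rw [← he, ← hs, ← ht] at hd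
    linear_combination hd
  have key : ∀ x0 x1 x2 y0 y1 y2 : F, x0 * -x0 - x1 * x2 = 1 → y0 * -y0 - y1 * y2 = 1 →
      x0 * y0 + x1 * y2 + (x2 * y1 + -x0 * -y0) = c →
      (a * x0 + b * y0 + e * (x1 * y2 - y1 * x2)) * -(a * x0 + b * y0 + e * (x1 * y2 - y1 * x2)) -
        (a * x1 + b * y1 + e * (2 * (x0 * y1 - x1 * y0))) *
          (a * x2 + b * y2 + e * (2 * (x2 * y0 - x0 * y2))) = 1 := by
    intro x0 x1 x2 y0 y1 y2 h1 h2 hc
    subst hc
    linear_combination hdet + (a ^ 2 + 4 * e ^ 2 * (y0 * -y0 - y1 * y2)) * h1 +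
      (b ^ 2 + 4 * e ^ 2) * h2
  refine ⟨sl2 _ _ _ _ (key _ _ _ _ _ _ h1 h2 hc), by simp, ?_, ?_⟩
  · rw [tr, sl_mul_apply, sl_mul_apply, hX']
    simp only [sl2_coe, Matrix.of_apply, Matrix.cons_val', Matrix.cons_val_zero,
      Matrix.cons_val_one, Matrix.cons_val_fin_one]
    linear_combination hs + b * hc - 2 * a * h1
  · rw [tr, sl_mul_apply, sl_mul_apply, hY']
    simp only [sl2_coe, Matrix.of_apply, Matrix.cons_val', Matrix.cons_val_zero,
      Matrix.cons_val_one, Matrix.cons_val_fin_one]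
    linear_combination ht + a * hc - 2 * b * h2

theorem sq_or [Fintype F] (h : ¬ IsSquare (-1 : F)) (a : F) : IsSquare a ∨ IsSquare (-a) := by
  classical
  by_contra h1
  rw [not_or, ← quadraticChar_neg_one_iff_not_isSquare,
    ← quadraticChar_neg_one_iff_not_isSquare, neg_eq_neg_one_mul a, map_mul,
    quadraticChar_neg_one_iff_not_isSquare.2 h] at h1
  rw [h1.1] at h1
  exact absurd h1.2 (by decide)

theorem exists_pair [Fintype F] (hF : 4 ≤ Fintype.card F) (h : ¬ IsSquare (-1 : F))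
    (h2 : (2 : F) ≠ 0) {c : F} (hc : 4 - c ^ 2 ≠ 0) : ∃ α β : F, α ≠ 0 ∧ β ≠ 0 ∧ IsSquare (α * β) ∧
      IsSquare (-((α ^ 2 + c * α + 1) * (β ^ 2 + c * β + 1))) := by
  classical
  by_contra H
  push Not at H
  obtain ⟨m, hm⟩ : ∃ m : F, m ∉ ({c / 2, 1, -1} : Finset F) := by
    by_contra h3
    push Not at h3
    have h4 := Finset.card_le_card (fun x _ => h3 x : Finset.univ ⊆ ({c / 2, 1, -1} : Finset F))
    have := Finset.card_le_three (a := c / 2) (b := 1) (c := -1)
    rw [Finset.card_univ] at h4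
    omega
  simp only [Finset.mem_insert, Finset.mem_singleton, not_or] at hm
  have hm1 : c - 2 * m ≠ 0 := fun e => hm.1 (by field_simp; linear_combination -e)
  have hm2 : m ^ 2 - 1 ≠ 0 := fun e => by
    rcases mul_self_eq_one_iff.1 (show m * m = 1 by linear_combination e) with h | h
    · exact hm.2.1 h
    · exact hm.2.2 h
  obtain ⟨b, hb⟩ : ∃ b, b * (c - 2 * m) = m ^ 2 - 1 := ⟨_, div_mul_cancel₀ _ hm1⟩
  have hb0 : b ≠ 0 := fun e => hm2 (by rw [← hb, e, zero_mul])
  have hb1 : b ^ 2 + c * b + 1 = (b + m) * (b + m) := by linear_combination hb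
  have key : ∀ β : F, β ≠ 0 → IsSquare (b * β) → ∃ y, y ≠ 0 ∧ y ^ 2 = β ^ 2 + c * β + 1 := by
    intro β hβ hs
    have h3 := H b β hb0 hβ hs
    obtain ⟨r, hr⟩ := (sq_or h _).resolve_right h3
    have h4 : b + m ≠ 0 := fun e => h3 (by rw [hb1, e]; simp)
    have h5 : β ^ 2 + c * β + 1 ≠ 0 := fun e => h3 (by rw [e]; simp)
    have h6 : (r / (b + m)) ^ 2 = β ^ 2 + c * β + 1 := by
      rw [hb1] at hr
      field_simp
      linear_combination -hr
    exact ⟨_, fun e => h5 (by rw [← h6, e]; simp), h6⟩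
  choose! y hy0 hy using key
  let ψ : F → F × F := fun a => if a = 0 then (0, 1) else
    if IsSquare (b * a) then (a, y a) else (-a, -y (-a))
  have hneg : ∀ a, ¬ IsSquare (b * a) → IsSquare (b * -a) := fun a ha => by
    rw [mul_neg]; exact (sq_or h _).resolve_left ha
  have hψ : ∀ a, (ψ a).2 ^ 2 = (ψ a).1 ^ 2 + c * (ψ a).1 + 1 := by
    intro a
    simp only [ψ]
    split_ifs with h3 h4
    · simp
    · exact hy a h3 h4
    · rw [neg_sq]; exact hy _ (neg_ne_zero.2 h3) (hneg a h4)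
  have hinj : Function.Injective ψ := by
    intro a a' e
    simp only [ψ] at e
    split_ifs at e with h3 h4 h5 h6 h7 h8 h9 h10 <;> simp only [Prod.mk.injEq] at e
    · rw [h3, h4]
    · exact absurd e.1.symm h4
    · exact absurd (neg_eq_zero.1 e.1.symm) h4
    · exact absurd e.1 h3
    · exact e.1
    · rw [← e.1] at e
      exact absurd (mul_left_cancel₀ h2 (by linear_combination e.2)) (hy0 a h3 h6)
    · exact absurd (neg_eq_zero.1 e.1) h3
    · rw [e.1] at e
      exact absurd (mul_left_cancel₀ h2 (by linear_combination -e.2)) (hy0 a' h9 h10)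
    · exact neg_injective e.1
  have hne : ∀ a, c - 2 * ((ψ a).2 - (ψ a).1) ≠ 0 := by
    intro a e
    apply hc
    have h3 : ((ψ a).2 - (ψ a).1) ^ 2 = 1 := by linear_combination hψ a + (ψ a).1 * e
    linear_combination -4 * h3 - (c + 2 * ((ψ a).2 - (ψ a).1)) * e
  have h3 : Function.Injective fun a => (ψ a).2 - (ψ a).1 := by
    intro a a' e
    have e' : (ψ a).2 - (ψ a).1 = (ψ a').2 - (ψ a').1 := e
    have h4 : (ψ a).1 = (ψ a').1 := by
      apply mul_right_cancel₀ (hne a)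
      have h5 : (ψ a').1 * (c - 2 * ((ψ a').2 - (ψ a').1)) = ((ψ a').2 - (ψ a').1) ^ 2 - 1 := by
        linear_combination -hψ a'
      have h6 : (ψ a).1 * (c - 2 * ((ψ a).2 - (ψ a).1)) = ((ψ a).2 - (ψ a).1) ^ 2 - 1 := by
        linear_combination -hψ a
      rw [h6, e', h5]
    exact hinj (Prod.ext h4 (by linear_combination e' + h4))
  obtain ⟨a, ha⟩ := Finite.surjective_of_injective h3 (c / 2)
  exact hne a (by rw [show (ψ a).2 - (ψ a).1 = c / 2 from ha]; field_simp; ring)

theorem exists_good [Fintype F] (hF : 4 ≤ Fintype.card F) (h2 : (2 : F) ≠ 0) {c : F}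
    (hc : 4 - c ^ 2 ≠ 0) : ∃ s t d : F, Good s ∧ Good t ∧
      d ^ 2 = 4 - c ^ 2 - s ^ 2 - t ^ 2 - c * s * t := by
  by_cases h : IsSquare (-1 : F)
  · obtain ⟨i, hi⟩ := h
    exact ⟨2, 2, i * (c + 2), good_two h2, good_two h2, by linear_combination -(c + 2) ^ 2 * hi⟩
  obtain ⟨α, β, hα, hβ, ⟨l, hl⟩, ⟨r, hr⟩⟩ := exists_pair hF h h2 hc
  have h4 : Fintype.card F % 4 = 3 := by
    by_contra h5
    exact h (FiniteField.isSquare_neg_one_iff.2 h5)
  have hl0 : l ≠ 0 := fun e => mul_ne_zero hα hβ (by rw [hl, e, mul_zero])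
  refine ⟨_, _, r / l, good_split h4 h2 hl0, good_split h4 h2 (div_ne_zero hα hl0), ?_⟩
  obtain rfl : β = l * l / α := by field_simp; linear_combination hl
  rw [div_pow, sq r, ← hr]
  field_simp
  ring

theorem hA_odd [Fintype F] (hF : 4 ≤ Fintype.card F) (h2 : (2 : F) ≠ 0) (x y : PSL(2, F))
    (hx : orderOf x = 2) (hy : orderOf y = 2) :
    ∃ z : PSL(2, F), orderOf z = 2 ∧ Odd (orderOf (x * z)) ∧ Odd (orderOf (z * y)) := by
  obtain ⟨X, rfl, hX⟩ := lift_inv hx
  obtain ⟨Y, rfl, hY⟩ := lift_inv hy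
  by_cases hc : 4 - tr (X * Y) ^ 2 = 0
  · refine ⟨_, hx, ?_, ?_⟩
    · rw [show proj F X * proj F X = 1 from psl_mul_self_eq_one_iff.2 (.inr hX), orderOf_one]
      exact odd_one
    · rw [← map_mul]
      have h3 : (tr (X * Y) - 2) * (tr (X * Y) + 2) = 0 := by linear_combination -hc
      rcases mul_eq_zero.1 h3 with h | h
      · exact good_two h2 _ (sub_eq_zero.1 h)
      · exact (good_two h2).neg _ (eq_neg_of_add_eq_zero_left h)
  obtain ⟨s, t, d, hs, ht, hd⟩ := exists_good hF h2 hc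
  obtain ⟨Z, h3, h4, h5⟩ := exists_third hX hY rfl hc hd
  exact ⟨proj F Z, ord_two h3 (ne_one_of_tr h2 h3), by rw [← map_mul]; exact hs _ h4,
    by rw [← map_mul]; exact ht _ h5⟩

theorem hB_odd [Fintype F] (h2 : (2 : F) ≠ 0) :
    ∃ x y : PSL(2, F), orderOf x = 2 ∧ orderOf y = 2 ∧ orderOf (x * y) = 2 := by
  obtain ⟨p, hc, n, hp, -⟩ := FiniteField.card' F
  have := Fact.mk hp
  obtain ⟨a, b, hab⟩ : ∃ a b : F, a ^ 2 + b ^ 2 = -1 := by
    obtain ⟨a, b, hab⟩ := CharP.sq_add_sq F p (-1)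
    exact ⟨a, b, by simpa using hab⟩
  have h1 : tr (sl2 (0 : F) 1 (-1) 0 (by ring)) = 0 := by simp
  have h3 : tr (sl2 a b b (-a) (by linear_combination -hab)) = 0 := by simp
  refine ⟨_, _, ord_two h1 (ne_one_of_tr h2 h1), ord_two h3 (ne_one_of_tr h2 h3), ?_⟩
  rw [← map_mul]
  have h4 : tr (sl2 (0 : F) 1 (-1) 0 (by ring) *
      sl2 a b b (-a) (by linear_combination -hab)) = 0 := by
    rw [tr, sl_mul_apply, sl_mul_apply]; simp
  exact ord_two h4 (ne_one_of_tr h2 h4)

theorem good_even [Finite F] (h2 : (2 : F) = 0) {s : F} (hs : s ≠ 0) : Good s := by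
  intro g hg
  have : CharP F 2 := CharTwo.of_one_ne_zero_of_two_eq_zero one_ne_zero h2
  have he := two_eq_zero_iff_even.1 h2
  rcases sl_orderOf_cases 2 g with h | h | h
  · rw [sq] at h
    rcases psl_mul_self_eq_one_iff.1 h with h | h
    · rw [show proj F g = 1 from h, orderOf_one]; exact odd_one
    · exact absurd (hg ▸ h) hs
  · exact (Nat.Even.sub_odd Nat.card_pos he odd_one).of_dvd_nat ((orderOf_proj_dvd g).trans h)
  · exact he.add_one.of_dvd_nat ((orderOf_proj_dvd g).trans h)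

theorem ne_one_of_off {g : SL(2, F)} (h : g 0 1 ≠ 0 ∨ g 1 0 ≠ 0) : proj F g ≠ 1 := by
  intro h1
  rcases proj_eq_one_iff.1 h1 with rfl | rfl <;> simp at h

theorem hA_even [Finite F] (h2 : (2 : F) = 0) (x y : PSL(2, F))
    (hx : orderOf x = 2) (hy : orderOf y = 2) :
    ∃ z : PSL(2, F), orderOf z = 2 ∧ Odd (orderOf (x * z)) ∧ Odd (orderOf (z * y)) := by
  have off : ∀ X : SL(2, F), orderOf (proj F X) = 2 → tr X = 0 → X 0 1 = 0 → X 1 0 = 0 → False := by
    intro X h1 h3 h4 h5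
    rw [tr] at h3
    rw [proj_eq_one_iff.2 (sl_eq_of_offdiag h4 h5 (by linear_combination h3 - X 1 1 * h2)),
      orderOf_one] at h1
    omega
  obtain ⟨X, rfl, hX⟩ := lift_inv hx
  obtain ⟨Y, rfl, hY⟩ := lift_inv hy
  have key : ∀ (e f g : F) (h : e * e - f * g = 1), f ≠ 0 ∨ g ≠ 0 →
      X 0 1 * g + X 1 0 * f ≠ 0 → Y 0 1 * g + Y 1 0 * f ≠ 0 →
      ∃ z : PSL(2, F), orderOf z = 2 ∧ Odd (orderOf (proj F X * z)) ∧
        Odd (orderOf (z * proj F Y)) := by
    intro e f g h h0 h3 h4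
    refine ⟨proj F (sl2 e f g e h), ord_two (by rw [tr_sl2]; linear_combination e * h2)
      (ne_one_of_off h0), ?_, ?_⟩
    · rw [← map_mul]
      refine good_even h2 h3 _ ?_
      rw [tr] at hX
      rw [tr, sl_mul_apply, sl_mul_apply]
      simp only [sl2_coe, Matrix.of_apply, Matrix.cons_val', Matrix.cons_val_zero,
        Matrix.cons_val_one, Matrix.cons_val_fin_one]
      linear_combination e * hX
    · rw [← map_mul]
      refine good_even h2 h4 _ ?_
      rw [tr] at hY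
      rw [tr, sl_mul_apply, sl_mul_apply]
      simp only [sl2_coe, Matrix.of_apply, Matrix.cons_val', Matrix.cons_val_zero,
        Matrix.cons_val_one, Matrix.cons_val_fin_one]
      linear_combination e * hY
  have hX' := off X hx hX
  have hY' := off Y hy hY
  by_cases a1 : X 0 1 = 0 <;> by_cases a2 : Y 1 0 = 0
  · exact key 0 1 1 (by linear_combination -h2) (.inl one_ne_zero)
      (by simpa [a1] using hX' a1) (by simpa [a2] using fun e => hY' e a2)
  · exact key 1 1 0 (by ring) (.inl one_ne_zero) (by simpa using hX' a1) (by simpa using a2)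
  · exact key 1 0 1 (by ring) (.inr one_ne_zero) (by simpa using a1)
      (by simpa using fun e => hY' e a2)
  · by_cases a3 : X 1 0 = 0
    · by_cases a4 : Y 0 1 = 0
      · exact key 0 1 1 (by linear_combination -h2) (.inl one_ne_zero)
          (by simpa [a3] using a1) (by simpa [a4] using a2)
      · exact key 1 0 1 (by ring) (.inr one_ne_zero) (by simpa using a1) (by simpa using a4)
    · exact key 1 1 0 (by ring) (.inl one_ne_zero) (by simpa using a3) (by simpa using a2)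

theorem hB_even [Fintype F] (hF : 4 ≤ Fintype.card F) (h2 : (2 : F) = 0) :
    ∃ x y : PSL(2, F), orderOf x = 2 ∧ orderOf y = 2 ∧ orderOf (x * y) = 2 := by
  classical
  obtain ⟨m, hm⟩ : ∃ m : F, m ∉ ({0, -1} : Finset F) := by
    by_contra h3
    push Not at h3
    have h4 := Finset.card_le_card (fun x _ => h3 x : Finset.univ ⊆ ({0, -1} : Finset F))
    have := Finset.card_le_two (a := (0 : F)) (b := -1)
    rw [Finset.card_univ] at h4
    omega
  simp only [Finset.mem_insert, Finset.mem_singleton, not_or] at hm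
  refine ⟨proj F (sl2 1 1 0 1 (by ring)), proj F (sl2 1 m 0 1 (by ring)),
    ord_two (by rw [tr_sl2]; linear_combination h2) (ne_one_of_off (.inl one_ne_zero)),
    ord_two (by rw [tr_sl2]; linear_combination h2) (ne_one_of_off (.inl hm.1)), ?_⟩
  rw [← map_mul]
  refine ord_two ?_ (ne_one_of_off (.inl ?_))
  · rw [tr, sl_mul_apply, sl_mul_apply]
    simp only [sl2_coe, Matrix.of_apply, Matrix.cons_val', Matrix.cons_val_zero,
      Matrix.cons_val_one, Matrix.cons_val_fin_one]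
    linear_combination h2
  · rw [sl_mul_apply]
    simp only [sl2_coe, Matrix.of_apply, Matrix.cons_val', Matrix.cons_val_zero,
      Matrix.cons_val_one, Matrix.cons_val_fin_one]
    exact fun e => hm.2 (by linear_combination e)


/-- Let F be a finite field with at least 4 elements and let X be a conjugacy class of involutions of PSL(2, F). The graph on X joining two distinct involutions whose product has odd order is connected and has diameter exactly 2. -/
theorem result {F : Type*} [Field F] [Fintype F] (hF : 4 ≤ Fintype.card F)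
    (t : Matrix.ProjectiveSpecialLinearGroup (Fin 2) F) (ht : orderOf t = 2) :
    (SimpleGraph.fromRel fun x y : {x : Matrix.ProjectiveSpecialLinearGroup (Fin 2) F // IsConj t x} =>
        Odd (orderOf (x.1 * y.1))).Connected ∧
      (SimpleGraph.fromRel fun x y : {x : Matrix.ProjectiveSpecialLinearGroup (Fin 2) F // IsConj t x} =>
        Odd (orderOf (x.1 * y.1))).diam = 2 := by
  by_cases h2 : (2 : F) = 0
  · exact graph_of t ht (hA_even h2) (hB_even hF h2)
  · exact graph_of t ht (hA_odd hF h2) (hB_odd h2)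

end Cfsg.Agent.S3266
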