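import Cfsg.Statements.S3276
import Cfsg.Agent.Base
import Cfsg.Agent.H83.InvPair

set_option autoImplicit false
open Cfsg

namespace Cfsg.Agent.S3276

/-- Let x and y be commuting, non-conjugate involutions of a finite group G, and suppose that for every involution u commuting with x, each conjugate of y that commutes with u also commutes with y. Then the normal closure of y is a proper, normal, elementary abelian 2-subgroup of G; and if y is the only involution of that normal closure commuting with x, it has order at most 4. -/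
theorem result {G : Type*} [Group G] [Finite G] (x y : G) (hx : orderOf x = 2) (hy : orderOf y = 2)
    (hxy : Commute x y) (hnc : ¬ IsConj x y)
    (hstar : ∀ u : G, orderOf u = 2 → Commute u x → ∀ g : G, Commute (g * y * g⁻¹) u → Commute (g * y * g⁻¹) y) :
    Subgroup.normalClosure ({y} : Set G) ≠ ⊤ ∧ Cfsg.IsElementaryAbelian 2 (Subgroup.normalClosure ({y} : Set G)) ∧
      ((∀ u ∈ Subgroup.normalClosure ({y} : Set G), orderOf u = 2 → Commute u x → u = y) →
        Nat.card ↥(Subgroup.normalClosure ({y} : Set G)) ≤ 4) := by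
  have hx1 := H83.mul_self_of_orderOf_two hx
  have hy1 := H83.mul_self_of_orderOf_two hy
  have h1 : ∀ g : G, Commute (g * y * g⁻¹) y := by
    intro g
    have hyg : (g * y * g⁻¹) * (g * y * g⁻¹) = 1 := by rw [conj_mul, hy1]; simp
    have hnc' : ¬ IsConj x (g * y * g⁻¹) := fun h =>
      hnc (h.trans (isConj_iff.mpr ⟨g, rfl⟩).symm)
    obtain ⟨u, -, hu, hux, huy⟩ := H83.exists_commuting_involution_of_not_isConj hx1 hyg hnc'
    exact hstar u hu hux g huy.symm
  have h2 : ∀ a ∈ Group.conjugatesOfSet ({y} : Set G), ∀ b ∈ Group.conjugatesOfSet ({y} : Set G),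
      a * b = b * a := by
    intro a ha b hb
    simp only [Group.mem_conjugatesOfSet_iff, Set.mem_singleton_iff, exists_eq_left,
      isConj_iff] at ha hb
    obtain ⟨c, rfl⟩ := ha
    obtain ⟨d, rfl⟩ := hb
    have := (h1 (d⁻¹ * c)).map (MulAut.conj d)
    simpa [mul_assoc] using this.eq
  set N := Subgroup.normalClosure ({y} : Set G) with hN
  have hcomm : IsMulCommutative N := Subgroup.isMulCommutative_closure h2
  have hcomm' : ∀ a ∈ N, ∀ b ∈ N, a * b = b * a := fun a ha b hb =>
    congrArg Subtype.val (hcomm.is_comm.comm (⟨a, ha⟩ : N) ⟨b, hb⟩)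
  have hsq : ∀ a ∈ N, a ^ 2 = 1 := by
    intro a ha
    induction ha using Subgroup.closure_induction with
    | mem a ha =>
      simp only [Group.mem_conjugatesOfSet_iff, Set.mem_singleton_iff, exists_eq_left,
        isConj_iff] at ha
      obtain ⟨c, rfl⟩ := ha
      rw [pow_two, conj_mul, hy1]; simp
    | one => simp
    | mul a b ha hb ha' hb' => rw [Commute.mul_pow (hcomm' a ha b hb), ha', hb', one_mul]
    | inv a _ ha => rw [inv_pow, ha, inv_one]
  refine ⟨?_, ⟨hcomm, hsq⟩, ?_⟩
  · intro htop
    have hle : N ≤ Subgroup.zpowers y := by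
      have : (Subgroup.zpowers y).Normal := ⟨fun n hn g => by
        rw [hcomm' g (htop ▸ Subgroup.mem_top g) n (htop ▸ Subgroup.mem_top n)]
        simpa using hn⟩
      exact Subgroup.normalClosure_le_normal (by simp)
    obtain ⟨k, hk⟩ := hle (htop ▸ Subgroup.mem_top x)
    simp only at hk
    have hy2 : y ^ (2 : ℤ) = 1 := by rw [zpow_two, hy1]
    obtain ⟨j, rfl | rfl⟩ := Int.even_or_odd' k
    · rw [zpow_mul, hy2, one_zpow] at hk
      exact H83.ne_one_of_orderOf_two hx hk.symm
    · rw [zpow_add, zpow_mul, hy2, one_zpow, one_mul, zpow_one] at hk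
      exact hnc (hk ▸ IsConj.refl _)
  · intro huniq
    have hyN : y ∈ N := Subgroup.subset_normalClosure rfl
    have hC : ∀ a ∈ N, Commute a x → a ∈ Subgroup.zpowers y := by
      intro a ha hax
      by_cases h : a = 1
      · rw [h]; exact Subgroup.one_mem _
      · rw [huniq a ha (orderOf_eq_prime (hsq a ha) h) hax]; exact Subgroup.mem_zpowers y
    have hxN : ∀ a ∈ N, x * a * x⁻¹ ∈ N := fun a ha => Subgroup.Normal.conj_mem inferInstance a ha x
    let f : N →* G := MonoidHom.mk' (fun a => a * (x * a * x⁻¹)) (by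
      rintro ⟨a, ha⟩ ⟨b, hb⟩
      simp only [MulMemClass.mk_mul_mk]
      rw [← conj_mul, mul_assoc, mul_assoc a (x * a * x⁻¹), ← mul_assoc b,
        hcomm' b hb _ (hxN a ha), mul_assoc (x * a * x⁻¹)])
    have hf : ∀ a : N, f a = a * (x * a * x⁻¹) := fun _ => rfl
    have hx' : x⁻¹ = x := inv_eq_of_mul_eq_one_right hx1
    have hr : f.range ≤ Subgroup.zpowers y := by
      rintro _ ⟨⟨a, ha⟩, rfl⟩
      apply hC _ (N.mul_mem ha (hxN a ha))
      change a * (x * a * x⁻¹) * x = x * (a * (x * a * x⁻¹))
      rw [hcomm' a ha _ (hxN a ha)]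
      conv_lhs => rw [← hcomm' a ha _ (hxN a ha)]
      rw [hx']
      calc a * (x * a * x) * x = a * x * a * (x * x) := by group
        _ = (x * x) * a * x * a := by rw [hx1]; group
        _ = x * (x * a * x * a) := by group
    have hk : f.ker.map N.subtype ≤ Subgroup.zpowers y := by
      rintro _ ⟨⟨a, ha⟩, hka, rfl⟩
      apply hC _ ha
      have h3 : a * (x * a * x⁻¹) = 1 := hka
      have h4 : a * a = 1 := by rw [← pow_two]; exact hsq a ha
      have h5 : x * a * x⁻¹ = a := mul_left_cancel (h3.trans h4.symm)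
      exact (mul_inv_eq_iff_eq_mul.mp h5).symm
    have e1 := Subgroup.card_le_of_le hr
    have e2 := Subgroup.card_le_of_le hk
    rw [Subgroup.card_map_of_injective N.subtype_injective] at e2
    rw [Nat.card_zpowers, hy] at e1 e2
    have e3 := f.ker.card_mul_index
    rw [Subgroup.index_ker] at e3
    nlinarith

end Cfsg.Agent.S3276
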