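import Cfsg.Statements.S3277
import Cfsg.Agent.Base
import Cfsg.Agent.H83.CentFour

set_option autoImplicit false
open Cfsg

namespace Cfsg.Agent.S3277

/-- Let G be a finite group containing an involution whose centralizer is elementary abelian of order 4. If G has no normal 2-complement and no normal elementary abelian 2-subgroup of order 2 or 4, then G is isomorphic to the alternating group of degree 5 (that is, to PSL(2, 5)). -/
theorem result {G : Type*} [Group G] [Finite G] (x : G) (hx : orderOf x = 2)
    (hC4 : Nat.card ↥(Subgroup.centralizer ({x} : Set G)) = 4) (hCe : ∀ c ∈ Subgroup.centralizer ({x} : Set G), c ^ 2 = 1)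
    (hnc : ¬ Cfsg.HasNormalPComplement 2 G)
    (hne : ∀ E : Subgroup G, E.Normal → Cfsg.IsElementaryAbelian 2 E → Nat.card ↥E ≠ 2 ∧ Nat.card ↥E ≠ 4) :
    Nonempty (G ≃* ↥(alternatingGroup (Fin 5))) := by
  have hE : H85.E2 (Subgroup.centralizer ({x} : Set G)) := H85.e2_iff_sq.mpr hCe
  rcases H83.cent_four_trichotomy hx (hE.isKleinFour hC4) with h | ⟨E, h1, h2, h3⟩ | h
  · exact absurd h hnc
  · have := hne E h1 (H85.e2_iff.mp h2)
    omega
  · exact h

end Cfsg.Agent.S3277
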