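import Cfsg.Statements.S3282
import Cfsg.Agent.Base
import Cfsg.Agent.H83.BSWTwo

set_option autoImplicit false
open Cfsg

namespace Cfsg.Agent.S3282

/-- The abstract form of the Brauer–Suzuki–Wall Theorem. Let G be a finite group with an involution t and an abelian subgroup K of H = C_G(t) containing t, such that H = K⟨s⟩ for an involution s ∉ K with C_K(s) = ⟨t⟩ and s inverting every element of K, K ∩ K^g = 1 for every g outside H, and all involutions of G conjugate. Then G has a subgroup Q, of order q say, with |G| = q(q+1)(q−1)/2, C_G(x) = Q for every non-identity x ∈ Q, N_G(Q) = QD for an abelian subgroup D of order (q−1)/2 meeting Q trivially, and for every nontrivial subgroup X of D, N_G(X) = N_G(D) = D⟨u⟩ for some involution u ∉ D inverting D. -/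
theorem result {G : Type*} [Group G] [Finite G] (t : G) (ht : orderOf t = 2)
    (K : Subgroup G) (hKab : IsMulCommutative ↥K) (hKH : K ≤ Subgroup.centralizer ({t} : Set G)) (htK : t ∈ K)
    (s : G) (hs : orderOf s = 2) (hsH : s ∈ Subgroup.centralizer ({t} : Set G)) (hsK : s ∉ K)
    (hH : K ⊔ Subgroup.zpowers s = Subgroup.centralizer ({t} : Set G)) (hCK : K ⊓ Subgroup.centralizer ({s} : Set G) = Subgroup.zpowers t)
    (hinv : ∀ x ∈ K, s * x * s⁻¹ = x⁻¹)
    (hTI : ∀ g : G, g ∉ Subgroup.centralizer ({t} : Set G) → K ⊓ K.map (MulAut.conj g).toMonoidHom = ⊥)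
    (hconj : ∀ x y : G, orderOf x = 2 → orderOf y = 2 → IsConj x y) :
    ∃ Q D : Subgroup G, 2 * Nat.card G = Nat.card ↥Q * (Nat.card ↥Q + 1) * (Nat.card ↥Q - 1) ∧
      (∀ x ∈ Q, x ≠ 1 → Subgroup.centralizer ({x} : Set G) = Q) ∧
      IsMulCommutative ↥D ∧ 2 * Nat.card ↥D + 1 = Nat.card ↥Q ∧ Q ⊓ D = ⊥ ∧
      Subgroup.normalizer (Q : Set G) = Q ⊔ D ∧
      ∀ X : Subgroup G, X ≤ D → X ≠ ⊥ →
        Subgroup.normalizer (X : Set G) = Subgroup.normalizer (D : Set G) ∧
        ∃ u : G, orderOf u = 2 ∧ u ∉ D ∧ (∀ d ∈ D, u * d * u⁻¹ = d⁻¹) ∧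
          Subgroup.normalizer (D : Set G) = D ⊔ Subgroup.zpowers u := by
  classical
  have := Fintype.ofFinite G
  have hcomm : ∀ a ∈ K, ∀ b ∈ K, Commute a b := fun a ha b hb =>
    congrArg Subtype.val (hKab.is_comm.comm (⟨a, ha⟩ : K) ⟨b, hb⟩)
  have hss := H83.mul_self_of_orderOf_two hs
  have h : H83.BSW t K s := by
    refine ⟨ht, hcomm, htK, hs, hsK, fun g hg => ?_, hinv, fun x hx hxx => ?_,
      fun g x hx hx1 hg => ?_, fun x hx => hconj t x ht hx⟩
    · have hg' : g ∈ K ⊔ Subgroup.zpowers s := hH ▸ H83.mem_cent_iff.mpr hg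
      let L : Subgroup G :=
        { carrier := {g | g ∈ K ∨ s * g ∈ K}
          one_mem' := Or.inl K.one_mem
          mul_mem' := by
            have e : ∀ a ∈ K, s * a * s ∈ K := fun a ha => by
              have := hinv a ha
              rw [H83.inv_eq_of_orderOf_two hs] at this
              rw [this]; exact K.inv_mem ha
            rintro a b (ha | ha) (hb | hb)
            · exact Or.inl (K.mul_mem ha hb)
            · right
              have := K.mul_mem (e a ha) hb
              rwa [mul_assoc, ← mul_assoc s s, hss, one_mul, mul_assoc] at this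
            · right; rw [← mul_assoc]; exact K.mul_mem ha hb
            · left
              have := K.mul_mem (e _ ha) hb
              rwa [← mul_assoc s s, hss, one_mul, mul_assoc, ← mul_assoc s s, hss,
                one_mul] at this
          inv_mem' := by
            rintro a (ha | ha)
            · exact Or.inl (K.inv_mem ha)
            · right
              have h1 := hinv _ (K.inv_mem ha)
              rw [inv_inv, mul_inv_rev, H83.inv_eq_of_orderOf_two hs, mul_assoc, mul_assoc, hss,
                mul_one] at h1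
              rw [h1]; exact ha }
      have : K ⊔ Subgroup.zpowers s ≤ L :=
        sup_le (fun a ha => Or.inl ha) (Subgroup.zpowers_le.mpr (Or.inr (hss ▸ K.one_mem)))
      exact this hg'
    · have h1 : x ∈ K ⊓ Subgroup.centralizer ({s} : Set G) := by
        refine ⟨hx, H83.mem_cent_iff.mpr ?_⟩
        have := hinv x hx
        rw [inv_eq_of_mul_eq_one_right hxx, mul_inv_eq_iff_eq_mul] at this
        exact this.symm
      rw [hCK, mem_zpowers_iff_mem_range_orderOf, ht] at h1
      simpa [Finset.range_add_one, eq_comm, or_comm] using h1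
    · by_contra hc
      have h1 := hTI g (fun e => hc (H83.mem_cent_iff.mp e))
      have h2 : g * x * g⁻¹ ∈ K ⊓ K.map (MulAut.conj g).toMonoidHom := ⟨hg, x, hx, rfl⟩
      rw [h1, Subgroup.mem_bot] at h2
      exact hx1 (by simpa using h2)
  obtain ⟨q, δ, Q, D, hn, hc⟩ := h.exists_concl
  refine ⟨Q, D, ?_, hc.cent, ⟨⟨fun a b => Subtype.ext (hc.comm a a.2 b b.2).eq⟩⟩,
    hc.cardD.trans hc.cardQ.symm, hc.inf, hc.norm, fun X hX hX1 => ?_⟩
  · rw [← hc.cardG, hc.cardN, hc.cardQ, ← hc.cardD, Nat.add_sub_cancel]; ring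
  · have hD : D ≠ ⊥ := fun e => hX1 (le_bot_iff.mp (e ▸ hX))
    obtain ⟨u, hu, huD, hinv', hN⟩ := hc.sub hD
    exact ⟨(hN X hX hX1).trans (hN D le_rfl hD).symm, u, hu, huD, hinv', hN D le_rfl hD⟩

end Cfsg.Agent.S3282
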