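import Cfsg.Statements.S3303
import Cfsg.Agent.H86.Misc

set_option autoImplicit false
open Cfsg

namespace Cfsg.Agent.S3303

/-- Let G be a finite solvable group in which the intersection of any two distinct Sylow 2-subgroups is cyclic. Then G/O(G) has a normal Sylow 2-subgroup, where O(G) is the largest normal subgroup of odd order. -/
theorem result {G : Type*} [Group G] [Finite G] (hs : Group.IsSolvable G)
    (hC : ∀ S T : Sylow 2 G, S ≠ T → IsCyclic ↥((S : Subgroup G) ⊓ (T : Subgroup G))) :
    ∃ P : Sylow 2 (G ⧸ Cfsg.oddCore G), (P : Subgroup (G ⧸ Cfsg.oddCore G)).Normal := by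
  let S : Sylow 2 (G ⧸ oddCore G) := default
  refine ⟨S, by_contra fun hn => hn ?_⟩
  obtain ⟨g, hg⟩ : ∃ g : G ⧸ oddCore G, g • S ≠ S := by
    by_contra e
    push Not at e
    exact hn (Subgroup.normalizer_eq_top_iff.mp (eq_top_iff.mpr fun g _ => Sylow.smul_eq_iff_mem_normalizer.mp (e g)))
  obtain ⟨P, Q, h1, h2⟩ := H86.exists_sylow_inf_map _ (QuotientGroup.mk'_surjective (oddCore G)) hg
  have := hC P Q h1
  have := isCyclic_of_surjective _
    ((QuotientGroup.mk' (oddCore G)).subgroupMap_surjective ((P : Subgroup G) ⊓ Q))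
  have hp := H2.pCore_isPGroup 2 (G ⧸ oddCore G)
  exact H86.sylow_normal_of_isPGroup (H86.isPGroup_of_not_oddActs hp
    (H2.centralizer_pCore_le (H2.pPrimeCore_quotient_pPrimeCore 2 G))
    (H86.not_oddActs_of_isCyclic hp (Subgroup.isCyclic_of_le
      ((le_inf (hp.le_sylow_of_normal _) (hp.le_sylow_of_normal _)).trans h2)))) S

end Cfsg.Agent.S3303
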