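import Cfsg.Statements.S3315
import Cfsg.Agent.H86.UHAut

set_option autoImplicit false
open Cfsg

namespace Cfsg.Agent.S3315

/-- Let S be a Sylow 2-subgroup of SU₃(2ⁿ), n ≥ 2 (realised over the field with 4ⁿ elements). If a finite 2-group R contains a subgroup S' of index 2 isomorphic to S, then the centre of S' is contained in the centre of R. -/
theorem result {R : Type*} [Group R] [Finite R]
    (hR : IsPGroup 2 R) (n : ℕ) (hn : 2 ≤ n) {F : Type*} [Field F] [Fintype F] (hF : Fintype.card F = 4 ^ n)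
    (P : Sylow 2 ↥(Cfsg.SU 3 F (2 ^ n))) (S' : Subgroup R) (hS : Nonempty (↥S' ≃* ↥(P : Subgroup ↥(Cfsg.SU 3 F (2 ^ n)))))
    (hidx : S'.index = 2) :
    (Subgroup.center ↥S').map S'.subtype ≤ Subgroup.center R := by
  have hF' : Fintype.card F = (2 ^ n) ^ 2 := by rw [hF, ← pow_mul, mul_comm, pow_mul]; norm_num
  have := H86.charP_two_of_card (hF'.trans (pow_mul _ _ _).symm)
  obtain ⟨e1⟩ := hS
  obtain ⟨e2⟩ := H86.UH.nonempty_equiv_SU hF' P
  have hN := Subgroup.normal_of_index_eq_two hidx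
  rintro _ ⟨x, hx, rfl⟩
  refine Subgroup.mem_center_iff.mpr fun r => H86.UH.comm_of_sq_mem hF' (e2.trans e1.symm)
    (by rw [Subgroup.normalizer_eq_top]; trivial) (Subgroup.mul_self_mem_of_index_two hidx r) x.2 ?_
  obtain ⟨y, rfl⟩ := (e2.trans e1.symm).surjective x
  have := (H86.UH.mem_center_iff (H59.frob_ne_id hF')).mp ((H59.mem_center_congr _ _).mpr hx)
  rw [← map_mul, ← map_mul, H86.UH.sq_eq_one_iff.mpr this, map_one, map_one]

end Cfsg.Agent.S3315
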