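import Cfsg.Statements.S3333
import Cfsg.Agent.H28.D8Final

set_option autoImplicit false
open Cfsg

namespace Cfsg.Agent.S3333
open _root_.H28


/-- Let G be a finite group with a Sylow 3-subgroup S of order 9 that is its own centralizer, with N_G(S)/S dihedral of order 8, and such that C_G(x) ≤ N_G(S) for every non-identity x in S. Then S is normal in G or G is isomorphic to the symmetric group of degree 6. -/
theorem result {G : Type*} [Group G] [Finite G]
    (P : Sylow 3 G) (S : Subgroup G) (hSP : S = P) (hcard : Nat.card S = 9)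
    (hC : Subgroup.centralizer (S : Set G) = S)
    (eN : Subgroup.normalizer (S : Set G) ⧸ S.subgroupOf (Subgroup.normalizer (S : Set G)) ≃* DihedralGroup 4)
    (hcent : ∀ x ∈ S, x ≠ 1 → Subgroup.centralizer ({x} : Set G) ≤ Subgroup.normalizer (S : Set G)) :
    S.Normal ∨ Nonempty (G ≃* Equiv.Perm (Fin 6)) := by
  subst hSP
  have comm : ∀ a ∈ (P : Subgroup G), ∀ b ∈ (P : Subgroup G), a * b = b * a := fun a ha b hb =>
    (hC.ge hb) a ha
  have h8 : ((P : Subgroup G).subgroupOf (Subgroup.normalizer ((P : Subgroup G) : Set G))).index = 8 :=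
    (Nat.card_congr eN.toEquiv).trans (DihedralGroup.nat_card.trans rfl)
  have h9 : Nat.card ((P : Subgroup G).subgroupOf
      (Subgroup.normalizer ((P : Subgroup G) : Set G))) = 9 := by
    rw [Nat.card_congr (Subgroup.subgroupOfEquivOfLe Subgroup.le_normalizer).toEquiv, hcard]
  have hN : Nat.card (Subgroup.normalizer ((P : Subgroup G) : Set G)) = 72 := by
    rw [← Subgroup.index_mul_card ((P : Subgroup G).subgroupOf _), h8, h9]
  have cube : ∀ a ∈ (P : Subgroup G), a ^ 3 = 1 := fun a ha => by
    by_contra h3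
    have h1 : orderOf (⟨a, ha⟩ : (P : Subgroup G)) = 3 ^ (1 + 1) :=
      orderOf_eq_prime_pow (fun e => h3 (congrArg Subtype.val e))
        (by rw [show 3 ^ (1 + 1) = 9 from rfl, ← hcard, pow_card_eq_one'])
    have : IsCyclic (P : Subgroup G) := isCyclic_of_orderOf_eq_card _ (h1.trans hcard.symm)
    have h2 := H87.relIndex_centralizer_dvd_card_mulAut (P : Subgroup G)
    rw [hC, Subgroup.relIndex, h8, IsCyclic.card_mulAut, hcard] at h2
    revert h2
    decide
  have hS := H28.syl3_of_sylow P comm cube hcent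
  obtain ⟨Q⟩ : Nonempty (Sylow 2 (Subgroup.normalizer ((P : Subgroup G) : Set G))) := inferInstance
  have hQ : Nat.card (Q : Subgroup (Subgroup.normalizer ((P : Subgroup G) : Set G))) = 2 ^ 3 :=
    H87.card_sylow_eq Q (m := 9) hN (by decide)
  let f := (eN.toMonoidHom.comp (QuotientGroup.mk' _)).comp (Q : Subgroup _).subtype
  have hf : Function.Injective f := (injective_iff_map_eq_one f).2 fun x hx => by
    have h1 : (x : Subgroup.normalizer ((P : Subgroup G) : Set G)) ∈ (P : Subgroup G).subgroupOf _ :=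
      (QuotientGroup.eq_one_iff _).1 (eN.map_eq_one_iff.1 hx)
    have h2 : x ^ 3 = 1 := Subtype.ext (Subtype.ext (cube _ h1))
    have h3 : x ^ 8 = 1 := by rw [show 8 = 2 ^ 3 from rfl, ← hQ, pow_card_eq_one']
    exact (pow_eq_one_iff_of_coprime (show Nat.Coprime 3 8 by decide)).1 ⟨h2, h3⟩
  obtain ⟨ι, hι⟩ := H28.exists_emb72_of_sylow hS hcard hC hN (MulEquiv.ofBijective f
    ((Nat.bijective_iff_injective_and_card f).2 ⟨hf, hQ.trans (DihedralGroup.nat_card (n := 4)).symm⟩))
  exact hι.normal_or_sym hcard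

end Cfsg.Agent.S3333
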