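import Cfsg.Statements.S3335
import Cfsg.Agent.H19.Moore

set_option autoImplicit false
open Cfsg

namespace Cfsg.Agent.S3335

/-- A presentation of the alternating group of degree n ≥ 3 on generators x_1, …, x_{n−2} (indexed here by 0, …, n−3): the first generator cubes to 1, every other generator squares to 1, the product of two consecutive generators has order dividing 3, and the product of two generators at distance at least 2 has order dividing 2. The group so presented is isomorphic to the alternating group of degree n. -/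
theorem result (n : ℕ) (hn : 3 ≤ n) :
    Nonempty (PresentedGroup
      ({g : FreeGroup (Fin (n - 2)) | ∃ i : Fin (n - 2), i.val = 0 ∧ g = FreeGroup.of i ^ 3} ∪
       {g | ∃ i : Fin (n - 2), 1 ≤ i.val ∧ g = FreeGroup.of i ^ 2} ∪
       {g | ∃ i j : Fin (n - 2), j.val = i.val + 1 ∧ g = (FreeGroup.of i * FreeGroup.of j) ^ 3} ∪
       {g | ∃ i j : Fin (n - 2), i.val + 1 < j.val ∧ g = (FreeGroup.of i * FreeGroup.of j) ^ 2})
      ≃* alternatingGroup (Fin n)) := by
  obtain ⟨m, rfl⟩ : ∃ m, n = m + 2 := ⟨n - 2, by omega⟩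
  open H19.Moore H75 in
  set R : Set (FreeGroup (Fin (m + 2 - 2))) := _ ∪ _
  have hR : ∀ r ∈ R, FreeGroup.lift (gen (m := m)) r = 1 := by
    have s2 : ∀ i : Fin (m + 1), adjSwap i * adjSwap i = 1 := fun i => Equiv.swap_mul_self _ _
    have o : ∀ (i : Fin m) (k : ℕ), orderOf (adjSwap 0 * adjSwap i.succ) = k → gen i ^ k = 1 :=
      fun i k h => Subtype.ext (by rw [← h]; exact pow_orderOf_eq_one _)
    rintro r (((⟨i, h, rfl⟩ | ⟨i, h, rfl⟩) | ⟨i, j, h, rfl⟩) | ⟨i, j, h, rfl⟩) <;>
      simp only [map_pow, map_mul, FreeGroup.lift_apply_of]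
    · exact o i 3 (by rw [orderOf_adjSwap_mul, if_neg (Fin.succ_ne_zero _).symm, if_pos (by simp [h])])
    · exact o i 2 (by
        rw [orderOf_adjSwap_mul, if_neg (Fin.succ_ne_zero _).symm, if_neg (by simp; omega)])
    · exact gen_pow i j (by omega) 3 (by
        rw [orderOf_adjSwap_mul, if_neg (by simp [Fin.ext_iff]; omega), if_pos (by simp; omega)])
    · exact gen_pow i j (by omega) 2 (by
        rw [orderOf_adjSwap_mul, if_neg (by simp [Fin.ext_iff]; omega), if_neg (by simp; omega)])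
  let θ := PresentedGroup.toGroup hR
  have hθ : ∀ i, θ (PresentedGroup.of i) = gen i := fun i => PresentedGroup.toGroup.of hR
  have r1 : ∀ r ∈ R, PresentedGroup.mk R r = 1 := fun r h => PresentedGroup.one_of_mem h
  obtain ⟨ψ, hψ⟩ := exists_hom (m := m) (fun i => (PresentedGroup.of i : PresentedGroup R))
    (fun i h => r1 _ (.inl (.inl (.inr ⟨i, h, rfl⟩)))) (fun i h => r1 _ (.inl (.inl (.inl ⟨i, h, rfl⟩))))
    (fun i j h => r1 _ (.inl (.inr ⟨i, j, h, rfl⟩))) fun i j h => r1 _ (.inr ⟨i, j, h, rfl⟩)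
  have e : ψ.comp θ = MonoidHom.id _ := PresentedGroup.ext fun i => by
    rw [MonoidHom.comp_apply, hθ, hψ]; rfl
  refine ⟨MulEquiv.ofBijective θ ⟨Function.LeftInverse.injective (DFunLike.congr_fun e), ?_⟩⟩
  rw [← MonoidHom.range_eq_top, eq_top_iff, ← gen_closure, Subgroup.closure_le]
  rintro _ ⟨i, rfl⟩
  exact ⟨_, hθ i⟩

end Cfsg.Agent.S3335
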