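import Cfsg.Statements.S3341
import Cfsg.Agent.H28.SC9

set_option autoImplicit false
open Cfsg

namespace Cfsg.Agent.S3341
open _root_.H28


/-- Let G be a finite simple group whose Sylow 3-subgroup S is elementary abelian of order 9, such that G has more than one conjugacy class of elements of order 3 and C_G(s) = S for every non-identity s in S. Then G is isomorphic to the alternating group of degree 6. -/
theorem result {G : Type*} [Group G] [Finite G] [IsSimpleGroup G]
    (P : Sylow 3 G) (S : Subgroup G) (hSP : S = P) (hcomm : IsMulCommutative S) (hexp : ∀ a ∈ S, a ^ 3 = 1)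
    (hcard : Nat.card S = 9)
    (hclasses : ∃ a b : G, orderOf a = 3 ∧ orderOf b = 3 ∧ ∀ g : G, g * a * g⁻¹ ≠ b)
    (hcent : ∀ s ∈ S, s ≠ 1 → Subgroup.centralizer ({s} : Set G) = S) :
    Nonempty (G ≃* alternatingGroup (Fin 6)) := by
  subst hSP
  have hP : H28.SC9 P := ⟨hcard, hexp, fun s hs h1 g => by
    rw [← hcent s hs h1, Subgroup.mem_centralizer_singleton_iff]⟩
  have hG : ¬ IsMulCommutative G := H87.nonabelian_of_card_not_prime fun h => by
    have h1 := (Nat.dvd_prime h).1 ((show 3 ∣ 9 by decide).trans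
      (hcard ▸ Subgroup.card_subgroup_dvd_card (P : Subgroup G)))
    have h2 := Nat.le_of_dvd Nat.card_pos (hcard ▸ Subgroup.card_subgroup_dvd_card (P : Subgroup G))
    omega
  have hn : ¬ (P : Subgroup G).Normal := fun h =>
    H87.normalizer_ne_top hG (P : Subgroup G) P.isPGroup' (fun e => by simp [e] at hcard)
      (Subgroup.normalizer_eq_top_iff.2 h)
  obtain ⟨e, he, hN⟩ := hP.exists_card_normalizer
  have h8 := Nat.le_of_dvd (by decide) he
  interval_cases e
  · omega
  · exact absurd (hP.normal_of_le (Subgroup.eq_of_le_of_card_ge Subgroup.le_normalizer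
      (by omega)).ge) hn
  · exact absurd (hP.normal_of_eighteen hN) hn
  · omega
  · exact (hP.normal_or_alt hN).resolve_left hn
  · omega
  · omega
  · omega
  obtain ⟨a, b, ha, hb, hab⟩ := hclasses
  obtain ⟨g, hg⟩ := hP.syl3.syl a (ha ▸ pow_orderOf_eq_one a)
  obtain ⟨k, hk⟩ := hP.syl3.syl b (hb ▸ pow_orderOf_eq_one b)
  have hg1 : g * a * g⁻¹ ≠ 1 := fun e => by simp [conj_eq_one_iff.1 e] at ha
  have hk1 : k * b * k⁻¹ ≠ 1 := fun e => by simp [conj_eq_one_iff.1 e] at hb
  have h1 : {h | IsConj (g * a * g⁻¹) h ∧ h ∈ ((P : Subgroup G) : Set G)}.ncard * 9 = 8 * 9 :=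
    hN ▸ hP.card_class hg hg1
  have h2 : {h | IsConj (g * a * g⁻¹) h ∧ h ∈ ((P : Subgroup G) : Set G)} =
      ((P : Subgroup G) : Set G) \ {1} :=
    Set.eq_of_subset_of_ncard_le (fun h hh => ⟨hh.2, fun e => hg1 (isConj_one_left.1 (e ▸ hh.1))⟩)
      (by rw [H31.ncard_sdiff_one]; omega)
  obtain ⟨c, hc⟩ := isConj_iff.1 (h2.ge ⟨hk, hk1⟩).1
  exact absurd (show k⁻¹ * c * g * a * (k⁻¹ * c * g)⁻¹ = b by
    rw [show b = k⁻¹ * (k * b * k⁻¹) * k by group, ← hc]; group) (hab _)

end Cfsg.Agent.S3341
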