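import Cfsg.Statements.S3349
import Cfsg.Agent.H9.Critical

set_option autoImplicit false
open Cfsg

namespace Cfsg.Agent.S3349

/-- Let Q be a finite extraspecial p-group and α an automorphism of Q fixing every element of some maximal abelian subgroup of Q. Then the order of α is a power of p. -/
theorem result {Q : Type*} [Group Q] [Finite Q]
    (p : ℕ) [Fact p.Prime] (hQ : Cfsg.IsExtraspecial p Q) (α : MulAut Q)
    (A : Subgroup Q) (hA : IsMulCommutative A) (hmax : ∀ B : Subgroup Q, A ≤ B → IsMulCommutative B → B = A)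
    (hfix : ∀ a ∈ A, α a = a) :
    ∃ k : ℕ, orderOf α = p ^ k := by
  have hC : Subgroup.centralizer (A : Set Q) ≤ A := fun x hx =>
    hmax _ le_sup_left (H9.isMulCommutative_sup_zpowers hA hx) ▸
      Subgroup.mem_sup_right (Subgroup.mem_zpowers x)
  have hn : A.Normal := H9.normal_of_commutatorElement_mem fun x y =>
    hC (Subgroup.center_le_centralizer _ (hQ.1.2.2 ▸ H9.commutatorElement_mem_commutator x y))
  obtain ⟨n, hn⟩ := IsPGroup.iff_card.mp hQ.1.1
  have h1 : α ^ p ^ n = 1 := by
    ext g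
    rw [H9.mulAut_pow_apply_of_fixes α (hfix _ (hC (H9.inv_mul_apply_mem_centralizer α hfix g))),
      ← hn, pow_card_eq_one', mul_one, MulAut.one_apply]
  obtain ⟨k, -, hk⟩ := (Nat.dvd_prime_pow Fact.out).mp (orderOf_dvd_of_pow_eq_one h1)
  exact ⟨k, hk⟩

end Cfsg.Agent.S3349
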