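import Cfsg.Agent.Base
import Cfsg.Statements.S3375

set_option autoImplicit false
open Cfsg

namespace Cfsg.Agent.S3375

theorem inv_case {H : Type*} [Group H] [Finite H] (γ : MulAut H) (h2 : ∀ h, γ (γ h) = h)
    (hC : Nat.card {h : H // γ h = h} = 2) (M : Subgroup H) (hM : M.index = 2)
    (hinv : ∀ h, γ h ∈ M ↔ h ∈ M) : ∀ a ∈ M, γ a = a⁻¹ := by
  classical
  let C : Subgroup H := MonoidHom.eqLocus γ.toMonoidHom (MonoidHom.id H)
  have hCc : Nat.card C = 2 := hC
  let f : H ⧸ C → M := fun x => Quotient.liftOn' x (fun h => (⟨h * (γ h)⁻¹, by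
      rw [Subgroup.mul_mem_iff_of_index_two hM, inv_mem_iff, hinv]⟩ : M)) (by
    intro a b hab
    rw [QuotientGroup.leftRel_apply] at hab
    have h1 : γ (a⁻¹ * b) = a⁻¹ * b := hab
    apply Subtype.ext
    simp only [map_mul, map_inv] at h1
    show a * (γ a)⁻¹ = b * (γ b)⁻¹
    calc a * (γ a)⁻¹ = a * ((γ a)⁻¹ * γ b) * (γ b)⁻¹ := by group
      _ = b * (γ b)⁻¹ := by rw [h1]; group)
  have hf : Function.Injective f := by
    intro x y
    induction x using Quotient.inductionOn' with | h a => ?_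
    induction y using Quotient.inductionOn' with | h b => ?_
    intro hab
    have h1 : a * (γ a)⁻¹ = b * (γ b)⁻¹ := congrArg Subtype.val hab
    apply Quotient.sound'
    rw [QuotientGroup.leftRel_apply]
    show γ (a⁻¹ * b) = a⁻¹ * b
    rw [map_mul, map_inv]
    calc (γ a)⁻¹ * γ b = a⁻¹ * (a * (γ a)⁻¹) * γ b := by group
      _ = a⁻¹ * b := by rw [h1]; group
  have hcard : Nat.card (H ⧸ C) = Nat.card M := by
    have h1 := C.card_mul_index
    have h3 := M.card_mul_index
    rw [hCc] at h1
    rw [hM] at h3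
    have : C.index = Nat.card (H ⧸ C) := rfl
    omega
  have hb : Function.Bijective f := (Nat.bijective_iff_injective_and_card f).2 ⟨hf, hcard⟩
  intro a ha
  obtain ⟨x, hx⟩ := hb.2 ⟨a, ha⟩
  induction x using Quotient.inductionOn' with | h b => ?_
  have h1 : b * (γ b)⁻¹ = a := congrArg Subtype.val hx
  rw [← h1, map_mul, map_inv, h2]
  group

/-- Let γ be an automorphism of order 2 of a finite group H. (i) If γ fixes only the identity, then H is abelian and γ inverts every element. (ii) If γ has exactly two fixed points and H has a subgroup of index 2, then H has a γ-invariant abelian subgroup of index 2 on which γ acts by inversion. -/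
theorem result {H : Type*} [Group H] [Finite H] (γ : MulAut H) (hγ : orderOf γ = 2) :
    ((∀ h : H, γ h = h → h = 1) → (∀ a b : H, a * b = b * a) ∧ ∀ h : H, γ h = h⁻¹) ∧
    ((Nat.card {h : H // γ h = h} = 2 ∧ ∃ M : Subgroup H, M.index = 2) →
      ∃ A : Subgroup H, A.index = 2 ∧ IsMulCommutative A ∧ (∀ a ∈ A, γ a ∈ A) ∧ ∀ a ∈ A, γ a = a⁻¹) := by
  have h2 : ∀ h, γ (γ h) = h := by
    intro h
    have := pow_orderOf_eq_one γ
    rw [hγ, sq] at this
    rw [← MulAut.mul_apply, this, MulAut.one_apply]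
  refine ⟨fun hfp => ?_, ?_⟩
  · have hF : MonoidHom.FixedPointFree γ := fun g hg => hfp g hg
    refine ⟨fun a b => (hF.commute_all_of_involutive h2 a b).eq, fun h => ?_⟩
    exact congrFun (hF.coe_eq_inv_of_involutive h2) h
  · rintro ⟨hC, M, hM⟩
    have key : ∀ A : Subgroup H, A.index = 2 → (∀ h, γ h ∈ A ↔ h ∈ A) →
        ∃ A : Subgroup H, A.index = 2 ∧ IsMulCommutative A ∧ (∀ a ∈ A, γ a ∈ A) ∧ ∀ a ∈ A, γ a = a⁻¹ := by
      intro A hA hinv
      have h3 := inv_case γ h2 hC A hA hinv
      refine ⟨A, hA, ⟨⟨fun a b => Subtype.ext ?_⟩⟩, fun a ha => (hinv a).2 ha, h3⟩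
      have h4 := h3 _ (A.mul_mem a.2 b.2)
      rw [map_mul, h3 _ a.2, h3 _ b.2, ← mul_inv_rev] at h4
      exact (inv_injective h4).symm
    by_cases hinv : ∀ h, γ h ∈ M ↔ h ∈ M
    · exact key M hM hinv
    · have hm := fun a b => Subgroup.mul_mem_iff_of_index_two (a := a) (b := b) hM
      let A : Subgroup H :=
        { carrier := {h | γ h ∈ M ↔ h ∈ M}
          one_mem' := by simp
          mul_mem' := by
            intro a b ha hb
            simp only [Set.mem_ofPred_eq, map_mul, hm] at ha hb ⊢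
            tauto
          inv_mem' := by
            intro a ha
            simpa only [Set.mem_ofPred_eq, map_inv, inv_mem_iff] using ha }
      have hA : ∀ h, h ∈ A ↔ (γ h ∈ M ↔ h ∈ M) := fun h => Iff.rfl
      obtain ⟨a, ha⟩ := not_forall.1 hinv
      refine key A ?_ fun h => ?_
      · rw [Subgroup.index_eq_two_iff]
        refine ⟨a, fun b => ?_⟩
        simp only [hA, map_mul, hm, Xor]
        tauto
      · rw [hA, hA, h2]
        tauto

end Cfsg.Agent.S3375
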