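import Cfsg.Agent.Base
import Cfsg.Agent.H89.Prim
import Cfsg.Statements.S3389

set_option autoImplicit false
open Cfsg

namespace Cfsg.Agent.S3389

open MulAction

theorem ncard_fixed_le {G Ω : Type*} [Group G] [Finite Ω] [MulAction G Ω] {k : ℕ}
    (hfix : ∀ g : G, g ≠ 1 → Nat.card (fixedBy Ω g) ≤ k) {U : Subgroup G} (hU : U ≠ ⊥) :
    {x : Ω | ∀ u ∈ U, u • x = x}.ncard ≤ k := by
  obtain ⟨⟨u, hu⟩, h1⟩ := (Subgroup.ne_bot_iff_exists_ne_one).1 hU
  refine le_trans (Set.ncard_le_ncard (t := fixedBy Ω u) (fun x hx => hx u hu)) ?_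
  exact hfix u fun h => h1 (Subtype.ext h)

/-- A `p`-group normalizing `U` fixes the fixed points of `U` when these are fewer than `p`. -/
theorem le_stabilizer {G Ω : Type*} [Group G] [Finite Ω] [MulAction G Ω] {p : ℕ} [Fact p.Prime]
    {U Q : Subgroup G} (hQ : IsPGroup p Q) (hQU : Q ≤ Subgroup.normalizer (U : Set G))
    (hlt : {x : Ω | ∀ u ∈ U, u • x = x}.ncard < p) {a : Ω} (ha : ∀ u ∈ U, u • a = a) :
    Q ≤ stabilizer G a := by
  obtain ⟨n, hn⟩ := hQ.card_orbit a
  have hsub : orbit Q a ⊆ {x : Ω | ∀ u ∈ U, u • x = x} := by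
    rintro _ ⟨q, rfl⟩
    exact H89.smul_fixed_of_mem_normalizer (hQU q.2) ha
  have h1 := Set.ncard_le_ncard hsub
  rw [Nat.card_coe_set_eq] at hn
  rcases n with _ | n
  · rw [pow_zero, Set.ncard_eq_one] at hn
    obtain ⟨y, hy⟩ := hn
    intro q hq
    have h2 : (⟨q, hq⟩ : Q) • a ∈ orbit Q a := mem_orbit _ _
    have h3 : a ∈ orbit Q a := mem_orbit_self _
    rw [hy] at h2 h3
    exact h2.trans h3.symm
  · have : p ≤ p ^ (n + 1) := Nat.le_self_pow n.succ_ne_zero p
    omega

theorem isSylowIn_top {G Ω : Type*} [Group G] [Finite G] [Finite Ω] [MulAction G Ω] {k p : ℕ}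
    [Fact p.Prime] (hkp : k < p) (hfix : ∀ g : G, g ≠ 1 → Nat.card (fixedBy Ω g) ≤ k)
    (s : Set Ω) {P : Subgroup G} (hP : H89.IsSylowIn p P (fixingSubgroup G s)) (hP1 : P ≠ ⊥) :
    H89.IsSylowIn p P ⊤ := by
  refine H89.isSylowIn_of_normalizer le_top hP.isP fun Q h1 _ h2 h3 => hP.max Q h1 ?_ h3
  intro q hq
  rw [mem_fixingSubgroup_iff]
  intro x hx
  exact le_stabilizer h3 h2 ((ncard_fixed_le hfix hP1).trans_lt hkp)
    (fun u hu => (mem_fixingSubgroup_iff G).1 (hP.le hu) x hx) hq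

/-- Let G be a finite group acting faithfully and transitively on a finite set Ω with fixity k ≥ 1: every non-identity element fixes at most k points and some non-identity element fixes exactly k points. Then |Z(G)| divides k; if k = 2 then |G| is even; and for every prime p > k dividing |G| and every point α, either p does not divide |G_α| or G_α contains a Sylow p-subgroup of G. -/
theorem result {G : Type*} [Group G] [Finite G] {Ω : Type*} [Fintype Ω] [MulAction G Ω] [FaithfulSMul G Ω]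
    (htr : MulAction.IsPretransitive G Ω) (k : ℕ) (hk : 1 ≤ k)
    (hfix : ∀ g : G, g ≠ 1 → Nat.card (MulAction.fixedBy Ω g) ≤ k) (hex : ∃ g : G, g ≠ 1 ∧ Nat.card (MulAction.fixedBy Ω g) = k) :
    Nat.card (Subgroup.center G) ∣ k ∧ (k = 2 → 2 ∣ Nat.card G) ∧
      ∀ (p : ℕ), p.Prime → k < p → p ∣ Nat.card G → ∀ α : Ω,
        ¬ p ∣ Nat.card (MulAction.stabilizer G α) ∨ ¬ p ∣ (MulAction.stabilizer G α).index := by
  obtain ⟨g, hg1, hg⟩ := hex
  refine ⟨?_, ?_, ?_⟩
  · rw [← hg, Nat.card_coe_set_eq]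
    refine H89.dvd_ncard_of_forall_dvd_orbit (H := Subgroup.center G) _ _ (Set.toFinite _)
      (fun z x hx => ?_) fun x _ => ?_
    · change g • (z : G) • x = (z : G) • x
      rw [← mul_smul, Subgroup.mem_center_iff.1 z.2 g, mul_smul, hx]
    · have hb : stabilizer (Subgroup.center G) x = ⊥ :=
        (H89.stabilizer_subgroup_eq_bot_iff _ _).2 fun z hz hzx =>
          eq_of_smul_eq_smul (α := Ω) fun y => by
            obtain ⟨h, rfl⟩ := exists_smul_eq G x y
            rw [← mul_smul, ← Subgroup.mem_center_iff.1 hz h, mul_smul, hzx, one_smul]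
      rw [H89.card_eq_card_orbit_mul_card_stabilizer x, hb, Subgroup.card_bot, mul_one,
        Nat.card_coe_set_eq]
  · rintro rfl
    by_contra hodd
    rw [Nat.card_coe_set_eq, Set.ncard_eq_two] at hg
    obtain ⟨a, b, hab, hg⟩ := hg
    have hgK : g ∈ fixingSubgroup G ({a, b} : Set Ω) :=
      (mem_fixingSubgroup_iff G).2 fun x hx => by rw [← hg] at hx; exact hx
    obtain ⟨p, hp, hpd⟩ := Nat.exists_prime_and_dvd (n := Nat.card (fixingSubgroup G ({a, b} : Set Ω)))
      (fun h => hg1 (by rwa [Subgroup.card_eq_one.1 h, Subgroup.mem_bot] at hgK))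
    have : Fact p.Prime := ⟨hp⟩
    have hp2 : 2 < p := lt_of_le_of_ne hp.two_le fun h =>
      hodd (h ▸ hpd.trans (Subgroup.card_subgroup_dvd_card _))
    obtain ⟨P, hP⟩ := H89.exists_isSylowIn p (fixingSubgroup G ({a, b} : Set Ω))
    have hP1 : P ≠ ⊥ := by
      rintro rfl
      have := hP.not_dvd_relIndex
      rw [Subgroup.relIndex_bot_left] at this
      exact this hpd
    have hPa : ∀ u ∈ P, u • a = a := fun u hu => (mem_fixingSubgroup_iff G).1 (hP.le hu) a (by simp)
    have hPb : ∀ u ∈ P, u • b = b := fun u hu => (mem_fixingSubgroup_iff G).1 (hP.le hu) b (by simp)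
    obtain ⟨y, hy, hya⟩ := ((isSylowIn_top hp2 hfix _ hP hP1).of_le (L := stabilizer G a) hPa
      le_top).witt_one hPb
    have hF : ({a, b} : Set Ω) = {x : Ω | ∀ u ∈ P, u • x = x} :=
      Set.eq_of_subset_of_ncard_le (by rintro x (rfl | rfl); exacts [hPa, hPb])
        ((ncard_fixed_le hfix hP1).trans (Set.ncard_pair hab).ge)
    have hyb : y • b = a := by
      have : y • b ∈ ({a, b} : Set Ω) := hF ▸ H89.smul_fixed_of_mem_normalizer hy hPb
      rcases this with h | h
      · exact h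
      · exact absurd (smul_left_cancel y (hya.trans h.symm)) hab
    obtain ⟨m, hm⟩ : Odd (Nat.card G) := Nat.odd_iff.2 (by omega)
    have h1 : y ^ 2 ∈ stabilizer G a := by
      rw [mem_stabilizer_iff, sq, mul_smul, hya, hyb]
    have h2 : (y ^ 2) ^ m * y = 1 := by rw [← pow_mul, ← pow_succ, ← hm, pow_card_eq_one']
    have h3 : y ∈ stabilizer G a := by
      rw [eq_inv_of_mul_eq_one_right h2]
      exact Subgroup.inv_mem _ (Subgroup.pow_mem _ h1 m)
    exact hab (h3.symm.trans hya)
  · intro p hp hkp _ a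
    have : Fact p.Prime := ⟨hp⟩
    rw [or_iff_not_imp_left, not_not]
    intro hpd
    obtain ⟨P, hP⟩ := H89.exists_isSylowIn p (stabilizer G a)
    have hP1 : P ≠ ⊥ := by
      rintro rfl
      have := hP.not_dvd_relIndex
      rw [Subgroup.relIndex_bot_left] at this
      exact this hpd
    have hle := hP.le
    rw [← H89.fixingSubgroup_singleton_eq] at hP
    have := (isSylowIn_top hkp hfix _ hP hP1).not_dvd_relIndex
    rw [Subgroup.relIndex_top_right] at this
    exact fun h => this (h.trans (Subgroup.index_dvd_of_le hle))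

end Cfsg.Agent.S3389
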