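import Cfsg.Statements.S3391
import Cfsg.Agent.H66.SzSolv

set_option autoImplicit false
open Cfsg

namespace Cfsg.Agent.S3391

open H66 in
theorem fix_aux {F : Type*} [Field F] {T : Tits F} {G : Type*} [Group G] (M : Model T G) {m : ℕ}
    (hT : T.IsFin m) {Ω : Type*} [Finite Ω] [MulAction G Ω] [MulAction.IsPretransitive G Ω]
    (hfix : ∀ g : G, g ≠ 1 → Nat.card (MulAction.fixedBy Ω g) ≤ 2)
    (hex : ∃ g : G, g ≠ 1 ∧ Nat.card (MulAction.fixedBy Ω g) = 2) :
    (Nat.card Ω = Nat.card F ^ 2 + 1 ∧ MulAction.IsMultiplyPretransitive G Ω 2) ∨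
    (Nat.card Ω = Nat.card F ^ 2 * (Nat.card F ^ 2 + 1) ∧
      ∀ α : Ω, Nat.card (MulAction.stabilizer G α) = Nat.card F - 1) := by
  classical
  have := hT.finite
  have := M.finite
  -- a subgroup normalising a non-trivial subgroup fixing `ω` meets `G_ω` in index at most 2
  have key : ∀ (ω : Ω) (N : Subgroup G) (x : G), x ≠ 1 → (∀ n ∈ N, x • n • ω = n • ω) →
      (MulAction.stabilizer G ω).relIndex N ≤ 2 := by
    intro ω N x x1 h
    refine le_trans ?_ (hfix x x1)
    have e : (MulAction.stabilizer G ω).subgroupOf N = MulAction.stabilizer N ω := rfl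
    rw [Subgroup.relIndex, e, MulAction.index_stabilizer, ← Nat.card_coe_set_eq]
    refine Nat.card_le_card_of_injective
      (Set.inclusion (s := MulAction.orbit N ω) (t := MulAction.fixedBy Ω x) ?_)
      (Set.inclusion_injective _)
    rintro _ ⟨n, rfl⟩
    exact h n n.2
  have two : ∀ (K N : Subgroup G), K.relIndex N ≤ 2 → ∀ n ∈ N, n ^ 2 ∈ K := by
    intro K N h n hn
    have h0 : K.relIndex N ≠ 0 := Subgroup.FiniteIndex.index_ne_zero
    have : K.relIndex N = 1 ∨ K.relIndex N = 2 := by omega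
    rcases this with h | h
    · exact pow_mem (Subgroup.relIndex_eq_one.mp h hn) 2
    · exact Subgroup.sq_mem_of_index_two h ⟨n, hn⟩
  obtain ⟨g, g1, hg⟩ := hex
  obtain ⟨⟨ω, hω⟩⟩ := (Nat.card_pos_iff.mp (show 0 < Nat.card (MulAction.fixedBy Ω g) by omega)).1
  have hcard := (MulAction.stabilizer G ω).card_mul_index
  rw [MulAction.index_stabilizer_of_transitive] at hcard
  have hconj : ∀ α : Ω, Nat.card (MulAction.stabilizer G α) =
      Nat.card (MulAction.stabilizer G ω) := by
    intro α
    have h := (MulAction.stabilizer G α).card_mul_index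
    rw [MulAction.index_stabilizer_of_transitive, ← hcard] at h
    have : Nonempty Ω := ⟨ω⟩
    exact Nat.eq_of_mul_eq_mul_right Nat.card_pos h
  by_cases he : Even (Nat.card (MulAction.stabilizer G ω))
  · left
    obtain ⟨z, hz⟩ := exists_prime_orderOf_dvd_card' 2 (even_iff_two_dvd.mp he)
    have z1 : (z : G) ≠ 1 := fun e => by
      rw [← Subgroup.orderOf_coe, e, orderOf_one] at hz; omega
    obtain ⟨x, hx⟩ := M.exists_conj_mem_Z hT (g := z)
      (by rw [← hz, ← Subgroup.orderOf_coe, pow_orderOf_eq_one])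
    generalize M.conj x = M at hx
    have hQ := two _ _ (key ω M.Q z z1 fun n hn => by
      rw [← mul_smul, ← Subgroup.mem_centralizer_singleton_iff.mp (M.centralizer_z hx z1 ▸ hn),
        mul_smul, z.2])
    have hZ : M.Z ≤ MulAction.stabilizer G ω := by
      rintro _ ⟨b, rfl⟩
      obtain ⟨a, rfl⟩ := hT.norm_surj b
      simpa [M.u_sq] using hQ _ (M.u_mem_Q a 0)
    have hB := key ω M.B z z1 fun n hn => by
      have := hZ (M.conj_mem_Z (inv_mem hn) hx)
      rwa [MulAction.mem_stabilizer_iff, mul_smul, mul_smul, inv_inv, inv_smul_eq_iff] at this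
    have hH : M.H ≤ MulAction.stabilizer G ω := by
      rintro _ ⟨k, rfl⟩
      obtain ⟨l, rfl⟩ := hT.sq_surj_units k
      rw [map_pow]
      exact two _ _ hB _ (M.H_le_B (M.h_mem_H l))
    have hB' : M.B ≤ MulAction.stabilizer G ω := by
      intro y hy
      obtain ⟨a, b, k, rfl⟩ := M.mem_B'.mp hy
      refine mul_mem ?_ (hH (M.h_mem_H k))
      obtain ⟨l, hl⟩ := hT.exists_unit_ne_one
      have h1 : 1 + T.θ l ≠ 0 := fun e => hl (Units.ext (T.θ_eq_one.mp (T.add_eq_zero.mp e).symm))
      obtain ⟨c, rfl⟩ : ∃ x, (1 + T.θ l) * x = a := ⟨_, mul_div_cancel₀ a h1⟩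
      have e1 := two _ _ hB _ (mul_mem (M.Q_le_B (M.u_mem_Q c 0)) (M.H_le_B (M.h_mem_H l)))
      rw [pow_two, M.uh_mul_uh, Subgroup.mul_mem_cancel_right _ (hH (M.h_mem_H _))] at e1
      generalize (0 + T.θ l * l ^ 2 * 0 + T.θ c * (T.θ l * c)) = d at e1
      have e2 := mul_mem e1 (hZ (M.u_mem_Z (d + b)))
      rw [M.u_mul] at e2
      convert e2 using 2
      · ring
      · have := T.two
        grobner
    have hne : MulAction.stabilizer G ω ≠ ⊤ := by
      intro h
      rw [h, Subgroup.card_top] at hcard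
      have h1 : Nat.card Ω = 1 := Nat.eq_of_mul_eq_mul_left Nat.card_pos (by simpa using hcard)
      have := Nat.card_le_card_of_injective (Subtype.val : MulAction.fixedBy Ω g → Ω)
        Subtype.val_injective
      rw [h1] at this
      exact absurd (hg.symm.le.trans this) (by omega)
    have hst : MulAction.stabilizer G ω = M.B := (M.isCoatom_B.le_iff_eq hne).mp hB'
    constructor
    · rw [← M.index_B, ← hst, MulAction.index_stabilizer_of_transitive]
    · rw [MulAction.is_two_pretransitive_iff]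
      have tr : ∀ x y : G, x • ω = y • ω ↔ x • M.inf = y • M.inf := fun x y => by
        rw [← inv_smul_eq_iff, ← mul_smul, ← MulAction.mem_stabilizer_iff, hst, M.mem_B, mul_smul,
          inv_smul_eq_iff]
      intro a b c d hab hcd
      obtain ⟨a, rfl⟩ := MulAction.exists_smul_eq G ω a
      obtain ⟨b, rfl⟩ := MulAction.exists_smul_eq G ω b
      obtain ⟨c, rfl⟩ := MulAction.exists_smul_eq G ω c
      obtain ⟨d, rfl⟩ := MulAction.exists_smul_eq G ω d
      rw [Ne, tr] at hab hcd
      obtain ⟨y, h1, h2⟩ := M.exists_smul_pair' hab hcd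
      exact ⟨y, by rw [← mul_smul, tr, mul_smul, h1], by rw [← mul_smul, tr, mul_smul, h2]⟩
  · right
    rw [Nat.not_even_iff_odd] at he
    obtain ⟨A, hA, hSA⟩ := M.le_torus_of_odd hT he
    have hN := key ω (Subgroup.normalizer (A : Set G)) g g1 fun n hn => by
      have := (Subgroup.zpowers_le_of_mem (H := MulAction.stabilizer G ω) hω)
        (conj_mem_zpowers hA.1 (inv_mem hn) (hSA hω))
      rwa [MulAction.mem_stabilizer_iff, mul_smul, mul_smul, inv_inv, inv_smul_eq_iff] at this
    have h1 := ((MulAction.stabilizer G ω).subgroupOf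
      (Subgroup.normalizer (A : Set G))).card_mul_index
    rw [Nat.card_congr (Subgroup.subgroupOfEquivOfLe
      (hSA.trans Subgroup.le_normalizer)).toEquiv] at h1
    have h2 := Subgroup.card_le_of_le hSA
    have h3 : 0 < Nat.card A := Nat.card_pos
    have h4 := Nat.mul_le_mul_left (Nat.card (MulAction.stabilizer G ω)) hN
    rw [Subgroup.relIndex, h1] at h4
    have h5 : Nat.card (MulAction.stabilizer G ω) = Nat.card F - 1 := by
      rcases M.card_normalizer_torus hT hA with ⟨e, h⟩ | ⟨-, h⟩ <;> omega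
    refine ⟨?_, fun α => (hconj α).trans h5⟩
    rw [h5, M.card_G, mul_right_comm, mul_comm _ (Nat.card F - 1)] at hcard
    have := hT.eight_le
    exact Nat.eq_of_mul_eq_mul_left (by omega) hcard

/-- Let q = 2^{2m+1} ≥ 8 and let G be isomorphic to the Suzuki group Sz(q). If G acts faithfully and transitively on a finite set Ω with fixity 2 (every non-identity element fixes at most two points, and some fixes exactly two), then either |Ω| = q² + 1 and the action is 2-transitive, or |Ω| = q²(q² + 1) and the point stabilizers have order q − 1. -/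
theorem result {G : Type*} [Group G] [Finite G] (F : Type) [Field F] [Fintype F] (m : ℕ) (hm : 1 ≤ m) (hF : Fintype.card F = 2 ^ (2 * m + 1))
    (e : G ≃* ↥(Cfsg.Lie.Sz F (2 ^ (m + 1)))) {Ω : Type*} [Fintype Ω] [MulAction G Ω] [FaithfulSMul G Ω] (htr : MulAction.IsPretransitive G Ω)
    (hfix : ∀ g : G, g ≠ 1 → Nat.card (MulAction.fixedBy Ω g) ≤ 2) (hex : ∃ g : G, g ≠ 1 ∧ Nat.card (MulAction.fixedBy Ω g) = 2) :
    (Fintype.card Ω = Fintype.card F ^ 2 + 1 ∧ MulAction.IsMultiplyPretransitive G Ω 2) ∨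
    (Fintype.card Ω = Fintype.card F ^ 2 * (Fintype.card F ^ 2 + 1) ∧ ∀ α : Ω, Nat.card (MulAction.stabilizer G α) = Fintype.card F - 1) := by
  have hT := H66.titsOf_isFin F hm hF
  simp only [← Nat.card_eq_fintype_card]
  exact fix_aux ((H66.modelB hT).ofEquiv e) hT hfix hex

end Cfsg.Agent.S3391
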