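import Cfsg.Statements.S3504
import Cfsg.Agent.Base

set_option autoImplicit false
open Cfsg

namespace Cfsg.Agent.S3504

theorem ct {n : ℕ} (g : Equiv.Perm (Fin n)) (hg : (orderOf g).Prime) (hf : ∀ i, g i ≠ i) :
    orderOf g ∣ n ∧ g.cycleType = Multiset.replicate (n / orderOf g) (orderOf g) := by
  obtain ⟨k, hk⟩ := Equiv.Perm.cycleType_prime_order hg
  have hs : g.support = Finset.univ := Finset.eq_univ_iff_forall.2 fun i => Equiv.Perm.mem_support.2 (hf i)
  have h := g.sum_cycleType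
  rw [hs, hk, Multiset.sum_replicate, smul_eq_mul, Finset.card_univ, Fintype.card_fin] at h
  refine ⟨⟨k + 1, h.symm.trans (mul_comm _ _)⟩, ?_⟩
  rw [hk]; congr 1
  exact (Nat.div_eq_of_eq_mul_left hg.pos h.symm).symm

theorem ex {n p : ℕ} (hn : n ≠ 0) (hp : p.Prime) (h : p ∣ n) :
    ∃ g : Equiv.Perm (Fin n), orderOf g = p ∧ ∀ i, g i ≠ i := by
  have hs : (Multiset.replicate (n / p) p).sum = n := by
    rw [Multiset.sum_replicate, smul_eq_mul, Nat.div_mul_cancel h]
  obtain ⟨g, hg⟩ := (Equiv.Perm.exists_with_cycleType_iff (Fin n)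
    (m := Multiset.replicate (n / p) p)).2 ⟨by rw [hs, Fintype.card_fin], fun a ha => by
      rw [Multiset.eq_of_mem_replicate ha]; exact hp.two_le⟩
  have hpos : n / p ≠ 0 := (Nat.div_pos (Nat.le_of_dvd (Nat.pos_of_ne_zero hn) h) hp.pos).ne'
  refine ⟨g, ?_, fun i => ?_⟩
  · rw [← g.lcm_cycleType, hg]
    refine Nat.dvd_antisymm (Multiset.lcm_dvd.2 fun a ha => ?_)
      (Multiset.dvd_lcm (Multiset.mem_replicate.2 ⟨hpos, rfl⟩))
    rw [Multiset.eq_of_mem_replicate ha]
  · have h1 := g.sum_cycleType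
    rw [hg, hs] at h1
    have : g.support = Finset.univ := Finset.eq_univ_of_card _ (by rw [← h1, Fintype.card_fin])
    exact Equiv.Perm.mem_support.1 (this ▸ Finset.mem_univ i)


/-- For n ≥ 5, the fixed-point-free permutations of prime order in the symmetric group of degree n form a single conjugacy class if and only if n is a prime power. -/
theorem result (n : ℕ) (hn : 5 ≤ n) :
    Nat.card {c : ConjClasses (Equiv.Perm (Fin n)) // ∃ g : Equiv.Perm (Fin n), ConjClasses.mk g = c ∧ (orderOf g).Prime ∧ ∀ i : Fin n, g i ≠ i} = 1 ↔ IsPrimePow n := by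
  classical
  rw [isPrimePow_iff_card_primeFactors_eq_one]
  have hn0 : n ≠ 0 := by omega
  choose f hf1 hf2 using fun q : n.primeFactors =>
    ex hn0 (Nat.prime_of_mem_primeFactors q.2) (Nat.dvd_of_mem_primeFactors q.2)
  have hpr : ∀ q, (orderOf (f q)).Prime := fun q => hf1 q ▸ Nat.prime_of_mem_primeFactors q.2
  let F : n.primeFactors → {c : ConjClasses (Equiv.Perm (Fin n)) // ∃ g : Equiv.Perm (Fin n),
      ConjClasses.mk g = c ∧ (orderOf g).Prime ∧ ∀ i : Fin n, g i ≠ i} :=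
    fun q => ⟨ConjClasses.mk (f q), f q, rfl, hpr q, hf2 q⟩
  have hF : Function.Bijective F := by
    constructor
    · intro a b hab
      have h := ConjClasses.mk_eq_mk_iff_isConj.1 (congrArg Subtype.val hab)
      obtain ⟨c, hc⟩ := isConj_iff.1 h
      refine Subtype.ext ?_
      rw [← hf1 a, ← hf1 b, ← hc]
      exact (MulAut.conj c).orderOf_eq (f a) |>.symm
    · rintro ⟨_, g, rfl, hg, hx⟩
      obtain ⟨h1, h2⟩ := ct g hg hx
      refine ⟨⟨orderOf g, Nat.mem_primeFactors.2 ⟨hg, h1, hn0⟩⟩, Subtype.ext ?_⟩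
      refine ConjClasses.mk_eq_mk_iff_isConj.2 (Equiv.Perm.isConj_iff_cycleType_eq.2 ?_)
      rw [h2, (ct _ (hpr _) (hf2 _)).2, hf1]
  rw [← Nat.card_eq_of_bijective F hF, Nat.card_eq_fintype_card, Fintype.card_coe]

end Cfsg.Agent.S3504
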