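import Cfsg.Agent.Base
import Cfsg.Statements.S3508
import Cfsg.Agent.H27.Coords

set_option autoImplicit false
open Cfsg

namespace Cfsg.Agent.S3508



/-- Let a finite group G act faithfully on a set Ω with p ^ m points (p prime) and have an elementary abelian normal p-subgroup N acting regularly on Ω (so G is a group of affine transformations of an m-dimensional space over the field with p elements). If G contains an element of order p ^ r with r ≥ 1, then p ^ (r − 1) ≤ m. In particular an element of order p ^ m forces m ≤ 2, and m ≤ 1 when p is odd. -/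
theorem result {G : Type*} [Group G] [Finite G] {Ω : Type*} [Fintype Ω] [MulAction G Ω] [FaithfulSMul G Ω] (p m : ℕ) (hp : p.Prime) (hcard : Fintype.card Ω = p ^ m)
    (N : Subgroup G) [N.Normal] (hNc : IsMulCommutative N) (hNp : ∀ n ∈ N, n ^ p = 1)
    (hNtr : MulAction.IsPretransitive N Ω) (hNreg : ∀ ω : Ω, MulAction.stabilizer N ω = ⊥)
    (g : G) (r : ℕ) (hr : 1 ≤ r) (hg : orderOf g = p ^ r) :
    p ^ (r - 1) ≤ m ∧ (r = m → m ≤ 2 ∧ (2 < p → m ≤ 1)) := by
  have := Fact.mk hp
  have h1 : p ^ (r - 1) ≤ m := by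
    obtain ⟨d, ζ, hζ, hi, hm⟩ := H27.exists_param_elementary p N
      (fun x hx y hy => congrArg Subtype.val (hNc.is_comm.comm ⟨x, hx⟩ ⟨y, hy⟩)) hNp
    obtain ⟨ω⟩ : Nonempty Ω := Fintype.card_pos_iff.1 (hcard ▸ pow_pos hp.pos m)
    have he : Function.Bijective fun a => ζ a • ω := by
      refine ⟨fun a b e => hi ?_, fun x => ?_⟩
      · have ha := (hm _).1 ⟨a, rfl⟩
        have hb := (hm _).1 ⟨b, rfl⟩
        have : (⟨_, mul_mem (inv_mem hb) ha⟩ : N) ∈ MulAction.stabilizer N ω := by
          change ((ζ b)⁻¹ * ζ a) • ω = ω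
          rw [mul_smul, show ζ a • ω = ζ b • ω from e, inv_smul_smul]
        rw [hNreg] at this
        exact (inv_mul_eq_one.1 (congrArg Subtype.val (Subgroup.mem_bot.1 this))).symm
      · obtain ⟨n, hn⟩ := hNtr.exists_smul_eq ω x
        obtain ⟨a, ha⟩ := (hm n).2 n.2
        exact ⟨a, by simp only [ha]; exact hn⟩
    obtain rfl : d = m := by
      have := Nat.card_eq_of_bijective _ he
      rw [H27.card_fin_zmod, Nat.card_eq_fintype_card, hcard] at this
      exact Nat.pow_right_injective hp.two_le this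
    choose σ hσ using fun a => (hm _).2 (‹N.Normal›.conj_mem _ ((hm _).1 ⟨a, rfl⟩) g)
    obtain ⟨b, hb⟩ := he.2 (g • ω)
    simp only at hb
    let s : (Fin d → ZMod p) →ₗ[ZMod p] (Fin d → ZMod p) :=
      (AddMonoidHom.mk' σ fun x y => hi (by rw [hζ, hσ, hσ, hσ, hζ]; group)).toZModLinearMap p
    let A : Module.End (ZMod p) ((Fin d → ZMod p) × ZMod p) :=
      (s.coprod (LinearMap.toSpanSingleton _ _ b)).prod (LinearMap.snd _ _ _)
    have hA : ∀ k : ℕ, ∀ v, ∃ w, (A ^ k) (v, 1) = (w, 1) ∧ ζ w • ω = g ^ k • ζ v • ω := fun k v => by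
      induction k with
      | zero => exact ⟨v, rfl, by simp⟩
      | succ k ih =>
        obtain ⟨w, h1, h2⟩ := ih
        refine ⟨σ w + b, by rw [pow_succ', Module.End.mul_apply, h1]; simp [A, s], ?_⟩
        rw [hζ, mul_smul, hb, hσ, pow_succ', mul_smul, mul_smul, mul_smul, inv_smul_smul, h2]
    have hc : CharP (Module.End (ZMod p) ((Fin d → ZMod p) × ZMod p)) p :=
      charP_of_injective_algebraMap (algebraMap (ZMod p) _).injective p
    have h1 : A ^ p ^ r = 1 := by
      have h2 : ∀ v, (A ^ p ^ r) (v, 1) = (v, 1) := fun v => by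
        obtain ⟨w, h1, h2⟩ := hA (p ^ r) v
        rw [← hg, pow_orderOf_eq_one, one_smul] at h2
        rw [h1, he.1 h2]
      refine LinearMap.ext fun ⟨v, c⟩ => ?_
      have : (v, c) = (v, (1 : ZMod p)) + (c - 1) • ((0 : Fin d → ZMod p), (1 : ZMod p)) := by simp
      rw [this, map_add, map_smul, h2, h2]
      rfl
    have h2 : (A - 1) ^ (d + 1) = 0 := by
      have h3 := Module.End.ker_pow_le_ker_pow_finrank (A - 1) (p ^ r)
      rw [sub_pow_char_pow_of_commute _ _ (Commute.one_right A), h1, one_pow, sub_self,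
        LinearMap.ker_zero, top_le_iff, LinearMap.ker_eq_top] at h3
      simpa using h3
    by_contra h3
    have h4 : A ^ p ^ (r - 1) = 1 := by
      have := pow_eq_zero_of_le (show d + 1 ≤ p ^ (r - 1) by omega) h2
      rwa [sub_pow_char_pow_of_commute _ _ (Commute.one_right A), one_pow, sub_eq_zero] at this
    have h5 : g ^ p ^ (r - 1) = 1 := eq_of_smul_eq_smul (α := Ω) fun x => by
      obtain ⟨v, rfl⟩ := he.2 x
      obtain ⟨w, h1, h2⟩ := hA (p ^ (r - 1)) v
      rw [h4] at h1
      obtain rfl : v = w := congrArg Prod.fst h1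
      rw [one_smul]
      exact h2.symm
    have := (Nat.pow_dvd_pow_iff_le_right hp.one_lt).1 (hg ▸ orderOf_dvd_of_pow_eq_one h5)
    omega
  refine ⟨h1, fun e => ?_⟩
  subst e
  have h3 : ∀ k : ℕ, k + 2 < 3 ^ (k + 1) := fun k => by
    have := Nat.lt_pow_self (n := k) (show 1 < 3 by decide)
    omega
  refine ⟨by_contra fun h => ?_, fun h => by_contra fun h' => ?_⟩
  · obtain ⟨k, rfl⟩ : ∃ k, r = k + 3 := ⟨r - 3, by omega⟩
    have := Nat.pow_le_pow_left hp.two_le (k + 2)
    have := Nat.lt_two_pow_self (n := k)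
    have : 2 ^ (k + 2) = 4 * 2 ^ k := by ring
    simp only [show k + 3 - 1 = k + 2 from rfl] at h1
    omega
  · obtain ⟨k, rfl⟩ : ∃ k, r = k + 2 := ⟨r - 2, by omega⟩
    have := Nat.pow_le_pow_left (show 3 ≤ p from h) (k + 1)
    have := h3 k
    simp only [show k + 2 - 1 = k + 1 from rfl] at h1
    omega

end Cfsg.Agent.S3508
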