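import Cfsg.Statements.S3511
import Cfsg.Agent.Base

set_option autoImplicit false
open Cfsg

namespace Cfsg.Agent.S3511

/-- Let a finite group G act faithfully on a set Ω. If every element of G of square-free order has a regular cycle (an orbit of the cyclic group it generates with trivial stabilizer), then every element of G has a regular cycle. -/
theorem result {G : Type*} [Group G] [Finite G] {Ω : Type*} [MulAction G Ω] [FaithfulSMul G Ω]
    (h : ∀ g : G, Squarefree (orderOf g) → ∃ ω : Ω, MulAction.stabilizer (Subgroup.zpowers g) ω = ⊥) (g : G) :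
    ∃ ω : Ω, MulAction.stabilizer (Subgroup.zpowers g) ω = ⊥ := by
  induction hn : orderOf g using Nat.strong_induction_on generalizing g with
  | _ n ih =>
  by_cases hsq : Squarefree (orderOf g)
  · exact h g hsq
  rw [Nat.squarefree_iff_prime_squarefree] at hsq
  push Not at hsq
  obtain ⟨p, hp, hpp⟩ := hsq
  have hpos : 0 < orderOf g := orderOf_pos g
  have hpd : p ∣ orderOf g := (Dvd.intro _ rfl).trans hpp
  have hlt : orderOf (g ^ p) < n := by
    rw [orderOf_pow_of_dvd hp.ne_zero hpd, ← hn]
    exact Nat.div_lt_self hpos hp.one_lt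
  obtain ⟨ω, hω⟩ := ih _ hlt (g ^ p) rfl
  refine ⟨ω, ?_⟩
  rw [eq_bot_iff]
  intro x hx
  rw [Subgroup.mem_bot]
  by_contra hx1
  have hd : orderOf x ≠ 1 := by simpa using hx1
  obtain ⟨r, hr, hrd⟩ := Nat.exists_prime_and_dvd hd
  set y := x ^ (orderOf x / r) with hy
  have hyo : orderOf y = r := by
    rw [hy]; exact orderOf_pow_orderOf_div (orderOf_pos x).ne' hrd
  have hyfix : y ∈ MulAction.stabilizer (Subgroup.zpowers g) ω := Subgroup.pow_mem _ hx _
  obtain ⟨j, hj⟩ : ∃ j : ℕ, g ^ j = (y : G) := by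
    have := y.2
    rw [← mem_powers_iff_mem_zpowers] at this
    exact this
  have hjr : orderOf g ∣ j * r := by
    apply orderOf_dvd_of_pow_eq_one
    rw [pow_mul, hj, ← Subgroup.coe_pow, ← hyo, pow_orderOf_eq_one]; rfl
  have hpj : p ∣ j := by
    by_contra hnj
    have hcop : Nat.Coprime (p * p) j := by
      have := (Nat.Prime.coprime_iff_not_dvd hp).mpr hnj
      exact Nat.Coprime.mul_left this this
    have h2 : p * p ∣ r := hcop.dvd_of_dvd_mul_left (hpp.trans hjr)
    have h3 := (Nat.dvd_prime hr).mp h2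
    rcases h3 with h3 | h3
    · have := hp.two_le; nlinarith
    · exact Nat.not_prime_mul hp.ne_one hp.ne_one (h3 ▸ hr)
  obtain ⟨t, rfl⟩ := hpj
  have hmem : (y : G) ∈ Subgroup.zpowers (g ^ p) := by
    rw [← hj, pow_mul]; exact Subgroup.npow_mem_zpowers _ _
  have : (⟨y, hmem⟩ : Subgroup.zpowers (g ^ p)) ∈ MulAction.stabilizer (Subgroup.zpowers (g ^ p)) ω :=
    hyfix
  rw [hω, Subgroup.mem_bot] at this
  have hy1 : y = 1 := by
    apply Subtype.ext
    exact congrArg (fun z : Subgroup.zpowers (g ^ p) => (z : G)) this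
  rw [hy1, orderOf_one] at hyo
  exact hr.one_lt.ne hyo

end Cfsg.Agent.S3511
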