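import Cfsg.Statements.S3514
import Cfsg.Agent.H99.Product

set_option autoImplicit false
open Cfsg

namespace Cfsg.Agent.S3514

theorem orbit_card {V : Type*} {M : Type*} [Group M] [MulAction M V] (K : Subgroup M) (v : V) :
    Nat.card {u : V | ∃ k ∈ K, k • v = u} = (MulAction.stabilizer M v).relIndex K := by
  have : {u : V | ∃ k ∈ K, k • v = u} = MulAction.orbit K v := by
    ext u; simp [MulAction.mem_orbit_iff, Subgroup.smul_def]
  rw [this, Subgroup.relIndex, Nat.card_congr (MulAction.orbitEquivQuotientStabilizer K v)]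
  rfl

theorem rel_sup {M : Type*} [Group M] [Finite M] {H K : Subgroup M}
    (h : H ≤ Subgroup.normalizer (K : Set M)) : H.relIndex (H ⊔ K) = H.relIndex K := by
  have h1 := H99.card_sup_mul_card_inf_of_le_normalizer h
  have h2 := (H.subgroupOf (H ⊔ K)).card_mul_index
  have h3 := (H.subgroupOf K).card_mul_index
  rw [Nat.card_congr (Subgroup.subgroupOfEquivOfLe le_sup_left).toEquiv] at h2
  rw [← Subgroup.inf_subgroupOf_right,
    Nat.card_congr (Subgroup.subgroupOfEquivOfLe inf_le_right).toEquiv,
    Subgroup.inf_subgroupOf_right] at h3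
  rw [← h2, ← h3, mul_assoc, mul_comm (Nat.card ↥(H ⊓ K))] at h1
  exact Nat.eq_of_mul_eq_mul_right Nat.card_pos (Nat.eq_of_mul_eq_mul_left Nat.card_pos h1)


/-- Let p be a prime, V a finite vector space over the field with p elements, and H a group of linear transformations of V all of whose orbits on V have size coprime to p. (i) Every normal subgroup K of H has all its orbits on V of size coprime to p. (ii) If N is a group of linear transformations of V of order coprime to p that is normalized by H, then the group generated by N and H has all its orbits on V of size coprime to p. -/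
theorem result (p : ℕ) [Fact p.Prime] {V : Type*} [AddCommGroup V] [Module (ZMod p) V] [Finite V]
    (H : Subgroup (V ≃ₗ[ZMod p] V)) (hH : ∀ v : V, ¬ p ∣ Nat.card {u : V | ∃ h ∈ H, h v = u}) :
    (∀ K : Subgroup (V ≃ₗ[ZMod p] V), K ≤ H → H ≤ Subgroup.normalizer (K : Set (V ≃ₗ[ZMod p] V)) →
        ∀ v : V, ¬ p ∣ Nat.card {u : V | ∃ k ∈ K, k v = u}) ∧
    (∀ N : Subgroup (V ≃ₗ[ZMod p] V), ¬ p ∣ Nat.card N → H ≤ Subgroup.normalizer (N : Set (V ≃ₗ[ZMod p] V)) →
        ∀ v : V, ¬ p ∣ Nat.card {u : V | ∃ x ∈ N ⊔ H, x v = u}) := by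
  haveI : Finite (V ≃ₗ[ZMod p] V) := Finite.of_injective (fun e => (e : V → V)) DFunLike.coe_injective
  have hp : p.Prime := Fact.out
  have oc := fun (K : Subgroup (V ≃ₗ[ZMod p] V)) (v : V) => orbit_card K v
  constructor
  · intro K hK hn v h
    refine hH v ?_
    erw [oc] at h ⊢
    set S := MulAction.stabilizer (V ≃ₗ[ZMod p] V) v
    have e := rel_sup (H := S ⊓ H) (K := K) (inf_le_right.trans hn)
    rw [← Subgroup.inf_relIndex_right, ← Subgroup.relIndex_mul_relIndex (S ⊓ H) (S ⊓ H ⊔ K) H
      le_sup_left (sup_le inf_le_right hK), e, ← Subgroup.inf_relIndex_right, inf_assoc,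
      inf_eq_right.2 hK, Subgroup.inf_relIndex_right]
    exact h.mul_right _
  · intro N hN hn v h
    erw [oc] at h
    have h0 := hH v
    erw [oc] at h0
    set S := MulAction.stabilizer (V ≃ₗ[ZMod p] V) v
    have h1 : S.relIndex (N ⊔ H) ∣ (S ⊓ H).relIndex (N ⊔ H) :=
      Subgroup.relIndex_dvd_of_le_left _ inf_le_left
    rw [← Subgroup.relIndex_mul_relIndex (S ⊓ H) H (N ⊔ H) inf_le_right le_sup_right,
      Subgroup.inf_relIndex_right, sup_comm N H, rel_sup hn] at h1
    rw [sup_comm] at h
    rcases (Nat.Prime.dvd_mul hp).1 (h.trans h1) with h2 | h2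
    · exact h0 h2
    · exact hN (h2.trans (Subgroup.index_dvd_card _))

end Cfsg.Agent.S3514
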