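import Cfsg.Statements.S3515
import Cfsg.Agent.Base
import Cfsg.Agent.H91.AffineClosure

set_option autoImplicit false
open Cfsg

namespace Cfsg.Agent.S3515

theorem hall : ∀ x : Fin 2 → ZMod 2, x = 0 ∨ x = ![1, 0] ∨ x = ![0, 1] ∨ x = ![1, 1] := by decide
theorem n0 : (![1, 1] : Fin 2 → ZMod 2) ≠ 0 := by decide
theorem n1 : (![1, 1] : Fin 2 → ZMod 2) ≠ ![1, 0] := by decide
theorem n2 : (![1, 1] : Fin 2 → ZMod 2) ≠ ![0, 1] := by decide

/-- Every primitive affine permutation group of degree p² is 3-closed. Let p be a prime and G a group of permutations of the plane V = F_p² consisting of affine maps x ↦ Ax + b, containing all translations, and acting primitively on V. Then any permutation σ of V that agrees on every triple of points with some element of G (σ preserves every G-orbit on ordered triples) already lies in G. -/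
theorem result (p : ℕ) [Fact p.Prime] (G : Subgroup (Equiv.Perm (Fin 2 → ZMod p)))
    (haff : (G : Set (Equiv.Perm (Fin 2 → ZMod p))) ⊆ {τ : Equiv.Perm (Fin 2 → ZMod p) | ∃ (A : (Fin 2 → ZMod p) ≃ₗ[ZMod p] (Fin 2 → ZMod p)) (b : Fin 2 → ZMod p), ∀ x, τ x = A x + b})
    (htrans : ∀ b : Fin 2 → ZMod p, ∃ g ∈ G, ∀ x, g x = x + b) (hprim : MulAction.IsPreprimitive G (Fin 2 → ZMod p))
    (σ : Equiv.Perm (Fin 2 → ZMod p)) (hσ : (∀ t : Fin 3 → (Fin 2 → ZMod p), ∃ g ∈ G, ∀ i, σ (t i) = g (t i))) : σ ∈ G := by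
  obtain ⟨g, hg, hgt⟩ := hσ ![0, ![1, 0], ![0, 1]]
  have e0 := hgt 0
  have e1 := hgt 1
  have e2 := hgt 2
  simp only [Matrix.cons_val_zero, Matrix.cons_val_one, Matrix.cons_val] at e0 e1 e2
  suffices h : σ = g by rw [h]; exact hg
  by_cases hp : p = 2
  · subst hp
    have h3 : σ ![1, 1] = g ![1, 1] := by
      rcases hall (g.symm (σ ![1, 1])) with h | h | h | h
      · rw [Equiv.symm_apply_eq, ← e0] at h
        exact absurd (σ.injective h) n0
      · rw [Equiv.symm_apply_eq, ← e1] at h
        exact absurd (σ.injective h) n1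
      · rw [Equiv.symm_apply_eq, ← e2] at h
        exact absurd (σ.injective h) n2
      · rw [Equiv.symm_apply_eq] at h
        exact h
    ext1 x
    rcases hall x with rfl | rfl | rfl | rfl <;> assumption
  · have h2 : (2 : ZMod p) ≠ 0 := by
      intro h
      have : ((2 : ℕ) : ZMod p) = 0 := by exact_mod_cast h
      rw [ZMod.natCast_eq_zero_iff] at this
      exact hp ((Nat.prime_dvd_prime_iff_eq Fact.out Nat.prime_two).mp this)
    obtain ⟨A, b, hA⟩ := H91.affine_of_triples h2 σ (by
      intro t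
      obtain ⟨g, hg, hgt⟩ := hσ t
      obtain ⟨A, b, hA⟩ := haff hg
      exact ⟨A, b, fun i => by rw [hgt, hA]; rfl⟩)
    obtain ⟨B, c, hB⟩ := haff hg
    rw [hA, hB] at e0 e1 e2
    simp only [map_zero, zero_add] at e0
    subst e0
    have e1' := add_right_cancel e1
    have e2' := add_right_cancel e2
    ext1 x
    have hx : x = x 0 • ![1, 0] + x 1 • ![0, 1] := by
      ext i; fin_cases i <;> simp
    rw [hA, hB, hx, map_add, map_add, map_smul, map_smul, map_smul, map_smul, e1', e2']

end Cfsg.Agent.S3515
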