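import Cfsg.Statements.S3516
import Cfsg.Agent.Base
import Cfsg.Agent.H91.AffineClosure
import Cfsg.Agent.H91.LinExt

set_option autoImplicit false
open Cfsg

namespace Cfsg.Agent.S3516

/-- Let p be an odd prime, d ≥ 3, and G a group of affine permutations x ↦ Ax + b of V = F_p^d containing all translations and all maps x ↦ Ax with A of determinant 1. Then the 3-closure of G is the full affine group: a permutation σ of V agrees on every triple of points with some element of G if and only if σ is an affine map. -/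
theorem result (p : ℕ) [Fact p.Prime] (hp : p ≠ 2) (d : ℕ) (hd : 3 ≤ d) (G : Subgroup (Equiv.Perm (Fin d → ZMod p)))
    (haff : (G : Set (Equiv.Perm (Fin d → ZMod p))) ⊆ {τ : Equiv.Perm (Fin d → ZMod p) | ∃ (A : (Fin d → ZMod p) ≃ₗ[ZMod p] (Fin d → ZMod p)) (b : Fin d → ZMod p), ∀ x, τ x = A x + b})
    (htrans : ∀ b : Fin d → ZMod p, ∃ g ∈ G, ∀ x, g x = x + b)
    (hsl : ∀ A : (Fin d → ZMod p) ≃ₗ[ZMod p] (Fin d → ZMod p), LinearMap.det (A : (Fin d → ZMod p) →ₗ[ZMod p] (Fin d → ZMod p)) = 1 → ∃ g ∈ G, ∀ x, g x = A x)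
    (σ : Equiv.Perm (Fin d → ZMod p)) :
    (∀ t : Fin 3 → (Fin d → ZMod p), ∃ g ∈ G, ∀ i, σ (t i) = g (t i)) ↔ σ ∈ {τ : Equiv.Perm (Fin d → ZMod p) | ∃ (A : (Fin d → ZMod p) ≃ₗ[ZMod p] (Fin d → ZMod p)) (b : Fin d → ZMod p), ∀ x, τ x = A x + b} := by
  have h2 : (2 : ZMod p) ≠ 0 := by
    intro h
    have : ((2 : ℕ) : ZMod p) = 0 := by exact_mod_cast h
    rw [ZMod.natCast_eq_zero_iff] at this
    exact hp ((Nat.prime_dvd_prime_iff_eq Fact.out Nat.prime_two).mp this)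
  constructor
  · intro h
    apply H91.affine_of_triples h2
    intro t
    obtain ⟨g, hg, hgt⟩ := h t
    obtain ⟨A, b, hA⟩ := haff hg
    exact ⟨A, b, fun i => by rw [hgt, hA]; rfl⟩
  · rintro ⟨A, b, hA⟩ t
    obtain ⟨h, hdet, hh⟩ := H91.exists_linearEquiv_fixing_det (K := ZMod p)
      (u := ![t 1 - t 0, t 2 - t 0]) (by simp; omega) (LinearEquiv.det A)⁻¹
    obtain ⟨g, hg, hgx⟩ := hsl (h ≪≫ₗ A) (by
      rw [LinearEquiv.coe_trans, LinearMap.det_comp, hdet, ← LinearEquiv.coe_det]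
      exact Units.mul_inv _)
    obtain ⟨τ, hτ, hτx⟩ := htrans (σ (t 0) - A (h (t 0)))
    refine ⟨τ * g, G.mul_mem hτ hg, fun i => ?_⟩
    have e1 := hh 0
    have e2 := hh 1
    simp only [Matrix.cons_val_zero, Matrix.cons_val_one, map_sub] at e1 e2
    rw [Equiv.Perm.mul_apply, hτx, hgx, LinearEquiv.trans_apply, add_sub_left_comm, ← map_sub, hA, hA]
    fin_cases i
    · simp
    · change A (t 1) + b = A (t 0) + b + A (h (t 1) - h (t 0))
      rw [e1, map_sub]; abel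
    · change A (t 2) + b = A (t 0) + b + A (h (t 2) - h (t 0))
      rw [e2, map_sub]; abel

end Cfsg.Agent.S3516
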