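import Cfsg.Statements.S3518
import Cfsg.Agent.Base
import Cfsg.Agent.S3524

set_option autoImplicit false
open Cfsg

namespace Cfsg.Agent.S3518

open Polynomial in
theorem poly_unique {p : ℕ} [Fact p.Prime] {f g : (ZMod p)[X]} (hf : f.natDegree < p)
    (hg : g.natDegree < p) (h : ∀ x, f.eval x = g.eval x) : f = g := by
  apply Polynomial.eq_of_natDegree_lt_card_of_eval_eq f g (f := id) Function.injective_id h
  rw [ZMod.card]
  exact max_lt hf hg

open Polynomial in
theorem affine_of_pow {p : ℕ} [Fact p.Prime] (σ : Equiv.Perm (ZMod p)) (m : ℕ) (hm0 : 0 < m)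
    (hm : 2 * m ≤ p - 1) (h : ∀ x y, (σ x - σ y) ^ m = (x - y) ^ m) :
    ∃ a b : ZMod p, ∀ x, σ x = a * x + b := by
  classical
  have hp : p.Prime := Fact.out
  have hp2 := hp.two_le
  have hmp : m < p := by omega
  have key : ∀ k ≤ m, ∃ Q : (ZMod p)[X], Q.natDegree ≤ m ∧ ∀ x, Q.eval x = σ x ^ k := by
    intro k hk
    let v : ZMod p → ZMod p := fun y => -σ y
    have hv : Set.InjOn v (Finset.univ : Finset (ZMod p)) := by
      intro y _ z _ hyz
      exact σ.injective (neg_injective hyz)
    have hch : ((m.choose (m - k) : ℕ) : ZMod p) ≠ 0 := by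
      rw [Ne, ZMod.natCast_eq_zero_iff]
      intro hd
      have h0 : m.choose (m - k) ∣ m.factorial := by
        rw [← Nat.choose_mul_factorial_mul_factorial (Nat.sub_le m k), mul_assoc]
        exact Dvd.intro _ rfl
      have h1 := hd.trans h0
      rw [hp.dvd_factorial] at h1
      omega
    refine ⟨C ((m.choose (m - k) : ZMod p)⁻¹) * ∑ y : ZMod p,
      C ((Lagrange.basis Finset.univ v y).coeff (m - k)) * (X - C y) ^ m, ?_, fun x => ?_⟩
    · refine (natDegree_C_mul_le _ _).trans ?_
      refine natDegree_sum_le_of_forall_le _ _ (fun y _ => ?_)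
      refine (natDegree_C_mul_le _ _).trans ?_
      rw [natDegree_pow, natDegree_X_sub_C, mul_one]
    · have hP : ((X + C (σ x)) ^ m : (ZMod p)[X]).degree < (Finset.univ : Finset (ZMod p)).card := by
        rw [Finset.card_univ, ZMod.card]
        refine lt_of_le_of_lt degree_le_natDegree ?_
        rw [natDegree_pow, natDegree_X_add_C, mul_one]
        exact_mod_cast hmp
      have h1 := Lagrange.eq_interpolate hv hP
      have h2 := congrArg (fun P : (ZMod p)[X] => P.coeff (m - k)) h1
      simp only [coeff_X_add_C_pow, Lagrange.interpolate_apply, finsetSum_coeff, coeff_C_mul,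
        eval_pow, eval_add, eval_X, eval_C, v] at h2
      rw [eval_mul, eval_C, eval_finsetSum]
      simp only [eval_mul, eval_C, eval_pow, eval_sub, eval_X]
      rw [show m - (m - k) = k by omega] at h2
      have h3 : ∑ y : ZMod p, (Lagrange.basis Finset.univ v y).coeff (m - k) * (x - y) ^ m =
          σ x ^ k * (m.choose (m - k) : ZMod p) := by
        rw [h2]
        refine Finset.sum_congr rfl (fun y _ => ?_)
        rw [neg_add_eq_sub, h, mul_comm]
      rw [h3]
      field_simp
  obtain ⟨f, hfd, hf⟩ := key 1 hm0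
  simp only [pow_one] at hf
  have hf1 : f.natDegree ≤ 1 := by
    by_contra hn
    push Not at hn
    set n := f.natDegree with hndef
    have hk : m / n + 1 ≤ m := by
      have : m / n < m := Nat.div_lt_self hm0 hn
      omega
    obtain ⟨Q, hQd, hQ⟩ := key _ hk
    have hdeg : (f ^ (m / n + 1)).natDegree = (m / n + 1) * n := by rw [natDegree_pow]
    have h1 : m < (m / n + 1) * n := by
      have := Nat.lt_div_mul_add (a := m) (show 0 < n by omega)
      nlinarith
    have h2 : (m / n + 1) * n ≤ m + n := by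
      have := Nat.div_mul_le_self m n
      nlinarith
    have h3 : f ^ (m / n + 1) = Q := by
      apply poly_unique (by omega) (by omega)
      intro x
      rw [eval_pow, hf, hQ]
    rw [h3] at hdeg
    omega
  refine ⟨f.coeff 1, f.coeff 0, fun x => ?_⟩
  rw [← hf]
  conv_lhs => rw [eq_X_add_C_of_natDegree_le_one hf1]
  simp


/-- Closures of subgroups of the one-dimensional affine group. Let p be a prime and G a group of permutations of F_p lying in the affine group AGL₁(p) = {x ↦ ax + b, a ≠ 0} and containing all translations. (1) If G is a proper subgroup of AGL₁(p), then G is 2-closed: a permutation of F_p agreeing on every ordered pair of points with some element of G lies in G. (2) Every permutation of F_p agrees on every ordered pair with some element of AGL₁(p) (the 2-closure of AGL₁(p) is the symmetric group). (3) AGL₁(p) is 3-closed: a permutation agreeing on every ordered triple with some affine map is affine. -/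
theorem result (p : ℕ) [Fact p.Prime] (G : Subgroup (Equiv.Perm (ZMod p))) (hG : G ≤ Cfsg.affineGroup (ZMod p))
    (htrans : ∀ b : ZMod p, ∃ g ∈ G, ∀ x, g x = x + b) :
    (G ≠ Cfsg.affineGroup (ZMod p) → ∀ σ : Equiv.Perm (ZMod p), (∀ t : Fin 2 → ZMod p, ∃ g ∈ G, ∀ i, σ (t i) = g (t i)) → σ ∈ G) ∧
    (∀ σ : Equiv.Perm (ZMod p), (∀ t : Fin 2 → ZMod p, ∃ g ∈ Cfsg.affineGroup (ZMod p), ∀ i, σ (t i) = g (t i))) ∧
    (∀ σ : Equiv.Perm (ZMod p), (∀ t : Fin 3 → ZMod p, ∃ g ∈ Cfsg.affineGroup (ZMod p), ∀ i, σ (t i) = g (t i)) → σ ∈ Cfsg.affineGroup (ZMod p)) := by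
  refine ⟨?_, ?_, ?_⟩
  · intro hne σ hσ
    let H : Subgroup (ZMod p)ˣ :=
      { carrier := {a | ∃ g ∈ G, ∃ b : ZMod p, ∀ x, g x = (a : ZMod p) * x + b}
        one_mem' := ⟨1, G.one_mem, 0, fun x => by simp⟩
        mul_mem' := by
          rintro a a' ⟨g, hg, b, hb⟩ ⟨g', hg', b', hb'⟩
          refine ⟨g * g', G.mul_mem hg hg', a * b' + b, fun x => ?_⟩
          rw [Equiv.Perm.mul_apply, hb, hb', Units.val_mul]; ring
        inv_mem' := by
          rintro a ⟨g, hg, b, hb⟩
          refine ⟨g⁻¹, G.inv_mem hg, -((a⁻¹ : (ZMod p)ˣ) : ZMod p) * b, fun x => ?_⟩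
          rw [Equiv.Perm.inv_eq_iff_eq, hb, mul_add, ← mul_assoc, Units.mul_inv, neg_mul, mul_neg,
            ← mul_assoc, Units.mul_inv]
          ring }
    have hH : H ≠ ⊤ := by
      intro htop
      apply hne
      refine le_antisymm hG ?_
      rintro τ ⟨a, b, hτ⟩
      obtain ⟨g, hg, c, hc⟩ : a ∈ H := htop ▸ Subgroup.mem_top a
      obtain ⟨s, hs, hsx⟩ := htrans (b - c)
      have : τ = s * g := by
        ext1 x
        rw [Equiv.Perm.mul_apply, hsx, hc, hτ]; ring
      rw [this]; exact G.mul_mem hs hg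
    have hcard : Nat.card (ZMod p)ˣ = p - 1 := by
      rw [Nat.card_eq_fintype_card, ZMod.card_units]
    have hm : 2 * Nat.card H ≤ p - 1 := by
      have h1 := H.index_mul_card
      have h2 : H.index ≠ 1 := by rwa [Ne, Subgroup.index_eq_one]
      have h3 : H.index ≠ 0 := Subgroup.index_ne_zero_of_finite
      rw [← hcard, ← h1]
      exact Nat.mul_le_mul_right _ (by omega)
    have hpow : ∀ x y, (σ x - σ y) ^ Nat.card H = (x - y) ^ Nat.card H := by
      intro x y
      obtain ⟨g, hg, hgt⟩ := hσ ![x, y]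
      have e0 := hgt 0
      have e1 := hgt 1
      simp only [Matrix.cons_val_zero, Matrix.cons_val_one] at e0 e1
      obtain ⟨a, b, hab⟩ := hG hg
      have ha : a ∈ H := ⟨g, hg, b, hab⟩
      have ha1 : (a : ZMod p) ^ Nat.card H = 1 := by
        have : (⟨a, ha⟩ : H) ^ Nat.card H = 1 := pow_card_eq_one'
        have h2 := congrArg (fun z : H => ((z : (ZMod p)ˣ) : ZMod p)) this
        simpa only [Subgroup.coe_pow, Units.val_pow_eq_pow_val, Subgroup.coe_one, Units.val_one]
          using h2
      rw [e0, e1, hab, hab, show (a : ZMod p) * x + b - (a * y + b) = a * (x - y) by ring, mul_pow,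
        ha1, one_mul]
    obtain ⟨a, b, hab⟩ := affine_of_pow σ (Nat.card H) Nat.card_pos hm hpow
    obtain ⟨g, hg, hgt⟩ := hσ ![0, 1]
    have e0 := hgt 0
    have e1 := hgt 1
    simp only [Matrix.cons_val_zero, Matrix.cons_val_one] at e0 e1
    obtain ⟨a', b', hab'⟩ := hG hg
    rw [hab, hab'] at e0 e1
    simp only [mul_zero, zero_add, mul_one] at e0 e1
    subst e0
    have e2 := add_right_cancel e1
    have : σ = g := by
      ext1 x
      rw [hab, hab', e2]
    rw [this]; exact hg
  · intro σ t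
    by_cases h : t 0 = t 1
    · refine ⟨Equiv.addRight (σ (t 0) - t 0), ⟨1, σ (t 0) - t 0, fun x => by simp⟩, fun i => ?_⟩
      fin_cases i
      · simp
      · simp [← h]
    · have h1 : t 1 - t 0 ≠ 0 := sub_ne_zero.mpr (Ne.symm h)
      have h2 : σ (t 1) - σ (t 0) ≠ 0 := sub_ne_zero.mpr (fun e => h (σ.injective e).symm)
      have h3 : (σ (t 1) - σ (t 0)) / (t 1 - t 0) ≠ 0 := div_ne_zero h2 h1
      refine ⟨(Equiv.mulLeft₀ _ h3).trans
        (Equiv.addRight (σ (t 0) - (σ (t 1) - σ (t 0)) / (t 1 - t 0) * t 0)),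
        ⟨Units.mk0 _ h3, _, fun x => rfl⟩, fun i => ?_⟩
      fin_cases i
      · simp
      · simp only [Fin.mk_one, Equiv.trans_apply, Equiv.mulLeft₀_apply, Equiv.coe_addRight]
        field_simp
        ring
  · intro σ hσ
    refine Cfsg.Agent.S3524.result _ 2 ![0, 1] ?_ σ hσ
    rintro g ⟨a, b, hab⟩ hfix
    have e0 := hfix 0
    have e1 := hfix 1
    simp only [Matrix.cons_val_zero, Matrix.cons_val_one, hab, mul_zero, zero_add, mul_one] at e0 e1
    subst e0
    rw [add_zero] at e1
    ext1 x
    rw [hab, e1]; simp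

end Cfsg.Agent.S3518
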