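import Cfsg.Agent.Base
import Cfsg.Agent.H89.Derange
import Cfsg.Statements.S3547

set_option autoImplicit false
open Cfsg

namespace Cfsg.Agent.S3547

open MulAction

/-- Let G act faithfully and transitively on a finite set Ω, let D be the subgroup generated by the derangements, and let r_G and r_D be the numbers of orbits of G and of D on ordered pairs of points (the permutation ranks). Then r_D − 1 = (r_G − 1)·[G : D]. -/
theorem result {G Ω : Type*} [Group G] [Finite G] [MulAction G Ω] [FaithfulSMul G Ω] [Finite Ω]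
    (htrans : MulAction.IsPretransitive G Ω) :
    Nat.card (MulAction.orbitRel.Quotient ↥(Subgroup.closure {g : G | ∀ ω : Ω, g • ω ≠ ω}) (Ω × Ω)) - 1 =
      (Nat.card (MulAction.orbitRel.Quotient G (Ω × Ω)) - 1) * (Subgroup.closure {g : G | ∀ ω : Ω, g • ω ≠ ω}).index := by
  classical
  have := Fintype.ofFinite G
  set D := Subgroup.closure {g : G | ∀ ω : Ω, g • ω ≠ ω}
  obtain ⟨-, h2⟩ := H89.transitive_of_derangements_mem (Ω := Ω) D
    fun g hg => Subgroup.subset_closure hg
  have h3 := H89.sum_card_fixedBy (G := G) (Ω := Ω × Ω)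
  have h4 : ∑ g : D, Nat.card (fixedBy (Ω × Ω) (g : G)) = _ :=
    H89.sum_card_fixedBy (G := D) (Ω := Ω × Ω)
  have h5 : ∀ g ∈ Finset.univ.filter fun g => g ∉ D, Nat.card (fixedBy (Ω × Ω) g) = 1 := by
    intro g hg
    have h := h2 g (Finset.mem_filter.1 hg).2
    obtain ⟨-, ⟨a, ha⟩⟩ := Nat.card_eq_one_iff_unique.1 h
    refine Nat.card_eq_one_iff_unique.2 ⟨⟨fun x y => Subtype.ext (Prod.ext ?_ ?_)⟩,
      ⟨⟨(a, a), Prod.ext ha ha⟩⟩⟩
    · exact H89.eq_of_card_fixedBy_eq_one h (congrArg Prod.fst x.2) (congrArg Prod.fst y.2)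
    · exact H89.eq_of_card_fixedBy_eq_one h (congrArg Prod.snd x.2) (congrArg Prod.snd y.2)
  rw [← H89.sum_subgroup_add_sum_notMem D, h4, Finset.sum_congr rfl h5, Finset.sum_const,
    smul_eq_mul, mul_one] at h3
  have h6 := H89.card_filter_notMem_add D
  have h7 := D.index_mul_card
  have h8 : 0 < Nat.card D := Nat.card_pos
  have h9 : 0 < D.index := Nat.pos_of_ne_zero Subgroup.index_ne_zero_of_finite
  set a := Nat.card (orbitRel.Quotient D (Ω × Ω))
  set b := Nat.card (orbitRel.Quotient G (Ω × Ω))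
  have h10 : a + D.index = b * D.index + 1 := by
    refine Nat.eq_of_mul_eq_mul_right h8 ?_
    rw [add_mul, add_mul, mul_assoc, h7]
    omega
  rw [Nat.sub_mul, one_mul]
  omega

end Cfsg.Agent.S3547
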