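import Cfsg.Agent.Base
import Cfsg.Agent.H89.Derange
import Cfsg.Agent.H89.Burnside2
import Cfsg.Statements.S3548

set_option autoImplicit false
open Cfsg

namespace Cfsg.Agent.S3548

open MulAction

/-- Let G act faithfully and transitively on a finite set with n ≥ 2 points and let D be the subgroup generated by the derangements. Then the index of D in G divides n − 1, and if it equals n − 1 then n is a prime power. -/
theorem result {G Ω : Type*} [Group G] [Finite G] [MulAction G Ω] [FaithfulSMul G Ω] [Finite Ω]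
    (htrans : MulAction.IsPretransitive G Ω) (hΩ : 2 ≤ Nat.card Ω) :
    (Subgroup.closure {g : G | ∀ ω : Ω, g • ω ≠ ω}).index ∣ Nat.card Ω - 1 ∧
    ((Subgroup.closure {g : G | ∀ ω : Ω, g • ω ≠ ω}).index = Nat.card Ω - 1 → IsPrimePow (Nat.card Ω)) := by
  set D := Subgroup.closure {g : G | ∀ ω : Ω, g • ω ≠ ω}
  have hD : ∀ g : G, (∀ ω : Ω, g • ω ≠ ω) → g ∈ D := fun g hg => Subgroup.subset_closure hg
  have : D.Normal := H89.normal_closure_derangements
  have : Nontrivial Ω := Finite.one_lt_card_iff_nontrivial.1 hΩ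
  obtain ⟨a⟩ : Nonempty Ω := inferInstance
  refine ⟨?_, fun h => ?_⟩
  · rw [← Set.ncard_univ Ω]
    exact H89.index_dvd_ncard_sub_one D hD (Set.mem_univ a) fun _ _ _ _ => Set.mem_univ _
  obtain ⟨h1, h2⟩ := H89.transitive_of_derangements_mem D hD
  have horb : ∀ b, b ≠ a → orbit (stabilizer G a) b = {a}ᶜ := fun b hb => by
    refine Set.eq_of_subset_of_ncard_le ?_ ?_
    · rintro _ ⟨g, rfl⟩ h'
      exact hb (smul_left_cancel g (h'.trans g.2.symm))
    · rw [Set.ncard_compl, Set.ncard_singleton, ← h]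
      exact Nat.le_of_dvd ((Set.ncard_pos (s := orbit _ b)).2 ⟨b, mem_orbit_self b⟩)
        (H89.index_dvd_ncard_orbit D hD hb)
  have h2t : IsMultiplyPretransitive G Ω 2 := by
    rw [SubMulAction.ofStabilizer.isMultiplyPretransitive (a := a), is_one_pretransitive_iff]
    refine ⟨fun b c => ?_⟩
    have : (c : Ω) ∈ orbit (stabilizer G a) (b : Ω) := horb b b.2 ▸ c.2
    obtain ⟨g, hg⟩ := this
    exact ⟨g, Subtype.ext hg⟩
  have hreg : stabilizer D a = ⊥ := by
    rw [H89.stabilizer_subgroup_eq_bot_iff]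
    intro n hn hna
    refine eq_of_smul_eq_smul (α := Ω) fun b => ?_
    rw [one_smul]
    by_cases hb : b = a
    · rw [hb, hna]
    have h3 : (stabilizer G b).subgroupOf (stabilizer G a) ≤ D.subgroupOf (stabilizer G a) := by
      intro g hg
      by_contra h'
      exact hb (H89.eq_of_card_fixedBy_eq_one (h2 g h') hg g.2)
    have h4 : (stabilizer G b).subgroupOf (stabilizer G a) = D.subgroupOf (stabilizer G a) := by
      have h5 : (stabilizer G b).relIndex (stabilizer G a) = D.relIndex (stabilizer G a) := by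
        rw [← H89.ncard_orbit_stabilizer, horb b hb, H89.relIndex_stabilizer_eq_index, h,
          Set.ncard_compl, Set.ncard_singleton]
      have h6 := Subgroup.relIndex_mul_index h3
      refine le_antisymm h3 (Subgroup.relIndex_eq_one.1 ?_)
      exact Nat.eq_of_mul_eq_mul_right (Nat.pos_of_ne_zero Subgroup.index_ne_zero_of_finite)
        (h6.trans (h5.trans (one_mul _).symm))
    have : (⟨n, hna⟩ : stabilizer G a) ∈ (stabilizer G b).subgroupOf (stabilizer G a) := h4 ▸ hn
    exact this
  have hc := H89.card_eq_of_regular a hreg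
  have : Nontrivial D := Finite.one_lt_card_iff_nontrivial.1 (by omega)
  obtain ⟨p, hp, hpow⟩ := H89.exists_prime_of_orderOf_eq (N := D) fun x y hx hy => by
    obtain ⟨g, -, hg⟩ := H89.conj_of_regular_normal h2t D a hreg x.2 y.2
      (fun h => hx (Subtype.ext h)) fun h => hy (Subtype.ext h)
    rw [← Subgroup.orderOf_coe, ← Subgroup.orderOf_coe, ← hg]
    exact ((MulAut.conj g).orderOf_eq x).symm
  have : Fact p.Prime := ⟨hp⟩
  obtain ⟨k, hk⟩ := IsPGroup.iff_card.1 (show IsPGroup p D from fun x => ⟨1, by simpa using hpow x⟩)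
  rw [← hc, hk]
  refine hp.isPrimePow.pow fun h0 => ?_
  rw [h0, pow_zero] at hk
  omega

end Cfsg.Agent.S3548
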