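import Cfsg.Agent.Base
import Cfsg.Agent.H89.Prim
import Cfsg.Statements.S3560

set_option autoImplicit false
open Cfsg

namespace Cfsg.Agent.S3560

open MulAction Equiv

/-- Adjacency in the Hamming graph. -/
def Adj {ι A : Type*} (x y : ι → A) : Prop := ∃ i, x i ≠ y i ∧ ∀ j, j ≠ i → x j = y j

theorem adj_piCongrRight {ι A : Type*} (σ : ι → Perm A) (x y : ι → A) :
    Adj (piCongrRight σ x) (piCongrRight σ y) ↔ Adj x y := by
  simp [Adj]

theorem adj_comp {ι A : Type*} (π : Perm ι) (x y : ι → A) : Adj (x ∘ π) (y ∘ π) ↔ Adj x y := by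
  constructor
  · rintro ⟨i, h1, h2⟩
    refine ⟨π i, h1, fun j hj => ?_⟩
    obtain ⟨j, rfl⟩ := π.surjective j
    exact h2 j fun h => hj (by rw [h])
  · rintro ⟨i, h1, h2⟩
    obtain ⟨i, rfl⟩ := π.surjective i
    exact ⟨i, h1, fun j hj => h2 _ fun h => hj (π.injective h)⟩

theorem rel_trivial {ι A : Type*} [Fintype ι] [Fintype A] (hA : 2 < Fintype.card A)
    (r : (ι → A) → (ι → A) → Prop) (hr : Equivalence r)
    (h : ∀ τ : Perm (ι → A), (∀ x y, Adj (τ x) (τ y) ↔ Adj x y) → ∀ x y, r x y → r (τ x) (τ y)) :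
    (∀ x y, r x y → x = y) ∨ ∀ x y, r x y := by
  classical
  rw [or_iff_not_imp_left]
  intro h0
  push Not at h0
  obtain ⟨x, y, hxy, hne⟩ := h0
  obtain ⟨i, hi⟩ := Function.ne_iff.1 hne
  obtain ⟨z, hz1, hz2⟩ : ∃ z, z ≠ x i ∧ z ≠ y i := by
    obtain ⟨z, -, hz⟩ := Finset.exists_mem_notMem_of_card_lt_card (s := {x i, y i})
      (t := Finset.univ) (Finset.card_le_two.trans_lt hA)
    exact ⟨z, by simpa using hz⟩
  have h1 : r y (Function.update y i z) := by
    have := h _ (adj_piCongrRight (Function.update (fun _ => 1) i (swap (y i) z))) x y hxy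
    have e1 : piCongrRight (Function.update (fun _ => (1 : Perm A)) i (swap (y i) z)) x = x := by
      ext j
      by_cases hj : j = i
      · subst hj
        simp [swap_apply_of_ne_of_ne hi hz1.symm]
      · simp [hj]
    have e2 : piCongrRight (Function.update (fun _ => (1 : Perm A)) i (swap (y i) z)) y =
        Function.update y i z := by
      ext j
      by_cases hj : j = i
      · subst hj
        simp
      · simp [hj]
    rw [e1, e2] at this
    exact hr.trans (hr.symm hxy) this
  have h2 : ∀ w j v, r w (Function.update w j v) := by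
    intro w j v
    by_cases hv : v = w j
    · rw [hv, Function.update_eq_self]
      exact hr.refl _
    have h3 := h (arrowCongr (swap i j) (Equiv.refl A)) (adj_comp (swap i j)) _ _ h1
    obtain ⟨σ, hσ1, hσ2⟩ := is_two_pretransitive_iff.1 (Perm.isMultiplyPretransitive A 2)
      hz2.symm (Ne.symm hv)
    have h4 := h _ (adj_piCongrRight (Function.update (fun k => swap (y (swap i j k)) (w k)) j σ))
      _ _ h3
    convert h4 using 1
    · ext k
      by_cases hk : k = j
      · subst hk
        simpa using hσ1.symm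
      · simp [hk]
    · ext k
      by_cases hk : k = j
      · subst hk
        simpa using hσ2.symm
      · have : swap i j k ≠ i := fun h' => hk (by rwa [swap_apply_eq_iff, swap_apply_left] at h')
        simp [hk, this]
  intro w w'
  have key : ∀ s : Finset ι, r w (s.piecewise w' w) := fun s => by
    induction s using Finset.induction_on with
    | empty => simpa using hr.refl w
    | insert a s _ ih =>
      rw [Finset.piecewise_insert]
      exact hr.trans ih (h2 _ _ _)
  simpa using key Finset.univ

/-- Let K be a finite group isomorphic to a direct product of r ≥ 2 groups all of the same order m ≥ 3. Then K is not a B-group: there is a primitive but not doubly transitive permutation group (on some finite set) containing a regular subgroup isomorphic to K. -/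
theorem result {K : Type*} [Group K] [Finite K] {ι : Type*} [Fintype ι] (F : ι → Type*) [∀ i, Group (F i)]
    (hr : 2 ≤ Fintype.card ι) (m : ℕ) (hm : 3 ≤ m) (hcard : ∀ i, Nat.card (F i) = m) (e : K ≃* (∀ i, F i)) :
    ∃ (n : ℕ) (G R : Subgroup (Equiv.Perm (Fin n))), R ≤ G ∧ Nonempty (↥R ≃* K) ∧
      MulAction.IsPretransitive ↥R (Fin n) ∧ (∀ a : Fin n, MulAction.stabilizer ↥R a = ⊥) ∧
      MulAction.IsPreprimitive ↥G (Fin n) ∧ ¬ MulAction.IsMultiplyPretransitive ↥G (Fin n) 2 := by
  classical
  have hfin : ∀ i, Finite (F i) := fun i => Nat.finite_of_card_ne_zero (by rw [hcard]; omega)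
  let f : ∀ i, F i ≃ Fin m := fun i => Finite.equivFinOfCardEq (hcard i)
  let b := Finite.equivFin K
  let c : Fin (Nat.card K) ≃ (ι → Fin m) := b.symm.trans (e.toEquiv.trans (piCongrRight f))
  let G : Subgroup (Perm (Fin (Nat.card K))) :=
    { carrier := {σ | ∀ x y, Adj (c (σ x)) (c (σ y)) ↔ Adj (c x) (c y)}
      one_mem' := fun _ _ => Iff.rfl
      mul_mem' := fun {σ τ} hσ hτ x y => (hσ _ _).trans (hτ x y)
      inv_mem' := fun {σ} hσ x y => by simpa using (hσ (σ⁻¹ x) (σ⁻¹ y)).symm }
  let l : K →* Perm (Fin (Nat.card K)) := b.permCongrHom.toMonoidHom.comp (toPermHom K K)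
  have hl : ∀ k x, l k x = b (k * b.symm x) := fun _ _ => rfl
  have hlinj : Function.Injective l := (injective_iff_map_eq_one l).2 fun k hk => by
    have := hl k (b 1)
    rw [hk] at this
    simpa using this.symm
  have hRG : l.range ≤ G := by
    rintro _ ⟨k, rfl⟩ x y
    simp [Adj, c, hl]
  have hRt : IsPretransitive l.range (Fin (Nat.card K)) := ⟨fun x y =>
    ⟨⟨_, b.symm y * (b.symm x)⁻¹, rfl⟩, (hl _ _).trans (by simp)⟩⟩
  have hGt : IsPretransitive G (Fin (Nat.card K)) := H89.isPretransitive_of_le hRG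
  refine ⟨_, G, l.range, hRG, ⟨(MonoidHom.ofInjective hlinj).symm⟩, hRt, fun a => ?_, ?_, ?_⟩
  · rw [H89.stabilizer_subgroup_eq_bot_iff]
    rintro _ ⟨k, rfl⟩ h
    have h1 : b (k * b.symm a) = a := h
    rw [← eq_symm_apply, mul_eq_right] at h1
    rw [h1, map_one]
  · refine H89.isPreprimitive_of_rel fun r hr hinv => ?_
    rcases rel_trivial (ι := ι) (A := Fin m) (by rw [Fintype.card_fin]; omega)
      (fun x y => r (c.symm x) (c.symm y)) ⟨fun _ => hr.refl _, hr.symm, hr.trans⟩
      (fun τ hτ x y hxy => by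
        have := hinv ⟨c.symm.permCongr τ, fun x y => by simpa using hτ _ _⟩ _ _ hxy
        simpa [Subgroup.smul_def] using this) with h | h
    · exact Or.inl fun x y hxy => c.injective (h _ _ (by simpa using hxy))
    · exact Or.inr fun x y => by simpa using h (c x) (c y)
  · intro h2
    obtain ⟨i, j, hij⟩ := Fintype.exists_pair_of_one_lt_card (α := ι) hr
    let u : Fin m := ⟨0, by omega⟩
    let v : Fin m := ⟨1, by omega⟩
    have huv : u ≠ v := by simp [u, v]
    have h3 : (fun _ : ι => u) ≠ Function.update (fun _ => u) i v := fun h =>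
      huv (by simpa using congrFun h i)
    have h4 : (fun _ : ι => u) ≠ fun _ => v := fun h => huv (congrFun h i)
    obtain ⟨⟨σ, hσ⟩, h5, h6⟩ := is_two_pretransitive_iff.1 h2 (c.symm.injective.ne h3)
      (c.symm.injective.ne h4)
    have h7 := hσ (c.symm fun _ => u) (c.symm (Function.update (fun _ => u) i v))
    rw [show σ _ = _ from h5, show σ _ = _ from h6] at h7
    simp only [apply_symm_apply] at h7
    obtain ⟨k, -, hk⟩ := h7.2 ⟨i, by simpa using huv, fun j hj => by simp [hj]⟩
    by_cases hik : i = k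
    · exact huv (hk j (hik ▸ hij.symm))
    · exact huv (hk i hik)

end Cfsg.Agent.S3560
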