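import Cfsg.Statements.S3571
import Cfsg.Agent.H19.AltDer
import Cfsg.Agent.H86.AltAut

set_option autoImplicit false
open Cfsg

namespace Cfsg.Agent.S3571

/-- Let G be an almost simple group whose socle is an alternating group of degree m ≥ 5 (G has a normal subgroup T isomorphic to that alternating group with trivial centralizer), acting faithfully and primitively on a finite set Ω with at least two points, and let r be the largest prime divisor of the number of points. Then G contains an element of order r fixing no point. -/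
theorem result {G Ω : Type*} [Group G] [Finite G] [MulAction G Ω] [FaithfulSMul G Ω] [Finite Ω]
    (T : Subgroup G) (hT : T.Normal) (hTc : Subgroup.centralizer (T : Set G) = ⊥) (m : ℕ) (hm : 5 ≤ m)
    (eT : ↥T ≃* ↥(alternatingGroup (Fin m))) (hprim : MulAction.IsPreprimitive G Ω) (hΩ : 2 ≤ Nat.card Ω)
    (r : ℕ) (hr : r.Prime) (hrd : r ∣ Nat.card Ω) (hmax : ∀ s : ℕ, s.Prime → s ∣ Nat.card Ω → s ≤ r) :
    ∃ g : G, orderOf g = r ∧ ∀ ω : Ω, g • ω ≠ ω := by
  open scoped Pointwise in
  classical
  have c5 : 5 ≤ Fintype.card (Fin m) := by simpa using hm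
  let φ : alternatingGroup (Fin m) →* G := T.subtype.comp eT.symm.toMonoidHom
  have φi : Function.Injective φ := Subtype.val_injective.comp eT.symm.injective
  have : Nontrivial Ω := Finite.one_lt_card_iff_nontrivial.1 hΩ
  have : Nontrivial (alternatingGroup (Fin m)) :=
    alternatingGroup.nontrivial_of_three_le_card (by simpa using (by omega : 3 ≤ m))
  have tr : MulAction.IsPretransitive T Ω :=
    MulAction.IsQuasiPreprimitive.isPretransitive_of_normal fun h => by
      obtain ⟨x, hx⟩ := exists_ne (1 : alternatingGroup (Fin m))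
      refine hx (φi (FaithfulSMul.eq_of_smul_eq_smul fun (w : Ω) => ?_))
      rw [map_one, one_smul]
      exact (h ▸ Set.mem_univ w : w ∈ MulAction.fixedPoints T Ω) (eT.symm x)
  obtain ⟨w⟩ : Nonempty Ω := inferInstance
  have tr' : ∀ v : Ω, ∃ x, φ x • v = w := fun v => by
    obtain ⟨t, ht⟩ := tr.exists_smul_eq v w
    exact ⟨eT t, (congrArg (fun x : T => (x : G) • v) (eT.symm_apply_apply t)).trans ht⟩
  have ix : ((MulAction.stabilizer G w).comap φ).index = Nat.card Ω := by
    let : MulAction (alternatingGroup (Fin m)) Ω := MulAction.compHom Ω φ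
    have : MulAction.IsPretransitive (alternatingGroup (Fin m)) Ω := ⟨fun u v => by
      obtain ⟨x, hx⟩ := tr' u
      obtain ⟨y, hy⟩ := tr' v
      refine ⟨y⁻¹ * x, show φ (y⁻¹ * x) • u = v from ?_⟩
      rw [map_mul, map_inv, mul_smul, hx, ← hy, inv_smul_smul]⟩
    exact MulAction.index_stabilizer_of_transitive (alternatingGroup (Fin m)) w
  obtain ⟨σ, s1, s2⟩ := H19.Der.core c5 ((MulAction.stabilizer G w).comap φ)
    (fun h => by rw [h, Subgroup.index_top] at ix; omega) hr (ix ▸ hrd) (ix ▸ hmax) (by
    intro h6 O o1 o2 o3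
    let E := MulEquiv.ofBijective _ ⟨H86.conjNormal_injective (α := Fin m) (by omega), fun θ =>
      H86.exists_conjNormal_eq (by omega) θ (H86.isThreeCycle_aut h6 θ)⟩
    let θ : G →* MulAut (alternatingGroup (Fin m)) :=
      (MulAut.congr eT).toMonoidHom.comp MulAut.conjNormal
    let ψ : G →* Equiv.Perm (Fin m) := E.symm.toMonoidHom.comp θ
    have k1 : ∀ g x, φ (MulAut.conjNormal (ψ g) x) = g * φ x * g⁻¹ := fun g x => by
      have : MulAut.conjNormal (ψ g) = θ g := E.apply_symm_apply (θ g)
      rw [this]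
      simp [θ, φ]
    have k2 : ∀ x, ψ (φ x) = x := fun x => H86.conjNormal_injective (α := Fin m) (by omega)
      (MulEquiv.ext fun y => φi (by
        rw [k1, ← map_inv, ← map_mul, ← map_mul]
        rfl))
    have k3 : MulAction.stabilizer G w ≤ (MulAction.stabilizer _ O).comap ψ := fun h hh => by
      obtain ⟨x, x1, x2⟩ : ∃ x ∈ O, ψ h x ∈ O := by
        by_contra! c
        have := Finset.card_le_card_of_injOn (t := Oᶜ) (ψ h)
          (fun x hx => Finset.mem_compl.2 (c x hx)) (ψ h).injective.injOn
        rw [Finset.card_compl] at this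
        omega
      refine Finset.eq_of_subset_of_card_le (fun y hy => ?_) (Finset.card_smul_finset _ _).ge
      obtain ⟨z, z1, rfl⟩ := Finset.mem_smul_finset.1 hy
      obtain ⟨s, s1, rfl⟩ := (o3 x x1 z).1 z1
      refine (o3 _ x2 _).2 ⟨MulAut.conjNormal (ψ h) s, ?_, by simp⟩
      rw [Subgroup.mem_comap, k1]
      exact mul_mem (mul_mem hh s1) (inv_mem hh)
    rcases (MulAction.IsPreprimitive.isCoatom_stabilizer_of_isPreprimitive G w).le_iff.1 k3
      with e | e
    · obtain ⟨x, hx⟩ := Finset.card_pos.1 (show 0 < O.card by omega)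
      obtain ⟨y, hy⟩ := not_forall.1 (mt Finset.eq_univ_iff_forall.2 o2)
      obtain ⟨s, hs⟩ := (alternatingGroup.isPretransitive_of_three_le_card (Fin m)
        (by simpa using (by omega : 3 ≤ m))).exists_smul_eq x y
      have : φ s ∈ (MulAction.stabilizer _ O).comap ψ := e ▸ Subgroup.mem_top _
      rw [Subgroup.mem_comap, k2, MulAction.mem_stabilizer_iff] at this
      exact absurd (this ▸ hs ▸ Finset.smul_mem_smul_finset hx) hy
    · intro s hs
      rw [Subgroup.mem_comap, ← e, Subgroup.mem_comap, k2]
      exact hs)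
  refine ⟨φ σ, (orderOf_injective φ φi σ).trans s1, fun v hv => ?_⟩
  obtain ⟨x, hx⟩ := tr' v
  refine s2 x (show φ (x * σ * x⁻¹) • w = w from ?_)
  rw [map_mul, map_mul, map_inv, mul_smul, mul_smul, ← hx, inv_smul_smul, hv]

end Cfsg.Agent.S3571
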