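import Cfsg.Statements.S3572
import Cfsg.Agent.H2.DiF
import Cfsg.Agent.H2.DiQ
import Cfsg.Agent.H2.DiR
import Cfsg.Agent.H92.DiO
import Cfsg.Agent.H92.DiN
import Cfsg.Agent.H98.DiK

set_option autoImplicit false
open Cfsg

namespace Cfsg.Agent.S3572

/-- A finite primitive permutation group containing a dihedral subgroup that acts regularly (transitively with trivial point stabilizers) is doubly transitive. -/
theorem result {G Ω : Type*} [Group G] [Finite G] [MulAction G Ω] [FaithfulSMul G Ω] [Finite Ω]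
    (hprim : MulAction.IsPreprimitive G Ω) (D : Subgroup G) (m : ℕ) (hD : Nonempty (↥D ≃* DihedralGroup m))
    (hDreg : MulAction.IsPretransitive ↥D Ω ∧ ∀ a : Ω, MulAction.stabilizer ↥D a = ⊥) :
    MulAction.IsMultiplyPretransitive G Ω 2 := by
    have hL := H98.DiK.jobL (H98.DiK.jobK H2.Di.jobM) H92.DiN.jobN
    exact H2.Di.final (H2.Di.jobQ (H2.Di.jobF (H92.DiO.jobO H2.Di.jobM hL) hL)) hprim D m hD hDreg

end Cfsg.Agent.S3572
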