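import Cfsg.Agent.Base
import Cfsg.Statements.S3573


set_option autoImplicit false
open Cfsg

namespace Cfsg.Agent.S3573

open Equiv Equiv.Perm Finset in
theorem key (n k r : ℕ) (hkn : k ≤ n) (hr : r.Prime) (hn : r ≤ n) :
    (∀ σ : Perm (Fin n), orderOf σ = r → ∃ s : Finset (Fin n), s.card = k ∧ s.image σ = s) ↔
      k % r ≤ n % r := by
  have := Fact.mk hr
  refine ⟨fun h => ?_, fun h σ hσ => ?_⟩
  · have h0 : 0 < n / r := Nat.div_pos hn hr.pos
    obtain ⟨σ, hσ⟩ := (exists_with_cycleType_iff (Fin n) (m := Multiset.replicate (n / r) r)).2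
      ⟨by simpa using Nat.div_mul_le_self n r, fun a ha => Multiset.eq_of_mem_replicate ha ▸ hr.two_le⟩
    have h1 : orderOf σ = r := by
      rw [← lcm_cycleType, hσ]
      refine Nat.dvd_antisymm (Multiset.lcm_dvd.2 fun b hb => (Multiset.eq_of_mem_replicate hb).dvd)
        (Multiset.dvd_lcm (Multiset.mem_replicate.2 ⟨h0.ne', rfl⟩))
    obtain ⟨s, hs, e⟩ := h σ h1
    have h2 : ∀ x, σ x ∈ s ↔ x ∈ s := fun x => by
      conv_lhs => rw [← e]
      exact σ.injective.mem_finset_image
    have h3 := card_compl_support_modEq (p := r) (n := 1) (σ := σ.subtypePerm h2) (by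
      rw [pow_one, subtypePerm_pow, ← h1]
      ext x
      simp [pow_orderOf_eq_one])
    have h4 : (σ.subtypePerm h2).supportᶜ.card ≤ σ.supportᶜ.card :=
      card_le_card_of_injOn Subtype.val (fun x hx => by
        simpa [Subtype.ext_iff] using hx) Subtype.val_injective.injOn
    rw [card_compl σ.support, ← sum_cycleType σ, hσ, Multiset.sum_replicate, smul_eq_mul,
      Fintype.card_fin, ← Nat.mod_eq_sub_div_mul] at h4
    rw [Fintype.card_coe, hs] at h3
    exact h3.symm.le.trans ((Nat.mod_le _ _).trans h4)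
  · have h1 : ∀ c ∈ σ.cycleFactorsFinset, c.support.card = r := fun c hc =>
      pow_prime_eq_one_iff.1 (hσ ▸ pow_orderOf_eq_one σ) _ (Multiset.mem_map_of_mem _ hc)
    set c := σ.cycleFactorsFinset.card
    have h2 : σ.supportᶜ.card = n - c * r := by
      rw [card_compl, ← sum_cycleType, cycleType_of_pow_prime_eq_one (p := r)
        (hσ ▸ pow_orderOf_eq_one σ), Multiset.sum_replicate, Fintype.card_fin, cycleType_def,
        Multiset.card_map]
      rfl
    have h3 : c * r ≤ n := by
      have := sum_cycleType_le σ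
      rwa [cycleType_of_pow_prime_eq_one (p := r) (hσ ▸ pow_orderOf_eq_one σ),
        Multiset.sum_replicate, Fintype.card_fin, cycleType_def, Multiset.card_map] at this
    obtain ⟨j, hj, h4, h5⟩ : ∃ j ≤ c, j * r ≤ k ∧ k - j * r ≤ n - c * r := by
      rcases le_total c (k / r) with h6 | h6
      · exact ⟨c, le_rfl, (Nat.le_div_iff_mul_le hr.pos).1 h6, by omega⟩
      · refine ⟨_, h6, Nat.div_mul_le_self k r, ?_⟩
        rw [← Nat.mod_eq_sub_div_mul]
        refine h.trans (le_trans ?_ (Nat.mod_le _ r))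
        conv_lhs => rw [← Nat.sub_add_cancel h3, Nat.add_mul_mod_self_right]
    obtain ⟨J, hJ, hJc⟩ := exists_subset_card_eq hj
    obtain ⟨I, hI, hIc⟩ := exists_subset_card_eq (h5.trans h2.ge)
    refine ⟨J.biUnion support ∪ I, ?_, eq_of_subset_of_card_le (fun x hx => ?_)
      (card_image_of_injective _ σ.injective).ge⟩
    · rw [card_union_of_disjoint, card_biUnion, sum_congr rfl fun x hx => h1 x (hJ hx), hIc,
        sum_const, hJc, smul_eq_mul, Nat.add_sub_cancel' h4]
      · exact fun x hx y hy hne =>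
          (cycleFactorsFinset_pairwise_disjoint σ (hJ hx) (hJ hy) hne).disjoint_support
      · refine Finset.disjoint_left.2 fun x hx hx' => ?_
        obtain ⟨d, hd, hx⟩ := mem_biUnion.1 hx
        exact mem_compl.1 (hI hx') (mem_cycleFactorsFinset_support_le (hJ hd) hx)
    · obtain ⟨y, hy, rfl⟩ := mem_image.1 hx
      rcases mem_union.1 hy with hy | hy'
      · obtain ⟨d, hd, hy⟩ := mem_biUnion.1 hy
        refine mem_union_left _ (mem_biUnion.2 ⟨d, hd, ?_⟩)
        rw [← (mem_cycleFactorsFinset_iff.1 (hJ hd)).2 y hy]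
        exact apply_mem_support.2 hy
      · rwa [notMem_support.1 (mem_compl.1 (hI hy'))]


/-- Let 1 ≤ k with 2k < n and consider the symmetric group of degree n acting on the k-subsets of an n-set. Let r be a prime dividing the number C(n,k) of k-subsets. If r is odd, then every permutation of order r fixes some k-subset if and only if r ≤ k and the remainder of k modulo r is at most the remainder of n modulo r. If r = 2, then every involution fixes some k-subset if and only if k is even or n is odd. -/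
theorem result (n k : ℕ) (hk : 1 ≤ k) (hkn : 2 * k < n) (r : ℕ) (hr : r.Prime) (hrd : r ∣ Nat.choose n k) :
    (r ≠ 2 → ((∀ σ : Equiv.Perm (Fin n), orderOf σ = r → ∃ s : Finset (Fin n), s.card = k ∧ s.image σ = s) ↔
      (r ≤ k ∧ k % r ≤ n % r))) ∧
    (r = 2 → ((∀ σ : Equiv.Perm (Fin n), orderOf σ = 2 → ∃ s : Finset (Fin n), s.card = k ∧ s.image σ = s) ↔
      (Even k ∨ Odd n))) := by
  have := Fact.mk hr
  have h0 : ∀ a b : ℕ, b ≤ a → r ∣ a.choose b → r ≤ a := fun a b h h' =>
    hr.dvd_factorial.1 (Nat.choose_mul_factorial_mul_factorial h ▸ (h'.mul_right _).mul_right _)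
  have hn := h0 n k (by omega) hrd
  refine ⟨fun _ => (key n k r (by omega) hr hn).trans ⟨fun h => ⟨?_, h⟩, fun h => h.2⟩, ?_⟩
  · by_contra! h1
    have h2 := Choose.choose_modEq_choose_mod_mul_choose_div_nat (n := n) (k := k) (p := r)
    rw [Nat.div_eq_of_lt h1, Nat.choose_zero_right, mul_one] at h2
    exact (h0 _ _ h ((h2.dvd_iff dvd_rfl).1 hrd)).not_gt (Nat.mod_lt _ hr.pos)
  · rintro rfl
    rw [key n k 2 (by omega) hr hn, Nat.even_iff, Nat.odd_iff]
    omega

end Cfsg.Agent.S3573
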