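import Cfsg.Agent.Base
import Cfsg.Statements.S3575

set_option autoImplicit false
open Cfsg

namespace Cfsg.Agent.S3575

open Equiv Equiv.Perm Finset

theorem dvd_supp {α : Type*} [Fintype α] [DecidableEq α] {r : ℕ} (hr : r.Prime) {σ : Perm α}
    (h : σ ^ r = 1) : σ.support.card = r * σ.cycleType.card := by
  have := Fact.mk hr
  rw [← sum_cycleType, cycleType_of_pow_prime_eq_one h]
  simp [mul_comm]

theorem exists_perm (α : Type*) [Fintype α] [DecidableEq α] {r : ℕ} (hr : r.Prime) {c : ℕ}
    (h : r * c ≤ Fintype.card α) : ∃ ρ : Perm α, ρ ^ r = 1 ∧ ρ.support.card = r * c := by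
  have := Fact.mk hr
  obtain ⟨ρ, hρ⟩ := (exists_with_cycleType_iff α (m := Multiset.replicate c r)).2
    ⟨by simpa [mul_comm] using h, fun a ha => Multiset.eq_of_mem_replicate ha ▸ hr.two_le⟩
  exact ⟨ρ, pow_prime_eq_one_iff.2 fun a ha => Multiset.eq_of_mem_replicate (hρ ▸ ha), by
    rw [← sum_cycleType, hρ]; simp [mul_comm]⟩

theorem exists_split {ι : Type*} (s : Finset ι) (c u : ℕ) (h : u ≤ s.card * c) :
    ∃ v : ι → ℕ, (∀ j, v j ≤ c) ∧ ∑ j ∈ s, v j = u := by
  classical
  induction s using Finset.induction_on generalizing u with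
  | empty => exact ⟨0, fun _ => Nat.zero_le _, by simp at h; simp [h]⟩
  | insert x s hx ih =>
    rw [card_insert_of_notMem hx, add_mul, one_mul] at h
    obtain ⟨v, h1, h2⟩ := ih (u - c) (by omega)
    refine ⟨Function.update v x (min u c), fun j => ?_, ?_⟩
    · by_cases e : j = x
      · simp [e]
      · simp [e, h1]
    · rw [sum_insert hx, Function.update_self, sum_update_of_notMem hx, h2]
      omega

theorem analysis {α : Type*} [Fintype α] [DecidableEq α] {a b r h : ℕ} (hr : r.Prime) (ha : 0 < a)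
    {σ : Perm α} (hσ : σ ^ r = 1) (hs : σ.support.card = r * h) {f : α → Fin b}
    (hf : ∀ j, Nat.card {x // f x = j} = a) {π : Perm (Fin b)} (hπ : ∀ x, f (σ x) = π (f x)) :
    ∃ t, r * t ≤ b ∧ a * t ≤ h ∧ h ≤ a * t + (b - r * t) * (a / r) := by
  have h1 : ∀ (k : ℕ) x, f ((σ ^ k) x) = (π ^ k) (f x) := fun k => by
    induction k with
    | zero => simp
    | succ k ih => intro x; rw [pow_succ', pow_succ', Perm.mul_apply, Perm.mul_apply, hπ, ih]
  have h2 : π ^ r = 1 := Equiv.ext fun j => by
    obtain ⟨⟨x, rfl⟩⟩ := (Nat.card_pos_iff.1 (hf j ▸ ha)).1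
    rw [← h1, hσ]; rfl
  have h3 := dvd_supp hr h2
  have h4 : ∀ j, (univ.filter fun x => f x = j).card = a := fun j => by
    rw [← hf j, Nat.card_eq_fintype_card, Fintype.card_subtype]
  have h5 : ∀ j ∈ π.support, (σ.support.filter fun x => f x = j).card = a := fun j hj => by
    rw [← h4 j]
    congr 1
    ext x
    simp only [mem_filter, mem_support, mem_univ, true_and, and_iff_right_iff_imp]
    rintro rfl e
    exact mem_support.1 hj (by rw [← hπ, e])
  have h6 : ∀ j ∈ π.supportᶜ, (σ.support.filter fun x => f x = j).card ≤ r * (a / r) := fun j hj => by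
    have hj : π j = j := notMem_support.1 (mem_compl.1 hj)
    have e := dvd_supp hr (σ := σ.subtypePerm (p := fun x => f x = j) fun x => by
      rw [hπ, ← hj, π.injective.eq_iff, hj]) (by rw [subtypePerm_pow]; ext x; simp [hσ])
    have e' : (σ.support.filter fun x => f x = j).card = _ := (Finset.card_bij
      (fun (x : {x // f x = j}) _ => x.1) (fun x hx => mem_filter.2 ⟨mem_support.2 fun e =>
        mem_support.1 hx (Subtype.ext e), x.2⟩) (fun _ _ _ _ e => Subtype.ext e)
      fun x hx => ⟨⟨x, (mem_filter.1 hx).2⟩, mem_support.2 fun e =>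
        mem_support.1 (mem_filter.1 hx).1 (congrArg Subtype.val e), rfl⟩).symm.trans e
    have e'' : (σ.support.filter fun x => f x = j).card ≤ a :=
      h4 j ▸ card_le_card (filter_subset_filter _ (subset_univ _))
    rw [e'] at e'' ⊢
    exact Nat.mul_le_mul_left _ ((Nat.le_div_iff_mul_le hr.pos).2 (mul_comm r _ ▸ e''))
  have h7 := card_eq_sum_card_fiberwise (s := σ.support) (t := univ) (f := f) fun _ _ => mem_univ _
  rw [← sum_add_sum_compl π.support, sum_congr rfl h5, sum_const, smul_eq_mul, h3, hs] at h7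
  have h8 := sum_le_card_nsmul _ _ _ h6
  rw [card_compl, Fintype.card_fin, h3, smul_eq_mul] at h8
  generalize ∑ j ∈ π.supportᶜ, (σ.support.filter fun x => f x = j).card = S at h7 h8
  refine ⟨_, h3 ▸ (card_le_univ _).trans (Fintype.card_fin b).le,
    Nat.le_of_mul_le_mul_left ?_ hr.pos, Nat.le_of_mul_le_mul_left ?_ hr.pos⟩
  · rw [h7]; nlinarith [Nat.zero_le S]
  · rw [h7]; nlinarith

theorem synthesis {a b r h t : ℕ} (hr : r.Prime) (h1 : r * t ≤ b) (h2 : a * t ≤ h)
    (h3 : h ≤ a * t + (b - r * t) * (a / r)) {σ : Perm (Fin (a * b))} (hσ : σ ^ r = 1)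
    (hs : σ.support.card = r * h) : ∃ f : Fin (a * b) → Fin b,
      (∀ j, Nat.card {x // f x = j} = a) ∧ ∃ π : Perm (Fin b), ∀ x, f (σ x) = π (f x) := by
  obtain ⟨π, p1, p2⟩ := exists_perm (Fin b) hr (c := t) (by simpa)
  obtain ⟨v, v1, v2⟩ := exists_split π.supportᶜ (a / r) (h - a * t) (by
    rw [card_compl, Fintype.card_fin, p2]; omega)
  choose ρ q1 q2 using fun j => exists_perm (Fin a) hr (c := v j) (by
    rw [Fintype.card_fin]; exact (Nat.mul_le_mul_left _ (v1 j)).trans (Nat.mul_div_le a r))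
  let ρ' : Fin b → Perm (Fin a) := fun j => if π j = j then ρ j else 1
  let τ : Perm (Fin a × Fin b) := Equiv.prodCongrLeft ρ' * Equiv.prodCongr (Equiv.refl _) π
  have k0 : ∀ j, ρ' (π j) = ρ' j := fun j => by
    by_cases e : π j = j
    · rw [e]
    · simp [ρ', e]
  have k1 : ∀ (k : ℕ) i j, (τ ^ k) (i, j) = ((ρ' j ^ k) i, (π ^ k) j) := fun k => by
    induction k with
    | zero => simp
    | succ k ih =>
      intro i j
      rw [pow_succ, Perm.mul_apply, show τ (i, j) = (ρ' (π j) i, π j) from rfl, ih, k0, pow_succ, pow_succ]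
      rfl
  have k2 : τ ^ r = 1 := Equiv.ext fun ⟨i, j⟩ => by
    rw [k1, p1, show ρ' j ^ r = 1 by by_cases e : π j = j <;> simp [ρ', e, q1]]; rfl
  have k3 : τ.support.card = r * h := by
    rw [card_eq_sum_card_fiberwise (s := τ.support) (t := univ) (f := Prod.snd) fun _ _ => mem_univ _,
      ← sum_add_sum_compl π.support, sum_congr (s₁ := π.support) rfl (g := fun _ => a),
      sum_congr (s₁ := π.supportᶜ) rfl (g := fun j => r * v j),
      sum_const, ← mul_sum, v2, p2, smul_eq_mul, mul_assoc, ← mul_add, mul_comm t, Nat.add_sub_cancel' h2]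
    · intro j hj
      have hj : π j = j := notMem_support.1 (mem_compl.1 hj)
      rw [← q2]
      refine (Finset.card_bij (fun i _ => (i, j)) (fun i hi => ?_) (fun _ _ _ _ e => (Prod.mk.inj e).1)
        fun ⟨i, j'⟩ hx => ?_).symm
      · have := k1 1 i j
        simp only [pow_one, ρ', hj, if_true] at this
        simpa [this] using hi
      · obtain ⟨e, rfl⟩ := mem_filter.1 hx
        have := k1 1 i j'
        simp only [pow_one, ρ', hj, if_true] at this
        exact ⟨i, by simpa [this] using e, rfl⟩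
    · intro j hj
      conv_rhs => rw [← Fintype.card_fin a, ← card_univ]
      refine (Finset.card_bij (fun i _ => (i, j)) (fun i _ => ?_) (fun _ _ _ _ e => (Prod.mk.inj e).1)
        fun ⟨i, j'⟩ hx => ⟨i, mem_univ _, by rw [← (mem_filter.1 hx).2]⟩).symm
      exact mem_filter.2 ⟨mem_support.2 fun e => mem_support.1 hj (congrArg Prod.snd e), rfl⟩
  let e : Fin a × Fin b ≃ Fin (a * b) := finProdFinEquiv
  have k4 : (e.permCongr τ).support.card = r * h := by
    rw [← k3]
    exact (Finset.card_equiv e fun x => by simp).symm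
  have k5 : e.permCongr τ ^ r = 1 := by
    rw [← Equiv.permCongrHom_coe, ← map_pow, k2, map_one]
  have := Fact.mk hr
  obtain ⟨c, hc⟩ := isConj_iff.1 (isConj_iff_cycleType_eq.2 (show σ.cycleType = (e.permCongr τ).cycleType by
    rw [cycleType_of_pow_prime_eq_one hσ, cycleType_of_pow_prime_eq_one k5, Nat.eq_of_mul_eq_mul_left hr.pos
      ((dvd_supp hr hσ).symm.trans (hs.trans (k4.symm.trans (dvd_supp hr k5))))]))
  refine ⟨fun x => (e.symm (c x)).2, fun j => ?_, π, fun x => ?_⟩
  · refine (Nat.card_congr ((c.trans e.symm).subtypeEquiv (q := fun y => y.2 = j) fun _ => Iff.rfl)).trans ?_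
    rw [Nat.card_congr (β := Fin a) ⟨fun y => y.1.1, fun i => ⟨(i, j), rfl⟩,
        fun ⟨⟨_, _⟩, h⟩ => by cases h; rfl, fun _ => rfl⟩, Nat.card_fin]
  · have : c (σ x) = e (τ (e.symm (c x))) := by
      rw [← Equiv.permCongr_apply, ← hc]; simp
    simp only [this, Equiv.symm_apply_apply]
    rfl

theorem arith {a0 b0 l k r : ℕ} (hl : l < r) (hk : k < r) (ha : 2 ≤ r * a0 + l) :
    (∀ h, 0 < h → r * h ≤ (r * a0 + l) * (r * b0 + k) → ∃ t, r * t ≤ r * b0 + k ∧
      (r * a0 + l) * t ≤ h ∧ h ≤ (r * a0 + l) * t + (r * b0 + k - r * t) * a0) ↔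
      k * l < r ∧ (b0 = 0 ∨ l ≤ k * a0 + 1) := by
  have key : ∀ t, t ≤ b0 → (r * a0 + l) * t + (r * b0 + k - r * t) * a0 =
      (r * b0 + k) * a0 + l * t := fun t ht => by
    obtain ⟨s, rfl⟩ := Nat.exists_eq_add_of_le ht
    rw [show r * (t + s) + k - r * t = r * s + k by rw [mul_add]; omega]; ring
  have lt : ∀ t, r * t ≤ r * b0 + k → t ≤ b0 := fun t ht => by
    by_contra! e
    have := Nat.mul_le_mul_left r e
    rw [Nat.succ_eq_add_one, mul_add] at this
    omega
  constructor
  · intro H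
    constructor
    · by_contra! e
      obtain ⟨t, h1, -, h3⟩ := H ((r * b0 + k) * a0 + l * b0 + 1) (by omega) (by nlinarith)
      rw [key t (lt t h1)] at h3
      have := Nat.mul_le_mul_left l (lt t h1)
      omega
    · by_contra! e
      obtain ⟨b1, rfl⟩ := Nat.exists_eq_succ_of_ne_zero e.1
      obtain ⟨l1, rfl⟩ := Nat.exists_eq_add_of_lt e.2
      simp only [Nat.succ_eq_add_one] at *
      obtain ⟨t, h1, h2, h3⟩ := H ((r * (b1 + 1) + k) * a0 + (k * a0 + 1 + l1 + 1) * b1 + 1) (by omega)
        (by nlinarith [Nat.zero_le (r * k * a0), Nat.zero_le (r * l1), Nat.zero_le (k * k * a0),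
          Nat.zero_le (k * l1)])
      rw [key t (lt t h1)] at h3
      rcases (lt t h1).eq_or_lt with rfl | e'
      · nlinarith
      · have := Nat.mul_le_mul_left (k * a0 + 1 + l1 + 1) (Nat.le_of_lt_succ e')
        omega
  · rintro ⟨h1, h2⟩ h h0 h3
    have h4 : h ≤ (r * b0 + k) * a0 + l * b0 := by
      by_contra! e
      have := Nat.mul_le_mul_left r e
      simp only [Nat.succ_eq_add_one] at this
      nlinarith
    by_cases e : (r * a0 + l) * b0 ≤ h
    · exact ⟨b0, by omega, e, key b0 le_rfl ▸ h4⟩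
    have e1 := Nat.div_mul_le_self h (r * a0 + l)
    have e2 := Nat.lt_div_mul_add (a := h) (b := r * a0 + l) (by omega)
    generalize h / (r * a0 + l) = t at e1 e2
    have e3 : t < b0 := by
      by_contra! e3
      have := Nat.mul_le_mul_right (r * a0 + l) e3
      nlinarith
    refine ⟨t, by nlinarith, by nlinarith, key t e3.le ▸ ?_⟩
    obtain ⟨s, rfl⟩ := Nat.exists_eq_add_of_lt e3
    have := h2.resolve_left (by omega)
    nlinarith [Nat.zero_le (r * s * a0)]

/-- Let a, b ≥ 2 and consider the symmetric group of degree a·b acting on the partitions of an (a·b)-set into b parts of size a (encoded as maps onto a b-element set all of whose fibres have a elements; a permutation fixes such a partition when it permutes the fibres). Let r be a prime dividing the number (ab)!/((a!)^b·b!) of such partitions, and let ℓ and k be the remainders of a and b modulo r. Then every permutation of order r fixes some such partition if and only if r ≤ a and one of the following holds: ℓ = 0; or k =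 0 and ℓ = 1; or ℓ and k are non-zero, k·ℓ < r, and either b < r or (k + r)·ℓ ≤ k·a + r. -/
theorem result (a b : ℕ) (ha : 2 ≤ a) (hb : 2 ≤ b) (r : ℕ) (hr : r.Prime)
    (hrd : r ∣ (a * b).factorial / (a.factorial ^ b * b.factorial)) :
    (∀ σ : Equiv.Perm (Fin (a * b)), orderOf σ = r →
        ∃ f : Fin (a * b) → Fin b, (∀ j : Fin b, Nat.card {x : Fin (a * b) // f x = j} = a) ∧
          ∃ π : Equiv.Perm (Fin b), ∀ x : Fin (a * b), f (σ x) = π (f x)) ↔
      (r ≤ a ∧ (a % r = 0 ∨ (b % r = 0 ∧ a % r = 1) ∨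
        (a % r ≠ 0 ∧ b % r ≠ 0 ∧ (b % r) * (a % r) < r ∧ (b < r ∨ (b % r + r) * (a % r) ≤ (b % r) * a + r)))) := by
  have h0 : r ≤ a * b := hr.dvd_factorial.1 (hrd.trans (Nat.div_dvd_of_dvd
    ⟨Nat.uniformBell b a, by rw [mul_comm a b, ← Nat.uniformBell_mul_eq b (n := a) (by omega)]; ring⟩))
  have key := arith (a0 := a / r) (b0 := b / r) (Nat.mod_lt a hr.pos) (Nat.mod_lt b hr.pos)
    (by rw [Nat.div_add_mod]; exact ha)
  rw [Nat.div_add_mod, Nat.div_add_mod] at key
  refine Iff.trans ⟨fun H h h1 h2 => ?_, fun H σ hσ => ?_⟩ (key.trans ?_)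
  · obtain ⟨σ, s1, s2⟩ := exists_perm (Fin (a * b)) hr (c := h) (by simpa)
    have := Fact.mk hr
    obtain ⟨f, f1, π, f2⟩ := H σ (orderOf_eq_prime s1 fun e => by
      rw [e, support_one, card_empty] at s2
      exact (Nat.mul_pos hr.pos h1).ne s2)
    exact analysis hr (by omega) s1 s2 f1 f2
  · have s1 : σ ^ r = 1 := hσ ▸ pow_orderOf_eq_one σ
    have s2 := dvd_supp hr s1
    obtain ⟨t, t1, t2, t3⟩ := H σ.cycleType.card (card_cycleType_pos.2 fun e => by
      rw [e, orderOf_one] at hσ; exact hr.one_lt.ne hσ)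
      (s2 ▸ (card_le_univ _).trans (Fintype.card_fin _).le)
    exact synthesis hr t1 t2 t3 s1 s2
  · have e1 := Nat.div_add_mod a r
    have e2 := Nat.div_add_mod b r
    have e3 := Nat.mod_lt a hr.pos
    have e4 := Nat.mod_lt b hr.pos
    have e5 := hr.pos
    generalize a / r = a0, a % r = l, b / r = b0, b % r = k at *
    subst e1 e2
    constructor
    · rintro ⟨h1, h2⟩
      refine ⟨?_, ?_⟩
      · rcases Nat.eq_zero_or_pos a0 with rfl | e
        · rcases h2 with rfl | h2 <;> simp at * <;> nlinarith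
        · nlinarith
      · by_cases el : l = 0
        · exact Or.inl el
        by_cases ek : k = 0
        · subst ek
          rcases h2 with rfl | h2 <;> simp at * <;> omega
        refine Or.inr (Or.inr ⟨el, ek, h1, h2.imp (by rintro rfl; simpa) fun h => by nlinarith⟩)
    · rintro ⟨-, rfl | ⟨rfl, rfl⟩ | ⟨-, -, h1, h2⟩⟩
      · simp [e5]
      · simp [e5]
      · refine ⟨h1, h2.imp (fun h => by_contra fun e => ?_) fun h => by_contra fun e => ?_⟩
        · have := Nat.pos_of_ne_zero e; nlinarith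
        · have := Nat.mul_le_mul_left r (not_le.1 e); simp only [Nat.succ_eq_add_one] at this; nlinarith

end Cfsg.Agent.S3575
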