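import Cfsg.Statements.S3589
import Cfsg.Agent.H53.O2

set_option autoImplicit false
open Cfsg

namespace Cfsg.Agent.S3589

open H53

/-- Let F be a finite field of characteristic 2 and let a, b ∈ F make the binary form z₁² + a z₁z₂ + b z₂² anisotropic. Then the symplectic group PSp(8,F) (= Sp(8,F)) and the full isometry group of the non-singular quadratic form x₁y₁ + x₂y₂ + x₃y₃ + (z₁² + a z₁z₂ + b z₂²) of minus type in dimension 8 have the same set of element orders. -/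
theorem result {F : Type*} [Field F] [Fintype F]
    [CharP F 2] (a b : F) (han : ∀ z₁ z₂ : F, z₁ ^ 2 + a * z₁ * z₂ + b * z₂ ^ 2 = 0 → z₁ = 0 ∧ z₂ = 0) :
    Set.range (orderOf : Cfsg.PSp 4 F → ℕ) = Set.range (orderOf : ↥(Cfsg.isometryGroup F (Cfsg.quadFormMinus 3 F a b)) → ℕ) := by
  have h2 : (2 : F) = 0 := CharP.cast_eq_zero F 2
  have hS := jfam_psp (F := F) (AlgebraicClosure F) 2 4
  have hT := tor_units F (AlgebraicClosure F) 2
  have h := H58.coe_qMinus 3 F a b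
  have hn := H58.qMinus_nondeg 3 han
  have hM : ∀ (g : Cfsg.isometryGroup F (Cfsg.quadFormMinus 3 F a b)) N,
      JOne 2 (jd (AlgebraicClosure F) g.1.1) N ↔ orderOf g ∣ N := fun g N => by
    rw [← orderOf_dvd_iff_jd 2 g.1.isUnit,
      ← orderOf_rep (Cfsg.isometryGroup F _).subtype Subtype.val_injective g]; rfl
  ext N
  constructor
  · intro hN
    obtain ⟨m, ⟨hm, hd⟩, h3⟩ := hS.exists_of_mem' hN
    obtain ⟨t, h4, h5, h6⟩ : ∃ t : Multiset ((AlgebraicClosure F)ˣ × ℕ), RQ F False t ∧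
        jdeg t = 8 ∧ ∀ M, JOne 2 t M → JOne 2 m M := by
      rcases hm.exists_reg hT (qp_card F 2) with h4 | ⟨D, t, h4, h5, h6, -, h7, h8⟩
      · obtain ⟨t, h5, -, h6⟩ := hm.exists_minus_eight hd h4
        exact ⟨t, h5, h6⟩
      · obtain ⟨τ, h9⟩ := h6.exists_rq h2
        exact ⟨_, (h9.add_two h2 (rq_unip h2 (¬ τ) h5 h4)).congr (by simp), by simp [h7, hd], h8⟩
    obtain ⟨g, rfl⟩ := (h4.congr (iff_of_false id (H58.not_isPlus_qMinus 3 han))).exists_O h hn
      (by decide) (h5.trans (by simp))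
    exact H91.mem_range_orderOf_of_dvd (h3 _ (h6 _ ((hM g _).2 dvd_rfl))) ⟨g, rfl⟩
  · rintro ⟨g, rfl⟩
    have h3 := (rq_jd_O (K := AlgebraicClosure F) h hn g).fd h2
    exact hS.mem_range_of_dvd ⟨h3, (jdeg_jd g.1.isUnit).trans (by simp)⟩
      fun N hN => (hM g N).1 ((h3.jsc_iff_jone hT).1 hN)

end Cfsg.Agent.S3589
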