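import Cfsg.Statements.S3599
import Cfsg.Agent.H26.PClosed

set_option autoImplicit false
open Cfsg

namespace Cfsg.Agent.S3599

def aff (F : Type) [Field F] (q : ℕ) (hq : q ≠ 0) : Subgroup (Equiv.Perm F) where
  carrier := {σ | ∃ a b : F, a ^ q = 1 ∧ ∀ x, σ x = a * x + b}
  one_mem' := ⟨1, 0, one_pow q, fun x => by simp⟩
  mul_mem' := by
    rintro σ τ ⟨a, b, ha, h⟩ ⟨c, d, hc, h'⟩
    exact ⟨a * c, a * d + b, by rw [mul_pow, ha, hc, one_mul], fun x => by
      rw [Equiv.Perm.mul_apply, h, h']; ring⟩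
  inv_mem' := by
    rintro σ ⟨a, b, ha, h⟩
    have h0 : a ≠ 0 := by
      rintro rfl
      rw [zero_pow hq] at ha
      exact zero_ne_one ha
    refine ⟨a⁻¹, -(a⁻¹ * b), by rw [inv_pow, ha, inv_one], fun x => ?_⟩
    rw [Equiv.Perm.inv_eq_iff_eq, h]
    field_simp
    ring

theorem pow_one' {F : Type} [Field F] {σ : Equiv.Perm F} {b : F} (h : ∀ x, σ x = 1 * x + b)
    (n : ℕ) (x : F) : (σ ^ n) x = x + n * b := by
  induction n with
  | zero => simp
  | succ n ih => rw [pow_succ', Equiv.Perm.mul_apply, ih, h]; push_cast; ring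

theorem pow_ne' {F : Type} [Field F] {σ : Equiv.Perm F} {a b : F} (ha : a ≠ 1)
    (h : ∀ x, σ x = a * x + b) (n : ℕ) (x : F) :
    (σ ^ n) x = a ^ n * (x - b / (1 - a)) + b / (1 - a) := by
  have : 1 - a ≠ 0 := sub_ne_zero.2 ha.symm
  induction n with
  | zero => simp
  | succ n ih => rw [pow_succ', Equiv.Perm.mul_apply, ih, h]; field_simp; ring

theorem frob {p q : ℕ} (hp : p.Prime) (hq : q.Prime) (hpq : p ≠ q) :
    ∃ (G : Type) (_ : Group G) (_ : Finite G), Set.range (orderOf : G → ℕ) = {1, p, q} ∧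
      ∀ x y : G, x ^ p = 1 → y ^ p = 1 → (x * y) ^ p = 1 := by
  haveI : Fact p.Prime := ⟨hp⟩
  haveI : Fact q.Prime := ⟨hq⟩
  have hq1 : q - 1 ≠ 0 := by have := hq.two_le; omega
  let F := GaloisField p (q - 1)
  have hco : p.Coprime q := (Nat.coprime_primes hp hq).2 hpq
  have e1 : ∀ {σ : Equiv.Perm F} {b : F}, (∀ x, σ x = 1 * x + b) → σ ^ p = 1 := fun h => by
    ext x; rw [pow_one' h]; simp
  have e2 : ∀ {σ : Equiv.Perm F} {a b : F}, a ≠ 1 → a ^ q = 1 → (∀ x, σ x = a * x + b) →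
      σ ^ q = 1 := fun ha hq h => by
    ext x; rw [pow_ne' ha h, hq]; simp
  have e3 : ∀ {σ : Equiv.Perm F} {a b : F}, a ^ q = 1 → (∀ x, σ x = a * x + b) →
      σ ^ p = 1 → a = 1 := fun {σ a b} hq h hs => by
    by_contra ha
    have h1 : σ = 1 := by
      have := Nat.dvd_gcd (orderOf_dvd_of_pow_eq_one hs) (orderOf_dvd_of_pow_eq_one (e2 ha hq h))
      rw [hco] at this
      exact orderOf_eq_one_iff.1 (Nat.dvd_one.1 this)
    have h2 := h 0
    have h3 := h 1
    rw [h1] at h2 h3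
    simp only [Equiv.Perm.coe_one, id, mul_zero, zero_add, mul_one] at h2 h3
    rw [← h2, add_zero] at h3
    exact ha h3.symm
  refine ⟨aff F q hq.ne_zero, inferInstance, inferInstance, ?_, ?_⟩
  · ext m
    constructor
    · rintro ⟨⟨σ, a, b, ha, h⟩, rfl⟩
      rw [← Subgroup.orderOf_coe]
      by_cases h1 : a = 1
      · subst h1
        rcases (Nat.dvd_prime hp).1 (orderOf_dvd_of_pow_eq_one (e1 h)) with e | e <;> simp [e]
      · rcases (Nat.dvd_prime hq).1 (orderOf_dvd_of_pow_eq_one (e2 h1 ha h)) with e | e <;>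
          simp [e]
    · rintro (rfl | h | h)
      · exact ⟨1, orderOf_one⟩
      · refine ⟨⟨Equiv.addRight (1 : F), 1, 1, one_pow q, fun x => by simp⟩, ?_⟩
        rw [← Subgroup.orderOf_coe, h]
        refine orderOf_eq_prime (e1 (b := 1) fun x => by simp) fun h => ?_
        have := congrArg (fun σ : Equiv.Perm F => σ 0) h
        simp at this
      · obtain ⟨u, hu⟩ := exists_prime_orderOf_dvd_card' (G := Fˣ) q (by
          rw [Nat.card_units, GaloisField.card p _ hq1]
          have := Nat.ModEq.pow_totient hco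
          rw [Nat.totient_prime hq] at this
          exact (Nat.modEq_iff_dvd' (Nat.one_le_pow _ _ hp.pos)).1 this.symm)
        have hu1 : (u : F) ^ q = 1 := by
          rw [← Units.val_pow_eq_pow_val, orderOf_dvd_iff_pow_eq_one.1 hu.dvd, Units.val_one]
        have hu2 : (u : F) ≠ 1 := fun h => by
          rw [Units.val_eq_one.1 h, orderOf_one] at hu
          exact hq.one_lt.ne hu
        refine ⟨⟨Equiv.mulLeft₀ (u : F) u.ne_zero, u, 0, hu1, fun x => by simp⟩, ?_⟩
        rw [← Subgroup.orderOf_coe, show m = q from h]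
        refine orderOf_eq_prime (e2 (b := 0) hu2 hu1 fun x => by simp) fun h => ?_
        have := congrArg (fun σ : Equiv.Perm F => σ 1) h
        simp at this
        exact hu2 (by simp [this])
  · rintro ⟨σ, a, b, ha, h⟩ ⟨τ, c, d, hc, h'⟩ h1 h2
    obtain rfl := e3 ha h (congrArg Subtype.val h1)
    obtain rfl := e3 hc h' (congrArg Subtype.val h2)
    exact Subtype.ext (e1 (b := d + b) fun x => by
      change σ (τ x) = _
      rw [h, h']; ring)

/-- the target spectrum -/
def Om {s : ℕ} (p : Fin s → Fin 2 → ℕ) : Set ℕ :=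
  {m : ℕ | ∃ c : Fin s → ℕ, (∀ j, c j = 1 ∨ c j = p j 0 ∨ c j = p j 1) ∧ m = ∏ j, c j}

/-- groups with the spectrum and the given normal Sylow subgroups -/
def Good {s : ℕ} (p : Fin s → Fin 2 → ℕ) (a : Fin s → Fin 2) (G : Type) [Group G] : Prop :=
  Set.range (orderOf : G → ℕ) = Om p ∧ ∀ j, Cfsg.IsPClosed (p j (a j)) G

theorem exists_good {s : ℕ} (p : Fin s → Fin 2 → ℕ) (hp : ∀ j i, (p j i).Prime)
    (hinj : ∀ j i j' i', p j i = p j' i' → j = j' ∧ i = i') (a : Fin s → Fin 2) :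
    ∃ (G : Type) (_ : Group G) (_ : Finite G), Good p a G := by
  have hne : ∀ j, p j (a j) ≠ p j (a j + 1) := fun j h => by
    have := (hinj _ _ _ _ h).2
    revert this
    generalize a j = t
    revert t
    decide
  choose F iF fF hF hcl using fun j => frob (hp j (a j)) (hp j (a j + 1)) (hne j)
  have hset : ∀ j m, m ∈ ({1, p j (a j), p j (a j + 1)} : Set ℕ) ↔
      (m = 1 ∨ m = p j 0 ∨ m = p j 1) := fun j m => by
    have : a j = 0 ∨ a j = 1 := by omega
    rcases this with h | h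
    · rw [h]; rfl
    · rw [h]; exact or_congr_right or_comm
  have hord : ∀ j (x : F j), orderOf x = 1 ∨ orderOf x = p j 0 ∨ orderOf x = p j 1 :=
    fun j x => (hset j _).1 (hF j ▸ ⟨x, rfl⟩)
  have hprod : ∀ x : ∀ j, F j, orderOf x = ∏ j, orderOf (x j) := fun x => by
    rw [Pi.orderOf]
    refine Finset.lcm_eq_prod fun i _ j _ hij => ?_
    have hc : ∀ k l, (p i k).Coprime (p j l) := fun k l =>
      (Nat.coprime_primes (hp _ _) (hp _ _)).2 fun h => hij (hinj _ _ _ _ h).1
    change (orderOf (x i)).Coprime (orderOf (x j))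
    rcases hord i (x i) with h | h | h <;> rcases hord j (x j) with h' | h' | h' <;>
      rw [h, h'] <;> first | exact hc _ _ | simp
  refine ⟨∀ j, F j, inferInstance, inferInstance, ?_, fun j => ?_⟩
  · ext m
    constructor
    · rintro ⟨x, rfl⟩
      exact ⟨fun j => orderOf (x j), fun j => hord j _, hprod x⟩
    · rintro ⟨c, hc, rfl⟩
      have : ∀ j, ∃ x : F j, orderOf x = c j := fun j =>
        show c j ∈ Set.range (orderOf : F j → ℕ) from hF j ▸ (hset j _).2 (hc j)
      choose x hx using this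
      exact ⟨x, by rw [hprod]; simp [hx]⟩
  · haveI : Fact (p j (a j)).Prime := ⟨hp _ _⟩
    have hred : ∀ i (x : F i) k, x ^ p j (a j) ^ k = 1 → x ^ p j (a j) = 1 := fun i x k h => by
      have h1 := orderOf_dvd_of_pow_eq_one h
      apply orderOf_dvd_iff_pow_eq_one.1
      rcases hord i x with e | e | e
      · simp [e]
      · rw [e] at h1 ⊢; exact (hp _ _).dvd_of_dvd_pow h1
      · rw [e] at h1 ⊢; exact (hp _ _).dvd_of_dvd_pow h1
    have htriv : ∀ i, i ≠ j → ∀ x : F i, x ^ p j (a j) = 1 → x = 1 := fun i hi x h => by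
      have h1 := orderOf_dvd_of_pow_eq_one h
      rcases hord i x with e | e | e
      · exact orderOf_eq_one_iff.1 e
      · rw [e] at h1
        exact absurd (hinj _ _ _ _ ((Nat.prime_dvd_prime_iff_eq (hp _ _) (hp _ _)).1 h1)).1 hi
      · rw [e] at h1
        exact absurd (hinj _ _ _ _ ((Nat.prime_dvd_prime_iff_eq (hp _ _) (hp _ _)).1 h1)).1 hi
    let K : Subgroup (∀ j, F j) :=
      { carrier := {x | x ^ p j (a j) = 1}
        one_mem' := one_pow _
        mul_mem' := fun {x y} hx hy => by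
          funext i
          have hx' := congrFun hx i
          have hy' := congrFun hy i
          by_cases hi : i = j
          · subst hi
            exact hcl i _ _ hx' hy'
          · change (x i * y i) ^ _ = 1
            rw [htriv i hi _ hx', htriv i hi _ hy', one_mul, one_pow]
        inv_mem' := fun {x} hx => by
          change x⁻¹ ^ _ = 1
          rw [inv_pow, show x ^ p j (a j) = 1 from hx, inv_one] }
    refine H26.isPClosed_of_forall_mem (K := K) (fun x => ⟨1, Subtype.ext ?_⟩) fun x k h => ?_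
    · rw [pow_one]; exact x.2
    · funext i
      exact hred i _ k (congrFun h i)

theorem exists_crit {s : ℕ} (p : Fin s → Fin 2 → ℕ) (hp : ∀ j i, (p j i).Prime)
    (hinj : ∀ j i j' i', p j i = p j' i' → j = j' ∧ i = i') (a : Fin s → Fin 2) :
    ∃ (G : Type) (_ : Group G) (_ : Finite G), Good p a G ∧
      ∀ (H : Subgroup G) (N : Subgroup ↥H) [N.Normal], (H ≠ ⊤ ∨ N ≠ ⊥) →
        Set.range (orderOf : (↥H ⧸ N) → ℕ) ≠ Om p := by
  classical
  have hex : ∃ n, ∃ (G : Type) (_ : Group G) (_ : Finite G), Good p a G ∧ Nat.card G = n := by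
    obtain ⟨G, i, f, h⟩ := exists_good p hp hinj a
    exact ⟨_, G, i, f, h, rfl⟩
  obtain ⟨G, i, f, h, hn⟩ := Nat.find_spec hex
  refine ⟨G, i, f, h, fun H N _ hHN hs => ?_⟩
  refine Nat.find_min hex (m := Nat.card (H ⧸ N)) ?_ ⟨H ⧸ N, inferInstance, inferInstance,
    ⟨hs, fun j => ?_⟩, rfl⟩
  · rw [← hn]
    have h1 := Subgroup.card_eq_card_quotient_mul_card_subgroup N
    have h2 := H.card_mul_index
    have p1 : 0 < Nat.card (H ⧸ N) := Nat.card_pos
    have p2 : 0 < Nat.card N := Nat.card_pos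
    have p3 : 0 < H.index := Nat.pos_of_ne_zero Subgroup.index_ne_zero_of_finite
    rw [← h2, h1, mul_assoc]
    refine (Nat.lt_mul_iff_one_lt_right p1).2 ?_
    rcases hHN with e | e
    · have : H.index ≠ 1 := fun h => e (Subgroup.index_eq_one.1 h)
      nlinarith [show 2 ≤ H.index by omega]
    · have : Nat.card N ≠ 1 := fun h => e (Subgroup.card_eq_one.1 h)
      nlinarith [show 2 ≤ Nat.card N by omega]
  · haveI : Fact (p j (a j)).Prime := ⟨hp _ _⟩
    exact H26.isPClosed_of_surjective (QuotientGroup.mk' N) (QuotientGroup.mk'_surjective N)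
      (H26.isPClosed_of_injective H.subtype H.subtype_injective (h.2 j))

theorem not_both {s : ℕ} (p : Fin s → Fin 2 → ℕ) (hp : ∀ j i, (p j i).Prime)
    (hinj : ∀ j i j' i', p j i = p j' i' → j = j' ∧ i = i') {G : Type} [Group G] [Finite G]
    (hs : Set.range (orderOf : G → ℕ) = Om p) (j : Fin s) (k l : Fin 2) (hkl : k ≠ l)
    (h0 : Cfsg.IsPClosed (p j k) G) (h1 : Cfsg.IsPClosed (p j l) G) : False := by
  classical
  haveI : Fact (p j k).Prime := ⟨hp _ _⟩
  haveI : Fact (p j l).Prime := ⟨hp _ _⟩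
  have hne : p j k ≠ p j l := fun h => hkl (hinj _ _ _ _ h).2
  have hex : ∀ t : Fin 2, ∃ x : G, orderOf x = p j t := fun t => by
    have : p j t ∈ Om p := ⟨Function.update 1 j (p j t), fun i => by
      by_cases hi : i = j
      · subst hi
        have : t = 0 ∨ t = 1 := by omega
        rcases this with rfl | rfl <;> simp
      · simp [hi], by simp [Finset.prod_update_of_mem]⟩
    rw [← hs] at this
    exact this
  obtain ⟨x, hx⟩ := hex k
  obtain ⟨y, hy⟩ := hex l
  obtain ⟨P⟩ : Nonempty (Sylow (p j k) G) := inferInstance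
  obtain ⟨Q⟩ : Nonempty (Sylow (p j l) G) := inferInstance
  have hxP : x ∈ (P : Subgroup G) :=
    H26.IsPClosed_mem_sylow h0 P (k := 1) (by rw [pow_one, ← hx, pow_orderOf_eq_one])
  have hyQ : y ∈ (Q : Subgroup G) :=
    H26.IsPClosed_mem_sylow h1 Q (k := 1) (by rw [pow_one, ← hy, pow_orderOf_eq_one])
  have hc := Subgroup.commute_of_normal_of_disjoint _ _ (h0 P) (h1 Q)
    (IsPGroup.disjoint_of_ne _ _ hne _ _ P.isPGroup' Q.isPGroup') x y hxP hyQ
  have ho := hc.orderOf_mul_eq_mul_orderOf_of_coprime (by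
    rw [hx, hy]; exact (Nat.coprime_primes (hp _ _) (hp _ _)).2 hne)
  have : orderOf (x * y) ∈ Om p := hs ▸ ⟨_, rfl⟩
  obtain ⟨c, hc, e⟩ := this
  rw [ho, hx, hy] at e
  have key : ∀ t : Fin 2, p j t ∣ ∏ i, c i → c j = p j t := fun t h => by
    obtain ⟨i, -, hi⟩ := (hp j t).prime.exists_mem_finset_dvd h
    rcases hc i with e | e | e
    · rw [e] at hi; exact absurd (Nat.dvd_one.1 hi) (hp j t).ne_one
    · have := (Nat.prime_dvd_prime_iff_eq (hp _ _) (hp _ _)).1 (e ▸ hi)
      obtain ⟨rfl, -⟩ := hinj _ _ _ _ this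
      rw [e, this]
    · have := (Nat.prime_dvd_prime_iff_eq (hp _ _) (hp _ _)).1 (e ▸ hi)
      obtain ⟨rfl, -⟩ := hinj _ _ _ _ this
      rw [e, this]
  exact hne ((key k (e ▸ dvd_mul_right _ _)).symm.trans (key l (e ▸ dvd_mul_left _ _)))

/-- A finite group is critical with respect to a set Ω of natural numbers when its set of element orders is Ω while no proper section H/N (H a subgroup, N normal in H, (H, N) ≠ (whole group, 1)) has Ω as its set of element orders. Let s ≥ 1 and let p(j,0), p(j,1) (j < s) be 2s pairwise distinct primes, and let Ω be the set of all products c(0)·…·c(s−1) with each c(j) ∈ {1, p(j,0), p(j,1)}. Then there are 2^s pairwise non-isomorphic finite groups critical with respect to Ω. -/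
theorem result (s : ℕ) (hs : 1 ≤ s) (p : Fin s → Fin 2 → ℕ)
    (hp : ∀ j i, (p j i).Prime) (hinj : ∀ j i j' i', p j i = p j' i' → j = j' ∧ i = i') :
    ∃ (G : Fin (2 ^ s) → Type) (_ : ∀ a, Group (G a)) (_ : ∀ a, Fintype (G a)),
      (∀ a b, a ≠ b → ¬ Nonempty (G a ≃* G b)) ∧
      ∀ a, Set.range (orderOf : (G a) → ℕ) = {m : ℕ | ∃ c : Fin s → ℕ, (∀ j, c j = 1 ∨ c j = p j 0 ∨ c j = p j 1) ∧ m = ∏ j, c j} ∧
      ∀ (H : Subgroup (G a)) (N : Subgroup ↥H) [N.Normal], (H ≠ ⊤ ∨ N ≠ ⊥) → Set.range (orderOf : (↥H ⧸ N) → ℕ) ≠ {m : ℕ | ∃ c : Fin s → ℕ, (∀ j, c j = 1 ∨ c j = p j 0 ∨ c j = p j 1) ∧ m = ∏ j, c j} := by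
  choose G iG fG hG hcrit using exists_crit p hp hinj
  let e : Fin (2 ^ s) ≃ (Fin s → Fin 2) := finFunctionFinEquiv.symm
  refine ⟨fun a => G (e a), fun a => iG _, fun a => Fintype.ofFinite _, ?_,
    fun a => ⟨(hG _).1, hcrit _⟩⟩
  rintro a b hab ⟨f⟩
  obtain ⟨j, hj⟩ := Function.ne_iff.1 (e.injective.ne hab)
  haveI : Fact (p j (e b j)).Prime := ⟨hp _ _⟩
  exact not_both p hp hinj (hG (e a)).1 j _ _ hj ((hG _).2 j)
    (H26.isPClosed_of_injective f.toMonoidHom f.injective ((hG _).2 j))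

end Cfsg.Agent.S3599
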