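import Cfsg.Statements.S3621
import Cfsg.Agent.H12.CLAll
import Cfsg.Agent.H91.CL3Fin
import Cfsg.Agent.H53.F2B
import Cfsg.Agent.H53.F2C
import Cfsg.Agent.H19.F2D
import Cfsg.Agent.H29.F2D5
import Cfsg.Agent.H50.F2S6
import Cfsg.Agent.H50.F2S8

set_option autoImplicit false
open Cfsg

namespace Cfsg.Agent.S3621

/-- Let G be a solvable group of permutations of a finite set. Then every group H of permutations of the set with the property that for each h in H and each three points a, b, c there is an element of G agreeing with h at a, b and c (that is, every subgroup of the 3-closure of G) is solvable. -/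
theorem result {Ω : Type*} [Finite Ω] (G : Subgroup (Equiv.Perm Ω)) (hG : Group.IsSolvable ↥G)
    (H : Subgroup (Equiv.Perm Ω))
    (hH : ∀ h ∈ H, ∀ a b c : Ω, ∃ g ∈ G, g a = h a ∧ g b = h b ∧ g c = h c) :
    Group.IsSolvable ↥H := by
  exact H91.CLF.main (H12.CL.jobPiece_of_F2 (H53.F2.jobF2E' (H53.F2.jobF2 H19.F2.jobMN H50.F2.jobS8
    H50.F2.jobS6 H29.D5.jobD5 H19.F2.jobD4 H19.F2.jobDA))) G hG H hH

end Cfsg.Agent.S3621
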