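import Cfsg.Statements.S3639
import Cfsg.Agent.H66.SzPart

set_option autoImplicit false
open Cfsg

namespace Cfsg.Agent.S3639

open H66

theorem exists_small (H : Type*) [Group H] [Finite H] :
    ∃ (H' : Type) (_ : Group H') (_ : Fintype H'), Nonempty (H' ≃* H) :=
  letI := (Finite.equivFin H).symm.group
  ⟨Fin (Nat.card H), inferInstance, inferInstance, ⟨(Finite.equivFin H).symm.mulEquiv⟩⟩

section

variable {F : Type*} [Field F] {T : Tits F} {G : Type*} [Group G] (M : Model T G) {m : ℕ}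

/-- The action on a direct sum of natural modules. -/
def act (n : ℕ) : G →* MulAut (Multiplicative (Matrix (Fin 4) (Fin n) F)) where
  toFun g :=
    { toFun := fun v => Multiplicative.ofAdd (M.ρ g * v.toAdd)
      invFun := fun v => Multiplicative.ofAdd (M.ρ g⁻¹ * v.toAdd)
      left_inv := fun v => by simp [← Matrix.mul_assoc, ← map_mul]
      right_inv := fun v => by simp [← Matrix.mul_assoc, ← map_mul]
      map_mul' := fun v w => by simp [Matrix.mul_add] }
  map_one' := by ext v : 1; simp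
  map_mul' g h := by ext v : 1; simp [Matrix.mul_assoc]

theorem act_apply (n : ℕ) (g : G) (v : Multiplicative (Matrix (Fin 4) (Fin n) F)) :
    act M n g v = Multiplicative.ofAdd (M.ρ g * v.toAdd) := rfl

theorem fpf (hT : T.IsFin m) {n : ℕ} {g : G} (hg : g ^ 4 ≠ 1) {v : Matrix (Fin 4) (Fin n) F}
    (h : M.ρ g * v = v) : v = 0 := by
  have h1 := congrArg (· * v) (M.ch g)
  have h2 : ∀ k : ℕ, M.ρ g ^ k * v = v := fun k => by
    induction k with
    | zero => simp
    | succ k ih => rw [pow_succ, Matrix.mul_assoc, h, ih]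
  simp only [T.aeval_P, Matrix.add_mul, Matrix.smul_mul, h2, h, Matrix.one_mul,
    Matrix.zero_mul] at h1
  have h3 : T.θ (M.tr g) • v = 0 := by
    rw [← h1]
    ext i j
    have := T.two
    simp only [Matrix.smul_apply, Matrix.add_apply, smul_eq_mul]
    grind
  exact (smul_eq_zero.mp h3).resolve_left (T.θ_ne_zero fun e => hg ((M.tr_eq_zero_iff hT).mp e))

theorem order_aux (hT : T.IsFin m) {n r s : ℕ} (hr : r.Prime) (hs : s.Prime) (hrs : r ≠ s)
    {y : Multiplicative (Matrix (Fin 4) (Fin n) F) ⋊[act M n] G} (hy : orderOf y = r * s) :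
    orderOf y.right = r * s := by
  have h0 : r * s ≠ 0 := mul_ne_zero hr.ne_zero hs.ne_zero
  have h1 : orderOf y.right ∣ r * s := hy ▸ orderOf_map_dvd SemidirectProduct.rightHom y
  obtain ⟨v, hv⟩ : y ^ orderOf y.right ∈ SemidirectProduct.inl.range := by
    rw [SemidirectProduct.range_inl_eq_ker_rightHom, MonoidHom.mem_ker, map_pow]
    exact pow_orderOf_eq_one _
  have h2 : r * s ∣ orderOf y.right * 2 := by
    rw [← hy, orderOf_dvd_iff_pow_eq_one, pow_mul, ← hv, ← map_pow]
    have : v ^ 2 = 1 := by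
      rw [pow_two]
      ext i j
      exact T.add_self _
    rw [this, map_one]
  obtain ⟨e, he⟩ := h1
  have h3 : orderOf y.right ≠ 0 := fun e => h0 (by rw [he, e, zero_mul])
  rw [he] at h2
  rcases (Nat.dvd_prime Nat.prime_two).mp (Nat.dvd_of_mul_dvd_mul_left (Nat.pos_of_ne_zero h3) h2)
    with rfl | rfl
  · rw [he, mul_one]
  exfalso
  have h4 : y.right ^ 4 ≠ 1 := fun e => by
    have h5 : r * s ∣ 2 ^ 3 := by
      rw [he]
      exact Nat.mul_dvd_mul_right (orderOf_dvd_of_pow_eq_one e) 2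
    exact hrs (((Nat.prime_dvd_prime_iff_eq hr Nat.prime_two).mp
      (hr.dvd_of_dvd_pow (dvd_of_mul_right_dvd h5))).trans
      ((Nat.prime_dvd_prime_iff_eq hs Nat.prime_two).mp
        (hs.dvd_of_dvd_pow (dvd_of_mul_left_dvd h5))).symm)
  have h5 : y * SemidirectProduct.inl v = SemidirectProduct.inl v * y := by
    rw [hv, ← pow_succ, ← pow_succ']
  have h6 := congrArg (fun z => Multiplicative.toAdd (SemidirectProduct.left z)) h5
  simp only [SemidirectProduct.mul_left, SemidirectProduct.left_inl, SemidirectProduct.right_inl,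
    map_one, MulAut.one_apply, toAdd_mul, act_apply, toAdd_ofAdd] at h6
  have h7 : v = 1 := fpf M hT h4 (add_left_cancel (h6.trans (add_comm _ _)))
  rw [h7, map_one] at hv
  have h8 := Nat.le_of_dvd (Nat.pos_of_ne_zero h3) (orderOf_dvd_of_pow_eq_one hv.symm)
  omega

end


/-- Let S be the Suzuki group over the field with q = 2^(2m+1) ≥ 8 elements. Then there are finite groups of arbitrarily large order with the same prime graph as S. -/
theorem result {F : Type*} [Field F] [Fintype F] {m : ℕ} (hm : 1 ≤ m) (hF : Fintype.card F = 2 ^ (2 * m + 1)) (N : ℕ) :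
    ∃ (H : Type) (_ : Group H) (_ : Fintype H), N < Fintype.card H ∧ ((∀ r : ℕ, r.Prime → (r ∣ Nat.card ↥(Cfsg.Lie.Sz F (2 ^ (m + 1))) ↔ r ∣ Nat.card H)) ∧
      (∀ r s : ℕ, r.Prime → s.Prime → r ≠ s → ((∃ x : ↥(Cfsg.Lie.Sz F (2 ^ (m + 1))), orderOf x = r * s) ↔ (∃ y : H, orderOf y = r * s)))) := by
  have hT := titsOf_isFin F hm hF
  generalize Cfsg.Lie.Sz F (2 ^ (m + 1)) = G0, modelB hT = M
  have := M.finite
  have : Finite (Multiplicative (Matrix (Fin 4) (Fin N) F) ⋊[act M N] G0) :=
    Finite.of_equiv _ SemidirectProduct.equivProd.symm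
  obtain ⟨H, _, _, ⟨e⟩⟩ := exists_small (Multiplicative (Matrix (Fin 4) (Fin N) F) ⋊[act M N] G0)
  have hc : Nat.card H = (Nat.card F ^ N) ^ 4 * Nat.card G0 := by
    rw [Nat.card_congr e.toEquiv, SemidirectProduct.card, Nat.card_congr Multiplicative.toAdd]
    simp [Matrix, Nat.card_fun]
  refine ⟨H, inferInstance, inferInstance, ?_, fun r hr => ?_, fun r s hr hs hrs => ?_⟩
  · rw [← Nat.card_eq_fintype_card, hc]
    have h1 := hT.eight_le
    calc N < Nat.card F ^ N := Nat.lt_pow_self (by omega)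
      _ ≤ (Nat.card F ^ N) ^ 4 := Nat.le_self_pow four_ne_zero _
      _ ≤ _ := Nat.le_mul_of_pos_right _ Nat.card_pos
  · rw [hc, hr.dvd_mul]
    refine ⟨Or.inr, fun h => h.elim (fun h => ?_) id⟩
    rw [M.card_G, mul_assoc, pow_two, mul_assoc]
    exact (hr.dvd_of_dvd_pow (hr.dvd_of_dvd_pow h)).mul_right _
  · constructor
    · rintro ⟨x, hx⟩
      refine ⟨e.symm (SemidirectProduct.inr x), ?_⟩
      rw [MulEquiv.orderOf_eq, orderOf_injective _ SemidirectProduct.inr_injective, hx]
    · rintro ⟨y, hy⟩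
      exact ⟨_, order_aux M hT hr hs hrs (y := e y) (by rw [MulEquiv.orderOf_eq, hy])⟩

end Cfsg.Agent.S3639
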