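import Cfsg.Statements.S3670
import Cfsg.Agent.H30.Deg42
import Cfsg.Agent.H30.U33Deg

set_option autoImplicit false
open Cfsg

namespace Cfsg.Agent.S3670

/-- The character degree graph of a finite group has as vertices the primes dividing some irreducible complex character degree, two distinct primes being joined when their product divides some irreducible character degree; two groups have the same character degree graph when they have the same vertices and the same joined pairs. Let F be the field with 9 elements and L = PSU(3,3) realised over F (order 6048). There is a finite solvable group of order 6048 with the same character degree graph as L; so L is not determined by its order together with its character degree graph. -/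
theorem result {F : Type*} [Field F] [Fintype F] (hF : Fintype.card F = 9) :
    ∃ (H : Type) (_ : Group H) (_ : Fintype H), Group.IsSolvable H ∧ Nat.card H = 6048 ∧ Cfsg.degreePrimes H = Cfsg.degreePrimes (Cfsg.PSU 3 F 3) ∧ Cfsg.degreeGraph H = Cfsg.degreeGraph (Cfsg.PSU 3 F 3) := by
  obtain ⟨e1⟩ := H67.g2K_equiv (ZMod.card 2)
  let e := (H55.psuCongr (FiniteField.ringEquivOfCardEq (hF.trans H55.card_F9.symm)) 3 3).trans e1.symm
  have : Finite (Cfsg.PSU 3 F 3) := Finite.of_equiv _ e.symm.toEquiv
  have hc := H44.cd_equiv e
  obtain ⟨a1, a2⟩ := H30.D42.graph ((Nat.card_congr e.toEquiv).trans (H67.g2K_card (ZMod.card 2)))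
    (hc ▸ H30.U33.deg6) (hc ▸ H30.U33.deg14) (hc ▸ H30.U33.deg21) dvd_rfl dvd_rfl dvd_rfl
  obtain ⟨b1, b2⟩ := H30.D42.graph H30.D42.card_H H30.D42.deg42 H30.D42.deg42 H30.D42.deg42
    (by norm_num) (by norm_num) (by norm_num)
  exact ⟨H30.D42.H, inferInstance, Fintype.ofFinite _, H30.D42.solv, H30.D42.card_H, b1.trans a1.symm,
    SimpleGraph.ext (funext₂ fun p q => propext ((b2 p q).trans (a2 p q).symm))⟩

end Cfsg.Agent.S3670
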