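import Cfsg.Agent.Base
import Cfsg.Agent.H89.Socle
import Cfsg.Statements.S3680

set_option autoImplicit false
open Cfsg

namespace Cfsg.Agent.S3680

open MulAction

/-- The socle of a finite primitive permutation group. Let a finite group G act faithfully and primitively on a set Ω, and let N be the subgroup generated by the minimal normal subgroups of G. Then either N is an elementary abelian p-group for some prime p and acts regularly on Ω (transitively with trivial point stabilizers), or N is isomorphic to a direct product of m ≥ 1 copies of a non-abelian simple group. -/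
theorem result {G Ω : Type*} [Group G] [Finite G] [MulAction G Ω] [FaithfulSMul G Ω] [Finite Ω]
    (hprim : MulAction.IsPreprimitive G Ω) (N : Subgroup G)
    (hN : N = sSup {V : Subgroup G | V.Normal ∧ V ≠ ⊥ ∧ ∀ M : Subgroup G, M.Normal → M ≤ V → M = ⊥ ∨ M = V}) :
    (∃ p : ℕ, p.Prime ∧ IsMulCommutative N ∧ (∀ x : N, x ^ p = 1) ∧
      MulAction.IsPretransitive N Ω ∧ ∀ ω : Ω, MulAction.stabilizer N ω = ⊥) ∨
    (∃ (T : Type) (_ : Group T) (m : ℕ), 1 ≤ m ∧ IsSimpleGroup T ∧ ¬ IsMulCommutative T ∧ Nonempty (N ≃* (Fin m → T))) := by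
  by_cases hG : (⊤ : Subgroup G) = ⊥
  · left
    have hs : Subsingleton G := by
      rw [← Subgroup.subsingleton_iff]
      exact subsingleton_iff_bot_eq_top.1 hG.symm
    refine ⟨2, Nat.prime_two, ⟨⟨fun _ _ => Subsingleton.elim _ _⟩⟩, fun _ => Subsingleton.elim _ _,
      ⟨fun x y => ?_⟩, fun _ => Subsingleton.elim _ _⟩
    obtain ⟨g, rfl⟩ := exists_smul_eq G x y
    exact ⟨1, by rw [Subsingleton.elim g 1, one_smul, one_smul]⟩
  obtain ⟨M, -, hM⟩ := H89.exists_isMinNormal_le (⊤ : Subgroup G) inferInstance hG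
  have hMn := hM.normal
  have hMt := H89.isPretransitive_of_normal_of_primitive (Ω := Ω) M hM.ne_bot
  have hMN : M ≤ N := hN ▸ le_sSup ⟨hM.normal, hM.ne_bot, hM.min⟩
  by_cases hc : IsMulCommutative M
  · left
    have : N = M := by
      refine le_antisymm (hN ▸ sSup_le fun L hL => ?_) hMN
      exact ((hL.2.2 M hM.normal (hM.le_of_comm_of_primitive (α := Ω) hc L hL.1 hL.2.1)).resolve_left
        hM.ne_bot).ge
    subst this
    obtain ⟨p, hp, h⟩ := hM.exists_prime_pow_eq_one hc
    exact ⟨p, hp, hc, fun x => Subtype.ext (h x x.2), hMt,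
      H89.stabilizer_eq_bot_of_comm_transitive N hc⟩
  right
  obtain ⟨T, _, m, hT, hm, ⟨e⟩⟩ := hM.exists_pow_simple
  have hTc : ¬ IsMulCommutative T := fun h => hc (H89.isMulCommutative_of_pi e h)
  by_cases hu : ∀ L : Subgroup G, H89.IsMinNormal L → L = M
  · have : N = M := le_antisymm (hN ▸ sSup_le fun L hL => (hu L ⟨hL.1, hL.2.1, hL.2.2⟩).le) hMN
    subst this
    exact ⟨T, _, m, hm, hT, hTc, ⟨e⟩⟩
  push Not at hu
  obtain ⟨L, hL, hLM⟩ := hu
  have hLn := hL.normal
  have hLt := H89.isPretransitive_of_normal_of_primitive (Ω := Ω) L hL.ne_bot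
  have : N = M ⊔ L := by
    refine le_antisymm (hN ▸ sSup_le fun K hK => ?_)
      (sup_le hMN (hN ▸ le_sSup ⟨hL.normal, hL.ne_bot, hL.min⟩))
    rcases hM.eq_or_eq_of_primitive (α := Ω) hL hLM.symm ⟨hK.1, hK.2.1, hK.2.2⟩ with rfl | rfl
    · exact le_sup_left
    · exact le_sup_right
  have hcomm : ∀ x ∈ M, ∀ y ∈ L, x * y = y * x := fun x hx y hy =>
    (hM.commute hL hLM.symm hx hy).eq
  obtain ⟨a, -⟩ := H89.nonempty_of_ne_bot (α := Ω) hM.ne_bot
  obtain ⟨f, -⟩ := H89.nonempty_mulEquiv_of_commute_transitive M L a hcomm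
  obtain ⟨g, -⟩ := H89.exists_prodEquiv_sup M L (hM.disjoint hL hLM.symm) hcomm
  refine ⟨T, _, m + m, by omega, hT, hTc, ⟨?_⟩⟩
  exact ((MulEquiv.subgroupCongr this).trans g.symm).trans
    ((e.prodCongr (f.symm.trans e)).trans (H89.piFinAddEquiv T m m).symm)

end Cfsg.Agent.S3680
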