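import Cfsg.Agent.Base
import Cfsg.Agent.H89.TW
import Cfsg.Statements.S3682

set_option autoImplicit false
open Cfsg

namespace Cfsg.Agent.S3682

open H89.TW MulAction in

/-- Wielandt's bound toward the Sims conjecture. Let a finite group G act faithfully and primitively on a set Ω, let a and b be points, and suppose the orbit of b under the stabilizer of a has length d ≥ 2. Then there are a prime p and a normal p-subgroup P of the stabilizer of a, all of whose elements fix b, such that the index of P in the stabilizer of a divides d! · ((d - 1)!)^d. -/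
theorem result {G Ω : Type*} [Group G] [Finite G] [MulAction G Ω] [FaithfulSMul G Ω] [Finite Ω]
    (hprim : MulAction.IsPreprimitive G Ω) (a b : Ω) (d : ℕ) (hd : Nat.card (MulAction.orbit (MulAction.stabilizer G a) b) = d) (h2 : 2 ≤ d) :
    ∃ p : ℕ, p.Prime ∧ ∃ P : Subgroup (MulAction.stabilizer G a), P.Normal ∧ IsPGroup p P ∧ (∀ g : P, ((g : MulAction.stabilizer G a) : G) • b = b) ∧
      P.index ∣ Nat.factorial d * (Nat.factorial (d - 1)) ^ d := by
  obtain ⟨P, h1⟩ := pair_of_primitive hprim (a := a) (b := b) (hd ▸ h2)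
  rw [hd] at h1
  by_cases h : c2 (stabilizer G a) (stabilizer G b) = ⊥ ∨ c2 (stabilizer G b) (stabilizer G a) = ⊥
  · refine ⟨2, Nat.prime_two, ⊥, inferInstance, IsPGroup.of_bot, fun g => ?_, ?_⟩
    · rw [Subgroup.mem_bot.1 g.2]
      exact one_smul G b
    · rw [Subgroup.index_bot, ← h1]
      exact P.card_dvd h
  · push Not at h
    obtain ⟨p, hp, -, -, h3, -⟩ := P.main h.1 h.2
    refine ⟨p, hp, ((c1 (stabilizer G b) (stabilizer G a)).subgroupOf
      (stabilizer G a)).normalCore, inferInstance,
      h3.of_equiv (Subgroup.equivMapOfInjective _ _ (Subgroup.subtype_injective _)).symm,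
      fun g => coreIn_le_left (stabilizer G b) _
        (Subgroup.mem_subgroupOf.1 (Subgroup.normalCore_le _ g.2)), ?_⟩
    rw [← relIndex_coreIn, ← h1]
    exact P.relIndex_c2_dvd

end Cfsg.Agent.S3682
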