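import Cfsg.Agent.Base
import Cfsg.Agent.H89.Prim
import Cfsg.Agent.H3.DihQuat
import Cfsg.Statements.S3684

set_option autoImplicit false
open Cfsg

namespace Cfsg.Agent.S3684

open MulAction

/-- Let a finite group G act faithfully and primitively on a set Ω, and suppose the stabilizer of a point a has an orbit of length 2. Then the stabilizer of a has order 2 and G is isomorphic to the dihedral group of order 2p for some prime p. -/
theorem result {G Ω : Type*} [Group G] [Finite G] [MulAction G Ω] [FaithfulSMul G Ω] [Finite Ω]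
    (hprim : MulAction.IsPreprimitive G Ω) (a b : Ω) (h2 : Nat.card (MulAction.orbit (MulAction.stabilizer G a) b) = 2) :
    Nat.card (MulAction.stabilizer G a) = 2 ∧ ∃ p : ℕ, p.Prime ∧ Nonempty (G ≃* DihedralGroup p) := by
  have hab : a ≠ b := by
    rintro rfl
    have : orbit (stabilizer G a) a = {a} := by
      ext x
      constructor
      · rintro ⟨g, rfl⟩
        exact g.2
      · rintro rfl
        exact mem_orbit_self _
    rw [this] at h2
    simp at h2
  set K := stabilizer G a ⊓ stabilizer G b with hK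
  have hia : K.relIndex (stabilizer G a) = 2 := by
    rw [hK, Subgroup.inf_relIndex_left, ← h2, Nat.card_coe_set_eq, ← index_stabilizer]
    rfl
  have hca : Nat.card (stabilizer G a) = 2 * Nat.card K := by
    rw [← hia, ← Subgroup.relIndex_bot_left, ← Subgroup.relIndex_bot_left, mul_comm,
      Subgroup.relIndex_mul_relIndex _ _ _ bot_le inf_le_left]
  have hib : K.relIndex (stabilizer G b) = 2 := by
    have h1 := Subgroup.relIndex_mul_relIndex ⊥ K (stabilizer G b) bot_le inf_le_right
    rw [Subgroup.relIndex_bot_left, Subgroup.relIndex_bot_left, ← H89.card_stabilizer_eq a b,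
      hca, mul_comm] at h1
    exact Nat.eq_of_mul_eq_mul_right Nat.card_pos h1
  have hn : ∀ H : Subgroup G, K ≤ H → K.relIndex H = 2 → H ≤ Subgroup.normalizer (K : Set G) :=
    fun H h1 h2 => (Subgroup.normal_subgroupOf_iff_le_normalizer h1).1
      (Subgroup.normal_of_index_eq_two h2)
  have hKb : K = ⊥ := H89.eq_bot_of_le_normalizer_two hab inf_le_left (hn _ inf_le_left hia)
    (hn _ inf_le_right hib)
  rw [hKb, Subgroup.card_bot, mul_one] at hca
  have hcb : Nat.card (stabilizer G b) = 2 := by rw [← H89.card_stabilizer_eq a b, hca]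
  refine ⟨hca, ?_⟩
  have hinv : ∀ H : Subgroup G, Nat.card H = 2 →
      ∃ s ∈ H, s ≠ 1 ∧ s * s = 1 ∧ ∀ x ∈ H, x = 1 ∨ x = s := by
    intro H hH
    obtain ⟨⟨s, hs⟩, h1, h2⟩ := (Nat.card_eq_two_iff' (1 : H)).1 hH
    have h3 : ∀ x ∈ H, x = 1 ∨ x = s := fun x hx => by
      by_cases h : x = 1
      · exact Or.inl h
      · exact Or.inr (congrArg Subtype.val (h2 ⟨x, hx⟩ fun h' => h (congrArg Subtype.val h')))
    have h4 : s ≠ 1 := fun h => h1 (Subtype.ext h)
    refine ⟨s, hs, h4, (h3 _ (H.mul_mem hs hs)).resolve_right fun h => h4 ?_, h3⟩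
    simpa using h
  obtain ⟨s, hs, hs1, hss, hsa⟩ := hinv _ hca
  obtain ⟨t, ht, ht1, htt, -⟩ := hinv _ hcb
  have hta : t • a ≠ a := fun h => ht1 (by
    have : t ∈ K := ⟨h, ht⟩
    rwa [hKb, Subgroup.mem_bot] at this)
  have htop : ∀ H : Subgroup G, s ∈ H → t ∈ H → H = ⊤ := fun H h1 h2 =>
    H89.eq_top_of_stabilizer_le (fun x hx => by
      rcases hsa x hx with rfl | rfl
      exacts [H.one_mem, h1]) h2 hta
  set r := s * t with hr
  have hsinv : s⁻¹ = s := inv_eq_of_mul_eq_one_right hss
  have htinv : t⁻¹ = t := inv_eq_of_mul_eq_one_right htt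
  have hsr : s * r * s⁻¹ = r⁻¹ := by
    rw [hr, mul_inv_rev, hsinv, htinv, ← mul_assoc, hss, one_mul]
  have hts : t = s * r := by rw [hr, ← mul_assoc, hss, one_mul]
  have hsz : s ∉ Subgroup.zpowers r := by
    rintro ⟨k, hk⟩
    have hc : Commute s t := by
      have h1 : Commute s r := hk ▸ (Commute.refl r).zpow_left k
      rw [hts]
      exact (Commute.refl s).mul_right h1
    have : stabilizer G a = ⊥ := by
      refine H89.eq_bot_of_le_normalizer le_rfl Subgroup.le_normalizer (g := t) ?_ hta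
      refine Subgroup.centralizer_le_normalizer _ fun x hx => ?_
      rcases hsa x hx with rfl | rfl
      · simp
      · exact hc
    rw [this] at hs
    exact hs1 hs
  refine ⟨orderOf r, ?_, H3.nonempty_mulEquiv_dihedral_of_closure rfl (by rw [sq, hss]) hsr hsz
    (htop _ (Subgroup.subset_closure (by simp)) (hts ▸ Subgroup.mul_mem _
      (Subgroup.subset_closure (by simp)) (Subgroup.subset_closure (by simp))))⟩
  have hr1 : r ≠ 1 := fun h => hta (by rw [hts, h, mul_one]; exact hs)
  rw [Nat.prime_def]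
  refine ⟨?_, fun d hd => ?_⟩
  · have := orderOf_pos r
    have := orderOf_eq_one_iff.not.2 hr1
    omega
  by_cases hd1 : r ^ d = 1
  · exact Or.inr (Nat.dvd_antisymm hd (orderOf_dvd_of_pow_eq_one hd1))
  left
  have hN : (Subgroup.zpowers (r ^ d)).Normal := by
    rw [← Subgroup.normalizer_eq_top_iff]
    have hrN : r ∈ Subgroup.normalizer (Subgroup.zpowers (r ^ d) : Set G) :=
      Subgroup.centralizer_le_normalizer _ (by
        rintro _ ⟨k, rfl⟩
        exact (((Commute.refl r).pow_left d).zpow_left k).eq)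
    have hsN : s ∈ Subgroup.normalizer (Subgroup.zpowers (r ^ d) : Set G) := by
      refine Subgroup.mem_normalizer_fintype ?_
      rintro _ ⟨k, rfl⟩
      refine ⟨-k, ?_⟩
      simp only [← conj_zpow, ← conj_pow, hsr, inv_pow, inv_zpow', zpow_neg, inv_zpow]
    exact htop _ hsN (hts ▸ Subgroup.mul_mem _ hsN hrN)
  have := H89.isPretransitive_of_normal_of_primitive (Ω := Ω) (Subgroup.zpowers (r ^ d))
    (Subgroup.zpowers_eq_bot.not.2 hd1)
  obtain ⟨⟨_, k, rfl⟩, hk⟩ := exists_smul_eq (Subgroup.zpowers (r ^ d)) a (r • a)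
  have h1 : r⁻¹ * (r ^ d) ^ k ∈ stabilizer G a := by
    rw [mem_stabilizer_iff, mul_smul, inv_smul_eq_iff]
    exact hk
  have h3 : r⁻¹ * (r ^ d) ^ k = r ^ (d * k - 1 : ℤ) := by
    rw [← zpow_natCast, ← zpow_mul, sub_eq_neg_add, zpow_add, zpow_neg_one]
  rcases hsa _ h1 with h4 | h4
  · rw [h3, ← orderOf_dvd_iff_zpow_eq_one] at h4
    have h5 : (d : ℤ) ∣ d * k - 1 := (Int.natCast_dvd_natCast.2 hd).trans h4
    have h6 : (d : ℤ) ∣ 1 := by
      have := (Dvd.intro k rfl : (d : ℤ) ∣ d * k).sub h5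
      simpa using this
    exact Nat.dvd_one.1 (Int.natCast_dvd_natCast.1 h6)
  · exact absurd ⟨_, h3.symm.trans h4⟩ hsz

end Cfsg.Agent.S3684
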