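import Cfsg.Agent.Base
import Cfsg.Agent.H27.FixAltC
import Cfsg.Statements.S3687
-- import your own Cfsg.Agent.* helpers here

set_option autoImplicit false
open Cfsg

namespace Cfsg.Agent.S3687

/-- Let a finite group G act faithfully and primitively on a set Ω, let a and b be points such that the orbit Δ of b under the stabilizer H of a has d ≥ 6 elements, and suppose that the permutation group induced by H on Δ contains the alternating group of Δ (the image of H in the symmetric group of Δ has index at most 2) while H does not act faithfully on Δ. Then either H induces exactly the alternating group of Δ and H is isomorphic to the direct product of the alternating groups of degrees d and d - 1; or H induces the full symmetric group of Δ and H is isomorphic to one of: the direct product of the symmetric groups of degrees d and d - 1, the direct product of the symmetric group of degree d with the alternating group of degree d - 1, or the subgroup of the direct product of the symmetric groups of degrees d and d - 1 consisting of the pairs of permutations with equal signs. -/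
theorem result {G Ω : Type*} [Group G] [Finite G] [MulAction G Ω] [FaithfulSMul G Ω] [Finite Ω]
    (hprim : MulAction.IsPreprimitive G Ω) (a b : Ω) (d : ℕ) (hd : Nat.card (MulAction.orbit (MulAction.stabilizer G a) b) = d) (h6 : 6 ≤ d)
    (halt : (MulAction.toPermHom (MulAction.stabilizer G a) (MulAction.orbit (MulAction.stabilizer G a) b)).range.index ≤ 2)
    (hunf : ¬ Function.Injective (MulAction.toPermHom (MulAction.stabilizer G a) (MulAction.orbit (MulAction.stabilizer G a) b))) :
    ((MulAction.toPermHom (MulAction.stabilizer G a) (MulAction.orbit (MulAction.stabilizer G a) b)).range.index = 2 ∧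
      Nonempty (MulAction.stabilizer G a ≃* alternatingGroup (Fin d) × alternatingGroup (Fin (d - 1)))) ∨
    ((MulAction.toPermHom (MulAction.stabilizer G a) (MulAction.orbit (MulAction.stabilizer G a) b)).range = ⊤ ∧
      (Nonempty (MulAction.stabilizer G a ≃* Equiv.Perm (Fin d) × Equiv.Perm (Fin (d - 1))) ∨
       Nonempty (MulAction.stabilizer G a ≃* Equiv.Perm (Fin d) × alternatingGroup (Fin (d - 1))) ∨
       Nonempty (MulAction.stabilizer G a ≃* ((Equiv.Perm.sign.comp (MonoidHom.fst (Equiv.Perm (Fin d)) (Equiv.Perm (Fin (d - 1))))) *
         (Equiv.Perm.sign.comp (MonoidHom.snd (Equiv.Perm (Fin d)) (Equiv.Perm (Fin (d - 1)))))).ker))) := by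
  open H89.TW H27.FA MulAction in
  obtain ⟨P, h1⟩ := pair_of_primitive hprim (a := a) (b := b) (by omega)
  let e : orbit (stabilizer G a) b ≃ Fin d := Finite.equivFinOfCardEq hd
  let f := toPermHom (stabilizer G a) (orbit (stabilizer G a) b)
  let φ := e.permCongrHom.toMonoidHom.comp f
  have A : Act (stabilizer G a) (stabilizer G b) φ (e ⟨b, mem_orbit_self b⟩) := by
    refine ⟨fun h => ?_, fun x => ?_⟩
    · change e (h • e.symm (e _)) = _ ↔ _
      rw [e.symm_apply_apply, e.apply_eq_iff_eq, Subtype.ext_iff]
      rfl
    · obtain ⟨h, hh⟩ := (e.symm x).2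
      refine ⟨h, ?_⟩
      change e (h • e.symm (e _)) = _
      rw [e.symm_apply_apply, ← e.eq_symm_apply]
      exact Subtype.ext hh
  obtain ⟨ψ, y0, B⟩ := exAct (H := stabilizer G b) (K := stabilizer G a) (d := d)
    (by rw [P.relIndex_eq, h1, hd])
  have hr : φ.range = f.range.map e.permCongrHom.toMonoidHom := by
    rw [MonoidHom.map_range]
  have hi : φ.range.index = f.range.index := by
    rw [hr]; exact Subgroup.index_map_equiv _ e.permCongrHom
  have hφ : Big φ (stabilizer G a) := by
    rw [Big, im_self]
    exact Equiv.Perm.alternatingGroup_le_of_index_le_two (hi ▸ halt)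
  have hA : c1 (stabilizer G a) (stabilizer G b) ≠ ⊥ := fun h0 =>
    hunf ((injective_iff_map_eq_one _).2 fun h hh => by
      have : φ h = 1 := by
        change e.permCongrHom (f h) = 1
        rw [show f h = 1 from hh, map_one]
      have h2 := (A.ker h).1 this
      rw [h0] at h2
      exact Subtype.ext h2)
  obtain ⟨θ, t1, t2, t3, t4⟩ := embed P A B h6 hφ hA
  refine (classify (by omega) φ θ t1 t2 t3 t4).imp (fun h => ⟨hi ▸ h.1, h.2⟩) fun h => ⟨?_, h.2⟩
  rw [← Subgroup.index_eq_one, ← hi, h.1, Subgroup.index_top]

end Cfsg.Agent.S3687
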