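import Cfsg.Agent.Base
import Cfsg.Agent.H89.TW
import Cfsg.Statements.S3693

set_option autoImplicit false
open Cfsg

namespace Cfsg.Agent.S3693

open H89.TW MulAction in

/-- Let a finite group G act faithfully and primitively on a set Ω, let a and b be points such that the orbit Δ of b under the stabilizer H of a has length d ≥ 2, and consider the permutation group induced on Δ by the elements of H fixing b. If that induced group has trivial Fitting subgroup (no non-trivial nilpotent normal subgroup), then the two-point stabilizer of a and b has trivial Fitting subgroup and the order of H divides d! · ((d - 1)!)^d. -/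
theorem result {G Ω : Type*} [Group G] [Finite G] [MulAction G Ω] [FaithfulSMul G Ω] [Finite Ω]
    (hprim : MulAction.IsPreprimitive G Ω) (a b : Ω) (d : ℕ) (hd : Nat.card (MulAction.orbit (MulAction.stabilizer G a) b) = d) (h2 : 2 ≤ d)
    (hF : Cfsg.fittingSubgroup ↥(((MulAction.stabilizer G b).subgroupOf (MulAction.stabilizer G a)).map (MulAction.toPermHom (MulAction.stabilizer G a) (MulAction.orbit (MulAction.stabilizer G a) b))) = ⊥) :
    Cfsg.fittingSubgroup ↥(MulAction.stabilizer G a ⊓ MulAction.stabilizer G b) = ⊥ ∧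
      Nat.card (MulAction.stabilizer G a) ∣ Nat.factorial d * (Nat.factorial (d - 1)) ^ d := by
  obtain ⟨P, h1⟩ := pair_of_primitive hprim (a := a) (b := b) (hd ▸ h2)
  have key : ∀ p : ℕ, p.Prime → pCoreOf p (stabilizer G a ⊓ stabilizer G b) = ⊥ := fun p hp => by
    have := Fact.mk hp
    refine P.pCoreOf_eq_bot ?_
    let f := toPermHom (stabilizer G a) (orbit (stabilizer G a) b)
    have h3 := (H98.map_pCoreOf_le (p := p) f ((stabilizer G b).subgroupOf (stabilizer G a))).trans
      (H14.pCoreOf_le_fitOf _)
    rw [H14.fitOf, hF, Subgroup.map_bot, le_bot_iff, Subgroup.map_eq_bot_iff,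
      ← Subgroup.inf_subgroupOf_left, H98.pCoreOf_subgroupOf_eq inf_le_left,
      H14.subgroupOf_le_iff_le_map ((H98.pCoreOf_le _).trans inf_le_left)] at h3
    refine h3.trans (le_coreIn ?_ (Subgroup.map_subtype_le _) (H98.le_normalizer_map_subtype _))
    rintro _ ⟨x, hx, rfl⟩
    exact congrArg Subtype.val (DFunLike.congr_fun hx ⟨b, mem_orbit_self b⟩)
  refine ⟨?_, ?_⟩
  · have := eq_bot_iff.2 (H14.fitOf_le_of_forall fun q hq => (key q hq).le)
    exact (Subgroup.map_eq_bot_iff_of_injective _ (Subgroup.subtype_injective _)).1 this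
  · rw [← hd, ← h1]
    refine P.card_dvd ?_
    by_contra h
    push Not at h
    obtain ⟨p, hp, -, -, h3, -⟩ := P.main h.1 h.2
    exact h.1 (eq_bot_iff.2 (key p hp ▸ H98.le_pCoreOf h3 ((c2_le _ _).trans (c1_le _ _))
      (inf_le_left.trans (le_normalizer_coreIn _ _))))

end Cfsg.Agent.S3693
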