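import Cfsg.Agent.Base
import Cfsg.Agent.H89.Prim
import Cfsg.Statements.S3696

set_option autoImplicit false
open Cfsg

namespace Cfsg.Agent.S3696

open MulAction

theorem amgm (a b x y : ℕ) (hx : 0 < x) (hy : 0 < y) :
    a ^ x * b ^ y * (x + y) ^ (x + y) ≤ (a + b) ^ (x + y) * (x ^ x * y ^ y) := by
  have hx' : (0 : ℝ) < x := by exact_mod_cast hx
  have hy' : (0 : ℝ) < y := by exact_mod_cast hy
  have hs : (0 : ℝ) < x + y := by linarith
  have h := Real.geom_mean_le_arith_mean2_weighted (w₁ := x / (x + y)) (w₂ := y / (x + y))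
    (p₁ := a / x) (p₂ := b / y) (by positivity) (by positivity) (by positivity) (by positivity)
    (by field_simp)
  have h2 := pow_le_pow_left₀ (by positivity) h (x + y)
  rw [mul_pow, ← Real.rpow_natCast, ← Real.rpow_natCast, ← Real.rpow_mul (by positivity),
    ← Real.rpow_mul (by positivity), Nat.cast_add, div_mul_cancel₀ _ hs.ne',
    div_mul_cancel₀ _ hs.ne', Real.rpow_natCast, Real.rpow_natCast,
    show (x : ℝ) / (x + y) * (a / x) + y / (x + y) * (b / y) = (a + b) / (x + y) by field_simp,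
    div_pow, div_pow, div_pow, div_mul_div_comm, div_le_div_iff₀ (by positivity) (by positivity)]
    at h2
  exact_mod_cast h2

theorem key {H Ω : Type*} [CommGroup H] [Finite H] [MulAction H Ω] [FaithfulSMul H Ω] [Finite Ω]
    {p : ℕ} (hp : p.Prime) (hH : IsPGroup p H) (Δ : Set Ω) (A : Subgroup H) (k : ℕ)
    (hA : ∀ a ∈ A, ∀ x, x ∉ Δ → a • x = x)
    (hk : Nat.card (A ⊓ (powMonoidHom p).ker : Subgroup H) = p ^ k) :
    Nat.card A * k ^ k ≤ Δ.ncard ^ k := by
  have : Fact p.Prime := ⟨hp⟩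
  induction hn : Δ.ncard using Nat.strong_induction_on generalizing Δ A k with
  | _ n ih =>
  set E : Subgroup H := A ⊓ (powMonoidHom p).ker with hE
  by_cases hE1 : E = ⊥
  · rw [hE1, Subgroup.card_bot] at hk
    obtain rfl : k = 0 := by
      rcases k with _ | k
      · rfl
      · exact absurd (hk ▸ dvd_pow_self p k.succ_ne_zero) hp.not_dvd_one
    have hA1 : A = ⊥ := by
      by_contra h
      have := (Subgroup.nontrivial_iff_ne_bot A).2 h
      obtain ⟨m, hm0, hm⟩ := (hH.to_subgroup A).nontrivial_iff_card.1 this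
      obtain ⟨x, hx⟩ := exists_prime_orderOf_dvd_card' (G := A) p (hm ▸ dvd_pow_self p hm0.ne')
      have h1 : (x : H) ∈ E := ⟨x.2, by
        change (x : H) ^ p = 1
        rw [← hx, ← Subgroup.coe_pow, pow_orderOf_eq_one, Subgroup.coe_one]⟩
      rw [hE1, Subgroup.mem_bot, OneMemClass.coe_eq_one] at h1
      rw [h1, orderOf_one] at hx
      exact hp.one_lt.ne hx
    simp [hA1]
  obtain ⟨⟨e, he⟩, he1⟩ := Subgroup.ne_bot_iff_exists_ne_one.1 hE1
  obtain ⟨a, ha⟩ : ∃ a : Ω, e • a ≠ a := by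
    by_contra! h'
    exact he1 (Subtype.ext (eq_of_smul_eq_smul (α := Ω) fun y => by rw [h']; simp))
  have hsub : orbit A a ⊆ Δ := by
    rintro _ ⟨g, rfl⟩
    by_contra h
    have h1 := hA e he.1 _ h
    change e • (g : H) • a = (g : H) • a at h1
    rw [← mul_smul, mul_comm, mul_smul, smul_left_cancel_iff] at h1
    exact ha h1
  have hcs : ∀ B : Subgroup H,
      Nat.card B = (orbit B a).ncard * Nat.card (B ⊓ stabilizer H a : Subgroup H) := fun B => by
    rw [H89.card_eq_card_orbit_mul_card_stabilizer a, Nat.card_coe_set_eq]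
    congr 1
    rw [inf_comm, ← Subgroup.subgroupOf_map_subtype,
      Subgroup.card_map_of_injective B.subtype_injective]
    rfl
  obtain ⟨k', hk'⟩ := (hH.to_subgroup (E ⊓ stabilizer H a)).exists_card_eq
  obtain ⟨k₁, hk₁⟩ := (hH.to_subgroup E).card_orbit a
  rw [Nat.card_coe_set_eq] at hk₁
  have hkk : k = k₁ + k' := by
    have := hcs E
    rw [hk, hk', hk₁, ← pow_add] at this
    exact Nat.pow_right_injective hp.two_le this
  have hk₁0 : 0 < k₁ := by
    by_contra! h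
    rw [Nat.le_zero.1 h, pow_zero, Set.ncard_eq_one] at hk₁
    obtain ⟨y, hy⟩ := hk₁
    have h2 : (⟨e, he⟩ : E) • a ∈ orbit E a := mem_orbit _ _
    have h3 : a ∈ orbit E a := mem_orbit_self _
    rw [hy] at h2 h3
    exact ha (h2.trans h3.symm)
  set m := (orbit A a).ncard with hm
  have hpm : p ^ k₁ ≤ m := hk₁ ▸ Set.ncard_le_ncard (by
    rintro _ ⟨g, rfl⟩
    exact ⟨⟨g, g.2.1⟩, rfl⟩)
  have h1 := Set.ncard_sdiff_add_ncard_of_subset hsub
  have hm0 : 0 < m := (pow_pos hp.pos _).trans_le hpm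
  have hih := ih _ (by omega) (Δ \ orbit A a) (A ⊓ stabilizer H a) k' (by
    intro g hg x hx
    by_cases hxΔ : x ∈ Δ
    · obtain ⟨h, rfl⟩ : x ∈ orbit A a := by
        by_contra h
        exact hx ⟨hxΔ, h⟩
      change g • (h : H) • a = (h : H) • a
      rw [← mul_smul, mul_comm, mul_smul, hg.2]
    · exact hA g hg.1 x hxΔ) (by rw [← hk', hE, inf_right_comm]) rfl
  have hmk : m * k₁ ^ k₁ ≤ m ^ k₁ := by
    obtain ⟨j, rfl⟩ : ∃ j, k₁ = j + 1 := ⟨k₁ - 1, by omega⟩
    rw [pow_succ' m]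
    refine Nat.mul_le_mul_left _ ?_
    calc (j + 1) ^ (j + 1) ≤ (2 ^ j) ^ (j + 1) := Nat.pow_le_pow_left Nat.lt_two_pow_self _
      _ = (2 ^ (j + 1)) ^ j := by rw [← pow_mul, ← pow_mul, mul_comm]
      _ ≤ m ^ j := Nat.pow_le_pow_left ((Nat.pow_le_pow_left hp.two_le _).trans hpm) _
  rw [hcs A, ← hm, hkk, ← hn, ← h1]
  set c := Nat.card (A ⊓ stabilizer H a : Subgroup H)
  set b := (Δ \ orbit A a).ncard
  rcases Nat.eq_zero_or_pos k' with rfl | hk'0
  · simp only [pow_zero, mul_one, add_zero] at hih ⊢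
    calc m * c * k₁ ^ k₁ ≤ m * 1 * k₁ ^ k₁ := by gcongr
      _ ≤ m ^ k₁ := by rwa [mul_one]
      _ ≤ (b + m) ^ k₁ := Nat.pow_le_pow_left (by omega) _
  have h2 := amgm m b k₁ k' hk₁0 hk'0
  refine Nat.le_of_mul_le_mul_right ?_ (show 0 < k₁ ^ k₁ * k' ^ k' by positivity)
  calc m * c * (k₁ + k') ^ (k₁ + k') * (k₁ ^ k₁ * k' ^ k')
      = (m * k₁ ^ k₁) * (c * k' ^ k') * (k₁ + k') ^ (k₁ + k') := by ring
    _ ≤ m ^ k₁ * b ^ k' * (k₁ + k') ^ (k₁ + k') := by gcongr
    _ ≤ _ := by rwa [add_comm b m]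

/-- Let p be a prime, Ω a finite set with n ≥ p elements, and A an abelian p-subgroup of the symmetric group on Ω whose elements of order dividing p number p^k (so k is the rank of A). Then |A| · k^k ≤ n^k, that is, |A| ≤ (n/k)^k. -/
theorem result {Ω : Type*} [Fintype Ω] [DecidableEq Ω]
    (p : ℕ) (hp : p.Prime) (hn : p ≤ Fintype.card Ω) (A : Subgroup (Equiv.Perm Ω)) (hA : IsPGroup p A) (hab : IsMulCommutative A)
    (k : ℕ) (hk : Nat.card {x : A // x ^ p = 1} = p ^ k) :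
    Nat.card A * k ^ k ≤ Fintype.card Ω ^ k := by
  let _ : CommGroup A := { (inferInstance : Group A) with mul_comm := hab.is_comm.comm }
  have := key (H := A) (Ω := Ω) hp hA Set.univ ⊤ k (fun _ _ x hx => absurd (Set.mem_univ x) hx)
    (by rw [top_inf_eq, ← hk]; rfl)
  rwa [Subgroup.card_top, Set.ncard_univ, Nat.card_eq_fintype_card (α := Ω)] at this

end Cfsg.Agent.S3696
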