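import Cfsg.Statements.S3708
import Cfsg.Agent.H65.PhanFrame

set_option autoImplicit false
open Cfsg

namespace Cfsg.Agent.S3708

/-- Phan's recognition of unitary groups. Let F be a finite field with q² elements, q > 4, and n ≥ 2. Let G be a group generated by subgroups U_0, …, U_{n−1}, each isomorphic to the special unitary group SU(2, q²) (determinant-one isometries of the standard Hermitian form in two variables over F), and let D_i ≤ U_i be cyclic subgroups of order q + 1. Suppose that U_i and U_j commute elementwise whenever the indices differ by at least 2, that the subgroup generated by U_i and U_{i+1} is isomorphic to SU(3, q²) for each i, and that D_i and D_j commute elementwise for all i, j. Then G is a homomorphic image of SU(n+1, q²). (Generation of G by the U_i is part of the hypothesis; G is not assumed finite.) -/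
theorem result {G : Type*} [Group G] (n : ℕ) (hn : 2 ≤ n)
    (F : Type*) [Field F] [Fintype F] (q : ℕ) (hq : 4 < q) (hF : Fintype.card F = q ^ 2)
    (U : Fin n → Subgroup G) (e : ∀ i, ↥(Cfsg.SU 2 F q) ≃* ↥(U i)) (hgen : ⨆ i, U i = ⊤)
    (D : Fin n → Subgroup G) (hD : ∀ i, D i ≤ U i ∧ IsCyclic ↥(D i) ∧ Nat.card ↥(D i) = q + 1)
    (h1 : ∀ i j : Fin n, (i : ℕ) + 2 ≤ j → ∀ x ∈ U i, ∀ y ∈ U j, x * y = y * x)
    (h2 : ∀ i j : Fin n, (i : ℕ) + 1 = j → Nonempty (↥(U i ⊔ U j) ≃* ↥(Cfsg.SU 3 F q)))
    (h3 : ∀ i j : Fin n, i ≠ j → ∀ x ∈ D i, ∀ y ∈ D j, x * y = y * x) :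
    ∃ f : ↥(Cfsg.SU (n + 1) F q) →* G, Function.Surjective f := by
  open H65.Phan in
  have gen : ∀ i, ∃ d ∈ D i, orderOf d = q + 1 := fun i => by
    obtain ⟨-, hc, hcard⟩ := hD i
    obtain ⟨g, hg⟩ := IsCyclic.exists_ofOrder_eq_natCard (α := D i)
    exact ⟨g, g.2, by rw [Subgroup.orderOf_coe, hg, hcard]⟩
  choose d hd ho using gen
  have h2' : ∀ i j : Fin n, (i : ℕ) + 1 = j →
      Cfsg.IsStandardUnitaryPair (U i ⊔ U j) (U i) (U j) F q := fun i j hij => by
    obtain ⟨θ⟩ := h2 i j hij
    let χ : ∀ k, U k ≤ U i ⊔ U j → (SU 2 F q →* SU 3 F q) := fun k hk =>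
      θ.toMonoidHom.comp ((Subgroup.inclusion hk).comp (e k).toMonoidHom)
    have hχ : ∀ k hk, Function.Injective (χ k hk) := fun k hk =>
      θ.injective.comp ((Subgroup.inclusion_injective hk).comp (e k).injective)
    have hr : ∀ k hk, (χ k hk).range.map ((U i ⊔ U j).subtype.comp θ.symm.toMonoidHom) = U k :=
      fun k hk => by
        ext x
        constructor
        · rintro ⟨_, ⟨g, rfl⟩, rfl⟩
          simp [χ]
        · intro hx
          exact ⟨_, ⟨(e k).symm ⟨x, hx⟩, rfl⟩, by simp [χ]⟩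
    have inj : Function.Injective ((U i ⊔ U j).subtype.comp θ.symm.toMonoidHom) :=
      Subtype.val_injective.comp θ.symm.injective
    have hm : ∀ k hk, θ ⟨d k, hk ((hD k).1 (hd k))⟩ ∈ (χ k hk).range := fun k hk =>
      ⟨(e k).symm ⟨d k, (hD k).1 (hd k)⟩, by simp [χ]; rfl⟩
    obtain ⟨γ, h0, h1⟩ := std_pair hF (hχ i le_sup_left) (hχ j le_sup_right)
      (Subgroup.map_injective inj (by
        rw [Subgroup.map_sup, hr, hr, ← MonoidHom.range_eq_map, MonoidHom.range_comp,
          MonoidHom.range_eq_top.2 θ.symm.surjective, ← MonoidHom.range_eq_map,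
          Subgroup.range_subtype]))
      (hm i le_sup_left) (hm j le_sup_right)
      (by rw [MulEquiv.orderOf_eq, Subgroup.orderOf_mk, ho])
      (by rw [MulEquiv.orderOf_eq, Subgroup.orderOf_mk, ho])
      (by
        rw [← map_mul, ← map_mul]
        exact congrArg θ (Subtype.ext (h3 i j (fun e => by simp [e] at hij) _ (hd i) _ (hd j))))
    refine Or.inl ⟨γ.trans θ.symm, ?_, ?_⟩
    · refine Eq.trans ?_ (hr i le_sup_left)
      rw [suBlock_eq hF, ← range_off0 (by omega), ← range_blkHom hF, ← h0,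
        MonoidHom.range_comp, Subgroup.map_map]
      rfl
    · refine Eq.trans ?_ (hr j le_sup_right)
      rw [suBlock_eq hF, ← range_off1 (by omega), ← range_blkHom hF, ← h1,
        MonoidHom.range_comp, Subgroup.map_map]
      rfl
  obtain ⟨f, hf⟩ := weak hF hn (by omega) _ _ (std_nat hF h2') (comm_nat h1)
  exact ⟨f, MonoidHom.range_eq_top.1 (eq_top_nat hF hn h2' (by rw [hgen, top_sup_eq]) hf)⟩

end Cfsg.Agent.S3708
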