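import Cfsg.Statements.S3713
import Cfsg.Agent.H65.SpAmal
import Cfsg.Agent.H54.SpIso

set_option autoImplicit false
open Cfsg

namespace Cfsg.Agent.S3713

open H65.SpA H54

section
variable (F : Type*) [Field F] (n : ℕ)

/-- first half of the basis -/
def ev (l : ℕ) : Fin n ⊕ Fin n → F := if h : l < n then Pi.single (Sum.inl ⟨l, h⟩) 1 else 0

/-- second half of the basis -/
def fv (l : ℕ) : Fin n ⊕ Fin n → F := if h : l < n then -Pi.single (Sum.inr ⟨l, h⟩) 1 else 0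

theorem ev_eq (k : Fin n) : ev F n k = Pi.single (Sum.inl k) 1 := dif_pos k.2

theorem fv_eq (k : Fin n) : fv F n k = -Pi.single (Sum.inr k) 1 := dif_pos k.2

theorem frm : Frm (Matrix.symplecticGroup (Fin n) F) (spB (Fin n) F) n (ev F n) (fv F n) where
  alt := spB_self
  ee i j := by unfold ev; split_ifs <;> simp [spB_single_inl_left]
  ff i j := by unfold fv; split_ifs <;> simp [spB_single_inr_left]
  ef_ne i j h := by unfold ev fv; split_ifs <;> simp [spB_single_inl_left, Pi.single_apply, h]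
  ef i h := by simp [ev, fv, h, spB_single_inl_left]
  exp y := by
    rw [Finset.sum_range]
    ext (k | k) <;> simp [ev_eq, fv_eq, spB_single_inl_left, spB_single_inr_left, Pi.single_apply]
  inv := spB_smul
  ext _ _ := sp_ext
  eich a v c h := ⟨spOfLin (LinearMap.id + (spB _ F v).smulRight a + (spB _ F a).smulRight v +
      (c • spB _ F a).smulRight a) fun x y => by
    have h' : spB _ F v a = 0 := by rw [spB_swap, h, neg_zero]
    simp [h, h', spB_self, spB_swap x a, spB_swap x v]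
    ring, fun x => by simp [spOfLin_smul]⟩

theorem mem_Fx (A B : ℕ → Prop) (g : Matrix.symplecticGroup (Fin n) F) :
    g ∈ Fx _ (ev F n) (fv F n) A B ↔
      (∀ k : Fin n, A k → g.1.mulVec (Pi.single (Sum.inl k) 1) = Pi.single (Sum.inl k) 1) ∧
      ∀ k : Fin n, B k → g.1.mulVec (Pi.single (Sum.inr k) 1) = Pi.single (Sum.inr k) 1 := by
  simp only [← sp_smul_def]
  refine and_congr ⟨fun h k hk => by simpa [ev_eq] using h k hk, fun h l hl => ?_⟩
    ⟨fun h k hk => by simpa [fv_eq] using h k hk, fun h l hl => ?_⟩ <;> by_cases h' : l < n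
  · simpa [ev, h'] using h ⟨l, h'⟩ hl
  · simp [ev, h']
  · simpa [fv, h'] using h ⟨l, h'⟩ hl
  · simp [fv, h']

end

section
variable {G H : Type*} [Group G] [Group H]

/-- the graph of a homomorphism on a subgroup -/
def gr {A : Subgroup G} (σ : A →* H) : Subgroup (G × H) := (A.subtype.prod σ).range

theorem lf_gr {A : Subgroup G} (σ : A →* H) : Lf (MonoidHom.fst G H) (gr σ) A where
  map := by rintro _ ⟨g, rfl⟩; exact g.2
  surj a ha := ⟨_, ⟨⟨a, ha⟩, rfl⟩, rfl⟩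
  inj := by
    rintro _ ⟨g, rfl⟩ h
    rw [show g = 1 from Subtype.ext h, map_one]

theorem inj_gr {A B : Subgroup G} {σ : A →* H} {τ : B →* H} (h : ∃ Ψ : ↥(A ⊔ B) →* H,
    (∀ g (hg : g ∈ A), Ψ ⟨g, Subgroup.mem_sup_left hg⟩ = σ ⟨g, hg⟩) ∧
      ∀ g (hg : g ∈ B), Ψ ⟨g, Subgroup.mem_sup_right hg⟩ = τ ⟨g, hg⟩) :
    Inj (MonoidHom.fst G H) (gr σ ⊔ gr τ) := by
  obtain ⟨Ψ, h1, h2⟩ := h
  exact fun y hy => (lf_gr Ψ).inj y (sup_le (c := gr Ψ)
    (by rintro _ ⟨g, rfl⟩; exact ⟨_, Prod.ext rfl (h1 g g.2)⟩)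
    (by rintro _ ⟨g, rfl⟩; exact ⟨_, Prod.ext rfl (h2 g g.2)⟩) hy)

end


/-- A presentation of the symplectic group as the universal completion of an amalgam of small subgroups. Let F be a field with more than two elements, n ≥ 2, and Sp the group of 2n × 2n matrices over F preserving the standard alternating form, acting on column vectors; write e_k, f_k for the standard basis vectors of the two halves (a hyperbolic basis). For each k let S_k be the subgroup of Sp fixing e_l and f_l for all l ≠ k (a copy of SL(2, F) on the plane of e_k, f_k), and for each i with i + 1 < n let M_i be the subgroup fixing every e_l and fixing f_l for all l other than i, i+1 (an abelian group isomorphic to the additive group of F³). Then Sp is the universal completion of the amalgam formed by the S_k, the M_i and the subgroups generated by two of them: for every group H and homomorphisms σ_k : S_k → H, μ_i : M_i → H such that for each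 pair of these subgroups some homomorphism on the subgroup they generate restricts to the given ones, there is exactly one homomorphism Sp → H restricting to every σ_k and μ_i. -/
theorem result
    (F : Type*) [Field F] (hF : ∃ a : F, a ≠ 0 ∧ a ≠ 1) (n : ℕ) (hn : 2 ≤ n)
    (S M : Fin n → Subgroup ↥(Matrix.symplecticGroup (Fin n) F))
    (hS : ∀ j : Fin n, S j = Subgroup.closure {A : ↥(Matrix.symplecticGroup (Fin n) F) | ∀ k : Fin n, k ≠ j →
      ((A : ↥(Matrix.symplecticGroup (Fin n) F)) : Matrix (Fin n ⊕ Fin n) (Fin n ⊕ Fin n) F).mulVec (Pi.single (Sum.inl k) (1 : F)) = (Pi.single (Sum.inl k) (1 : F)) ∧ ((A : ↥(Matrix.symplecticGroup (Fin n) F)) : Matrix (Fin n ⊕ Fin n) (Fin n ⊕ Fin n) F).mulVec (Pi.single (Sum.inr k) (1 : F)) = (Pi.single (Sum.inr k) (1 : F))})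
    (hM : ∀ i : Fin n, (i : ℕ) + 1 < n → M i = Subgroup.closure {A : ↥(Matrix.symplecticGroup (Fin n) F) |
      (∀ k : Fin n, ((A : ↥(Matrix.symplecticGroup (Fin n) F)) : Matrix (Fin n ⊕ Fin n) (Fin n ⊕ Fin n) F).mulVec (Pi.single (Sum.inl k) (1 : F)) = (Pi.single (Sum.inl k) (1 : F))) ∧
        ∀ k : Fin n, (k : ℕ) ≠ i → (k : ℕ) ≠ (i : ℕ) + 1 → ((A : ↥(Matrix.symplecticGroup (Fin n) F)) : Matrix (Fin n ⊕ Fin n) (Fin n ⊕ Fin n) F).mulVec (Pi.single (Sum.inr k) (1 : F)) = (Pi.single (Sum.inr k) (1 : F))})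
    {H : Type*} [Group H] (σ : ∀ j : Fin n, ↥(S j) →* H) (μ : ∀ i : Fin n, ↥(M i) →* H)
    (hSS : ∀ j l : Fin n, j ≠ l → ∃ Ψ : ↥(S j ⊔ S l) →* H,
      (∀ (g : ↥(Matrix.symplecticGroup (Fin n) F)) (hg : g ∈ S j), Ψ ⟨g, Subgroup.mem_sup_left hg⟩ = σ j ⟨g, hg⟩) ∧
        (∀ (g : ↥(Matrix.symplecticGroup (Fin n) F)) (hg : g ∈ S l), Ψ ⟨g, Subgroup.mem_sup_right hg⟩ = σ l ⟨g, hg⟩))
    (hMM : ∀ i i' : Fin n, i ≠ i' → (i : ℕ) + 1 < n → (i' : ℕ) + 1 < n → ∃ Ψ : ↥(M i ⊔ M i') →* H,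
      (∀ (g : ↥(Matrix.symplecticGroup (Fin n) F)) (hg : g ∈ M i), Ψ ⟨g, Subgroup.mem_sup_left hg⟩ = μ i ⟨g, hg⟩) ∧
        (∀ (g : ↥(Matrix.symplecticGroup (Fin n) F)) (hg : g ∈ M i'), Ψ ⟨g, Subgroup.mem_sup_right hg⟩ = μ i' ⟨g, hg⟩))
    (hMS : ∀ i j : Fin n, (i : ℕ) + 1 < n → ∃ Ψ : ↥(M i ⊔ S j) →* H,
      (∀ (g : ↥(Matrix.symplecticGroup (Fin n) F)) (hg : g ∈ M i), Ψ ⟨g, Subgroup.mem_sup_left hg⟩ = μ i ⟨g, hg⟩) ∧
        (∀ (g : ↥(Matrix.symplecticGroup (Fin n) F)) (hg : g ∈ S j), Ψ ⟨g, Subgroup.mem_sup_right hg⟩ = σ j ⟨g, hg⟩)) :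
    ∃! Φ : ↥(Matrix.symplecticGroup (Fin n) F) →* H,
      (∀ (j : Fin n) (g : ↥(Matrix.symplecticGroup (Fin n) F)) (hg : g ∈ S j), Φ g = σ j ⟨g, hg⟩) ∧
        (∀ (i : Fin n), (i : ℕ) + 1 < n → ∀ (g : ↥(Matrix.symplecticGroup (Fin n) F)) (hg : g ∈ M i), Φ g = μ i ⟨g, hg⟩) := by
  have eS : ∀ j : Fin n, S j = Sg _ (ev F n) (fv F n) j := fun j => by
    rw [hS, ← (Sg _ (ev F n) (fv F n) j).closure_eq]
    congr 1
    ext g
    simp only [SetLike.mem_coe, mem_Fx, Set.mem_setOf_eq, ne_eq, Fin.ext_iff, imp_and, forall_and]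
  have eM : ∀ i : Fin n, (i : ℕ) + 1 < n → M i = Mg _ (ev F n) (fv F n) i := fun i hi => by
    rw [hM i hi, ← (Mg _ (ev F n) (fv F n) i).closure_eq]
    congr 1
    ext g
    simp only [SetLike.mem_coe, mem_Fx, Set.mem_setOf_eq, ne_eq, and_imp, forall_true_left]
  let S' : ℕ → Subgroup (_ × H) := fun j => if h : j < n then gr (σ ⟨j, h⟩) else ⊥
  let M' : ℕ → Subgroup (_ × H) := fun j => if h : j < n then gr (μ ⟨j, h⟩) else ⊥
  have s' : ∀ j (h : j < n), S' j = gr (σ ⟨j, h⟩) := fun j h => dif_pos h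
  have m' : ∀ j (h : j + 1 < n), M' j = gr (μ ⟨j, by omega⟩) := fun j h => dif_pos (by omega)
  have L := amalgam (frm F n) hF (π := MonoidHom.fst _ H) (S := S') (M := M')
    (fun j h => by rw [s' j h, ← eS ⟨j, h⟩]; exact lf_gr _)
    (fun j h => by rw [m' j h, ← eM ⟨j, by omega⟩ h]; exact lf_gr _)
    (fun j l h h' e => by rw [s' j h, s' l h']; exact inj_gr (hSS _ _ (by simpa)))
    (fun j l h h' e => by rw [m' j h, m' l h']; exact inj_gr (hMM _ _ (by simpa) h h'))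
    (fun j l h h' => by rw [m' j h, s' l h']; exact inj_gr (hMS _ _ h)) (n - 1) (by omega)
  let p := (MonoidHom.fst _ H).comp (Lh S' M' (n - 1)).subtype
  have hp : Function.Bijective p := by
    refine ⟨(injective_iff_map_eq_one _).2 fun x hx => Subtype.ext (L.inj _ x.2 hx), fun g => ?_⟩
    obtain ⟨x, hx, e⟩ := L.surj g ((mem_Fx F n _ _ g).2 ⟨fun k hk => by omega, fun k hk => by omega⟩)
    exact ⟨⟨x, hx⟩, e⟩
  let Φ := ((MonoidHom.snd _ H).comp (Subgroup.subtype _)).comp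
    (MulEquiv.ofBijective p hp).symm.toMonoidHom
  have hΦ : ∀ x ∈ Lh S' M' (n - 1), Φ x.1 = x.2 := fun x hx =>
    congrArg (fun x => x.1.2) ((MulEquiv.ofBijective p hp).symm_apply_apply ⟨x, hx⟩)
  refine ⟨Φ, ⟨fun j g hg => hΦ (g, _) ((le_Lh _).1 j (by omega) (by
      rw [s' j j.2]; exact ⟨⟨g, hg⟩, rfl⟩)), fun i hi g hg => hΦ (g, _) ((le_Lh _).2 i (by omega) (by
      rw [m' i hi]; exact ⟨⟨g, hg⟩, rfl⟩))⟩, fun Φ' h => MonoidHom.ext fun g => ?_⟩
  obtain ⟨x, rfl⟩ := hp.2 g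
  refine (Lh_le (X := (Φ'.comp (MonoidHom.fst _ H)).eqLocus (MonoidHom.snd _ H)) (fun j hj => ?_)
    (fun j hj => ?_) x.2).trans (hΦ _ x.2).symm
  · rw [s' j (by omega)]
    rintro _ ⟨g, rfl⟩
    exact h.1 _ _ g.2
  · rw [m' j (by omega)]
    rintro _ ⟨g, rfl⟩
    exact h.2 _ (by simp; omega) _ g.2

end Cfsg.Agent.S3713
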