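import Cfsg.Statements.S3716
import Cfsg.Agent.H28.D8Final
import Cfsg.Agent.H3.AutP

set_option autoImplicit false
open Cfsg

namespace Cfsg.Agent.S3716
open _root_.H28


/-- Let G be a finite group with an elementary abelian Sylow 3-subgroup M of order 9 which is self-centralizing (C_G(M) = M), let N = N_G(M), and suppose C_G(g) ≤ N for every nonidentity g ∈ M. If the Sylow 2-subgroups of N are dihedral of order 8, then G is not simple. -/
theorem result {G : Type*} [Group G] [Finite G] (M : Sylow 3 G) (hM9 : Nat.card ↥(M : Subgroup G) = 9)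
    (hMel : ∀ m ∈ (M : Subgroup G), m ^ 3 = 1)
    (hCM : Subgroup.centralizer ((M : Subgroup G) : Set G) = (M : Subgroup G))
    (N : Subgroup G) (hN : N = Subgroup.normalizer ((M : Subgroup G) : Set G))
    (hCg : ∀ g ∈ (M : Subgroup G), g ≠ 1 → Subgroup.centralizer ({g} : Set G) ≤ N)
    (hS : ∀ S : Sylow 2 ↥N, Nonempty (↥(S : Subgroup ↥N) ≃* DihedralGroup 4)) :
    ¬ IsSimpleGroup G := by
  subst hN
  have comm : ∀ a ∈ (M : Subgroup G), ∀ b ∈ (M : Subgroup G), a * b = b * a := fun a ha b hb =>
    (hCM.ge hb) a ha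
  obtain ⟨Q⟩ : Nonempty (Sylow 2 (Subgroup.normalizer ((M : Subgroup G) : Set G))) := inferInstance
  obtain ⟨e⟩ := hS Q
  have hN : Nat.card (Subgroup.normalizer ((M : Subgroup G) : Set G)) = 72 := by
    have h1 := H87.relIndex_centralizer_dvd_card_mulAut (M : Subgroup G)
    rw [hCM, H3.card_mulAut_of_elementary (p := 3) (r := 2)
      (fun a b => Subtype.ext (comm a a.2 b b.2)) (fun a => Subtype.ext (hMel a a.2)) hM9] at h1
    have h2 := H87.relIndex_mul_card_centralizer (M : Subgroup G)
    rw [hCM, hM9] at h2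
    have h3 : ¬ 3 ∣ (M : Subgroup G).relIndex (Subgroup.normalizer ((M : Subgroup G) : Set G)) :=
      (M.subtype Subgroup.le_normalizer).not_dvd_index
    have h4 : Nat.card (Q : Subgroup (Subgroup.normalizer ((M : Subgroup G) : Set G))) = 8 :=
      (Nat.card_congr e.toEquiv).trans (DihedralGroup.nat_card.trans rfl)
    have h5 := Subgroup.card_subgroup_dvd_card
      (Q : Subgroup (Subgroup.normalizer ((M : Subgroup G) : Set G)))
    have h6 : ¬ 2 ^ 4 ∣ Nat.card (Subgroup.normalizer ((M : Subgroup G) : Set G)) := fun h => by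
      have := Q.pow_dvd_card_of_pow_dvd_card h
      omega
    rw [h4, ← h2] at *
    generalize (M : Subgroup G).relIndex _ = n at *
    have h7 : n ≤ 48 := Nat.le_of_dvd (by decide) h1
    change n ∣ 48 at h1
    interval_cases n <;> omega
  obtain ⟨ι, hι⟩ := H28.exists_emb72_of_sylow (H28.syl3_of_sylow M comm hMel hCg) hM9 hCM hN e
  obtain ⟨K, hK, hm⟩ := hι.exists_ker (H28.not_dvd_of_sylow_nine M hM9)
  intro hG
  rcases hK.eq_bot_or_eq_top with rfl | rfl
  · exact absurd (hι.inj (((hm N72.a).2 trivial).trans (map_one ι).symm)) (by decide)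
  · exact (hm N72.u).1 trivial

end Cfsg.Agent.S3716
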