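import Cfsg.Statements.S3744
import Cfsg.Agent.H18.PiHall

set_option autoImplicit false
open Cfsg

namespace Cfsg.Agent.S3744

/-- A finite p-soluble group has a p-complement, all its p-complements are conjugate, and every subgroup of order prime to p lies in one of them. Here a p-complement is a subgroup of order prime to p whose index is a power of p. -/
theorem result {G : Type*} [Group G] [Finite G] {p : ℕ} [Fact p.Prime] (hG : Cfsg.IsPSolvable p G) : (∃ H : Subgroup G, (Nat.card H).Coprime p ∧ ∃ n : ℕ, H.index = p ^ n) ∧ (∀ H₁ H₂ : Subgroup G, (Nat.card H₁).Coprime p → (∃ n : ℕ, H₁.index = p ^ n) → (Nat.card H₂).Coprime p → (∃ n : ℕ, H₂.index = p ^ n) → ∃ g : G, H₂ = H₁.map (MulAut.conj g).toMonoidHom) ∧ (∀ U : Subgroup G, (Nat.card U).Coprime p → ∃ H : Subgroup G, (Nat.card H).Coprime p ∧ (∃ n : ℕ, H.index = p ^ n) ∧ ∃ g : G, U.map (MulAut.conj g).toMonoidHom ≤ H) := by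
  obtain ⟨H, h1, h2⟩ := H18.exists_pComplement hG
  have h3 := H18.isPiHall_compl_singleton_iff.1 h1
  refine ⟨⟨H, h3⟩, fun H₁ H₂ a1 a2 b1 b2 => ?_, fun U hU => ?_⟩
  · obtain ⟨g₁, hg₁⟩ := h2 H₁ a1
    obtain ⟨g₂, hg₂⟩ := h2 H₂ b1
    have e₁ := H4.eq_of_isPiHall_of_le (H18.isPiHall_compl_singleton_iff.2 ⟨a1, a2⟩)
      (H4.isPiHall_smul h1 _).1 hg₁
    have e₂ := H4.eq_of_isPiHall_of_le (H18.isPiHall_compl_singleton_iff.2 ⟨b1, b2⟩)
      (H4.isPiHall_smul h1 _).1 hg₂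
    refine ⟨g₂ * g₁⁻¹, ?_⟩
    rw [← H4.conj_smul_eq_map, e₁, e₂, H4.conj_smul_conj_smul, inv_mul_cancel_right]
  · obtain ⟨g, hg⟩ := h2 U hU
    refine ⟨H, h3.1, h3.2, g⁻¹, ?_⟩
    rw [← H4.conj_smul_eq_map, map_inv, ← Subgroup.subset_pointwise_smul_iff]
    exact hg

end Cfsg.Agent.S3744
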