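import Cfsg.Statements.S3802
import Cfsg.Agent.H18.Subnormal

set_option autoImplicit false
open Cfsg

namespace Cfsg.Agent.S3802

/-- Let G be a finite group, M a maximal subgroup of G and N a subnormal subgroup of G contained in M. Then N is contained in every conjugate of M, that is, N lies in the core of M in G. -/
theorem result {G : Type*} [Group G] [Finite G] (M N : Subgroup G) (hM : IsCoatom M) (hN : N.IsSubnormal) (hNM : N ≤ M) :
    N ≤ Subgroup.normalCore M := by
  set L := sSup {L : Subgroup G | L.IsSubnormal ∧ L ≤ M} with hL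
  have h1 := H18.le_normalizer_sSup_isSubnormal M
  rcases h1.eq_or_lt with h2 | h2
  · exact absurd (H18.eq_top_of_normalizer_sSup_le h2.ge) hM.1
  · haveI : L.Normal := Subgroup.normalizer_eq_top_iff.1 (hM.2 _ h2)
    exact (le_sSup (show N ∈ {L : Subgroup G | L.IsSubnormal ∧ L ≤ M} from ⟨hN, hNM⟩)).trans
      (Subgroup.normal_le_normalCore.2 (sSup_le fun A hA => hA.2))

end Cfsg.Agent.S3802
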