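import Cfsg.Statements.S3818
import Cfsg.Agent.H14.HalfFixC
import Cfsg.Agent.H22.BaseChange

set_option autoImplicit false
open Cfsg

namespace Cfsg.Agent.S3818

/-- Let G be a finite solvable group and P a subgroup of G of prime order p > 3 whose conjugates generate G. Let V be a faithful irreducible representation of G over a field of positive characteristic, finite-dimensional. Then the subspace of V fixed by P has dimension less than half the dimension of V. -/
theorem result {G : Type*} [Group G] [Finite G] [Group.IsSolvable G]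
    {p : ℕ} [Fact p.Prime] (hp : 3 < p) (P : Subgroup G) (hP : Nat.card P = p) (hgen : Subgroup.normalClosure (P : Set G) = ⊤)
    {k : Type*} [Field k] (ℓ : ℕ) [Fact ℓ.Prime] [CharP k ℓ]
    {V : Type*} [AddCommGroup V] [Module k V] [FiniteDimensional k V]
    (ρ : Representation k G V) [ρ.IsIrreducible] (hfaith : Function.Injective ρ) :
    2 * Module.finrank k ↥(⨅ g : ↥P, LinearMap.ker (ρ (g : G) - LinearMap.id)) < Module.finrank k V := by
  classical
  haveI : IsCyclic P := isCyclic_of_prime_card hP
  obtain ⟨x, hxg⟩ := IsCyclic.exists_generator (α := P)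
  have hxp : (x : G) ^ p = 1 := by rw [← hP, ← Subgroup.coe_pow, pow_card_eq_one']; rfl
  have hPx : P ≤ Subgroup.zpowers (x : G) := fun g hg => by
    obtain ⟨n, hn⟩ := hxg ⟨g, hg⟩
    exact ⟨n, by simpa using congrArg Subtype.val hn⟩
  have hgen' : Subgroup.normalClosure {(x : G)} = ⊤ := by
    rw [eq_top_iff, ← hgen]
    exact Subgroup.normalClosure_le_normal (hPx.trans (Subgroup.zpowers_le.2
      (Subgroup.subset_normalClosure rfl)))
  have hirr : H14.HF.Irr ρ := fun U hU => by
    rcases eq_bot_or_eq_top (⟨U, fun g v hv => hU g v hv⟩ : Subrepresentation ρ) with h | h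
    · exact Or.inl (congrArg Subrepresentation.toSubmodule h)
    · exact Or.inr (congrArg Subrepresentation.toSubmodule h)
  haveI : Nontrivial V := by
    by_contra h
    rw [not_nontrivial_iff_subsingleton] at h
    exact bot_ne_top (α := Subrepresentation ρ) (Subrepresentation.ext (Subsingleton.elim _ _))
  haveI : Nontrivial G := by
    haveI : Nontrivial P := Finite.one_lt_card_iff_nontrivial.1 (by omega)
    exact P.subtype_injective.nontrivial
  obtain ⟨r, A, hr, hAn, -, hA0, -, hAr, -⟩ :=
    H2.exists_elementaryAbelian_normal_le (⊤ : Subgroup G) top_ne_bot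
  let U : Submodule k V :=
    { carrier := {v | ∀ n ∈ A, ρ n v = v}
      add_mem' := fun {a b} ha hb n hn => by rw [map_add, ha n hn, hb n hn]
      zero_mem' := fun n _ => map_zero _
      smul_mem' := fun c a ha n hn => by rw [map_smul, ha n hn] }
  have hU : U = ⊥ := (hirr U fun g w hw n hn => by
      have := hw _ (hAn.conj_mem _ hn g⁻¹)
      conv_rhs => rw [← this]
      simp only [← Module.End.mul_apply, ← map_mul]
      congr 2; group).resolve_right fun h => hA0 (eq_bot_iff.2 fun n hn => hfaith (by
        ext w
        rw [map_one]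
        exact (h.symm ▸ Submodule.mem_top : w ∈ U) n hn))
  haveI := Fact.mk hr
  have hrK : (r : k) ≠ 0 := fun h => by
    have hl : ℓ = r := (Nat.prime_dvd_prime_iff_eq Fact.out hr).1 ((CharP.cast_eq_zero_iff k ℓ _).1 h)
    subst hl
    obtain ⟨v, -, hv0, hv⟩ := H90.exists_fixed_of_isPGroup hAr (ρ.comp A.subtype) ⊤ top_ne_bot
      fun _ _ _ => trivial
    exact hv0 ((Submodule.eq_bot_iff U).1 hU v fun n hn => hv ⟨n, hn⟩)
  letI := Fintype.ofFinite A
  have hsum : ∑ a : A, ρ a = 0 := by
    ext v
    refine (Submodule.eq_bot_iff U).1 hU _ fun n hn => ?_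
    simp only [LinearMap.sum_apply, map_sum]
    exact Fintype.sum_equiv (Equiv.mulLeft (⟨n, hn⟩ : A)) _ _ fun a => by
      rw [← Module.End.mul_apply, ← map_mul]; rfl
  let K := AlgebraicClosure k
  haveI : Nontrivial (TensorProduct k K V) := H22.one_tmul_injective.nontrivial
  have key := H14.HF.general (K := K) ℓ hp hxp hgen' (Finset.univ.map ⟨A.subtype, A.subtype_injective⟩)
    (by
      obtain ⟨j, hj⟩ := hAr.exists_card_eq
      rw [Finset.card_map, Finset.card_univ, ← Nat.card_eq_fintype_card, hj, Nat.cast_pow]
      refine pow_ne_zero _ fun h => hrK ((algebraMap k K).injective ?_)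
      rw [map_natCast, h, map_zero]) _ (TensorProduct k K V) (H22.repBC K ρ) rfl (fun v => by
      rw [Finset.sum_map, ← LinearMap.sum_apply]
      have : ∑ a : A, H22.repBC K ρ a = 0 := by
        have := congrArg (LinearMap.baseChangeHom k K V V) hsum
        rw [map_sum, map_zero] at this
        exact this
      exact LinearMap.congr_fun this v)
  rw [Module.finrank_baseChange, H22.repBC_apply, ← LinearMap.baseChange_one k V,
    ← LinearMap.baseChange_sub, H22.ker_baseChange_eq, H22.finrank_submodule_baseChange] at key
  exact lt_of_le_of_lt (Nat.mul_le_mul_left 2 (Submodule.finrank_mono (iInf_le _ x))) key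

end Cfsg.Agent.S3818
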