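import Cfsg.Statements.S3819
import Cfsg.Agent.H14.PElem
import Cfsg.Agent.H1.Coprime2
import Cfsg.Agent.H2.MinNormal
import Cfsg.Agent.H26.FPSpec

set_option autoImplicit false
open Cfsg

namespace Cfsg.Agent.S3819

open Subgroup H14 H26.FP in
theorem cen_le {Γ : Type*} [Group Γ] [Finite Γ] {q : ℕ} [Fact q.Prime] {K : Subgroup Γ}
    (hs : Group.IsSolvable K) (ho : opp q K = ⊥) : K ⊓ C[pCoreOf q K] ≤ pCoreOf q K := by
  rintro x ⟨hx, hc⟩
  refine ⟨⟨x, hx⟩, H2.centralizer_pCore_le (opp_eq_bot_iff.1 ho) fun y hy => Subtype.ext ?_, rfl⟩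
  exact hc y ⟨y, hy, rfl⟩

open Subgroup H14 H26.FP in
theorem core {Γ : Type*} [Group Γ] [Finite Γ] {p q : ℕ} [Fact p.Prime] [Fact q.Prime]
    {H P Z : Subgroup Γ} (hP : IsPGroup p P) (hH : (Nat.card H).Coprime p) (hn : P ≤ N[H])
    (hs : Group.IsSolvable (⁅H, P⁆ : Subgroup Γ)) (hZ : IsPGroup q Z) (hZH : Z ≤ H)
    (hZP : P ≤ C[Z]) (ho : opp q H = ⊥) :
    ⁅opp q (H ⊓ C[Z]), P⁆ = ⊥ ∧ opp q (H ⊓ C[Z]) ⊓ opp q (H ⊓ C[P]) = ⊥ := by
  set K : Subgroup Γ := ⁅H, P⁆ with hK
  set Y := opp q (H ⊓ C[Z]) with hY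
  set D := opp q (H ⊓ C[P]) with hD
  set Q := pCoreOf q K with hQ
  have KH : K ≤ H := H1.commutator_le_of_le_normalizer hn
  have HK : H ≤ N[K] := H1.le_normalizer_commutator_left H P
  have oK : opp q K = ⊥ := eq_bot_iff.2 ((le_opp ((opp_le K).trans KH)
    (HK.trans (normalizer_le_normalizer_opp K)) (coprime_card_opp K)).trans ho.le)
  have HQ : H ≤ N[Q] := H98.le_normalizer_pCoreOf HK
  have hQp : IsPGroup q Q := H98.isPGroup_pCoreOf K
  have QH : Q ≤ H := (H98.pCoreOf_le K).trans KH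
  have YH : Y ≤ H := (opp_le _).trans inf_le_left
  have cY : (Nat.card Y).Coprime q := coprime_card_opp _
  have dis' : ∀ A X : Subgroup Γ, A ≤ opp q X → A ≤ Q → A = ⊥ := fun A X h1 h2 =>
    card_eq_one.1 (Nat.eq_one_of_dvd_coprimes (H1.coprime_card_of_isPGroup hQp (coprime_card_opp X))
      (card_dvd_of_le h1) (card_dvd_of_le h2))
  have dis : ∀ A : Subgroup Γ, A ≤ Y → A ≤ Q → A = ⊥ := fun A => dis' A _
  have YQ : Y ≤ C[Q] := by
    refine H1.thompson_pq hZ cY (le_centralizer_iff.1 ((opp_le _).trans inf_le_right)) _ Q rfl hQp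
      (hZH.trans HQ) (YH.trans HQ) (H1.commutator_eq_bot_iff_le_centralizer'.1 (dis _ ?_ ?_))
    · exact H1.commutator_le_of_le_normalizer
        ((inf_le_inf_right _ QH).trans (self_le_normalizer_opp _))
    · rw [commutator_comm]
      exact (commutator_mono inf_le_left le_rfl).trans
        (H1.commutator_le_of_le_normalizer (YH.trans HQ))
  have PY : P ≤ N[Y] := (H1.le_normalizer_inf hn (H1.le_normalizer_centralizer
    (hZP.trans (centralizer_le_normalizer _)))).trans (normalizer_le_normalizer_opp _)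
  have PQ : P ≤ N[Q] := H98.le_normalizer_pCoreOf (H1.le_normalizer_commutator_right H P)
  refine ⟨dis _ (H1.commutator_le_of_le_normalizer PY) (le_trans (le_inf
    (commutator_mono YH le_rfl) ?_) (cen_le hs oK)), ?_⟩
  · exact (commutator_mono YQ le_rfl).trans
      (H1.commutator_le_of_le_normalizer (H1.le_normalizer_centralizer PQ))
  have KY : ⁅K, Y⁆ ≤ Q := le_trans (le_inf (H1.commutator_le_of_le_normalizer (YH.trans HK))
    (H1.commutator_le_centralizer_of_normal (KH.trans HQ) (le_centralizer_iff.1 YQ))) (cen_le hs oK)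
  have KY0 : Y ≤ C[K] := by
    refine H1.commutator_eq_bot_iff_le_centralizer'.1 (dis' _ (Q ⊔ Y) ?_ KY)
    have h1 : Y ≤ opp q (Q ⊔ Y) := le_opp le_sup_right (sup_le ((le_centralizer_iff.1 YQ).trans
      (centralizer_le_normalizer _)) le_normalizer) cY
    have h2 : K ≤ N[Q ⊔ Y] := by
      refine H1.le_normalizer_of_conj_mem fun k hk x hx => ?_
      refine (sup_le (fun y hy => ?_) (fun y hy => ?_) :
        Q ⊔ Y ≤ (Q ⊔ Y).comap (MulAut.conj k).toMonoidHom) hx
      · exact mem_sup_left (H1.conj_mem_of_le_normalizer (KH.trans HQ) hk hy)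
      · have := mul_mem_sup (KY (commutator_mem_commutator hk hy)) hy
        rw [commutatorElement_def, inv_mul_cancel_right] at this
        exact this
    rw [commutator_comm]
    exact (commutator_mono h1 le_rfl).trans
      (H1.commutator_le_of_le_normalizer (h2.trans (normalizer_le_normalizer_opp _)))
  have hc : (Nat.card P).Coprime (Nat.card H) := (H1.coprime_card_of_isPGroup hP hH).symm
  have e := H1.commutator_sup_centralizer hn hc (Or.inl (H1.isSolvable_of_isPGroup hP))
  have : D ⊓ C[K] ≤ opp q H := by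
    refine le_opp (inf_le_left.trans ((opp_le _).trans inf_le_left)) ?_
      ((coprime_card_opp _).coprime_dvd_left (card_dvd_of_le inf_le_left))
    refine e.ge.trans (sup_le ?_ (H1.le_normalizer_inf (self_le_normalizer_opp _)
      (H1.le_normalizer_centralizer (inf_le_left.trans HK))))
    exact (le_centralizer_iff.1 inf_le_right).trans (centralizer_le_normalizer _)
  exact eq_bot_iff.2 (((le_inf inf_le_right (inf_le_left.trans KY0)).trans this).trans ho.le)

/-- Let G be a finite group with Sylow p-subgroup P and H = O_{p'}(G), and suppose G = PH and the commutator subgroup [H, P] is solvable. Let q be a prime and z an element of q-power order of C_H(P). Then (O_{q'}(C_H(z)) ∩ O_{q'}(C_H(P))) · [O_{q'}(C_H(z)), P] ≤ O_{q'}(H). -/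
theorem result {G : Type*} [Group G] [Finite G] {p : ℕ} [Fact p.Prime]
    (P : Sylow p G) (hPH : Cfsg.pPrimeCore p G ⊔ (P : Subgroup G) = ⊤)
    (hsol : Group.IsSolvable ↥⁅Cfsg.pPrimeCore p G, (P : Subgroup G)⁆)
    {q : ℕ} [Fact q.Prime] (z : G) (hzH : z ∈ Cfsg.pPrimeCore p G) (hzP : z ∈ Subgroup.centralizer ((P : Subgroup G) : Set G))
    (hz : ∃ k : ℕ, orderOf z = q ^ k) :
    ((Cfsg.pPrimeCore q ↥(Cfsg.pPrimeCore p G ⊓ Subgroup.centralizer ({z} : Set G))).map
        (Cfsg.pPrimeCore p G ⊓ Subgroup.centralizer ({z} : Set G)).subtype ⊓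
      (Cfsg.pPrimeCore q ↥(Cfsg.pPrimeCore p G ⊓ Subgroup.centralizer ((P : Subgroup G) : Set G))).map
        (Cfsg.pPrimeCore p G ⊓ Subgroup.centralizer ((P : Subgroup G) : Set G)).subtype) ⊔
    ⁅(Cfsg.pPrimeCore q ↥(Cfsg.pPrimeCore p G ⊓ Subgroup.centralizer ({z} : Set G))).map
        (Cfsg.pPrimeCore p G ⊓ Subgroup.centralizer ({z} : Set G)).subtype, (P : Subgroup G)⁆ ≤
    (Cfsg.pPrimeCore q ↥(Cfsg.pPrimeCore p G)).map (Cfsg.pPrimeCore p G).subtype := by
  open Subgroup H14 H26.FP in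
  set H := pPrimeCore p G with hHd
  show opp q (H ⊓ C1[z]) ⊓ opp q (H ⊓ C[(P : Subgroup G)]) ⊔ ⁅opp q (H ⊓ C1[z]), (P : Subgroup G)⁆ ≤ opp q H
  have hZ : IsPGroup q (zpowers z) := by
    obtain ⟨k, hk⟩ := hz
    exact IsPGroup.of_card (by rw [Nat.card_zpowers, hk])
  have ez : C1[z] = C[zpowers z] := by rw [zpowers_eq_closure, centralizer_closure]
  rw [ez]
  have cH : (Nat.card H).Coprime p := H2.coprime_card_pPrimeCore p G
  haveI : (opp q H).Normal := normalizer_eq_top_iff.1 (top_le_iff.1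
    ((normalizer_eq_top H).ge.trans (normalizer_le_normalizer_opp H)))
  set f := QuotientGroup.mk' (opp q H) with hf
  have kf : f.ker = opp q H := QuotientGroup.ker_mk' _
  have kq : (Nat.card f.ker).Coprime q := by rw [kf]; exact coprime_card_opp H
  have sf : Function.Surjective f := QuotientGroup.mk'_surjective _
  have mi : ∀ X : Subgroup G, (H ⊓ X).map f = H.map f ⊓ X.map f := fun X => by
    refine le_antisymm (map_inf_le _ _ _) ?_
    rintro _ ⟨⟨h, hh, e⟩, x, hx, rfl⟩
    refine ⟨x, ⟨?_, hx⟩, rfl⟩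
    have : h⁻¹ * x ∈ f.ker := by rw [MonoidHom.mem_ker, map_mul, map_inv, e, inv_mul_cancel]
    simpa using H.mul_mem hh (opp_le H (kf.le this))
  have e1 : (opp q (H ⊓ C[zpowers z])).map f ≤ opp q (H.map f ⊓ C[(zpowers z).map f]) := by
    rw [← map_centralizer_of_coprime_ker f sf kq hZ, ← mi]
    exact map_opp_le f _
  have e2 : (opp q (H ⊓ C[(P : Subgroup G)])).map f ≤
      opp q (H.map f ⊓ C[(P : Subgroup G).map f]) := by
    rw [← map_centralizer_of_coprime_ker f sf
      (cH.coprime_dvd_left (card_dvd_of_le (kf.le.trans (opp_le H)))) P.isPGroup', ← mi]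
    exact map_opp_le f _
  haveI : (H.map f).Normal := Normal.map inferInstance f sf
  obtain ⟨h1, h2⟩ := core (H := H.map f) (P.isPGroup'.map f)
    (cH.coprime_dvd_left (card_map_dvd H f)) (le_normalizer_of_normal)
    (by rw [← map_commutator]; exact Group.isSolvable_of_surjective (f.subgroupMap_surjective _))
    (hZ.map f) (map_mono (zpowers_le.2 hzH))
    ((map_mono (le_centralizer_iff.1 (zpowers_le.2 hzP))).trans (map_centralizer_le_centralizer_image _ _ |>.trans (by rw [coe_map])))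
    (by rw [← map_opp_of_coprime_ker f H (kq.coprime_dvd_left
          (card_dvd_of_le inf_le_left)), Subgroup.map_eq_bot_iff, kf])
  rw [← kf, ← Subgroup.map_eq_bot_iff, Subgroup.map_sup, Subgroup.map_commutator, eq_bot_iff]
  exact sup_le (((map_inf_le _ _ _).trans (inf_le_inf e1 e2)).trans h2.le)
    ((commutator_mono e1 le_rfl).trans h1.le)

end Cfsg.Agent.S3819
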