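import Cfsg.Statements.S3821
import Cfsg.Agent.H98.Basic

set_option autoImplicit false
open Cfsg

namespace Cfsg.Agent.S3821

/-- Let A be a normal subgroup of the finite group G and H a subgroup of A. Then H is pronormal in G (H and gHg⁻¹ conjugate inside ⟨H, gHg⁻¹⟩ for every g ∈ G) if and only if H is pronormal in A and G = A · N_G(H). -/
theorem result {G : Type*} [Group G] [Finite G] (A H : Subgroup G) [A.Normal] (hHA : H ≤ A) :
    Cfsg.IsPronormal H ↔ (Cfsg.IsPronormal (H.subgroupOf A) ∧ A ⊔ Subgroup.normalizer (H : Set G) = ⊤) := by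
  have hm : (H.subgroupOf A).map A.subtype = H := Subgroup.map_subgroupOf_eq_of_le hHA
  have key : IsPronormal (H.subgroupOf A) ↔ ∀ a ∈ A, ∃ x ∈ H ⊔ H98.cj a H, H98.cj a H = H98.cj x H := by
    constructor
    · intro h a ha
      obtain ⟨x, hx, e⟩ := h ⟨a, ha⟩
      refine ⟨x, ?_, ?_⟩
      · have := Subgroup.mem_map_of_mem A.subtype hx
        rwa [Subgroup.map_sup, H98.map_cj, hm] at this
      · have := congrArg (Subgroup.map A.subtype) e
        rwa [H98.map_cj, H98.map_cj, hm] at this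
    · intro h a
      obtain ⟨x, hx, e⟩ := h a a.2
      refine ⟨⟨x, sup_le hHA (H98.cj_le_of_le_of_mem hHA a.2) hx⟩, ?_, ?_⟩
      · rw [← Subgroup.mem_map_iff_mem A.subtype_injective, Subgroup.map_sup, H98.map_cj, hm]
        exact hx
      · apply Subgroup.map_injective A.subtype_injective
        rw [H98.map_cj, H98.map_cj, hm]
        exact e
  rw [key]
  constructor
  · refine fun h => ⟨fun a _ => h a, eq_top_iff.2 fun g _ => ?_⟩
    obtain ⟨x, hx, e⟩ := h g
    have hxA : x ∈ A := sup_le hHA (H98.cj_le_of_le hHA (Subgroup.le_normalizer_of_normal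
      (Subgroup.mem_top g))) hx
    rw [← mul_inv_cancel_left x g]
    refine Subgroup.mul_mem_sup hxA (H98.cj_eq_self_iff.1 ?_)
    rw [← H98.cj_cj, show H98.cj g H = H98.cj x H from e, H98.cj_inv_cj]
  · rintro ⟨h1, h2⟩ g
    obtain ⟨a, ha, n, hn, rfl⟩ := Subgroup.mem_sup_of_normal_left.1 (h2.ge (Subgroup.mem_top g))
    change ∃ x ∈ H ⊔ H98.cj (a * n) H, H98.cj (a * n) H = H98.cj x H
    rw [← H98.cj_cj, H98.cj_eq_self hn]
    exact h1 a ha

end Cfsg.Agent.S3821
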