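import Cfsg.Statements.S3822
import Cfsg.Agent.H14.HalfFixC
import Cfsg.Agent.H22.BaseChange
import Cfsg.Agent.H5.FrobCompl
import Cfsg.Agent.H3.FrattiniP

set_option autoImplicit false
open Cfsg

namespace Cfsg.Agent.S3822

open scoped commutatorElement

theorem sq_lt {A W : Type*} [Group A] [Finite A] [Group.IsSolvable A] [Group W] [Finite W]
    [Nontrivial W] {p q r : ℕ} [Fact p.Prime] [hq : Fact q.Prime] [hr : Fact r.Prime] (hp : 3 < p)
    [H22.IsEA q W] (φ : A →* MulAut W) {x : A} (hx : x ^ p = 1)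
    (hgen : Subgroup.normalClosure {x} = ⊤) (R : Subgroup A) (hR : IsPGroup r R) (hrq : r ≠ q)
    (h0 : ∀ w, (∀ a ∈ R, φ a w = w) → w = 1) :
    Nat.card {w // φ x w = w} * Nat.card {w // φ x w = w} < Nat.card W := by
  classical
  let ρ := H22.eaRep q φ
  letI := Fintype.ofFinite R
  haveI : Nontrivial (H22.EA q W) := (H22.toEA q).symm.nontrivial
  have hsum : ∑ a : R, ρ a = 0 := by
    ext v
    obtain ⟨w, hw⟩ := (H22.toEA q).surjective ((∑ a : R, ρ a) v)
    have : w = 1 := h0 w fun n hn => (H22.toEA q).injective (by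
      rw [← H22.eaRep_apply, hw]
      simp only [LinearMap.sum_apply, map_sum]
      exact Fintype.sum_equiv (Equiv.mulLeft (⟨n, hn⟩ : R)) _ _ fun a => by
        rw [← Module.End.mul_apply, ← map_mul]; rfl)
    rw [← hw, this]; rfl
  let K := AlgebraicClosure (ZMod q)
  haveI : Nontrivial (TensorProduct (ZMod q) K (H22.EA q W)) := H22.one_tmul_injective.nontrivial
  have key := H14.HF.general (K := K) q hp hx hgen (Finset.univ.map ⟨R.subtype, R.subtype_injective⟩)
    (by
      obtain ⟨j, hj⟩ := hR.exists_card_eq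
      rw [Finset.card_map, Finset.card_univ, ← Nat.card_eq_fintype_card, hj, Nat.cast_pow]
      exact pow_ne_zero _ fun h => hrq ((Nat.prime_dvd_prime_iff_eq hq.out hr.out).1
        ((CharP.cast_eq_zero_iff K q _).1 h)).symm) _ _ (H22.repBC K ρ) rfl (fun v => by
      rw [Finset.sum_map, ← LinearMap.sum_apply]
      have : ∑ a : R, H22.repBC K ρ a = 0 := by
        have := congrArg (LinearMap.baseChangeHom (ZMod q) K _ _) hsum
        rw [map_sum, map_zero] at this
        exact this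
      exact LinearMap.congr_fun this v)
  rw [Module.finrank_baseChange, H22.repBC_apply, ← LinearMap.baseChange_one (ZMod q) _,
    ← LinearMap.baseChange_sub, H22.ker_baseChange_eq, H22.finrank_submodule_baseChange] at key
  have e1 : Nat.card {w // φ x w = w} = Nat.card (LinearMap.ker (ρ x - 1)) :=
    Nat.card_congr ((H22.toEA q).subtypeEquiv fun w => by
      rw [LinearMap.mem_ker, LinearMap.sub_apply, sub_eq_zero, H22.eaRep_apply]
      exact (H22.toEA q).injective.eq_iff.symm)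
  rw [e1, Nat.card_congr (H22.toEA q : W ≃ _), Module.natCard_eq_pow_finrank (K := ZMod q),
    Module.natCard_eq_pow_finrank (K := ZMod q) (V := H22.EA q W), Nat.card_zmod, ← pow_add]
  exact Nat.pow_lt_pow_right hq.out.one_lt (by omega)

theorem step {H : Type*} [Group H] [Finite H] {p q r : ℕ} [Fact p.Prime] [Fact q.Prime]
    [hr : Fact r.Prime] (hp : 3 < p) (hrq : r ≠ q) {A N R : Subgroup H} [Group.IsSolvable A]
    [hNn : N.Normal] (hN : IsPGroup q N) (hR : IsPGroup r R) (hRA : R ≤ A)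
    (hAR : A ≤ Subgroup.normalizer (R : Set H)) (htop : N ⊔ A = ⊤) {x a : H} (hx : x ^ p = 1)
    (ha : a ∈ A) (hA : A = Subgroup.zpowers x ⊔ Subgroup.zpowers (a * x * a⁻¹))
    (hmin : ∀ M : Subgroup H, M.Normal → M < N → M ≤ Subgroup.centralizer (R : Set H))
    (hne : ¬ N ≤ Subgroup.centralizer (R : Set H)) :
    ∃ b, Subgroup.zpowers x ⊔ Subgroup.zpowers (b * x * b⁻¹) = ⊤ := by
  by_contra! hB
  have hxA : x ∈ A := hA ▸ Subgroup.mem_sup_left (Subgroup.mem_zpowers x)
  haveI : Nontrivial N := (Subgroup.nontrivial_iff_ne_bot N).2 fun h => hne (h ▸ bot_le)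
  set Φ := (frattini N).map N.subtype
  haveI hΦn : Φ.Normal := ConjAct.normal_of_characteristic_of_normal
  have hΦ : Φ < N := lt_of_le_of_ne (Subgroup.map_subtype_le _) fun h => H3.frattini_ne_top (G := N)
    (Subgroup.map_injective (Subgroup.subtype_injective N) (by rw [← MonoidHom.range_eq_map, Subgroup.range_subtype]; exact h))
  set D := N ⊓ Subgroup.centralizer (R : Set H)
  have hΦD : Φ ≤ D := le_inf hΦ.le (hmin _ hΦn hΦ)
  have hcm : ∀ u ∈ N, ∀ v ∈ N, u * v * u⁻¹ * v⁻¹ ∈ Φ := fun u hu v hv =>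
    ⟨⁅(⟨u, hu⟩ : N), ⟨v, hv⟩⁆, H3.commutator_le_frattini_pgroup hN
      (Subgroup.commutator_mem_commutator trivial trivial), rfl⟩
  have hnm : ∀ M B : Subgroup H, Φ ≤ M → M ≤ N → N ⊔ B = ⊤ → (∀ b ∈ B, ∀ m ∈ M, b * m * b⁻¹ ∈ M) →
      M.Normal := fun M B h1 h2 h3 h4 => ⟨fun m hm g => by
    obtain ⟨n, hn, b, hb, rfl⟩ := Subgroup.mem_sup_of_normal_left.1 (h3 ▸ Subgroup.mem_top g)
    have := mul_mem (h1 (hcm n hn _ (h2 (h4 b hb m hm)))) (h4 b hb m hm)
    convert this using 1; group⟩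
  haveI hDn : D.Normal := hnm D A hΦD inf_le_left htop fun b hb m hm =>
    Subgroup.mem_inf.2 ⟨hNn.conj_mem _ hm.1 b, fun s hs => by
      have := hm.2 _ ((Subgroup.mem_normalizer_iff.1 (hAR (inv_mem hb)) s).1 hs)
      calc s * (b * m * b⁻¹) = b * (b⁻¹ * s * b⁻¹⁻¹ * m) * b⁻¹ := by group
        _ = _ := by rw [this]; group⟩
  have cw : ∀ n ∈ N, (∀ s ∈ R, n * s * n⁻¹ * s⁻¹ ∈ D) → n ∈ D := fun n hn h =>
    Subgroup.mem_inf.2 ⟨hn, fun s hs => by
      obtain ⟨k, hk⟩ := hR ⟨s, hs⟩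
      have hk' : s ^ r ^ k = 1 := congrArg Subtype.val hk
      have h1 : (n * s * n⁻¹ * s⁻¹) ^ r ^ k = 1 := by
        have h2 : Commute (n * s * n⁻¹ * s⁻¹) s := ((h s hs).2 s hs).symm
        have := h2.mul_pow (r ^ k)
        rw [inv_mul_cancel_right, conj_pow, hk'] at this
        simpa using this.symm
      have h3 : n * s * n⁻¹ * s⁻¹ ∈ N ⊓ Subgroup.zpowers (n * s * n⁻¹ * s⁻¹) :=
        ⟨(h s hs).1, Subgroup.mem_zpowers _⟩
      obtain ⟨j, -, hj⟩ := (Nat.dvd_prime_pow hr.out).1 (orderOf_dvd_of_pow_eq_one h1)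
      rw [(IsPGroup.disjoint_of_ne q r hrq.symm N _ hN (IsPGroup.of_card (n := j)
        (by rw [Nat.card_zpowers, hj]))).eq_bot, Subgroup.mem_bot, mul_inv_eq_one,
        mul_inv_eq_iff_eq_mul] at h3
      exact h3.symm⟩
  have main : ∀ v ∈ N, ∃ u ∈ N, u * x * u⁻¹ * x⁻¹ ∈ D ∧
      (u * v) * (a * x * a⁻¹) * (u * v)⁻¹ * (a * x * a⁻¹)⁻¹ ∈ D := fun v hv => by
    set B := Subgroup.zpowers x ⊔ Subgroup.zpowers (v * a * x * (v * a)⁻¹)
    have hxB : x ∈ B := Subgroup.mem_sup_left (Subgroup.mem_zpowers _)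
    have hyB : v * a * x * (v * a)⁻¹ ∈ B := Subgroup.mem_sup_right (Subgroup.mem_zpowers _)
    have hNB : N ⊔ B = ⊤ := by
      rw [eq_top_iff, ← htop, hA]
      refine sup_le le_sup_left (sup_le (Subgroup.zpowers_le.2 (Subgroup.mem_sup_right hxB))
        (Subgroup.zpowers_le.2 ?_))
      have h1 : v ∈ N ⊔ B := Subgroup.mem_sup_left hv
      have := mul_mem (mul_mem (inv_mem h1) (Subgroup.mem_sup_right hyB)) h1
      convert this using 1; group
    have hBD : B ⊓ N ≤ D := by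
      have h1 : (Φ ⊔ B ⊓ N).Normal := hnm _ B le_sup_left (sup_le hΦ.le inf_le_right) hNB
        fun b hb m hm => by
          obtain ⟨f, hf, c, hc, rfl⟩ := Subgroup.mem_sup_of_normal_left.1 hm
          have := mul_mem (Subgroup.mem_sup_left (hΦn.conj_mem _ hf b) : _ ∈ Φ ⊔ B ⊓ N)
            (Subgroup.mem_sup_right (Subgroup.mem_inf.2 ⟨mul_mem (mul_mem hb
              (Subgroup.mem_inf.1 hc).1) (inv_mem hb), hNn.conj_mem _ hc.2 b⟩))
          convert this using 1; group
      refine le_inf inf_le_right (le_sup_right.trans (hmin _ h1 (lt_of_le_of_ne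
        (sup_le hΦ.le inf_le_right) fun h => hB (v * a) ?_)))
      have h2 : (B ⊓ N).subgroupOf N = ⊤ := frattini_nongenerating (Subgroup.map_injective (Subgroup.subtype_injective N) (by
        rw [Subgroup.map_sup, Subgroup.subgroupOf_map_subtype, ← MonoidHom.range_eq_map,
          Subgroup.range_subtype, inf_assoc, inf_idem, sup_comm]; exact h))
      exact eq_top_iff.2 (hNB ▸ sup_le ((Subgroup.subgroupOf_eq_top.1 h2).trans inf_le_left) le_rfl)
    set E := D ⊔ B
    have hED : ∀ e ∈ E, e ∈ N → e ∈ D := fun e he hn => by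
      obtain ⟨d, hd, b, hb, rfl⟩ := Subgroup.mem_sup_of_normal_left.1 he
      exact mul_mem hd (hBD ⟨hb, (mul_mem_cancel_left (Subgroup.mem_inf.1 hd).1).1 hn⟩)
    have hNE : N ⊔ E = ⊤ := eq_top_iff.2 (hNB ▸ sup_le_sup_left le_sup_right N)
    obtain ⟨t, ht⟩ := hR.nonempty_fixed_point_of_prime_not_dvd_card (H ⧸ E) fun hd => by
      have h1 := H4.card_sup_mul_card_inf N E
      rw [hNE, Subgroup.card_top, ← E.card_mul_index, mul_assoc, mul_comm (Nat.card N)] at h1
      obtain ⟨k, hk⟩ := hN.exists_card_eq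
      have h2 : r ∣ q ^ k := hk ▸ (Nat.eq_of_mul_eq_mul_left Nat.card_pos h1) ▸ hd.mul_right _
      exact hrq ((Nat.prime_dvd_prime_iff_eq hr.out Fact.out).1 (hr.out.dvd_of_dvd_pow h2))
    obtain ⟨h, rfl⟩ := QuotientGroup.mk_surjective t
    obtain ⟨u, hu, e, he, rfl⟩ := Subgroup.mem_sup_of_normal_left.1 (hNE ▸ Subgroup.mem_top h)
    have hRE : ∀ s ∈ R, u⁻¹ * s * u ∈ E := fun s hs => by
      have := QuotientGroup.eq.1 (ht ⟨s, hs⟩).symm
      have := mul_mem (mul_mem he this) (inv_mem he)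
      convert this using 1
      simp only [Subgroup.coe_subtype, smul_eq_mul]; group
    have key : ∀ g ∈ B, ∀ n ∈ N, ∀ c ∈ A, u * g * u⁻¹ = n * c → n ∈ D := fun g hg n hn c hc e =>
      cw n hn fun s hs => by
        have h1 := hRE _ ((Subgroup.mem_normalizer_iff.1 (hAR (inv_mem hc)) s).1 hs)
        have hgE : g ∈ E := Subgroup.mem_sup_right hg
        have h2 := mul_mem (mul_mem (mul_mem hgE h1) (inv_mem hgE)) (inv_mem (hRE s hs))
        have h3 : g = u⁻¹ * (n * c) * u := by rw [← e]; group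
        have h4 : n * s * n⁻¹ * s⁻¹ ∈ N := by
          have := mul_mem hn (hNn.conj_mem _ (inv_mem hn) s)
          simpa only [mul_assoc] using this
        have := hDn.conj_mem _ (hED (u⁻¹ * (n * s * n⁻¹ * s⁻¹) * u⁻¹⁻¹) (by
          convert h2 using 1; rw [h3]; group) (hNn.conj_mem _ h4 _)) u
        convert this using 1; group
    have hc : ∀ w ∈ N, ∀ g, w * g * w⁻¹ * g⁻¹ ∈ N := fun w hw g => by
      have := mul_mem hw (hNn.conj_mem _ (inv_mem hw) g)
      simpa only [mul_assoc] using this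
    exact ⟨u, hu, key x hxB _ (hc u hu x) x hxA (by group), key _ hyB _ (hc _ (mul_mem hu hv) _) _
      (mul_mem (mul_mem ha hxA) (inv_mem ha)) (by group)⟩
  let π := QuotientGroup.mk' D
  set W := N.map π
  haveI : W.Normal := hNn.map _ (QuotientGroup.mk'_surjective D)
  haveI : H22.IsEA q W := ⟨by
    rintro ⟨_, u, hu, rfl⟩ ⟨_, v, hv, rfl⟩
    refine Subtype.ext (mul_inv_eq_iff_eq_mul.1 (mul_inv_eq_one.1 ?_))
    exact (QuotientGroup.eq_one_iff _).2 (hΦD (hcm u hu v hv)), by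
    rintro ⟨_, u, hu, rfl⟩
    exact Subtype.ext ((QuotientGroup.eq_one_iff _).2 (hΦD
      ⟨_, H3.pow_mem_frattini_pgroup hN ⟨u, hu⟩, rfl⟩))⟩
  haveI : Nontrivial W := (Subgroup.nontrivial_iff_ne_bot W).2 fun h => hne fun n hn => by
    have : π n ∈ W := ⟨n, hn, rfl⟩
    rw [h] at this
    exact ((QuotientGroup.eq_one_iff _).1 this).2
  let φ : A →* MulAut W := (MulAut.conjNormal.comp π).comp A.subtype
  have hφ : ∀ (c : A) n (hn : n ∈ N), φ c ⟨π n, n, hn, rfl⟩ = ⟨π n, n, hn, rfl⟩ ↔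
      n * c * n⁻¹ * (c : H)⁻¹ ∈ D := fun c n hn => by
    rw [Subtype.ext_iff, eq_comm, ← QuotientGroup.eq_one_iff, ← mul_inv_eq_one]
    change π n * (π c * π n * (π c)⁻¹)⁻¹ = 1 ↔ π _ = 1
    simp only [map_mul, map_inv, mul_inv_rev, inv_inv, mul_assoc]
  have hgen : Subgroup.normalClosure {(⟨x, hxA⟩ : A)} = ⊤ := by
    have h1 : (⟨x, hxA⟩ : A) ∈ Subgroup.normalClosure {(⟨x, hxA⟩ : A)} :=
      Subgroup.subset_normalClosure rfl
    have h2 := Subgroup.normalClosure_normal.conj_mem _ h1 ⟨a, ha⟩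
    have h3 : A ≤ (Subgroup.normalClosure {(⟨x, hxA⟩ : A)}).map A.subtype :=
      hA.le.trans (sup_le (Subgroup.zpowers_le.2 ⟨_, h1, rfl⟩) (Subgroup.zpowers_le.2 ⟨_, h2, rfl⟩))
    refine eq_top_iff.2 fun c _ => ?_
    obtain ⟨d, hd, e⟩ := h3 c.2
    rwa [← Subtype.ext e]
  have hlt := sq_lt (q := q) (r := r) hp φ (x := ⟨x, hxA⟩) (Subtype.ext hx) hgen (R.subgroupOf A)
    hR.comap_subtype hrq (by
    rintro ⟨_, n, hn, rfl⟩ h
    exact Subtype.ext ((QuotientGroup.eq_one_iff _).2 (cw n hn fun s hs =>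
      (hφ ⟨s, hRA hs⟩ n hn).1 (h _ hs))))
  rw [← Nat.card_prod] at hlt
  refine absurd (Nat.card_le_card_of_surjective (fun c : {w // φ ⟨x, hxA⟩ w = w} ×
    {w // φ ⟨x, hxA⟩ w = w} => (c.1 : W)⁻¹ * φ ⟨a, ha⟩ c.2) ?_) (not_le.2 hlt)
  rintro ⟨_, v, hv, rfl⟩
  obtain ⟨u, hu, h1, h2⟩ := main v hv
  have h3 := (hφ (⟨a, ha⟩ * ⟨x, hxA⟩ * ⟨a, ha⟩⁻¹) _ (mul_mem hu hv)).2 h2
  refine ⟨(⟨_, (hφ ⟨x, hxA⟩ u hu).2 h1⟩, ⟨φ ⟨a, ha⟩⁻¹ ⟨π (u * v), u * v, mul_mem hu hv, rfl⟩, ?_⟩), ?_⟩
  · conv_rhs => rw [← h3]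
    simp only [← MulAut.mul_apply, ← map_mul]
    congr 2; group
  · simp only [← MulAut.mul_apply, ← map_mul, mul_inv_cancel, map_one, MulAut.one_apply]
    exact Subtype.ext (by simp)

/-- Let G be a finite group and P a subgroup of prime order p > 3. Consider the solvable subgroups A of G of the form A = ⟨P, aPa⁻¹⟩ for some a ∈ A, and let A be maximal under inclusion among them. Then for every nilpotent subgroup V of G normalized by A, the subgroup F(A)V generated by the Fitting subgroup of A and V is nilpotent. -/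
theorem result {G : Type*} [Group G] [Finite G]
    {p : ℕ} [Fact p.Prime] (hp : 3 < p) (P : Subgroup G) (hP : Nat.card P = p) (A : Subgroup G)
    (hA : Group.IsSolvable ↥A ∧ ∃ a ∈ A, A = P ⊔ P.map (MulAut.conj a).toMonoidHom)
    (hmax : ∀ B : Subgroup G, A ≤ B → Group.IsSolvable ↥B → (∃ b ∈ B, B = P ⊔ P.map (MulAut.conj b).toMonoidHom) → B = A)
    (V : Subgroup G) (hV : Group.IsNilpotent ↥V) (hAV : A ≤ Subgroup.normalizer (V : Set G)) :
    Group.IsNilpotent ↥((Cfsg.fittingSubgroup ↥A).map A.subtype ⊔ V) := by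
  obtain ⟨hsol, a, ha, hAe⟩ := hA
  haveI : IsCyclic P := isCyclic_of_prime_card hP
  obtain ⟨x, rfl⟩ := (Subgroup.isCyclic_iff_exists_zpowers_eq_top P).1 inferInstance
  have hx : x ^ p = 1 := by rw [← hP, Nat.card_zpowers, pow_orderOf_eq_one]
  simp only [MonoidHom.map_zpowers] at hAe hmax
  have hxA : x ∈ A := hAe ▸ Subgroup.mem_sup_left (Subgroup.mem_zpowers x)
  let R : Nat.Primes → Subgroup G := fun r => (pCore (r : ℕ) A).map A.subtype
  let Q : Nat.Primes → Subgroup G := fun r => (pCore (r : ℕ) V).map V.subtype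
  have nm : ∀ (X Y : Subgroup G) (r : ℕ), Y ≤ Subgroup.normalizer (X : Set G) →
      Y ≤ Subgroup.normalizer (((pCore r X).map X.subtype : Subgroup G) : Set G) :=
    fun X Y r h y hy => Subgroup.mem_normalizer_fintype (by
      rintro _ ⟨z, hz, rfl⟩
      exact ⟨X.normalizerMonoidHom ⟨y, h hy⟩ z, (H2.mem_pCore_mulEquiv _).2 hz, rfl⟩)
  have cc : ∀ (X Y : Subgroup G) (r q : Nat.Primes), r ≠ q → IsPGroup r X → IsPGroup q Y →
      X ≤ Subgroup.normalizer (Y : Set G) → Y ≤ Subgroup.normalizer (X : Set G) →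
      Y ≤ Subgroup.centralizer (X : Set G) := fun X Y r q h hX hY h1 h2 y hy s hs => by
    haveI := Fact.mk r.2
    haveI := Fact.mk q.2
    have : s * y * s⁻¹ * y⁻¹ ∈ X ⊓ Y := Subgroup.mem_inf.2 ⟨by
      have := mul_mem hs ((Subgroup.mem_normalizer_iff.1 (h2 hy) _).1 (inv_mem hs))
      simpa only [mul_assoc] using this,
      mul_mem ((Subgroup.mem_normalizer_iff.1 (h1 hs) _).1 hy) (inv_mem hy)⟩
    rwa [(IsPGroup.disjoint_of_ne r q (fun e => h (Subtype.ext e)) X Y hX hY).eq_bot,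
      Subgroup.mem_bot, mul_inv_eq_one, mul_inv_eq_iff_eq_mul] at this
  have hRp : ∀ r : Nat.Primes, IsPGroup r (R r) := fun r => H2.isPGroup_map_pCore_subtype A
  have hQp : ∀ r : Nat.Primes, IsPGroup r (Q r) := fun r => H2.isPGroup_map_pCore_subtype V
  have hRA : ∀ r, R r ≤ A := fun r => Subgroup.map_subtype_le _
  have hQV : ∀ r, Q r ≤ V := fun r => Subgroup.map_subtype_le _
  have hAR : ∀ r, A ≤ Subgroup.normalizer (R r : Set G) := fun r => nm A A r Subgroup.le_normalizer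
  have hcen : ∀ r q, r ≠ q → Q q ≤ Subgroup.centralizer (R r : Set G) := fun r q hrq => by
    haveI := Fact.mk r.2
    haveI := Fact.mk q.2
    by_contra hne
    obtain ⟨N, ⟨hNQ, hAN, hN⟩, hmin⟩ := H2.exists_minimal_subgroup (fun N : Subgroup G =>
      N ≤ Q q ∧ A ≤ Subgroup.normalizer (N : Set G) ∧ ¬ N ≤ Subgroup.centralizer (R r : Set G))
      ⟨Q q, le_rfl, nm V A q hAV, hne⟩
    have hNp : IsPGroup q N := (hQp q).to_le hNQ
    set H := N ⊔ A
    have hAH : A ≤ H := le_sup_right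
    haveI : (N.subgroupOf H).Normal := (Subgroup.normal_subgroupOf_iff_le_normalizer le_sup_left).2
      (sup_le Subgroup.le_normalizer hAN)
    haveI : Group.IsSolvable (A.subgroupOf H) := H2.isSolvable_subgroupOf A H
    obtain ⟨b, hb⟩ := step (H := H) (q := q) (r := r) hp (fun e => hrq (Subtype.ext e))
      (A := A.subgroupOf H) (N := N.subgroupOf H) (R := (R r).subgroupOf H) hNp.comap_subtype
      (hRp r).comap_subtype (Subgroup.subgroupOf_mono _ (hRA r))
      (fun c hc => Subgroup.mem_normalizer_fintype fun s hs =>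
        (Subgroup.mem_normalizer_iff.1 (hAR r hc) (s : G)).1 hs)
      (by rw [← Subgroup.subgroupOf_sup le_sup_left hAH, Subgroup.subgroupOf_self])
      (x := ⟨x, hAH hxA⟩) (a := ⟨a, hAH ha⟩) (Subtype.ext hx) ha
      (Subgroup.map_injective (Subgroup.subtype_injective H) (by
        rw [Subgroup.map_sup, MonoidHom.map_zpowers, MonoidHom.map_zpowers,
          Subgroup.subgroupOf_map_subtype, inf_eq_left.2 hAH]
        exact hAe))
      (fun M hM hlt m hm s hs => by
        have h1 : M.map H.subtype ≤ N := by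
          rintro _ ⟨m, hm, rfl⟩; exact hlt.le hm
        have : M.map H.subtype ≤ Subgroup.centralizer (R r : Set G) := by
          by_contra h
          have := hmin _ ⟨h1.trans hNQ, fun c hc => Subgroup.mem_normalizer_fintype (by
            rintro _ ⟨m, hm, rfl⟩
            exact ⟨_, hM.conj_mem m hm ⟨c, hAH hc⟩, rfl⟩), h⟩ h1
          refine hlt.ne ?_
          rw [← this, Subgroup.subgroupOf, Subgroup.comap_map_eq_self_of_injective
            H.subtype_injective]
        exact Subtype.ext (this ⟨m, hm, rfl⟩ s hs))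
      (fun h => hN fun n hn s hs => congrArg Subtype.val
        (h (x := ⟨n, Subgroup.mem_sup_left hn⟩) hn ⟨s, hAH (hRA r hs)⟩ hs))
    haveI := hNp.isNilpotent
    have hHA := hmax H hAH (H5.isSolvable_sup_of_le_normalizer hAN) ⟨b, b.2, by
      have := congrArg (Subgroup.map H.subtype) hb
      rw [Subgroup.map_sup, MonoidHom.map_zpowers, MonoidHom.map_zpowers, ← MonoidHom.range_eq_map,
        Subgroup.range_subtype] at this
      exact this.symm⟩
    exact hN (cc _ _ r q hrq (hRp r) hNp ((hRA r).trans hAN)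
      ((le_sup_left.trans hHA.le).trans (hAR r)))
  set T := (fittingSubgroup A).map A.subtype ⊔ V
  have hF : (fittingSubgroup A).map A.subtype = ⨆ r, R r := by
    rw [H2.fitting_eq_iSup_pCore, Subgroup.map_iSup]
  have hFA : (fittingSubgroup A).map A.subtype ≤ A := Subgroup.map_subtype_le _
  have hT : T ≤ (fittingSubgroup T).map T.subtype := by
    refine sup_le (hF.le.trans (iSup_le fun r => ?_)) (H2.le_map_fitting_subtype le_sup_right
      (sup_le (hFA.trans hAV) Subgroup.le_normalizer))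
    haveI := Fact.mk r.2
    have h1 : IsPGroup r (Q r ⊔ R r : Subgroup G) :=
      (hQp r).to_sup_of_normal_left' (hRp r) ((hRA r).trans (nm V A r hAV))
    haveI := h1.isNilpotent
    refine le_sup_right.trans (H2.le_map_fitting_subtype (A := Q r ⊔ R r) (sup_le
      ((hQV r).trans le_sup_right) (((le_iSup R r).trans hF.ge).trans le_sup_left))
      (sup_le (hFA.trans ((le_inf (nm V A r hAV) (hAR r)).trans
        (Subgroup.normalizer_inf_normalizer_le_normalizer_sup _ _))) ?_))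
    rw [← H2.iSup_map_pCore_subtype V]
    refine iSup_le fun q => ?_
    by_cases h : r = q
    · subst h; exact le_sup_left.trans Subgroup.le_normalizer
    · exact (le_inf ((hQV q).trans (nm V V r Subgroup.le_normalizer)) ((hcen r q h).trans
        (Subgroup.centralizer_le_normalizer _))).trans
        (Subgroup.normalizer_inf_normalizer_le_normalizer_sup _ _)
  exact H2.fitting_eq_top_iff.1 (eq_top_iff.2 fun t _ => by
    obtain ⟨s, hs, e⟩ := hT t.2
    rwa [← Subtype.ext e])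

end Cfsg.Agent.S3822
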