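import Cfsg.Statements.S3825
import Cfsg.Agent.Base

set_option autoImplicit false
open Cfsg

namespace Cfsg.Agent.S3825

/-- Let U be a subgroup of a finite group H and w an involution of H normalizing U and commuting with exactly two elements of U, the identity and y. If V is a non-cyclic elementary abelian 2-subgroup of U containing y which is normal in U and invariant under w, then V is a Sylow 2-subgroup of U, V has order 4, and U/V is abelian. -/
theorem result {H : Type*} [Group H] [Finite H] (U : Subgroup H) (w : H) (hw : orderOf w = 2)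
    (hwU : w ∈ Subgroup.normalizer (U : Set H)) (y : H) (hy : y ≠ 1) (hyU : y ∈ U)
    (hfix : ∀ u ∈ U, w * u * w⁻¹ = u ↔ (u = 1 ∨ u = y))
    (V : Subgroup H) (hVU : V ≤ U) (hVn : (V.subgroupOf U).Normal) (hVw : ∀ v ∈ V, w * v * w⁻¹ ∈ V)
    (hVe : Cfsg.IsElementaryAbelian 2 V) (hVc : ¬ IsCyclic ↥V) (hyV : y ∈ V) :
    ¬ 2 ∣ V.relIndex U ∧ Nat.card ↥V = 4 ∧ ⁅U, U⁆ ≤ V := by
  have w2 : w * w = 1 := by rw [← pow_two, ← hw, pow_orderOf_eq_one]
  have ww : ∀ x : H, w * (w * x * w⁻¹) * w⁻¹ = x := fun x => by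
    rw [show w * (w * x * w⁻¹) * w⁻¹ = w * w * x * (w * w)⁻¹ by group, w2]; simp
  have sq : ∀ v ∈ V, v * v = 1 := fun v hv => by
    simpa [pow_two] using hVe.2 v hv
  have cm : ∀ a ∈ V, ∀ b ∈ V, a * b = b * a := fun a ha b hb => by
    rw [← inv_eq_of_mul_eq_one_right (sq _ (mul_mem ha hb)), mul_inv_rev,
      inv_eq_of_mul_eq_one_right (sq a ha), inv_eq_of_mul_eq_one_right (sq b hb)]
  have mv : ∀ v ∈ V, v ≠ 1 → v ≠ y → w * v * w⁻¹ = v * y := fun v hv h1 h2 => by
    have k := (hfix _ (hVU (mul_mem hv (hVw v hv)))).1 (by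
      rw [← conj_mul, ww, cm _ hv _ (hVw v hv)])
    rcases k with k | k
    · rw [← sq v hv, mul_right_inj] at k
      exact absurd ((hfix v (hVU hv)).1 k) (by tauto)
    · rw [← k, ← mul_assoc, sq v hv, one_mul]
  obtain ⟨a, ha, a1, ay⟩ : ∃ a ∈ V, a ≠ 1 ∧ a ≠ y := by
    by_contra! hn
    refine hVc ((Subgroup.isCyclic_iff_exists_zpowers_eq_top V).2 ⟨y, le_antisymm
      (Subgroup.zpowers_le.2 hyV) fun v hv => ?_⟩)
    by_cases h : v = 1
    · rw [h]; exact one_mem _
    · rw [hn v hv h]; exact Subgroup.mem_zpowers y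
  have key : ∀ u ∈ U, w * u * w⁻¹ = u * y → u = a ∨ u = y * a := fun u hu e => by
    have := (hfix _ (mul_mem hu (hVU ha))).1 (by
      rw [← conj_mul, e, mv a ha a1 ay, ← cm _ hyV _ ha, mul_assoc, ← mul_assoc y, sq y hyV, one_mul])
    refine this.imp (fun k => ?_) fun k => ?_
    · rw [← sq a ha] at k; exact mul_right_cancel k
    · rw [← k, mul_assoc, sq a ha, mul_one]
  haveI := hVn
  let φ : U →* U := (U.normalizerMonoidHom ⟨w, hwU⟩ : MulAut U).toMonoidHom
  have eφ : ∀ u : U, (φ u : H) = w * u * w⁻¹ := fun u => rfl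
  let ψ := QuotientGroup.map (V.subgroupOf U) (V.subgroupOf U) φ fun v hv => hVw _ hv
  have fp : MonoidHom.FixedPointFree ψ := by
    intro q
    obtain ⟨u, rfl⟩ := QuotientGroup.mk_surjective q
    intro e
    have m : (u : H)⁻¹ * (w * u * w⁻¹) ∈ V :=
      (QuotientGroup.eq (s := V.subgroupOf U) (a := u) (b := φ u)).1 e.symm
    refine (QuotientGroup.eq_one_iff _).2 (Subgroup.mem_subgroupOf.2 ?_)
    have k := (hfix _ (hVU m)).1 (by
      rw [← conj_mul, ww, ← inv_eq_of_mul_eq_one_right (sq _ m)]; group)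
    rcases k with k | k
    · rcases (hfix _ u.2).1 (inv_mul_eq_one.1 k).symm with r | r <;> rw [r]
      exacts [one_mem _, hyV]
    · rcases key _ u.2 (inv_mul_eq_iff_eq_mul.1 k) with r | r <;> rw [r]
      exacts [ha, mul_mem hyV ha]
  have iv : Function.Involutive ψ := by
    intro q
    obtain ⟨u, rfl⟩ := QuotientGroup.mk_surjective q
    exact congrArg QuotientGroup.mk (Subtype.ext (ww u))
  refine ⟨(fp.odd_card_of_involutive iv).not_two_dvd_nat, ?_, Subgroup.commutator_le.2 fun p hp q hq => ?_⟩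
  · have e : (V : Set H) = {1, y, a, y * a} := by
      ext v
      simp only [Set.mem_insert_iff, Set.mem_singleton_iff, SetLike.mem_coe]
      refine ⟨fun hv => ?_, ?_⟩
      · by_cases h1 : v = 1
        · exact .inl h1
        by_cases h2 : v = y
        · exact .inr (.inl h2)
        exact .inr (.inr (key v (hVU hv) (mv v hv h1 h2)))
      · rintro (rfl | rfl | rfl | rfl)
        exacts [one_mem _, hyV, ha, mul_mem hyV ha]
    have ya : y * a ≠ 1 := fun k => ay (mul_left_cancel (k.trans (sq y hyV).symm))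
    rw [← SetLike.coe_sort_coe, Nat.card_coe_set_eq, e, Set.ncard_insert_of_notMem
      (by simp [hy.symm, a1.symm, ya.symm]), Set.ncard_insert_of_notMem (by simp [ay.symm, a1]),
      Set.ncard_pair (by simp [hy])]
  · have := (fp.commute_all_of_involutive iv (QuotientGroup.mk ⟨p, hp⟩)
      (QuotientGroup.mk ⟨q, hq⟩)).commutator_eq
    exact Subgroup.mem_subgroupOf.1 ((QuotientGroup.eq_one_iff (N := V.subgroupOf U)
      ((⟨p, hp⟩ : U) * (⟨q, hq⟩ : U) * (⟨p, hp⟩ : U)⁻¹ * (⟨q, hq⟩ : U)⁻¹)).1 this)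

end Cfsg.Agent.S3825
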