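import Cfsg.Statements.S3835
import Cfsg.Agent.H11.QdSylow

set_option autoImplicit false
open Cfsg

namespace Cfsg.Agent.S3835

/-- Let p be an odd prime and n a natural number. The alternating group of degree n has a subgroup isomorphic to Qd(p) (the natural semidirect product of an elementary abelian group of order p² by SL₂(p)) if and only if n ≥ p²; and if n < p² then Qd(p) is not even involved in it. -/
theorem result {p : ℕ} [Fact p.Prime] (hp : p ≠ 2) (n : ℕ) : ((∃ H : Subgroup (alternatingGroup (Fin n)), Nonempty (↥H ≃* ↥(Cfsg.qd p))) ↔ p ^ 2 ≤ n) ∧ (n < p ^ 2 → ¬ Cfsg.Involves ↥(Cfsg.qd p) ↥(alternatingGroup (Fin n))) := by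
  classical
  have hpp : p.Prime := Fact.out
  have h2 : n < p ^ 2 → ¬ Cfsg.Involves ↥(Cfsg.qd p) ↥(alternatingGroup (Fin n)) := by
    intro hn
    obtain ⟨T⟩ : Nonempty (Sylow p (alternatingGroup (Fin n))) := inferInstance
    refine H11.not_involves_qd_of_comm_sylow_p T ?_
    exact H11.isMulCommutative_of_card_lt_sq (α := Fin n) T.isPGroup' (by simpa using hn)
  refine ⟨⟨fun ⟨H, ⟨e⟩⟩ => ?_, fun hn => ?_⟩, h2⟩
  · by_contra hn
    exact h2 (not_le.mp hn) (H94.involves_iff.mpr ⟨H, e.toMonoidHom, e.surjective⟩)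
  · obtain ⟨ι⟩ : Nonempty ((Fin 2 → ZMod p) ↪ Fin n) :=
      Function.Embedding.nonempty_of_card_le (by simpa using hn)
    let φ : qdOver (ZMod p) →* Equiv.Perm (Fin n) :=
      (Equiv.Perm.viaEmbeddingHom ι).comp H11.qAct
    have hφ : Function.Injective φ :=
      (Equiv.Perm.viaEmbeddingHom_injective ι).comp H11.qAct_injective
    have key : ∀ x : qdOver (ZMod p), x ^ p = 1 → x ∈ (alternatingGroup (Fin n)).comap φ := by
      intro x hx
      rw [Subgroup.mem_comap, Equiv.Perm.mem_alternatingGroup]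
      have : Equiv.Perm.sign (φ x) ^ p = 1 := by rw [← map_pow, ← map_pow, hx, map_one, map_one]
      rcases Int.units_eq_one_or (Equiv.Perm.sign (φ x)) with h | h
      · exact h
      · rw [h, (hpp.odd_of_ne_two hp).neg_one_pow] at this
        exact absurd this (by decide)
    have htop : (alternatingGroup (Fin n)).comap φ = ⊤ := by
      refine H11.eq_top_of_qa _ (fun v => key _ ?_) (fun x => key _ ?_) (fun x => key _ ?_)
      · rw [H11.qa_one_pow, H11.qa_eq_one]
        exact ⟨rfl, by ext i; simp⟩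
      · rw [← H11.qBlk_apply, ← map_pow, H11.pow_char_of_tr_two p (H11.tr_uMat x), map_one]
      · rw [← H11.qBlk_apply, ← map_pow, H11.pow_char_of_tr_two p (H11.tr_lMat x), map_one]
    let ψ : qdOver (ZMod p) →* alternatingGroup (Fin n) :=
      φ.codRestrict _ fun x => by rw [← Subgroup.mem_comap, htop]; trivial
    have hψ : Function.Injective ψ := fun x y h => hφ (congrArg Subtype.val h)
    exact ⟨ψ.range, ⟨(MonoidHom.ofInjective hψ).symm⟩⟩

end Cfsg.Agent.S3835
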