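import Cfsg.Statements.S3838
import Cfsg.Agent.H7.Tate
import Cfsg.Agent.H8.AbFitting
import Cfsg.Agent.H7.Frobenius

set_option autoImplicit false
open Cfsg

namespace Cfsg.Agent.S3838

open scoped commutatorElement in
theorem exists_conj {G : Type*} [Group G] [Finite G] {p : ℕ} [Fact p.Prime] (P : Sylow p G)
    (hN : Cfsg.HasNormalPComplement p (Subgroup.normalizer ((P : Subgroup G) : Set G)))
    {g : G} (hg : g ∈ Subgroup.normalizer ((P : Subgroup G) : Set G)) :
    ∀ x ∈ (P : Subgroup G), ⁅g, x⁆ ∈ ⁅(P : Subgroup G), (P : Subgroup G)⁆ := by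
  obtain ⟨u, hu, h⟩ := H7.controls_fusion_of_hasNPC hN (P.subtype P.le_normalizer) ⟨g, hg⟩
  intro x hx
  have h1 := congrArg Subtype.val (h ⟨x, P.le_normalizer hx⟩ hx
    (H7.conj_mem_of_mem_normalizer (H := (P : Subgroup G)) hg hx))
  have h2 : ⁅g, x⁆ = ⁅(u : G), x⁆ := by
    simp only [commutatorElement_def]
    exact congrArg (· * x⁻¹) h1.symm
  rw [h2]
  exact Subgroup.commutator_mem_commutator hu hx

/-- Let G be a finite group with Sylow p-subgroup P such that N_G(P) has a normal p-complement. Then N_G(Q) has a normal p-complement for every subgroup Q with [P, P] ≤ Q ≤ Φ(P). -/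
theorem result {G : Type*} [Group G] [Finite G] {p : ℕ} [Fact p.Prime] (P : Sylow p G) (hN : Cfsg.HasNormalPComplement p ↥(Subgroup.normalizer ((P : Subgroup G) : Set G))) (Q : Subgroup G) (h1 : (commutator ↥(P : Subgroup G)).map (P : Subgroup G).subtype ≤ Q) (h2 : Q ≤ (frattini ↥(P : Subgroup G)).map (P : Subgroup G).subtype) : Cfsg.HasNormalPComplement p ↥(Subgroup.normalizer (Q : Set G)) := by
  have hQP : Q ≤ P := h2.trans (Subgroup.map_subtype_le _)
  rw [Subgroup.map_subtype_commutator] at h1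
  have hPN : (P : Subgroup G) ≤ Subgroup.normalizer (Q : Set G) := fun g hg =>
    H7.mem_normalizer_of_forall fun x hx => by
      have := mul_mem (h1 (Subgroup.commutator_mem_commutator hg (hQP hx))) hx
      simpa [commutatorElement_def] using this
  set N := Subgroup.normalizer (Q : Set G)
  let P' := P.subtype hPN
  let f := QuotientGroup.mk' (Q.subgroupOf N)
  have hf := QuotientGroup.mk'_surjective (Q.subgroupOf N)
  have h3 : Cfsg.HasNormalPComplement p (N ⧸ Q.subgroupOf N) := by
    apply H8.hasNPC_of_normalizer_le_centralizer (P'.mapSurjective hf)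
    intro g hg
    obtain ⟨g, rfl⟩ := hf g
    have hg' : (g : G) ∈ Subgroup.normalizer ((P : Subgroup G) : Set G) :=
      H7.mem_normalizer_of_forall fun x hx => by
        obtain ⟨y, hy, e⟩ := H7.conj_mem_of_mem_normalizer
          (H := (P' : Subgroup N).map f) hg (x := f ⟨x, hPN hx⟩) ⟨_, hx, rfl⟩
        rw [← map_inv, ← map_mul, ← map_mul] at e
        have h4 := mul_mem hy (show _ ∈ (P' : Subgroup N) from hQP (QuotientGroup.eq.mp e))
        rw [mul_inv_cancel_left] at h4
        exact h4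
    rintro _ ⟨x, hx, rfl⟩
    rw [eq_comm, ← commutatorElement_eq_one_iff_mul_comm, ← map_commutatorElement]
    exact (QuotientGroup.eq_one_iff _).mpr (h1 (exists_conj P hN hg' x hx))
  apply H7.hasNPC_of_inf_pResidual_le_frattini P'
  intro x hx
  have h4 : f x ∈ Cfsg.pResidual p (N ⧸ Q.subgroupOf N) ⊓ (P'.mapSurjective hf) :=
    ⟨H7.map_pResidual_le f ⟨x, hx, rfl⟩, x, x.2, rfl⟩
  rw [(H7.hasNPC_iff_inf_eq_bot _).mp h3, Subgroup.mem_bot] at h4
  obtain ⟨y, hy, e⟩ := h2 ((QuotientGroup.eq_one_iff (N := Q.subgroupOf N) (x : N)).mp h4)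
  have h5 := frattini_le_comap_frattini_of_surjective
    (φ := (Subgroup.subgroupOfEquivOfLe hPN).symm.toMonoidHom)
    (Subgroup.subgroupOfEquivOfLe hPN).symm.surjective hy
  have h6 : (Subgroup.subgroupOfEquivOfLe hPN).symm y = x := Subtype.ext (Subtype.ext e)
  rw [← h6]
  exact h5

end Cfsg.Agent.S3838
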