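import Cfsg.Statements.S3839
import Cfsg.Agent.H8.AlperinP

set_option autoImplicit false
open Cfsg

namespace Cfsg.Agent.S3839

open H7 H16
open scoped commutatorElement

/-- stabilizer of the chain `1 ≤ U ≤ P` -/
def stab {G : Type*} [Group G] (U P : Subgroup G) : Subgroup G where
  carrier := {y | y ∈ Nm P ∧ y ∈ Ce U ∧ ∀ x ∈ P, ⁅y, x⁆ ∈ U}
  one_mem' := ⟨one_mem _, one_mem _, fun x _ => by simp⟩
  mul_mem' := by
    rintro a b ⟨a1, a2, a3⟩ ⟨b1, b2, b3⟩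
    refine ⟨mul_mem a1 b1, mul_mem a2 b2, fun x hx => ?_⟩
    have : ⁅a * b, x⁆ = a * ⁅b, x⁆ * a⁻¹ * ⁅a, x⁆ := by
      simp only [commutatorElement_def]; group
    rw [this, conj_eq_of_mem_Ce a2 (b3 x hx)]
    exact mul_mem (b3 x hx) (a3 x hx)
  inv_mem' := by
    rintro a ⟨a1, a2, a3⟩
    refine ⟨inv_mem a1, inv_mem a2, fun x hx => ?_⟩
    have : ⁅a⁻¹, x⁆ = a⁻¹ * ⁅a, x⁆⁻¹ * a⁻¹⁻¹ := by
      simp only [commutatorElement_def]; group
    rw [this, conj_eq_of_mem_Ce (inv_mem a2) (inv_mem (a3 x hx))]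
    exact inv_mem (a3 x hx)

theorem stab_pow {G : Type*} [Group G] {U P : Subgroup G} {y : G} (hy : y ∈ stab U P) {x : G}
    (hx : x ∈ P) (j : ℕ) : ⁅y ^ j, x⁆ = ⁅y, x⁆ ^ j := by
  induction j with
  | zero => simp
  | succ j ih =>
    have : ⁅y ^ (j + 1), x⁆ = y * ⁅y ^ j, x⁆ * y⁻¹ * ⁅y, x⁆ := by
      simp only [commutatorElement_def, pow_succ']; group
    rw [this, ih, conj_eq_of_mem_Ce hy.2.1 (pow_mem (hy.2.2 x hx) j), pow_succ]

theorem stab_cent {G : Type*} [Group G] [Finite G] {p : ℕ} {U P : Subgroup G} (hU : IsPGroup p U)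
    {y : G} (hy : y ∈ stab U P) (hc : (orderOf y).Coprime p) : y ∈ Ce P := by
  intro x hx
  have h1 := stab_pow hy hx (orderOf y)
  rw [pow_orderOf_eq_one, commutatorElement_one_left] at h1
  have h2 : (⟨⁅y, x⁆, hy.2.2 x hx⟩ : U) = 1 := eq_one_of_isPGroup_of_coprime hU (by
    rw [← Subgroup.orderOf_coe]
    exact Nat.Coprime.coprime_dvd_left (orderOf_dvd_of_pow_eq_one h1.symm) hc)
  exact (commutatorElement_eq_one_iff_mul_comm.mp (congrArg Subtype.val h2)).symm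

theorem conj_eq_of_gen {G : Type*} [Group G] [Finite G] {p : ℕ} [Fact p.Prime]
    {T Y P : Subgroup G} (hT : IsSylowIn p T Y) (hY : Y ≤ Nm P)
    (h : ∀ y ∈ Y, (orderOf y).Coprime p → y ∈ Ce P) {y : G} (hy : y ∈ Y) :
    ∃ s ∈ T, ∀ x ∈ P, y * x * y⁻¹ = s * x * s⁻¹ := by
  obtain ⟨k, hk, s, hs, rfl⟩ := hT.exists_pResidual_mul hy
  have hk' : k ∈ Ce P := by
    rw [map_pResidual_eq_closure] at hk
    exact (Subgroup.closure_le _).mpr (fun z hz => h z hz.1 hz.2) hk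
  refine ⟨s, hs, fun x hx => ?_⟩
  rw [← conj_eq_of_mem_Ce hk' (conj_mem_of_mem_normalizer (hY (hT.le hs)) hx)]
  group

/-- A Frobenius normal p-complement criterion relative to a strongly closed subgroup. Let G be a finite group, S a Sylow p-subgroup and D a subgroup of S strongly closed in S with respect to G. Then G has a normal p-complement if and only if N_G(U) has a normal p-complement for every subgroup U of D with C_D(U) ≤ U. -/
theorem result {G : Type*} [Group G] [Finite G] {p : ℕ} [Fact p.Prime] (S : Sylow p G) (D : Subgroup G) (hD : Cfsg.IsStronglyClosed D (S : Subgroup G)) : Cfsg.HasNormalPComplement p G ↔ ∀ U : Subgroup G, U ≤ D → D ⊓ Subgroup.centralizer (U : Set G) ≤ U → Cfsg.HasNormalPComplement p ↥(Subgroup.normalizer (U : Set G)) := by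
  refine ⟨fun h U _ _ => hasNPC_subgroup h _, fun h => ?_⟩
  have hSD : (S : Subgroup G) ≤ Nm D := fun s hs => mem_normalizer_of_forall fun x hx =>
    hD.2 x hx s (mul_mem (mul_mem hs (hD.1 hx)) (inv_mem hs))
  have hmul : ∀ (T : Subgroup G) (g k : G),
      (∃ u ∈ (S : Subgroup G), ∀ t ∈ T, g * t * g⁻¹ = u * t * u⁻¹) →
      (∃ u ∈ (S : Subgroup G), ∀ t ∈ cj g T, k * t * k⁻¹ = u * t * u⁻¹) →
      ∃ u ∈ (S : Subgroup G), ∀ t ∈ T, k * g * t * (k * g)⁻¹ = u * t * u⁻¹ :=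
    fun T g k ⟨u, hu, h1⟩ ⟨v, hv, h2⟩ => ⟨v * u, mul_mem hv hu, fun t ht => by
      have e := h2 _ (conj_mem_conj_smul (g := g) ht)
      calc k * g * t * (k * g)⁻¹ = k * (g * t * g⁻¹) * k⁻¹ := by group
        _ = v * (u * t * u⁻¹) * v⁻¹ := by rw [e, h1 t ht]
        _ = _ := by group⟩
  have key := alperin_ind_extr (isSylowIn_top S)
    (fun T g => ∃ u ∈ (S : Subgroup G), ∀ t ∈ T, g * t * g⁻¹ = u * t * u⁻¹)
    (fun T T' g h _ _ _ ⟨u, hu, h'⟩ => ⟨u, hu, fun t ht => h' t (h ht)⟩)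
    (fun T g k _ _ _ _ _ => hmul T g k)
    (fun T g _ _ _ ⟨u, hu, h1⟩ => ⟨u⁻¹, inv_mem hu, fun s hs => by
      have e := h1 _ (mem_cj.mp hs)
      calc g⁻¹ * s * g⁻¹⁻¹ = u⁻¹ * (u * (g⁻¹ * s * g) * u⁻¹) * u⁻¹⁻¹ := by group
        _ = _ := by rw [← e]; group⟩) 0 ?_
  · apply hasNPC_of_controls_fusion S
    intro x hx g hg
    obtain ⟨u, hu, e⟩ := key (Subgroup.zpowers x) g (Subgroup.zpowers_le.mpr hx)
      (Subgroup.mem_top _) (by
        rw [cj_eq_map, MonoidHom.map_zpowers, Subgroup.zpowers_le]; exact hg) (Nat.zero_le _)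
    exact ⟨u, hu, (e x (Subgroup.mem_zpowers x)).symm⟩
  intro P hP _ ih n hn
  have hn' : n ∈ Nm P := hn.2
  have hs := hP.syl
  rw [top_inf_eq] at hs
  have hPp : IsPGroup p P := S.isPGroup'.to_le hP.le
  have hNU : Nm P ≤ Nm (P ⊓ D) := fun g hg => mem_normalizer_of_forall fun x hx =>
    ⟨conj_mem_of_mem_normalizer hg hx.1,
      hD.2 x hx.2 g (hP.le (conj_mem_of_mem_normalizer hg hx.1))⟩
  by_cases hc : D ⊓ Ce (P ⊓ D) ≤ P ⊓ D
  · have h1 := hasNPC_of_le hNU (h _ inf_le_right hc)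
    obtain ⟨s, hs', e⟩ := conj_eq_of_gen hs le_rfl (fun y hy hcop =>
      mem_centralizer_of_hasNPC h1 Subgroup.le_normalizer le_rfl hPp hy hcop) hn'
    exact ⟨s, hs'.1, e⟩
  have h1 : P < (D ⊓ Ce (P ⊓ D)) ⊔ P := lt_of_le_of_ne le_sup_right fun he =>
    hc (le_inf (le_sup_left.trans he.ge) inf_le_left)
  obtain ⟨r, hr, hrP⟩ := SetLike.exists_of_lt (lt_inf_normalizer
    (S.isPGroup'.to_le (sup_le (inf_le_left.trans hD.1) hP.le)) h1)
  obtain ⟨d, hd, x, hx, rfl⟩ := (mem_sup_iff_of_le_normalizer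
    ((le_inf (hP.le.trans hSD) ((Subgroup.le_normalizer.trans hNU).trans (Nm_le_Nm_Ce _))).trans
      (Nm_inf_le _ _))).mp hr.1
  have hdN : d ∈ Nm P := by
    simpa using (Nm P).mul_mem hr.2 (inv_mem (Subgroup.le_normalizer hx))
  have hdP : d ∉ P := fun h' => hrP (mul_mem h' hx)
  have hdY : d ∈ stab (P ⊓ D) P := ⟨hdN, hd.2, fun y hy => ⟨
    P.mul_mem (conj_mem_of_mem_normalizer hdN hy) (P.inv_mem hy), by
      have := D.mul_mem hd.1 (conj_mem_of_mem_normalizer (hSD (hP.le hy)) (D.inv_mem hd.1))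
      simpa [commutatorElement_def, mul_assoc] using this⟩⟩
  have hYN : stab (P ⊓ D) P ≤ Nm P := fun y hy => hy.1
  have hNY : Nm P ≤ Nm (stab (P ⊓ D) P) := fun g hg => mem_normalizer_of_forall fun y hy =>
    ⟨mul_mem (mul_mem hg hy.1) (inv_mem hg),
      conj_mem_of_mem_normalizer (Nm_le_Nm_Ce _ (hNU hg)) hy.2.1, fun z hz => by
      have := conj_mem_of_mem_normalizer (hNU hg)
        (hy.2.2 _ (inv_conj_mem_of_mem_normalizer hg hz))
      convert this using 1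
      simp only [commutatorElement_def]; group⟩
  have hT := hs.inf_of_le_normalizer hNY
  rw [inf_eq_right.mpr hYN] at hT
  obtain ⟨y, hy, m, hm, rfl⟩ := hT.frattini (hNY hn')
  have hmP : m ∈ Nm P := by simpa using mul_mem (inv_mem (hYN hy)) hn'
  have hle : ((S : Subgroup G) ⊓ Nm P ⊓ stab (P ⊓ D) P) ⊔ P ≤ S :=
    sup_le (inf_le_left.trans inf_le_left) hP.le
  have hlt : P < ((S : Subgroup G) ⊓ Nm P ⊓ stab (P ⊓ D) P) ⊔ P :=
    lt_of_le_of_ne le_sup_right fun he =>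
      hdP (he.ge (Subgroup.mem_sup_left ⟨⟨hD.1 hd.1, hdN⟩, hdY⟩))
  obtain ⟨u, hu, e⟩ := ih _ m hle (Subgroup.mem_top _)
    (by rw [cj_eq_iff.mpr (Nm_sup_le _ _ ⟨hm, hmP⟩)]; exact hle) (card_lt_of_lt hlt)
  refine hmul P m y ⟨u, hu, fun t ht => e t (Subgroup.mem_sup_right ht)⟩ ?_
  rw [cj_eq_iff.mpr hmP]
  obtain ⟨s, hs', e'⟩ := conj_eq_of_gen hT hYN (fun z hz hcop =>
    stab_cent hPp.to_inf_left hz hcop) hy
  exact ⟨s, hs'.1.1, e'⟩

end Cfsg.Agent.S3839
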