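import Cfsg.Statements.S3859
import Cfsg.Agent.H98.Sylow

set_option autoImplicit false
open Cfsg

namespace Cfsg.Agent.S3859

open Subgroup

theorem norm_ne_top {G : Type*} [Group G] [Finite G] (T : Subgroup G) (hT : IsSimpleGroup T)
    (hna : ¬ IsMulCommutative T) {r : ℕ} [Fact r.Prime] {R : Subgroup G} (hR : IsPGroup r R)
    (hR0 : R ⊓ T ≠ ⊥) : normalizer ((R ⊓ T : Subgroup G) : Set G) ≠ ⊤ := by
  intro h
  haveI := normalizer_eq_top_iff.1 h
  rcases (inferInstance : ((R ⊓ T).subgroupOf T).Normal).eq_bot_or_eq_top with h1 | h1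
  · exact hR0 ((subgroupOf_eq_bot.1 h1).eq_bot_of_le inf_le_right)
  · haveI := (hR.to_le ((subgroupOf_eq_top.1 h1).trans inf_le_left)).isNilpotent
    exact hna (IsSimpleGroup.comm_iff_isSolvable.2 inferInstance |> fun h => ⟨⟨h⟩⟩)

/-- Let G be a finite group with a normal non-abelian simple subgroup T whose centralizer is trivial (G almost simple with socle T), r a prime and R a Sylow r-subgroup of G meeting T nontrivially. If R lies in exactly one maximal subgroup of G, then G/T is an r-group. -/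
theorem result {G : Type*} [Group G] [Finite G] (T : Subgroup G) [T.Normal] (hT : IsSimpleGroup T) (hna : ¬ IsMulCommutative T)
    (hC : Subgroup.centralizer (T : Set G) = ⊥) {r : ℕ} [Fact r.Prime] (R : Sylow r G) (hR0 : (R : Subgroup G) ⊓ T ≠ ⊥)
    (huniq : ∃! M : Subgroup G, IsCoatom M ∧ (R : Subgroup G) ≤ M) : IsPGroup r (G ⧸ T) := by
  obtain ⟨M, ⟨hM, hRM⟩, hu⟩ := huniq
  have h1 : (R : Subgroup G) ⊔ T = ⊤ := by
    by_contra h
    obtain ⟨M1, hM1, h1⟩ := (eq_top_or_exists_le_coatom _).resolve_left h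
    obtain ⟨M2, hM2, h2⟩ := (eq_top_or_exists_le_coatom _).resolve_left
      (norm_ne_top T hT hna R.isPGroup' hR0)
    obtain rfl := hu M1 ⟨hM1, le_sup_left.trans h1⟩
    obtain rfl := hu M2 ⟨hM2, (H98.le_normalizer_inf le_normalizer le_normalizer_of_normal).trans h2⟩
    have := ((H98.isSyl_sylow R).inf_of_le_normalizer le_top le_normalizer_of_normal).frattini
      (le_top (a := T)) le_normalizer_of_normal
    exact hM.1 (eq_top_iff.2 (this.ge.trans (sup_le (inf_le_right.trans h2) (le_sup_right.trans h1))))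
  refine R.isPGroup'.of_surjective ((QuotientGroup.mk' T).comp (R : Subgroup G).subtype) fun y => ?_
  obtain ⟨g, rfl⟩ := QuotientGroup.mk_surjective y
  obtain ⟨a, ha, b, hb, rfl⟩ := mem_sup_of_normal_right.1 (h1.ge (mem_top g))
  exact ⟨⟨a, ha⟩, QuotientGroup.eq.2 (by simpa using hb)⟩

end Cfsg.Agent.S3859
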