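import Cfsg.Statements.S3858
import Cfsg.Agent.H98.Sylow
import Cfsg.Agent.H18.Elt
import Cfsg.Agent.S3859

set_option autoImplicit false
open Cfsg

namespace Cfsg.Agent.S3858

/-- Let G be a finite group with a normal non-abelian simple subgroup T whose centralizer is trivial (G almost simple with socle T), r a prime and R a Sylow r-subgroup of G meeting T nontrivially. Then R lies in exactly one maximal subgroup of G if and only if G has exactly one conjugacy class of maximal subgroups whose index is prime to r. -/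
theorem result {G : Type*} [Group G] [Finite G] (T : Subgroup G) [T.Normal] (hT : IsSimpleGroup T) (hna : ¬ IsMulCommutative T)
    (hC : Subgroup.centralizer (T : Set G) = ⊥) {r : ℕ} [Fact r.Prime] (R : Sylow r G) (hR0 : (R : Subgroup G) ⊓ T ≠ ⊥) :
    (∃! M : Subgroup G, IsCoatom M ∧ (R : Subgroup G) ≤ M) ↔
      ((∃ M : Subgroup G, IsCoatom M ∧ ¬ r ∣ M.index) ∧
        ∀ M₁ M₂ : Subgroup G, IsCoatom M₁ → ¬ r ∣ M₁.index → IsCoatom M₂ → ¬ r ∣ M₂.index → ∃ g : G, M₂ = M₁.map (MulAut.conj g).toMonoidHom) := by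
  have hind : ∀ M : Subgroup G, (R : Subgroup G) ≤ M → ¬ r ∣ M.index := fun M h hd =>
    R.not_dvd_index (hd.trans (Subgroup.index_dvd_of_le h))
  have hco : ∀ (M : Subgroup G) (g : G), IsCoatom M → IsCoatom (H98.cj g M) := fun M g h =>
    (OrderIso.isCoatom_iff (MulAut.conj g).mapSubgroup M).2 h
  have hcj : ∀ M : Subgroup G, ¬ r ∣ M.index → ∃ g : G, (R : Subgroup G) ≤ H98.cj g M := by
    intro M h
    obtain ⟨Q, hQ⟩ := H18.exists_sylow_le_of_not_dvd h
    obtain ⟨g, -, e⟩ := (H98.isSyl_sylow Q).exists_cj_eq (H98.isSyl_sylow R)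
    exact ⟨g, e ▸ H98.cj_mono g hQ⟩
  constructor
  · rintro ⟨M, ⟨hM, hRM⟩, hu⟩
    refine ⟨⟨M, hM, hind M hRM⟩, fun M₁ M₂ h1 h1' h2 h2' => ?_⟩
    obtain ⟨g, hg⟩ := hcj M₁ h1'
    obtain ⟨g', hg'⟩ := hcj M₂ h2'
    refine ⟨g'⁻¹ * g, ?_⟩
    change M₂ = H98.cj _ M₁
    rw [← H98.cj_cj, hu _ ⟨hco _ g h1, hg⟩, ← hu _ ⟨hco _ g' h2, hg'⟩, H98.cj_inv_cj]
  · rintro ⟨-, h⟩
    obtain ⟨M, hM, h2⟩ := (eq_top_or_exists_le_coatom _).resolve_left
      (S3859.norm_ne_top T hT hna R.isPGroup' hR0)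
    replace h2 : Subgroup.normalizer ((R : Subgroup G) : Set G) ≤ M :=
      (H98.le_normalizer_inf le_rfl Subgroup.le_normalizer_of_normal).trans h2
    have hRM := Subgroup.le_normalizer.trans h2
    refine ⟨M, ⟨hM, hRM⟩, ?_⟩
    rintro M' ⟨hM', hRM'⟩
    obtain ⟨g, rfl⟩ := h M M' hM (hind M hRM) hM' (hind M' hRM')
    have h3 : H98.IsSyl r (H98.cj g⁻¹ R) M := by
      have := (H98.isSyl_sylow_of_le R hRM').cj g⁻¹
      rwa [H98.cj_inv_cj] at this
    obtain ⟨m, hm, e⟩ := h3.exists_cj_eq (H98.isSyl_sylow_of_le R hRM)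
    rw [H98.cj_cj, H98.cj_eq_self_iff] at e
    have := (M.mul_mem_cancel_left hm).1 (h2 e)
    exact H98.cj_eq_self_of_mem (inv_mem_iff.1 this)

end Cfsg.Agent.S3858
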