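import Cfsg.Statements.S3862
import Cfsg.Agent.H7.MinAct

set_option autoImplicit false
open Cfsg

namespace Cfsg.Agent.S3862

/-- If every 2-element of the finite group G that is conjugate to its inverse lies in the centre of G, then G has a normal 2-complement. -/
theorem result {G : Type*} [Group G] [Finite G] (h : ∀ x : G, (∃ j : ℕ, orderOf x = 2 ^ j) → IsConj x x⁻¹ → x ∈ Subgroup.center G) : Cfsg.HasNormalPComplement 2 G := by
  by_contra hn
  obtain ⟨R, -, g, hg⟩ := H7.exists_minAct_of_not_hasNPC (default : Sylow 2 G) hn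
  have hord : ∀ x ∈ R, ∃ j : ℕ, orderOf x = 2 ^ j := by
    intro x hx
    obtain ⟨j, hj⟩ := IsPGroup.iff_orderOf.mp hg.isPGroup ⟨x, hx⟩
    exact ⟨j, by rw [← hj, Subgroup.orderOf_mk]⟩
  have h4 : ∀ x ∈ R, x * x * (x * x) = 1 := by
    intro x hx
    have := hg.pow_eq_one_of_mem_frattini (hg.pow_mem_frattini hx)
    rwa [sq, sq] at this
  have h2 : ∀ x ∈ R, x * x ∈ Subgroup.center G := fun x hx =>
    h _ (hord _ (mul_mem hx hx)) (by rw [inv_eq_of_mul_eq_one_right (h4 x hx)])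
  have h3 : R ≤ Subgroup.center G := by
    rw [← hg.commutator_eq, Subgroup.commutator_le]
    intro x hx a ha
    have hu : x⁻¹ ∈ R := inv_mem hx
    obtain ⟨u, rfl⟩ : ∃ u, x = u⁻¹ := ⟨x⁻¹, (inv_inv x).symm⟩
    rw [inv_inv] at hu
    have hy : a * u * a⁻¹ ∈ R :=
      H1.conj_mem_of_le_normalizer (Subgroup.zpowers_le.mpr hg.mem_normalizer) ha hu
    have hyy : (a * u * a⁻¹) * (a * u * a⁻¹) = u * u := by
      have := Subgroup.mem_center_iff.mp (h2 u hu) a
      calc (a * u * a⁻¹) * (a * u * a⁻¹) = a * (u * u) * a⁻¹ := by group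
        _ = u * u := by rw [this, mul_inv_cancel_right]
    have hw : u * (a * u * a⁻¹) ∈ Subgroup.center G := by
      refine h _ (hord _ (mul_mem hu hy)) (isConj_iff.mpr ⟨u⁻¹, ?_⟩)
      generalize a * u * a⁻¹ = y at hyy
      calc u⁻¹ * (u * y) * u⁻¹⁻¹ = y⁻¹ * (y * y * (u * u)) * u⁻¹ := by group
        _ = (u * y)⁻¹ := by rw [hyy, h4 u hu]; group
    have e : u⁻¹ * a * u⁻¹⁻¹ * a⁻¹ = (u * u)⁻¹ * (u * (a * u * a⁻¹)) := by
      group
    rw [commutatorElement_def, e]
    exact mul_mem (inv_mem (h2 u hu)) hw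
  exact hg.not_mem fun x hx => (Subgroup.mem_center_iff.mp (h3 hx) g).symm

end Cfsg.Agent.S3862
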