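import Cfsg.Statements.S3864
import Cfsg.Agent.H8.DihFusion

set_option autoImplicit false
open Cfsg

namespace Cfsg.Agent.S3864

/-- Let G be a finite group whose Sylow 2-subgroups are dihedral of order 2 ^ n with n ≥ 3, and count the conjugacy classes of involutions of G. Then exactly one of the following holds: there is one class of involutions and no normal subgroup of index 2; there are two classes of involutions, a normal subgroup of index 2 and none of index 4; there are three classes of involutions and G has a normal 2-complement. -/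
theorem result {G : Type*} [Group G] [Finite G] (P : Sylow 2 G) (n : ℕ) (hn : 3 ≤ n) (hdih : Nonempty (↥(P : Subgroup G) ≃* DihedralGroup (2 ^ (n - 1)))) : (Nat.card {C : ConjClasses G // ∃ g : G, ConjClasses.mk g = C ∧ orderOf g = 2} = 1 ∧ ∀ N : Subgroup G, N.Normal → N.index ≠ 2) ∨ (Nat.card {C : ConjClasses G // ∃ g : G, ConjClasses.mk g = C ∧ orderOf g = 2} = 2 ∧ (∃ N : Subgroup G, N.Normal ∧ N.index = 2) ∧ ∀ N : Subgroup G, N.Normal → N.index ≠ 4) ∨ (Nat.card {C : ConjClasses G // ∃ g : G, ConjClasses.mk g = C ∧ orderOf g = 2} = 3 ∧ Cfsg.HasNormalPComplement 2 G) := by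
  obtain ⟨e⟩ := hdih
  obtain ⟨a, b, h⟩ := H8.exists_DH e
  obtain ⟨k, hk⟩ : ∃ k, 2 ^ (n - 1) = 4 * k :=
    ⟨2 ^ (n - 3), by rw [show n - 1 = 2 + (n - 3) by omega, pow_add]; norm_num⟩
  rw [hk] at h
  have hset : {C : ConjClasses G | ∃ g : G, ConjClasses.mk g = C ∧ orderOf g = 2} =
      {ConjClasses.mk (a ^ (2 * k)), ConjClasses.mk b, ConjClasses.mk (b * a)} := by
    ext C
    simp only [Set.mem_ofPred_eq, Set.mem_insert_iff, Set.mem_singleton_iff]
    constructor
    · rintro ⟨g, rfl, hg⟩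
      simpa only [ConjClasses.mk_eq_mk_iff_isConj] using h.isConj_of_orderOf hg
    · rintro (rfl | rfl | rfl)
      · exact ⟨_, rfl, h.orderOf_z⟩
      · exact ⟨_, rfl, by simpa using h.orderOf_ba 0⟩
      · exact ⟨_, rfl, by simpa using h.orderOf_ba 1⟩
  have hcard : Nat.card {C : ConjClasses G // ∃ g : G, ConjClasses.mk g = C ∧ orderOf g = 2} =
      Set.ncard {ConjClasses.mk (a ^ (2 * k)), ConjClasses.mk b, ConjClasses.mk (b * a)} := by
    rw [← hset]; rfl
  rw [hcard]
  have h' := h.shift 1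
  rw [zpow_one] at h'
  by_cases hb : IsConj b (a ^ (2 * k)) <;> by_cases hba : IsConj (b * a) (a ^ (2 * k))
  · refine Or.inl ⟨?_, fun N _ => h.index_ne_two hb hba N⟩
    rw [ConjClasses.mk_eq_mk_iff_isConj.mpr hb, ConjClasses.mk_eq_mk_iff_isConj.mpr hba]
    simp
  · obtain ⟨N, h1, h2, -⟩ := h'.exists_index_two hba
    refine Or.inr (Or.inl ⟨?_, ⟨N, h1, h2⟩, fun N _ => h.index_ne_four hb N⟩)
    rw [ConjClasses.mk_eq_mk_iff_isConj.mpr hb, Set.insert_eq_of_mem (Set.mem_insert _ _)]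
    exact Set.ncard_pair fun e => hba (ConjClasses.mk_eq_mk_iff_isConj.mp e.symm)
  · obtain ⟨N, h1, h2, -⟩ := h.exists_index_two hb
    refine Or.inr (Or.inl ⟨?_, ⟨N, h1, h2⟩, fun N _ => h'.index_ne_four hba N⟩)
    rw [ConjClasses.mk_eq_mk_iff_isConj.mpr hba, Set.insert_eq_of_mem (by simp)]
    exact Set.ncard_pair fun e => hb (ConjClasses.mk_eq_mk_iff_isConj.mp e)
  · have hN := h.hasNPC hb hba
    refine Or.inr (Or.inr ⟨?_, hN⟩)
    exact Set.ncard_eq_three.mpr ⟨_, _, _,
      fun e => hb (ConjClasses.mk_eq_mk_iff_isConj.mp e.symm),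
      fun e => hba (ConjClasses.mk_eq_mk_iff_isConj.mp e.symm),
      fun e => h.not_isConj_of_hasNPC hN (ConjClasses.mk_eq_mk_iff_isConj.mp e), rfl⟩

end Cfsg.Agent.S3864
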