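import Cfsg.Statements.S3865
import Cfsg.Agent.H84.MCS
import Cfsg.Agent.S0081
import Cfsg.Agent.H14.Quasi
import Cfsg.Agent.H2.PrimeCore

set_option autoImplicit false
open Cfsg

namespace Cfsg.Agent.S3865

/-- Let G be a finite group whose Sylow p-subgroup P has order p ^ n with n ≥ 2 and nilpotency class n - 1 (maximal class), whose largest normal subgroup of order prime to p is trivial, and which has no proper normal subgroup of index prime to p. Then either some x ∈ P has a centralizer in G whose order has p-part p ^ 2, or G is quasisimple with centre of order at most p. -/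
theorem result {G : Type*} [Group G] [Finite G] (p : ℕ) [Fact p.Prime] (P : Sylow p G) (n : ℕ) (hP : Nat.card P = p ^ n) (hn : 2 ≤ n) (hmax : Group.nilpotencyClass ↥(P : Subgroup G) = n - 1) (hcore : Cfsg.pPrimeCore p G = ⊥) (hres : ∀ N : Subgroup G, N.Normal → (N.index).Coprime p → N = ⊤) : (∃ x ∈ (P : Subgroup G), (Nat.card (Subgroup.centralizer ({x} : Set G))).factorization p = 2) ∨ (Cfsg.IsQuasisimple G ∧ Nat.card (Subgroup.center G) ≤ p) := by
  rcases hn.eq_or_lt with rfl | hn
  · refine .inl ⟨1, Subgroup.one_mem _, ?_⟩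
    rw [show Subgroup.centralizer ({1} : Set G) = ⊤ from eq_top_iff.2 fun g _ => by
      simp [Subgroup.mem_centralizer_singleton_iff], Subgroup.card_top]
    exact (Nat.pow_right_injective (Fact.out : p.Prime).two_le
      (hP.symm.trans P.card_eq_multiplicity)).symm
  refine or_iff_not_imp_left.2 fun hx => ?_
  replace hP : Nat.card (P : Subgroup G) = p ^ n := hP
  have hna : ¬ IsMulCommutative (P : Subgroup G) := fun e => by
    have := P.isPGroup'.isNilpotent
    have := (Group.IsNilpotent.nilpotencyClass_le_one_iff (G := (P : Subgroup G))).2 e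
    omega
  have h1 : ∀ N : Subgroup G, N.Normal → (P : Subgroup G) ≤ N → N = ⊤ := fun N hN h =>
    hres N hN (((Fact.out : p.Prime).coprime_iff_not_dvd.2 fun e =>
      P.not_dvd_index (e.trans (Subgroup.index_dvd_of_le h))).symm)
  have key : ∀ N : Subgroup G, N.Normal → N = ⊤ ∨ N ≤ Subgroup.center G ∧ Nat.card N ≤ p := by
    intro N hN
    refine or_iff_not_imp_left.2 fun h2 => ?_
    obtain ⟨Γ, _, h, h3⟩ := H84.MCS.exists_chain hP hmax hn hna (Q := N.subgroupOf P)
      fun e => h2 (h1 N hN (Subgroup.subgroupOf_eq_top.1 e))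
    obtain h4 | ⟨h4, x, x1, x2, x3⟩ := H84.MCS.split h hn
      (fun e => h2 (h1 N hN (Subgroup.subgroupOf_eq_top.1 e))) h3
    swap
    · have := H84.MCS.fact_two h x2 x1 (N := N) (P : Subgroup G).subtype_injective h4
        (mt Subgroup.mem_subgroupOf.2 x3) (by rw [Subgroup.range_subtype]; exact H98.isSyl_sylow P) hn
      exact absurd ⟨x, x.2, this⟩ hx
    obtain ⟨T, K, hK, hc⟩ := Cfsg.Agent.S0081.result P N fun g hg => ⟨⟨g, hg.2⟩,
      H3.commutator_le_frattini_pgroup P.isPGroup' (h.comm_top_top.ge (h.anti (by omega) (h4 hg.1))), rfl⟩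
    have h5 : K = ⊥ := (Subgroup.map_eq_bot_iff_of_injective _ N.subtype_injective).1 (le_bot_iff.1
      ((Subgroup.map_mono (H2.le_pPrimeCore_of_not_dvd (hc.index_eq_card ▸ T.not_dvd_index))).trans
        ((H2.map_pPrimeCore_subtype_le N).trans hcore.le)))
    have h6 := hc.sup_eq_top
    rw [h5, bot_sup_eq] at h6
    have h7 : N ≤ P := (H98.isPGroup_top_iff.1 (h6 ▸ T.isPGroup')).le_sylow_of_normal P
    refine ⟨?_, ?_⟩
    · have := h1 (Subgroup.centralizer N) inferInstance fun g hg a ha => congrArg Subtype.val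
        (Subgroup.mem_center_iff.1 ((h.center_eq hn).ge (h4 (x := ⟨a, h7 ha⟩) ha)) ⟨g, hg⟩).symm
      exact fun a ha => Subgroup.mem_center_iff.2 fun g => (this.ge trivial a ha).symm
    · rw [← Nat.card_congr (Subgroup.subgroupOfEquivOfLe h7).toEquiv]
      refine (Subgroup.card_le_of_le h4).trans_eq ?_
      rw [h.card, show n - (n - 1) = 1 by omega, pow_one]
  have h2 : Subgroup.center G ≠ ⊤ := fun e => hna ⟨⟨fun a b =>
    Subtype.ext (Subgroup.mem_center_iff.1 (e.ge trivial) _)⟩⟩
  refine ⟨H14.isQuasisimple_iff.2 ⟨⟨(key _ inferInstance).resolve_right fun e => ?_⟩,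
    (Subgroup.nontrivial_iff.1 ⟨_, _, h2⟩), fun N hN => (key N hN).imp_right And.left⟩,
    ((key _ inferInstance).resolve_left h2).2⟩
  obtain ⟨x, -, hx⟩ := SetLike.not_le_iff_exists.1 (mt top_le_iff.1 h2)
  rcases key (Subgroup.center G ⊔ Subgroup.zpowers x) (.of_commutator_le _ (e.1.trans le_sup_left))
    with f | f
  · exact hx (Subgroup.mem_center_iff.2 fun g => Subgroup.mem_centralizer_singleton_iff.1
      (sup_le (Subgroup.center_le_centralizer _) (Subgroup.zpowers_le.2
        (Subgroup.mem_centralizer_singleton_iff.2 rfl)) (f.ge (Subgroup.mem_top g))))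
  · exact hx (f.1 (Subgroup.mem_sup_right (Subgroup.mem_zpowers x)))

end Cfsg.Agent.S3865
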