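import Cfsg.Statements.S3866
import Cfsg.Agent.H18.Misc
import Cfsg.Agent.H98.Basic

set_option autoImplicit false
open Cfsg

namespace Cfsg.Agent.S3866

/-- Let A be a commutative normal subgroup of the finite group G with G generated by A and an element x. Then a ↦ x a x⁻¹ a⁻¹ is a surjective homomorphism from A onto the commutator subgroup of G whose kernel is the centralizer of x in A; in particular the commutator subgroup has order equal to the index in A of that centralizer. -/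
theorem result {G : Type*} [Group G] [Finite G] (A : Subgroup G) [A.Normal] (hA : IsMulCommutative A) (x : G) (hgen : A ⊔ Subgroup.zpowers x = ⊤) : (∀ a ∈ A, x * a * x⁻¹ * a⁻¹ ∈ commutator G) ∧ (∀ c ∈ commutator G, ∃ a ∈ A, x * a * x⁻¹ * a⁻¹ = c) ∧ (∀ a ∈ A, ∀ b ∈ A, x * (a * b) * x⁻¹ * (a * b)⁻¹ = (x * a * x⁻¹ * a⁻¹) * (x * b * x⁻¹ * b⁻¹)) ∧ Nat.card (commutator G) * Nat.card ↥(A ⊓ Subgroup.centralizer ({x} : Set G)) = Nat.card A := by
  have hc : ∀ a ∈ A, ∀ b ∈ A, a * b = b * a := fun a ha b hb => setLike_mul_comm ha hb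
  have hn : ∀ g : G, ∀ a ∈ A, g * a * g⁻¹ ∈ A := fun g a ha => Subgroup.Normal.conj_mem ‹_› a ha g
  have h3 : ∀ a ∈ A, ∀ b ∈ A, x * (a * b) * x⁻¹ * (a * b)⁻¹ =
      (x * a * x⁻¹ * a⁻¹) * (x * b * x⁻¹ * b⁻¹) := by
    intro a ha b hb
    have := hc _ (inv_mem ha) _ (mul_mem (hn x b hb) (inv_mem hb))
    calc _ = x * a * x⁻¹ * (x * b * x⁻¹ * b⁻¹ * a⁻¹) := by group
      _ = _ := by rw [← this]; group
  let f : A →* G := MonoidHom.mk' (fun a => x * a * x⁻¹ * (a : G)⁻¹) fun a b => h3 a a.2 b b.2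
  have hfA : f.range ≤ A := by
    rintro _ ⟨a, rfl⟩; exact mul_mem (hn x a a.2) (inv_mem a.2)
  have hle : f.range ≤ commutator G := by
    rintro _ ⟨a, rfl⟩
    exact Subgroup.commutator_mem_commutator (Subgroup.mem_top x) (Subgroup.mem_top (a : G))
  haveI : f.range.Normal := by
    refine H18.normal_of_sup hgen (H98.le_normalizer_of_le_centralizer
      fun a ha b hb => hc b (hfA hb) a ha) (Subgroup.zpowers_le.2 (H98.mem_normalizer_of_cj_le ?_))
    rintro _ ⟨_, ⟨a, rfl⟩, rfl⟩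
    refine ⟨⟨_, hn x a a.2⟩, ?_⟩
    change x * (x * a * x⁻¹) * x⁻¹ * (x * a * x⁻¹)⁻¹ = x * (x * a * x⁻¹ * (a : G)⁻¹) * x⁻¹
    group
  have hr : f.range = commutator G := by
    refine le_antisymm hle ?_
    have h1 : ⁅A, A⁆ ≤ f.range := by
      rw [Subgroup.commutator_eq_bot_iff_le_centralizer.2 (Subgroup.le_centralizer A)]; exact bot_le
    have h2 : ⁅A, Subgroup.zpowers x⁆ ≤ f.range := by
      rw [Subgroup.zpowers_eq_closure]
      refine H98.commutator_closure_right_le (fun _ _ => Subgroup.le_normalizer_of_normal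
        (Subgroup.mem_top _)) ?_
      rintro a ha _ rfl
      rw [← commutatorElement_inv]
      exact inv_mem ⟨⟨a, ha⟩, rfl⟩
    have h4 : ⁅Subgroup.zpowers x, Subgroup.zpowers x⁆ ≤ f.range := by
      rw [Subgroup.commutator_eq_bot_iff_le_centralizer.2 (Subgroup.le_centralizer _)]; exact bot_le
    rw [commutator_def, ← hgen]
    refine H98.commutator_sup_left_le Subgroup.le_normalizer_of_normal
      Subgroup.le_normalizer_of_normal (H98.commutator_sup_right_le Subgroup.le_normalizer_of_normal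
        Subgroup.le_normalizer_of_normal h1 h2) (H98.commutator_sup_right_le
        Subgroup.le_normalizer_of_normal Subgroup.le_normalizer_of_normal ?_ h4)
    rwa [Subgroup.commutator_comm]
  refine ⟨fun a ha => hle ⟨⟨a, ha⟩, rfl⟩, fun c hc => ?_, h3, ?_⟩
  · obtain ⟨a, rfl⟩ := hr.ge hc
    exact ⟨a, a.2, rfl⟩
  · have hk : f.ker = (Subgroup.centralizer {x}).subgroupOf A := by
      ext a
      rw [MonoidHom.mem_ker, Subgroup.mem_subgroupOf, Subgroup.mem_centralizer_singleton_iff]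
      change x * a * x⁻¹ * (a : G)⁻¹ = 1 ↔ _
      rw [mul_inv_eq_one, mul_inv_eq_iff_eq_mul, eq_comm]
    rw [← hr, ← Subgroup.index_ker, hk, ← Subgroup.card_mul_index ((Subgroup.centralizer {x}).subgroupOf A),
      mul_comm, ← Subgroup.inf_subgroupOf_left,
      Nat.card_congr (Subgroup.subgroupOfEquivOfLe inf_le_left).toEquiv]

end Cfsg.Agent.S3866
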