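import Cfsg.Statements.S3867
import Cfsg.Agent.Base
import Cfsg.Agent.H25.SylowNum

set_option autoImplicit false
open Cfsg

namespace Cfsg.Agent.S3867

open Subgroup

/-- Let M and N be nontrivial normal subgroups of the finite group G with M ⊓ N trivial, and let p be a prime. Writing n(X) for the number of Sylow p-subgroups of a group X, one has n(G) · n(G/MN) = n(G/M) · n(G/N). -/
theorem result {G : Type*} [Group G] [Finite G] (p : ℕ) [Fact p.Prime] (M N : Subgroup G) [M.Normal] [N.Normal] (hM : M ≠ ⊥) (hN : N ≠ ⊥) (hMN : M ⊓ N = ⊥) : Nat.card (Sylow p G) * Nat.card (Sylow p (G ⧸ (M ⊔ N))) = Nat.card (Sylow p (G ⧸ M)) * Nat.card (Sylow p (G ⧸ N)) := by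
  obtain ⟨P⟩ : Nonempty (Sylow p G) := inferInstance
  rw [H25.card_sylow_quotient P, H25.card_sylow_quotient P, H25.card_sylow_quotient P,
    P.card_eq_index_normalizer]
  have hA : normalizer (P : Set G) = normalizer ((P : Subgroup G) : Set G) := rfl
  rw [hA]
  have hR : ((P : Subgroup G) ⊔ M) ⊓ ((P : Subgroup G) ⊔ N) = P := by
    apply P.is_maximal' _ (le_inf le_sup_left le_sup_left)
    have key : ∀ (K : Subgroup G) [K.Normal], ∀ x ∈ (P : Subgroup G) ⊔ K, ∃ k : ℕ, x ^ p ^ k ∈ K := by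
      intro K _ x hx
      have h1 : IsPGroup p ((P : Subgroup G).map (QuotientGroup.mk' K)) := P.isPGroup'.map _
      have h2 : QuotientGroup.mk' K x ∈ (P : Subgroup G).map (QuotientGroup.mk' K) := by
        rw [← mem_comap, comap_map_eq, QuotientGroup.ker_mk']
        exact hx
      obtain ⟨k, hk⟩ := h1 ⟨_, h2⟩
      refine ⟨k, ?_⟩
      rw [← QuotientGroup.eq_one_iff]
      exact congrArg Subtype.val hk
    rintro ⟨x, hx1, hx2⟩
    obtain ⟨a, ha⟩ := key M x hx1
    obtain ⟨b, hb⟩ := key N x hx2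
    refine ⟨a + b, Subtype.ext ?_⟩
    have : x ^ p ^ (a + b) ∈ M ⊓ N := by
      constructor
      · rw [pow_add, pow_mul]; exact M.pow_mem ha _
      · rw [pow_add, mul_comm, pow_mul]; exact N.pow_mem hb _
    rw [hMN, mem_bot] at this
    exact this
  set A := normalizer ((P : Subgroup G) : Set G) with hAdef
  have h1 : (A ⊔ M) ⊓ (A ⊔ N) = A := by
    apply le_antisymm _ (le_inf le_sup_left le_sup_left)
    rw [hAdef, ← H25.normalizer_sylow_sup, ← H25.normalizer_sylow_sup]
    nth_rewrite 3 [← hR]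
    exact inf_normalizer_le_normalizer_inf
  have h2 : A.relIndex (A ⊔ N) = (A ⊔ M).relIndex (A ⊔ (M ⊔ N)) := by
    rw [← sup_assoc, H25.relIndex_sup_normal_of_le N (le_refl (A ⊔ M)),
      ← H25.relIndex_sup_normal_of_le (H := A ⊔ M) (L := A) N le_sup_left,
      ← inf_relIndex_right (A ⊔ M), h1]
  rw [← relIndex_mul_index (le_sup_left : A ≤ A ⊔ N), h2,
    ← relIndex_mul_index (sup_le_sup_left le_sup_left A : A ⊔ M ≤ A ⊔ (M ⊔ N))]
  ring

end Cfsg.Agent.S3867
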