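import Cfsg.Statements.S3878
import Cfsg.Agent.H30.HallSnE

set_option autoImplicit false
open Cfsg

namespace Cfsg.Agent.S3878

theorem key (π : Set ℕ) (h : ∀ (G : Type) [Group G] [Finite G], Cfsg.IsEPiGroup π G) :
    (∀ p q : ℕ, p.Prime → q.Prime → p ∈ π → q ∈ π → p = q) ∨ ∀ p : ℕ, p.Prime → p ∈ π := by
  by_contra hc
  push Not at hc
  obtain ⟨⟨p, q, hp, hq, h1, h2, h3⟩, r, hr, h4⟩ := hc
  obtain ⟨H, hH⟩ := h (Equiv.Perm (Fin (2 * (p + q + r + 5))))
  obtain ⟨B, -, h5⟩ := H30.HS.hall_perm (by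
    rw [Fintype.card_fin]
    exact ⟨⟨p, q, hp, hq, h3, h1, h2, by omega, by omega⟩, r, hr, by omega, h4⟩) hH
  rw [Fintype.card_fin] at h5
  rcases h5 with h5 | h5
  · have := h5.1.eq_two_or_odd
    omega
  · omega

theorem cd (π : Set ℕ)
    (h : (∀ p q : ℕ, p.Prime → q.Prime → p ∈ π → q ∈ π → p = q) ∨ ∀ p : ℕ, p.Prime → p ∈ π)
    (G : Type) [Group G] [Finite G] : Cfsg.IsCPiGroup π G ∧ Cfsg.IsDPiGroup π G := by
  rcases h with h | h
  · exact H30.HS.cd_of_single fun r s hr hs h1 h2 _ _ => h r s hr hs h1 h2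
  · exact H30.HS.cd_of_all fun r hr _ => h r hr


/-- For a set of primes π the following are equivalent: every finite group has a Hall π-subgroup; in every finite group the maximal π-subgroups are pairwise conjugate; π contains at most one prime or contains every prime. -/
theorem result (π : Set ℕ) :
    ((∀ (G : Type) [Group G] [Finite G], Cfsg.IsEPiGroup π G) ↔
      ((∀ p q : ℕ, p.Prime → q.Prime → p ∈ π → q ∈ π → p = q) ∨ ∀ p : ℕ, p.Prime → p ∈ π)) ∧
    ((∀ (G : Type) [Group G] [Finite G], Cfsg.IsDPiGroup π G) ↔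
      ((∀ p q : ℕ, p.Prime → q.Prime → p ∈ π → q ∈ π → p = q) ∨ ∀ p : ℕ, p.Prime → p ∈ π)) := by
  refine ⟨⟨key π, fun h G _ _ => (cd π h G).1.1⟩, fun h => key π fun G _ _ => ?_,
    fun h G _ _ => (cd π h G).2⟩
  obtain ⟨H, hH, -⟩ := H30.HS.le_hall_of_d (h G) H4.isPiSubgroup_bot
  exact ⟨H, hH⟩

end Cfsg.Agent.S3878
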