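import Cfsg.Statements.S3881
import Cfsg.Agent.H19.Metacyclic2

set_option autoImplicit false
open Cfsg

namespace Cfsg.Agent.S3881

/-- Let p be an odd prime and G a finite metacyclic p-group (G has a cyclic normal subgroup with cyclic quotient). Suppose G is non-abelian with |G'| = p^n. Then for 1 ≤ i ≤ n the number of elements of G whose conjugacy class has exactly p^i elements is |Z(G)| · (p^(2i) − p^(2i−2)). -/
theorem result {G : Type*} [Group G] [Finite G] {p : ℕ} [Fact p.Prime] (hp : p ≠ 2) (hG : IsPGroup p G) (hmc : Cfsg.IsMetacyclic G) (n : ℕ) (hn : n ≠ 0) (hGn : Nat.card ↥(commutator G) = p ^ n) (i : ℕ) (hi : 1 ≤ i) (hin : i ≤ n) :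
    Nat.card {g : G // (Subgroup.centralizer ({g} : Set G)).index = p ^ i} =
      Nat.card ↥(Subgroup.center G) * (p ^ (2 * i) - p ^ (2 * i - 2)) := by
  obtain ⟨a, b, h⟩ := H19.exists_MC hmc
  have hp' : p.Prime := Fact.out
  have hR := h.regAt hp hG
  have := h.isCyclic_commutator
  have hcard : ∀ t, t ≤ n → Nat.card (hR.omegaZ hG t) = Nat.card (Subgroup.center G) * p ^ (2 * t) := by
    intro t ht
    have h1 := h.index_omegaZ hp hG hGn (Nat.sub_le n t)
    rw [Nat.sub_sub_self ht] at h1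
    have h2 := h.index_center hp hG
    apply Nat.eq_of_mul_eq_mul_right (pow_pos hp'.pos (2 * (n - t)))
    rw [mul_assoc, ← pow_add, ← mul_add, Nat.add_sub_cancel' ht, ← h1, Subgroup.card_mul_index,
      ← (Subgroup.center G).card_mul_index, h2, hGn, ← pow_mul, mul_comm n]
  have hset : {g : G | (Subgroup.centralizer ({g} : Set G)).index = p ^ i} =
      (hR.omegaZ hG i : Set G) \ (hR.omegaZ hG (i - 1) : Set G) := by
    ext g
    simp only [Set.mem_ofPred_eq, Set.mem_sdiff, SetLike.mem_coe, hR.mem_omegaZ hG,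
      ← hR.index_centralizer_le_iff hG]
    obtain ⟨k, hk⟩ := hG.index (Subgroup.centralizer ({g} : Set G))
    rw [hk, Nat.pow_le_pow_iff_right hp'.one_lt, Nat.pow_le_pow_iff_right hp'.one_lt,
      Nat.pow_right_inj hp'.one_lt]
    omega
  have hsub : (hR.omegaZ hG (i - 1) : Set G) ⊆ (hR.omegaZ hG i : Set G) := by
    intro g hg
    rw [SetLike.mem_coe, hR.mem_omegaZ hG] at hg ⊢
    rw [show i = i - 1 + 1 by omega, pow_succ, pow_mul]
    exact Subgroup.pow_mem _ hg _
  have h3 := Set.ncard_sdiff hsub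
  rw [← hset] at h3
  change Nat.card {g : G | (Subgroup.centralizer ({g} : Set G)).index = p ^ i} = _
  rw [Nat.card_coe_set_eq, h3, ← Nat.card_coe_set_eq, ← Nat.card_coe_set_eq]
  change Nat.card (hR.omegaZ hG i) - Nat.card (hR.omegaZ hG (i - 1)) = _
  rw [hcard i hin, hcard (i - 1) (by omega), Nat.mul_sub (Nat.card _), Nat.mul_sub 2]

end Cfsg.Agent.S3881
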