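import Cfsg.Statements.S3883
import Cfsg.Agent.H19.Metacyclic2
import Cfsg.Agent.H3.FrattiniP

set_option autoImplicit false
open Cfsg

namespace Cfsg.Agent.S3883

/-- Let p be an odd prime and G a finite metacyclic p-group (G has a cyclic normal subgroup with cyclic quotient). Suppose G is non-abelian. Then an element g of G lies outside the Frattini subgroup if and only if its centralizer C_G(g) is abelian. -/
theorem result {G : Type*} [Group G] [Finite G] {p : ℕ} [Fact p.Prime] (hp : p ≠ 2) (hG : IsPGroup p G) (hmc : Cfsg.IsMetacyclic G) (hna : ¬ IsMulCommutative G) (g : G) :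
    g ∉ frattini G ↔ IsMulCommutative ↥(Subgroup.centralizer ({g} : Set G)) := by
  obtain ⟨a, b, h⟩ := H19.exists_MC hmc
  have hp' : p.Prime := Fact.out
  have hR := h.regAt hp hG
  have := h.isCyclic_commutator
  obtain ⟨n, hn⟩ := IsPGroup.iff_card.1 (hG.to_subgroup (commutator G))
  have hn1 : 1 ≤ n := by
    by_contra h0
    have h0 : n = 0 := by omega
    rw [h0, pow_zero, Subgroup.card_eq_one, commutator_eq_bot_iff] at hn
    exact hna hn
  have hF : frattini G = hR.omegaZ hG (n - 1) := by
    rw [← h.powerClosure_eq_omegaZ hp hG hn hn1]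
    apply le_antisymm
    · rw [H3.frattini_le_iff_pgroup hG]
      refine ⟨?_, fun x => by simpa using H19.pow_mem_powerClosure (p := p) (n := 1) (Subgroup.mem_top x)⟩
      have hnil := hG.isNilpotent
      have hlt : commutator G < Subgroup.zpowers a := by
        refine lt_of_le_of_ne h.commutator_le fun e => hna ?_
        rw [← commutator_eq_bot_iff]
        apply H19.eq_bot_of_le_commutator (K := ⊤)
        conv_lhs => rw [h.commutator_eq]
        rw [Subgroup.zpowers_le]
        exact Subgroup.commutator_mem_commutator (e ▸ Subgroup.mem_zpowers a) (Subgroup.mem_top b)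
      exact (H19.le_powerClosure_of_lt_cyclic hG hlt).trans (H19.powerClosure_mono 1 le_top)
    · rw [H19.powerClosure_le_iff]
      intro x _
      simpa using H3.pow_mem_frattini_pgroup hG x
  rw [hF, hR.mem_omegaZ hG, ← hR.index_centralizer_le_iff hG, h.isMulCommutative_iff_le hp hG, hn]
  obtain ⟨k, hk⟩ := hG.index (Subgroup.centralizer ({g} : Set G))
  rw [hk, Nat.pow_le_pow_iff_right hp'.one_lt, Nat.pow_le_pow_iff_right hp'.one_lt]
  omega

end Cfsg.Agent.S3883
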