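import Cfsg.Statements.S3886
import Cfsg.Agent.H19.Metacyclic2

set_option autoImplicit false
open Cfsg

namespace Cfsg.Agent.S3886

/-- Let p be an odd prime and G a finite metacyclic p-group (G has a cyclic normal subgroup with cyclic quotient). Then the largest value of |R| · |Z(R)| over subgroups R of G is |G : G'|², and the subgroups attaining it (the centrally large subgroups) are exactly the non-abelian subgroups together with the maximal abelian subgroups of G. -/
theorem result {G : Type*} [Group G] [Finite G] {p : ℕ} [Fact p.Prime] (hp : p ≠ 2) (hG : IsPGroup p G) (hmc : Cfsg.IsMetacyclic G) : Cfsg.maxCentralProduct G = (commutator G).index ^ 2 ∧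
    ∀ R : Subgroup G, Cfsg.IsCentrallyLarge R ↔ (¬ IsMulCommutative ↥R ∨ Maximal (fun K : Subgroup G => IsMulCommutative ↥K) R) := by
  obtain ⟨a, b, h⟩ := H19.exists_MC hmc
  have hp' : p.Prime := Fact.out
  have hna : ∀ R : Subgroup G, ¬ IsMulCommutative R →
      Nat.card R * Nat.card (Subgroup.center R) = (commutator G).index ^ 2 := by
    intro R hR
    obtain ⟨x, y, hxy⟩ := H19.exists_MC (H19.isMetacyclic_subgroup hmc R)
    have h1 := hxy.index_center hp (hG.to_subgroup R)
    have h2 : R.index ∣ Nat.card (commutator G) := by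
      obtain ⟨n, hn⟩ := IsPGroup.iff_card.1 (hG.to_subgroup (commutator G))
      obtain ⟨m, hm⟩ := hG.index R
      rw [h.isMulCommutative_iff_le hp hG, hn, hm, Nat.pow_le_pow_iff_right hp'.one_lt] at hR
      rw [hn, hm]
      exact pow_dvd_pow p (by omega)
    have h3 := h.card_commutator_mul_index hp hG R h2
    have h4 := (Subgroup.center R).card_mul_index
    have h5 := R.card_mul_index
    have h6 := (commutator G).card_mul_index
    have h7 : 0 < Nat.card (commutator G) := Nat.card_pos
    apply Nat.eq_of_mul_eq_mul_right (pow_pos h7 2)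
    rw [← mul_pow, mul_comm (commutator G).index, h6, ← h5, ← h3, mul_pow, mul_pow, ← h1]
    conv_rhs => rw [sq (Nat.card R)]
    nth_rewrite 3 [← h4]
    ring
  have hab : ∀ R : Subgroup G, IsMulCommutative R →
      Nat.card R * Nat.card (Subgroup.center R) = Nat.card R ^ 2 := by
    intro R hR
    rw [Subgroup.center_eq_top_iff.2 hR, Subgroup.card_top, sq]
  have hmax : maxCentralProduct G = (commutator G).index ^ 2 := by
    apply IsGreatest.csSup_eq
    constructor
    · by_cases hT : IsMulCommutative (⊤ : Subgroup G)
      · refine ⟨⊤, ?_⟩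
        rw [hab _ hT, (h.maximal_commutative_iff hp hG ⊤).1 ⟨hT, fun _ _ _ => le_top⟩]
      · exact ⟨⊤, hna _ hT⟩
    · rintro _ ⟨R, rfl⟩
      by_cases hR : IsMulCommutative R
      · rw [hab R hR]
        exact Nat.pow_le_pow_left ((h.isMulCommutative_iff_card_le hp hG R).1 hR) 2
      · exact (hna R hR).le
  refine ⟨hmax, fun R => ?_⟩
  rw [IsCentrallyLarge, hmax]
  by_cases hR : IsMulCommutative R
  · rw [hab R hR, h.maximal_commutative_iff hp hG, Nat.pow_left_inj (by norm_num)]
    simp [hR]
  · simp [hR, hna R hR]

end Cfsg.Agent.S3886
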