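import Cfsg.Statements.S3887
import Cfsg.Agent.H19.Metacyclic2

set_option autoImplicit false
open Cfsg

namespace Cfsg.Agent.S3887

/-- Let p be an odd prime and G a finite metacyclic p-group (G has a cyclic normal subgroup with cyclic quotient). Then a subgroup R of G maximizes |R| · |C_G(R)| over all subgroups of G if and only if R contains the center of G. -/
theorem result {G : Type*} [Group G] [Finite G] {p : ℕ} [Fact p.Prime] (hp : p ≠ 2) (hG : IsPGroup p G) (hmc : Cfsg.IsMetacyclic G) (R : Subgroup G) : Cfsg.IsCentralizerLarge R ↔ Subgroup.center G ≤ R := by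
  obtain ⟨a, b, h⟩ := H19.exists_MC hmc
  have hC : ∀ R : Subgroup G, Subgroup.centralizer (R : Set G) ≤
      Subgroup.centralizer ((R ⊔ Subgroup.center G : Subgroup G) : Set G) := by
    intro R
    rw [Subgroup.le_centralizer_iff, sup_le_iff]
    exact ⟨Subgroup.le_centralizer_iff.1 le_rfl, Subgroup.center_le_centralizer _⟩
  have hmax : maxCentralizerProduct G = Nat.card G * Nat.card (Subgroup.center G) := by
    apply IsGreatest.csSup_eq
    constructor
    · exact ⟨⊤, h.card_mul_card_centralizer hp hG le_top⟩
    · rintro _ ⟨R, rfl⟩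
      rw [← h.card_mul_card_centralizer hp hG (R := R ⊔ Subgroup.center G) le_sup_right]
      exact Nat.mul_le_mul (Subgroup.card_le_of_le le_sup_left) (Subgroup.card_le_of_le (hC R))
  rw [IsCentralizerLarge, hmax]
  refine ⟨fun hR => ?_, fun hR => h.card_mul_card_centralizer hp hG hR⟩
  rw [← h.card_mul_card_centralizer hp hG (R := R ⊔ Subgroup.center G) le_sup_right] at hR
  have h1 : Nat.card (R ⊔ Subgroup.center G : Subgroup G) ≤ Nat.card R := by
    apply Nat.le_of_mul_le_mul_right _ (Nat.card_pos (α := Subgroup.centralizer (R : Set G)))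
    rw [hR]
    exact Nat.mul_le_mul_left _ (Subgroup.card_le_of_le (hC R))
  exact le_sup_right.trans (Subgroup.eq_of_le_of_card_ge le_sup_left h1).ge

end Cfsg.Agent.S3887
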