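import Cfsg.Statements.S3888
import Cfsg.Agent.Base
import Cfsg.Agent.H27.Bb4
-- import your own Cfsg.Agent.* helpers here

set_option autoImplicit false
open Cfsg

namespace Cfsg.Agent.S3888

/-- The classification of the p-groups of rank at most two for odd p. Let p be an odd prime and G a group of order p^n with no elementary abelian subgroup of order p³. Then one of the following holds: G is metacyclic; n ≥ 3 and G is generated by elements x, y, z with x^p = y^p = z^(p^(n−2)) = 1, z commuting with x and y, and x⁻¹yx = y z^(p^(n−3)); n ≥ 4 and G is generated by elements x, y, z with x^p = y^p = z^(p^(n−2)) = 1, yz = zy, x⁻¹yx = y z^(s p^(n−3)) and x⁻¹zx = yz, where s = 1 or s is a quadratic non-residue modulo p; or p = 3 and G has maximal class (nilpotency class n − 1). -/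
theorem result {G : Type*} [Group G] [Finite G] {p : ℕ} [Fact p.Prime] (hp : p ≠ 2) (n : ℕ) (hG : Nat.card G = p ^ n)
    (hrk : Cfsg.PRankLE p 2 G) :
    Cfsg.IsMetacyclic G ∨
    (3 ≤ n ∧ ∃ x y z : G, Subgroup.closure ({x, y, z} : Set G) = ⊤ ∧ x ^ p = 1 ∧ y ^ p = 1 ∧ z ^ p ^ (n - 2) = 1 ∧
        x * z = z * x ∧ y * z = z * y ∧ x⁻¹ * y * x = y * z ^ p ^ (n - 3)) ∨
    (4 ≤ n ∧ ∃ (s : ℕ) (x y z : G), (s = 1 ∨ ¬ IsSquare (s : ZMod p)) ∧ Subgroup.closure ({x, y, z} : Set G) = ⊤ ∧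
        x ^ p = 1 ∧ y ^ p = 1 ∧ z ^ p ^ (n - 2) = 1 ∧ y * z = z * y ∧ x⁻¹ * y * x = y * z ^ (s * p ^ (n - 3)) ∧
        x⁻¹ * z * x = y * z) ∨
    (p = 3 ∧ 2 ≤ n ∧ (⊤ : Subgroup G).lowerCentralSeries (n - 2) ≠ ⊥) := by
  have hP : IsPGroup p G := IsPGroup.of_card hG
  by_cases hm : Cfsg.IsMetacyclic G
  · exact Or.inl hm
  right
  obtain ⟨V, S⟩ := H27.Bb.exists_St hp hP hrk hm
  rcases S.main hm with hE | ⟨h3, h⟩
  · exact (S.typeE_cases hE hG).imp_right Or.inl
  · obtain ⟨u, hu⟩ := S.exists_not_CC hm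
    have h2 : 2 ≤ n := by
      have := Subgroup.card_le_card_group V
      rw [S.hc, hG] at this
      exact (Nat.pow_le_pow_iff_right (Fact.out : p.Prime).one_lt).mp this
    obtain ⟨m, rfl⟩ : ∃ m, n = m + 2 := ⟨n - 2, by omega⟩
    have hc := H9.nilpotencyClass_eq_of_card_centralizer m G hG u (h u hu)
    have := hP.isNilpotent
    refine Or.inr (Or.inr ⟨h3, h2, fun h0 => ?_⟩)
    rw [Subgroup.lowerCentralSeries_eq_bot_iff_nilpotencyClass_le, hc] at h0
    omega

end Cfsg.Agent.S3888
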