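import Cfsg.Statements.S3897
import Cfsg.Agent.H7.Frobenius

set_option autoImplicit false
open Cfsg

namespace Cfsg.Agent.S3897

/-- Let p be an odd prime and G a finite group with Sylow p-subgroup P, and write k_p(G) for the number of conjugacy classes of G consisting of p-elements (elements of p-power order, the identity included). Then k_p(G) > (p + 1)|P|/(2p) if and only if G has a normal p-complement and P is abelian. -/
theorem result {G : Type*} [Group G] [Finite G] {p : ℕ} [Fact p.Prime] (hp : p ≠ 2) (P : Sylow p G) :
    (p + 1) * Nat.card ↥(P : Subgroup G) < 2 * p * Nat.card {c : ConjClasses G // ∀ x ∈ c.carrier, ∃ k : ℕ, orderOf x = p ^ k} ↔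
      Cfsg.HasNormalPComplement p G ∧ IsMulCommutative ↥(P : Subgroup G) := by
  classical
  have hpp : p.Prime := Fact.out
  have hp2 : 2 < p := lt_of_le_of_ne hpp.two_le hp.symm
  let f : P → {c : ConjClasses G // ∀ x ∈ c.carrier, ∃ k : ℕ, orderOf x = p ^ k} := fun x =>
    ⟨ConjClasses.mk (x : G), fun y hy => by
      obtain ⟨k, hk⟩ := IsPGroup.iff_orderOf.mp P.isPGroup' x
      obtain ⟨c, rfl⟩ := isConj_iff.mp (ConjClasses.mk_eq_mk_iff_isConj.mp
        (ConjClasses.mem_carrier_iff_mk_eq.mp hy).symm)
      exact ⟨k, by rw [← hk, ← Subgroup.orderOf_coe]; exact (MulAut.conj c).orderOf_eq x⟩⟩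
  have hf : Function.Surjective f := by
    rintro ⟨c, hc⟩
    obtain ⟨x, rfl⟩ := ConjClasses.mk_surjective c
    obtain ⟨k, hk⟩ := hc x ConjClasses.mem_carrier_mk
    obtain ⟨g, -, hg⟩ := (H7.isSylowIn_top P).exists_conj_le (Q := Subgroup.zpowers x)
      (IsPGroup.of_card ((Nat.card_zpowers x).trans hk)) le_top
    exact ⟨⟨_, hg (H7.conj_mem_conj_smul (Subgroup.mem_zpowers x))⟩, Subtype.ext
      (ConjClasses.mk_eq_mk_iff_isConj.mpr (isConj_iff.mpr ⟨g, rfl⟩).symm)⟩
  have hpos : 0 < Nat.card P := Nat.card_pos
  constructor
  · intro h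
    have hN : Subgroup.normalizer ((P : Subgroup G) : Set G) ≤
        Subgroup.centralizer ((P : Subgroup G) : Set G) := by
      intro g hg
      by_contra hn
      set C := (Subgroup.centralizer ({g} : Set G)).subgroupOf P with hC
      have h1 : p * Nat.card C ≤ Nat.card P := by
        rw [← C.index_mul_card]
        refine Nat.mul_le_mul_right _ ?_
        obtain ⟨n, hn'⟩ := P.isPGroup'.index C
        rw [hn']
        refine Nat.le_self_pow ?_ p
        rintro rfl
        rw [pow_zero, Subgroup.index_eq_one] at hn'
        refine hn fun x hx => ?_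
        have : (⟨x, hx⟩ : P) ∈ C := hn' ▸ Subgroup.mem_top _
        exact Subgroup.mem_centralizer_singleton_iff.mp this
      have h2 : 2 * Nat.card {c : ConjClasses G // ∀ x ∈ c.carrier, ∃ k : ℕ, orderOf x = p ^ k} ≤
          Nat.card P + Nat.card C := by
        obtain ⟨s, hs⟩ := hf.hasRightInverse
        let t : P → P := fun x => ⟨g * x * g⁻¹, H7.conj_mem_of_mem_normalizer hg x.2⟩
        have ht : ∀ x, f (t x) = f x := fun x => Subtype.ext
          (ConjClasses.mk_eq_mk_iff_isConj.mpr (isConj_iff.mpr ⟨g, rfl⟩).symm)
        have hne : ∀ x, x ∉ C → t x ≠ x := fun x hx e => hx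
          (Subgroup.mem_centralizer_singleton_iff.mpr
            (mul_inv_eq_iff_eq_mul.mp (congrArg Subtype.val e)).symm)
        let F : {c : ConjClasses G // ∀ x ∈ c.carrier, ∃ k : ℕ, orderOf x = p ^ k} ⊕
            {c : ConjClasses G // ∀ x ∈ c.carrier, ∃ k : ℕ, orderOf x = p ^ k} → P ⊕ C :=
          Sum.elim (fun c => Sum.inl (s c))
            (fun c => if h : s c ∈ C then Sum.inr ⟨s c, h⟩ else Sum.inl (t (s c)))
        have hF : Function.Injective F := by
          have hs' : Function.Injective s := hs.injective
          rintro (a | a) (b | b) e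
          · exact congrArg _ (hs' (Sum.inl.inj e))
          · simp only [F, Sum.elim_inl, Sum.elim_inr] at e
            split_ifs at e with hb
            have e' := Sum.inl.inj e
            have : a = b := by rw [← hs a, e', ht, hs]
            subst this
            exact (hne _ hb e'.symm).elim
          · simp only [F, Sum.elim_inl, Sum.elim_inr] at e
            split_ifs at e with ha
            have e' := Sum.inl.inj e
            have : a = b := by rw [← hs b, ← e', ht, hs]
            subst this
            exact (hne _ ha e').elim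
          · simp only [F, Sum.elim_inr] at e
            split_ifs at e with ha hb hb
            · exact congrArg _ (hs' (congrArg Subtype.val (Sum.inr.inj e)))
            · have e' := Sum.inl.inj e
              exact congrArg _ (by rw [← hs a, ← ht, e', ht, hs])
        have := Nat.card_le_card_of_injective F hF
        rwa [Nat.card_sum, Nat.card_sum, ← two_mul] at this
      nlinarith
    exact ⟨⟨P, _, inferInstance, MonoidHom.ker_transferSylow_isComplement' P hN⟩,
      ⟨⟨fun a b => Subtype.ext (hN (Subgroup.le_normalizer b.2) a a.2)⟩⟩⟩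
  · rintro ⟨h1, h2⟩
    have hinj : Function.Injective f := by
      intro a b e
      obtain ⟨g, hg⟩ := isConj_iff.mp (ConjClasses.mk_eq_mk_iff_isConj.mp (congrArg Subtype.val e))
      obtain ⟨u, hu, h3⟩ := H7.controls_fusion_of_hasNPC h1 P g
      have h4 := h3 a a.2 (hg ▸ b.2)
      have h5 : u * a = a * u := congrArg Subtype.val (h2.is_comm.comm (⟨u, hu⟩ : P) a)
      apply Subtype.ext
      rw [← hg, ← h4, h5, mul_inv_cancel_right]
    rw [← Nat.card_congr (Equiv.ofBijective f ⟨hinj, hf⟩)]
    exact Nat.mul_lt_mul_of_lt_of_le (by omega) le_rfl hpos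

end Cfsg.Agent.S3897
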