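import Cfsg.Statements.S3899
import Cfsg.Agent.H18.Elt
import Cfsg.Agent.H7.NPC
import Cfsg.Agent.H24.Comm
import Cfsg.Agent.S3897

set_option autoImplicit false
open Cfsg

namespace Cfsg.Agent.S3899

universe u

/-- Number of classes of `π`-elements. -/
noncomputable def kk (π : Set ℕ) (G : Type*) [Group G] : ℕ :=
  Nat.card {c : ConjClasses G // ∀ x ∈ c.carrier, H24.IsPiElt π x}

theorem mem_carrier_out {G : Type*} [Group G] (c : ConjClasses G) : Quotient.out c ∈ c.carrier :=
  ConjClasses.mem_carrier_iff_mk_eq.2 (Quotient.out_eq c)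

theorem forall_mk {G : Type*} [Group G] {π : Set ℕ} {g : G} (h : H24.IsPiElt π g) :
    ∀ x ∈ (ConjClasses.mk g).carrier, H24.IsPiElt π x := fun _ hx =>
  h.of_isConj (ConjClasses.mk_eq_mk_iff_isConj.1 (ConjClasses.mem_carrier_iff_mk_eq.1 hx)).symm

theorem kk_le_mul {G : Type u} [Group G] [Finite G] (σ τ : Set ℕ) (m : ℕ)
    (h : ∀ H : Subgroup G, kk τ H ≤ m) : kk (σ ∪ τ) G ≤ kk σ G * m := by
  classical
  let F : (Σ c : {c : ConjClasses G // ∀ x ∈ c.carrier, H24.IsPiElt σ x},
      {d : ConjClasses (Subgroup.centralizer ({Quotient.out c.1} : Set G)) //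
        ∀ x ∈ d.carrier, H24.IsPiElt τ x}) →
      {c : ConjClasses G // ∀ x ∈ c.carrier, H24.IsPiElt (σ ∪ τ) x} := fun s =>
    ⟨ConjClasses.mk (Quotient.out s.1.1 * (Quotient.out s.2.1 :
      Subgroup.centralizer ({Quotient.out s.1.1} : Set G))), forall_mk
      (((s.1.2 _ (mem_carrier_out _)).mono Set.subset_union_left).mul
        ((H24.isPiElt_coe.2 (s.2.2 _ (mem_carrier_out _))).mono Set.subset_union_right)
        (Subgroup.mem_centralizer_singleton_iff.1 (Subtype.prop _)).symm)⟩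
  have hF : Function.Surjective F := by
    rintro ⟨c, hc⟩
    obtain ⟨g, rfl⟩ := ConjClasses.mk_surjective c
    have hg := hc g ConjClasses.mem_carrier_mk
    obtain ⟨e, f, h1, h2, h3⟩ := H24.exists_pi_decomp σ g
    obtain ⟨u, hu⟩ := isConj_iff.1 (ConjClasses.mk_eq_mk_iff_isConj.1
      (Quotient.out_eq (ConjClasses.mk (g ^ e)))).symm
    have h4 : u * g ^ f * u⁻¹ ∈
        Subgroup.centralizer ({Quotient.out (ConjClasses.mk (g ^ e))} : Set G) := by
      rw [Subgroup.mem_centralizer_singleton_iff, ← hu]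
      calc _ = u * (g ^ f * g ^ e) * u⁻¹ := by group
        _ = _ := by group
    have h5 : H24.IsPiElt τ (g ^ f) := fun q hq hd => ((hg.pow f) q hq hd).resolve_left (h3 q hq hd)
    obtain ⟨v, hv⟩ := isConj_iff.1 (ConjClasses.mk_eq_mk_iff_isConj.1
      (Quotient.out_eq (ConjClasses.mk (⟨_, h4⟩ : Subgroup.centralizer _)))).symm
    refine ⟨⟨⟨_, forall_mk h2⟩, ⟨ConjClasses.mk ⟨_, h4⟩,
      forall_mk (H24.isPiElt_coe.1 (h5.conj u))⟩⟩, Subtype.ext ?_⟩
    refine ConjClasses.mk_eq_mk_iff_isConj.2 (IsConj.symm (isConj_iff.2 ⟨v * u, ?_⟩))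
    have h6 := Subgroup.mem_centralizer_singleton_iff.1 v.2
    dsimp only
    rw [← hv]
    push_cast
    rw [← mul_assoc, ← mul_assoc, ← h6]
    generalize (v : G) = w
    rw [← hu]
    conv_lhs => rw [← h1]
    group
  refine (Nat.card_le_card_of_surjective F hF).trans ?_
  letI := Fintype.ofFinite {c : ConjClasses G // ∀ x ∈ c.carrier, H24.IsPiElt σ x}
  rw [Nat.card_sigma, kk, Nat.card_eq_fintype_card, ← Finset.card_univ, ← smul_eq_mul]
  exact Finset.sum_le_card_nsmul _ _ _ fun c _ => h _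

theorem kk_empty {G : Type*} [Group G] [Finite G] : kk ∅ G ≤ 1 := by
  refine Finite.card_le_one_iff_subsingleton.2 ⟨fun a b => Subtype.ext ?_⟩
  have h : ∀ a : {c : ConjClasses G // ∀ x ∈ c.carrier, H24.IsPiElt ∅ x},
      a.1 = ConjClasses.mk 1 := fun a => by
    rw [← ConjClasses.mem_carrier_iff_mk_eq.1 (mem_carrier_out a.1),
      (a.2 _ (mem_carrier_out _)).eq_one fun q _ _ => Set.notMem_empty q]
  rw [h, h]

theorem kk_singleton {G : Type*} [Group G] [Finite G] {r : ℕ} (hr : r.Prime) :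
    kk {r} G ≤ r ^ (Nat.card G).factorization r := by
  haveI := Fact.mk hr
  obtain ⟨P⟩ : Nonempty (Sylow r G) := inferInstance
  rw [← P.card_eq_multiplicity]
  refine Nat.card_le_card_of_surjective (fun x : P => ⟨ConjClasses.mk (x : G), forall_mk
    ((H24.isPiElt_singleton_iff hr).2 ((H18.exists_orderOf_eq_pow_iff hr).2 ?_))⟩) ?_
  · obtain ⟨k, hk⟩ := P.isPGroup' x
    exact ⟨k, congrArg Subtype.val hk⟩
  · rintro ⟨c, hc⟩
    obtain ⟨g, rfl⟩ := ConjClasses.mk_surjective c
    obtain ⟨k, hk⟩ := (H18.exists_orderOf_eq_pow_iff hr).1 ((H24.isPiElt_singleton_iff hr).1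
      (hc g ConjClasses.mem_carrier_mk))
    obtain ⟨u, -, hu⟩ := (H98.isSyl_sylow P).exists_cj_le (H98.isPGroup_zpowers hk) le_top
    exact ⟨⟨_, hu (H98.conj_mem_cj (Subgroup.mem_zpowers g))⟩, Subtype.ext
      (ConjClasses.mk_eq_mk_iff_isConj.2 (isConj_iff.2 ⟨u, rfl⟩).symm)⟩

theorem prod_mono {G : Type*} [Group G] [Finite G] (σ : Finset ℕ) (hσ : ∀ r ∈ σ, r.Prime)
    (H : Subgroup G) : σ.prod (fun r => r ^ (Nat.card H).factorization r) ≤
      σ.prod (fun r => r ^ (Nat.card G).factorization r) :=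
  Finset.prod_le_prod' fun r hr => Nat.pow_le_pow_right (hσ r hr).pos
    ((Nat.factorization_le_iff_dvd Nat.card_pos.ne' Nat.card_pos.ne').2
      H.card_subgroup_dvd_card r)

theorem kk_le (σ : Finset ℕ) (hσ : ∀ r ∈ σ, r.Prime) : ∀ (G : Type u) [Group G] [Finite G],
    kk σ G ≤ σ.prod (fun r => r ^ (Nat.card G).factorization r) := by
  induction σ using Finset.induction_on with
  | empty => intro G _ _; simpa using kk_empty
  | insert a s ha ih =>
    intro G _ _
    have hs : ∀ r ∈ s, r.Prime := fun r hr => hσ r (Finset.mem_insert_of_mem hr)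
    rw [Finset.prod_insert ha, Finset.coe_insert, Set.insert_eq]
    exact (kk_le_mul _ _ _ fun H => (ih hs H).trans (prod_mono s hs H)).trans
      (Nat.mul_le_mul_right _ (kk_singleton (hσ a (Finset.mem_insert_self _ _))))

/-- Let π be a finite non-empty set of odd primes with smallest member p and G a finite group. Write k_π(G) for the number of conjugacy classes of G consisting of π-elements (elements all of whose order's prime divisors lie in π) and |G|_π for the π-part of the order of G. If k_π(G) > (p + 1)|G|_π/(2p), then G has a normal π-complement (a normal subgroup of order prime to π whose index is a π-number) and an abelian Hall π-subgroup. -/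
theorem result {G : Type*} [Group G] [Finite G] (π : Finset ℕ) (hπ : ∀ r ∈ π, r.Prime) (h2 : 2 ∉ π) (p : ℕ) (hp : p ∈ π)
    (hmin : ∀ r ∈ π, p ≤ r) (hk : (p + 1) * π.prod (fun r => r ^ (Nat.card G).factorization r) < 2 * p * Nat.card {c : ConjClasses G // ∀ x ∈ c.carrier, ∀ r : ℕ, r.Prime → r ∣ orderOf x → r ∈ π}) :
    (∃ N : Subgroup G, N.Normal ∧ (∀ r : ℕ, r.Prime → r ∣ Nat.card ↥N → r ∉ π) ∧ ∀ r : ℕ, r.Prime → r ∣ N.index → r ∈ π) ∧ ∃ H : Subgroup G, Cfsg.IsPiHall (↑π : Set ℕ) H ∧ IsMulCommutative ↥H := by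
  classical
  have key : ∀ r ∈ π, ¬ r ∣ Nat.card (pResidual r G) ∧ commutator G ≤ pResidual r G := by
    intro r hr
    haveI := Fact.mk (hπ r hr)
    obtain ⟨P⟩ : Nonempty (Sylow r G) := inferInstance
    have hs : ∀ q ∈ π.erase r, q.Prime := fun q hq => hπ q (Finset.mem_of_mem_erase hq)
    have h1 : kk π G ≤ kk {r} G * (π.erase r).prod (fun r => r ^ (Nat.card G).factorization r) := by
      have := kk_le_mul (G := G) {r} (π.erase r) _
        fun H => (kk_le _ hs H).trans (prod_mono _ hs H)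
      rwa [← Set.insert_eq, ← Finset.coe_insert, Finset.insert_erase hr] at this
    change _ < 2 * p * kk π G at hk
    rw [← Finset.mul_prod_erase _ _ hr, ← mul_assoc] at hk
    have h3 := Nat.lt_of_mul_lt_mul_right (hk.trans_le
      ((Nat.mul_le_mul_left _ h1).trans_eq (mul_assoc _ _ _).symm))
    have h4 : kk {r} G = Nat.card {c : ConjClasses G //
        ∀ x ∈ c.carrier, ∃ k : ℕ, orderOf x = r ^ k} := by
      simp only [kk, H24.isPiElt_singleton_iff (hπ r hr)]
    obtain ⟨h5, h6⟩ := (S3897.result (fun e => h2 (e ▸ hr)) P).1 (by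
      rw [← h4, P.card_eq_multiplicity]
      have := hmin r hr
      refine Nat.lt_of_mul_lt_mul_left (a := p) ?_
      calc _ = p * (r + 1) * r ^ (Nat.card G).factorization r := by ring
        _ ≤ r * (p + 1) * r ^ (Nat.card G).factorization r :=
          Nat.mul_le_mul_right _ (by nlinarith)
        _ = r * ((p + 1) * r ^ (Nat.card G).factorization r) := by ring
        _ < r * (2 * p * kk {r} G) := Nat.mul_lt_mul_of_pos_left h3 (hπ r hr).pos
        _ = _ := by ring)
    refine ⟨H7.hasNPC_iff_not_dvd.1 h5, ?_⟩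
    rw [commutator_def, ← H7.pResidual_sup_sylow P]
    refine H24.commutator_sup_left_le (Subgroup.commutator_le_left _ _)
      (H24.commutator_sup_right_le (Subgroup.commutator_le_right _ _) ?_)
    rw [Subgroup.commutator_eq_bot_iff_le_centralizer.2 (Subgroup.le_centralizer _)]
    exact bot_le
  let N : Subgroup G := ⨅ r : π, pResidual r G
  haveI hN : N.Normal := Subgroup.normal_iInf_normal fun r => inferInstance
  have h1 : ∀ r : ℕ, r.Prime → r ∣ Nat.card N → r ∉ π := fun r _ hd hr =>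
    (key r hr).1 (hd.trans (Subgroup.card_dvd_of_le (iInf_le _ (⟨r, hr⟩ : π))))
  have h3 : ∀ r : ℕ, r.Prime → r ∣ N.index → r ∈ π := fun r hr hd => by
    haveI := Fact.mk hr
    obtain ⟨y, hy⟩ := exists_prime_orderOf_dvd_card' (G := G ⧸ N) r hd
    obtain ⟨x, rfl, k, hx⟩ := H18.exists_lift_primePow _ (QuotientGroup.mk'_surjective N) hr
      ⟨1, hy.trans (pow_one r).symm⟩
    by_contra hrπ
    have : x ∈ N := Subgroup.mem_iInf.2 fun q => H7.mem_pResidual_of_coprime (by
      rw [hx]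
      exact Nat.Coprime.pow_left _ ((Nat.coprime_primes hr (hπ q q.2)).2 fun e => hrπ (e ▸ q.2)))
    rw [QuotientGroup.mk'_apply, (QuotientGroup.eq_one_iff _).2 this, orderOf_one] at hy
    exact hr.one_lt.ne hy
  refine ⟨⟨N, hN, h1, h3⟩, ?_⟩
  obtain ⟨H, hH⟩ := Subgroup.exists_right_complement'_of_coprime (N := N)
    (H24.coprime_of_pi h3 h1).symm
  refine ⟨H, ⟨fun r hr hd => h3 r hr (hH.symm.index_eq_card ▸ hd),
    fun r hr hrπ hd => h1 r hr (hH.index_eq_card ▸ hd) hrπ⟩, ?_⟩
  rw [← Subgroup.le_centralizer_iff_isMulCommutative,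
    ← Subgroup.commutator_eq_bot_iff_le_centralizer, eq_bot_iff, ← hH.disjoint.eq_bot]
  exact le_inf ((Subgroup.commutator_mono le_top le_top).trans (le_iInf fun r => (key r r.2).2))
    (H98.commutator_le_of_le le_rfl le_rfl)

end Cfsg.Agent.S3899
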