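import Cfsg.Statements.S3901
import Cfsg.Agent.H18.Elt
import Cfsg.Agent.H18.FpfHom
import Cfsg.Agent.H83.InvPair
import Cfsg.Agent.H26.Supplement
import Cfsg.Agent.H3.Frattini
import Cfsg.Agent.H2.MinNormal
import Cfsg.Agent.H5.FrobStruct
import Cfsg.Agent.S0144

set_option autoImplicit false
open Cfsg

namespace Cfsg.Agent.S3901

universe u
open Subgroup

theorem eq_one_of_isPrimePow {G : Type*} [Group G] {x y : G} (hc : Commute x y)
    (hcop : (orderOf x).Coprime (orderOf y)) (h : IsPrimePow (orderOf (x * y))) :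
    x = 1 ∨ y = 1 := by
  rw [hc.orderOf_mul_eq_mul_orderOf_of_coprime hcop] at h
  have h0 := h.pos.ne'
  rcases (hcop.isPrimePow_dvd_mul h).1 dvd_rfl with h1 | h1
  · right
    rw [← orderOf_eq_one_iff, ← Nat.dvd_one, ← Nat.mul_dvd_mul_iff_left
      (Nat.pos_of_ne_zero (left_ne_zero_of_mul h0)), mul_one]
    exact h1
  · left
    rw [← orderOf_eq_one_iff, ← Nat.dvd_one, ← Nat.mul_dvd_mul_iff_right
      (Nat.pos_of_ne_zero (right_ne_zero_of_mul h0)), one_mul]
    exact h1

theorem eppo_map {G H : Type*} [Group G] [Group H] (f : G →* H) {x : G}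
    (h : IsPrimePow (orderOf x)) (h1 : f x ≠ 1) : IsPrimePow (orderOf (f x)) := by
  obtain ⟨r, k, hr, -, hk⟩ := (isPrimePow_nat_iff _).1 h
  obtain ⟨j, -, hj⟩ := (Nat.dvd_prime_pow hr).1 (hk ▸ orderOf_map_dvd f x)
  refine (isPrimePow_nat_iff _).2 ⟨r, j, hr, Nat.pos_of_ne_zero ?_, hj.symm⟩
  rintro rfl
  exact h1 (orderOf_eq_one_iff.1 hj)

/-- `Q` acts on a non-trivial group with all `q'`-elements acting without fixed points. -/
def Act (q : ℕ) (Q : Type u) [Group Q] : Prop :=
  ∃ (W : Type u) (_ : Group W) (_ : Finite W) (_ : Nontrivial W) (φ : Q →* MulAut W),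
    ∀ a, a ≠ 1 → ¬ q ∣ orderOf a → ∀ w, φ a w = w → w = 1

theorem solv_of_act {Q : Type u} [Group Q] [Finite Q] (hQ : ∀ x : Q, x ≠ 1 → IsPrimePow (orderOf x))
    {q r : ℕ} (hq : q.Prime) (hr : r.Prime) (hq2 : q ≠ 2) (hqr : q ≠ r) (h1 : Act q Q)
    (h2 : Act r Q) : Group.IsSolvable Q := by
  by_cases he : 2 ∣ Nat.card Q
  · obtain ⟨W, _, _, _, φ, hφ⟩ := h1
    haveI := Fact.mk hq
    obtain ⟨t, ht⟩ := exists_prime_orderOf_dvd_card' 2 he
    have hinv : ∀ s : Q, orderOf s = 2 → ∀ w, φ s w = w⁻¹ := fun s hs =>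
      H18.apply_eq_inv_of_fpf (by rw [← map_mul, H83.mul_self_of_orderOf_two hs, map_one])
        (hφ s (H83.ne_one_of_orderOf_two hs) (by
          rw [hs, Nat.prime_dvd_prime_iff_eq hq Nat.prime_two]; exact hq2))
    have hker : ∀ a, φ a = 1 → ¬ q ∣ orderOf a → a = 1 := fun a ha hd => by
      by_contra h0
      obtain ⟨w, hw⟩ := exists_ne (1 : W)
      exact hw (hφ a h0 hd w (by rw [ha]; rfl))
    have hK : IsPGroup q φ.ker := IsPGroup.iff_orderOf.2 fun x => by
      by_cases hx : (x : Q) = 1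
      · exact ⟨0, by rw [← orderOf_coe, hx, orderOf_one, pow_zero]⟩
      obtain ⟨s, k, hs, -, hk⟩ := (isPrimePow_nat_iff _).1 (hQ x hx)
      by_cases hsq : s = q
      · exact ⟨k, by rw [← orderOf_coe, ← hk, hsq]⟩
      · exact absurd (hker x x.2 (by
          rw [← hk]
          exact fun hd => hsq ((Nat.prime_dvd_prime_iff_eq hq hs).1 (hq.dvd_of_dvd_pow hd)).symm)) hx
    have ht1 : φ t ≠ 1 := fun h => H83.ne_one_of_orderOf_two ht (hker t h (by
      rw [ht, Nat.prime_dvd_prime_iff_eq hq Nat.prime_two]; exact hq2))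
    have ht2 : orderOf (φ t) = 2 := orderOf_eq_prime (by rw [← map_pow, ← ht, pow_orderOf_eq_one,
      map_one]) ht1
    have hR : IsPGroup 2 φ.range := IsPGroup.iff_orderOf.2 fun ⟨_, x, rfl⟩ => by
      suffices ∃ k, orderOf (φ x) = 2 ^ k from this.imp fun k hk => (orderOf_coe _).symm.trans hk
      by_cases hx : φ x = 1
      · exact ⟨0, by rw [hx, orderOf_one, pow_zero]⟩
      obtain ⟨s, k, hs, -, hk⟩ := (isPrimePow_nat_iff _).1
        (eppo_map φ (hQ x fun e => hx (by rw [e, map_one])) hx)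
      by_cases hs2 : s = 2
      · exact ⟨k, by rw [← hk, hs2]⟩
      have hc : Commute (φ x) (φ t) := by
        ext w
        rw [MulAut.mul_apply, MulAut.mul_apply, hinv t ht, hinv t ht, map_inv]
      have hcop : (orderOf (φ x)).Coprime (orderOf (φ t)) := by
        rw [← hk, ht2]; exact ((Nat.coprime_primes hs Nat.prime_two).2 hs2).pow_left _
      have hne : φ (x * t) ≠ 1 := fun e => by
        rw [map_mul, mul_eq_one_iff_eq_inv] at e
        rw [e, orderOf_inv, ht2] at hcop
        exact absurd hcop (by decide)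
      have := eppo_map φ (hQ (x * t) fun e => hne (by rw [e, map_one])) hne
      rw [map_mul] at this
      exact ((eq_one_of_isPrimePow hc hcop this).elim hx ht1).elim
    haveI := H1.isSolvable_of_isPGroup hK
    haveI := H1.isSolvable_of_isPGroup hR
    exact Group.isSolvable_of_ker_le_range φ.ker.subtype φ.rangeRestrict (by simp)
  · haveI : IsZGroup Q := ⟨fun s hs P => by
      haveI := Fact.mk hs
      by_cases hs2 : s = 2
      · subst hs2
        haveI : Subsingleton P := by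
          obtain ⟨k, hk⟩ := P.isPGroup'.exists_card_eq
          rw [← Finite.card_le_one_iff_subsingleton]
          rcases k with _ | k
          · exact hk.le
          · exact absurd ((Dvd.intro_left _ (hk.trans (pow_succ 2 k)).symm).trans
              (card_subgroup_dvd_card _)) he
        infer_instance
      have key : ∀ q : ℕ, q.Prime → q ≠ s → Act q Q → IsCyclic P := by
        rintro q hq hqs ⟨W, _, _, _, φ, hφ⟩
        refine H18.isCyclic_of_fpf_hom (φ.comp (P : Subgroup Q).subtype)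
          (fun a ha => hφ a (fun e => ha (Subtype.ext e)) ?_) hs2 P.isPGroup'
        obtain ⟨k, hk⟩ := IsPGroup.iff_orderOf.1 P.isPGroup' a
        rw [orderOf_coe, hk]
        exact fun hd => hqs ((Nat.prime_dvd_prime_iff_eq hq hs).1 (hq.dvd_of_dvd_pow hd))
      by_cases hqs : q = s
      · exact key r hr (hqs ▸ hqr.symm) h2
      · exact key q hq hqs h1⟩
    infer_instance

variable {G : Type u} [Group G] [Finite G] {N : Subgroup G} [N.Normal]

omit [Finite G] [N.Normal] in
theorem fpf (h : ∀ x : G, x ∉ N → IsPrimePow (orderOf x)) {x w : G} (hx : x ∉ N) (hw : w ∈ N)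
    (hc : x * w = w * x) (hcop : (orderOf x).Coprime (orderOf w)) : w = 1 :=
  (eq_one_of_isPrimePow hc hcop (h _ fun e => hx ((N.mul_mem_cancel_right hw).1 e))).resolve_left
    fun e => hx (e ▸ one_mem _)

theorem act_of (h : ∀ x : G, x ∉ N → IsPrimePow (orderOf x)) {q : ℕ} (hq : q.Prime)
    {H W : Subgroup G} (h1 : H ⊔ N = ⊤) (h2 : H ≤ normalizer (W : Set G))
    (h3 : H ⊓ N ≤ centralizer (W : Set G)) (hW : W ≠ ⊥) (hWN : W ≤ N) (hWq : IsPGroup q W) :
    Act q (G ⧸ N) := by
  haveI := Fact.mk hq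
  obtain ⟨φ, hφ⟩ := H18.exists_quotient_action h1 h2 h3
  refine ⟨W, inferInstance, inferInstance, (nontrivial_iff_ne_bot W).2 hW, φ, fun a ha hd w hw => ?_⟩
  obtain ⟨x, rfl, hx⟩ := H18.exists_lift_not_dvd ((QuotientGroup.mk' N).comp H.subtype) (by
    rw [← MonoidHom.range_eq_top, MonoidHom.range_comp, range_subtype, eq_top_iff,
      ← map_top_of_surjective _ (QuotientGroup.mk'_surjective N), ← h1, Subgroup.map_sup,
      (map_eq_bot_iff N).2 (QuotientGroup.ker_mk' N).ge, sup_bot_eq]) hq hd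
  have h4 := hφ x x.2 w
  change φ (x : G) w = w at hw
  rw [hw, eq_mul_inv_iff_mul_eq] at h4
  obtain ⟨k, hk⟩ := IsPGroup.iff_orderOf.1 hWq w
  refine Subtype.ext (fpf h (fun e => ha ((QuotientGroup.eq_one_iff _).2 e)) (hWN w.2) h4.symm ?_)
  change (orderOf (x : G)).Coprime (orderOf (w : G))
  rw [orderOf_coe, orderOf_coe, hk]
  exact ((Nat.Prime.coprime_iff_not_dvd hq).2 hx).symm.pow_right _

theorem tri (h : ∀ x : G, x ∉ N → IsPrimePow (orderOf x)) {p : ℕ} (hp : p.Prime)
    (hd : p ∣ Nat.card N) : Group.IsSolvable (G ⧸ N) ∨ Act p (G ⧸ N) ∨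
      ∃ q r : ℕ, q.Prime ∧ r.Prime ∧ q ≠ r ∧ Act q (G ⧸ N) ∧ Act r (G ⧸ N) := by
  haveI := Fact.mk hp
  obtain ⟨P, hP⟩ := H98.exists_isSyl p N
  have hP0 : P ≠ ⊥ := fun e => hP.eq_bot_iff.1 e hd
  obtain ⟨H, hHP, hH, -, hmin⟩ := H26.exists_supplement_primes N (normalizer (P : Set G)) (by
    simpa using hP.frattini le_top le_normalizer_of_normal)
  haveI hnil : Group.IsNilpotent (H ⊓ N : Subgroup G) := by
    have h1 := H3.le_frattini_of_nongenerating (H26.no_supplement_of_minimal hH hmin)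
    haveI : Group.IsNilpotent (frattini H) := frattini_nilpotent
    haveI : Group.IsNilpotent (N.subgroupOf H) := Group.nilpotent_of_mulEquiv
      (subgroupOfEquivOfLe h1)
    exact Group.nilpotent_of_mulEquiv ((MulEquiv.subgroupCongr (inf_subgroupOf_left N H).symm).trans
      (subgroupOfEquivOfLe inf_le_left))
  have hHK : H ≤ normalizer ((H ⊓ N : Subgroup G) : Set G) :=
    H98.le_normalizer_inf le_normalizer le_normalizer_of_normal
  have hq : ∀ q : ℕ, q.Prime → q ∣ Nat.card (H ⊓ N : Subgroup G) → Act q (G ⧸ N) := by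
    intro q hq hqd
    haveI := Fact.mk hq
    obtain ⟨Q⟩ : Nonempty (Sylow q (H ⊓ N : Subgroup G)) := inferInstance
    haveI : (Q : Subgroup (H ⊓ N : Subgroup G)).Normal := Sylow.normal_of_normalizerCondition Group.normalizerCondition_of_isNilpotent Q
    haveI := Q.characteristic_of_normal inferInstance
    have hQ := H98.isSyl_map_subtype Q
    have hHQ := hHK.trans (H98.normalizer_le_normalizer_map_subtype (Q : Subgroup (H ⊓ N : Subgroup G)))
    refine act_of h hq hH (H98.le_normalizer_inf (H98.le_normalizer_inf hHQ hHK)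
      (H98.le_normalizer_centralizer hHK)) (le_centralizer_iff.1 inf_le_right)
      (H2.inf_inf_centralizer_ne_bot (inf_le_left.trans hHQ) ?_) (inf_le_left.trans
        (inf_le_right.trans inf_le_right)) (hQ.isPGroup.to_le (inf_le_left.trans inf_le_left))
    rw [inf_eq_left.2 hQ.le]
    exact fun e => hQ.eq_bot_iff.1 e hqd
  by_cases hV : P ⊓ centralizer ((H ⊓ N : Subgroup G) : Set G) = ⊥
  swap
  · exact Or.inr (Or.inl (act_of h hp hH (H98.le_normalizer_inf hHP
      (H98.le_normalizer_centralizer hHK)) (le_centralizer_iff.1 inf_le_right) hV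
      (inf_le_left.trans hP.le) (hP.isPGroup.to_le inf_le_left)))
  by_cases hpK : p ∣ Nat.card (H ⊓ N : Subgroup G)
  · exact Or.inr (Or.inl (hq p hp hpK))
  have hK0 : H ⊓ N ≠ ⊥ := fun e => hP0 (by rwa [e, H98.centralizer_bot', inf_top_eq] at hV)
  obtain ⟨q, hq1, hq2⟩ := Nat.exists_prime_and_dvd (mt card_eq_one.1 hK0)
  by_cases hr : ∃ r : ℕ, r.Prime ∧ q ≠ r ∧ r ∣ Nat.card (H ⊓ N : Subgroup G)
  · obtain ⟨r, hr1, hr2, hr3⟩ := hr
    exact Or.inr (Or.inr ⟨q, r, hq1, hr1, hr2, hq q hq1 hq2, hq r hr1 hr3⟩)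
  push Not at hr
  left
  have key : ∀ r : ℕ, r.Prime → r ∣ Nat.card (G ⧸ N) → r = p ∨ r = q := by
    intro r hr1 hr2
    by_contra hne
    push Not at hne
    haveI := Fact.mk hr1
    obtain ⟨y, hy⟩ := exists_prime_orderOf_dvd_card' r hr2
    obtain ⟨x, rfl, k, hx⟩ := H18.exists_lift_primePow ((QuotientGroup.mk' N).comp H.subtype) (by
      rw [← MonoidHom.range_eq_top, MonoidHom.range_comp, range_subtype, eq_top_iff,
        ← map_top_of_surjective _ (QuotientGroup.mk'_surjective N), ← hH, Subgroup.map_sup,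
        (map_eq_bot_iff N).2 (QuotientGroup.ker_mk' N).ge, sup_bot_eq]) hr1
      ⟨1, hy.trans (pow_one r).symm⟩
    have hxN : (x : G) ∉ N := fun e => by
      rw [show (QuotientGroup.mk' N).comp H.subtype x = 1 from (QuotientGroup.eq_one_iff _).2 e,
        orderOf_one] at hy
      exact hr1.one_lt.ne hy
    have hxH : zpowers (x : G) ≤ H := zpowers_le.2 x.2
    have hord : ∀ b ∈ zpowers (x : G), orderOf b ∣ r ^ k := fun b hb => by
      rw [← hx, ← orderOf_coe]; exact orderOf_dvd_of_mem_zpowers hb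
    have hcK : (r ^ k).Coprime (Nat.card (H ⊓ N : Subgroup G)) :=
      ((Nat.Prime.coprime_iff_not_dvd hr1).2 (hr r hr1 hne.2.symm)).pow_left _
    obtain ⟨m, hm⟩ := hP.isPGroup.exists_card_eq
    haveI := hP.isPGroup.isNilpotent
    refine H2.inf_inf_centralizer_ne_bot (N := P) (K := P) le_normalizer (by rwa [inf_idem])
      (@H5.eq_bot_of_frob_action G _ _ _ (H ⊓ N) (zpowers (x : G)) ?_ ?_ ?_ (hxH.trans hHK) ?_ ?_ ?_ ?_)
    · exact le_centralizer_iff_isMulCommutative.1 (inf_le_right.trans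
        (H98.centralizer_anti (inf_le_left.trans inf_le_left)))
    · exact inf_le_left.trans (H98.le_normalizer_inf (H98.le_normalizer_inf hHP hHP)
        (H98.le_normalizer_centralizer hHP))
    · exact hxH.trans (H98.le_normalizer_inf (H98.le_normalizer_inf hHP hHP)
        (H98.le_normalizer_centralizer hHP))
    · intro b hb hb1
      refine H5.inf_centralizer_eq_bot_iff.2 fun w hw hc => fpf h (fun e => hb1 ?_) hw.2 hc.symm
        (Nat.Coprime.coprime_dvd_left (hord b hb) (hcK.coprime_dvd_right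
          (orderOf_dvd_natCard _ hw)))
      exact orderOf_eq_one_iff.1 (Nat.eq_one_of_dvd_coprimes hcK (hord b hb)
        (orderOf_dvd_natCard _ (⟨hxH hb, e⟩ : b ∈ H ⊓ N)))
    · refine Nat.Coprime.coprime_dvd_left (card_dvd_of_le (inf_le_left.trans inf_le_left)) ?_
      rw [hm]
      exact ((Nat.Prime.coprime_iff_not_dvd hp).2 hpK).pow_left _
    · exact eq_bot_iff.2 ((inf_le_inf_right _ (inf_le_left.trans inf_le_left)).trans hV.le)
    · rw [eq_bot_iff]
      rintro w ⟨hw, hc⟩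
      refine fpf h hxN (hP.le hw.1.1) (hc _ (mem_zpowers _)) (Nat.Coprime.coprime_dvd_left
        (hord _ (mem_zpowers _)) (Nat.Coprime.coprime_dvd_right (orderOf_dvd_natCard _ hw.1.1) ?_))
      rw [hm]
      exact Nat.Coprime.pow _ _ ((Nat.coprime_primes hr1 hp).2 hne.1)
  have hqp : q ≠ p := fun e => hpK (e ▸ hq2)
  refine S0144.result p q ((Nat.card (G ⧸ N)).factorization p) ((Nat.card (G ⧸ N)).factorization q)
    hp hq1 ?_
  conv_lhs => rw [← Nat.prod_factorization_pow_eq_self (Nat.card_pos (α := G ⧸ N)).ne']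
  rw [Finsupp.prod_of_support_subset _ (s := {p, q}) _ _ (fun _ _ => pow_zero _),
    Finset.prod_pair hqp.symm]
  intro r hr'
  rw [Nat.support_factorization, Nat.mem_primeFactors] at hr'
  simpa using key r hr'.1 hr'.2.1

/-- Let N be a non-trivial normal subgroup of the finite group G such that every element of G outside N has prime power order. If N is not solvable, then G/N is solvable. -/
theorem result {G : Type*} [Group G] [Finite G] (N : Subgroup G) [N.Normal] (hN : N ≠ ⊥) (hns : ¬ Group.IsSolvable ↥N)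
    (h : ∀ x : G, x ∉ N → IsPrimePow (orderOf x)) : Group.IsSolvable (G ⧸ N) := by
  have h0 : ∀ p : ℕ, p.Prime → ∃ q : ℕ, q.Prime ∧ q ≠ p ∧ q ∣ Nat.card N := by
    intro p hp
    haveI := Fact.mk hp
    by_contra hc
    push Not at hc
    refine hns (H1.isSolvable_of_isPGroup (p := p) (IsPGroup.iff_card.2
      ⟨_, Nat.eq_prime_pow_of_unique_prime_dvd Nat.card_pos.ne' fun {d} hd hdd => ?_⟩))
    by_contra hne
    exact hc d hd hne hdd
  have hQ : ∀ x : G ⧸ N, x ≠ 1 → IsPrimePow (orderOf x) := by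
    intro x hx
    obtain ⟨x, rfl⟩ := QuotientGroup.mk'_surjective N x
    exact eppo_map _ (h x fun e => hx ((QuotientGroup.eq_one_iff _).2 e)) hx
  have h1 : (∃ q r : ℕ, q.Prime ∧ r.Prime ∧ q ≠ r ∧ Act q (G ⧸ N) ∧ Act r (G ⧸ N)) →
      Group.IsSolvable (G ⧸ N) := by
    rintro ⟨q, r, hq, hr, hqr, h1, h2⟩
    by_cases hq2 : q = 2
    · exact solv_of_act hQ hr hq (hq2 ▸ hqr.symm) hqr.symm h2 h1
    · exact solv_of_act hQ hq hr hq2 hqr h1 h2
  obtain ⟨p, hp, -, hpd⟩ := h0 2 Nat.prime_two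
  obtain ⟨q, hq, hqp, hqd⟩ := h0 p hp
  rcases tri h hp hpd with h2 | h2 | h2
  · exact h2
  · rcases tri h hq hqd with h3 | h3 | h3
    · exact h3
    · exact h1 ⟨q, p, hq, hp, hqp, h3, h2⟩
    · exact h1 h3
  · exact h1 h2

end Cfsg.Agent.S3901
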