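import Cfsg.Statements.S3903
import Cfsg.Agent.Base
import Cfsg.Agent.H23.AbelianMax
import Cfsg.Agent.H23.OrderType

set_option autoImplicit false
open Cfsg

namespace Cfsg.Agent.S3903

theorem isPGroup_centralizer {G : Type*} [Group G] [Finite G] (N : Subgroup G) [N.Normal]
    (h : ∀ x : G, x ∉ N → IsPrimePow (orderOf x)) {p : ℕ} (hp : p.Prime) {x : G} (hx : x ∉ N)
    (hpx : p ∣ orderOf x) : IsPGroup p (Subgroup.centralizer ({x} : Set G)) := by
  have : Fact p.Prime := ⟨hp⟩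
  obtain ⟨r, a, hr, ha, e⟩ := (isPrimePow_nat_iff _).mp (h x hx)
  have hrp : p = r := (Nat.prime_dvd_prime_iff_eq hp hr).mp (hp.dvd_of_dvd_pow (e ▸ hpx))
  subst hrp
  rw [IsPGroup.iff_card]
  refine ⟨_, Nat.eq_prime_pow_of_unique_prime_dvd Nat.card_pos.ne' fun {q} hq hqd => ?_⟩
  by_contra hne
  have : Fact q.Prime := ⟨hq⟩
  obtain ⟨y, hy⟩ := exists_prime_orderOf_dvd_card' q hqd
  have hyo : orderOf (y : G) = q := by rw [Subgroup.orderOf_coe, hy]
  have hc : Commute x y := (Subgroup.mem_centralizer_singleton_iff.mp y.2).symm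
  have hcop : (orderOf x).Coprime (orderOf (y : G)) := by
    rw [hyo, ← e]
    exact Nat.Coprime.pow_left _ ((Nat.coprime_primes hp hq).mpr (Ne.symm hne))
  have hxy : x * y ∈ N := by
    by_contra hxy
    obtain ⟨s, b, hs, -, e'⟩ := (isPrimePow_nat_iff _).mp (h _ hxy)
    rw [hc.orderOf_mul_eq_mul_orderOf_of_coprime hcop, hyo] at e'
    have h1 : p = s := (Nat.prime_dvd_prime_iff_eq hp hs).mp
      (hp.dvd_of_dvd_pow (e' ▸ Dvd.dvd.mul_right hpx q))
    have h2 : q = s := (Nat.prime_dvd_prime_iff_eq hq hs).mp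
      (hq.dvd_of_dvd_pow (e' ▸ Dvd.intro_left _ rfl))
    exact hne (h2.trans h1.symm)
  have h3 : x ^ q ∈ N := by
    have := N.pow_mem hxy q
    rwa [hc.mul_pow, ← hyo, pow_orderOf_eq_one, mul_one, hyo] at this
  obtain ⟨m, hm⟩ := exists_pow_eq_self_of_coprime (hyo ▸ hcop.symm : q.Coprime (orderOf x))
  exact hx (hm ▸ N.pow_mem h3 m)

/-- Let N be a proper normal subgroup of the finite group G such that every element x of G outside N has prime power order and has centralizer C_G(x) a maximal subgroup of G. Then N is solvable. -/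
theorem result {G : Type*} [Group G] [Finite G] (N : Subgroup G) [N.Normal] (hN : N ≠ ⊤)
    (h : ∀ x : G, x ∉ N → IsPrimePow (orderOf x) ∧ IsCoatom (Subgroup.centralizer ({x} : Set G))) : Group.IsSolvable ↥N := by
  obtain ⟨x, hx⟩ : ∃ x : G, x ∉ N := by
    by_contra hcon
    push Not at hcon
    exact hN (eq_top_iff.mpr fun y _ => hcon y)
  obtain ⟨p, a, hp, ha, e⟩ := (isPrimePow_nat_iff _).mp (h x hx).1
  have : Fact p.Prime := ⟨hp⟩
  by_cases hG : IsPGroup p G
  · have := (hG.to_subgroup N).isNilpotent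
    infer_instance
  have hsyl : ∀ y : G, y ∉ N → p ∣ orderOf y →
      ∃ S : Sylow p G, (S : Subgroup G) = Subgroup.centralizer ({y} : Set G) := by
    intro y hy hpy
    obtain ⟨S, hS⟩ := (isPGroup_centralizer N (fun z hz => (h z hz).1) hp hy hpy).exists_le_sylow
    refine ⟨S, ?_⟩
    by_contra hne
    have htop := (h y hy).2.2 _ (lt_of_le_of_ne hS (Ne.symm hne))
    exact hG ((htop ▸ S.isPGroup').of_equiv Subgroup.topEquiv)
  obtain ⟨P, hP⟩ := hsyl x hx (e ▸ dvd_pow_self p ha.ne')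
  have hPmax : IsCoatom (P : Subgroup G) := hP ▸ (h x hx).2
  by_cases hNP : N ≤ P
  · have := (P.isPGroup'.to_le hNP).isNilpotent
    infer_instance
  have htop : N ⊔ (P : Subgroup G) = ⊤ :=
    hPmax.2 _ (lt_of_le_of_ne le_sup_right fun h' => hNP (h' ▸ le_sup_left))
  -- every element of a coset `u N`, `u ∈ P \ N`, is `N`-conjugate into the centre of `P`
  have key : ∀ u ∈ (P : Subgroup G), u ∉ N → ∀ n ∈ N, ∃ m ∈ N, m⁻¹ * (u * n) * m ∈ (P : Subgroup G) ∧
      ∀ w ∈ (P : Subgroup G), w * (m⁻¹ * (u * n) * m) = (m⁻¹ * (u * n) * m) * w := by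
    intro u hu huN n hn
    have hun : u * n ∉ N := fun h' => huN (by simpa using N.mul_mem h' (N.inv_mem hn))
    have hpd : p ∣ orderOf (u * n) := by
      obtain ⟨k, hk⟩ := P.isPGroup' ⟨u, hu⟩
      have hk' : u ^ p ^ k = 1 := congrArg Subtype.val hk
      have h1 : orderOf (QuotientGroup.mk' N u) ∣ p ^ k := by
        rw [orderOf_dvd_iff_pow_eq_one, ← map_pow, hk', map_one]
      obtain ⟨j, -, hj⟩ := (Nat.dvd_prime_pow hp).mp h1
      have hj0 : j ≠ 0 := by
        rintro rfl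
        exact huN ((QuotientGroup.eq_one_iff u).mp (orderOf_eq_one_iff.mp hj))
      have h2 : QuotientGroup.mk' N (u * n) = QuotientGroup.mk' N u := by
        rw [map_mul, QuotientGroup.mk'_apply N n, (QuotientGroup.eq_one_iff n).mpr hn, mul_one]
      exact (dvd_pow_self p hj0).trans (hj ▸ h2 ▸ orderOf_map_dvd _ _)
    obtain ⟨S, hS⟩ := hsyl _ hun hpd
    obtain ⟨g, hg⟩ := MulAction.exists_smul_eq G P S
    obtain ⟨m, hm, w₀, hw₀, rfl⟩ := H3.mem_sup_normal_left.mp (htop ▸ Subgroup.mem_top g)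
    have hmem : ∀ w, w ∈ (S : Subgroup G) ↔ m⁻¹ * w * m ∈ (P : Subgroup G) := by
      intro w
      rw [← hg, mul_smul, Sylow.smul_eq_iff_mem_normalizer.mpr (Subgroup.le_normalizer hw₀),
        Sylow.coe_subgroup_smul, H5.mem_conj_smul_iff]
    refine ⟨m, hm, (hmem _).mp (hS ▸ Subgroup.mem_centralizer_singleton_iff.mpr rfl), ?_⟩
    intro w hw
    have h1 : m * w * m⁻¹ ∈ (S : Subgroup G) := by
      rw [hmem]; simpa [mul_assoc] using hw
    rw [hS, Subgroup.mem_centralizer_singleton_iff] at h1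
    calc w * (m⁻¹ * (u * n) * m) = m⁻¹ * (m * w * m⁻¹ * (u * n)) * m := by group
      _ = (m⁻¹ * (u * n) * m) * w := by rw [h1]; group
  have hxP : x ∈ (P : Subgroup G) := hP ▸ Subgroup.mem_centralizer_singleton_iff.mpr rfl
  have hxc : ∀ w ∈ (P : Subgroup G), w * x = x * w := fun w hw =>
    Subgroup.mem_centralizer_singleton_iff.mp (hP ▸ hw)
  let T : Subgroup N := (P : Subgroup G).subgroupOf N
  let Z : Subgroup N := T ⊓ (Subgroup.centralizer (P : Set G)).subgroupOf N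
  have hconj : ∀ m ∈ N, x⁻¹ * m * x ∈ N := fun m hm => by
    simpa using Subgroup.Normal.conj_mem inferInstance m hm x⁻¹
  let φ : (N ⧸ T) × Z → N := fun q =>
    ⟨x⁻¹ * q.1.out * x, hconj _ q.1.out.2⟩ * q.2 * q.1.out⁻¹
  have hφ : Function.Surjective φ := by
    rintro ⟨n, hn⟩
    obtain ⟨m, hm, h1, h2⟩ := key x hxP hx n hn
    have hzN : x⁻¹ * (m⁻¹ * (x * n) * m) ∈ N := by
      have := N.mul_mem (N.mul_mem (hconj _ (N.inv_mem hm)) hn) hm
      simpa [mul_assoc] using this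
    have hzZ : (⟨_, hzN⟩ : N) ∈ Z := by
      refine ⟨Subgroup.mul_mem _ (Subgroup.inv_mem _ hxP) h1, fun w hw => ?_⟩
      change w * (x⁻¹ * (m⁻¹ * (x * n) * m)) = (x⁻¹ * (m⁻¹ * (x * n) * m)) * w
      rw [← mul_assoc, (Commute.inv_right (hxc w hw)).eq, mul_assoc, h2 w hw, ← mul_assoc]
    obtain ⟨k, hk⟩ := QuotientGroup.mk_out_eq_mul T ⟨m, hm⟩
    refine ⟨(QuotientGroup.mk ⟨m, hm⟩, ⟨_, hzZ⟩), Subtype.ext ?_⟩
    simp only [φ, hk, Subgroup.coe_mul, Subgroup.coe_inv]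
    have h3 := h2 _ k.2
    rw [Subgroup.subtype_apply] at h3
    calc x⁻¹ * (m * (k : N)) * x * (x⁻¹ * (m⁻¹ * (x * n) * m)) * (m * (k : N))⁻¹
        = x⁻¹ * m * (((k : N) : G) * (m⁻¹ * (x * n) * m)) * ((k : N) : G)⁻¹ * m⁻¹ := by group
      _ = n := by rw [h3]; group
  have hcard := Nat.card_le_card_of_surjective φ hφ
  rw [Nat.card_prod, Subgroup.card_eq_card_quotient_mul_card_subgroup T] at hcard
  have hZT : Z = T := Subgroup.eq_of_le_of_card_ge inf_le_left
    (Nat.le_of_mul_le_mul_left hcard Nat.card_pos)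
  have hTc : ∀ t ∈ N, t ∈ (P : Subgroup G) → ∀ w ∈ (P : Subgroup G), w * t = t * w := by
    intro t ht htP w hw
    exact (hZT.ge (show (⟨t, ht⟩ : N) ∈ T from htP)).2 w hw
  have hcomm : IsMulCommutative (P : Subgroup G) := by
    refine ⟨⟨fun w u => Subtype.ext ?_⟩⟩
    change (w : G) * u = u * w
    by_cases huN : (u : G) ∈ N
    · exact hTc u huN u.2 w w.2
    obtain ⟨m, hm, h1, h2⟩ := key u u.2 huN 1 N.one_mem
    rw [mul_one] at h1 h2
    have h3 : (u : G)⁻¹ * (m⁻¹ * u * m) ∈ N := by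
      have := N.mul_mem (Subgroup.Normal.conj_mem inferInstance _ (N.inv_mem hm) (u : G)⁻¹) hm
      simpa [mul_assoc] using this
    have h4 := hTc _ h3 (Subgroup.mul_mem _ (Subgroup.inv_mem _ u.2) h1) w w.2
    have h5 := h2 w w.2
    have h6 : (u : G) = (m⁻¹ * u * m) * ((u : G)⁻¹ * (m⁻¹ * u * m))⁻¹ := by group
    rw [h6]
    exact ((Commute.mul_right h5 (Commute.inv_right h4)) : Commute (w : G) _).eq
  have := H23.isSolvable_of_abelian_isCoatom _ hPmax
  infer_instance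

end Cfsg.Agent.S3903
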