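import Cfsg.Statements.S3910
import Cfsg.Agent.Base
import Cfsg.Agent.H9.PBasic
import Cfsg.Agent.H2.MinNormal


set_option autoImplicit false
open Cfsg

namespace Cfsg.Agent.S3910


/-- A finite nilpotent group in which any two abelian subgroups of the same order are conjugate is cyclic. -/
theorem result {G : Type*} [Group G] [Finite G] (hB : ∀ A B : Subgroup G, IsMulCommutative ↥A → IsMulCommutative ↥B → Nat.card ↥A = Nat.card ↥B → ∃ g : G, B = A.map (MulAut.conj g).toMonoidHom) (hnil : Group.IsNilpotent G) : IsCyclic G := by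
  have hZ : IsZGroup G := by
    refine ⟨fun p hp P => ?_⟩
    have : Fact p.Prime := ⟨hp⟩
    obtain ⟨A, ⟨hAn, hAc, hAP⟩, hmax⟩ := H2.exists_maximal_subgroup
      (fun A : Subgroup G => A.Normal ∧ IsCyclic A ∧ A ≤ P) ⟨⊥, inferInstance, inferInstance, bot_le⟩
    by_cases hPA : (P : Subgroup G) ≤ A
    · rwa [le_antisymm hPA hAP]
    exfalso
    obtain ⟨x, hxP, hxA, hx⟩ := H9.exists_central_mod hPA
    have hAp : IsPGroup p A := P.isPGroup'.to_le hAP
    have hXp : IsPGroup p (Subgroup.zpowers x) := P.isPGroup'.to_le (Subgroup.zpowers_le.2 hxP)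
    obtain ⟨a, ha⟩ := IsPGroup.iff_card.1 hAp
    obtain ⟨b, hb⟩ := IsPGroup.iff_card.1 hXp
    have hAcomm : IsMulCommutative A := hAc.isMulCommutative
    have hconj : ∀ g : G, A.map (MulAut.conj g).toMonoidHom ≤ A := by
      rintro g _ ⟨y, hy, rfl⟩
      exact hAn.conj_mem y hy g
    rcases le_total b a with h | h
    · obtain ⟨K, hKA, hK⟩ := Sylow.exists_subgroup_le_card_pow_prime_of_le_card hp (n := b)
        (H := (⊤ : Subgroup A)) hAp (by
          rw [Subgroup.card_top, ha]
          exact Nat.pow_le_pow_right hp.pos h)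
      obtain ⟨g, hg⟩ := hB (K.map A.subtype) (Subgroup.zpowers x) inferInstance inferInstance
        (by rw [Subgroup.card_subtype, hK, hb])
      apply hxA
      apply hconj g
      apply Subgroup.map_mono (Subgroup.map_subtype_le K)
      rw [← hg]
      exact Subgroup.mem_zpowers x
    · obtain ⟨K, hKA, hK⟩ := Sylow.exists_subgroup_le_card_pow_prime_of_le_card hp (n := a)
        (H := (⊤ : Subgroup (Subgroup.zpowers x))) hXp (by
          rw [Subgroup.card_top, hb]
          exact Nat.pow_le_pow_right hp.pos h)
      obtain ⟨g, hg⟩ := hB A (K.map (Subgroup.zpowers x).subtype) inferInstance inferInstance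
        (by rw [Subgroup.card_subtype, hK, ha])
      have h1 : K.map (Subgroup.zpowers x).subtype = A := by
        apply Subgroup.eq_of_le_of_card_ge
        · rw [hg]; exact hconj g
        · rw [Subgroup.card_subtype, hK, ha]
      have h2 : A ≤ Subgroup.zpowers x := by
        rw [← h1]; exact Subgroup.map_subtype_le K
      have h3 : (Subgroup.zpowers x).Normal := by
        have := H9.normal_sup_zpowers hx
        rwa [sup_eq_right.2 h2] at this
      have := hmax _ ⟨h3, inferInstance, Subgroup.zpowers_le.2 hxP⟩ h2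
      apply hxA
      rw [← this]
      exact Subgroup.mem_zpowers x
  infer_instance

end Cfsg.Agent.S3910
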