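import Cfsg.Statements.S3917
import Cfsg.Agent.Base
import Cfsg.Agent.H3.NonCyclic

set_option autoImplicit false
open Cfsg

namespace Cfsg.Agent.S3917

/-- Say that a group has self-centralizing non-cyclic subgroups when every non-cyclic subgroup H satisfies C_G(H) ≤ H. A finite abelian group with self-centralizing non-cyclic subgroups is cyclic or elementary abelian of order p² for a prime p. -/
theorem result {G : Type*} [CommGroup G] [Finite G] (hX : (∀ H : Subgroup G, ¬ IsCyclic ↥H → Subgroup.centralizer (H : Set G) ≤ H)) :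
    IsCyclic G ∨ ∃ p : ℕ, p.Prime ∧ Nat.card G = p ^ 2 ∧ Monoid.exponent G = p := by
  by_cases hc : IsCyclic G
  · exact Or.inl hc
  right
  obtain ⟨p, x, y, hp, hx, hy, hxy⟩ := H3.exists_pair_of_comm hc
  have hx' : x ^ p = 1 := hx ▸ pow_orderOf_eq_one x
  have hy' : y ^ p = 1 := hy ▸ pow_orderOf_eq_one y
  have h1 := hX _ (H3.not_isCyclic_of_pair (Subgroup.mem_sup_left (Subgroup.mem_zpowers x))
    (Subgroup.mem_sup_right (Subgroup.mem_zpowers y)) hx hy' hxy)
  have h2 : Subgroup.zpowers x ⊔ Subgroup.zpowers y = ⊤ :=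
    (Subgroup.eq_top_iff' _).mpr fun g => h1 fun h _ => mul_comm h g
  refine ⟨p, hp, ?_, ?_⟩
  · rw [← H3.card_sup_zpowers_of_commute hp (Commute.all x y) hx hy hxy, h2, Subgroup.card_top]
  · refine Nat.dvd_antisymm (Monoid.exponent_dvd_iff_forall_pow_eq_one.mpr fun g => ?_)
      (hx ▸ Monoid.order_dvd_exponent x)
    exact (H3.isElementaryAbelian_sup_zpowers (Commute.all x y) hx' hy').2 g
      (h2 ▸ Subgroup.mem_top g)

end Cfsg.Agent.S3917
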