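import Cfsg.Statements.S3918
import Cfsg.Agent.Base
import Cfsg.Agent.H9.Alperin
import Cfsg.Agent.H9.OddRank

set_option autoImplicit false
open Cfsg

namespace Cfsg.Agent.S3918

/-- Say that a group has self-centralizing non-cyclic subgroups when every non-cyclic subgroup H satisfies C_G(H) ≤ H. For an odd prime p, a finite non-abelian p-group has self-centralizing non-cyclic subgroups if and only if it has order p³. -/
theorem result {G : Type*} [Group G] [Finite G] {p : ℕ} [Fact p.Prime] (hp : p ≠ 2) (hG : IsPGroup p G) (hna : ¬ IsMulCommutative G) :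
    (∀ H : Subgroup G, ¬ IsCyclic ↥H → Subgroup.centralizer (H : Set G) ≤ H) ↔ Nat.card G = p ^ 3 := by
  have hp' : p.Prime := Fact.out
  constructor
  · intro h
    have hnc : ¬ IsCyclic (⊤ : Subgroup G) := fun hc => by
      have := isCyclic_of_surjective _ Subgroup.topEquiv.surjective (hH := hc)
      exact hna inferInstance
    obtain ⟨E, hEn, -, hE, hEc⟩ := H9.exists_normal_elementary_sq hp hG ⊤ hnc
    have h1 := h E fun hc => by
      have := H9.card_le_of_le_cyclic hc le_rfl hp'.pos hE.2
      have := hp'.two_le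
      nlinarith
    have h2 := H9.index_centralizer_le_pow hG 2 E hEc
    obtain ⟨n, hn⟩ := IsPGroup.iff_card.mp hG
    have h3 : Nat.card G ≤ p ^ 3 := by
      rw [← (Subgroup.centralizer (E : Set G)).card_mul_index, pow_succ]
      exact Nat.mul_le_mul ((Subgroup.card_le_of_le h1).trans hEc.le) (by simpa using h2)
    rw [hn, Nat.pow_le_pow_iff_right hp'.one_lt] at h3
    rw [hn]
    congr 1
    by_contra h4
    refine hna ?_
    rcases (by omega : n = 2 ∨ n ≤ 1) with h5 | h5
    · exact IsPGroup.isMulCommutative_of_card_eq_prime_sq (h5 ▸ hn)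
    · have : IsCyclic G := isCyclic_of_card_dvd_prime (p := p)
        (hn ▸ (pow_dvd_pow p h5).trans (pow_one p).dvd)
      infer_instance
  · intro hc H hH x hx
    by_contra hxH
    obtain ⟨k, hk⟩ := IsPGroup.iff_card.mp (hG.to_subgroup H)
    have h1 := H9.mul_card_le_of_lt hG (H := H) (K := H ⊔ Subgroup.zpowers x)
      (lt_of_le_of_ne le_sup_left fun he => hxH (he ▸ Subgroup.mem_sup_right
        (Subgroup.mem_zpowers x)))
    have h2 : 2 ≤ k := by
      by_contra h3
      exact hH (isCyclic_of_card_dvd_prime (p := p)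
        (hk ▸ (pow_dvd_pow p (by omega)).trans (pow_one p).dvd))
    have h3 := Subgroup.card_le_card_group (H ⊔ Subgroup.zpowers x)
    have h4 := h1.trans h3
    rw [hk, hc, ← pow_succ', Nat.pow_le_pow_iff_right hp'.one_lt] at h4
    obtain rfl : k = 2 := by omega
    have h5 := H9.isMulCommutative_sup_zpowers
      (IsPGroup.isMulCommutative_of_card_eq_prime_sq hk) hx
    rw [Subgroup.eq_top_of_le_card (H ⊔ Subgroup.zpowers x) (by rw [hc, pow_succ', ← hk]; exact h1)] at h5
    exact hna ⟨⟨fun a b => H9.isMulCommutative_iff_forall.mp h5 a trivial b trivial⟩⟩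

end Cfsg.Agent.S3918
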