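import Cfsg.Statements.S3919
import Cfsg.Agent.Base
import Cfsg.Agent.H3.DSQ

set_option autoImplicit false
open Cfsg

namespace Cfsg.Agent.S3919

/-- Say that a group has self-centralizing non-cyclic subgroups when every non-cyclic subgroup H satisfies C_G(H) ≤ H. A finite non-abelian 2-group G of order 2^n has self-centralizing non-cyclic subgroups if and only if G has nilpotency class n − 1 (that is, G is dihedral, semidihedral or generalized quaternion). -/
theorem result {G : Type*} [Group G] [Finite G] (hna : ¬ IsMulCommutative G) (n : ℕ) (hG : Nat.card G = 2 ^ n) :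
    (∀ H : Subgroup G, ¬ IsCyclic ↥H → Subgroup.centralizer (H : Set G) ≤ H) ↔ (⊤ : Subgroup G).lowerCentralSeries (n - 2) ≠ ⊥ := by
  have hP : IsPGroup 2 G := IsPGroup.of_card hG
  have := hP.isNilpotent
  have hn : 3 ≤ n := by
    by_contra hlt
    have hn' : n ≤ 2 := by omega
    interval_cases n
    · have : Subsingleton G := (Nat.card_eq_one_iff_unique.mp hG).1
      exact hna inferInstance
    · have := isCyclic_of_prime_card (p := 2) hG
      exact hna inferInstance
    · exact hna (IsPGroup.isMulCommutative_of_card_eq_prime_sq hG)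
  obtain ⟨k, rfl⟩ : ∃ k, n = k + 3 := ⟨n - 3, by omega⟩
  rw [Ne, Subgroup.lowerCentralSeries_eq_bot_iff_nilpotencyClass_le]
  constructor
  · intro h
    suffices hh : ∃ (m : ℕ) (a b : G), H3.DSQ m a b by
      obtain ⟨m, a, b, hh⟩ := hh
      have h1 := hh.card
      rw [hG] at h1
      have h2 := Nat.pow_right_injective le_rfl h1
      rw [hh.nilpotencyClass_eq]
      omega
    by_cases hu : ∀ H K : Subgroup G, Nat.card H = 2 → Nat.card K = 2 → H = K
    · rcases H3.isCyclic_or_quaternion_of_unique hP hu with hc | ⟨-, j, ⟨e⟩⟩
      · exact (hna inferInstance).elim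
      · exact ⟨_, _, _, (H3.dsq_quaternion j).of_mulEquiv e.symm⟩
    · have : Nontrivial G := hP.nontrivial_iff_card.mpr ⟨_, by omega, hG⟩
      have : Nontrivial (Subgroup.center G) := hP.center_nontrivial
      obtain ⟨z, hz⟩ := exists_prime_orderOf_dvd_card' (G := Subgroup.center G) 2 (by
        obtain ⟨j, hj, hj'⟩ := (hP.to_subgroup (Subgroup.center G)).nontrivial_iff_card.mp this
        rw [hj']; exact dvd_pow_self 2 hj.ne')
      have hz' : orderOf (z : G) = 2 := by rw [Subgroup.orderOf_coe, hz]
      obtain ⟨t, ht, htz⟩ : ∃ t : G, orderOf t = 2 ∧ t ∉ Subgroup.zpowers (z : G) := by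
        by_contra hcon
        push Not at hcon
        refine hu fun H K hH hK => ?_
        have key : ∀ L : Subgroup G, Nat.card L = 2 → L = Subgroup.zpowers (z : G) := by
          intro L hL
          obtain ⟨t, ht⟩ := exists_prime_orderOf_dvd_card' (G := L) 2 (by rw [hL])
          have h1 : Subgroup.zpowers (t : G) = L := Subgroup.eq_of_le_of_card_ge
            (Subgroup.zpowers_le.mpr t.2) (by rw [Nat.card_zpowers, Subgroup.orderOf_coe, ht, hL])
          rw [← h1]
          exact Subgroup.eq_of_le_of_card_ge
            (Subgroup.zpowers_le.mpr (hcon t (by rw [Subgroup.orderOf_coe, ht])))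
            (by rw [Nat.card_zpowers, Nat.card_zpowers, Subgroup.orderOf_coe t, ht, hz'])
        rw [key H hH, key K hK]
      have hnc : ¬ IsCyclic (Subgroup.closure ({(z : G), t} : Set G)) := by
        intro hc
        exact htz (H3.mem_zpowers_of_isCyclic_subgroup hc
          (Subgroup.subset_closure (by simp)) (Subgroup.subset_closure (by simp))
          (ht ▸ pow_orderOf_eq_one t) hz')
      have h1 := h _ hnc
      have h2 : Subgroup.centralizer ({t} : Set G) ≤ Subgroup.closure ({(z : G), t} : Set G) := by
        refine le_trans (fun x hx => ?_) h1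
        rw [Subgroup.centralizer_closure, Subgroup.mem_centralizer_iff]
        rintro y (rfl | rfl)
        · exact (Subgroup.mem_center_iff.mp z.2 x).symm
        · exact (Subgroup.mem_centralizer_singleton_iff.mp hx).symm
      refine H3.exists_dsq_of_card_centralizer hP hna (x := t) (le_antisymm ?_ ?_)
      · obtain ⟨e⟩ := H3.nonempty_closure_mulEquiv_dihedral (a := (z : G)) (b := t) hz'
          (ht ▸ pow_orderOf_eq_one t) (by
            rw [Subgroup.mem_center_iff.mp z.2 t, mul_inv_cancel_right, eq_inv_iff_mul_eq_one,
              ← pow_two, ← hz']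
            exact pow_orderOf_eq_one _) htz
        refine (Subgroup.card_le_of_le h2).trans ?_
        rw [Nat.card_congr e.toEquiv, DihedralGroup.nat_card]
      · exact H9.sq_le_card_centralizer hP (by rw [hG]; exact Nat.pow_le_pow_right two_pos (by omega)) t
  · intro h H hH
    have h1 := H9.pow_le_card_commutator hP
    have h2 := (commutator G).card_mul_index
    have h3 := H9.sq_le_index_commutator hP (fun hc => hna inferInstance)
    have h4 : 2 ^ (Group.nilpotencyClass G - 1) * 2 ^ 2 ≤ 2 ^ (k + 3) := by
      rw [← hG, ← h2]; exact Nat.mul_le_mul h1 h3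
    rw [← pow_add, Nat.pow_le_pow_iff_right one_lt_two] at h4
    obtain ⟨a, b, hh⟩ := H3.exists_dsq_of_maximal_class k hG (by omega)
    exact hh.centralizer_le_of_not_isCyclic hH

end Cfsg.Agent.S3919
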