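import Cfsg.Statements.S3920
import Cfsg.Agent.Base
import Cfsg.Agent.H3.NonCyclic

set_option autoImplicit false
open Cfsg

namespace Cfsg.Agent.S3920

/-- Say that a group has self-centralizing non-cyclic subgroups when every non-cyclic subgroup H satisfies C_G(H) ≤ H. For n ≥ 3, the dihedral group of order 2n has self-centralizing non-cyclic subgroups if and only if n is odd or a power of 2. -/
theorem result (n : ℕ) (hn : 3 ≤ n) : (∀ H : Subgroup (DihedralGroup n), ¬ IsCyclic ↥H → Subgroup.centralizer (H : Set (DihedralGroup n)) ≤ H) ↔ (Odd n ∨ ∃ k : ℕ, n = 2 ^ k) := by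
  have : NeZero n := ⟨by omega⟩
  constructor
  · intro h
    by_contra hcon
    push Not at hcon
    obtain ⟨h1, h2⟩ := hcon
    obtain ⟨c, hc⟩ := Nat.not_odd_iff_even.mp h1
    obtain ⟨p, hp, hpn, hp2⟩ : ∃ p : ℕ, p.Prime ∧ p ∣ n ∧ p ≠ 2 := by
      by_contra hcon
      push Not at hcon
      exact h2 _ (Nat.eq_prime_pow_of_unique_prime_dvd (by omega) fun hd hdn => hcon _ hd hdn)
    obtain ⟨d, hd⟩ := hpn
    obtain ⟨q, hq⟩ := hp.odd_of_ne_two hp2
    let H : Subgroup (DihedralGroup n) :=
      { carrier := {g | ∃ i : ZMod n, (p : ZMod n) * i = 0 ∧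
          (g = DihedralGroup.r i ∨ g = DihedralGroup.sr i)}
        one_mem' := ⟨0, by simp, Or.inl rfl⟩
        mul_mem' := by
          rintro _ _ ⟨i, hi, rfl | rfl⟩ ⟨j, hj, rfl | rfl⟩
          · exact ⟨i + j, by rw [mul_add, hi, hj, add_zero], Or.inl rfl⟩
          · exact ⟨j - i, by rw [mul_sub, hi, hj, sub_zero], Or.inr rfl⟩
          · exact ⟨i + j, by rw [mul_add, hi, hj, add_zero], Or.inr rfl⟩
          · exact ⟨j - i, by rw [mul_sub, hi, hj, sub_zero], Or.inl rfl⟩
        inv_mem' := by
          rintro _ ⟨i, hi, rfl | rfl⟩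
          · exact ⟨-i, by rw [mul_neg, hi, neg_zero], Or.inl rfl⟩
          · exact ⟨i, hi, Or.inr rfl⟩ }
    have hd0 : 0 < d := Nat.pos_of_ne_zero (by rintro rfl; omega)
    have hnc : ¬ IsCyclic H := by
      intro hcyc
      have h3 : DihedralGroup.r (d : ZMod n) ∈ H :=
        ⟨d, by rw [← Nat.cast_mul, ← hd, ZMod.natCast_self], Or.inl rfl⟩
      have h4 : DihedralGroup.sr (0 : ZMod n) ∈ H := ⟨0, by simp, Or.inr rfl⟩
      have h5 := setLike_mul_comm h3 h4
      simp only [DihedralGroup.r_mul_sr, DihedralGroup.sr_mul_r, zero_sub, zero_add,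
        DihedralGroup.sr.injEq] at h5
      have h6 : ((2 * d : ℕ) : ZMod n) = 0 := by
        push_cast; linear_combination -h5
      rw [ZMod.natCast_eq_zero_iff, hd] at h6
      have h7 := Nat.le_of_dvd two_pos (Nat.dvd_of_mul_dvd_mul_right hd0 h6)
      have := hp.two_le
      omega
    have hcc : (c : ZMod n) + c = 0 := by rw [← Nat.cast_add, ← hc, ZMod.natCast_self]
    have h8 : DihedralGroup.r (c : ZMod n) ∈ H := by
      refine h H hnc fun g _ => ?_
      rcases g with i | i
      · simp [add_comm]
      · simp only [DihedralGroup.r_mul_sr, DihedralGroup.sr_mul_r, DihedralGroup.sr.injEq]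
        linear_combination hcc
    obtain ⟨i, hi, h9 | h9⟩ := h8
    · obtain rfl : (c : ZMod n) = i := by simpa using h9
      have h10 : (c : ZMod n) = 0 := by
        rw [hq] at hi
        push_cast at hi
        linear_combination hi - q * hcc
      rw [ZMod.natCast_eq_zero_iff] at h10
      have := Nat.le_of_dvd (by omega) h10
      omega
    · cases h9
  · rintro (hodd | ⟨k, rfl⟩) H hH
    · obtain ⟨i, hi⟩ : ∃ i, DihedralGroup.sr i ∈ H := by
        by_contra hcon
        push Not at hcon
        refine hH (Subgroup.isCyclic_of_le (H' := Subgroup.zpowers (DihedralGroup.r 1))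
          fun g hg => ?_)
        rcases g with j | j
        · obtain ⟨j, rfl⟩ := ZMod.intCast_surjective j
          exact ⟨j, DihedralGroup.r_one_zpow j⟩
        · exact absurd hg (hcon j)
      have hu : IsUnit (2 : ZMod n) := by
        have := (ZMod.isUnit_iff_coprime 2 n).mpr (Nat.coprime_two_left.mpr hodd)
        exact_mod_cast this
      intro g hg
      have h1 := hg _ hi
      rcases g with j | j
      · simp only [DihedralGroup.r_mul_sr, DihedralGroup.sr_mul_r, DihedralGroup.sr.injEq] at h1
        have h2 : j = 0 := hu.mul_right_eq_zero.mp (by linear_combination h1)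
        rw [h2]; exact H.one_mem
      · simp only [DihedralGroup.sr_mul_sr, DihedralGroup.r.injEq] at h1
        have h2 : j - i = 0 := hu.mul_right_eq_zero.mp (by linear_combination h1)
        rw [sub_eq_zero.mp h2]; exact hi
    · obtain ⟨j, rfl⟩ : ∃ j, k = j + 2 := ⟨k - 2, by
        have : 2 ≤ k := by
          by_contra hk
          have : k ≤ 1 := by omega
          interval_cases k <;> omega
        omega⟩
      exact (H3.dsq_dihedral j).centralizer_le_of_not_isCyclic hH

end Cfsg.Agent.S3920
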