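import Cfsg.Statements.S3928
import Cfsg.Agent.H29.InvOddB
import Cfsg.Agent.S3927
import Cfsg.Agent.S3949

set_option autoImplicit false
open Cfsg

namespace Cfsg.Agent.S3928

/-- There is a function f such that for every non-trivial finite group G and every automorphism α of G of order 2 with [G, α] = G (the elements g·α(g)⁻¹ generate G), the order of G is at most f(m), where m is the number of elements of odd order inverted by α. -/
theorem result : ∃ f : ℕ → ℕ, ∀ (G : Type) [Group G] [Finite G] [Nontrivial G] (α : MulAut G), orderOf α = 2 →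
    Subgroup.closure (Set.range (fun c : G => c * (α c)⁻¹)) = ⊤ →
      Nat.card G ≤ f (Nat.card {g : G // Odd (orderOf g) ∧ α g = g⁻¹}) := by
  choose f hf using H29.IO3.main.{0}
  refine ⟨f, fun G _ _ _ α hα hG => hf _ G α.toMonoidHom (fun g => ?_) ?_ (Nat.card_coe_set_eq _).symm⟩
  · have h : α ^ 2 = 1 := hα ▸ pow_orderOf_eq_one α
    rw [pow_two] at h
    exact DFunLike.congr_fun h g
  · have h1 := Cfsg.Agent.S3949.result α hα hG (Nat.card G) fun g _ h =>
      absurd ((Nat.le_of_dvd (orderOf_pos g) h).trans orderOf_le_card) Nat.lt_two_pow_self.not_ge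
    have h2 := Cfsg.Agent.S3927.result α hG (Nat.card G) Nat.card_pos
    rw [h1] at h2
    exact h2

end Cfsg.Agent.S3928
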