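import Cfsg.Statements.S3929
import Cfsg.Agent.H42.IVFin
import Cfsg.Agent.H89.IVNumS

set_option autoImplicit false
open Cfsg

namespace Cfsg.Agent.S3929

/-- Let G be a non-trivial finite group and α an automorphism of G of order 2 with [G, α] = G (the elements g·α(g)⁻¹ generate G), and let m be the number of elements of odd order inverted by α. Then the index of the Fitting subgroup of G is less than (m!)⁴. -/
theorem result {G : Type*} [Group G] [Finite G] [Nontrivial G] (α : MulAut G) (hα : orderOf α = 2)
    (hG : Subgroup.closure (Set.range (fun c : G => c * (α c)⁻¹)) = ⊤) :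
    (Cfsg.fittingSubgroup G).index < (Nat.card {g : G // Odd (orderOf g) ∧ α g = g⁻¹}).factorial ^ 4 := by
  exact H42.IV.fin H89.IVNumS.jobNumS α hα hG

end Cfsg.Agent.S3929
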