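import Cfsg.Statements.S3941
import Cfsg.Agent.Base

set_option autoImplicit false
open Cfsg

namespace Cfsg.Agent.S3941

theorem aux {α : Type} [Fintype α] [DecidableEq α] (p : ℕ) [hp : Fact p.Prime] (h2 : p ≠ 2) (h4 : 4 ≤ Nat.card α)
    (hpn : p ≤ Nat.card α) : p ∣ Nat.card (alternatingGroup α) ∧
    ∀ P : Subgroup (alternatingGroup α), P.Normal → IsPGroup p P → p ∣ P.index := by
  haveI : Nontrivial α := Finite.one_lt_card_iff_nontrivial.1 (by omega)
  have e := two_mul_nat_card_alternatingGroup (α := α)
  rw [Nat.card_perm] at e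
  have h1 : p ∣ Nat.card (alternatingGroup α) :=
    ((Nat.coprime_primes hp.out Nat.prime_two).2 h2).dvd_of_dvd_mul_left (e ▸ Nat.dvd_factorial hp.out.pos hpn)
  have h3 : 2 ∣ Nat.card (alternatingGroup α) :=
    Nat.dvd_of_mul_dvd_mul_left two_pos (e ▸ Nat.dvd_factorial (by decide) h4)
  refine ⟨h1, fun P hN hP => by_contra fun hi => ?_⟩
  have : P = ⊤ := by
    by_cases h5 : 5 ≤ Nat.card α
    · refine (alternatingGroup.normal_subgroup_eq_bot_or_eq_top h5).resolve_left fun h => hi ?_
      rwa [h, Subgroup.index_bot]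
    · obtain rfl : p = 3 := by
        have := hp.out.two_le
        have : p ≠ 4 := fun h => by have := hp.out; rw [h] at this; exact absurd this (by decide)
        omega
      rw [eq_top_iff, ← alternatingGroup.closure_isThreeCycles_eq_top, Subgroup.closure_le]
      intro g hg
      have o : orderOf g = 3 := (Subgroup.orderOf_coe g).symm.trans hg.orderOf
      have d : orderOf (g : alternatingGroup α ⧸ P) ∣ 3 := o ▸ orderOf_map_dvd (QuotientGroup.mk' P) g
      rcases (Nat.dvd_prime hp.out).1 d with d | d
      · exact (QuotientGroup.eq_one_iff g).1 (orderOf_eq_one_iff.1 d)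
      · exact absurd (d ▸ orderOf_dvd_natCard _) hi
  subst this
  obtain ⟨k, hk⟩ := hP.exists_card_eq
  rw [Subgroup.card_top] at hk
  exact h2 ((Nat.prime_dvd_prime_iff_eq Nat.prime_two hp.out).1 (Nat.prime_two.dvd_of_dvd_pow (hk ▸ h3))).symm

/-- Let n ≥ 5 and p an odd prime with p ≤ n, and suppose that every proper subgroup of the alternating group of degree n whose order is divisible by p has a normal Sylow p-subgroup. Then n = p. -/
theorem result (n p : ℕ) (hn : 5 ≤ n) [Fact p.Prime] (hp : p ≠ 2) (hpn : p ≤ n)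
    (h : ∀ H : Subgroup ↥(alternatingGroup (Fin n)), H ≠ ⊤ → p ∣ Nat.card ↥H → Cfsg.IsPClosed p ↥H) : n = p := by
  by_contra hne
  let a : Fin n := ⟨0, by omega⟩
  let s : Finset (Fin n) := Finset.univ.erase a
  have hs : Nat.card s = n - 1 := by simp [s]
  obtain ⟨h1, h2⟩ := aux (α := s) p hp (by omega) (by omega)
  let e := MonoidHom.ofInjective (alternatingGroup.ofSubtype_injective (s := s))
  have c := Nat.card_congr e.toEquiv
  have := h (alternatingGroup.ofSubtype s).range (fun t => ?_) (c ▸ h1)
  · obtain ⟨P⟩ : Nonempty (Sylow p (alternatingGroup.ofSubtype s).range) := inferInstance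
    have k := h2 _ ((this P).comap e.toMonoidHom) (P.isPGroup'.comap_of_injective _ e.injective)
    rw [Subgroup.index_comap_of_surjective _ (f := e.toMonoidHom) e.surjective] at k
    exact P.not_dvd_index k
  · haveI : Nontrivial s := Finite.one_lt_card_iff_nontrivial.1 (by omega)
    haveI : Nontrivial (Fin n) := Fin.nontrivial_iff_two_le.2 (by omega)
    have e1 := two_mul_nat_card_alternatingGroup (α := s)
    have e2 := two_mul_nat_card_alternatingGroup (α := Fin n)
    rw [t, Subgroup.card_top] at c
    rw [c, e2, Nat.card_perm, Nat.card_perm, hs, Nat.card_eq_fintype_card, Fintype.card_fin] at e1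
    exact absurd e1 (Nat.factorial_lt (by omega) |>.2 (by omega)).ne'

end Cfsg.Agent.S3941
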