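import Cfsg.Statements.S3982
import Cfsg.Agent.H1.InvSylow

set_option autoImplicit false
open Cfsg

namespace Cfsg.Agent.S3982

theorem inverts {G : Type*} [Group G] [Finite G] {R : Subgroup G} {y : G} (hy : y * y = 1)
    (hyR : y ∈ Subgroup.normalizer (R : Set G)) (hf : ∀ r ∈ R, y * r * y⁻¹ = r → r = 1) :
    ∀ r ∈ R, y * r * y⁻¹ = r⁻¹ := by
  have e : y⁻¹ = y := inv_eq_of_mul_eq_one_right hy
  have hc := fun r => (Subgroup.mem_normalizer_iff.1 hyR r).1
  let f : R → R := fun r => ⟨r.1⁻¹ * (y * r * y⁻¹), R.mul_mem (R.inv_mem r.2) (hc _ r.2)⟩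
  have hinj : Function.Injective f := by
    intro a b hab
    have h : a.1⁻¹ * (y * a * y⁻¹) = b.1⁻¹ * (y * b * y⁻¹) := congrArg Subtype.val hab
    have := hf (a * b.1⁻¹) (R.mul_mem a.2 (R.inv_mem b.2)) (by
      calc y * (a * b.1⁻¹) * y⁻¹ = a * (a.1⁻¹ * (y * a * y⁻¹)) * (y * b * y⁻¹)⁻¹ := by group
        _ = a * b.1⁻¹ := by rw [h]; group)
    exact Subtype.ext (mul_inv_eq_one.1 this)
  intro r hr
  obtain ⟨a, ha⟩ := Finite.surjective_of_injective hinj ⟨r, hr⟩
  have h : a.1⁻¹ * (y * a * y⁻¹) = r := congrArg Subtype.val ha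
  rw [← h]
  calc y * (a.1⁻¹ * (y * a * y⁻¹)) * y⁻¹ = y * a.1⁻¹ * y * a * (y * y)⁻¹ := by group
    _ = (a.1⁻¹ * (y * a * y⁻¹))⁻¹ := by
      rw [hy, inv_one, mul_one, mul_inv_rev, mul_inv_rev, mul_inv_rev, inv_inv, inv_inv, e]; group


/-- Let p be an odd prime and G a finite group of even order divisible by p in which the centralizer of every non-identity p-element has odd order. If some nontrivial p-subgroup of G has a normalizer of even order, then the normalizer of every Sylow p-subgroup of G has even order. -/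
theorem result {G : Type*} [Group G] [Finite G] (p : ℕ) [Fact p.Prime] (hp2 : p ≠ 2) (hpG : p ∣ Nat.card G) (h2G : 2 ∣ Nat.card G) (hC : ∀ g : G, g ≠ 1 → (∃ k : ℕ, orderOf g = p ^ k) → Odd (Nat.card ↥(Subgroup.centralizer ({g} : Set G)))) (Q : Subgroup G) (hQ : IsPGroup p ↥Q) (hQ1 : Q ≠ ⊥) (hev : Even (Nat.card ↥(Subgroup.normalizer (Q : Set G)))) (P : Sylow p G) : Even (Nat.card ↥(Subgroup.normalizer ((P : Subgroup G) : Set G))) := by
  classical
  have hp : p.Prime := Fact.out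
  obtain ⟨⟨y, hyQ⟩, hy⟩ := exists_prime_orderOf_dvd_card' (G := Subgroup.normalizer (Q : Set G)) 2
    hev.two_dvd
  have hy' : orderOf y = 2 := by rw [← hy, Subgroup.orderOf_mk]
  have hy2 : y * y = 1 := by rw [← pow_two, ← hy', pow_orderOf_eq_one]
  have ey : y⁻¹ = y := inv_eq_of_mul_eq_one_right hy2
  have ev : ∀ K : Subgroup G, y ∈ K → Even (Nat.card K) := fun K h =>
    even_iff_two_dvd.2 (hy' ▸ Subgroup.orderOf_dvd_natCard K h)
  -- `y` centralises no non-trivial `p`-element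
  have fpf : ∀ g : G, (∃ k, g ^ p ^ k = 1) → y * g * y⁻¹ = g → g = 1 := by
    rintro g ⟨k, hk⟩ h
    by_contra h1
    obtain ⟨j, -, hj⟩ := (Nat.dvd_prime_pow hp).1 (orderOf_dvd_of_pow_eq_one hk)
    refine Nat.not_even_iff_odd.2 (hC g h1 ⟨j, hj⟩) (ev _ ?_)
    rw [Subgroup.mem_centralizer_singleton_iff]
    exact mul_inv_eq_iff_eq_mul.1 h
  obtain ⟨R, ⟨hQR, hR, hyR⟩, hmax⟩ := Set.Finite.exists_maximal
    (s := {R : Subgroup G | Q ≤ R ∧ IsPGroup p R ∧ y ∈ Subgroup.normalizer (R : Set G)})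
    (Set.toFinite _) ⟨Q, le_rfl, hQ, hyQ⟩
  have pR : ∀ r ∈ R, ∃ k, r ^ p ^ k = 1 := fun r hr => by
    obtain ⟨k, hk⟩ := hR ⟨r, hr⟩
    exact ⟨k, by simpa using congrArg Subtype.val hk⟩
  have inv := inverts hy2 hyR fun r hr => fpf r (pR r hr)
  set C := Subgroup.centralizer (R : Set G) with hCdef
  have hRC : R ≤ C := fun a ha b hb => by
    have := inv _ (R.mul_mem ha hb)
    rw [show y * (a * b) * y⁻¹ = (y * a * y⁻¹) * (y * b * y⁻¹) by group, inv a ha, inv b hb,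
      ← mul_inv_rev, inv_inj] at this
    exact this
  obtain ⟨r0, hr0, hr1⟩ := (Subgroup.bot_or_exists_ne_one Q).resolve_left hQ1
  have hCodd : Odd (Nat.card C) := by
    obtain ⟨k, hk⟩ := pR r0 (hQR hr0)
    obtain ⟨j, -, hj⟩ := (Nat.dvd_prime_pow hp).1 (orderOf_dvd_of_pow_eq_one hk)
    exact (hC r0 hr1 ⟨j, hj⟩).of_dvd_nat (Subgroup.card_dvd_of_le
      (Subgroup.centralizer_le (Set.singleton_subset_iff.2 (hQR hr0))))
  have nC : ∀ n ∈ Subgroup.normalizer (R : Set G), ∀ c ∈ C, n * c * n⁻¹ ∈ C := fun n hn c hc r hr => by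
    have := hc _ ((Subgroup.mem_normalizer_iff.1 (inv_mem hn) r).1 hr)
    calc r * (n * c * n⁻¹) = n * (n⁻¹ * r * n⁻¹⁻¹ * c) * n⁻¹ := by group
      _ = n * c * n⁻¹ * r := by rw [this]; group
  -- `p`-elements of `N(R)` centralise `R`
  have key : ∀ x ∈ Subgroup.normalizer (R : Set G), (∃ k, x ^ p ^ k = 1) → x ∈ C := by
    rintro x hx ⟨k, hk⟩
    have hc : x * y * x⁻¹ * y ∈ C := fun r hr => by
      have h1 := inv r hr
      have h2 := inv _ ((Subgroup.mem_normalizer_iff.1 (inv_mem hx) r).1 hr)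
      calc r * (x * y * x⁻¹ * y) = x * y * (y⁻¹ * (x⁻¹ * r * x⁻¹⁻¹) * y) * x⁻¹ * y := by group
        _ = x * y * x⁻¹ * y * (y⁻¹ * r⁻¹ * y) := by
          rw [ey] at h2 ⊢; rw [h2]
          calc x * y * (x⁻¹ * r * x⁻¹⁻¹)⁻¹ * x⁻¹ * y = x * y * x⁻¹ * (y * y) * r⁻¹ * y := by
                rw [hy2]; group
            _ = _ := by group
        _ = x * y * x⁻¹ * y * r := by
          have := inv _ (R.inv_mem hr)
          rw [ey] at this ⊢; rw [this, inv_inv]
    set c := x * y * x⁻¹ * y with hcdef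
    obtain ⟨m, hm⟩ : Odd (orderOf c) := hCodd.of_dvd_nat (Subgroup.orderOf_dvd_natCard C hc)
    have hyc : y * c * y⁻¹ = c⁻¹ := by
      rw [hcdef, mul_inv_rev, mul_inv_rev, mul_inv_rev, ey, inv_inv]
      calc y * (x * y * x⁻¹ * y) * y = y * (x * y * x⁻¹) * (y * y) := by group
        _ = _ := by rw [hy2]; group
    have hd : c ^ (m + 1) * y * (c ^ (m + 1))⁻¹ = x * y * x⁻¹ := by
      have h1 : y * (c ^ (m + 1))⁻¹ * y⁻¹ = c ^ (m + 1) := by
        rw [← inv_pow, ← conj_pow, show y * c⁻¹ * y⁻¹ = (y * c * y⁻¹)⁻¹ by group, hyc, inv_inv]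
      have h2 : c ^ (m + 1) * c ^ (m + 1) = c := by
        rw [← pow_add, show m + 1 + (m + 1) = orderOf c + 1 by omega, pow_succ, pow_orderOf_eq_one,
          one_mul]
      calc c ^ (m + 1) * y * (c ^ (m + 1))⁻¹ = c ^ (m + 1) * (y * (c ^ (m + 1))⁻¹ * y⁻¹) * y := by group
        _ = x * y * x⁻¹ * (y * y) := by rw [h1, h2, hcdef]; group
        _ = _ := by rw [hy2, mul_one]
    have hdC : c ^ (m + 1) ∈ C := C.pow_mem hc _
    have hCN : C ≤ Subgroup.normalizer (R : Set G) := Subgroup.centralizer_le_normalizer _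
    set u := (c ^ (m + 1))⁻¹ * x with hu
    have hyu : y * u * y⁻¹ = u := by
      calc y * u * y⁻¹ = (c ^ (m + 1))⁻¹ * (c ^ (m + 1) * y * (c ^ (m + 1))⁻¹) * x * y⁻¹ := by
            rw [hu]; group
        _ = u := by rw [hd, hu]; group
    have hcop : (orderOf u).Coprime p := by
      rw [Nat.coprime_comm, hp.coprime_iff_not_dvd]
      intro h
      have ho := orderOf_pow_orderOf_div (orderOf_pos u).ne' h
      have := fpf (u ^ (orderOf u / p)) ⟨1, by rw [pow_one]; exact orderOf_dvd_iff_pow_eq_one.1 ho.dvd⟩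
        (by rw [← conj_pow, hyu])
      rw [this, orderOf_one] at ho
      exact hp.one_lt.ne ho
    have huN : u ∈ Subgroup.normalizer (R : Set G) := mul_mem (inv_mem (hCN hdC)) hx
    let φ := R.normalizerMonoidHom
    have hker : ∀ a : Subgroup.normalizer (R : Set G), φ a = 1 ↔ (a : G) ∈ C := fun a => by
      rw [← MonoidHom.mem_ker, Subgroup.normalizerMonoidHom_ker, Subgroup.mem_subgroupOf]
    have e : φ ⟨u, huN⟩ = φ ⟨x, hx⟩ := by
      rw [show (⟨u, huN⟩ : Subgroup.normalizer (R : Set G)) = ⟨_, hCN hdC⟩⁻¹ * ⟨x, hx⟩ from rfl,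
        map_mul, map_inv, (hker ⟨_, hCN hdC⟩).2 hdC, inv_one, one_mul]
    refine (hker ⟨x, hx⟩).1 (orderOf_eq_one_iff.1 (Nat.eq_one_of_dvd_coprimes
      (hcop.pow_right k) ?_ ?_))
    · rw [← e, ← Subgroup.orderOf_mk u huN]; exact orderOf_map_dvd _ _
    · refine orderOf_dvd_of_pow_eq_one ?_
      rw [← map_pow, show (⟨x, hx⟩ : Subgroup.normalizer (R : Set G)) ^ p ^ k = 1 from
        Subtype.ext hk, map_one]
  -- an invariant Sylow subgroup of `C(R)` is `R`
  have hyC : Subgroup.zpowers y ≤ Subgroup.normalizer (C : Set G) := by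
    rw [Subgroup.zpowers_le]
    exact Subgroup.mem_normalizer_fintype fun c hc => nC y hyR c hc
  obtain ⟨P0, hP0⟩ := H1.exists_invariant_sylow_subgroup (Subgroup.zpowers y) C hyC
    (by rw [Nat.card_zpowers, hy']; exact Nat.coprime_two_left.2 hCodd)
    (Or.inl (isSolvable_of_comm fun a b => mul_comm' a b)) p
  haveI : (R.subgroupOf C).Normal := ⟨fun r hr c => by
    show ((c : G) * r * (c : G)⁻¹) ∈ R
    rw [← c.2 r hr, mul_inv_cancel_right]; exact hr⟩
  have hRp : IsPGroup p (R.subgroupOf C) := hR.of_equiv (Subgroup.subgroupOfEquivOfLe hRC).symm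
  have hle : R ≤ (P0 : Subgroup C).map C.subtype := fun r hr =>
    ⟨⟨r, hRC hr⟩, hRp.le_sylow_of_normal P0 (show (⟨r, hRC hr⟩ : C) ∈ R.subgroupOf C from hr), rfl⟩
  have hge : (P0 : Subgroup C).map C.subtype ≤ R :=
    hmax ⟨hQR.trans hle, P0.isPGroup'.map _, hP0 (Subgroup.mem_zpowers y)⟩ hle
  have hCR : ∀ c ∈ C, (∃ k, c ^ p ^ k = 1) → c ∈ R := by
    rintro c hc ⟨k, hk⟩
    have hP0n : (P0 : Subgroup C) = R.subgroupOf C := le_antisymm
      (fun a ha => hge ⟨a, ha, rfl⟩) (hRp.le_sylow_of_normal P0)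
    haveI : (P0 : Subgroup C).Normal := hP0n ▸ inferInstance
    have hz : IsPGroup p (Subgroup.zpowers (⟨c, hc⟩ : C)) := by
      rintro ⟨_, j, rfl⟩
      refine ⟨k, Subtype.ext ?_⟩
      simp only [SubgroupClass.coe_pow, OneMemClass.coe_one]
      rw [← zpow_natCast, ← zpow_mul, mul_comm, zpow_mul, zpow_natCast,
        show (⟨c, hc⟩ : C) ^ p ^ k = 1 from Subtype.ext hk, one_zpow]
    obtain ⟨P1, h1⟩ := hz.exists_le_sylow
    haveI := Sylow.unique_of_normal P0 inferInstance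
    rw [Subsingleton.elim P1 P0] at h1
    exact hge ⟨_, h1 (Subgroup.mem_zpowers _), rfl⟩
  obtain ⟨S, hRS⟩ := hR.exists_le_sylow
  have hSR : (S : Subgroup G) ≤ R := by
    by_contra hne
    haveI := S.isPGroup'.isNilpotent
    have hlt : R.subgroupOf S < ⊤ := lt_top_iff_ne_top.2 fun e =>
      hne (Subgroup.subgroupOf_eq_top.1 e)
    obtain ⟨⟨x, hxS⟩, hx1, hx2⟩ :=
      SetLike.exists_of_lt (Group.normalizerCondition_of_isNilpotent (G := S) _ hlt)
    obtain ⟨k, hk⟩ := S.isPGroup' ⟨x, hxS⟩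
    have hk' : x ^ p ^ k = 1 := by simpa using congrArg Subtype.val hk
    refine hx2 (hCR x (key x ?_ ⟨k, hk'⟩) ⟨k, hk'⟩)
    rw [Subgroup.mem_normalizer_iff] at hx1
    exact Subgroup.mem_normalizer_fintype fun q hq => (hx1 ⟨q, hRS hq⟩).1 hq
  have hS : (S : Subgroup G) = R := le_antisymm hSR hRS
  have h1 := (Subgroup.normalizer ((P : Subgroup G) : Set G)).card_mul_index
  have h2 := (Subgroup.normalizer ((S : Subgroup G) : Set G)).card_mul_index
  have h3 := P.card_eq_index_normalizer.symm.trans S.card_eq_index_normalizer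
  have h4 : Nat.card (Subgroup.normalizer ((P : Subgroup G) : Set G)) =
      Nat.card (Subgroup.normalizer ((S : Subgroup G) : Set G)) := by
    refine Nat.eq_of_mul_eq_mul_right (Nat.pos_of_ne_zero Subgroup.index_ne_zero_of_finite)
      (h1.trans ?_)
    rw [← h2]; exact congrArg _ h3.symm
  rw [h4, hS]
  exact ev _ hyR

end Cfsg.Agent.S3982
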