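import Cfsg.Statements.S3984
import Cfsg.Agent.Base
import Cfsg.Agent.H26.SylowTI


set_option autoImplicit false
open scoped Pointwise
open Cfsg

namespace Cfsg.Agent.S3984


/-- Let P be a Sylow p-subgroup of the finite group G that meets each conjugate g P g⁻¹ with g outside N_G(P) trivially, and let N be a normal subgroup of G of order prime to p. Then every Sylow p-subgroup Q of G ⧸ N meets each conjugate x Q x⁻¹ with x outside its normalizer trivially. -/
theorem result {G : Type*} [Group G] [Finite G] (p : ℕ) [Fact p.Prime] (P : Sylow p G) (hTI : ∀ g : G, g ∉ Subgroup.normalizer ((P : Subgroup G) : Set G) → (P : Subgroup G) ⊓ (MulAut.conj g • (P : Subgroup G)) = ⊥) (N : Subgroup G) [N.Normal] (hN : (Nat.card ↥N).Coprime p) (Q : Sylow p (G ⧸ N)) : ∀ x : G ⧸ N, x ∉ Subgroup.normalizer ((Q : Subgroup (G ⧸ N)) : Set (G ⧸ N)) → (Q : Subgroup (G ⧸ N)) ⊓ (MulAut.conj x • (Q : Subgroup (G ⧸ N))) = ⊥ := by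
  rw [H26.sylow_TI_iff] at hTI ⊢
  intro Q₁ Q₂ hne
  by_contra hb
  have hsurj := QuotientGroup.mk'_surjective N
  set H : Subgroup G := ((Q₁ : Subgroup (G ⧸ N)) ⊓ Q₂).comap (QuotientGroup.mk' N) with hH
  have hpd : p ∣ Nat.card ↥((Q₁ : Subgroup (G ⧸ N)) ⊓ Q₂) := by
    rcases (Q₁.isPGroup'.to_inf_left (K := Q₂)).card_eq_or_dvd with h | h
    · exact absurd (Subgroup.card_eq_one.1 h) hb
    · exact h
  have hpH : p ∣ Nat.card H := by
    refine hpd.trans ?_
    have : H.map (QuotientGroup.mk' N) = (Q₁ : Subgroup (G ⧸ N)) ⊓ Q₂ :=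
      Subgroup.map_comap_eq_self_of_surjective hsurj _
    rw [← this]
    exact Subgroup.card_map_dvd _ _
  obtain ⟨x, hx⟩ := exists_prime_orderOf_dvd_card' p hpH
  rw [← Subgroup.orderOf_coe] at hx
  have hD : IsPGroup p (Subgroup.zpowers (x : G)) :=
    IsPGroup.of_card (n := 1) (by rw [Nat.card_zpowers, hx, pow_one])
  have key : ∀ Q : Sylow p (G ⧸ N), (x : G) ∈ (Q : Subgroup (G ⧸ N)).comap (QuotientGroup.mk' N) →
      ∃ S : Sylow p G, (x : G) ∈ (S : Subgroup G) ∧ S.mapSurjective hsurj = Q := by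
    intro Q hQ
    obtain ⟨S, h1, h2⟩ := H26.exists_sylow_le_of_not_dvd_index hD (Subgroup.zpowers_le.2 hQ) (by
      rw [Subgroup.index_comap_of_surjective _ hsurj]
      exact Q.not_dvd_index)
    refine ⟨S, h1 (Subgroup.mem_zpowers _), Sylow.ext ?_⟩
    exact ((S.mapSurjective hsurj).is_maximal' Q.isPGroup' (Subgroup.map_le_iff_le_comap.2 h2)).symm
  obtain ⟨S₁, a1, b1⟩ := key Q₁ x.2.1
  obtain ⟨S₂, a2, b2⟩ := key Q₂ x.2.2
  have hS : S₁ ≠ S₂ := by
    rintro rfl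
    exact hne (b1.symm.trans b2)
  have : (x : G) ∈ (S₁ : Subgroup G) ⊓ S₂ := ⟨a1, a2⟩
  rw [hTI _ _ hS, Subgroup.mem_bot] at this
  rw [this, orderOf_one] at hx
  exact (Fact.out : p.Prime).one_lt.ne hx

end Cfsg.Agent.S3984
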