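import Cfsg.Statements.S3985
import Cfsg.Agent.Base
import Cfsg.Agent.H26.SylowTI
import Cfsg.Agent.H26.FrobConstruct


set_option autoImplicit false
open scoped Pointwise
open Cfsg

namespace Cfsg.Agent.S3985


/-- Let P be a cyclic Sylow p-subgroup of the finite group G. Then P meets each conjugate g P g⁻¹ with g outside N_G(P) trivially if and only if P is weakly self-centralizing: C_G(x) = C_G(P) for every non-identity x ∈ P. -/
theorem result {G : Type*} [Group G] [Finite G] (p : ℕ) [Fact p.Prime] (P : Sylow p G) (hcyc : IsCyclic ↥(P : Subgroup G)) : (∀ g : G, g ∉ Subgroup.normalizer ((P : Subgroup G) : Set G) → (P : Subgroup G) ⊓ (MulAut.conj g • (P : Subgroup G)) = ⊥) ↔ ∀ x : G, x ∈ (P : Subgroup G) → x ≠ 1 → Subgroup.centralizer ({x} : Set G) = Subgroup.centralizer ((P : Subgroup G) : Set G) := by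
  constructor
  · intro hTI x hx hx1
    refine le_antisymm ?_ (Subgroup.centralizer_le (Set.singleton_subset_iff.2 hx))
    intro g hg
    rw [Subgroup.mem_centralizer_singleton_iff] at hg
    have hgx : g * x * g⁻¹ = x := by rw [hg]; group
    have hn : g ∈ Subgroup.normalizer ((P : Subgroup G) : Set G) := by
      by_contra hn
      have h1 : x ∈ (P : Subgroup G) ⊓ (MulAut.conj g • (P : Subgroup G)) := by
        refine ⟨hx, (H26.mem_conj_smul_iff _ _ _).2 ?_⟩
        have : g⁻¹ * x * g = x := by rw [mul_assoc, ← hg]; group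
        rwa [this]
      rw [hTI g hn] at h1
      exact hx1 h1
    exact H26.mem_centralizer_of_cyclic_sylow P hcyc hn hx hx1 hgx
  · intro h g hg
    by_contra hb
    apply hg
    obtain ⟨⟨x, hx1, hx2⟩, hx⟩ := Subgroup.ne_bot_iff_exists_ne_one.1 hb
    have hx' : x ≠ 1 := fun h => hx (Subtype.ext h)
    have hy := (H26.mem_conj_smul_iff _ _ _).1 hx2
    have hy1 : g⁻¹ * x * g ≠ 1 := by
      intro h
      apply hx'
      have : x = g * (g⁻¹ * x * g) * g⁻¹ := by group
      rw [this, h]; group
    have hcomm : ∀ a ∈ (P : Subgroup G), ∀ b ∈ (P : Subgroup G), a * b = b * a := by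
      intro a ha b hb
      have := hcyc.isMulCommutative
      exact congrArg Subtype.val (mul_comm' (⟨a, ha⟩ : (P : Subgroup G)) ⟨b, hb⟩)
    have hle : ((g • P : Sylow p G) : Subgroup G) ≤ Subgroup.centralizer ((P : Subgroup G) : Set G) := by
      rw [← h x hx1 hx']
      intro z hz
      have hz' := (H26.mem_conj_smul_iff _ _ _).1 hz
      rw [Subgroup.mem_centralizer_singleton_iff]
      have := hcomm _ hz' _ hy
      calc z * x = g * ((g⁻¹ * z * g) * (g⁻¹ * x * g)) * g⁻¹ := by group
        _ = x * z := by rw [this]; group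
    have h2 := H26.le_sylow_of_le_normalizer' P (g • P).isPGroup'
      (hle.trans (Subgroup.centralizer_le_normalizer _))
    rw [Sylow.coe_coe, ← Sylow.smul_eq_iff_mem_normalizer]
    exact (Sylow.ext ((g • P).is_maximal' P.isPGroup' h2)).symm

end Cfsg.Agent.S3985
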