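import Cfsg.Statements.S3986
import Cfsg.Agent.H4.Cover

set_option autoImplicit false
open Cfsg

namespace Cfsg.Agent.S3986

open H4

/-- Let p be a prime and G a finite group. Then some Sylow p-subgroup of G is a direct factor of G (it is normal and has a normal complement) if and only if every element of p-power order commutes with every element whose order is a power of a prime other than p. -/
theorem result {G : Type*} [Group G] [Finite G] (p : ℕ) [Fact p.Prime] : (∃ (P : Sylow p G) (K : Subgroup G), (P : Subgroup G).Normal ∧ K.Normal ∧ (P : Subgroup G) ⊓ K = ⊥ ∧ (P : Subgroup G) ⊔ K = ⊤) ↔ ∀ x y : G, (∃ a : ℕ, orderOf x = p ^ a) → (∃ q b : ℕ, q.Prime ∧ q ≠ p ∧ orderOf y = q ^ b) → x * y = y * x := by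
  have hp : p.Prime := Fact.out
  constructor
  · rintro ⟨P, K, hP, hK, h1, h2⟩ x y ⟨a, ha⟩ ⟨q, b, hq, hqp, hb⟩
    have hc : K.IsComplement' (P : Subgroup G) :=
      (Subgroup.isComplement'_of_disjoint_and_mul_eq_univ (disjoint_iff.mpr h1) (by
        rw [← Subgroup.mul_normal, h2]; rfl)).symm
    have hx : x ∈ (P : Subgroup G) := mem_of_coprime_index (by
      rw [ha]; exact ((Nat.Prime.coprime_iff_not_dvd hp).mpr P.not_dvd_index).pow_left a)
    have hy : y ∈ K := mem_of_coprime_index (by
      obtain ⟨k, hk⟩ := P.isPGroup'.exists_card_eq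
      rw [hb, hc.symm.index_eq_card, hk]
      exact Nat.Coprime.pow _ _ ((Nat.coprime_primes hq hp).mpr hqp))
    exact (Subgroup.commute_of_normal_of_disjoint _ _ hP hK (disjoint_iff.mpr h1) x y hx hy).eq
  · intro h
    obtain ⟨P⟩ : Nonempty (Sylow p G) := inferInstance
    have h' : ∀ x : G, ¬ p ∣ orderOf x → x ∈ Subgroup.centralizer ((P : Subgroup G) : Set G) := by
      intro x hx
      refine mem_of_forall_primePow_mem x fun e q k hq hd hk y hy => h y _ ?_ ⟨q, k, hq, ?_, hk⟩
      · obtain ⟨a, ha⟩ := IsPGroup.iff_orderOf.mp P.isPGroup' ⟨y, hy⟩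
        exact ⟨a, by rw [← ha, Subgroup.orderOf_mk]⟩
      · rintro rfl; exact hx hd
    have hn := sylow_normal_of_not_dvd_ind P fun x hx =>
      not_dvd_ind_of_mem_centralizer_sylow P (h' x hx)
    obtain ⟨H, h1, h2, -, -⟩ := exists_normal_compl_of_centralize P h'
    exact ⟨P, H, hn, h1, h2.symm.disjoint.eq_bot, h2.symm.sup_eq_top⟩

end Cfsg.Agent.S3986
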