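import Cfsg.Statements.S3987
import Cfsg.Agent.H4.Cover
import Cfsg.Agent.S3986

set_option autoImplicit false
open Cfsg

namespace Cfsg.Agent.S3987

open H4

/-- Let p be a prime and G a finite group. Then some Sylow p-subgroup of G is a direct factor of G (normal with a normal complement) if and only if for every element x of p-power order and every element y whose order is a power of a prime other than p, the conjugacy class of x y has as many elements as the product of the sizes of the classes of x and of y. -/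
theorem result {G : Type*} [Group G] [Finite G] (p : ℕ) [Fact p.Prime] : (∃ (P : Sylow p G) (K : Subgroup G), (P : Subgroup G).Normal ∧ K.Normal ∧ (P : Subgroup G) ⊓ K = ⊥ ∧ (P : Subgroup G) ⊔ K = ⊤) ↔ ∀ x y : G, (∃ a : ℕ, orderOf x = p ^ a) → (∃ q b : ℕ, q.Prime ∧ q ≠ p ∧ orderOf y = q ^ b) → (Subgroup.centralizer ({x * y} : Set G)).index = (Subgroup.centralizer ({x} : Set G)).index * (Subgroup.centralizer ({y} : Set G)).index := by
  have hp : p.Prime := Fact.out
  rw [S3986.result]
  constructor
  · intro h x y hx hy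
    obtain ⟨P, K, hP, hK, h1, h2⟩ := (S3986.result p).mpr h
    obtain ⟨a, ha⟩ := hx
    obtain ⟨q, b, hq, hqp, hb⟩ := hy
    rw [H24.centralizer_mul_of_coprime (h x y ⟨a, ha⟩ ⟨q, b, hq, hqp, hb⟩) (by
      rw [ha, hb]; exact Nat.Coprime.pow _ _ ((Nat.coprime_primes hp hq).mpr hqp.symm))]
    apply index_inf_of_coprime
    have h3 : ¬ p ∣ ind y := not_dvd_ind_of_mem_centralizer_sylow P fun z hz => h z y (by
      obtain ⟨a, ha⟩ := IsPGroup.iff_orderOf.mp P.isPGroup' ⟨z, hz⟩
      exact ⟨a, by rw [← ha, Subgroup.orderOf_mk]⟩) ⟨q, b, hq, hqp, hb⟩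
    refine Nat.Coprime.symm (Nat.coprime_of_dvd fun r hr h4 h5 => ?_)
    have := Fact.mk hr
    obtain ⟨R⟩ : Nonempty (Sylow r G) := inferInstance
    refine not_dvd_ind_of_mem_centralizer_sylow R (fun z hz => (h x z ⟨a, ha⟩ ?_).symm) h5
    obtain ⟨c, hc⟩ := IsPGroup.iff_orderOf.mp R.isPGroup' ⟨z, hz⟩
    exact ⟨r, c, hr, fun e => h3 (e ▸ h4), by rw [← hc, Subgroup.orderOf_mk]⟩
  · intro h x y hx hy
    have h1 : Subgroup.centralizer ({x} : Set G) ⊓ Subgroup.centralizer ({y} : Set G) ≤
        Subgroup.centralizer ({x * y} : Set G) := fun g hg => mem_cent_iff.mpr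
      (Commute.mul_right (mem_cent_iff.mp hg.1) (mem_cent_iff.mp hg.2)).eq
    have h2 := Subgroup.relIndex_mul_index h1
    have h3 := Subgroup.index_inf_le (H := Subgroup.centralizer ({x} : Set G))
      (K := Subgroup.centralizer ({y} : Set G))
    rw [← h x y hx hy, ← h2] at h3
    have h4 := ind_pos (x * y)
    have h5 : (Subgroup.centralizer ({x} : Set G) ⊓ Subgroup.centralizer ({y} : Set G)).relIndex
        (Subgroup.centralizer ({x * y} : Set G)) ≠ 0 := Subgroup.index_ne_zero_of_finite
    have h6 : (Subgroup.centralizer ({x} : Set G) ⊓ Subgroup.centralizer ({y} : Set G)).relIndex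
        (Subgroup.centralizer ({x * y} : Set G)) = 1 :=
      le_antisymm (Nat.le_of_mul_le_mul_right (by rwa [one_mul]) h4) (Nat.pos_of_ne_zero h5)
    have h7 := mem_cent_iff.mp (Subgroup.relIndex_eq_one.mp h6 (mem_cent_iff.mpr rfl)).1
    rw [mul_assoc] at h7
    exact (mul_left_cancel h7).symm

end Cfsg.Agent.S3987
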