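import Cfsg.Statements.S3989
import Cfsg.Agent.H18.Elt
import Cfsg.Agent.H18.PSolv
import Cfsg.Agent.H7.Frobenius
import Cfsg.Agent.H2.MinNormal

set_option autoImplicit false
open Cfsg

namespace Cfsg.Agent.S3989

universe u

theorem aux (p : ℕ) [hp : Fact p.Prime] (n : ℕ) : ∀ (G : Type u) [Group G] [Finite G],
    Nat.card G = n → (∀ x y : G, (∃ a : ℕ, orderOf x = p ^ a) →
      (∃ q b : ℕ, q.Prime ∧ q ≠ p ∧ orderOf y = q ^ b) → ∀ b : G,
        IsConj (x * y) (x * (b * y * b⁻¹))) → Cfsg.IsPSolvable p G := by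
  induction n using Nat.strong_induction_on with
  | _ n ih =>
  intro G _ _ hn h
  rcases subsingleton_or_nontrivial G with hG | hG
  · exact H18.isPSolvable_of_isSolvable p
  obtain ⟨N, hNn, hN0, hmin⟩ := H2.exists_minimal_normal G
  refine H18.isPSolvable_of_normal_of_quotient N ?_ ?_
  · have hnpc : HasNormalPComplement p N := by
      refine H7.hasNPC_of_normalizer_centralizer fun Q hQ g hg hc => ?_
      refine H98.le_of_forall_prime_pow_mem (H := Subgroup.zpowers g) ?_ (Subgroup.mem_zpowers g)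
      intro q hq hqd y hy hyq
      have hyN : y ∈ Subgroup.normalizer (Q : Set N) := Subgroup.zpowers_le.2 hg hy
      have hqp : q ≠ p := by
        rintro rfl
        rw [Nat.card_zpowers] at hqd
        exact (Nat.Prime.coprime_iff_not_dvd hq).1 hc.symm hqd
      intro u hu
      by_contra hne
      set x : N := u⁻¹ * (y * u * y⁻¹) with hx
      have hxQ : x ∈ Q := mul_mem (inv_mem hu) (H98.conj_mem_of_mem_normalizer hyN hu)
      obtain ⟨b, hb⟩ := (H18.exists_orderOf_eq_pow_iff hq).2 hyq
      obtain ⟨a, ha⟩ := (IsPGroup.iff_orderOf.1 hQ) ⟨x, hxQ⟩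
      have h1 := h x y ⟨a, by rw [Subgroup.orderOf_coe, ← ha]; exact (Subgroup.orderOf_mk x hxQ).symm⟩
        ⟨q, b, hq, hqp, by rw [Subgroup.orderOf_coe, hb]⟩
      let K₀ : Submonoid G :=
        { carrier := {m | ∀ w, IsConj (y : G) w → IsConj (y : G) (m * w)}
          one_mem' := fun w hw => by rwa [one_mul]
          mul_mem' := fun {m m'} hm hm' w hw => by rw [mul_assoc]; exact hm _ (hm' w hw) }
      let K : Subgroup G :=
        { K₀ with
          inv_mem' := fun {m} hm => Submonoid.powers_le.2 hm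
            (mem_powers_iff_mem_zpowers.2 (inv_mem (Subgroup.mem_zpowers m))) }
      have hK : K.Normal := ⟨fun m hm g w hw => by
        have h2 := hm (g⁻¹ * w * g) (hw.trans (isConj_iff.2 ⟨g⁻¹, by group⟩))
        exact h2.trans (isConj_iff.2 ⟨g, by group⟩)⟩
      have hxK : (x : G) ∈ K := fun w hw => by
        obtain ⟨c, rfl⟩ := isConj_iff.1 hw
        refine IsConj.trans (isConj_iff.2 ⟨(u : G)⁻¹, ?_⟩) (h1 c)
        simp [hx, mul_assoc]
      rcases hmin (K ⊓ N) inferInstance inf_le_right with h0 | h0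
      · have h2 : (x : G) ∈ K ⊓ N := ⟨hxK, x.2⟩
        rw [h0, Subgroup.mem_bot, OneMemClass.coe_eq_one, hx] at h2
        exact hne (by rw [inv_mul_eq_one] at h2; exact (eq_mul_inv_iff_mul_eq.1 h2))
      · have h2 : (y : G)⁻¹ ∈ K := (h0.ge (inv_mem y.2)).1
        have h3 := h2 y (IsConj.refl _)
        rw [inv_mul_cancel, isConj_one_left, OneMemClass.coe_eq_one] at h3
        exact hne (by rw [h3, mul_one, one_mul])
    obtain ⟨K, hK, h1, h2⟩ := H7.hasNPC_iff_exists.1 hnpc
    exact H18.isPSolvable_of_normal_of_quotient K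
      (H18.isPSolvable_of_coprime ((Nat.Prime.coprime_iff_not_dvd hp.out).2 h1).symm)
      (H18.isPSolvable_of_isPGroup h2)
  · refine ih _ ?_ (G ⧸ N) rfl ?_
    · rw [← hn, ← Subgroup.index_eq_card, ← N.card_mul_index]
      exact lt_mul_of_one_lt_left (Nat.pos_of_ne_zero Subgroup.FiniteIndex.index_ne_zero)
        ((Subgroup.one_lt_card_iff_ne_bot N).2 hN0)
    · rintro x y hx ⟨q, b, hq, hqp, hy⟩ c
      obtain ⟨x, rfl, hx'⟩ := H18.exists_lift_primePow _ (QuotientGroup.mk'_surjective N) hp.out hx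
      obtain ⟨y, rfl, b', hy'⟩ :=
        H18.exists_lift_primePow _ (QuotientGroup.mk'_surjective N) hq ⟨b, hy⟩
      obtain ⟨c, rfl⟩ := QuotientGroup.mk'_surjective N c
      have := (QuotientGroup.mk' N).map_isConj (h x y hx' ⟨q, b', hq, hqp, hy'⟩ c)
      simpa only [map_mul, map_inv] using this

/-- Let p be a prime and G a finite group such that for every element x of p-power order and every element y whose order is a power of a prime other than p, the conjugacy class of x y is the set of all products of a conjugate of x with a conjugate of y. Then G is p-solvable. -/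
theorem result {G : Type*} [Group G] [Finite G] (p : ℕ) [Fact p.Prime] (h : ∀ x y : G, (∃ a : ℕ, orderOf x = p ^ a) → (∃ q b : ℕ, q.Prime ∧ q ≠ p ∧ orderOf y = q ^ b) → ∀ z : G, IsConj (x * y) z ↔ ∃ a b : G, z = a * x * a⁻¹ * (b * y * b⁻¹)) : Cfsg.IsPSolvable p G := by
  exact aux p _ G rfl fun x y hx hy b => (h x y hx hy _).2 ⟨1, b, by group⟩

end Cfsg.Agent.S3989
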