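import Cfsg.Statements.S4010
import Cfsg.Agent.H30.DerLen

set_option autoImplicit false
open Cfsg

namespace Cfsg.Agent.S4010

/-- Let F be a field, n ≥ 1, and P a finite p-group (p a prime) admitting an injective homomorphism into the general linear group of degree n over F. Then the derived length of P is at most ⌊log₂ n⌋ + 1: that term of the derived series of P is trivial. -/
theorem result {P : Type*} [Group P] [Finite P] (p : ℕ) [Fact p.Prime] (hP : IsPGroup p P) (F : Type*) [Field F] (n : ℕ) (hn : 1 ≤ n) (ρ : P →* Matrix.GeneralLinearGroup (Fin n) F) (hρ : Function.Injective ρ) : derivedSeries P (Nat.log 2 n + 1) = ⊥ := by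
  have lt := Nat.lt_pow_succ_log_self one_lt_two n
  let f := (Units.coeHom _).comp ρ
  have hf : Function.Injective f := Units.val_injective.comp hρ
  by_cases h0 : (p : F) = 0
  · haveI := (CharP.charP_iff_prime_eq_zero Fact.out).2 h0
    refine eq_bot_iff.2 fun x hx => hf (Matrix.toLinAlgEquiv'.injective ?_)
    rw [map_one, map_one]
    exact H30.DL.unip hP _ (V := Fin n → F)
      ((Matrix.toLinAlgEquiv' : Matrix (Fin n) (Fin n) F ≃ₐ[F] _).toMonoidHom.comp f) (by simpa using lt.le) hx
  · refine H30.DL.up_gl h0 H30.DL.small_one (fun _ => le_rfl) hP f hf ?_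
    simpa using lt.trans_le (Nat.pow_le_pow_left (Fact.out : p.Prime).two_le _)

end Cfsg.Agent.S4010
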