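import Cfsg.Statements.S4013
import Cfsg.Agent.Base
import Cfsg.Agent.H28.ConjCount
import Cfsg.Agent.H99.Product

set_option autoImplicit false
open Cfsg

namespace Cfsg.Agent.S4013

/-- Let G be a finite p-group (p prime) and N < M normal subgroups of G such that for some g ∈ M ∖ N the conjugacy class of g is exactly M ∖ N. Then p = 2 and N has index 2 in M. -/
theorem result {G : Type*} [Group G] [Finite G] (p : ℕ) [Fact p.Prime] (hG : IsPGroup p G) (N M : Subgroup G) [N.Normal] [M.Normal] (hNM : N < M) (g : G) (hgM : g ∈ M) (hgN : g ∉ N) (hcl : {h : G | IsConj g h} = (M : Set G) \ (N : Set G)) : p = 2 ∧ N.relIndex M = 2 := by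
  have hp : p.Prime := Fact.out
  have h1 : Nat.card {h // IsConj g h} = Nat.card M - Nat.card N := by
    change Nat.card ↥{h : G | IsConj g h} = _
    rw [hcl, Nat.card_coe_set_eq, Set.ncard_sdiff hNM.le]
    rfl
  have h2 := H99.card_inf_mul_relIndex M N
  rw [inf_eq_right.mpr hNM.le] at h2
  obtain ⟨k, hk⟩ := hG.index (Subgroup.centralizer {g})
  obtain ⟨j, hj⟩ := (hG.to_subgroup M).index (N.subgroupOf M)
  change N.relIndex M = _ at hj
  rw [H28.card_isConj_eq_index, hk, ← h2, ← Nat.mul_sub_one, hj] at h1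
  rcases j with _ | j
  · exact absurd (Subgroup.relIndex_eq_one.mp hj) hNM.not_ge
  have h3 : p ^ (j + 1) - 1 ∣ p ^ k := Dvd.intro_left _ h1.symm
  have hpos : 1 ≤ p ^ (j + 1) := Nat.one_le_pow _ _ hp.pos
  obtain ⟨i, -, hi⟩ := (Nat.dvd_prime_pow hp).mp h3
  rcases i with _ | i
  · have h4 : p ^ (j + 1) = 2 := by rw [← Nat.sub_add_cancel hpos, hi, pow_zero]
    exact ⟨(Nat.prime_two.pow_eq_iff.mp h4).1, hj.trans h4⟩
  · have h4 : p ^ (i + 1) + 1 = p ^ (j + 1) := by rw [← hi, Nat.sub_add_cancel hpos]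
    have h5 : p ∣ p ^ (i + 1) + 1 := h4 ▸ dvd_pow_self p j.succ_ne_zero
    exact absurd ((Nat.dvd_add_right (dvd_pow_self p i.succ_ne_zero)).mp h5) hp.not_dvd_one

end Cfsg.Agent.S4013
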