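import Cfsg.Statements.S4015
import Cfsg.Agent.H30.DerLen

set_option autoImplicit false
open Cfsg

namespace Cfsg.Agent.S4015

/-- Let p be an odd prime, F a finite field with q elements where p does not divide q, and e the multiplicative order of q modulo p. Let n ≥ e and write w = ⌊n/e⌋ and k = ⌊log_p w⌋. Then a Sylow p-subgroup of GL(n, F) has derived length exactly k + 1: its (k+1)-st derived subgroup is trivial and its k-th is not. -/
theorem result (p : ℕ) [Fact p.Prime] (hp : p ≠ 2) (F : Type*) [Field F] [Fintype F] (q : ℕ) (hq : Fintype.card F = q) (hpq : ¬ p ∣ q) (n : ℕ) (hn : orderOf (q : ZMod p) ≤ n) (P : Sylow p (Matrix.GeneralLinearGroup (Fin n) F)) : derivedSeries ↥(P : Subgroup (Matrix.GeneralLinearGroup (Fin n) F)) (Nat.log p (n / orderOf (q : ZMod p)) + 1) = ⊥ ∧ derivedSeries ↥(P : Subgroup (Matrix.GeneralLinearGroup (Fin n) F)) (Nat.log p (n / orderOf (q : ZMod p))) ≠ ⊥ := by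
  subst hq
  have hp' : p.Prime := Fact.out
  have h0 : (p : F) ≠ 0 := fun h => by
    haveI := (CharP.charP_iff_prime_eq_zero hp').2 h
    obtain ⟨k, -, e⟩ := FiniteField.card F p
    exact hpq (e ▸ dvd_pow_self p k.ne_zero)
  have h1 : (Fintype.card F : ZMod p) ≠ 0 := by rwa [Ne, ZMod.natCast_eq_zero_iff]
  have h2 := orderOf_dvd_of_pow_eq_one (ZMod.pow_card_sub_one_eq_one h1)
  have h3 : 0 < orderOf (Fintype.card F : ZMod p) := Nat.pos_of_dvd_of_pos h2 (by have := hp'.two_le; omega)
  refine ⟨H30.DL.up_gl h0 (H30.DL.small_fin hpq) (fun e => absurd e hp) P.isPGroup'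
    ((Units.coeHom _).comp (Subgroup.subtype _)) (Units.val_injective.comp (Subgroup.subtype_injective _)) ?_, ?_⟩
  · rw [Fintype.card_fin, mul_comm, ← Nat.div_lt_iff_lt_mul h3]
    exact Nat.lt_pow_succ_log_self hp'.one_lt _
  have h4 := pow_orderOf_eq_one (Fintype.card F : ZMod p)
  generalize orderOf (Fintype.card F : ZMod p) = e at *
  obtain ⟨x, hx⟩ := exists_prime_orderOf_dvd_card' (G := GL (Fin e) F) p (by
    rw [Matrix.card_GL_field]
    refine Dvd.dvd.trans ?_ (Finset.dvd_prod_of_mem _ (Finset.mem_univ ⟨0, h3⟩))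
    rw [← ZMod.natCast_eq_zero_iff, Nat.cast_sub (Nat.pow_le_pow_right Fintype.card_pos (Nat.zero_le _))]
    simp [h4])
  have g : H30.DL.Good F p False 0 e := ⟨Subgroup.zpowers x, inferInstance, inferInstance, Fin e → F, inferInstance,
    inferInstance, inferInstance, (Matrix.toLinAlgEquiv' : Matrix (Fin e) (Fin e) F ≃ₐ[F] _).toMonoidHom.comp
      ((Units.coeHom _).comp (Subgroup.subtype _)),
    IsPGroup.of_card (n := 1) (by rw [Nat.card_zpowers, hx, pow_one]), fun h => by
      have : (⟨x, Subgroup.mem_zpowers x⟩ : Subgroup.zpowers x) = 1 := h.le (Subgroup.mem_top _)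
      rw [show x = 1 from congrArg Subtype.val this, orderOf_one] at hx
      exact hp'.one_lt.ne hx, by simp,
    Matrix.toLinAlgEquiv'.injective.comp (Units.val_injective.comp (Subgroup.subtype_injective _)), False.elim⟩
  have le : p ^ Nat.log p (n / e) * e ≤ n :=
    (Nat.le_div_iff_mul_le h3).1 (Nat.pow_log_le_self p (Nat.div_pos hn h3).ne')
  obtain ⟨D, _, _, V, _, _, _, ρ, a1, a2, a3, a4, -⟩ := (g.iter (Nat.log p (n / e))).pad
    (Fin (n - p ^ Nat.log p (n / e) * e) → F) False.elim
  rw [Module.finrank_fin_fun, Nat.add_sub_cancel' le] at a3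
  rw [zero_add] at a2
  let b := Module.finBasisOfFinrankEq F V a3
  exact H30.DL.low a1 ((LinearMap.toMatrixAlgEquiv b).toMonoidHom.comp ρ).toHomUnits
    (fun x y e => a4 ((LinearMap.toMatrixAlgEquiv b).injective (congrArg Units.val e))) P a2

end Cfsg.Agent.S4015
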