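import Cfsg.Statements.S4028
import Cfsg.Agent.H18.Misc
import Cfsg.Agent.H18.Elt
import Cfsg.Agent.H98.Sylow
import Cfsg.Agent.H7.Hyperfocal

set_option autoImplicit false
open Cfsg

namespace Cfsg.Agent.S4028

/-- Let G be a finite group with Sylow 2-subgroup P. Then N_G(⟨x⟩) = C_G(x) holds for every 2-element x of G if and only if N_P(⟨y⟩) = C_P(y) holds for every y ∈ P (computed inside P). -/
theorem result {G : Type*} [Group G] [Finite G] (P : Sylow 2 G) :
    (∀ x : G, (∀ r : ℕ, r.Prime → r ∣ orderOf x → r = 2) →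
      Subgroup.normalizer ((Subgroup.zpowers x : Subgroup G) : Set G) ≤ Subgroup.centralizer {x}) ↔
    (∀ y : ↥(P : Subgroup G), Subgroup.normalizer ((Subgroup.zpowers y : Subgroup ↥(P : Subgroup G)) : Set ↥(P : Subgroup G)) ≤
        Subgroup.centralizer {y}) := by
  constructor
  · intro h y g hg
    have hy : ∀ r : ℕ, r.Prime → r ∣ orderOf (y : G) → r = 2 := fun r hr hd => by
      obtain ⟨k, hk⟩ := IsPGroup.iff_orderOf.1 P.isPGroup' y
      rw [Subgroup.orderOf_coe, hk] at hd
      exact (Nat.prime_dvd_prime_iff_eq hr Nat.prime_two).1 (hr.dvd_of_dvd_pow hd)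
    have := H98.map_le_normalizer_map (P : Subgroup G).subtype (Subgroup.zpowers_le.2 hg)
      (Subgroup.mem_map_of_mem _ (Subgroup.mem_zpowers g))
    rw [MonoidHom.map_zpowers] at this
    exact Subgroup.mem_centralizer_singleton_iff.2
      (Subtype.ext (Subgroup.mem_centralizer_singleton_iff.1 (h y hy this)))
  · intro h x hx
    have hx2 : IsPGroup 2 (Subgroup.zpowers x) :=
      H18.isPGroup_of_forall_prime fun q hq hd => hx q hq (Nat.card_zpowers x ▸ hd)
    refine H98.le_of_forall_prime_pow_mem fun q hq _ g hg hk => ?_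
    by_cases hq2 : q = 2
    · subst hq2
      obtain ⟨u, -, hu⟩ := (H98.isSyl_sylow P).exists_cj_le
        (IsPGroup.to_sup_of_normal_left' hx2 (H18.isPGroup_zpowers_iff.2 hk)
          (Subgroup.zpowers_le.2 hg)) le_top
      have h1 := hu (H98.conj_mem_cj (Subgroup.mem_sup_left (Subgroup.mem_zpowers x)))
      have h2 := hu (H98.conj_mem_cj (Subgroup.mem_sup_right (Subgroup.mem_zpowers g)))
      have h3 := h ⟨_, h1⟩ (show (⟨_, h2⟩ : (P : Subgroup G)) ∈ _ from by
        have h4 : u * g * u⁻¹ ∈ Subgroup.normalizer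
            ((Subgroup.zpowers (u * x * u⁻¹) : Subgroup G) : Set G) := by
          have := H98.conj_mem_cj (g := u) hg
          rwa [H98.cj_normalizer, H98.cj, MonoidHom.map_zpowers] at this
        have h5 : Subgroup.zpowers (⟨_, h1⟩ : (P : Subgroup G)) =
            (Subgroup.zpowers (u * x * u⁻¹)).subgroupOf P := by
          apply Subgroup.map_injective (P : Subgroup G).subtype_injective
          rw [MonoidHom.map_zpowers, Subgroup.map_subgroupOf_eq_of_le (Subgroup.zpowers_le.2 h1)]
          rfl
        rw [h5, Subgroup.mem_normalizer_iff]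
        exact fun a => Subgroup.mem_normalizer_iff.1 h4 a)
      have h4 := congrArg Subtype.val (Subgroup.mem_centralizer_singleton_iff.1 h3)
      refine Subgroup.mem_centralizer_singleton_iff.2 ((MulAut.conj u).injective ?_)
      simpa [mul_assoc] using h4
    · obtain ⟨k, hk⟩ := (H18.exists_orderOf_eq_pow_iff hq).2 hk
      have := H7.mem_centralizer_of_isCyclic hx2 inferInstance hg (by
        rw [hk]; exact ((Nat.coprime_primes hq Nat.prime_two).2 hq2).pow_left _) (by simp)
      exact Subgroup.mem_centralizer_singleton_iff.2 (H18.mem_centralizer_zpowers_iff.1 this)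

end Cfsg.Agent.S4028
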