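import Cfsg.Statements.S4029
import Cfsg.Agent.Base
import Cfsg.Agent.H3.FrattiniP

set_option autoImplicit false
open Cfsg

namespace Cfsg.Agent.S4029

/-- Let P be a finite 2-group in which N_P(⟨y⟩) = C_P(y) for every y ∈ P. If s is the number of conjugacy classes of involutions of P, then #(P/Φ(P)) ≤ s + 1; in particular the subgroup generated by the involutions of P has order at least #(P/Φ(P)). -/
theorem result {P : Type*} [Group P] [Finite P] (hP : IsPGroup 2 P)
    (hirr : ∀ y : P, Subgroup.normalizer ((Subgroup.zpowers y : Subgroup P) : Set P) ≤ Subgroup.centralizer {y}) :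
    Nat.card (P ⧸ frattini P) ≤ Nat.card {c : ConjClasses P // ∃ y : P, ConjClasses.mk y = c ∧ orderOf y = 2} + 1 ∧
    Nat.card (P ⧸ frattini P) ≤ Nat.card (Subgroup.closure {y : P | orderOf y = 2}) := by
  classical
  have := Fintype.ofFinite P
  set K := {c : ConjClasses P // ∃ y : P, ConjClasses.mk y = c ∧ orderOf y = 2}
  have key : Nat.card (P ⧸ frattini P) ≤ Nat.card K + 1 := by
    have rep : ∀ a : P, ∃ t : P, t * Quotient.out (ConjClasses.mk a) * t⁻¹ = a := fun a =>
      isConj_iff.1 (ConjClasses.mk_eq_mk_iff_isConj.1 (Quotient.out_eq _))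
    choose t ht using rep
    have sq : ∀ x y : P, x ^ 2 = y ^ 2 → (x⁻¹ * y) * x = x * (x⁻¹ * y) ∧ (x⁻¹ * y) ^ 2 = 1 := by
      intro x y e
      have e1 : x⁻¹ * (x⁻¹ * y) * x⁻¹⁻¹ = (x⁻¹ * y)⁻¹ := by
        calc _ = (x ^ 2)⁻¹ * y * x := by group
          _ = _ := by rw [e]; group
      have c := Subgroup.mem_centralizer_singleton_iff.1 (hirr (x⁻¹ * y) (x := x⁻¹)
        (Subgroup.mem_normalizer_fintype (by
          rintro _ ⟨n, rfl⟩
          rw [← conj_zpow, e1]
          exact zpow_mem (inv_mem (Subgroup.mem_zpowers _)) n)))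
      refine ⟨(Commute.inv_left_iff.1 c).eq.symm, ?_⟩
      rw [c, mul_inv_cancel_right] at e1
      rw [pow_two]
      exact mul_eq_one_iff_eq_inv.2 e1
    let f : {q : P × P // q.1 ^ 2 = q.2 ^ 2} → Option K × P := fun q =>
      (if h : q.1.1⁻¹ * q.1.2 = 1 then none else
        some ⟨ConjClasses.mk (q.1.1⁻¹ * q.1.2), _, rfl, orderOf_eq_prime (sq _ _ q.2).2 h⟩,
        q.1.1 * t (q.1.1⁻¹ * q.1.2))
    have inj : Function.Injective f := by
      rintro ⟨⟨x, y⟩, e⟩ ⟨⟨x', y'⟩, e'⟩ h
      have h2 : x * t (x⁻¹ * y) = x' * t (x'⁻¹ * y') := congrArg Prod.snd h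
      have h1 : ConjClasses.mk (x⁻¹ * y) = ConjClasses.mk (x'⁻¹ * y') := by
        have h1 := congrArg Prod.fst h
        simp only [f] at h1
        split_ifs at h1 with a b
        · rw [a, b]
        · exact congrArg Subtype.val (Option.some.inj h1)
      have k : ∀ x y : P, x ^ 2 = y ^ 2 → x * t (x⁻¹ * y) * Quotient.out (ConjClasses.mk (x⁻¹ * y)) *
          (x * t (x⁻¹ * y))⁻¹ = x⁻¹ * y := fun x y e => by
        calc _ = x * (t (x⁻¹ * y) * Quotient.out (ConjClasses.mk (x⁻¹ * y)) *
          (t (x⁻¹ * y))⁻¹) * x⁻¹ := by group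
          _ = _ := by rw [ht, ← (sq x y e).1, mul_inv_cancel_right]
      have h3 : x⁻¹ * y = x'⁻¹ * y' := by rw [← k x y e, ← k x' y' e', h2, h1]
      rw [h3] at h2
      obtain rfl := mul_right_cancel h2
      obtain rfl := mul_left_cancel h3
      rfl
    have c1 := Nat.card_le_card_of_injective f inj
    rw [Nat.card_prod, Finite.card_option] at c1
    set Φ : Finset P := Finset.univ.filter (· ∈ frattini P)
    have mem : ∀ x : P, x ^ 2 ∈ Φ := fun x =>
      Finset.mem_filter.2 ⟨Finset.mem_univ _, H3.pow_mem_frattini_pgroup hP x⟩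
    have c2 := sq_sum_le_card_mul_sum_sq (s := Φ)
      (f := fun g => (Finset.univ.filter fun x : P => x ^ 2 = g).card)
    rw [← Finset.card_eq_sum_card_fiberwise (fun x _ => mem x)] at c2
    have c3 : ∑ g ∈ Φ, (Finset.univ.filter fun x : P => x ^ 2 = g).card ^ 2 =
        Nat.card {q : P × P // q.1 ^ 2 = q.2 ^ 2} := by
      rw [Nat.card_eq_fintype_card, Fintype.card_subtype,
        Finset.card_eq_sum_card_fiberwise (f := fun q : P × P => q.1 ^ 2) (t := Φ) fun q _ => mem _]
      refine Finset.sum_congr rfl fun g _ => ?_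
      rw [pow_two (Finset.card _), ← Finset.card_product]
      congr 1
      ext q
      simp only [Finset.mem_product, Finset.mem_filter, Finset.mem_univ, true_and]
      exact ⟨fun h => ⟨h.1.trans h.2.symm, h.1⟩, fun h => ⟨h.2, h.1.symm.trans h.2⟩⟩
    have c4 : Φ.card = Nat.card (frattini P) := by
      rw [Nat.card_eq_fintype_card, Fintype.card_subtype]
    rw [c3, c4, Finset.card_univ, ← Nat.card_eq_fintype_card] at c2
    have c5 := c2.trans (Nat.mul_le_mul_left _ c1)
    rw [pow_two, ← mul_assoc] at c5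
    have c6 := Nat.le_of_mul_le_mul_right c5 Nat.card_pos
    rw [(frattini P).card_eq_card_quotient_mul_card_subgroup, mul_comm] at c6
    exact Nat.le_of_mul_le_mul_left c6 Nat.card_pos
  refine ⟨key, key.trans ?_⟩
  rw [← Finite.card_option]
  have o : ∀ c : K, orderOf c.2.choose = 2 := fun c => c.2.choose_spec.2
  refine Nat.card_le_card_of_injective (fun c => c.elim 1 fun c =>
    (⟨c.2.choose, Subgroup.subset_closure (o c)⟩ : Subgroup.closure {y : P | orderOf y = 2})) ?_
  have n : ∀ c : K, c.2.choose ≠ 1 := fun c e => by simpa [e] using o c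
  rintro (_ | c) (_ | d) e
  · rfl
  · exact absurd (congrArg Subtype.val e).symm (n d)
  · exact absurd (congrArg Subtype.val e) (n c)
  · have e : c.2.choose = d.2.choose := congrArg Subtype.val e
    exact congrArg some (Subtype.ext (by rw [← c.2.choose_spec.1, e, d.2.choose_spec.1]))

end Cfsg.Agent.S4029
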