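import Cfsg.Statements.S4036
import Cfsg.Agent.Base

set_option autoImplicit false
open Cfsg

namespace Cfsg.Agent.S4036

/-- Let P be a finite abelian p-group and K a group of automorphisms of P (a subgroup of Aut P) whose order is divisible by p. If all non-identity elements of K have the same fixed-point subgroup on P, then K has no non-trivial normal subgroup of order prime to p. -/
theorem result {P : Type*} [CommGroup P] [Finite P] {p : ℕ}
    [Fact p.Prime] (hP : IsPGroup p P) (K : Subgroup (MulAut P)) (hK : p ∣ Nat.card K)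
    (hfix : ∀ x y : MulAut P, x ∈ K → y ∈ K → x ≠ 1 → y ≠ 1 → ∀ v : P, x v = v ↔ y v = v) :
    ∀ N : Subgroup ↥K, N.Normal → ¬ p ∣ Nat.card N → N = ⊥ := by
  classical
  intro N hN hNp
  by_contra hne
  obtain ⟨⟨n, hn⟩, hn1⟩ := Subgroup.ne_bot_iff_exists_ne_one.1 hne
  replace hn1 : (n : MulAut P) ≠ 1 := fun e => hn1 (Subtype.ext (Subtype.ext e))
  obtain ⟨x, hx⟩ := exists_prime_orderOf_dvd_card' p hK
  have hx1 : (x : MulAut P) ≠ 1 := fun e => by
    rw [show x = 1 from Subtype.ext e, orderOf_one] at hx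
    exact (Fact.out : p.Prime).one_lt.ne hx
  haveI := Fintype.ofFinite N
  let T : P →* P := ∏ m : N, ((m : K) : MulAut P).toMonoidHom
  have hT : ∀ v, T v = ∏ m : N, ((m : K) : MulAut P) v := fun v => MonoidHom.finsetProd_apply _ _ _
  have h1 : ∀ v, n.1 (T v) = T v := fun v => by
    rw [hT, map_prod]
    exact Fintype.prod_equiv (Equiv.mulLeft (⟨n, hn⟩ : N)) _ _ fun m => rfl
  have h2 : ∀ v, T (x.1 v) = x.1 (T v) := fun v => by
    rw [hT, hT, map_prod]
    refine (Fintype.prod_equiv (MulAut.conjNormal x).toEquiv _ _ fun m => ?_).symm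
    change _ = (x.1 * m.1.1 * x.1⁻¹) (x.1 v)
    simp
  have h3 : T.ker ≠ ⊥ := fun e => by
    have := Finite.injective_iff_surjective.1 ((MonoidHom.ker_eq_bot_iff T).1 e)
    refine hn1 (MulEquiv.ext fun v => ?_)
    obtain ⟨v, rfl⟩ := this v
    exact h1 v
  letI : MulAction (Subgroup.zpowers x) T.ker :=
    { smul := fun a v => ⟨a.1.1 v, by
        obtain ⟨k, hk⟩ := mem_powers_iff_mem_zpowers.2 a.2
        rw [← hk]
        have hv := v.2
        clear hk
        induction k with
        | zero => exact hv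
        | succ k ih =>
          change (x.1 ^ (k + 1)) v ∈ _
          rw [pow_succ', MulAut.mul_apply, MonoidHom.mem_ker, h2]
          exact (congrArg x.1 ih).trans (map_one _)⟩
      one_smul := fun v => rfl
      mul_smul := fun a b v => rfl }
  have hz : IsPGroup p (Subgroup.zpowers x) :=
    IsPGroup.of_card ((Nat.card_zpowers x).trans (hx.trans (pow_one p).symm))
  obtain ⟨v, hv, hv1⟩ := hz.exists_fixed_point_of_prime_dvd_card_of_fixed_point T.ker (by
    obtain ⟨k, hk⟩ := (hP.to_subgroup T.ker).exists_card_eq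
    rw [hk]
    refine dvd_pow_self p ?_
    rintro rfl
    exact h3 (Subgroup.card_eq_one.1 hk)) (a := 1) fun a => Subtype.ext (map_one a.1.1)
  have h4 : x.1 v = v := congrArg Subtype.val (hv ⟨x, Subgroup.mem_zpowers x⟩)
  have h5 : (v : P) ^ Nat.card N = 1 := by
    rw [← v.2, hT, Finset.prod_congr rfl (g := fun _ => (v : P)) fun m _ => ?_]
    · simp
    · by_cases hm : ((m : K) : MulAut P) = 1
      · rw [hm]; rfl
      · exact (hfix _ _ x.2 m.1.2 hx1 hm v).1 h4
  obtain ⟨k, hk⟩ := hP v
  exact hv1 (Subtype.ext (orderOf_eq_one_iff.1 (Nat.eq_one_of_dvd_coprimes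
    (((Fact.out : p.Prime).coprime_iff_not_dvd.2 hNp).pow_left k) (orderOf_dvd_of_pow_eq_one hk)
    (orderOf_dvd_of_pow_eq_one h5))).symm)

end Cfsg.Agent.S4036
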