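import Cfsg.Statements.S4043
import Cfsg.Agent.H18.Misc2
import Cfsg.Agent.H7.NPC
import Cfsg.Agent.H2.MinNormal

set_option autoImplicit false
open Cfsg

namespace Cfsg.Agent.S4043

open Subgroup

theorem norm_eq {G : Type*} [Group G] [Finite G] {p : ℕ}
    [Fact p.Prime] (N : Subgroup G) [N.Normal] (hN : IsPGroup p N) (A : Subgroup G)
    (hA : A.IsComplement' N) (hAp : Cfsg.HasNormalPComplement p A)
    (hC : ∀ n : G, n ∈ N → (∀ a : G, a ∈ A → a * n * a⁻¹ = n) → n = 1) :
    normalizer ((pResidual p A).map A.subtype : Set G) = A := by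
  set K := (pResidual p A).map A.subtype
  have hAK : A ≤ normalizer (K : Set G) := H98.le_normalizer_map_subtype _
  have hKA : K ≤ A := map_subtype_le _
  have hd : Disjoint K N := hA.disjoint.mono_left hKA
  have h1 : N ⊓ normalizer (K : Set G) = ⊥ := by
    by_contra hne
    obtain ⟨P⟩ : Nonempty (Sylow p A) := inferInstance
    have hP : IsPGroup p ((P : Subgroup A).map A.subtype) := P.isPGroup'.map _
    have hsup : K ⊔ (P : Subgroup A).map A.subtype = A := by
      rw [← Subgroup.map_sup, H7.pResidual_sup_sylow, ← MonoidHom.range_eq_map, range_subtype]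
    have hAD : A ≤ normalizer ((N ⊓ normalizer (K : Set G) : Subgroup G) : Set G) :=
      H98.le_normalizer_inf le_normalizer_of_normal (H98.le_normalizer_normalizer hAK)
    haveI := (IsPGroup.to_sup_of_normal_right' hP (hN.to_le inf_le_left)
      ((map_subtype_le _).trans hAD)).isNilpotent
    obtain ⟨⟨n, ⟨hn, _⟩, hc⟩, hn1⟩ := ne_bot_iff_exists_ne_one.1 (H2.inf_inf_centralizer_ne_bot
      (N := N ⊓ normalizer (K : Set G)) (K := (P : Subgroup A).map A.subtype ⊔
        (N ⊓ normalizer (K : Set G))) (sup_le ((map_subtype_le _).trans hAD) le_normalizer)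
        (by rwa [inf_eq_left.2 le_sup_right]))
    refine hn1 (Subtype.ext (hC n hn.1 fun a ha => ?_))
    have : A ≤ centralizer {n} := hsup.ge.trans (sup_le (fun k hk =>
      mem_centralizer_singleton_iff.2 (by
        rw [← mul_inv_eq_iff_eq_mul, ← mul_inv_eq_one]
        refine disjoint_def.1 hd ?_ (mul_mem (Normal.conj_mem ‹_› n hn.1 k) (inv_mem hn.1))
        rw [show k * n * k⁻¹ * n⁻¹ = k * (n * k⁻¹ * n⁻¹) by group]
        exact mul_mem hk (H98.conj_mem_of_mem_normalizer hn.2 (inv_mem hk))))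
      fun k hk => mem_centralizer_singleton_iff.2 (hc k (mem_sup_left hk)))
    rw [mem_centralizer_singleton_iff.1 (this ha), mul_inv_cancel_right]
  have := H98.sup_inf_of_le_left (N := N) le_normalizer_of_normal hAK
  rwa [hA.sup_eq_top, top_inf_eq, h1, sup_bot_eq] at this

theorem map_res {G : Type*} [Group G] [Finite G] {p : ℕ}
    [Fact p.Prime] (N : Subgroup G) [N.Normal] (A : Subgroup G) (hA : A.IsComplement' N) :
    ((pResidual p A).map A.subtype).map (QuotientGroup.mk' N) = pResidual p (G ⧸ N) := by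
  rw [Subgroup.map_map]
  refine H7.map_pResidual_of_surjective _ fun y => ?_
  obtain ⟨g, rfl⟩ := QuotientGroup.mk_surjective y
  obtain ⟨a, ha, b, hb, rfl⟩ := mem_sup_of_normal_right.1 (hA.sup_eq_top.ge (mem_top g))
  exact ⟨⟨a, ha⟩, QuotientGroup.eq.2 (by simpa using hb)⟩

/-- Let G be a finite group that is the semidirect product of a normal p-subgroup N by a subgroup A, and also of N by a subgroup A₁, where p is a prime and A and A₁ both have normal p-complements. If C_N(A) = C_N(A₁) = 1, then A₁ is conjugate to A by an element of N. -/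
theorem result {G : Type*} [Group G] [Finite G] {p : ℕ}
    [Fact p.Prime] (N : Subgroup G) [N.Normal] (hN : IsPGroup p N) (A A₁ : Subgroup G)
    (hA : A.IsComplement' N) (hA₁ : A₁.IsComplement' N)
    (hAp : Cfsg.HasNormalPComplement p A) (hA₁p : Cfsg.HasNormalPComplement p A₁)
    (hC : ∀ n : G, n ∈ N → (∀ a : G, a ∈ A → a * n * a⁻¹ = n) → n = 1)
    (hC₁ : ∀ n : G, n ∈ N → (∀ a : G, a ∈ A₁ → a * n * a⁻¹ = n) → n = 1) :
    ∃ n : G, n ∈ N ∧ A₁ = A.map (MulAut.conj n).toMonoidHom := by
  have h1 := norm_eq N hN A hA hAp hC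
  have h2 := norm_eq N hN A₁ hA₁ hA₁p hC₁
  have hc : ∀ B : Subgroup G, HasNormalPComplement p B →
      (Nat.card ((pResidual p B).map B.subtype)).Coprime (Nat.card N) := fun B hB => by
    rw [card_map_of_injective B.subtype_injective]
    exact H1.coprime_card_of_isPGroup hN
      ((Nat.Prime.coprime_iff_not_dvd Fact.out).2 (H7.hasNPC_iff_not_dvd.1 hB)).symm
  have key : ∀ B C : Subgroup G, B.IsComplement' N → C.IsComplement' N → HasNormalPComplement p B →
      ∃ n ∈ N, H98.cj n ((pResidual p B).map B.subtype) ≤ (pResidual p C).map C.subtype := by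
    intro B C hB hC hBp
    refine H1.exists_conj_le_of_le_mul _ N _ le_normalizer_of_normal (hc B hBp)
      (Or.inr (H1.isSolvable_of_isPGroup hN)) fun a ha => ?_
    have := mem_map_of_mem (QuotientGroup.mk' N) ha
    rw [map_res N B hB, ← map_res N C hC] at this
    obtain ⟨k, hk, e⟩ := this
    refine ⟨a * k⁻¹, ?_, k, hk, by simp⟩
    rw [← QuotientGroup.eq_one_iff, ← QuotientGroup.mk'_apply, map_mul, map_inv, e, mul_inv_cancel]
  obtain ⟨n, hn, e⟩ := key A A₁ hA hA₁ hAp
  obtain ⟨m, -, e'⟩ := key A₁ A hA₁ hA hA₁p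
  have e2 := eq_of_le_of_card_ge e (by
    rw [H98.card_cj, ← H98.card_cj m]; exact card_le_of_le e')
  refine ⟨n, hn, ?_⟩
  change _ = H98.cj n A
  rw [← h2, ← e2, ← H98.cj_normalizer, h1]

end Cfsg.Agent.S4043
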