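import Cfsg.Statements.S4056
import Cfsg.Agent.Base
import Cfsg.Agent.H3.FrattiniP

set_option autoImplicit false
open Cfsg

namespace Cfsg.Agent.S4056

/-- In a finite 2-group of nilpotency class at most 2 and exponent dividing 4, the Frattini subgroup lies in the centre and is elementary abelian. -/
theorem result {P : Type*} [Group P] [Finite P] (hP : IsPGroup 2 P)
    (hcl : Group.nilpotencyClass P ≤ 2) (hexp : Monoid.exponent P ∣ 4) :
    frattini P ≤ Subgroup.center P ∧ Cfsg.IsElementaryAbelian 2 (frattini P) := by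
  have := hP.isNilpotent
  have h4 : ∀ x : P, x ^ 4 = 1 := Monoid.exponent_dvd_iff_forall_pow_eq_one.mp hexp
  have hc : ∀ x y : P, x * y * x⁻¹ * y⁻¹ ∈ Subgroup.center P := by
    intro x y
    have h1 : Subgroup.upperCentralSeries P 2 = ⊤ :=
      Subgroup.upperCentralSeries_eq_top_iff_nilpotencyClass_le.mpr hcl
    have h2 : x ∈ Subgroup.upperCentralSeries P (1 + 1) := h1 ▸ Subgroup.mem_top x
    rw [Subgroup.mem_upperCentralSeries_succ_iff, Subgroup.upperCentralSeries_one] at h2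
    exact h2 y
  -- commutators have order at most two
  have key : ∀ x y : P, x ^ 2 * y * (x ^ 2)⁻¹ * y⁻¹ = (x * y * x⁻¹ * y⁻¹) ^ 2 := by
    intro x y
    have h1 := Subgroup.mem_center_iff.mp (hc x y) x
    calc x ^ 2 * y * (x ^ 2)⁻¹ * y⁻¹
        = (x * (x * y * x⁻¹ * y⁻¹)) * (y * x⁻¹ * y⁻¹) := by rw [pow_two]; group
      _ = _ := by rw [h1, pow_two]; group
  let E : Subgroup P :=
    { carrier := {z | z ∈ Subgroup.center P ∧ z ^ 2 = 1}
      one_mem' := ⟨one_mem _, one_pow _⟩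
      mul_mem' := fun {a b} ha hb => ⟨mul_mem ha.1 hb.1, by
        rw [Commute.mul_pow (Subgroup.mem_center_iff.mp hb.1 a), ha.2, hb.2, mul_one]⟩
      inv_mem' := fun {a} ha => ⟨inv_mem ha.1, by rw [inv_pow, ha.2, inv_one]⟩ }
  have hsq : ∀ x y : P, (x * y * x⁻¹ * y⁻¹) ^ 2 = 1 := by
    intro x y
    -- (xy)^4 = x^4 y^4 c^6 with c = [y,x] central
    set c := x * y * x⁻¹ * y⁻¹ with hcdef
    have hcz := Subgroup.mem_center_iff.mp (hc x y)
    have hxy : x * y = c * (y * x) := by rw [hcdef]; group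
    have hyx : y * x = c⁻¹ * (x * y) := by rw [hxy]; group
    have hcz' : ∀ g, g * c⁻¹ = c⁻¹ * g := fun g =>
      Subgroup.mem_center_iff.mp (inv_mem (hc x y)) g
    have h2 : (x * y) ^ 2 = c⁻¹ * (x ^ 2 * y ^ 2) := by
      calc (x * y) ^ 2 = x * (y * x) * y := by rw [pow_two]; group
        _ = (x * c⁻¹) * (x * y) * y := by rw [hyx]; group
        _ = _ := by rw [hcz' x]; simp only [pow_two, mul_assoc]
    have h3 : x ^ 2 * y = c ^ 2 * (y * x ^ 2) := by rw [← key]; group
    have h5 : x ^ 2 * y ^ 2 = y ^ 2 * x ^ 2 := by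
      have hc2 : ∀ g, g * c ^ 2 = c ^ 2 * g := fun g =>
        Subgroup.mem_center_iff.mp (pow_mem (hc x y) 2) g
      calc x ^ 2 * y ^ 2 = (x ^ 2 * y) * y := by rw [pow_two y, mul_assoc]
        _ = c ^ 2 * (y * (x ^ 2 * y)) := by
          conv_lhs => rw [h3]
          simp only [mul_assoc]
        _ = c ^ 2 * ((y * c ^ 2) * (y * x ^ 2)) := by rw [h3]; group
        _ = c ^ 4 * (y ^ 2 * x ^ 2) := by rw [hc2 y, pow_two y]; group
        _ = _ := by rw [h4, one_mul]
    have h6 : (x ^ 2 * y ^ 2) ^ 2 = 1 := by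
      rw [Commute.mul_pow h5, ← pow_mul, ← pow_mul, h4, h4, mul_one]
    have h7 := h4 (x * y)
    rw [show 4 = 2 * 2 from rfl, pow_mul, h2, Commute.mul_pow (hcz' _).symm, h6, mul_one, inv_pow,
      inv_eq_one] at h7
    exact h7
  have hE : frattini P ≤ E := by
    have : E.Normal := ⟨fun a ha g => by
      rw [Subgroup.mem_center_iff.mp ha.1 g, mul_inv_cancel_right]; exact ha⟩
    refine H3.frattini_le_of_elementary_quotient (p := 2) E ?_ fun x => ⟨?_, ?_⟩
    · exact Subgroup.commutator_le.mpr fun x _ y _ => ⟨hc x y, hsq x y⟩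
    · refine Subgroup.mem_center_iff.mpr fun y => ?_
      have := key x y
      rw [hsq, mul_inv_eq_one, mul_inv_eq_iff_eq_mul] at this
      exact this.symm
    · rw [← pow_mul]; exact h4 x
  exact ⟨fun x hx => (hE hx).1, ⟨⟨⟨fun a b => Subtype.ext
    (Subgroup.mem_center_iff.mp (hE b.2).1 a)⟩⟩, fun x hx => (hE hx).2⟩⟩

end Cfsg.Agent.S4056
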