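import Cfsg.Statements.S4058
import Cfsg.Agent.H30.Counting
import Cfsg.Agent.H30.FrobSchur
import Cfsg.Agent.H28.CharCenter
import Cfsg.Agent.H28.Degree
import Cfsg.Agent.H3.FrattiniP

set_option autoImplicit false
open Cfsg

namespace Cfsg.Agent.S4058

open H28 H30

theorem dvd_sum_of_orbit {V X : Type*} [Group V] [Fintype X] [MulAction V X] (f : X → ℤ)
    (hf : ∀ (v : V) x, f (v • x) = f x) (m : ℤ)
    (h : ∀ x, m ∣ (Nat.card (MulAction.orbit V x) : ℤ) * f x) : m ∣ ∑ x, f x := by
  classical
  rw [← Finset.sum_fiberwise Finset.univ (fun x => (Quotient.mk'' x : MulAction.orbitRel.Quotient V X))]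
  refine Finset.dvd_sum fun q _ => ?_
  induction q using Quotient.inductionOn' with
  | h x =>
  have e : Finset.univ.filter (fun y => (Quotient.mk'' y : MulAction.orbitRel.Quotient V X) =
      Quotient.mk'' x) = (MulAction.orbit V x).toFinset := by
    ext y
    simp only [Finset.mem_filter, Finset.mem_univ, true_and, Set.mem_toFinset, Quotient.eq'']
    exact MulAction.orbitRel_apply
  rw [e, Finset.sum_congr rfl (g := fun _ => f x), Finset.sum_const, nsmul_eq_mul,
    Set.toFinset_card, ← Nat.card_eq_fintype_card]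
  · exact h x
  · intro y hy
    obtain ⟨v, rfl⟩ := Set.mem_toFinset.1 hy
    exact hf v x

/-- Linear characters of a quotient act on the irreducible characters. -/
@[reducible] noncomputable def act {G : Type*} [Group G] [Finite G] (N : Subgroup G) [N.Normal] :
    MulAction (G ⧸ N →* ℂˣ) (IrrCharacter G) where
  smul l χ := ⟨χ.1 * fun g => (l.comp (QuotientGroup.mk' N) g : ℂ),
    χ.2.mul_linear (isCharacter_of_hom _) (by simp)⟩
  one_smul χ := Subtype.ext (by
    change χ.1 * _ = χ.1
    ext g; simp)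
  mul_smul a b χ := Subtype.ext (by
    change χ.1 * _ = χ.1 * _ * _
    ext g; simp [mul_assoc, mul_comm, mul_left_comm])

theorem card_le_sq {G : Type*} [Group G] [Finite G] (S : Type*) (l : S → (G →* ℂˣ))
    (hl : Function.Injective l) {χ : G → ℂ} (hχ : IsIrrCharacter G χ)
    (h : ∀ s g, χ g * l s g = χ g) : Nat.card S ≤ charDegree χ ^ 2 := by
  classical
  letI := Fintype.ofFinite G
  let K : Subgroup G := ⨅ s, (l s).ker
  haveI : K.Normal := Subgroup.normal_iInf_normal fun s => inferInstance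
  have h1 : Nat.card S ≤ K.index := by
    refine (Nat.card_le_card_of_injective (fun s => QuotientGroup.lift K (l s)
      (fun x hx => Subgroup.mem_iInf.1 hx s)) fun a b hab => hl ?_).trans ?_
    · ext g
      exact congrArg Units.val (DFunLike.congr_fun hab (g : G ⧸ K))
    · rw [card_hom_units]
      exact Nat.le_of_dvd Nat.card_pos (Subgroup.index_dvd_card _)
  have h2 : (Nat.card G : ℝ) ≤ Nat.card K * (charDegree χ : ℝ) ^ 2 := by
    rw [← hχ.sum_norm_sq, ← Finset.sum_filter_add_sum_filter_not Finset.univ (· ∈ K),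
      Finset.sum_eq_zero (s := Finset.univ.filter (· ∉ K)), add_zero]
    · refine (Finset.sum_le_card_nsmul _ _ ((charDegree χ : ℝ) ^ 2) fun g _ => ?_).trans ?_
      · rw [← hχ.isCharacter.re_apply_one]
        exact pow_le_pow_left₀ (norm_nonneg _) (hχ.isCharacter.norm_le g) 2
      · rw [nsmul_eq_mul, ← Fintype.card_subtype, Nat.card_eq_fintype_card]
    · intro g hg
      rw [Finset.mem_filter, Subgroup.mem_iInf] at hg
      obtain ⟨s, hs⟩ := not_forall.1 hg.2
      have h3 : χ g = 0 := by
        by_contra h0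
        exact hs (Units.ext (mul_left_cancel₀ h0 ((h s g).trans (mul_one _).symm)))
      rw [h3]; simp
  have h3 : Nat.card G ≤ Nat.card K * charDegree χ ^ 2 := by exact_mod_cast h2
  rw [← K.card_mul_index] at h3
  exact h1.trans (Nat.le_of_mul_le_mul_left h3 Nat.card_pos)

/-- Let G be a finite 2-group with #(G/Φ(G)) ≥ 2^(2k+1). Then the number of elements x of G with x² = 1 is divisible by 2^(k+1). -/
theorem result {G : Type*} [Group G] [Finite G] (hG : IsPGroup 2 G) (k : ℕ)
    (hgen : 2 ^ (2 * k + 1) ≤ Nat.card (G ⧸ frattini G)) :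
    2 ^ (k + 1) ∣ Nat.card {x : G // x ^ 2 = 1} := by
  classical
  letI := Fintype.ofFinite G
  letI := act (frattini G)
  have hν : ∀ χ : IrrCharacter G, ∃ z : ℤ, fsInd χ.1 = z := fun χ => by
    rcases fsInd_trichotomy χ.2 with h | h | h
    · exact ⟨0, by simp [h]⟩
    · exact ⟨1, by simp [h]⟩
    · exact ⟨-1, by simp [h]⟩
  choose ν hν using hν
  have hsmul : ∀ (l : G ⧸ frattini G →* ℂˣ) (χ : IrrCharacter G) (g : G),
      (l • χ).1 g = χ.1 g * l (g : G ⧸ frattini G) := fun _ _ _ => rfl
  have h1 : (Nat.card {x : G // x ^ 2 = 1} : ℤ) = ∑ χ : IrrCharacter G, ν χ * charDegree χ.1 := by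
    have := card_sqrt_eq_sum (1 : G)
    simp only [← pow_two, hν, ← (Subtype.prop _ : IsIrrCharacter G _).cast_charDegree] at this
    exact_mod_cast this
  rw [← Int.natCast_dvd_natCast, h1]
  refine dvd_sum_of_orbit (V := G ⧸ frattini G →* ℂˣ) _ (fun l χ => ?_) _ fun χ => ?_
  · congr 1
    · have : fsInd (l • χ).1 = fsInd χ.1 := by
        unfold fsInd
        congr 1
        refine Finset.sum_congr rfl fun s _ => ?_
        rw [hsmul, ← pow_two, (QuotientGroup.eq_one_iff _).2 (H3.pow_mem_frattini_pgroup hG s)]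
        simp
      rw [hν, hν] at this
      exact_mod_cast this
    · rw [charDegree_congr (χ := χ.1) (by rw [hsmul]; simp)]
  · have h2 := card_le_sq (MulAction.stabilizer (G ⧸ frattini G →* ℂˣ) χ)
      (fun s => s.1.comp (QuotientGroup.mk' _)) (fun a b hab => Subtype.ext (by
        ext g
        exact congrArg Units.val (DFunLike.congr_fun hab g))) χ.2
      (fun s g => congrFun (congrArg Subtype.val s.2) g)
    have h3 : Nat.card (MulAction.orbit (G ⧸ frattini G →* ℂˣ) χ) *
        Nat.card (MulAction.stabilizer (G ⧸ frattini G →* ℂˣ) χ) = Nat.card (G ⧸ frattini G) := by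
      rw [← Nat.card_prod, Nat.card_congr (MulAction.orbitProdStabilizerEquivGroup _ χ),
        card_hom_units, ← Subgroup.index_bot]
      congr 1
      rw [commutator_def, ← Subgroup.map_top_of_surjective _ (QuotientGroup.mk'_surjective _),
        ← Subgroup.map_commutator, Subgroup.map_eq_bot_iff, QuotientGroup.ker_mk']
      exact H3.commutator_le_frattini_pgroup hG
    obtain ⟨n, hn⟩ := IsPGroup.iff_card.1 hG
    obtain ⟨d, hd⟩ := IsPGroup.iff_card.1 (hG.to_quotient (frattini G))
    obtain ⟨a, -, ha⟩ := (Nat.dvd_prime_pow Nat.prime_two).1 (hn ▸ χ.2.charDegree_dvd_card)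
    obtain ⟨b, -, hb⟩ := (Nat.dvd_prime_pow Nat.prime_two).1 (hd ▸ Dvd.intro _ h3)
    obtain ⟨c, -, hc⟩ := (Nat.dvd_prime_pow Nat.prime_two).1 (hd ▸ Dvd.intro_left _ h3)
    rw [hb, hc, hd, ← pow_add, Nat.pow_right_inj one_lt_two] at h3
    rw [hc, ha, ← pow_mul, Nat.pow_le_pow_iff_right one_lt_two] at h2
    rw [hd, Nat.pow_le_pow_iff_right one_lt_two] at hgen
    rw [hb, ha, mul_left_comm]
    refine Dvd.dvd.mul_left ?_ _
    rw [← Nat.cast_mul, Int.natCast_dvd_natCast, ← pow_add]
    exact pow_dvd_pow 2 (by omega)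

end Cfsg.Agent.S4058
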