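import Cfsg.Agent.Base
import Cfsg.Statements.S4065
import Cfsg.Agent.H61.PSLMax

set_option autoImplicit false
open Cfsg

namespace Cfsg.Agent.S4065

open H61 MulAction Matrix MatrixGroups

/-- Let F be a finite field with 2ⁿ elements, n ≥ 2. In PSL₂(F) the centralizer of every element meets each of its conjugates by elements outside its normalizer trivially. -/
theorem result (n : ℕ) (hn : 2 ≤ n)
    (x : Matrix.ProjectiveSpecialLinearGroup (Fin 2) (GaloisField 2 n)) :
    Cfsg.IsTISubset (Subgroup.centralizer ({x} : Set (Matrix.ProjectiveSpecialLinearGroup (Fin 2) (GaloisField 2 n))) :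
      Set (Matrix.ProjectiveSpecialLinearGroup (Fin 2) (GaloisField 2 n))) := by
  intro g hg z hz hgz
  by_contra hz1
  apply hg
  have h := hur_psl (GaloisField 2 n) 2
  by_cases hx : x = 1
  · subst hx
    rw [show Subgroup.centralizer ({1} : Set PSL(2, GaloisField 2 n)) = ⊤ from
      eq_top_iff.2 fun a _ => by simp [Subgroup.mem_centralizer_iff], Subgroup.normalizer_eq_top]
    trivial
  by_cases h2 : x ^ 2 = 1
  · obtain ⟨a, ha⟩ := h.fix x
    have hxa : x ∈ h.Q a := ⟨ha, h2⟩
    rw [h.centralizer_eq_Q hxa hx] at hz hgz ⊢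
    rw [h.normalizer_Q fun hb => hx (by rwa [hb] at hxa)]
    exact h.eq_of_Q_inf (h.conj_mem_Q hz g) hgz (by simpa using hz1)
  · obtain ⟨a, b, hab, hxa⟩ := h.exists_tor h2
    rw [h.centralizer_eq_tor hab hxa (by rwa [← sq])] at hz hgz ⊢
    rw [h.normalizer_eq_pairStab hab le_rfl fun hb => hx (by rwa [hb] at hxa)]
    exact h.mem_pairStab_of_conj hab hz hz1 hgz

end Cfsg.Agent.S4065
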