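import Cfsg.Statements.S4066
import Cfsg.Agent.Base
import Cfsg.Agent.H26.SylowTI
import Cfsg.Agent.H26.FrobConstruct


set_option autoImplicit false
open Cfsg

namespace Cfsg.Agent.S4066


/-- Let G be a finite group in which the centralizer of every element meets each of its conjugates by elements outside its normalizer trivially. Then any two distinct Sylow p-subgroups of G, for any prime p, intersect trivially. -/
theorem result {G : Type*} [Group G] [Finite G] (hTI : ∀ x : G, Cfsg.IsTISubset (Subgroup.centralizer ({x} : Set G) : Set G))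
    {p : ℕ} [Fact p.Prime] (P Q : Sylow p G) (hPQ : P ≠ Q) : (P : Subgroup G) ⊓ (Q : Subgroup G) = ⊥ := by
  by_contra hb
  apply hPQ
  obtain ⟨⟨x, hx1, hx2⟩, hx⟩ := Subgroup.ne_bot_iff_exists_ne_one.1 hb
  have hx' : x ≠ 1 := fun h => hx (Subtype.ext h)
  have hnt : Nontrivial (P : Subgroup G) := ⟨⟨⟨x, hx1⟩, 1, fun h => hx' (congrArg Subtype.val h)⟩⟩
  obtain ⟨⟨z, hz⟩, hz1⟩ := @exists_ne _ P.isPGroup'.center_nontrivial 1
  have hz1' : (z : G) ≠ 1 := fun h => hz1 (Subtype.ext (Subtype.ext h))
  have hPC : (P : Subgroup G) ≤ Subgroup.centralizer {(z : G)} := by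
    intro a ha
    rw [Subgroup.mem_centralizer_singleton_iff]
    exact congrArg Subtype.val (Subgroup.mem_center_iff.1 hz ⟨a, ha⟩)
  obtain ⟨g, rfl⟩ := MulAction.exists_smul_eq G P Q
  have hx3 := (H26.mem_conj_smul_iff _ _ _).1 hx2
  have hg : g⁻¹ ∈ Subgroup.normalizer (Subgroup.centralizer ({(z : G)} : Set G) : Set G) := by
    by_contra hn
    exact hx' (hTI z g⁻¹ hn x (hPC hx1) (by simpa using hPC hx3))
  have hQC : ((g • P : Sylow p G) : Subgroup G) ≤ Subgroup.centralizer {(z : G)} := by
    intro a ha
    have ha' := hPC ((H26.mem_conj_smul_iff _ _ _).1 ha)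
    exact (Subgroup.mem_normalizer_iff.1 hg a).2 (by simpa using ha')
  have hle : (P : Subgroup G) ≤ (g • P : Sylow p G) := by
    intro y hy
    have hzy : (z : G) ∈ Subgroup.centralizer ({y} : Set G) := by
      have := hPC hy
      rw [Subgroup.mem_centralizer_singleton_iff] at this ⊢
      exact this.symm
    have hN : ((g • P : Sylow p G) : Subgroup G) ≤
        Subgroup.normalizer (Subgroup.centralizer ({y} : Set G) : Set G) := by
      intro a ha
      by_contra hn
      apply hz1'
      refine hTI y a hn z hzy ?_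
      have := hQC ha
      rw [Subgroup.mem_centralizer_singleton_iff] at this
      rw [this, mul_inv_cancel_right]
      exact hzy
    have hyD : y ∈ Subgroup.centralizer (Subgroup.centralizer ({y} : Set G) : Set G) := by
      intro a ha
      exact Subgroup.mem_centralizer_singleton_iff.1 ha
    refine H26.mem_sylow_of_mem_comm_normalized (g • P)
      (D := Subgroup.centralizer (Subgroup.centralizer ({y} : Set G) : Set G)) ?_ ?_ hyD ?_
    · intro a ha b hb
      have : a ∈ Subgroup.centralizer ({y} : Set G) := by
        rw [Subgroup.mem_centralizer_singleton_iff]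
        exact (ha y (Subgroup.mem_centralizer_singleton_iff.2 rfl)).symm
      exact hb a this
    · refine hN.trans ?_
      intro a ha
      rw [Subgroup.mem_normalizer_iff] at ha ⊢
      intro t
      constructor
      · intro ht u hu
        have h1 : a⁻¹ * u * a ∈ Subgroup.centralizer ({y} : Set G) := (ha _).2 (by simpa [mul_assoc] using hu)
        have h2 := ht _ h1
        calc u * (a * t * a⁻¹) = a * ((a⁻¹ * u * a) * t) * a⁻¹ := by group
          _ = a * t * a⁻¹ * u := by rw [h2]; group
      · intro ht u hu
        have h2 := ht _ ((ha u).1 hu)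
        calc u * t = a⁻¹ * ((a * u * a⁻¹) * (a * t * a⁻¹)) * a := by group
          _ = t * u := by rw [h2]; group
    · obtain ⟨k, hk⟩ := P.isPGroup' ⟨y, hy⟩
      exact ⟨k, congrArg Subtype.val hk⟩
  exact (Sylow.ext (P.is_maximal' (g • P).isPGroup' hle)).symm

end Cfsg.Agent.S4066
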