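import Cfsg.Statements.S4074
import Cfsg.Agent.Base


set_option autoImplicit false
open Cfsg

namespace Cfsg.Agent.S4074

open DihedralGroup in
def evenSub (n : ℕ) (h : 2 ∣ n) : Subgroup (DihedralGroup n) where
  carrier := {x | ∃ i : ZMod n, ZMod.castHom h (ZMod 2) i = 0 ∧ (x = r i ∨ x = sr i)}
  one_mem' := ⟨0, by simp, Or.inl rfl⟩
  mul_mem' := by
    rintro _ _ ⟨i, hi, rfl | rfl⟩ ⟨j, hj, rfl | rfl⟩
    · exact ⟨i + j, by rw [map_add, hi, hj, add_zero], Or.inl rfl⟩
    · exact ⟨j - i, by rw [map_sub, hi, hj, sub_zero], Or.inr rfl⟩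
    · exact ⟨i + j, by rw [map_add, hi, hj, add_zero], Or.inr rfl⟩
    · exact ⟨j - i, by rw [map_sub, hi, hj, sub_zero], Or.inl rfl⟩
  inv_mem' := by
    rintro _ ⟨i, hi, rfl | rfl⟩
    · exact ⟨-i, by rw [map_neg, hi, neg_zero], Or.inl rfl⟩
    · exact ⟨i, hi, Or.inr rfl⟩

open DihedralGroup in
theorem evenSub_normal (n : ℕ) (h : 2 ∣ n) : (evenSub n h).Normal := by
  have h2 : ∀ x : ZMod 2, x + x = 0 := by decide
  constructor
  rintro _ ⟨i, hi, rfl | rfl⟩ (j | j)
  · exact ⟨i, hi, Or.inl (by simp)⟩
  · exact ⟨-i, by rw [map_neg, hi, neg_zero], Or.inl (by simp)⟩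
  · refine ⟨i - (j + j), by rw [map_sub, map_add, hi, h2, sub_zero], Or.inr ?_⟩
    simp only [r_mul_sr, inv_r, sr_mul_r]
    congr 1; ring
  · refine ⟨(j + j) - i, by rw [map_sub, map_add, hi, h2, sub_zero], Or.inr ?_⟩
    simp only [sr_mul_sr, inv_sr, r_mul_sr]
    congr 1; ring


/-- For n > 2, every non-abelian subgroup of the dihedral group of order 2n is self-normalizing if and only if n = 4 or n is odd. -/
theorem result (n : ℕ) (hn : 2 < n) :
    (∀ H : Subgroup (DihedralGroup n), ¬ IsMulCommutative H → Subgroup.normalizer (H : Set (DihedralGroup n)) = H) ↔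
    (n = 4 ∨ Odd n) := by
  have : NeZero n := ⟨by omega⟩
  constructor
  · intro h
    by_contra hcon
    push Not at hcon
    obtain ⟨h4, hodd⟩ := hcon
    have h2 : 2 ∣ n := even_iff_two_dvd.1 (Nat.not_odd_iff_even.1 hodd)
    have hn := evenSub_normal n h2
    have hnc : ¬ IsMulCommutative (evenSub n h2) := by
      intro hc
      have m1 : DihedralGroup.r 2 ∈ evenSub n h2 := ⟨2, by rw [map_ofNat]; rfl, Or.inl rfl⟩
      have m2 : DihedralGroup.sr 0 ∈ evenSub n h2 := ⟨0, by simp, Or.inr rfl⟩
      have := congrArg Subtype.val (mul_comm' (⟨_, m1⟩ : evenSub n h2) ⟨_, m2⟩)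
      simp only [Subgroup.coe_mul, DihedralGroup.r_mul_sr, DihedralGroup.sr_mul_r,
        DihedralGroup.sr.injEq] at this
      have h5 : ((4 : ℕ) : ZMod n) = 0 := by
        push_cast
        linear_combination -this
      rw [ZMod.natCast_eq_zero_iff] at h5
      have := Nat.le_of_dvd (by norm_num) h5
      omega
    have h1 := h _ hnc
    rw [Subgroup.normalizer_eq_top] at h1
    have : DihedralGroup.r 1 ∈ evenSub n h2 := by rw [← h1]; trivial
    obtain ⟨i, hi, h3 | h3⟩ := this
    · rw [← DihedralGroup.r.inj h3, map_one] at hi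
      exact one_ne_zero hi
    · cases h3
  · rintro (rfl | hodd) H hH
    · have hd : Nat.card H ∣ 2 ^ 3 := by
        have := H.card_subgroup_dvd_card
        rwa [DihedralGroup.nat_card] at this
      obtain ⟨k, hk, hc⟩ := (Nat.dvd_prime_pow Nat.prime_two).1 hd
      have : H = ⊤ := by
        interval_cases k
        · exfalso
          apply hH
          rw [Subgroup.card_eq_one.1 hc]
          infer_instance
        · exfalso
          apply hH
          exact (isCyclic_of_prime_card (p := 2) hc).isMulCommutative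
        · exact absurd (IsPGroup.isMulCommutative_of_card_eq_prime_sq hc) hH
        · apply Subgroup.eq_top_of_card_eq
          rw [hc, DihedralGroup.nat_card]; rfl
      subst this
      exact Subgroup.normalizer_eq_top _
    · have hex : ∃ j, DihedralGroup.sr j ∈ H := by
        by_contra hcon
        push Not at hcon
        apply hH
        refine ⟨⟨?_⟩⟩
        rintro ⟨i | i, hi⟩ ⟨j | j, hj⟩
        · apply Subtype.ext
          simp [add_comm]
        · exact absurd hj (hcon _)
        · exact absurd hi (hcon _)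
        · exact absurd hi (hcon _)
      obtain ⟨j, hj⟩ := hex
      have hr : ∀ i, DihedralGroup.r i ∈ Subgroup.normalizer (H : Set (DihedralGroup n)) →
          DihedralGroup.r i ∈ H := by
        intro i hi
        have h1 := H.mul_mem ((Subgroup.mem_normalizer_iff.1 hi _).1 hj) hj
        obtain ⟨m, hm⟩ := hodd
        have h2 := H.pow_mem h1 (m + 1)
        simp only [DihedralGroup.r_mul_sr, DihedralGroup.inv_r, DihedralGroup.sr_mul_r,
          DihedralGroup.sr_mul_sr, DihedralGroup.r_pow] at h2
        convert h2 using 2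
        have : ((n : ℕ) : ZMod n) = 0 := ZMod.natCast_self n
        have h3 : ((n : ℕ) : ZMod n) = 2 * m + 1 := by
          conv_lhs => rw [show ((n : ℕ) : ZMod n) = ((2 * m + 1 : ℕ) : ZMod n) from by rw [← hm]]
          push_cast; ring
        rw [this] at h3
        push_cast
        linear_combination i * h3
      refine le_antisymm ?_ Subgroup.le_normalizer
      rintro (i | i) hi
      · exact hr i hi
      · have h1 := hr _ ((Subgroup.normalizer (H : Set (DihedralGroup n))).mul_mem
          (Subgroup.le_normalizer hj) hi)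
        have h2 := H.mul_mem hj h1
        simpa using h2

end Cfsg.Agent.S4074
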