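import Cfsg.Statements.S4075
import Cfsg.Agent.Base


set_option autoImplicit false
open Cfsg

namespace Cfsg.Agent.S4075

theorem comm_of_sylow {G : Type*} [Group G] [Finite G] [Group.IsNilpotent G]
    (h : ∀ (p : ℕ) [Fact p.Prime] (P : Sylow p G), IsMulCommutative (P : Subgroup G)) :
    IsMulCommutative G := by
  let e := Sylow.directProductOfNormal (G := G) (fun P => inferInstance)
  refine ⟨⟨fun a b => ?_⟩⟩
  obtain ⟨x, rfl⟩ := e.surjective a
  obtain ⟨y, rfl⟩ := e.surjective b
  rw [← map_mul, ← map_mul]
  congr 1
  funext p P
  have : Fact (p : ℕ).Prime := ⟨Nat.prime_of_mem_primeFactors p.2⟩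
  have := h p P
  exact mul_comm' _ _


/-- Let G be a finite nilpotent group. Every non-abelian subgroup of G is self-normalizing if and only if G is abelian or G is a minimal non-abelian p-group for some prime p (non-abelian of prime-power order with every proper subgroup abelian). -/
theorem result {G : Type*} [Group G] [Finite G]
    [Group.IsNilpotent G] :
    (∀ H : Subgroup G, ¬ IsMulCommutative H → Subgroup.normalizer (H : Set G) = H) ↔
    (IsMulCommutative G ∨ (IsPrimePow (Nat.card G) ∧ ¬ IsMulCommutative G ∧ ∀ H : Subgroup G, H ≠ ⊤ → IsMulCommutative H)) := by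
  constructor
  · intro h
    by_cases hc : IsMulCommutative G
    · exact Or.inl hc
    right
    have hprop : ∀ H : Subgroup G, H ≠ ⊤ → IsMulCommutative H := by
      intro H hH
      by_contra hn
      have := Group.normalizerCondition_of_isNilpotent (G := G) H (lt_top_iff_ne_top.2 hH)
      exact this.ne' (h H hn)
    refine ⟨?_, hc, hprop⟩
    by_contra hpp
    apply hc
    apply comm_of_sylow
    intro p hp P
    apply hprop
    intro ht
    have hG : IsPGroup p G := by
      have := P.isPGroup'
      rw [ht] at this
      exact this.of_equiv Subgroup.topEquiv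
    have : Nontrivial G := by
      by_contra hn
      rw [not_nontrivial_iff_subsingleton] at hn
      exact hc ⟨⟨fun a b => Subsingleton.elim _ _⟩⟩
    obtain ⟨n, hn, hcard⟩ := hG.nontrivial_iff_card.1 this
    exact hpp ⟨p, n, hp.out.prime, hn, hcard.symm⟩
  · rintro (h | ⟨-, -, h⟩) H hH
    · exact absurd (inferInstance : IsMulCommutative H) hH
    · have : H = ⊤ := by
        by_contra hne
        exact hH (h H hne)
      subst this
      exact Subgroup.normalizer_eq_top _

end Cfsg.Agent.S4075
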