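import Cfsg.Statements.S4079
import Cfsg.Agent.Base
import Cfsg.Agent.H27.Bb8
-- import your own Cfsg.Agent.* helpers here

set_option autoImplicit false
open Cfsg

namespace Cfsg.Agent.S4079

/-- Let p be an odd prime and L a finite metacyclic p-group with no cyclic subgroup of index p, and let a be an automorphism of L of order p. Then a moves some element of order p of L if and only if p = 3 and the semidirect product L ⋊ ⟨a⟩ (of order 3·#L) has maximal class, i.e. nilpotency class m where #L = 3^m. -/
theorem result {L : Type*} [Group L] [Finite L] {p : ℕ} [Fact p.Prime]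
    (hp : p ≠ 2) (hL : IsPGroup p L) (hmc : Cfsg.IsMetacyclic L) (hnc : ∀ C : Subgroup L, IsCyclic C → C.index ≠ p)
    (a : MulAut L) (ha : orderOf a = p) (m : ℕ) (hm : Nat.card L = p ^ m) :
    (∃ x : L, orderOf x = p ∧ a x ≠ x) ↔
    (p = 3 ∧ Group.nilpotencyClass (SemidirectProduct L ↥(Subgroup.zpowers a) (Subgroup.zpowers a).subtype) = m) := by
  have hpp : p.Prime := Fact.out
  let G := SemidirectProduct L ↥(Subgroup.zpowers a) (Subgroup.zpowers a).subtype
  have hcard : Nat.card G = p ^ (m + 1) := by
    rw [SemidirectProduct.card, hm, Nat.card_zpowers, ha, pow_succ]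
  have : Finite G := Nat.finite_of_card_ne_zero (hcard ▸ (pow_pos hpp.pos _).ne')
  have hG : IsPGroup p G := IsPGroup.of_card hcard
  let i : L →* G := SemidirectProduct.inl
  have hi : Function.Injective i := SemidirectProduct.inl_injective
  let e := MonoidHom.ofInjective hi
  have ha1 : a ≠ 1 := by rintro rfl; rw [orderOf_one] at ha; exact hpp.one_lt.ne ha
  have hnc' : ¬ IsCyclic L := fun hc => by
    have hn : Nontrivial L := by
      by_contra h
      rw [not_nontrivial_iff_subsingleton] at h
      exact ha1 (MulEquiv.ext fun x => Subsingleton.elim _ _)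
    obtain ⟨M, hM, -⟩ := (IsCoatomic.eq_top_or_exists_le_coatom (⊥ : Subgroup L)).resolve_left
      bot_ne_top
    exact hnc M inferInstance (H9.index_of_isCoatom hL hM)
  obtain ⟨hO1, hO2⟩ := H48.omega_of_isMetacyclic hp hL hmc hnc'
  have M : H27.Bb.Mc p i.range ((H48.Om p L).map i) := by
    refine ⟨hp, hG, ?_, H19.isMetacyclic_of_surjective hmc e.toMonoidHom e.surjective,
      fun C hC h => hnc (C.comap e.toMonoidHom) ?_ ?_, fun x => ⟨?_, ?_⟩, ?_⟩
    · have h1 := i.range.card_mul_index
      rw [← Nat.card_congr e.toEquiv, hcard, hm, pow_succ] at h1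
      exact Nat.eq_of_mul_eq_mul_left (pow_pos hpp.pos _) h1
    · exact isCyclic_of_injective (e.toMonoidHom.subgroupComap C) fun x y h =>
        Subtype.ext (e.injective (congrArg Subtype.val h))
    · exact (Subgroup.index_comap_of_surjective (f := e.toMonoidHom) C e.surjective).trans h
    · rintro ⟨y, hy, rfl⟩
      exact ⟨⟨y, rfl⟩, by rw [← map_pow, hO1.2 y hy, map_one]⟩
    · rintro ⟨⟨y, rfl⟩, hy⟩
      exact ⟨y, H48.mem_Om (hi (by rw [map_pow, hy, map_one])), rfl⟩
    · rw [Subgroup.card_map_of_injective hi, hO2]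
  let b : G := SemidirectProduct.inr ⟨a, Subgroup.mem_zpowers a⟩
  have hbp : b ^ p = 1 := by
    rw [← map_pow, ← map_one SemidirectProduct.inr]
    congr 1
    exact Subtype.ext (by simp [← ha])
  have hbL : b ∉ i.range := by
    rintro ⟨y, hy⟩
    exact ha1 (congrArg Subtype.val (congrArg SemidirectProduct.right hy)).symm
  have key : ∀ x : L, i (a x) = b * i x * b⁻¹ := fun x => by
    rw [← map_inv]
    exact SemidirectProduct.inl_aut (⟨a, Subgroup.mem_zpowers a⟩ : Subgroup.zpowers a) x
  have hm2 : 2 ≤ m := by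
    have := Subgroup.card_le_card_group (H48.Om p L)
    rw [hO2, hm] at this
    exact (Nat.pow_le_pow_iff_right hpp.one_lt).mp this
  constructor
  · rintro ⟨x, hx, hax⟩
    obtain ⟨h3, h⟩ := M.max_of hbL (fun hc => hax (hi (by
      rw [key, ← (H27.Bb.comm_of_mem_CC hc ⟨x, H48.mem_Om (hx ▸ pow_orderOf_eq_one x), rfl⟩).eq,
        mul_inv_cancel_right]))) hbp
    refine ⟨h3, ?_⟩
    rw [H9.nilpotencyClass_eq_of_card_centralizer (m - 1) G (by rw [hcard]; congr 1; omega) b h]
    omega
  · rintro ⟨-, hc⟩
    by_contra! h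
    refine M.not_max hbL (Subgroup.mem_centralizer_iff.mpr ?_) hbp
      (H9.index_commutator_of_maximal_class (by omega) hcard hc).1
    rintro _ ⟨x, hx, rfl⟩
    have h1 : a x = x := by
      by_cases h1 : x = 1
      · rw [h1, map_one]
      · exact h x (orderOf_eq_prime (hO1.2 x hx) h1)
    have h2 := key x
    rw [h1] at h2
    exact mul_inv_eq_iff_eq_mul.mp h2.symm |>.symm

end Cfsg.Agent.S4079
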