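import Cfsg.Statements.S4080
import Cfsg.Agent.Base
import Cfsg.Agent.H2.PrimeCore

set_option autoImplicit false
open Cfsg

namespace Cfsg.Agent.S4080

theorem exists_eq_mul {p : ℕ} [hp : Fact p.Prime] {t : ZMod (p ^ 2)} (ht : IsNilpotent t) :
    ∃ s : ZMod (p ^ 2), t = (p : ZMod (p ^ 2)) * s := by
  have : NeZero (p ^ 2) := ⟨pow_ne_zero _ hp.out.ne_zero⟩
  obtain ⟨k, hk⟩ := ht
  obtain ⟨n, rfl⟩ := ZMod.natCast_zmod_surjective t
  rw [← Nat.cast_pow, ZMod.natCast_eq_zero_iff] at hk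
  have h1 : p ∣ n := hp.out.dvd_of_dvd_pow ((dvd_pow_self p two_ne_zero).trans hk)
  obtain ⟨m, rfl⟩ := h1
  exact ⟨m, by push_cast; rfl⟩

theorem binom {R : Type*} [Ring R] (N : R) (h4 : N ^ 4 = 0) (n : ℕ) :
    (1 + N) ^ n = 1 + n • N + (n.choose 2) • N ^ 2 + (n.choose 3) • N ^ 3 := by
  have e2 : N * N = N ^ 2 := (pow_two N).symm
  have e3 : N ^ 2 * N = N ^ 3 := (pow_succ N 2).symm
  have e4 : N ^ 3 * N = 0 := by rw [← pow_succ, h4]
  induction n with
  | zero => simp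
  | succ n ih =>
    rw [pow_succ, ih, Nat.choose_succ_succ' n 1, Nat.choose_succ_succ' n 2, Nat.choose_one_right]
    simp only [add_mul, mul_add, mul_one, one_mul, smul_mul_assoc, e2, e3, e4, smul_zero, add_smul,
      one_smul]
    abel

theorem nilp {R : Type*} [Ring R] {p : ℕ} (hp : p.Prime) (hpp : (p : R) * p = 0) (N : R)
    (h : (1 + N) ^ p = 1) : IsNilpotent N := by
  obtain ⟨r, hr⟩ := (Commute.one_left N).exists_add_pow_prime_eq hp
  rw [h, one_pow, add_assoc, left_eq_add, mul_one, mul_assoc, add_eq_zero_iff_eq_neg] at hr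
  refine ⟨p + p, ?_⟩
  rw [pow_add, hr, neg_mul_neg]
  generalize N * r = y
  rw [mul_assoc, ← mul_assoc y, ← (Nat.cast_commute p y).eq,
    ← mul_assoc, ← mul_assoc, hpp, zero_mul, zero_mul]

theorem matrix_key {p : ℕ} [hp : Fact p.Prime] (h3 : 3 < p)
    (N : Matrix (Fin 2) (Fin 2) (ZMod (p ^ 2))) (hM : (1 + N) ^ p = 1) : p • N = 0 := by
  have hpp : (p : ZMod (p ^ 2)) * p = 0 := by
    rw [← Nat.cast_mul, ← pow_two, ZMod.natCast_self]
  have hnil : IsNilpotent N := by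
    refine nilp hp.out ?_ N hM
    have := congrArg (algebraMap (ZMod (p ^ 2)) (Matrix (Fin 2) (Fin 2) (ZMod (p ^ 2)))) hpp
    simpa using this
  obtain ⟨s, hs⟩ := exists_eq_mul (Matrix.isNilpotent_trace_of_isNilpotent hnil)
  obtain ⟨d, hd⟩ : ∃ d : ZMod (p ^ 2), N.det = (p : ZMod (p ^ 2)) * d := by
    apply exists_eq_mul
    obtain ⟨k, hk⟩ := hnil
    exact ⟨k, by rw [← Matrix.det_pow, hk, Matrix.det_zero]⟩
  have hCH : N ^ 2 = N.trace • N - N.det • (1 : Matrix (Fin 2) (Fin 2) (ZMod (p ^ 2))) := by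
    rw [Matrix.trace_fin_two, Matrix.det_fin_two, pow_two N]
    ext i j
    fin_cases i <;> fin_cases j <;> simp [Matrix.mul_apply, Fin.sum_univ_two] <;> ring
  have h2 : N ^ 2 = (p : ZMod (p ^ 2)) • (s • N - d • (1 : Matrix (Fin 2) (Fin 2) (ZMod (p ^ 2)))) := by
    rw [hCH, hs, hd, smul_sub, smul_smul, smul_smul]
  have hp2 : p • N ^ 2 = 0 := by
    rw [← Nat.cast_smul_eq_nsmul (ZMod (p ^ 2)), h2, smul_smul, hpp, zero_smul]
  have h4 : N ^ 4 = 0 := by
    rw [show 4 = 2 + 2 from rfl, pow_add, h2, smul_mul_smul_comm, hpp, zero_smul]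
  have hp3 : p • N ^ 3 = 0 := by
    rw [pow_succ N 2, ← smul_mul_assoc, hp2, zero_mul]
  rw [binom N h4] at hM
  obtain ⟨a, ha⟩ := hp.out.dvd_choose_self (k := 2) two_ne_zero (by omega)
  obtain ⟨b, hb⟩ := hp.out.dvd_choose_self (k := 3) three_ne_zero h3
  rw [ha, hb, mul_comm p a, mul_comm p b, mul_smul, mul_smul, hp2, hp3, smul_zero, smul_zero,
    add_zero, add_zero, add_eq_left] at hM
  exact hM

theorem exists_eq_smul {p : ℕ} [hp : Fact p.Prime] {t : ZMod (p ^ 2)} (ht : p • t = 0) :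
    ∃ s : ZMod (p ^ 2), t = p • s := by
  have : NeZero (p ^ 2) := ⟨pow_ne_zero _ hp.out.ne_zero⟩
  obtain ⟨n, rfl⟩ := ZMod.natCast_zmod_surjective t
  rw [nsmul_eq_mul, ← Nat.cast_mul, ZMod.natCast_eq_zero_iff, pow_two] at ht
  obtain ⟨m, rfl⟩ := Nat.dvd_of_mul_dvd_mul_left hp.out.pos ht
  exact ⟨m, by rw [nsmul_eq_mul]; push_cast; rfl⟩

/-- Let p > 3 be a prime and L the direct product of two cyclic groups of order p². Every automorphism of L of order p fixes every element of order p of L. -/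
theorem result {p : ℕ} [Fact p.Prime] (hp : 3 < p)
    (a : MulAut (Multiplicative (ZMod (p ^ 2) × ZMod (p ^ 2)))) (ha : orderOf a = p)
    (x : Multiplicative (ZMod (p ^ 2) × ZMod (p ^ 2))) (hx : orderOf x = p) : a x = x := by
  let F : MulAut (Multiplicative (ZMod (p ^ 2) × ZMod (p ^ 2))) →*
      Module.End (ZMod (p ^ 2)) (ZMod (p ^ 2) × ZMod (p ^ 2)) :=
    { toFun := fun b => AddMonoidHom.toZModLinearMap (p ^ 2)
        (MonoidHom.toAdditiveLeft b.toMonoidHom)
      map_one' := by ext <;> rfl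
      map_mul' := fun b c => by ext <;> rfl }
  have hF : ∀ b y, b y = Multiplicative.ofAdd (F b y.toAdd) := fun b y => rfl
  let E := LinearMap.toMatrixAlgEquiv (Module.Basis.finTwoProd (ZMod (p ^ 2)))
  have h1 : (1 + (E (F a) - 1)) ^ p = 1 := by
    have h0 := pow_orderOf_eq_one a
    rw [ha] at h0
    rw [add_sub_cancel, ← map_pow, ← map_pow, h0, map_one, map_one]
  have h2 := matrix_key hp _ h1
  have h3 : p • (F a - 1) = 0 := by
    apply E.injective
    rw [map_nsmul, map_sub, map_one, h2, map_zero]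
  have hx1 : p • x.toAdd = 0 := by
    have := pow_orderOf_eq_one x
    rw [hx] at this
    exact congrArg Multiplicative.toAdd this
  obtain ⟨s, hs⟩ := exists_eq_smul (congrArg Prod.fst hx1 : p • x.toAdd.1 = 0)
  obtain ⟨t, ht⟩ := exists_eq_smul (congrArg Prod.snd hx1 : p • x.toAdd.2 = 0)
  have hx2 : x.toAdd = p • (s, t) := Prod.ext hs ht
  have h4 := congrArg (fun f => f (s, t)) h3
  simp only [LinearMap.smul_apply, LinearMap.sub_apply, Module.End.one_apply,
    LinearMap.zero_apply, smul_sub, sub_eq_zero] at h4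
  rw [hF, hx2, map_nsmul, h4, ← hx2]
  rfl

end Cfsg.Agent.S4080
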