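import Cfsg.Agent.Base
import Cfsg.Statements.S4081
import Cfsg.Agent.H5.ThreeOrb

set_option autoImplicit false
open Cfsg

namespace Cfsg.Agent.S4081

open Subgroup H5
open scoped commutatorElement

theorem core {G : Type*} [Group G] [Finite G] [Group.IsSolvable G] {p q : ℕ} [hp : Fact p.Prime]
    [hq : Fact q.Prime] (hpq : p ≠ q) {a b : G} (ha : orderOf a = p) (hb : orderOf b = q)
    (hall : ∀ z : G, z = 1 ∨ (∃ α : MulAut G, α a = z) ∨ ∃ α : MulAut G, α b = z)
    (haP : a ∈ commutator G) (hbP : b ∉ commutator G) :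
    ∃ (p q n : ℕ) (_ : Fact p.Prime) (_ : Fact q.Prime), p ≠ q ∧ 1 ≤ n ∧ Nat.card G = p ^ n * q ∧
      (∀ P : Sylow p G, (P : Subgroup G).Normal ∧ Cfsg.IsElementaryAbelian p (P : Subgroup G)) ∧
      orderOf (p : ZMod q) = q - 1 ∧
      ∀ x y : G, orderOf x = q → orderOf y = p → x * y * x⁻¹ ≠ y := by
  have ha1 : a ≠ 1 := by rintro rfl; exact hp.out.one_lt.ne (by simpa using ha)
  have hb1 : b ≠ 1 := by rintro rfl; exact hq.out.one_lt.ne (by simpa using hb)
  have hin : ∀ z ∈ commutator G, z ≠ 1 → ∃ α : MulAut G, α a = z := by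
    intro z hz hz1
    rcases hall z with h | h | ⟨α, rfl⟩
    · exact absurd h hz1
    · exact h
    · exact absurd ((mem_of_char α).1 hz) hbP
  have hout : ∀ z, z ∉ commutator G → ∃ α : MulAut G, α b = z := by
    intro z hz
    rcases hall z with rfl | ⟨α, rfl⟩ | h
    · exact absurd (one_mem _) hz
    · exact absurd ((mem_of_char α).2 haP) hz
    · exact h
  have hoin : ∀ z ∈ commutator G, z ≠ 1 → orderOf z = p := fun z hz hz1 => by
    obtain ⟨α, rfl⟩ := hin z hz hz1
    rw [orderOf_mulAut, ha]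
  have hoout : ∀ z, z ∉ commutator G → orderOf z = q := fun z hz => by
    obtain ⟨α, rfl⟩ := hout z hz
    rw [orderOf_mulAut, hb]
  have hexp : ∀ z ∈ commutator G, z ^ p = 1 := fun z hz => by
    by_cases h : z = 1
    · simp [h]
    · rw [← hoin z hz h, pow_orderOf_eq_one]
  have hfpf : ∀ x y : G, orderOf x = q → orderOf y = p → x * y * x⁻¹ ≠ y := by
    intro x y hx hy h
    have := orderOf_mul_of_conj_eq hp.out hq.out hpq hx hy h
    by_cases hm : x * y ∈ commutator G
    · by_cases h1 : x * y = 1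
      · rw [h1, orderOf_one] at this
        exact hq.out.one_lt.ne' (Nat.eq_one_of_mul_eq_one_right this.symm)
      · rw [hoin _ hm h1] at this
        have := Nat.eq_of_mul_eq_mul_right hp.out.pos ((one_mul p).trans this)
        exact hq.out.one_lt.ne this
    · rw [hoout _ hm] at this
      have := Nat.eq_of_mul_eq_mul_left hq.out.pos ((mul_one q).trans this)
      exact hp.out.one_lt.ne this
  have hfpf' : ∀ x, orderOf x = q → ∀ u ∈ commutator G, x * u * x⁻¹ = u → u = 1 := by
    intro x hx u hu h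
    by_contra h1
    exact hfpf x u hx (hoin u hu h1) h
  have hP1 : commutator G ≠ ⊥ := fun h => ha1 (by simpa [h] using haP)
  have hab : ⁅commutator G, commutator G⁆ = ⊥ := by
    have hlt := IsSolvable.commutator_lt_of_ne_bot hP1
    rw [eq_bot_iff]
    intro z hz
    by_contra hz1
    obtain ⟨α, rfl⟩ := hin z (hlt.le hz) hz1
    apply hlt.not_ge
    intro y hy
    by_cases hy1 : y = 1
    · rw [hy1]; exact one_mem _
    · obtain ⟨β, rfl⟩ := hin y hy hy1
      exact (mem_of_char β).2 ((mem_of_char α).1 hz)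
  have hcomm : IsMulCommutative (commutator G) :=
    le_centralizer_iff_isMulCommutative.1 (commutator_eq_bot_iff_le_centralizer.1 hab)
  have hPp : IsPGroup p (commutator G) := fun z => ⟨1, Subtype.ext (by simpa using hexp z z.2)⟩
  have hSyl : ∀ S : Sylow p G, (S : Subgroup G) = commutator G := by
    intro S
    refine (S.is_maximal' hPp ?_).symm
    intro z hz
    by_contra hz'
    obtain ⟨k, hk⟩ := IsPGroup.iff_orderOf.1 S.isPGroup' ⟨z, hz⟩
    rw [← orderOf_coe, hoout z hz'] at hk
    exact hpq ((Nat.prime_dvd_prime_iff_eq hq.out hp.out).1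
      (hq.out.dvd_of_dvd_pow hk.dvd)).symm
  obtain ⟨Q⟩ : Nonempty (Sylow q G) := inferInstance
  have hQ : ∀ z ∈ (Q : Subgroup G), z ≠ 1 → z ∉ commutator G := by
    intro z hz hz1 hz'
    obtain ⟨k, hk⟩ := IsPGroup.iff_orderOf.1 Q.isPGroup' ⟨z, hz⟩
    rw [← orderOf_coe, hoin z hz' hz1] at hk
    exact hpq ((Nat.prime_dvd_prime_iff_eq hp.out hq.out).1
      (hp.out.dvd_of_dvd_pow hk.dvd))
  have hQc : IsMulCommutative (Q : Subgroup G) := by
    refine le_centralizer_iff_isMulCommutative.1 (commutator_eq_bot_iff_le_centralizer.1 ?_)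
    rw [eq_bot_iff]
    intro z hz
    by_contra hz1
    exact hQ z ((commutator_le_self _) hz) hz1 (commutator_mono le_top le_top hz)
  have hQcyc : IsCyclic (Q : Subgroup G) := by
    refine isCyclic_of_fpf_of_comm hP1 (by rw [normalizer_eq_top]; exact le_top) ?_
    intro x hx hx1
    rw [eq_bot_iff]
    rintro u ⟨hu, hu'⟩
    refine hfpf' x (hoout x (hQ x hx hx1)) u hu ?_
    rw [(mem_centralizer_iff.1 hu') x rfl]; simp
  have hQd : Nat.card (Q : Subgroup G) ∣ q := by
    obtain ⟨g, hg⟩ := hQcyc.exists_ofOrder_eq_natCard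
    rw [← hg, ← orderOf_coe]
    by_cases h1 : (g : G) = 1
    · simp [h1]
    · rw [hoout _ (hQ _ g.2 h1)]
  have hquo : IsPGroup q (G ⧸ commutator G) := by
    intro z
    obtain ⟨z, rfl⟩ := QuotientGroup.mk_surjective z
    refine ⟨1, ?_⟩
    rw [pow_one, ← QuotientGroup.mk_pow, QuotientGroup.eq_one_iff]
    by_cases hz : z ∈ commutator G
    · exact pow_mem hz _
    · rw [← hoout z hz, pow_orderOf_eq_one]; exact one_mem _
  obtain ⟨m, hm⟩ := IsPGroup.iff_card.1 hquo
  have hm' : (commutator G).index = q ^ m := hm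
  have hidx : (commutator G).index = q := by
    have h1 : q ^ m ∣ Nat.card (Q : Subgroup G) :=
      Q.pow_dvd_card_of_pow_dvd_card (hm' ▸ index_dvd_card _)
    rcases (Nat.dvd_prime hq.out).1 (h1.trans hQd) with h | h
    · rw [h, index_eq_one] at hm'
      exact absurd (hm' ▸ mem_top b) hbP
    · rw [hm', h]
  obtain ⟨n, hn⟩ := IsPGroup.iff_card.1 hPp
  have hc := isComplement'_zpowers hq.out hidx hb hbP
  refine ⟨p, q, n, hp, hq, hpq, ?_, ?_, ?_, ?_, hfpf⟩
  · by_contra! h
    obtain rfl : n = 0 := by omega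
    exact hP1 (eq_bot_of_card_eq _ hn)
  · rw [← card_mul_index (commutator G), hn, hidx]
  · intro S
    rw [hSyl S]
    exact ⟨inferInstance, hcomm, hexp⟩
  · refine orderOf_eq_of_aut (commutator G) hexp hP1 hpq (x := b)
      (by rw [← hb, pow_orderOf_eq_one]) (hfpf' b hb) ?_ ?_ ?_
    · intro g
      obtain ⟨⟨⟨z, hz⟩, u⟩, h, -⟩ := hc.symm.existsUnique g
      obtain ⟨k, rfl⟩ := (mem_powers_iff_mem_zpowers.2 hz)
      exact ⟨k, u, u.2, h.symm⟩
    · intro v hv w hw hv1 hw1
      obtain ⟨α, rfl⟩ := hin v hv hv1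
      obtain ⟨β, rfl⟩ := hin w hw hw1
      exact ⟨β * α⁻¹, by simp⟩
    · intro k hk1 hk2
      refine hout _ fun h => ?_
      have h1 : b ^ k ≠ 1 := pow_ne_one_of_lt_orderOf (by omega) (hb ▸ hk2)
      have h2 := hoin _ h h1
      have h3 := orderOf_pow_dvd (x := b) k
      rw [h2, hb] at h3
      exact hpq ((Nat.prime_dvd_prime_iff_eq hp.out hq.out).1 h3)

/-- Let G be a finite group whose order is not a prime power. Then the automorphism group of G has exactly three orbits on G if and only if there are distinct primes p, q with #G = pⁿ·q (n ≥ 1) such that G has a normal elementary abelian Sylow p-subgroup P, p is a primitive root modulo q (the multiplicative order of p mod q is q − 1), and every element of order q of G acts on P without non-identity fixed points. -/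
theorem result {G : Type*} [Group G] [Finite G] (hnpp : ¬ IsPrimePow (Nat.card G)) (hnt : Nat.card G ≠ 1) :
    Nat.card (MulAction.orbitRel.Quotient (MulAut G) G) = 3 ↔
    ∃ (p q n : ℕ) (_ : Fact p.Prime) (_ : Fact q.Prime), p ≠ q ∧ 1 ≤ n ∧ Nat.card G = p ^ n * q ∧
      (∀ P : Sylow p G, (P : Subgroup G).Normal ∧ Cfsg.IsElementaryAbelian p (P : Subgroup G)) ∧
      orderOf (p : ZMod q) = q - 1 ∧
      ∀ x y : G, orderOf x = q → orderOf y = p → x * y * x⁻¹ ≠ y := by
  constructor
  · intro h3
    obtain ⟨p, hp, hpd⟩ := Nat.exists_prime_and_dvd hnt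
    obtain ⟨q, hq, hqd, hpq⟩ : ∃ q, q.Prime ∧ q ∣ Nat.card G ∧ p ≠ q := by
      by_contra! h
      apply hnpp
      rw [isPrimePow_iff_unique_prime_dvd]
      exact ⟨p, ⟨hp, hpd⟩, fun r hr => (h r hr.1 hr.2).symm⟩
    have := Fact.mk hp
    have := Fact.mk hq
    obtain ⟨a, ha⟩ := exists_prime_orderOf_dvd_card' p hpd
    obtain ⟨b, hb⟩ := exists_prime_orderOf_dvd_card' q hqd
    have ha1 : a ≠ 1 := by rintro rfl; exact hp.one_lt.ne (by simpa using ha)
    have hb1 : b ≠ 1 := by rintro rfl; exact hq.one_lt.ne (by simpa using hb)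
    have hall := (three_orbits_iff ha1 hb1 (by rw [ha, hb]; exact hpq)).1 h3
    have hord : ∀ z : G, orderOf z = 1 ∨ orderOf z = p ∨ orderOf z = q := by
      intro z
      rcases hall z with rfl | ⟨α, rfl⟩ | ⟨α, rfl⟩
      · simp
      · simp [orderOf_mulAut, ha]
      · simp [orderOf_mulAut, hb]
    have : Group.IsSolvable G := by
      refine H29.isSolvable_of_prime_dvd_card hp hq fun r hr hrd => ?_
      have := Fact.mk hr
      obtain ⟨c, hc⟩ := exists_prime_orderOf_dvd_card' r hrd
      rcases hord c with h | h | h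
      · exact absurd (hc.symm.trans h) hr.one_lt.ne'
      · exact Or.inl (hc.symm.trans h)
      · exact Or.inr (hc.symm.trans h)
    by_cases haP : a ∈ commutator G <;> by_cases hbP : b ∈ commutator G
    · exfalso
      have : Nontrivial G := ⟨⟨a, 1, ha1⟩⟩
      apply (IsSolvable.commutator_lt_top_of_nontrivial G).ne
      rw [eq_top_iff]
      intro z _
      rcases hall z with rfl | ⟨α, rfl⟩ | ⟨α, rfl⟩
      · exact one_mem _
      · exact (mem_of_char α).2 haP
      · exact (mem_of_char α).2 hbP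
    · exact core hpq ha hb hall haP hbP
    · exact core hpq.symm hb ha (fun z => (hall z).imp_right Or.symm) hbP haP
    · exfalso
      have h1 : ⁅b, a⁆ = 1 := by
        have hm : ⁅b, a⁆ ∈ commutator G := commutator_mem_commutator (mem_top _) (mem_top _)
        rcases hall ⁅b, a⁆ with h | ⟨α, h⟩ | ⟨α, h⟩
        · exact h
        · exact absurd ((mem_of_char α).1 (h ▸ hm)) haP
        · exact absurd ((mem_of_char α).1 (h ▸ hm)) hbP
      have h2 := orderOf_mul_of_conj_eq hp hq hpq hb ha
        (by rwa [commutatorElement_def, mul_inv_eq_one] at h1)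
      have := hp.one_lt
      have := hq.one_lt
      rcases hord (b * a) with h | h | h <;> rw [h2] at h <;> nlinarith
  · rintro ⟨p, q, n, hp, hq, hpq, hn, hc, hS, ho, hfpf⟩
    obtain ⟨S⟩ : Nonempty (Sylow p G) := inferInstance
    obtain ⟨hN, hcomm, hexp⟩ := hS S
    have hcop : (p ^ n).Coprime q := ((Nat.coprime_primes hp.out hq.out).2 hpq).pow_left n
    have hcS : Nat.card (S : Subgroup G) = p ^ n := by
      rw [S.card_eq_multiplicity, hc, Nat.factorization_mul (pow_ne_zero _ hp.out.ne_zero)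
        hq.out.ne_zero, hp.out.factorization_pow, hq.out.factorization]
      simp [hpq]
    have hidx : (S : Subgroup G).index = q := by
      have := card_mul_index (S : Subgroup G)
      rw [hcS, hc] at this
      exact Nat.eq_of_mul_eq_mul_left (pow_pos hp.out.pos n) this
    have hoin : ∀ z ∈ (S : Subgroup G), z ≠ 1 → orderOf z = p := fun z hz hz1 =>
      orderOf_eq_prime (hexp z hz) hz1
    have hfpf' : ∀ x, orderOf x = q → ∀ u ∈ (S : Subgroup G), x * u * x⁻¹ = u → u = 1 := by
      intro x hx u hu h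
      by_contra h1
      exact hfpf x u hx (hoin u hu h1) h
    have hoout : ∀ z, z ∉ (S : Subgroup G) → orderOf z = q := by
      intro z hz
      have hzq : z ^ q ∈ (S : Subgroup G) := hidx ▸ pow_index_mem _ z
      have hzp : z ^ p ∉ (S : Subgroup G) := by
        intro h
        apply hz
        have h1 := zpow_mem h (Nat.gcdA p q)
        have h2 := zpow_mem hzq (Nat.gcdB p q)
        have h3 := mul_mem h1 h2
        rw [← zpow_natCast, ← zpow_natCast, ← zpow_mul, ← zpow_mul, ← zpow_add,
          ← Nat.gcd_eq_gcd_ab, (Nat.coprime_primes hp.out hq.out).2 hpq] at h3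
        simpa using h3
      have h1 : orderOf (z ^ p) = q := orderOf_eq_prime
        (by rw [← pow_mul, mul_comm, pow_mul, hexp _ hzq]) fun h => hzp (h ▸ one_mem _)
      exact orderOf_eq_prime (hfpf' _ h1 _ hzq (by group)) fun h => hz (h ▸ one_mem _)
    obtain ⟨a, ha⟩ := exists_prime_orderOf_dvd_card' (G := (S : Subgroup G)) p
      (hcS ▸ dvd_pow_self p (by omega))
    obtain ⟨b, hb⟩ := exists_prime_orderOf_dvd_card' (G := G) q (hc ▸ dvd_mul_left _ _)
    have ha1 : a ≠ 1 := by rintro rfl; exact hp.out.one_lt.ne (by simpa using ha)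
    have hb1 : b ≠ 1 := by rintro rfl; exact hq.out.one_lt.ne (by simpa using hb)
    have hbS : b ∉ (S : Subgroup G) := fun h => hpq ((hoin b h hb1).symm.trans hb)
    have hbq : b ^ q = 1 := by rw [← hb, pow_orderOf_eq_one]
    have hcb := isComplement'_zpowers hq.out hidx hb hbS
    refine (three_orbits_iff (a := (a : G)) (fun h => ha1 (Subtype.ext h)) hb1
      (by rw [orderOf_coe, ha, hb]; exact hpq)).2 fun z => ?_
    by_cases hz1 : z = 1
    · exact Or.inl hz1
    right
    by_cases hz : z ∈ (S : Subgroup G)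
    · obtain ⟨σ, h1, h2⟩ := exists_semiconj_grp (S : Subgroup G) hexp hpq ho hbq (hfpf' b hb) hbq
        (hfpf' b hb) ha1 (w := ⟨z, hz⟩) (fun h => hz1 (congrArg Subtype.val h))
      obtain ⟨α, -, h4⟩ := exists_aut_extend hcb hcb rfl σ h2
      exact Or.inl ⟨α, by rw [h4, h1]⟩
    · have hz' := hoout z hz
      obtain ⟨σ, -, h2⟩ := exists_semiconj_grp (S : Subgroup G) hexp hpq ho hbq (hfpf' b hb)
        (x' := z) (by rw [← hz', pow_orderOf_eq_one]) (hfpf' z hz') ha1 ha1
      obtain ⟨α, h3, -⟩ := exists_aut_extend hcb (isComplement'_zpowers hq.out hidx hz' hz)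
        (hb.trans hz'.symm) σ h2
      exact Or.inr ⟨α, h3⟩

end Cfsg.Agent.S4081
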