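import Cfsg.Agent.Base
import Cfsg.Agent.H3.DihQuat
import Cfsg.Statements.S4082

set_option autoImplicit false
open Cfsg

namespace Cfsg.Agent.S4082

open Subgroup
open scoped commutatorElement

theorem inv2 {G : Type*} [Group G] [Finite G] {p : ℕ} [Fact p.Prime] (hp : p ≠ 2)
    (h : ∀ H : Subgroup G, (∀ S : Sylow p ↥H, (S : Subgroup ↥H).Normal) →
        (∀ (S : Sylow p ↥H) [(S : Subgroup ↥H).Normal], IsCyclic (↥H ⧸ (S : Subgroup ↥H))) →
        IsCyclic H ∨ (∃ n : ℕ, Nonempty (H ≃* DihedralGroup (p ^ n))))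
    {Q : Subgroup G} (hQ : IsPGroup p Q) {x : G} (hx : x ∈ normalizer (Q : Set G)) :
    IsCyclic (Q ⊔ zpowers x : Subgroup G) ∨ orderOf x = 2 ∨ (x ∈ centralizer (Q : Set G) ∧
      Even (Nat.card (Q ⊔ zpowers x : Subgroup G))) := by
  set H := Q ⊔ zpowers x
  have hn : (Q.subgroupOf H).Normal := (normal_subgroupOf_iff_le_normalizer le_sup_left).2
    (sup_le le_normalizer (zpowers_le.2 hx))
  have hxH : x ∈ H := mem_sup_right (mem_zpowers x)
  have hc : ∀ (N : Subgroup H) [N.Normal], Q.subgroupOf H ≤ N → IsCyclic (H ⧸ N) := fun N _ hN => by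
    refine ⟨((⟨x, hxH⟩ : H) : H ⧸ N), fun g => ?_⟩
    obtain ⟨⟨g, hg⟩, rfl⟩ := QuotientGroup.mk_surjective g
    have hg' : g ∈ ((zpowers x ⊔ Q : Subgroup G) : Set G) := sup_comm Q _ ▸ hg
    rw [coe_mul_of_left_le_normalizer_right _ _ (zpowers_le.2 hx)] at hg'
    obtain ⟨_, ⟨k, rfl⟩, q, hq, rfl⟩ := hg'
    refine ⟨k, ?_⟩
    simp only [← QuotientGroup.mk_zpow]
    exact QuotientGroup.eq.2 (hN (by simpa [mem_subgroupOf] using hq))
  have hS : ∀ S : Sylow p H, Q.subgroupOf H ≤ S := fun S =>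
    IsPGroup.le_sylow_of_normal (N := Q.subgroupOf H) (hQ.comap_subtype (K := H)) S
  rcases h H (fun S => Normal.of_commutator_le _ (le_trans (by
    have := hc _ le_rfl
    exact Normal.quotient_commutative_iff_commutator_le.1 inferInstance) (hS S)))
    (fun S _ => hc _ (hS S)) with h1 | ⟨n, ⟨e⟩⟩
  · exact Or.inl h1
  right
  have o : ∀ y : H, orderOf (y : G) = orderOf (e y) := fun y => by rw [e.orderOf_eq, orderOf_coe]
  rcases hi : e ⟨x, hxH⟩ with i | i
  · refine Or.inr ⟨fun q hq => ?_, by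
      rw [Nat.card_congr e.toEquiv, DihedralGroup.nat_card]; exact even_two_mul _⟩
    rcases hj : e ⟨q, mem_sup_left hq⟩ with j | j
    · refine congrArg Subtype.val (e.injective (a₁ := ⟨q, mem_sup_left hq⟩ * ⟨x, hxH⟩)
        (a₂ := ⟨x, hxH⟩ * ⟨q, mem_sup_left hq⟩) ?_)
      rw [map_mul, map_mul, hi, hj, DihedralGroup.r_mul_r, DihedralGroup.r_mul_r, add_comm]
    · have h2 := o ⟨q, mem_sup_left hq⟩
      rw [hj, DihedralGroup.orderOf_sr] at h2
      obtain ⟨k, hk⟩ := IsPGroup.iff_orderOf.1 hQ ⟨q, hq⟩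
      rw [← orderOf_coe, h2] at hk
      exact (hp ((Nat.prime_dvd_prime_iff_eq Nat.prime_two Fact.out).1
        (Nat.prime_two.dvd_of_dvd_pow (dvd_of_eq hk))).symm).elim
  · exact Or.inl ((o ⟨x, hxH⟩).trans (by rw [hi, DihedralGroup.orderOf_sr]))

theorem cyc {H : Type*} [Group H] [Finite H] {p : ℕ} [Fact p.Prime] (S : Sylow p H)
    [(S : Subgroup H).Normal] {s x : H} (hs : zpowers s = S)
    (hx : zpowers (x : H ⧸ (S : Subgroup H)) = ⊤) : closure {s, x} = ⊤ ∧ (Commute s x → IsCyclic H) := by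
  have h1 : closure {s, x} = ⊤ := by
    refine (eq_top_iff' _).2 fun g => ?_
    obtain ⟨k, hk⟩ := (hx ▸ mem_top _ : (g : H ⧸ (S : Subgroup H)) ∈ zpowers (x : H ⧸ (S : Subgroup H)))
    simp only [← QuotientGroup.mk_zpow] at hk
    have := QuotientGroup.eq.1 hk
    rw [← hs] at this
    exact (mul_mem_cancel_left (inv_mem (zpow_mem (subset_closure (by simp)) k))).1
      (zpowers_le.2 (subset_closure (by simp)) this)
  refine ⟨h1, fun hc => ?_⟩
  have h2 : IsMulCommutative (closure {s, x} : Subgroup H) := isMulCommutative_closure (by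
    rintro a (rfl | rfl) b (rfl | rfl)
    exacts [rfl, hc.eq, hc.eq.symm, rfl])
  let _ : CommGroup H := { (inferInstance : Group H) with
    mul_comm := fun a b => setLike_mul_comm (s := closure {s, x}) (h1 ▸ mem_top a) (h1 ▸ mem_top b) }
  refine IsCyclic.of_exponent_eq_card (Nat.dvd_antisymm Group.exponent_dvd_nat_card ?_)
  rw [← (S : Subgroup H).card_mul_index]
  refine S.card_coprime_index.mul_dvd_of_dvd_of_dvd ?_ ?_
  · rw [← hs, Nat.card_zpowers]; exact Monoid.order_dvd_exponent s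
  · rw [index, ← card_top, ← hx, Nat.card_zpowers]
    exact (orderOf_map_dvd (QuotientGroup.mk' _) x).trans (Monoid.order_dvd_exponent x)

/-- Let p be an odd prime and G a finite group with Sylow p-subgroup P. Say that G has restricted p-by-cyclic subgroups when every subgroup H of G whose Sylow p-subgroup is normal in H with cyclic quotient is itself cyclic or dihedral of order 2pⁿ for some n. Then G has restricted p-by-cyclic subgroups if and only if P is cyclic and one of the following holds: (1) N_G(P) = C_G(P); or (2) N_G(P)/C_G(P) has order 2 and, for the subgroup Q of order p of P, the centralizer C_G(Q) is abelian and every element of N_G(Q) outside C_G(Q) is an involution inverting every element of C_G(Q). -/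
theorem result {G : Type*} [Group G] [Finite G] {p : ℕ}
    [Fact p.Prime] (hp : p ≠ 2) (P : Sylow p G) :
    (∀ H : Subgroup G, (∀ S : Sylow p ↥H, (S : Subgroup ↥H).Normal) →
        (∀ (S : Sylow p ↥H) [(S : Subgroup ↥H).Normal], IsCyclic (↥H ⧸ (S : Subgroup ↥H))) →
        IsCyclic H ∨ (∃ n : ℕ, Nonempty (H ≃* DihedralGroup (p ^ n)))) ↔
    (IsCyclic P ∧
      (Subgroup.normalizer ((P : Subgroup G) : Set G) = Subgroup.centralizer ((P : Subgroup G) : Set G) ∨
       ((Subgroup.centralizer ((P : Subgroup G) : Set G)).relIndex (Subgroup.normalizer ((P : Subgroup G) : Set G)) = 2 ∧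
        ∀ Q : Subgroup G, Q ≤ P → Nat.card Q = p →
          IsMulCommutative ↥(Subgroup.centralizer (Q : Set G)) ∧
          ∀ x : G, x ∈ Subgroup.normalizer (Q : Set G) → x ∉ Subgroup.centralizer (Q : Set G) →
            orderOf x = 2 ∧ ∀ c : G, c ∈ Subgroup.centralizer (Q : Set G) → x * c * x⁻¹ = c⁻¹))) := by
  have hp' : p.Prime := Fact.out
  constructor
  · intro h
    have hP : IsCyclic P := by
      obtain ⟨k, hk⟩ := IsPGroup.iff_card.1 P.isPGroup'
      have := inv2 hp h P.isPGroup' (one_mem _)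
      rw [zpowers_one_eq_bot, sup_bot_eq, hk, orderOf_one] at this
      rcases this with h | h | h
      · exact h
      · omega
      · exact absurd h.2 (Nat.not_even_iff_odd.2 (hp'.odd_of_ne_two hp).pow)
    have key : ∀ Q : Subgroup G, IsPGroup p Q → ∀ x ∈ normalizer (Q : Set G), x ∉ centralizer (Q : Set G) →
        orderOf x = 2 ∧ ∀ c ∈ centralizer (Q : Set G), x * c * x⁻¹ = c⁻¹ := fun Q hQ => by
      have k1 : ∀ x ∈ normalizer (Q : Set G), x ∉ centralizer (Q : Set G) → orderOf x = 2 :=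
        fun x h1 h2 => by
          rcases inv2 hp h hQ h1 with h3 | h3 | h3
          · exact (h2 fun q hq => setLike_mul_comm (s := Q ⊔ zpowers x) (mem_sup_left hq)
              (mem_sup_right (mem_zpowers x))).elim
          · exact h3
          · exact (h2 h3.1).elim
      refine fun x h1 h2 => ⟨k1 x h1 h2, fun c hc => ?_⟩
      have e1 := pow_orderOf_eq_one x
      have e2 := pow_orderOf_eq_one (x * c)
      rw [k1 x h1 h2, sq] at e1
      rw [k1 _ (mul_mem h1 (centralizer_le_normalizer _ hc))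
        fun e => h2 ((mul_mem_cancel_right hc).1 e), sq] at e2
      rw [inv_eq_of_mul_eq_one_right e1, eq_inv_iff_mul_eq_one, mul_assoc, e2]
    refine ⟨hP, or_iff_not_imp_left.2 fun h1 => ?_⟩
    obtain ⟨x, hx1, hx2⟩ := SetLike.not_le_iff_exists.1 fun e =>
      h1 (le_antisymm e (centralizer_le_normalizer _))
    have hPc : (P : Subgroup G) ≤ centralizer ((P : Subgroup G) : Set G) := le_centralizer _
    have hi := fun y h1 h2 c hc => (key _ P.isPGroup' y h1 h2).2 c (hPc hc)
    refine ⟨?_, fun Q hQ hc => ⟨?_, key Q (P.isPGroup'.to_le hQ)⟩⟩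
    · refine relIndex_eq_two_iff_exists_notMem_and.2 ⟨x, hx1, hx2, fun y hy => ?_⟩
      refine or_iff_not_imp_right.2 fun h2 c hc => ?_
      have e1 := hi x hx1 hx2 c hc
      have e2 := hi y hy h2 c hc
      calc c * (y * x) = (y * c * y⁻¹)⁻¹ * y * x := by rw [e2]; group
        _ = y * (x * c * x⁻¹) * x := by rw [e1]; group
        _ = _ := by group
    · have h2 : x ∈ normalizer (Q : Set G) := mem_normalizer_fintype fun c hc => by
        rw [hi x hx1 hx2 c (hQ hc)]; exact inv_mem hc
      have h3 : x ∉ centralizer (Q : Set G) := fun e => by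
        have : Q ≠ ⊥ := fun e => hp'.ne_one (by rw [← hc, e, card_bot])
        obtain ⟨⟨c, hc1⟩, hc2⟩ := ne_bot_iff_exists_ne_one.1 this
        have e1 := hi x hx1 hx2 c (hQ hc1)
        rw [← e c hc1, mul_inv_cancel_right, eq_inv_iff_mul_eq_one, ← sq] at e1
        have e2 : orderOf c ∣ p := hc ▸ orderOf_dvd_natCard Q hc1
        refine hc2 (Subtype.ext (orderOf_eq_one_iff.1 (Nat.eq_one_of_dvd_coprimes
          ((Nat.coprime_primes Nat.prime_two hp').2 hp.symm) (orderOf_dvd_of_pow_eq_one e1) e2)))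
      have h4 := (key Q (P.isPGroup'.to_le hQ) x h2 h3).2
      refine ⟨⟨fun a b => Subtype.ext (inv_injective ?_)⟩⟩
      rw [← h4 _ (a * b).2, coe_mul, coe_mul, mul_inv_rev, ← h4 _ a.2, ← h4 _ b.2]
      group
  · rintro ⟨hP, h⟩ H hn hc
    obtain ⟨S⟩ : Nonempty (Sylow p H) := inferInstance
    have := hn S
    obtain ⟨xq, hxq⟩ := _root_.isCyclic_iff_exists_zpowers_eq_top.1 (hc S)
    obtain ⟨x, rfl⟩ := QuotientGroup.mk_surjective xq
    have hS : IsPGroup p ((S : Subgroup H).map H.subtype) := S.isPGroup'.map _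
    obtain ⟨T, hT⟩ := hS.exists_le_sylow
    obtain ⟨g, hg⟩ := MulAction.exists_smul_eq G T P
    have hgP : ∀ y ∈ (S : Subgroup H), g * y * g⁻¹ ∈ (P : Subgroup G) := fun y hy => by
      rw [← hg, Sylow.coe_subgroup_smul]
      exact smul_mem_pointwise_smul _ (MulAut.conj g) _ (hT (mem_map_of_mem _ hy))
    have hSc : IsCyclic S := isCyclic_of_injective
      ((((MulAut.conj g).toMonoidHom.comp H.subtype).comp (S : Subgroup H).subtype).codRestrict
        (P : Subgroup G) fun y => hgP y y.2) fun a b e => by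
      simpa using congrArg Subtype.val e
    obtain ⟨s, hs⟩ := (Subgroup.isCyclic_iff_exists_zpowers_eq_top _).1 hSc
    obtain ⟨h1, h2⟩ := cyc S hs hxq
    refine or_iff_not_imp_left.2 fun h3 => ?_
    have h4 : ¬ Commute s x := fun e => h3 (h2 e)
    have hsS : s ∈ (S : Subgroup H) := hs ▸ mem_zpowers s
    rcases h with h | ⟨-, h⟩
    · have hf := MonoidHom.ker_transferSylow_disjoint P h.le _ hS
      have : IsMulCommutative P := inferInstance
      have h5 : ((⁅s, x⁆ : H) : G) ∈ (⊥ : Subgroup G) := hf.le_bot ⟨by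
        change MonoidHom.transferSylow P h.le (H.subtype ⁅s, x⁆) = 1
        rw [map_commutatorElement, map_commutatorElement, commutatorElement_eq_one_iff_mul_comm]
        exact mul_comm' _ _, mem_map_of_mem H.subtype (show ⁅s, x⁆ ∈ (S : Subgroup H) by
          rw [commutatorElement_def, mul_assoc, mul_assoc, ← mul_assoc x]
          exact mul_mem hsS ((hn S).conj_mem _ (inv_mem hsS) x))⟩
      exact (h4 (commutatorElement_eq_one_iff_commute.1 (Subtype.ext h5))).elim
    · obtain ⟨n, hn'⟩ := IsPGroup.iff_orderOf.1 S.isPGroup' ⟨s, hsS⟩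
      rw [orderOf_mk] at hn'
      refine ⟨n, ?_⟩
      have s1 : s ≠ 1 := fun e => h4 (e ▸ Commute.one_left x)
      have : Nontrivial S := ⟨⟨s, hsS⟩, 1, fun e => s1 (congrArg Subtype.val e)⟩
      obtain ⟨⟨u, huS⟩, hu⟩ := exists_prime_orderOf_dvd_card' (G := S) p
        (S.isPGroup'.card_eq_or_dvd.resolve_left Finite.one_lt_card.ne')
      rw [orderOf_mk] at hu
      obtain ⟨h5, h6⟩ := h (zpowers (g * u * g⁻¹)) (zpowers_le.2 (hgP u huS)) (by
        rw [Nat.card_zpowers, ← hu, ← orderOf_coe]; exact (MulAut.conj g).orderOf_eq _)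
      have c1 : ∀ y : H, g * y * g⁻¹ ∈ centralizer ((zpowers (g * u * g⁻¹) : Subgroup G) : Set G) ↔
          Commute y u := fun y => by
        rw [zpowers_eq_closure, centralizer_closure, mem_centralizer_singleton_iff, conj_mul, conj_mul,
          mul_left_inj, mul_right_inj, ← coe_mul, ← coe_mul, Subtype.coe_inj, commute_iff_eq]
      have c2 : Commute s u := setLike_mul_comm hsS huS
      have c3 : ¬ Commute x u := fun e => h4 (by
        have := setLike_mul_comm ((c1 s).2 c2) ((c1 x).2 e)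
        rwa [conj_mul, conj_mul, mul_left_inj, mul_right_inj, ← coe_mul, ← coe_mul,
          Subtype.coe_inj] at this)
      have c4 : x * u * x⁻¹ ∈ zpowers u := by
        obtain ⟨k, rfl⟩ := (hs ▸ huS : u ∈ zpowers s)
        obtain ⟨l, hl⟩ := (hs ▸ (hn S).conj_mem _ hsS x : x * s * x⁻¹ ∈ zpowers s)
        exact ⟨l, by simp only at hl ⊢; rw [← conj_zpow, ← hl, ← zpow_mul, ← zpow_mul, mul_comm]⟩
      obtain ⟨h7, h8⟩ := h6 (g * x * g⁻¹) (mem_normalizer_fintype (by
        rintro _ ⟨m, rfl⟩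
        obtain ⟨l, hl⟩ := c4
        simp only at hl ⊢
        rw [← conj_zpow, conj_inv, conj_mul, conj_mul, ← coe_inv, ← coe_mul, ← coe_mul, ← hl, coe_zpow,
          ← conj_zpow]
        exact zpow_mem (zpow_mem (mem_zpowers _) l) m)) (fun e => c3 ((c1 x).1 e))
      refine H3.nonempty_mulEquiv_dihedral_of_closure hn' ?_ ?_ (fun e => h4 ?_) h1
      · exact orderOf_dvd_iff_pow_eq_one.1 (dvd_of_eq
          (h7.symm.trans (((MulAut.conj g).orderOf_eq _).trans (orderOf_coe x))).symm)
      · have := h8 _ ((c1 s).2 c2)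
        rw [conj_inv, conj_inv, conj_mul, conj_mul, mul_left_inj, mul_right_inj] at this
        exact Subtype.ext this
      · exact setLike_mul_comm hsS (hs ▸ e)

end Cfsg.Agent.S4082
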