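import Cfsg.Statements.S4084
import Cfsg.Agent.Base

set_option autoImplicit false
open Cfsg

namespace Cfsg.Agent.S4084

open Subgroup

theorem aux {G H : Type*} [Group G] [Finite G] [Group H] [Finite H] (e : G ≃ H)
    (he : ∀ x y : G, Commute x y ↔ Commute (e x) (e y))
    {p q : ℕ} (hp : p.Prime) (hq : q.Prime) (hpq : p ≠ q) :
    (∃ g : G, orderOf g = p * q) → (∃ h : H, orderOf h = p * q) := by
  rintro ⟨g, hg⟩
  let A : Subgroup G := centralizer (centralizer {g} : Subgroup G)
  let B : Subgroup H := centralizer (centralizer {e g} : Subgroup H)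
  have hAB : ∀ x, x ∈ A ↔ e x ∈ B := fun x => by
    refine e.forall_congr fun y => ?_
    exact imp_congr (mem_centralizer_singleton_iff.trans ((he y g).trans
      mem_centralizer_singleton_iff.symm)) (he y x)
  have hc : Nat.card A = Nat.card B := Nat.card_congr (e.subtypeEquiv hAB)
  have hd : p * q ∣ Nat.card B := hc ▸ hg ▸ Subgroup.orderOf_dvd_natCard A
    fun y hy => mem_centralizer_singleton_iff.1 hy
  haveI := Fact.mk hp
  haveI := Fact.mk hq
  obtain ⟨a, ha⟩ := exists_prime_orderOf_dvd_card' p ((Dvd.intro _ rfl).trans hd)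
  obtain ⟨b, hb⟩ := exists_prime_orderOf_dvd_card' q ((Dvd.intro_left _ rfl).trans hd)
  have hab : Commute (a : H) b := b.2 a (mem_centralizer_singleton_iff.2
    (a.2 _ (mem_centralizer_singleton_iff.2 rfl)).symm)
  rw [← orderOf_coe] at ha hb
  exact ⟨a * b, by rw [hab.orderOf_mul_eq_mul_orderOf_of_coprime
    (by rw [ha, hb]; exact (Nat.coprime_primes hp hq).2 hpq), ha, hb]⟩

/-- Let G and H be finite groups whose commuting graphs are isomorphic: there is a bijection e : G → H with x, y commuting exactly when e(x), e(y) commute. Then G and H have the same prime graph: for distinct primes p, q, G has an element of order pq if and only if H does (and #G = #H, so the prime divisors agree). -/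
theorem result {G H : Type*} [Group G] [Finite G] [Group H] [Finite H] (e : G ≃ H)
    (he : ∀ x y : G, Commute x y ↔ Commute (e x) (e y))
    {p q : ℕ} (hp : p.Prime) (hq : q.Prime) (hpq : p ≠ q) :
    (∃ g : G, orderOf g = p * q) ↔ (∃ h : H, orderOf h = p * q) := by
  exact ⟨aux e he hp hq hpq, aux e.symm (fun x y => by rw [he]; simp) hp hq hpq⟩

end Cfsg.Agent.S4084
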