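import Cfsg.Agent.Base
import Cfsg.Agent.H18.Misc2
import Cfsg.Statements.S4085

set_option autoImplicit false
open Cfsg

namespace Cfsg.Agent.S4085

open Subgroup

/-- incomparable numbers -/
def Inc (a b : ℕ) : Prop := ¬ (a ∣ b ∨ b ∣ a)

theorem inc_pow {r l j : ℕ} (hr : r.Prime) (hl : l.Prime) (h : l ≠ r) (hj : r ^ j ≠ 1) :
    Inc (r ^ j) l := by
  rintro (e | e)
  · exact h ((Nat.prime_dvd_prime_iff_eq hr hl).1
      ((dvd_pow_self r fun e => hj (by rw [e, pow_zero])).trans e)).symm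
  · exact h ((Nat.prime_dvd_prime_iff_eq hl hr).1 (hl.dvd_of_dvd_pow e))

theorem chain {n p q d : ℕ} (hp : p.Prime) (hq : q.Prime) (hpq : p ≠ q) (hd : d ∣ n) (h1 : d ≠ 1)
    (h2 : d ≠ n) : (Inc d p ∨ Inc d q) ∨ ∃ s, s ∣ n ∧ Inc d s ∧ (Inc s p ∨ Inc s q) := by
  have h3 : ¬ n ∣ d := fun e => h2 (Nat.dvd_antisymm hd e)
  rw [Nat.dvd_iff_prime_pow_dvd_dvd] at h3
  push Not at h3
  obtain ⟨r, k, hr, h4, h5⟩ := h3
  have key : ∀ j, r ^ j ≠ 1 → Inc (r ^ j) p ∨ Inc (r ^ j) q := fun j hj => by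
    by_cases e : p = r
    · exact Or.inr (inc_pow hr hq (fun e' => hpq (e.trans e'.symm)) hj)
    · exact Or.inl (inc_pow hr hp e hj)
  by_cases h6 : d ∣ r ^ k
  · obtain ⟨j, -, rfl⟩ := (Nat.dvd_prime_pow hr).1 h6
    exact Or.inl (key j h1)
  · exact Or.inr ⟨_, h4, fun e => e.elim h6 h5, key k fun e => h5 (e ▸ one_dvd d)⟩

section
variable {G : Type*} [Group G] [Finite G] {x u v : G} {d : ℕ}

/-- adjacent or equal in the power graph -/
abbrev adj (a b : G) : Prop := a ∈ zpowers b ∨ b ∈ zpowers a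

theorem mem_of_dvd (hu : u ∈ zpowers x) (hv : v ∈ zpowers x) (h : orderOf u ∣ orderOf v) :
    u ∈ zpowers v := H18.mem_zpowers_of_orderOf_dvd inferInstance hu hv h

theorem adj_iff (hu : u ∈ zpowers x) (hv : v ∈ zpowers x) :
    ¬ adj u v ↔ Inc (orderOf u) (orderOf v) :=
  not_congr (or_congr ⟨orderOf_dvd_of_mem_zpowers, mem_of_dvd hu hv⟩
    ⟨orderOf_dvd_of_mem_zpowers, mem_of_dvd hv hu⟩)

theorem exists_ord (h : d ∣ orderOf x) : ∃ u ∈ zpowers x, orderOf u = d :=
  ⟨_, pow_mem (mem_zpowers x) _, orderOf_pow_orderOf_div (orderOf_pos x).ne' h⟩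

theorem cnt (h : d ∣ orderOf x) : {u | u ∈ zpowers x ∧ orderOf u = d}.ncard = d.totient := by
  classical
  have := Fintype.ofFinite (zpowers x)
  rw [← IsCyclic.card_orderOf_eq_totient (α := zpowers x)
    (by rwa [← Nat.card_eq_fintype_card, Nat.card_zpowers]), ← Set.ncard_coe_finset,
    ← Set.ncard_image_of_injective _ Subtype.val_injective]
  congr 1
  ext u
  simp only [Set.mem_ofPred_eq, Finset.coe_filter, Finset.mem_univ, true_and, Set.mem_image,
    Subtype.exists, orderOf_mk, exists_and_right, exists_eq_right, exists_prop]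

theorem dom (h1 : x ≠ 1) : {t | t ∈ zpowers x ∧ t ≠ 1 ∧ ∀ s ∈ zpowers x, adj t s}.ncard <
    2 * (orderOf x).totient := by
  have h0 : orderOf x ≠ 1 := mt orderOf_eq_one_iff.1 h1
  by_cases h : IsPrimePow (orderOf x)
  · obtain ⟨r, k, hr, hk, e⟩ := (isPrimePow_nat_iff _).1 h
    refine (Set.ncard_lt_ncard (t := zpowers x) ⟨fun t ht => ht.1, fun e =>
      (e (one_mem (zpowers x))).2.1 rfl⟩).trans_le ?_
    rw [← Nat.card_coe_set_eq, SetLike.coe_sort_coe, Nat.card_zpowers, ← e, Nat.totient_prime_pow hr hk]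
    obtain ⟨k, rfl⟩ := Nat.exists_eq_add_of_lt hk
    have := hr.two_le
    simp only [zero_add, add_tsub_cancel_right, pow_succ]
    rw [mul_left_comm]
    exact Nat.mul_le_mul_left _ (by omega)
  · obtain ⟨p, hp, h2⟩ := Nat.exists_prime_and_dvd h0
    obtain ⟨q, hq, h3, hqp⟩ : ∃ q : ℕ, q.Prime ∧ q ∣ orderOf x ∧ q ≠ p := by
      by_contra h3
      push Not at h3
      exact h (isPrimePow_iff_unique_prime_dvd.2 ⟨p, ⟨hp, h2⟩, fun q hq => h3 q hq.1 hq.2⟩)
    have := Nat.totient_pos.2 (orderOf_pos x)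
    refine lt_of_le_of_lt ?_ (by omega : (orderOf x).totient < _)
    rw [← cnt dvd_rfl]
    refine Set.ncard_le_ncard fun t ht => ⟨ht.1, by_contra fun e => ?_⟩
    have key : ∀ s, s ∣ orderOf x → ¬ Inc (orderOf t) s := fun s hs => by
      obtain ⟨u, hu, rfl⟩ := exists_ord hs
      rw [← adj_iff ht.1 hu, not_not]
      exact ht.2.2 u hu
    rcases chain hp hq hqp.symm (orderOf_dvd_of_mem_zpowers ht.1) (mt orderOf_eq_one_iff.1 ht.2.1) e
      with (h | h) | ⟨s, hs, h, -⟩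
    exacts [key _ h2 h, key _ h3 h, key _ hs h]

end

theorem main {G H : Type*} [Group G] [Finite G] [Group H] [Finite H] (e : G ≃ H)
    (he : ∀ x y : G, adj x y ↔ adj (e x) (e y)) {p q : ℕ} (hp : p.Prime) (hq : q.Prime) (hpq : p < q)
    {g : G} (hg : orderOf g = p * q) : ∃ h : H, orderOf h = p * q := by
  by_contra hn
  have hn' : ∀ h : H, ¬ p * q ∣ orderOf h := fun h h1 => let ⟨u, _, hu⟩ := exists_ord h1; hn ⟨u, hu⟩
  have hco := (Nat.coprime_primes hp hq).2 hpq.ne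
  have e1 : e 1 = 1 := by
    by_contra h1
    have h2 : ∀ h, adj (e 1) h := fun h => by simpa using (he 1 (e.symm h)).1 (Or.inl (one_mem _))
    have hc : p * q ∣ Nat.card H := by rw [← Nat.card_congr e, ← hg]; exact orderOf_dvd_natCard g
    have := Fact.mk hp
    have := Fact.mk hq
    obtain ⟨a, ha⟩ := exists_prime_orderOf_dvd_card' p (dvd_of_mul_right_dvd hc)
    obtain ⟨b, hb⟩ := exists_prime_orderOf_dvd_card' q (dvd_of_mul_left_dvd hc)
    have k : ∀ {r : ℕ} {a : H}, r.Prime → orderOf a = r → r ∣ orderOf (e 1) := fun hr ha => by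
      rcases h2 _ with h | h
      · exact dvd_of_eq (((Nat.dvd_prime hr).1 (ha ▸ orderOf_dvd_of_mem_zpowers h)).resolve_left
          (mt orderOf_eq_one_iff.1 h1)).symm
      · exact ha ▸ orderOf_dvd_of_mem_zpowers h
    exact hn' _ (hco.mul_dvd_of_dvd_of_dvd (k hp ha) (k hq hb))
  have ne1 : ∀ {z : G}, z ≠ 1 → e z ≠ 1 := fun h h' => h (e.injective (h'.trans e1.symm))
  obtain ⟨x0, hx0, hm0⟩ := Set.exists_max_image {x | g ∈ zpowers x} orderOf (Set.toFinite _)
    ⟨g, mem_zpowers g⟩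
  obtain ⟨x, ⟨hx1, hx2⟩, hm⟩ := Set.exists_max_image {x | x ∈ zpowers x0 ∧ orderOf x = orderOf x0}
    (fun x => orderOf (e x)) (Set.toFinite _) ⟨x0, mem_zpowers x0, rfl⟩
  have hz : zpowers x = zpowers x0 := le_antisymm (zpowers_le.2 hx1)
    (zpowers_le.2 (mem_of_dvd (mem_zpowers x0) hx1 (dvd_of_eq hx2.symm)))
  rw [← hz, ← hx2] at hm
  have hgx : g ∈ zpowers x := hz ▸ hx0
  have hC : ∀ z, adj z x ↔ z ∈ zpowers x := fun z => ⟨fun h => h.elim id fun h =>
    mem_of_dvd (mem_zpowers z) h (dvd_of_eq (le_antisymm (hx2 ▸ hm0 z (zpowers_le.2 h hgx))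
      (Nat.le_of_dvd (orderOf_pos z) (orderOf_dvd_of_mem_zpowers h)))), Or.inl⟩
  have hpx : p * q ∣ orderOf x := hg ▸ orderOf_dvd_of_mem_zpowers hgx
  have hY : ∀ z ∈ zpowers x, orderOf z = orderOf x → e z ∈ zpowers (e x) := fun z h1 h2 =>
    ((he z x).1 (Or.inl h1)).elim id fun h => mem_of_dvd (mem_zpowers _) h (dvd_of_eq
      (le_antisymm (hm z ⟨h1, h2⟩) (Nat.le_of_dvd (orderOf_pos _) (orderOf_dvd_of_mem_zpowers h))))
  obtain ⟨a, ha, hap⟩ := exists_ord (dvd_of_mul_right_dvd hpx)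
  obtain ⟨b, hb, hbq⟩ := exists_ord (dvd_of_mul_left_dvd hpx)
  have hab : Inc q p := by simpa using inc_pow (j := 1) hq hp hpq.ne (by simpa using hq.ne_one)
  have hT : ∀ h ∈ zpowers (e x), e.symm h ∈ zpowers x := fun h h1 =>
    (hC _).1 ((he _ _).2 (Or.inl (by simpa using h1)))
  by_cases h0 : e a ∈ zpowers (e x)
  · have step : ∀ u ∈ zpowers x, ∀ v ∈ zpowers x, Inc (orderOf u) (orderOf v) →
        e v ∈ zpowers (e x) → e u ∈ zpowers (e x) := fun u hu v hv h1 h2 =>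
      ((he u x).1 (Or.inl hu)).elim id fun h =>
        ((adj_iff hu hv).2 h1 ((he u v).2 (Or.inr (zpowers_le.2 h h2)))).elim
    have s2 : ∀ u ∈ zpowers x, Inc (orderOf u) p ∨ Inc (orderOf u) q → e u ∈ zpowers (e x) :=
      fun u hu h => h.elim (fun h => step u hu a ha (hap ▸ h) h0) fun h =>
        step u hu b hb (hbq ▸ h) (step b hb a ha (hap ▸ hbq ▸ hab) h0)
    have all : ∀ u ∈ zpowers x, e u ∈ zpowers (e x) := fun u hu => by
      by_cases h1 : orderOf u = 1
      · rw [orderOf_eq_one_iff.1 h1, e1]; exact one_mem _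
      by_cases h2 : orderOf u = orderOf x
      · exact hY u hu h2
      rcases chain hp hq hpq.ne (orderOf_dvd_of_mem_zpowers hu) h1 h2 with h | ⟨s, hs, h, h'⟩
      · exact s2 u hu h
      · obtain ⟨v, hv, rfl⟩ := exists_ord hs
        exact step u hu v hv h (s2 v hv h')
    refine hn' (e x) (hpx.trans (dvd_of_eq ?_))
    rw [← Nat.card_zpowers, ← Nat.card_zpowers]
    exact Nat.card_congr (e.subtypeEquiv fun u => ⟨all u, fun h => by simpa using hT _ h⟩)
  have h1 := ((he a x).1 (Or.inl ha)).resolve_left h0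
  have a1 : a ≠ 1 := fun h => hp.ne_one (by rw [← hap, h, orderOf_one])
  have x1 : x ≠ 1 := fun h => a1 (by simpa [h] using ha)
  have c1 : (orderOf (e a)).totient ≤ p - 1 := by
    rw [← cnt dvd_rfl, ← Nat.totient_prime hp, ← cnt (dvd_of_mul_right_dvd hpx)]
    refine Set.ncard_le_ncard_of_injOn e.symm (fun t ht => ?_) e.symm.injective.injOn
    have h2 : zpowers t = zpowers (e a) := le_antisymm (zpowers_le.2 ht.1)
      (zpowers_le.2 (mem_of_dvd (mem_zpowers _) ht.1 (dvd_of_eq ht.2.symm)))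
    have tw : ∀ z, adj z a ↔ adj z (e.symm t) := fun z => by
      rw [he, he, e.apply_symm_apply, adj, adj, ← zpowers_le (g := e a), ← zpowers_le (g := t), h2]
    have h3 : e.symm t ∈ zpowers x := (hC _).1 ((tw x).1 (Or.inr ha)).symm
    have h4 : ¬ q ∣ orderOf (e.symm t) := fun h => (adj_iff hb ha).2 (hap ▸ hbq ▸ hab)
      ((tw b).2 (Or.inl (mem_of_dvd hb h3 (hbq ▸ h))))
    refine ⟨h3, ?_⟩
    rcases (tw g).1 (Or.inr (mem_of_dvd ha hgx (hap ▸ hg ▸ dvd_mul_right p q))) with h | h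
    · exact (h4 (dvd_of_mul_left_dvd (hg ▸ orderOf_dvd_of_mem_zpowers h))).elim
    · refine ((Nat.dvd_prime hp).1 (((hq.coprime_iff_not_dvd.2 h4).symm).dvd_of_dvd_mul_right
        (hg ▸ orderOf_dvd_of_mem_zpowers h))).resolve_left fun h5 => ne1 a1 ?_
      rw [orderOf_eq_one_iff, e.symm_apply_eq, e1] at h5
      rw [← orderOf_eq_one_iff, ← ht.2, h5, orderOf_one]
  have c2 : (orderOf x).totient < 2 * (orderOf (e x)).totient := by
    refine lt_of_le_of_lt ?_ (dom (ne1 x1))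
    rw [← cnt dvd_rfl]
    refine Set.ncard_le_ncard_of_injOn e (fun z hz => ⟨hY z hz.1 hz.2, ne1 fun h => x1 ?_,
      fun s hs => ?_⟩) e.injective.injOn
    · rw [← orderOf_eq_one_iff, ← hz.2, h, orderOf_one]
    · simpa using (he z (e.symm s)).1 (Or.inr (mem_of_dvd (hT s hs) hz.1
        (hz.2 ▸ orderOf_dvd_of_mem_zpowers (hT s hs))))
  have c3 := Nat.le_of_dvd (Nat.totient_pos.2 (orderOf_pos (e a)))
    (Nat.totient_dvd_of_dvd (orderOf_dvd_of_mem_zpowers h1))
  have c4 := Nat.le_of_dvd (Nat.totient_pos.2 (orderOf_pos x)) (Nat.totient_dvd_of_dvd hpx)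
  rw [Nat.totient_mul hco, Nat.totient_prime hp, Nat.totient_prime hq] at c4
  have := hp.two_le
  have : (p - 1) * 2 ≤ (p - 1) * (q - 1) := Nat.mul_le_mul_left _ (by omega)
  omega

/-- Let G and H be finite groups whose power graphs are isomorphic: there is a bijection e : G → H such that, for all x, y, one of x, y is a power of the other exactly when one of e(x), e(y) is a power of the other. Then G and H have the same prime graph: for distinct primes p, q, G has an element of order pq if and only if H does. -/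
theorem result {G H : Type*} [Group G] [Finite G] [Group H] [Finite H] (e : G ≃ H)
    (he : ∀ x y : G, (x ∈ Subgroup.zpowers y ∨ y ∈ Subgroup.zpowers x) ↔
      (e x ∈ Subgroup.zpowers (e y) ∨ e y ∈ Subgroup.zpowers (e x)))
    {p q : ℕ} (hp : p.Prime) (hq : q.Prime) (hpq : p ≠ q) :
    (∃ g : G, orderOf g = p * q) ↔ (∃ h : H, orderOf h = p * q) := by
  have he' : ∀ x y : H, adj x y ↔ adj (e.symm x) (e.symm y) := fun x y => by
    simpa using (he (e.symm x) (e.symm y)).symm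
  rcases hpq.lt_or_gt with h | h
  · exact ⟨fun ⟨_, hg⟩ => main e he hp hq h hg, fun ⟨_, hg⟩ => main e.symm he' hp hq h hg⟩
  · rw [mul_comm]
    exact ⟨fun ⟨_, hg⟩ => main e he hq hp h hg, fun ⟨_, hg⟩ => main e.symm he' hq hp h hg⟩

end Cfsg.Agent.S4085
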