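import Cfsg.Statements.S4086
import Cfsg.Agent.H18.Misc2

set_option autoImplicit false
open Cfsg

namespace Cfsg.Agent.S4086

/-- For a finite group G the following are equivalent: every non-identity element has prime-power order; whenever two elements generate a cyclic subgroup, one of them is a power of the other (the enhanced power graph of G coincides with its power graph). -/
theorem result {G : Type*} [Group G] [Finite G] :
    (∀ g : G, g ≠ 1 → IsPrimePow (orderOf g)) ↔
    (∀ x y : G, IsCyclic ↥(Subgroup.closure ({x, y} : Set G)) → (x ∈ Subgroup.zpowers y ∨ y ∈ Subgroup.zpowers x)) := by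
  constructor
  · intro h x y hc
    obtain ⟨g, hg⟩ := (Subgroup.isCyclic_iff_exists_zpowers_eq_top _).1 hc
    have hx : x ∈ Subgroup.zpowers g := hg ▸ Subgroup.subset_closure (by simp)
    have hy : y ∈ Subgroup.zpowers g := hg ▸ Subgroup.subset_closure (by simp)
    have key : ∀ a b : G, a ∈ Subgroup.zpowers g → b ∈ Subgroup.zpowers g → orderOf a ∣ orderOf b →
        a ∈ Subgroup.zpowers b := fun a b => H18.mem_zpowers_of_orderOf_dvd inferInstance
    by_cases h1 : g = 1
    · subst h1
      rw [Subgroup.zpowers_one_eq_bot, Subgroup.mem_bot] at hx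
      exact Or.inl (hx ▸ one_mem _)
    obtain ⟨p, k, hp, -, hk⟩ := (isPrimePow_nat_iff _).1 (h g h1)
    obtain ⟨i, -, hi⟩ := (Nat.dvd_prime_pow hp).1 (hk ▸ orderOf_dvd_of_mem_zpowers hx)
    obtain ⟨j, -, hj⟩ := (Nat.dvd_prime_pow hp).1 (hk ▸ orderOf_dvd_of_mem_zpowers hy)
    rcases le_total i j with hij | hij
    · exact Or.inl (key x y hx hy (by rw [hi, hj]; exact pow_dvd_pow p hij))
    · exact Or.inr (key y x hy hx (by rw [hi, hj]; exact pow_dvd_pow p hij))
  · intro h g hg
    have h0 := (orderOf_pos g).ne'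
    have h1 : orderOf g ≠ 1 := fun e => hg (orderOf_eq_one_iff.1 e)
    refine isPrimePow_iff_unique_prime_dvd.2 ⟨_, ⟨Nat.minFac_prime h1, Nat.minFac_dvd _⟩, ?_⟩
    suffices ∀ p q : ℕ, p.Prime → q.Prime → p ∣ orderOf g → q ∣ orderOf g → p = q from
      fun q hq => this _ _ hq.1 (Nat.minFac_prime h1) hq.2 (Nat.minFac_dvd _)
    intro p q hp hq hpd hqd
    haveI : IsCyclic (Subgroup.closure {g ^ (orderOf g / p), g ^ (orderOf g / q)}) :=
      Subgroup.isCyclic_of_le (H' := Subgroup.zpowers g) ((Subgroup.closure_le _).2 (by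
        rintro _ (rfl | rfl) <;> exact Subgroup.npow_mem_zpowers _ _))
    rcases h _ _ this with h2 | h2
    · have := orderOf_dvd_of_mem_zpowers h2
      rwa [orderOf_pow_orderOf_div h0 hpd, orderOf_pow_orderOf_div h0 hqd,
        Nat.prime_dvd_prime_iff_eq hp hq] at this
    · have := orderOf_dvd_of_mem_zpowers h2
      rwa [orderOf_pow_orderOf_div h0 hpd, orderOf_pow_orderOf_div h0 hqd,
        Nat.prime_dvd_prime_iff_eq hq hp, eq_comm] at this

end Cfsg.Agent.S4086
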