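import Cfsg.Statements.S4089
import Cfsg.Agent.H30.Casolo

set_option autoImplicit false
open Cfsg

namespace Cfsg.Agent.S4089

/-- Let G be a finite group, p a prime and H a p-subgroup of G. Then the set of elements g of G such that H is subnormal in the subgroup generated by H and g is the union of the normalizers N_G(R) over the subgroups R of G containing H with R = O_p(N_G(R)); and this set does not change when H is replaced by the intersection of all Sylow p-subgroups of G containing H. -/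
theorem result {G : Type*} [Group G] [Finite G] (p : ℕ) [Fact p.Prime]
    (H : Subgroup G) (hH : IsPGroup p H) :
    {g : G | ((H).subgroupOf (H ⊔ Subgroup.zpowers g)).IsSubnormal} =
      {g : G | ∃ R : Subgroup G, H ≤ R ∧ (Cfsg.pCore p (Subgroup.normalizer (R : Set G))).map (Subgroup.normalizer (R : Set G)).subtype = R ∧ g ∈ Subgroup.normalizer (R : Set G)} ∧
    ∀ g : G, (((H).subgroupOf (H ⊔ Subgroup.zpowers g)).IsSubnormal ↔
      (((sInf {K : Subgroup G | ∃ Q : Sylow p G, H ≤ (Q : Subgroup G) ∧ K = (Q : Subgroup G)})).subgroupOf ((sInf {K : Subgroup G | ∃ Q : Sylow p G, H ≤ (Q : Subgroup G) ∧ K = (Q : Subgroup G)}) ⊔ Subgroup.zpowers g)).IsSubnormal) := by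
  classical
  refine ⟨Set.ext fun g => ?_, ?_⟩
  · rw [Set.mem_setOf_eq, H30.Cas.subnormal_iff hH]
    constructor
    · intro h
      obtain ⟨R, ⟨h1, h2, h3⟩, hmax⟩ := (wellFounded_gt (α := Subgroup G)).has_min
        {R | IsPGroup p R ∧ H ≤ R ∧ g ∈ Subgroup.normalizer (R : Set G)} h
      have h4 : R ≤ pCoreOf p (Subgroup.normalizer (R : Set G)) :=
        H98.le_pCoreOf h1 Subgroup.le_normalizer le_rfl
      refine ⟨R, h2, (h4.eq_or_lt.resolve_right (hmax _ ⟨H98.isPGroup_pCoreOf _, h2.trans h4,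
        H98.self_le_normalizer_pCoreOf _ h3⟩)).symm, h3⟩
    · rintro ⟨R, h1, h2, h3⟩
      exact ⟨R, h2 ▸ H98.isPGroup_pCoreOf _, h1, h3⟩
  · set I := sInf {K : Subgroup G | ∃ Q : Sylow p G, H ≤ (Q : Subgroup G) ∧ K = (Q : Subgroup G)}
    obtain ⟨P, hP⟩ := hH.exists_le_sylow
    have hI : IsPGroup p I := P.isPGroup'.to_le (sInf_le ⟨P, hP, rfl⟩)
    have hHI : H ≤ I := le_sInf (by rintro _ ⟨Q, hQ, rfl⟩; exact hQ)
    have h1 : {g : G | (I.subgroupOf (I ⊔ Subgroup.zpowers g)).IsSubnormal} ⊆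
        {g : G | (H.subgroupOf (H ⊔ Subgroup.zpowers g)).IsSubnormal} := fun g hg => by
      obtain ⟨R, a, b, c⟩ := (H30.Cas.subnormal_iff hI g).1 hg
      exact (H30.Cas.subnormal_iff hH g).2 ⟨R, a, hHI.trans b, c⟩
    have h2 : Nat.card {g : G // (H.subgroupOf (H ⊔ Subgroup.zpowers g)).IsSubnormal} =
        Nat.card {g : G // (I.subgroupOf (I ⊔ Subgroup.zpowers g)).IsSubnormal} := by
      rw [H30.Cas.casolo hH (H98.isSyl_sylow P), H30.Cas.casolo hI (H98.isSyl_sylow P)]
      refine Nat.card_congr (Equiv.subtypeEquivRight fun g => ⟨fun h => sInf_le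
        ⟨((H98.isSyl_sylow P).cj_of_mem (Subgroup.mem_top g)).toSylowTop, h, rfl⟩,
        fun h => hHI.trans h⟩)
    have h3 := Set.eq_of_subset_of_ncard_le h1 h2.le
    exact fun g => (Set.ext_iff.1 h3 g).symm

end Cfsg.Agent.S4089
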