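import Cfsg.Statements.S4092
import Cfsg.Agent.H18.Misc
import Cfsg.Agent.H18.Elt

set_option autoImplicit false
open Cfsg

namespace Cfsg.Agent.S4092

/-- Let G be a finite group, p a prime and P a Sylow p-subgroup of G that is not normal in G. Then G has at least p·#P elements of p-power order (the identity included). -/
theorem result {G : Type*} [Group G] [Finite G] (p : ℕ) [Fact p.Prime]
    (P : Sylow p G) (hP : ¬ (P : Subgroup G).Normal) :
    p * Nat.card (P : Subgroup G) ≤ Nat.card {g : G // ∃ k : ℕ, orderOf g = p ^ k} := by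
  classical
  have hp : p.Prime := Fact.out
  haveI := Fintype.ofFinite G
  haveI := Fintype.ofFinite (Sylow p G)
  have hne : (Finset.univ.filter fun x : Sylow p G × Sylow p G => x.1 ≠ x.2).Nonempty := by
    by_contra h
    haveI : Subsingleton (Sylow p G) := ⟨fun a b => by_contra fun e => h ⟨(a, b), by simpa using e⟩⟩
    exact hP (Sylow.normal_of_subsingleton P)
  obtain ⟨⟨Q, R⟩, hQR, hmax⟩ := Finset.exists_max_image _
    (fun x => Nat.card ((x.1 : Subgroup G) ⊓ x.2 : Subgroup G)) hne
  replace hQR : Q ≠ R := by simpa using hQR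
  set D : Subgroup G := Q ⊓ R with hD
  have hDp : IsPGroup p D := Q.isPGroup'.to_le inf_le_left
  let F := Finset.univ.filter fun S : Sylow p G => D ≤ S
  have hF : p + 1 ≤ F.card := by
    have h1 := (hDp.card_modEq_card_fixedPoints (Sylow p G)).symm.trans (card_sylow_modEq_one p G)
    have h2 : Nat.card (MulAction.fixedPoints D (Sylow p G)) = F.card := by
      rw [← Nat.card_eq_finsetCard]
      exact Nat.card_congr (Equiv.subtypeEquivRight fun S => by
        simp [F, hDp.sylow_mem_fixedPoints_iff])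
    have h3 : 1 < F.card := Finset.one_lt_card.2 ⟨Q, by simp [F, D], R, by simp [F, D], hQR⟩
    rw [h2] at h1
    have := Nat.le_of_dvd (by omega) ((Nat.modEq_iff_dvd' h3.le).1 h1.symm)
    omega
  have hcard : ∀ H : Subgroup G, (Finset.univ.filter (· ∈ H)).card = Nat.card H := fun H => by
    rw [Nat.card_eq_fintype_card, Fintype.card_subtype]
  have hlt : p * Nat.card D ≤ Nat.card P := by
    obtain ⟨a, ha⟩ := hDp.exists_card_eq
    have h1 : Nat.card D < Nat.card Q := H18.card_lt_of_lt (lt_of_le_of_ne inf_le_left fun e =>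
      hQR (Sylow.ext (Q.is_maximal' R.isPGroup' (inf_eq_left.1 e)).symm))
    rw [Q.card_eq_multiplicity, ha] at h1
    rw [P.card_eq_multiplicity, ha, ← pow_succ']
    exact Nat.pow_le_pow_right hp.pos ((Nat.pow_lt_pow_iff_right hp.one_lt).1 h1)
  let U := fun S : Sylow p G => Finset.univ.filter (· ∈ (S : Subgroup G)) \ Finset.univ.filter (· ∈ D)
  have hU : ∀ S ∈ F, (U S).card = Nat.card P - Nat.card D := fun S hS => by
    rw [Finset.card_sdiff_of_subset (Finset.monotone_filter_right _ fun x _ hx =>
      (Finset.mem_filter.1 hS).2 hx), hcard, hcard, S.card_eq_multiplicity, P.card_eq_multiplicity]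
  have hdis : (F : Set (Sylow p G)).PairwiseDisjoint U := by
    intro S hS T hT hST
    have h1 : D = (S : Subgroup G) ⊓ T := Subgroup.eq_of_le_of_card_ge
      (le_inf (Finset.mem_filter.1 hS).2 (Finset.mem_filter.1 hT).2) (hmax (S, T) (by simpa using hST))
    refine Finset.disjoint_left.2 fun x hx hx' => ?_
    simp only [U, Finset.mem_sdiff, Finset.mem_filter, Finset.mem_univ, true_and] at hx hx'
    exact hx.2 (h1 ▸ ⟨hx.1, hx'.1⟩)
  have h1 : (F.biUnion U ∪ Finset.univ.filter (· ∈ D)).card =
      F.card * (Nat.card P - Nat.card D) + Nat.card D := by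
    rw [Finset.card_union_of_disjoint, Finset.card_biUnion hdis, Finset.sum_congr rfl hU, hcard,
      Finset.sum_const, smul_eq_mul]
    exact (Finset.disjoint_biUnion_left _ _ _).2 fun S _ => Finset.sdiff_disjoint
  have h2 : (F.biUnion U ∪ Finset.univ.filter (· ∈ D)).card ≤
      Nat.card {g : G // ∃ k : ℕ, orderOf g = p ^ k} := by
    rw [Nat.card_eq_fintype_card, Fintype.card_subtype]
    refine Finset.card_le_card fun x hx => Finset.mem_filter.2 ⟨Finset.mem_univ _,
      (H18.exists_orderOf_eq_pow_iff hp).2 ?_⟩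
    rcases Finset.mem_union.1 hx with h | h
    · obtain ⟨S, -, h⟩ := Finset.mem_biUnion.1 h
      exact H18.exists_pow_eq_one_of_mem S.isPGroup' (Finset.mem_filter.1 (Finset.mem_sdiff.1 h).1).2
    · exact H18.exists_pow_eq_one_of_mem hDp (Finset.mem_filter.1 h).2
  refine le_trans ?_ (h1.symm.trans_le h2)
  obtain ⟨c, hc⟩ := Nat.exists_eq_add_of_le ((Nat.le_mul_of_pos_left _ hp.pos).trans hlt)
  rw [hc] at hlt ⊢
  rw [Nat.add_sub_cancel_left]
  nlinarith [Nat.mul_le_mul_right c hF]

end Cfsg.Agent.S4092
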