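import Cfsg.Statements.S4093
import Cfsg.Agent.H61.SmallId

set_option autoImplicit false
open scoped BigOperators
open Cfsg

namespace Cfsg.Agent.S4093

/-- Let G be a finite group with a normal subgroup N complementing a Sylow p-subgroup P (a normal p-complement). Then the number of elements of G of p-power order equals the sum over x ∈ P of the index of C_N(x) in N. -/
theorem result {G : Type*} [Group G] [Finite G] (p : ℕ) [Fact p.Prime]
    (P : Sylow p G) (N : Subgroup G) [N.Normal] (hNP : N.IsComplement' (P : Subgroup G)) :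
    Nat.card {g : G // ∃ k : ℕ, orderOf g = p ^ k} =
      ∑ᶠ x : (P : Subgroup G), Nat.card N / Nat.card ↥(N ⊓ Subgroup.centralizer ({(x : G)} : Set G)) := by
  classical
  have := Fintype.ofFinite (P : Subgroup G)
  let f : (Σ x : (P : Subgroup G), {a : G | ∃ s ∈ N, s * (x : G) * s⁻¹ = a}) →
      {g : G // ∃ k : ℕ, orderOf g = p ^ k} := fun z => ⟨z.2.1, by
    obtain ⟨x, a, s, -, rfl⟩ := z
    obtain ⟨k, hk⟩ := (IsPGroup.iff_orderOf.1 P.isPGroup') x
    refine ⟨k, ?_⟩
    show orderOf (s * (x : G) * s⁻¹) = _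
    rw [← hk, ← Subgroup.orderOf_coe]
    exact (MulAut.conj s).orderOf_eq (x : G)⟩
  have hf : Function.Bijective f := by
    constructor
    · rintro ⟨x, a, s, hs, ha⟩ ⟨y, b, t, ht, hb⟩ h
      have hab : a = b := congrArg Subtype.val h
      subst hab
      have hxy : x = y := by
        have h1 : (x : G)⁻¹ * y ∈ N := by
          rw [← QuotientGroup.eq]
          have e1 : ((s * (x : G) * s⁻¹ : G) : G ⧸ N) = (x : G) := by
            rw [QuotientGroup.mk_mul, QuotientGroup.mk_mul, QuotientGroup.mk_inv,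
              (QuotientGroup.eq_one_iff s).2 hs]; simp
          have e2 : ((t * (y : G) * t⁻¹ : G) : G ⧸ N) = (y : G) := by
            rw [QuotientGroup.mk_mul, QuotientGroup.mk_mul, QuotientGroup.mk_inv,
              (QuotientGroup.eq_one_iff t).2 ht]; simp
          rw [← e1, ← e2, ha, hb]
        have h2 : (x : G)⁻¹ * y ∈ (P : Subgroup G) := mul_mem (inv_mem x.2) y.2
        have h3 := (Subgroup.disjoint_def.1 hNP.disjoint) h1 h2
        exact Subtype.ext (inv_mul_eq_one.1 h3)
      subst hxy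
      rfl
    · rintro ⟨g, k, hk⟩
      have hg : IsPGroup p (Subgroup.zpowers g) := by
        rw [IsPGroup.iff_card, Nat.card_zpowers]; exact ⟨k, hk⟩
      obtain ⟨Q, hQ⟩ := hg.exists_le_sylow
      obtain ⟨h, rfl⟩ := MulAction.exists_smul_eq G P Q
      have hgQ : g ∈ ((h • P : Sylow p G) : Subgroup G) := hQ (Subgroup.mem_zpowers g)
      rw [Sylow.coe_subgroup_smul, Subgroup.mem_pointwise_smul_iff_inv_smul_mem] at hgQ
      simp only [MulAut.smul_def, MulAut.inv_apply, MulAut.conj_symm_apply] at hgQ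
      obtain ⟨⟨n, y⟩, hny⟩ := hNP.2 h
      simp only at hny
      refine ⟨⟨⟨y * (h⁻¹ * g * h) * (y : G)⁻¹, mul_mem (mul_mem y.2 hgQ) (inv_mem y.2)⟩,
        ⟨g, n, n.2, ?_⟩⟩, rfl⟩
      show (n : G) * ((y : G) * (h⁻¹ * g * h) * (y : G)⁻¹) * (n : G)⁻¹ = g
      rw [← hny]; group
  rw [← Nat.card_congr (Equiv.ofBijective f hf), Nat.card_sigma, finsum_eq_sum_of_fintype]
  refine Finset.sum_congr rfl fun x _ => ?_
  rw [← H61.ncard_conj_mul_card N (x : G), Nat.mul_div_cancel _ Nat.card_pos]
  rfl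

end Cfsg.Agent.S4093
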