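import Cfsg.Statements.S4106
import Cfsg.Agent.H24.ClassCount

set_option autoImplicit false
open Cfsg

namespace Cfsg.Agent.S4106

theorem aux {G : Type*} [Group G] [Finite G] (m : ℕ) :
    m ∣ Nat.card G → m.Coprime (Nat.card G / m) →
      Nat.card {C : ConjClasses G // H24.IsPiClass {q | q ∣ m} C} ≤ m := by
  induction m using Nat.recOnPrimePow with
  | zero => intro h; exact absurd (Nat.eq_zero_of_zero_dvd h) Nat.card_pos.ne'
  | one =>
    intro _ _
    refine Finite.card_le_one_iff_subsingleton.mpr ⟨?_⟩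
    have key : ∀ C : ConjClasses G, H24.IsPiClass {q | q ∣ 1} C → C = ConjClasses.mk 1 := by
      intro C hC
      obtain ⟨x, rfl⟩ := ConjClasses.mk_surjective C
      rw [H24.isPiClass_mk] at hC
      rw [orderOf_eq_one_iff.mp (Nat.eq_one_iff_not_exists_prime_dvd.mpr fun q hq hd =>
        hq.ne_one (Nat.dvd_one.mp (hC q hq hd)))]
    rintro ⟨a, ha⟩ ⟨b, hb⟩
    exact Subtype.ext ((key a ha).trans (key b hb).symm)
  | prime_pow_mul a p n hp hpa hn ih =>
    intro hdvd hcop
    have := Fact.mk hp
    obtain ⟨r, hr⟩ := hdvd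
    have ha0 : a ≠ 0 := by rintro rfl; exact hpa (dvd_zero p)
    have hm0 : 0 < p ^ n * a := Nat.mul_pos (pow_pos hp.pos n) (Nat.pos_of_ne_zero ha0)
    rw [hr, Nat.mul_div_cancel_left _ hm0] at hcop
    have ih' := ih ⟨p ^ n * r, by rw [hr]; ring⟩ (by
      rw [hr, show p ^ n * a * r = a * (p ^ n * r) by ring,
        Nat.mul_div_cancel_left _ (Nat.pos_of_ne_zero ha0)]
      exact Nat.Coprime.mul_right (((Nat.Prime.coprime_iff_not_dvd hp).mpr hpa).symm.pow_right n)
        (Nat.Coprime.coprime_mul_left hcop))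
    -- for each class of `a`-elements choose a representative and a Sylow subgroup of its centralizer
    let A := {C : ConjClasses G // H24.IsPiClass {q | q ∣ a} C}
    let rep : A → G := fun C => Quotient.out C.1
    have hrep : ∀ C : A, ConjClasses.mk (rep C) = C.1 := fun C => Quotient.out_eq C.1
    let P : ∀ C : A, Sylow p (Subgroup.centralizer ({rep C} : Set G)) := fun C => default
    have hP : ∀ C : A, Nat.card (P C) ≤ p ^ n := by
      intro C
      obtain ⟨k, hk⟩ := (P C).isPGroup'.exists_card_eq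
      rw [hk]
      refine Nat.le_of_dvd (pow_pos hp.pos n) ?_
      have h1 : p ^ k ∣ p ^ n * (a * r) := by
        rw [← mul_assoc, ← hr, ← hk]
        exact (Subgroup.card_subgroup_dvd_card _).trans (Subgroup.card_subgroup_dvd_card _)
      refine Nat.Coprime.dvd_of_dvd_mul_right (Nat.Coprime.pow_left k ?_) h1
      refine Nat.Coprime.mul_right ((Nat.Prime.coprime_iff_not_dvd hp).mpr hpa) ?_
      exact Nat.Coprime.coprime_dvd_left (dvd_mul_of_dvd_left (dvd_pow_self p hn.ne') a) hcop
    let F : (Σ C : A, P C) → ConjClasses G := fun s => ConjClasses.mk (rep s.1 * (s.2.1 : G))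
    have hF : ∀ C : ConjClasses G, H24.IsPiClass {q | q ∣ p ^ n * a} C → C ∈ Set.range F := by
      intro C hC
      obtain ⟨x, rfl⟩ := ConjClasses.mk_surjective C
      rw [H24.isPiClass_mk] at hC
      obtain ⟨e, f, h1, ⟨k, h2⟩, h3⟩ := H24.exists_p_decomp hp x
      have hy : H24.IsPiElt {q | q ∣ a} (x ^ f) := by
        intro q hq hd
        have := hC q hq (hd.trans (orderOf_pow_dvd f))
        rcases (Nat.Prime.dvd_mul hq).mp this with h | h
        · exact absurd ((Nat.prime_dvd_prime_iff_eq hq hp).mp (hq.dvd_of_dvd_pow h) ▸ hd) h3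
        · exact h
      let C : A := ⟨ConjClasses.mk (x ^ f), H24.isPiClass_mk.mpr hy⟩
      obtain ⟨g, hg⟩ := isConj_iff.mp (ConjClasses.mk_eq_mk_iff_isConj.mp (hrep C)).symm
      have hu : g * x ^ e * g⁻¹ ∈ Subgroup.centralizer ({rep C} : Set G) := by
        rw [Subgroup.mem_centralizer_singleton_iff, ← hg]
        have := (Commute.pow_pow_self x e f).map (MulAut.conj g)
        simpa using this.eq
      have hpu : IsPGroup p (Subgroup.zpowers (⟨_, hu⟩ : Subgroup.centralizer ({rep C} : Set G))) := by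
        refine IsPGroup.of_card (n := k) ?_
        rw [Nat.card_zpowers, ← Subgroup.orderOf_coe, H24.orderOf_conj', h2]
      obtain ⟨Q, hQ⟩ := hpu.exists_le_sylow
      obtain ⟨c, hc⟩ := MulAction.exists_smul_eq (Subgroup.centralizer ({rep C} : Set G)) Q (P C)
      have hmem : c * ⟨_, hu⟩ * c⁻¹ ∈ (P C : Subgroup _) := by
        rw [← hc, Sylow.coe_subgroup_smul]
        exact Subgroup.smul_mem_pointwise_smul _ _ _ (hQ (Subgroup.mem_zpowers _))
      refine ⟨⟨C, ⟨_, hmem⟩⟩, ?_⟩
      refine (ConjClasses.mk_eq_mk_iff_isConj.mpr (isConj_iff.mpr ⟨(c : G) * g, ?_⟩)).symm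
      have hc' : (c : G) * rep C = rep C * c := Subgroup.mem_centralizer_singleton_iff.mp c.2
      have hx : x = x ^ f * x ^ e := by rw [← (Commute.pow_pow_self x e f).eq, h1]
      simp only [Subgroup.coe_mul, Subgroup.coe_inv]
      calc (c : G) * g * x * ((c : G) * g)⁻¹ = c * (g * x ^ f * g⁻¹) * (g * x ^ e * g⁻¹) * (c : G)⁻¹ := by
            conv_lhs => rw [hx]
            group
        _ = _ := by rw [hg, hc']; group
    have := Fintype.ofFinite A
    calc Nat.card {C : ConjClasses G // H24.IsPiClass {q | q ∣ p ^ n * a} C}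
        ≤ Nat.card (Set.range F) :=
          Nat.card_le_card_of_injective (fun C => ⟨C.1, hF C.1 C.2⟩)
            (fun a b h => Subtype.ext (by simpa using h))
      _ ≤ Nat.card (Σ C : A, P C) := Finite.card_range_le F
      _ = ∑ C : A, Nat.card (P C) := Nat.card_sigma
      _ ≤ ∑ _C : A, p ^ n := Finset.sum_le_sum fun C _ => hP C
      _ = p ^ n * Nat.card A := by simp [mul_comm]
      _ ≤ p ^ n * a := Nat.mul_le_mul_left _ ih'

/-- Let G be a finite group, π a set of primes and m the π-part of the order of G. Then the number of conjugacy classes of G consisting of π-elements (elements whose order is divisible only by primes in π) is at most m. -/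
theorem result {G : Type*} [Group G] [Finite G]
    (π : Set ℕ) (hπ : ∀ q ∈ π, q.Prime)
    (m : ℕ) (hm : m ∣ Nat.card G) (hmπ : ∀ q : ℕ, q.Prime → q ∣ m → q ∈ π)
    (hm' : ∀ q ∈ π, ¬ q ∣ Nat.card G / m) :
    Nat.card {C : ConjClasses G // ∀ q : ℕ, q.Prime → (∃ g : G, ConjClasses.mk g = C ∧ q ∣ orderOf g) → q ∈ π} ≤ m := by
  have hcop : m.Coprime (Nat.card G / m) :=
    Nat.coprime_of_dvd fun q hq h1 h2 => hm' q (hmπ q hq h1) h2
  refine le_trans ?_ (aux m hm hcop)
  refine Nat.card_le_card_of_injective (fun C => ⟨C.1, fun q hq h => ?_⟩)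
    (fun a b h => Subtype.ext (congrArg Subtype.val h :))
  have hq' := C.2 q hq h
  obtain ⟨g, -, hg⟩ := h
  have h1 : q ∣ m * (Nat.card G / m) := by
    rw [Nat.mul_div_cancel' hm]; exact hg.trans (orderOf_dvd_natCard g)
  rcases (Nat.Prime.dvd_mul hq).mp h1 with h | h
  · exact h
  · exact absurd h (hm' q hq')

end Cfsg.Agent.S4106
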