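import Cfsg.Statements.S4107
import Cfsg.Agent.Base
import Cfsg.Agent.H2.Fitting

set_option autoImplicit false
open Cfsg

namespace Cfsg.Agent.S4107

theorem isPGroup_of_not_le {G : Type*} [Group G] [Finite G] (N : Subgroup G)
    (heq : ∀ x : G, x ∉ N → ∀ n ∈ N, orderOf (x * n) = orderOf x)
    {p : ℕ} (W : Subgroup G) [W.Normal] (hW : IsPGroup p W) (h : ¬ W ≤ N) : IsPGroup p N := by
  obtain ⟨x, hxW, hxN⟩ := SetLike.not_le_iff_exists.1 h
  rintro ⟨n, hn⟩
  obtain ⟨k, hk⟩ := hW ⟨x, hxW⟩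
  have h1 : orderOf x ∣ p ^ k := orderOf_dvd_of_pow_eq_one (congrArg Subtype.val hk)
  rw [← heq x hxN n hn] at h1
  have h2 : (x * n) ^ p ^ k = 1 := orderOf_dvd_iff_pow_eq_one.1 h1
  have h3 : n ^ p ^ k ∈ W := by
    rw [← QuotientGroup.eq_one_iff]
    have h4 := congrArg (QuotientGroup.mk' W) h2
    have h5 : (QuotientGroup.mk' W) x = 1 := (QuotientGroup.eq_one_iff x).2 hxW
    rw [map_pow, map_mul, h5, one_mul, map_one, ← map_pow] at h4
    exact h4
  obtain ⟨l, hl⟩ := hW ⟨_, h3⟩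
  refine ⟨k + l, Subtype.ext ?_⟩
  have := congrArg Subtype.val hl
  simp only [SubmonoidClass.mk_pow, OneMemClass.coe_one] at this ⊢
  rw [pow_add, pow_mul, this]

/-- Let G be a finite group and N a proper non-trivial normal subgroup such that for every x outside N all elements of the coset xN have the same order as x. Then N ≤ F(G) or F(G) ≤ N, where F(G) is the Fitting subgroup; and if N is properly contained in F(G) then F(G) has prime-power order. -/
theorem result {G : Type*} [Group G] [Finite G] (N : Subgroup G) [N.Normal] (hN1 : N ≠ ⊥) (hN2 : N ≠ ⊤)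
    (heq : ∀ x : G, x ∉ N → ∀ n ∈ N, orderOf (x * n) = orderOf x) :
    (N ≤ Cfsg.fittingSubgroup G ∨ Cfsg.fittingSubgroup G ≤ N) ∧
    (N < Cfsg.fittingSubgroup G → IsPrimePow (Nat.card (Cfsg.fittingSubgroup G))) := by
  have key : ¬ fittingSubgroup G ≤ N → ∃ p : ℕ, p.Prime ∧ ¬ pCore p G ≤ N ∧ IsPGroup p N := by
    intro h
    rw [H2.fitting_eq_iSup_pCore, iSup_le_iff] at h
    push Not at h
    obtain ⟨p, hp⟩ := h
    haveI := H2.pCore_characteristic (p : ℕ) G
    exact ⟨p, p.2, hp, isPGroup_of_not_le N heq _ (H2.pCore_isPGroup _ G) hp⟩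
  refine ⟨?_, fun hlt => ?_⟩
  · by_cases h : fittingSubgroup G ≤ N
    · exact Or.inr h
    · obtain ⟨p, hp, -, hN⟩ := key h
      haveI : Fact p.Prime := ⟨hp⟩
      exact Or.inl (H2.le_fitting_of_isPGroup hN)
  · obtain ⟨p, hp, hpN, hN⟩ := key (not_le_of_gt hlt)
    haveI : Fact p.Prime := ⟨hp⟩
    have hF : fittingSubgroup G = pCore p G := by
      refine le_antisymm ?_ (H2.pCore_le_fitting p G)
      rw [H2.fitting_eq_iSup_pCore, iSup_le_iff]
      intro q
      by_cases hq : (q : ℕ) = p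
      · rw [hq]
      by_cases h : pCore (q : ℕ) G ≤ N
      · exact h.trans (H2.le_pCore hN)
      · exfalso
        haveI := H2.pCore_characteristic (q : ℕ) G
        haveI : Fact (q : ℕ).Prime := ⟨q.2⟩
        have h1 := isPGroup_of_not_le N heq _ (H2.pCore_isPGroup _ G) h
        exact hN1 (disjoint_self.1 (IsPGroup.disjoint_of_ne q p hq N N h1 hN))
    obtain ⟨n, hn⟩ := H2.exists_card_pCore p G
    rw [hF, hn]
    refine ⟨p, n, hp.prime, Nat.pos_of_ne_zero ?_, rfl⟩
    rintro rfl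
    apply hpN
    rw [Subgroup.card_eq_one.1 (by simpa using hn : Nat.card (pCore p G) = 1)]
    exact bot_le

end Cfsg.Agent.S4107
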