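import Cfsg.Statements.S4108
import Cfsg.Agent.Base
import Cfsg.Agent.H5.FrobStruct
import Cfsg.Agent.H2.PrimeCore

set_option autoImplicit false
open Cfsg

namespace Cfsg.Agent.S4108



/-- Let G be a finite group, p a prime and N a proper non-trivial normal p-subgroup such that for every x outside N all elements of the coset xN have the same order as x. Then every non-trivial subgroup H of G of order prime to p acts fixed-point-freely on N: NH is a Frobenius group with complement H and kernel N. -/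
theorem result {G : Type*} [Group G] [Finite G] (N : Subgroup G) [N.Normal] (hN1 : N ≠ ⊥) (hN2 : N ≠ ⊤)
    (heq : ∀ x : G, x ∉ N → ∀ n ∈ N, orderOf (x * n) = orderOf x)
    (p : ℕ) [Fact p.Prime] (hNp : IsPGroup p N) :
    ∀ H : Subgroup G, H ≠ ⊥ → (Nat.card H).Coprime p →
      Cfsg.IsFrobeniusComplement (H.subgroupOf (N ⊔ H)) ∧ Cfsg.frobeniusKernel (H.subgroupOf (N ⊔ H)) = (N.subgroupOf (N ⊔ H) : Set ↥(N ⊔ H)) := by
  intro H hH hcop
  have hdisj : Disjoint N H := H2.disjoint_of_isPGroup_of_coprime hNp hcop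
  have hc : Subgroup.IsComplement' (N.subgroupOf (N ⊔ H)) (H.subgroupOf (N ⊔ H)) := by
    refine Subgroup.isComplement'_of_disjoint_and_mul_eq_univ ?_ ?_
    · rw [Subgroup.disjoint_def]
      intro x hx1 hx2
      apply Subtype.ext
      exact Subgroup.disjoint_def.1 hdisj hx1 hx2
    · rw [Set.eq_univ_iff_forall]
      rintro ⟨x, hx⟩
      have hx' := hx
      rw [← SetLike.mem_coe, Subgroup.normal_mul] at hx'
      obtain ⟨n, hn, h, hh, rfl⟩ := hx'
      exact ⟨⟨n, Subgroup.mem_sup_left hn⟩, hn, ⟨h, Subgroup.mem_sup_right hh⟩, hh, rfl⟩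
  have hK : N.subgroupOf (N ⊔ H) ≠ ⊥ := by
    rw [Ne, Subgroup.subgroupOf_eq_bot, disjoint_iff, inf_eq_left.2 le_sup_left]
    exact hN1
  have hH' : H.subgroupOf (N ⊔ H) ≠ ⊥ := by
    rw [Ne, Subgroup.subgroupOf_eq_bot, disjoint_iff, inf_eq_left.2 le_sup_right]
    exact hH
  have hF : IsFrobeniusComplement (H.subgroupOf (N ⊔ H)) := by
    refine H5.isFrobeniusComplement_of_fpf hc hK hH' ?_
    intro h hh h1
    rw [H5.inf_centralizer_eq_bot_iff]
    intro k hk hkc
    have hh' : (h : G) ∈ H := hh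
    have hk' : (k : G) ∈ N := hk
    have hhN : (h : G) ∉ N := fun hN =>
      h1 (Subtype.ext (Subgroup.disjoint_def.1 hdisj hN hh'))
    have e := heq h hhN k hk'
    have hcm : Commute (h : G) (k : G) := by
      have := congrArg Subtype.val hkc
      exact this.symm
    have hco : (orderOf (h : G)).Coprime (orderOf (k : G)) := by
      obtain ⟨m, hm⟩ := hNp ⟨k, hk'⟩
      have h2 : orderOf (k : G) ∣ p ^ m :=
        orderOf_dvd_of_pow_eq_one (congrArg Subtype.val hm)
      have h3 : orderOf (h : G) ∣ Nat.card H := Subgroup.orderOf_dvd_natCard H hh'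
      exact Nat.Coprime.coprime_dvd_right h2
        (Nat.Coprime.pow_right _ (Nat.Coprime.coprime_dvd_left h3 hcop))
    rw [hcm.orderOf_mul_eq_mul_orderOf_of_coprime hco] at e
    have h4 : orderOf (k : G) = 1 := by
      have hp := orderOf_pos (h : G)
      exact Nat.eq_of_mul_eq_mul_left hp (by rw [e, mul_one])
    exact Subtype.ext (orderOf_eq_one_iff.1 h4)
  refine ⟨hF, ?_⟩
  rw [H5.eq_frobKer_of_isComplement' hF hc]
  rfl

end Cfsg.Agent.S4108
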