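import Cfsg.Statements.S4112
import Cfsg.Agent.Base
import Cfsg.Agent.H26.Supplement
import Cfsg.Agent.H24.PiPart
import Cfsg.Agent.H9.PBasic


set_option autoImplicit false
open Cfsg

namespace Cfsg.Agent.S4112


/-- Let G be a finite group and M ≤ N non-trivial proper normal subgroups such that for every g outside N the conjugacy class of g is a union of cosets of M (equivalently gm is conjugate to g for every m ∈ M). Then (1) and (2) below are equivalent, and they imply (3): (1) every g outside N acts fixed-point-freely on M, that is C_G(x) ≤ N for every x ∈ M, x ≠ 1; (2) the index of N in G is coprime to the order of M; (3) there is a subgroup H of G with HN = G and H ∩ M = 1. -/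
theorem result {G : Type*} [Group G] [Finite G] (N M : Subgroup G) [N.Normal] [M.Normal] (hMN : M ≤ N) (hM1 : M ≠ ⊥) (hN2 : N ≠ ⊤)
    (hcam : ∀ g : G, g ∉ N → ∀ m ∈ M, ∃ x : G, x * g * x⁻¹ = g * m) :
    ((∀ x ∈ M, x ≠ 1 → Subgroup.centralizer ({x} : Set G) ≤ N) ↔ N.index.Coprime (Nat.card M)) ∧
    ((∀ x ∈ M, x ≠ 1 → Subgroup.centralizer ({x} : Set G) ≤ N) → ∃ H : Subgroup G, H ⊔ N = ⊤ ∧ H ⊓ M = ⊥) := by
  have h12 : (∀ x ∈ M, x ≠ 1 → Subgroup.centralizer ({x} : Set G) ≤ N) → N.index.Coprime (Nat.card M) := by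
    intro h
    apply Nat.coprime_of_dvd
    intro p hp hN hM
    have : Fact p.Prime := ⟨hp⟩
    obtain ⟨y, hy⟩ := exists_prime_orderOf_dvd_card' p hM
    rw [← Subgroup.orderOf_coe] at hy
    have hD : IsPGroup p (Subgroup.zpowers (y : G)) :=
      IsPGroup.of_card (n := 1) (by rw [Nat.card_zpowers, hy, pow_one])
    obtain ⟨P, hP⟩ := hD.exists_le_sylow
    have hne : M.subgroupOf (P : Subgroup G) ≠ ⊥ := by
      intro hb
      have : (⟨y, hP (Subgroup.mem_zpowers _)⟩ : (P : Subgroup G)) ∈ M.subgroupOf (P : Subgroup G) := y.2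
      rw [hb, Subgroup.mem_bot] at this
      have h1 : (y : G) = 1 := congrArg Subtype.val this
      rw [h1, orderOf_one] at hy
      exact hp.one_lt.ne hy
    obtain ⟨x, hxM, hxZ, hx⟩ := H9.exists_mem_center_orderOf_eq P.isPGroup' hne
    have hx1 : (x : G) ≠ 1 := by
      intro h1
      rw [← Subgroup.orderOf_coe, h1, orderOf_one] at hx
      exact hp.one_lt.ne hx
    have hPN : (P : Subgroup G) ≤ N := by
      refine le_trans ?_ (h x hxM hx1)
      intro a ha
      rw [Subgroup.mem_centralizer_singleton_iff]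
      exact congrArg Subtype.val (Subgroup.mem_center_iff.1 hxZ ⟨a, ha⟩)
    exact P.not_dvd_index (hN.trans (Subgroup.index_dvd_of_le hPN))
  refine ⟨⟨h12, ?_⟩, ?_⟩
  · intro hc x hxM hx1 g hg
    by_contra hgN
    rw [Subgroup.mem_centralizer_singleton_iff] at hg
    obtain ⟨e, f, h1, h2, h3⟩ := H24.exists_pi_decomp {q | q ∣ Nat.card M} g
    have he : g ^ e ∈ N := by
      have hcop : (orderOf (g ^ e)).Coprime N.index := by
        apply Nat.coprime_of_dvd
        intro q hq hq1 hq2
        exact hq.one_lt.ne' (Nat.eq_one_of_dvd_coprimes hc hq2 (h2 q hq hq1))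
      have h4 : orderOf ((g ^ e : G) : G ⧸ N) ∣ orderOf (g ^ e) := orderOf_map_dvd (QuotientGroup.mk' N) _
      have h5 : orderOf ((g ^ e : G) : G ⧸ N) ∣ N.index := orderOf_dvd_natCard _
      rw [← QuotientGroup.eq_one_iff, ← orderOf_eq_one_iff]
      exact Nat.eq_one_of_dvd_coprimes hcop h4 h5
    have hf : g ^ f ∉ N := by
      intro hf
      apply hgN
      rw [← h1]
      exact N.mul_mem he hf
    obtain ⟨u, hu⟩ := hcam _ hf x hxM
    have hcomm : Commute (g ^ f) x := Commute.pow_left hg f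
    have h6 : x ^ orderOf (g ^ f) = 1 := by
      have : (g ^ f * x) ^ orderOf (g ^ f) = 1 := by rw [← hu, conj_pow, pow_orderOf_eq_one]; simp
      rwa [hcomm.mul_pow, pow_orderOf_eq_one, one_mul] at this
    apply hx1
    rw [← orderOf_eq_one_iff]
    apply Nat.eq_one_iff_not_exists_prime_dvd.2
    intro q hq hqx
    exact h3 q hq (hqx.trans (orderOf_dvd_of_pow_eq_one h6))
      (hqx.trans (M.orderOf_dvd_natCard hxM))
  · intro h
    have hc := h12 h
    obtain ⟨H, -, h1, h2, -⟩ := H26.exists_supplement_primes N ⊤ (top_sup_eq _)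
    refine ⟨H, h1, ?_⟩
    apply Subgroup.inf_eq_bot_of_coprime
    apply Nat.coprime_of_dvd
    intro q hq hq1 hq2
    exact hq.one_lt.ne' (Nat.eq_one_of_dvd_coprimes hc (h2 q hq hq1) hq2)

end Cfsg.Agent.S4112
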