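import Cfsg.Statements.S4117
import Cfsg.Agent.H1.Cocycle
import Cfsg.Agent.H3.NormalRankOne

set_option autoImplicit false
open Cfsg

namespace Cfsg.Agent.S4117

section
variable (A G : Type*) [Group G] [Group A] [MulDistribMulAction A G]

abbrev KK : Subgroup G := Subgroup.closure {y : G | ∃ (a : A) (g : G), y = g⁻¹ * a • g}

variable {A G}

theorem gen (a : A) (g : G) : g⁻¹ * a • g ∈ KK A G := Subgroup.subset_closure ⟨a, g, rfl⟩

theorem inv (b : A) (x : G) (hx : x ∈ KK A G) : b • x ∈ KK A G := by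
  induction hx using Subgroup.closure_induction with
  | mem x h =>
    obtain ⟨a, g, rfl⟩ := h
    simpa [mul_smul] using gen (b * a * b⁻¹) (b • g)
  | one => rw [smul_one]; exact one_mem _
  | mul x y _ _ h1 h2 => rw [smul_mul']; exact mul_mem h1 h2
  | inv x _ h => rw [smul_inv']; exact inv_mem h

theorem nor : (KK A G).Normal := ⟨fun x hx h => by
  induction hx using Subgroup.closure_induction with
  | mem x k =>
    obtain ⟨a, g, rfl⟩ := k
    simpa [mul_assoc] using mul_mem (gen a (g * h⁻¹)) (inv_mem (gen a h⁻¹))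
  | one => simp
  | mul x y _ _ h1 h2 => simpa [mul_assoc] using mul_mem h1 h2
  | inv x _ k => simpa [mul_assoc] using inv_mem k⟩

theorem cyc [Finite G] [IsZGroup G] : IsCyclic (KK A G) := by
  obtain ⟨z, hz⟩ := (Subgroup.isCyclic_iff_exists_zpowers_eq_top _).1 (IsZGroup.isCyclic_commutator G)
  have h1 : KK A G ≤ Subgroup.centralizer {z} := by
    rw [Subgroup.closure_le]
    rintro _ ⟨a, g, rfl⟩
    have m : z ∈ commutator G := hz ▸ Subgroup.mem_zpowers z
    have m1 : a⁻¹ • z ∈ Subgroup.zpowers z :=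
      hz ▸ (Subgroup.characteristic_iff_le_comap.1 inferInstance (MulDistribMulAction.toMulAut A G a⁻¹) m)
    have m2 : g * z * g⁻¹ ∈ Subgroup.zpowers z := hz ▸ Subgroup.Normal.conj_mem inferInstance z m g
    obtain ⟨i, hi⟩ := Subgroup.mem_zpowers_iff.1 m1
    obtain ⟨j, hj⟩ := Subgroup.mem_zpowers_iff.1 m2
    have : a • g * z * (a • g)⁻¹ = g * z * g⁻¹ := by
      rw [← smul_inv_smul a z, ← smul_inv', ← smul_mul', ← smul_mul', smul_inv_smul, ← hi, ← conj_zpow, ← hj,
        ← zpow_mul, mul_comm j, zpow_mul, hi, smul_zpow', smul_inv_smul]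
    refine Subgroup.mem_centralizer_singleton_iff.2 ?_
    rw [mul_assoc, mul_inv_eq_iff_eq_mul.1 this]
    group
  let C := Subgroup.centralizer ({z} : Set G)
  haveI : IsMulCommutative C := ⟨⟨commutative_of_cyclic_center_quotient (Abelianization.of.comp C.subtype) fun x hx => by
    have : x.1 ∈ Subgroup.zpowers z := by rw [hz, ← Abelianization.ker_of]; exact hx
    obtain ⟨i, hi⟩ := Subgroup.mem_zpowers_iff.1 this
    refine Subgroup.mem_center_iff.2 fun y => Subtype.ext ?_
    have : Commute y.1 z := Subgroup.mem_centralizer_singleton_iff.1 y.2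
    simpa [← hi] using (this.zpow_right i).eq⟩⟩
  haveI : IsCyclic C := by
    letI : CommGroup C := {(inferInstance : Group C) with mul_comm := mul_comm'}
    infer_instance
  exact Subgroup.isCyclic_of_le h1

theorem dec [Finite G] [Finite A] [Group.IsSolvable G] (hcop : (Nat.card A).Coprime (Nat.card G)) (g : G) :
    ∃ n ∈ KK A G, ∀ a : A, a • (g * n) = g * n :=
  H1.exists_fixed_mem_coset (MulDistribMulAction.toMulAut A G) _ inv
    (hcop.coprime_dvd_right (Subgroup.card_subgroup_dvd_card _)) (.inr inferInstance) g fun a => gen a g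

theorem dis [Finite G] [Finite A] [IsZGroup G] (hcop : (Nat.card A).Coprime (Nat.card G)) (x : G)
    (hx : x ∈ KK A G) (hf : ∀ a : A, a • x = x) : x = 1 := by
  haveI := cyc (A := A) (G := G)
  haveI := Fintype.ofFinite A
  letI : CommGroup (KK A G) := IsCyclic.commGroup
  let ψ : A → KK A G →* KK A G := fun a =>
    ((MulDistribMulAction.toMonoidHom G a).comp (KK A G).subtype).codRestrict _ fun y => inv a _ y.2
  let N : KK A G →* KK A G := ∏ a, ψ a
  have h1 : KK A G ≤ N.ker.map (KK A G).subtype := by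
    rw [Subgroup.closure_le]
    rintro _ ⟨a, g, rfl⟩
    obtain ⟨n, hn, e⟩ := dec hcop g
    refine ⟨((⟨n, hn⟩ : KK A G)⁻¹)⁻¹ * ψ a (⟨n, hn⟩ : KK A G)⁻¹, ?_, ?_⟩
    · have : ∀ y, N (ψ a y) = N y := fun y => by
        simp only [N, MonoidHom.finsetProd_apply]
        exact Fintype.prod_equiv (Equiv.mulRight a) _ _ fun b => Subtype.ext (mul_smul b a y.1).symm
      simp [MonoidHom.mem_ker, this]
    · have := e a
      rw [smul_mul', ← eq_mul_inv_iff_mul_eq] at this
      simp [ψ, this, mul_assoc]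
      rfl
  obtain ⟨y, hy, rfl⟩ := h1 hx
  have : y ^ Nat.card A = 1 := by
    rw [← (MonoidHom.mem_ker.1 hy), MonoidHom.finsetProd_apply, Finset.prod_congr rfl fun a _ =>
      (Subtype.ext (hf a) : ψ a y = y)]
    simp
  have o : orderOf y = 1 := Nat.eq_one_of_dvd_coprimes hcop (orderOf_dvd_of_pow_eq_one this)
    ((orderOf_dvd_natCard y).trans (Subgroup.card_subgroup_dvd_card _))
  rw [orderOf_eq_one_iff.1 o, map_one]

end

/-- Let A be a finite group acting on the finite group G by automorphisms with the orders of A and G coprime, and suppose every Sylow subgroup of G is cyclic. Then the fixed-point subgroup C_G(A) is a Hall subgroup of G (its order is coprime to its index), the subgroup [G, A] generated by the elements g⁻¹·a(g) is cyclic and normal with [G, A] ∩ C_G(A) = 1 and [G, A]·C_G(A) = G. -/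
theorem result {G A : Type*} [Group G] [Finite G] [Group A] [Finite A]
    [MulDistribMulAction A G] (hcop : (Nat.card A).Coprime (Nat.card G))
    (hcyc : ∀ (p : ℕ) [Fact p.Prime] (P : Sylow p G), IsCyclic (P : Subgroup G)) :
    (Nat.card (MulAction.fixedPoints A G : Set G)).Coprime (Nat.card G / Nat.card (MulAction.fixedPoints A G : Set G)) ∧
    IsCyclic (Subgroup.closure {y : G | ∃ (a : A) (g : G), y = g⁻¹ * a • g}) ∧
    (Subgroup.closure {y : G | ∃ (a : A) (g : G), y = g⁻¹ * a • g}).Normal ∧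
    (Subgroup.closure {y : G | ∃ (a : A) (g : G), y = g⁻¹ * a • g} : Set G) ∩ MulAction.fixedPoints A G = {1} ∧
    Subgroup.closure {y : G | ∃ (a : A) (g : G), y = g⁻¹ * a • g} ⊔ Subgroup.closure (MulAction.fixedPoints A G) = ⊤ := by
  haveI : IsZGroup G := ⟨fun p hp P => haveI := Fact.mk hp; hcyc p P⟩
  haveI := nor (A := A) (G := G)
  have hc : (FixedPoints.subgroup A G).IsComplement' (KK A G) := by
    refine Subgroup.isComplement'_of_disjoint_and_mul_eq_univ
      (Subgroup.disjoint_def.2 fun h1 h2 => dis hcop _ h2 h1) (Set.eq_univ_of_forall fun g => ?_)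
    obtain ⟨n, hn, e⟩ := dec hcop g
    exact ⟨g * n, e, n⁻¹, inv_mem hn, by simp⟩
  refine ⟨?_, cyc, nor, Set.eq_singleton_iff_unique_mem.2 ⟨⟨one_mem _, fun a => smul_one a⟩,
    fun x h => dis hcop x h.1 h.2⟩, ?_⟩
  · change (Nat.card (FixedPoints.subgroup A G)).Coprime (Nat.card G / Nat.card (FixedPoints.subgroup A G))
    rw [← hc.card_mul, Nat.mul_div_cancel_left _ Nat.card_pos]
    refine Nat.coprime_of_dvd fun p hp h1 h2 => ?_
    haveI := Fact.mk hp
    obtain ⟨x, hx⟩ := exists_prime_orderOf_dvd_card' p h1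
    obtain ⟨y, hy⟩ := exists_prime_orderOf_dvd_card' p h2
    rw [← Subgroup.orderOf_coe] at hx hy
    have k : ∀ w : G, orderOf w = p → ∃ P : Sylow p G, w ∈ (P : Subgroup G) := fun w hw => by
      obtain ⟨P, hP⟩ := (IsPGroup.of_card (n := 1) (by rw [Nat.card_zpowers, hw, pow_one]) :
        IsPGroup p (Subgroup.zpowers w)).exists_le_sylow
      exact ⟨P, hP (Subgroup.mem_zpowers w)⟩
    obtain ⟨P, hP⟩ := k _ hx
    obtain ⟨Q, hQ⟩ := k _ hy
    obtain ⟨g, rfl⟩ := MulAction.exists_smul_eq G Q P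
    have m : g * y * g⁻¹ ∈ ((g • Q : Sylow p G) : Subgroup G) := ⟨y, hQ, rfl⟩
    have := H3.mem_zpowers_of_isCyclic_subgroup (hcyc p _) hP m (hx ▸ pow_orderOf_eq_one _)
      (((MulAut.conj g).orderOf_eq y).trans hy)
    have := dis hcop _ ((Subgroup.zpowers_le.2 (Subgroup.Normal.conj_mem nor _ y.2 g)) this) x.2
    rw [this, orderOf_one] at hx
    exact hp.one_lt.ne hx
  · rw [sup_comm]
    exact (congrArg (· ⊔ KK A G) (Subgroup.closure_eq (FixedPoints.subgroup A G))).trans hc.sup_eq_top

end Cfsg.Agent.S4117
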