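import Cfsg.Statements.S4126
import Cfsg.Agent.H7.MinAct
import Cfsg.Agent.H4.Product

set_option autoImplicit false
open Cfsg

namespace Cfsg.Agent.S4126

/-- Let G be a finite group and p a prime. Suppose every element of order p, and when p = 2 also every element of order 4, has a conjugacy class of p-power size. Then G has a normal p-complement. -/
theorem result {G : Type*} [Group G] [Finite G] (p : ℕ) [Fact p.Prime]
    (h : ∀ x : G, (orderOf x = p ∨ (p = 2 ∧ orderOf x = 4)) → ∃ a : ℕ, (Subgroup.centralizer ({x} : Set G)).index = p ^ a) :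
    Cfsg.HasNormalPComplement p G := by
  let P : Sylow p G := default
  refine H7.hasNPC_of_controls_fusion_omega P fun a ha h2 g _ => ?_
  have key : ∀ x : G, (∃ k : ℕ, (Subgroup.centralizer ({x} : Set G)).index = p ^ k) →
      ∃ y ∈ (P : Subgroup G), g * x * g⁻¹ = y * x * y⁻¹ := by
    rintro x ⟨k, hk⟩
    obtain ⟨y, hy, c, hc, e⟩ := H4.exists_mul_of_coprime_index (H := P)
      (K := Subgroup.centralizer ({x} : Set G)) (hk ▸ ((Nat.Prime.coprime_iff_not_dvd Fact.out).mpr
        P.not_dvd_index).symm.pow_right k) g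
    refine ⟨y, hy, ?_⟩
    rw [e, mul_assoc y c, Subgroup.mem_centralizer_singleton_iff.mp hc]
    group
  by_cases h1 : a = 1
  · exact ⟨1, one_mem _, by simp [h1]⟩
  rcases h2 with h2 | ⟨rfl, h2⟩
  · exact key a (h a (Or.inl (orderOf_eq_prime h2 h1)))
  · by_cases h3 : a ^ 2 = 1
    · exact key a (h a (Or.inl (orderOf_eq_prime h3 h1)))
    · exact key a (h a (Or.inr ⟨rfl, orderOf_eq_prime_pow (p := 2) (n := 1) h3 h2⟩))

end Cfsg.Agent.S4126
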