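import Cfsg.Statements.S4138
import Cfsg.Agent.H4.ClassMisc

set_option autoImplicit false
open Cfsg

namespace Cfsg.Agent.S4138

open H4 H24
open scoped Pointwise

theorem aux {G : Type*} [Group G] [Finite G] (m n : ℕ) (hmn : n < m) (hn : 1 < n)
    (hcop : m.Coprime n) (htop : ∀ z : G, ind z ≤ m) (hsecond : ∀ z : G, ind z < m → ind z ≤ n)
    (x y : G) (hx : ind x = n) (hy : ind y = m) (hxπ : IsPiElt {r | r ∣ m} x) :
    (Subgroup.centralizer ({x} : Set G)).Normal ∧
      IsMulCommutative (Subgroup.centralizer ({x} : Set G)) ∧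
      ∀ g ∉ Subgroup.centralizer ({x} : Set G), ind g = m := by
  set π : Set ℕ := {r | r ∣ m}
  have hm : ∀ z : G, ind z ≠ m → ind z ≤ n := fun z hz => hsecond z (lt_of_le_of_ne (htop z) hz)
  have hF1 : ∀ z : G, n ∣ ind z → ind z = n := fun z hz =>
    le_antisymm (hm z fun h => hn.ne' (Nat.eq_one_of_dvd_coprimes hcop (h ▸ hz) dvd_rfl))
      (Nat.le_of_dvd (ind_pos z) hz)
  have hF2 : ∀ z : G, m ∣ ind z → ind z = m := fun z hz =>
    le_antisymm (htop z) (Nat.le_of_dvd (ind_pos z) hz)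
  obtain ⟨A, hAn, hA, hAx⟩ := exists_comm_normal_of_max_ind (x := y) (hy ▸ htop)
  rw [hy] at hAx
  set N := Subgroup.normalClosure ({x} : Set G)
  have hxN : x ∈ N := Subgroup.subset_normalClosure rfl
  have hNA : N ≤ piElts π A hA := Subgroup.normalClosure_le_normal
    (Set.singleton_subset_iff.mpr ⟨hAx x (hx ▸ hcop.symm), hxπ⟩)
  have hN : IsMulCommutative N := ⟨⟨fun a b => Subtype.ext
    (mul_comm_of_mem hA (hNA a.2).1 (hNA b.2).1)⟩⟩
  have hNc : ∀ e : G, IsPiElt πᶜ e → (orderOf e).Coprime (Nat.card N) := fun e he =>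
    (coprime_of_pi (fun r hr hd => mem_of_dvd_card_piElts hr
      (hd.trans (Subgroup.card_dvd_of_le hNA))) he).symm
  have hTm : ∀ t ∈ ⁅N, (⊤ : Subgroup G)⁆, ind t ≠ m := by
    intro t ht htm
    have h1 : t⁻¹ ∈ classStab t := (classStab t).inv_mem (commutator_normalClosure_le
      (commutator_mem_classStab (by rw [hx, htm]; exact hcop.symm) (by rw [htm]; exact htop _)) ht)
    have h2 := (h1 t).mp (IsConj.refl t)
    rw [inv_mul_cancel, isConj_one_left] at h2
    rw [h2, ind_eq_one_iff.mpr (Subgroup.one_mem _)] at htm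
    omega
  have he : ∀ e : G, IsPiElt πᶜ e → x * e ≠ e * x → ind e = m ∧
      (∃ t ∈ ⁅N, Subgroup.zpowers e⁆, ∃ w ∈ Subgroup.center G, t * w = x) ∧
      ∀ c ∈ ⁅N, Subgroup.zpowers e⁆, c * e = e * c → c = 1 := by
    intro e heπ hne
    obtain ⟨t, ht, w, hw, htw, hwe, hlt, hfpf⟩ := exists_ind_lt_of_not_commute N hN hxN (hNc e heπ) hne
    have h1 : ind (w * e) = m := by
      by_contra h
      have := hm _ h
      omega
    have h2 : (ind w⁻¹).Coprime (ind x) := by
      rw [ind_inv, hx]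
      exact hcop.coprime_dvd_left (h1 ▸ ind_dvd_ind_mul_left hwe
        ((hNc e heπ).symm.coprime_dvd_left (N.orderOf_dvd_natCard hw)))
    have h3 : ind (w⁻¹ * x) ≤ ind x := by
      rw [mul_comm_of_mem hN (N.inv_mem hw) hxN, show x * w⁻¹ = t by rw [← htw]; group, hx]
      exact hm t (hTm t (Subgroup.commutator_mono le_rfl le_top ht))
    have h4 : w ∈ Subgroup.center G := by
      rw [← Subgroup.inv_mem_iff, Subgroup.mem_center_iff]
      intro g
      have h5 : w⁻¹⁻¹ * (g * w⁻¹ * g⁻¹) = 1 := by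
        rw [← orderOf_eq_one_iff]
        refine Nat.coprime_self _ |>.mp (Nat.coprime_of_dvd fun r hr h6 _ => hr.one_lt.ne'
          (Nat.eq_one_of_dvd_coprimes hcop ((hNA (N.mul_mem (N.inv_mem (N.inv_mem hw))
            (Subgroup.Normal.conj_mem inferInstance _ (N.inv_mem hw) g))).2 r hr h6) ?_))
        exact h6.trans ((Subgroup.orderOf_dvd_natCard _ (commutator_mem_classStab h2 h3 g)).trans
          (hx ▸ card_classStab_dvd x))
      rwa [inv_mul_eq_one, eq_mul_inv_iff_mul_eq, eq_comm] at h5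
    refine ⟨?_, ⟨t, ht, w, h4, htw⟩, hfpf⟩
    rw [← h1, hwe, ind, ind, cent_mul_center h4]
  set C := Subgroup.centralizer (N : Set G)
  have hC : ∀ {D : Subgroup G} {k : G}, D.index.Coprime n → k ∈ Subgroup.centralizer (D : Set G) →
      k * x = x * k → k ∈ C := by
    intro D k hD hk hkx
    refine le_cent_iff_mem_centralizer.mp (normalClosure_le_of_conj_mem fun g => ?_)
    obtain ⟨d, hd, c, hc, rfl⟩ := exists_mul_of_coprime_index (H := D)
      (K := Subgroup.centralizer ({x} : Set G)) (by rwa [← hx] at hD) g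
    rw [show d * c * x * (d * c)⁻¹ = d * (c * x) * c⁻¹ * d⁻¹ by group, mem_cent_iff.mp hc,
      show d * (x * c) * c⁻¹ * d⁻¹ = d * x * d⁻¹ by group]
    have h1 : d ∈ Subgroup.centralizer ({k} : Set G) := mem_cent_iff.mpr (hk d hd)
    exact Subgroup.mul_mem _ (Subgroup.mul_mem _ h1 (mem_cent_iff.mpr hkx.symm))
      (Subgroup.inv_mem _ h1)
  have hself : ∀ e : G, e ∈ Subgroup.centralizer (Subgroup.centralizer ({e} : Set G) : Set G) :=
    fun e g hg => mem_cent_iff.mp hg
  have hf : ∀ e : G, IsPiElt πᶜ e → e ∉ C → ind e = m ∧ x * e ≠ e * x := by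
    intro e heπ heC
    have h1 : ind e = m := by
      obtain ⟨g, hg⟩ : ∃ g : G, g * x * g⁻¹ ∉ Subgroup.centralizer ({e} : Set G) := by
        by_contra hcon
        push Not at hcon
        exact heC (le_cent_iff_mem_centralizer.mp (normalClosure_le_of_conj_mem hcon))
      rw [← ind_conj g⁻¹]
      refine (he _ (heπ.conj _) fun h => hg (mem_cent_iff.mpr ?_)).1
      calc g * x * g⁻¹ * e = g * (x * (g⁻¹ * e * g⁻¹⁻¹)) * g⁻¹ := by group
        _ = _ := by rw [h]; group
    exact ⟨h1, fun h => heC (hC (by rwa [← h1] at hcop) (hself e) h.symm)⟩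
  have hg : ∀ e k : G, IsPiElt πᶜ e → e ∉ C → IsPiElt π k → k * e = e * k →
      Subgroup.centralizer ({e} : Set G) ≤ Subgroup.centralizer ({k} : Set G) := by
    intro e k heπ heC hk hke
    have h1 := centralizer_mul_of_coprime hke (coprime_of_pi hk heπ)
    have h2 : ind (k * e) = m := hF2 _ ((hf e heπ heC).1 ▸ ind_dvd_ind_mul_right hke
      (coprime_of_pi hk heπ))
    rw [← eq_of_le_of_index_le (h1 ▸ inf_le_right : Subgroup.centralizer ({k * e} : Set G) ≤
      Subgroup.centralizer ({e} : Set G)) (h2.trans (hf e heπ heC).1.symm).le, h1]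
    exact inf_le_left
  have hπn : ∀ k : G, IsPiElt π k → (orderOf k).Coprime n := fun k hk =>
    Nat.coprime_of_dvd fun r hr h1 h2 =>
      hr.one_lt.ne' (Nat.eq_one_of_dvd_coprimes hcop (hk r hr h1) h2)
  have hCx : C ≤ Subgroup.centralizer ({x} : Set G) := fun c hc => mem_cent_iff.mpr (hc x hxN).symm
  have hh : ∀ k : G, IsPiElt π k → k ∈ C := by
    intro k hk
    by_contra hkC
    have h1 : ∀ e ∈ Subgroup.centralizer ({k} : Set G), IsPiElt πᶜ e → e ∈ C := by
      intro e hek heπ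
      by_contra heC
      have h2 := le_cent_iff_mem_centralizer.mp (hg e k heπ heC hk (mem_cent_iff.mp hek).symm)
      have h3 : (ind e).Coprime n := (hf e heπ heC).1 ▸ hcop
      refine hkC (hC h3 h2 (mem_cent_iff.mp (mem_of_mem_normalizer_of_coprime
        (inf_le_right : Subgroup.centralizer ({x} : Set G) ⊓ Subgroup.centralizer ({e} : Set G) ≤ _)
        (mem_cent_iff.mpr (mem_cent_iff.mp hek).symm) (Subgroup.centralizer_le_normalizer _
          fun g hg => h2 g hg.2) ?_).1))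
      rw [Subgroup.inf_relIndex_right, relIndex_eq_index_of_coprime (by rw [← hx] at h3; exact h3.symm)]
      exact (hπn k hk).coprime_dvd_right hx.dvd
    have h2 : n.Coprime (C.relIndex (Subgroup.centralizer ({k} : Set G))) :=
      Nat.coprime_of_dvd fun r hr h3 h4 => hr.one_lt.ne'
        (Nat.eq_one_of_dvd_coprimes hcop (mem_of_dvd_relIndex C _ h1 hr h4) h3)
    have h3 : n ∣ ind k := by
      refine h2.dvd_of_dvd_mul_left ?_
      rw [← Subgroup.inf_relIndex_right, Subgroup.relIndex_mul_index inf_le_right, ← hx]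
      exact ind_dvd_of_le (inf_le_left.trans hCx)
    exact hkC fun a ha => mul_comm_of_mem hA (hNA ha).1 (hAx k (hF1 k h3 ▸ hcop.symm))
  have hi : Subgroup.centralizer ({x} : Set G) = C := by
    refine le_antisymm (fun g hg => ?_) hCx
    obtain ⟨e, f, hef, h1, h2⟩ := exists_pi_decomp π g
    rw [← hef]
    refine C.mul_mem (hh _ h1) (by_contra fun h => (hf _ h2 h).2 ?_)
    exact (mem_cent_iff.mp (Subgroup.pow_mem _ hg f)).symm
  have hj' : ∀ g ∉ C, ∃ f : ℕ, IsPiElt πᶜ (g ^ f) ∧ g ^ f ∉ C := by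
    intro g hg
    obtain ⟨e, f, hef, h1, h2⟩ := exists_pi_decomp π g
    exact ⟨f, h2, fun h => hg (hef ▸ C.mul_mem (hh _ h1) h)⟩
  have hj : ∀ g ∉ C, ind g = m := by
    intro g hg
    obtain ⟨f, h1, h2⟩ := hj' g hg
    exact hF2 g ((hf _ h1 h2).1 ▸ ind_pow_dvd g f)
  have hCn : C.index = n := hi ▸ hx
  have hk : ∀ c : G, Subgroup.centralizer ({c} : Set G) ≤ C →
      Subgroup.centralizer ({c} : Set G) = C := fun c hc =>
    eq_of_le_of_index_le hc ((hF1 c (hCn ▸ Subgroup.index_dvd_of_le hc)).trans hCn.symm).le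
  have hk' : ∀ c ∈ C, IsPiElt πᶜ c → c ∈ Subgroup.centralizer (C : Set G) := by
    intro c hc hcπ
    have h1 := centralizer_mul_of_coprime (hc x hxN) (coprime_of_pi hxπ hcπ)
    rw [← le_cent_iff_mem_centralizer, ← hk (x * c) (h1 ▸ hi ▸ inf_le_left), h1]
    exact inf_le_right
  have hq := Nat.minFac_prime hn.ne'
  set q := n.minFac
  have hqn : q ∣ n := Nat.minFac_dvd n
  have hqm : ¬ q ∣ m := fun h => hq.one_lt.ne' (Nat.eq_one_of_dvd_coprimes hcop h hqn)
  have := Fact.mk hq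
  obtain ⟨Q⟩ : Nonempty (Sylow q G) := inferInstance
  set H := Subgroup.centralizer ((Q : Subgroup G) : Set G)
  have hHC : H ⊔ C = ⊤ := eq_top_of_forall_conj_mem fun g => by
    by_cases hg : g ∈ C
    · exact ⟨1, by simpa using Subgroup.mem_sup_right hg⟩
    · obtain ⟨a, ha⟩ := exists_conj_mem_centralizer_sylow Q (x := g) (hj g hg ▸ hqm)
      exact ⟨a, Subgroup.mem_sup_left ha⟩
  obtain ⟨y₀, hy₀, hy₀C⟩ : ∃ t ∈ (Q : Subgroup G), t ∉ C := by
    by_contra hcon
    push Not at hcon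
    exact Q.not_dvd_index (hqn.trans (hCn ▸ Subgroup.index_dvd_of_le hcon))
  have hy₀π : IsPiElt πᶜ y₀ := by
    obtain ⟨k, hk⟩ := IsPGroup.iff_orderOf.mp Q.isPGroup' ⟨y₀, hy₀⟩
    rw [Subgroup.orderOf_mk] at hk
    exact ((isPiElt_singleton_iff hq).mpr ⟨k, hk⟩).mono (Set.singleton_subset_iff.mpr hqm)
  set L := (H ⊓ C) ⊔ (C ⊓ Subgroup.centralizer (C : Set G))
  have hCL : C ≤ L := le_of_forall_conj_mem fun c hc => by
    obtain ⟨e, f, hef, h1, h2⟩ := exists_pi_decomp π c
    have h3 := hk' _ (C.pow_mem hc f) h2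
    by_cases h4 : Subgroup.centralizer ({c ^ e} : Set G) ≤ C
    · refine ⟨1, C.one_mem, Subgroup.mem_sup_right ⟨by simpa using hc, ?_⟩⟩
      rw [one_mul, inv_one, mul_one, ← hef]
      exact Subgroup.mul_mem _ (le_cent_iff_mem_centralizer.mp (hk _ h4).ge) h3
    obtain ⟨g, hg1, hg2⟩ := SetLike.not_le_iff_exists.mp h4
    obtain ⟨f', h5, h6⟩ := hj' g hg2
    have h7 : ind (c ^ e) ∣ m := (hf _ h5 h6).1 ▸ ind_dvd_of_le
      (hg _ _ h5 h6 h1 (mem_cent_iff.mp (Subgroup.pow_mem _ hg1 f')).symm)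
    obtain ⟨a, ha⟩ := exists_conj_mem_centralizer_sylow Q (x := c ^ e) fun h => hqm (h.trans h7)
    obtain ⟨b, hb, k, hk, rfl⟩ : a ∈ (H : Set G) * (C : Set G) := by
      rw [← Subgroup.mul_normal, hHC]; trivial
    refine ⟨k, hk, ?_⟩
    rw [← hef, show k * (c ^ e * c ^ f) * k⁻¹ = k * c ^ e * k⁻¹ * (k * c ^ f * k⁻¹) by group,
      h3 k hk, mul_inv_cancel_right]
    refine Subgroup.mul_mem_sup ⟨?_, C.mul_mem (C.mul_mem hk (C.pow_mem hc e)) (C.inv_mem hk)⟩
      ⟨C.pow_mem hc f, h3⟩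
    rw [show k * c ^ e * k⁻¹ = b⁻¹ * (b * k * c ^ e * (b * k)⁻¹) * b by group]
    exact H.mul_mem (H.mul_mem (H.inv_mem hb) ha) hb
  have hL : L ≤ Subgroup.centralizer (C : Set G) := by
    refine sup_le ?_ inf_le_right
    rw [Subgroup.le_centralizer_iff]
    refine hCL.trans (sup_le (fun a ha b hb => ?_) fun a ha b hb => ha.2 b hb.2)
    obtain ⟨e, f, hef, h1, h2⟩ := exists_pi_decomp π a
    rw [← hef]
    refine (Commute.mul_right (mem_cent_iff.mp (hg y₀ _ hy₀π hy₀C h1
      (H.pow_mem ha.1 e y₀ hy₀).symm (mem_cent_iff.mpr (hb.1 y₀ hy₀).symm)))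
      (hk' _ (C.pow_mem ha.2 f) h2 b hb.2)).eq
  rw [hi]
  exact ⟨inferInstance, ⟨⟨fun a b => Subtype.ext (hL (hCL b.2) a a.2)⟩⟩, hj⟩


/-- Let G be a finite group whose two largest conjugacy class sizes m > n > 1 are coprime, and let x, y ∈ G have classes of sizes n and m respectively. Then C_G(x) and C_G(y) are abelian, and G/Z(G) is a Frobenius group with kernel C_G(x)/Z(G) and complement C_G(y)/Z(G). -/
theorem result {G : Type*} [Group G] [Finite G] (m n : ℕ) (hmn : n < m) (hn : 1 < n)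
    (hcop : m.Coprime n) (htop : ∀ z : G, (Subgroup.centralizer ({z} : Set G)).index ≤ m) (hsecond : ∀ z : G, (Subgroup.centralizer ({z} : Set G)).index < m → (Subgroup.centralizer ({z} : Set G)).index ≤ n)
    (x y : G) (hx : (Subgroup.centralizer ({x} : Set G)).index = n) (hy : (Subgroup.centralizer ({y} : Set G)).index = m) :
    IsMulCommutative (Subgroup.centralizer ({x} : Set G)) ∧ IsMulCommutative (Subgroup.centralizer ({y} : Set G)) ∧
    Cfsg.IsFrobeniusComplement ((Subgroup.centralizer ({y} : Set G)).map (QuotientGroup.mk' (Subgroup.center G))) ∧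
    Cfsg.frobeniusKernel ((Subgroup.centralizer ({y} : Set G)).map (QuotientGroup.mk' (Subgroup.center G))) =
      ((Subgroup.centralizer ({x} : Set G)).map (QuotientGroup.mk' (Subgroup.center G)) : Set (G ⧸ Subgroup.center G)) := by
  have htop' : ∀ z : G, ind z ≤ ind y := fun z => (htop z).trans hy.ge
  obtain ⟨A, hAn, hA, hAx⟩ := exists_comm_normal_of_max_ind htop'
  obtain ⟨e, f, hef, h1, h2⟩ := exists_pi_decomp {r | r ∣ m} x
  have h3 : (ind (x ^ f)).Coprime (ind y) :=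
    Nat.Coprime.coprime_dvd_left (ind_pow_dvd x f) (by rw [ind, ind, hx, hy]; exact hcop.symm)
  have h4 : x ^ f ∈ Subgroup.center G := by
    rw [Subgroup.mem_center_iff]
    intro g
    have h5 : (x ^ f)⁻¹ * (g * x ^ f * g⁻¹) = 1 := by
      refine IsPiElt.eq_one (π := {r | r ∣ m}) (fun r hr hd => hd.trans
        ((Subgroup.orderOf_dvd_natCard _ (commutator_mem_classStab h3 (htop' _) g)).trans
          (hy ▸ card_classStab_dvd y))) (h2.inv.mul (h2.conj g) ?_)
      exact mul_comm_of_mem hA (A.inv_mem (hAx _ h3)) (hAn.conj_mem _ (hAx _ h3) g)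
    rwa [inv_mul_eq_one, eq_mul_inv_iff_mul_eq, eq_comm] at h5
  have h5 := cent_mul_center (x := x ^ e) h4
  rw [hef] at h5
  obtain ⟨h6, h7, h8⟩ := aux m n hmn hn hcop htop hsecond (x ^ e) y (by rwa [ind, ← h5]) hy h1
  rw [← h5] at h6 h7 h8
  obtain ⟨h9, h10, h11, -⟩ := quasiFrobenius _ h7 (Subgroup.center_le_centralizer _)
    (fun g hg => by rw [h8 g hg, hx]; exact hcop) (y := y) fun h => by
      have h9 : ind y ∣ ind x := ind_dvd_of_le fun a ha => mem_cent_iff.mpr (mul_comm_of_mem h7 ha h)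
      rw [ind, ind, hx, hy] at h9
      exact absurd (Nat.le_of_dvd (by omega) h9) (by omega)
  exact ⟨h7, h9, h10, h11⟩

end Cfsg.Agent.S4138
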