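import Cfsg.Agent.Base
import Cfsg.Agent.H4.Cover
import Cfsg.Agent.H2.MinNormal
import Cfsg.Agent.H24.ClassCount
import Cfsg.Statements.S4139

set_option autoImplicit false
open Cfsg

namespace Cfsg.Agent.S4139

open Subgroup H4

universe u

open Classical in
theorem cardS {G : Type*} [Group G] [Fintype G] (φ : ℕ → Prop) : Nat.card {x : G | φ (ind x)} =
    ∑ C : ConjClasses G, if φ (Nat.card C.carrier) then Nat.card C.carrier else 0 := by
  rw [Nat.card_coe_set_eq, Set.ncard_eq_toFinset_card', Finset.card_eq_sum_card_fiberwise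
    (f := ConjClasses.mk) (t := Finset.univ) fun _ _ => Finset.mem_univ _]
  refine Finset.sum_congr rfl fun C _ => ?_
  obtain ⟨g, rfl⟩ := ConjClasses.mk_surjective C
  have h : ∀ x, ConjClasses.mk x = ConjClasses.mk g → ind x = Nat.card (ConjClasses.mk g).carrier :=
    fun x hx => by rw [← hx, H24.card_carrier_eq_index]
  split_ifs with h1
  · rw [Nat.card_coe_set_eq, Set.ncard_eq_toFinset_card']
    congr 1
    ext x
    simp only [Finset.mem_filter, Set.mem_toFinset, Set.mem_ofPred_eq, ConjClasses.mem_carrier_iff_mk_eq,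
      and_iff_right_iff_imp]
    exact fun hx => h x hx ▸ h1
  · rw [Finset.card_eq_zero, Finset.filter_eq_empty_iff]
    exact fun x hx e => h1 (h x e ▸ (by simpa using hx : φ (ind x)))

variable {p : ℕ} [hp : Fact p.Prime]

/-- the elements whose class size is a power of `p` -/
abbrev Sp (p : ℕ) (G : Type*) [Group G] : Set G := {x : G | ∃ k, ind x = p ^ k}

theorem cen {G : Type*} [Group G] [Finite G] (h : p ∣ Nat.card (Sp p G)) : p ∣ Nat.card (center G) := by
  classical
  have := Fintype.ofFinite G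
  have h1 : Nat.card (center G) = Nat.card {x : G | ind x = 1} :=
    Nat.card_congr (Equiv.subtypeEquivRight fun x => ind_eq_one_iff.symm)
  rw [← ZMod.natCast_eq_zero_iff] at h ⊢
  rw [h1, cardS (· = 1), ← h, cardS fun n => ∃ k, n = p ^ k]
  push_cast
  refine Finset.sum_congr rfl fun C _ => ?_
  split_ifs with h2 h3 h3
  · rfl
  · exact (h3 ⟨0, h2⟩).elim
  · obtain ⟨k, hk⟩ := h3
    rw [hk, eq_comm, ZMod.natCast_eq_zero_iff]
    exact dvd_pow_self p fun e => h2 (by rw [hk, e, pow_zero])
  · rfl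

theorem quo {G : Type*} [Group G] [Finite G] {Z : Subgroup G} [Z.Normal] (hZ : Z ≤ center G)
    (hc : Nat.card Z = p) : Nat.card (Sp p G) = p * Nat.card (Sp p (G ⧸ Z)) := by
  rw [← hc, ← QuotientGroup.card_preimage_mk, hc]
  congr 2
  ext x
  let C := (centralizer ({(x : G ⧸ Z)} : Set (G ⧸ Z))).comap (QuotientGroup.mk' Z)
  have hC : ∀ g : C, (g : G) * x * (g : G)⁻¹ * x⁻¹ ∈ Z := fun g => by
    rw [← QuotientGroup.eq_one_iff]
    simp [show ((g : G) : G ⧸ Z) * x = x * g from mem_centralizer_singleton_iff.1 g.2]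
  let φ : C →* G := MonoidHom.mk' (fun g => g * x * (g : G)⁻¹ * x⁻¹) fun g h => by
    have := mem_center_iff.1 (hZ (hC h))
    calc _ = g * (h * x * (h : G)⁻¹ * x⁻¹) * (x * (g : G)⁻¹ * x⁻¹) := by simp [mul_assoc]
      _ = _ := by rw [mul_assoc, ← this]; simp [mul_assoc]
  have h1 : centralizer ({x} : Set G) ≤ C := fun g hg => mem_centralizer_singleton_iff.2
    (congrArg (QuotientGroup.mk' Z) (mem_centralizer_singleton_iff.1 hg))
  have h2 : φ.ker = (centralizer ({x} : Set G)).subgroupOf C := by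
    ext g
    rw [mem_subgroupOf, mem_centralizer_singleton_iff, MonoidHom.mem_ker, ← mul_inv_eq_iff_eq_mul]
    exact mul_inv_eq_one
  have h3 : (centralizer ({x} : Set G)).relIndex C ∣ p := by
    rw [relIndex, ← h2, index_ker, ← hc]
    exact card_dvd_of_le (by rintro _ ⟨g, rfl⟩; exact hC g)
  have h4 := relIndex_mul_index h1
  rw [index_comap_of_surjective _ (QuotientGroup.mk'_surjective Z)] at h4
  refine ⟨fun ⟨k, hk⟩ => ?_, fun ⟨k, hk⟩ => ?_⟩
  · obtain ⟨j, -, hj⟩ := (Nat.dvd_prime_pow hp.out).1 (Dvd.intro_left _ (h4.trans hk))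
    exact ⟨j, hj⟩
  · obtain ⟨j, -, hj⟩ := (Nat.dvd_prime_pow hp.out).1 (show ind x ∣ p ^ (k + 1) by
      rw [ind, ← h4, pow_succ']; exact mul_dvd_mul h3 (dvd_of_eq hk))
    exact ⟨j, hj⟩

theorem exists_Z {G : Type*} [Group G] [Finite G] (h : p ∣ Nat.card (center G)) :
    ∃ Z : Subgroup G, Z ≤ center G ∧ Z.Normal ∧ Nat.card Z = p := by
  obtain ⟨⟨z, hz⟩, h1⟩ := exists_prime_orderOf_dvd_card' p h
  refine ⟨zpowers z, zpowers_le.2 hz, ⟨fun a ha g => ?_⟩, by rw [Nat.card_zpowers, ← h1, orderOf_mk]⟩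
  rwa [mem_center_iff.1 (zpowers_le.2 hz ha), mul_inv_cancel_right]

theorem nil_dvd (k : ℕ) : ∀ (G : Type u) [Group G] [Finite G], Group.IsNilpotent G →
    p ^ k ∣ Nat.card G → p ^ k ∣ Nat.card (Sp p G) := by
  induction k with
  | zero => simp
  | succ k ih =>
    intro G _ _ hG h
    obtain ⟨P⟩ : Nonempty (Sylow p G) := inferInstance
    have hP : (P : Subgroup G) ≠ ⊥ := P.ne_bot_of_dvd_card ((dvd_pow_self p k.succ_ne_zero).trans h)
    have h1 : p ∣ Nat.card (center G) := by
      have h2 : (P : Subgroup G) ⊓ center G ≠ ⊥ := H2.inf_center_ne_bot_of_isNilpotent _ hP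
      exact ((P.isPGroup'.to_le inf_le_left).card_eq_or_dvd.resolve_left (mt card_eq_one.1 h2)).trans
        (card_dvd_of_le inf_le_right)
    obtain ⟨Z, h2, h3, h4⟩ := exists_Z h1
    rw [quo h2 h4, pow_succ']
    refine mul_dvd_mul_left p (ih _ inferInstance (Nat.dvd_of_mul_dvd_mul_right hp.out.pos ?_))
    rwa [← pow_succ, ← h4, ← card_eq_card_quotient_mul_card_subgroup, h4]

theorem normal_of (n : ℕ) : ∀ (G : Type u) [Group G] [Finite G], Nat.card G = n →
    (∀ k, p ^ k ∣ Nat.card G → p ^ k ∣ Nat.card (Sp p G)) → ∀ P : Sylow p G, (P : Subgroup G).Normal := by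
  induction n using Nat.strong_induction_on with
  | _ n ih =>
    intro G _ _ hn h P
    by_cases h0 : p ∣ Nat.card G
    swap
    · rw [card_eq_one.1 (P.isPGroup'.card_eq_or_dvd.resolve_right fun e =>
        h0 (e.trans (card_subgroup_dvd_card _)))]
      infer_instance
    obtain ⟨Z, h2, h3, h4⟩ := exists_Z (cen (by simpa using h 1 (by simpa using h0)))
    have h5 := card_eq_card_quotient_mul_card_subgroup Z
    rw [h4] at h5
    have := ih _ (by rw [← hn, h5]; exact lt_mul_of_one_lt_right Nat.card_pos hp.out.one_lt) (G ⧸ Z) rfl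
      (fun k hk => Nat.dvd_of_mul_dvd_mul_left hp.out.pos (by
        rw [← quo h2 h4, ← pow_succ']
        exact h _ (by rw [h5, pow_succ]; exact mul_dvd_mul_right hk p)))
      (P.mapSurjective (QuotientGroup.mk'_surjective Z))
    have h6 := this.comap (QuotientGroup.mk' Z)
    rwa [Sylow.coe_mapSurjective, comap_map_eq_self (by
      rw [QuotientGroup.ker_mk']
      exact (IsPGroup.of_card (n := 1) (by rw [h4, pow_one])).le_sylow_of_normal P)] at h6

/-- Let G and H be finite groups such that for every natural number k, G and H have the same number of conjugacy classes of size k. If H is nilpotent then G is nilpotent. -/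
theorem result {G H : Type*} [Group G] [Finite G] [Group H] [Finite H]
    (hH : Group.IsNilpotent H)
    (h : ∀ k : ℕ, Nat.card {C : ConjClasses G // Nat.card C.carrier = k} = Nat.card {C : ConjClasses H // Nat.card C.carrier = k}) :
    Group.IsNilpotent G := by
  classical
  have := Fintype.ofFinite G
  have := Fintype.ofFinite H
  let e := Equiv.ofFiberEquiv (f := fun C : ConjClasses G => Nat.card C.carrier)
    (g := fun C : ConjClasses H => Nat.card C.carrier) fun k => (Finite.card_eq.1 (h k)).some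
  have he : ∀ C, Nat.card (e C).carrier = Nat.card C.carrier := fun C =>
    Equiv.ofFiberEquiv_map (f := fun C : ConjClasses G => Nat.card C.carrier)
      (g := fun C : ConjClasses H => Nat.card C.carrier) _ C
  have key : ∀ φ : ℕ → Prop, Nat.card {x : G | φ (ind x)} = Nat.card {x : H | φ (ind x)} := fun φ => by
    rw [cardS, cardS, ← e.sum_comp]
    exact Finset.sum_congr rfl fun C _ => by rw [he]
  have h1 : Nat.card G = Nat.card H := by simpa using key fun _ => True
  have h2 : Group.IsNilpotent G ↔ ∀ (p : ℕ) (_hp : Fact p.Prime) (P : Sylow p G), (P : Subgroup G).Normal :=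
    (Group.isNilpotent_of_finite_tfae (G := G)).out 0 3 rfl rfl
  refine h2.2 fun p hp P => ?_
  exact normal_of _ G rfl (fun k hk => (key fun n => ∃ k, n = p ^ k) ▸ nil_dvd k H hH (h1 ▸ hk)) P

end Cfsg.Agent.S4139
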