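import Cfsg.Statements.S4142
import Cfsg.Agent.H61.SmallId

set_option autoImplicit false
open Cfsg

namespace Cfsg.Agent.S4142

theorem key {G : Type*} [Group G] [Finite G] (N : Subgroup G) [N.Normal] (g : G) :
    (∀ n ∈ N, ∃ x : G, x * g * x⁻¹ = g * n) ↔
      Nat.card (Subgroup.centralizer ({g} : Set G)) =
        Nat.card (Subgroup.centralizer ({(QuotientGroup.mk g : G ⧸ N)} : Set (G ⧸ N))) := by
  set D : Subgroup G := (Subgroup.centralizer ({(QuotientGroup.mk g : G ⧸ N)} : Set (G ⧸ N))).comap
    (QuotientGroup.mk' N) with hD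
  have memD : ∀ x, x ∈ D ↔ g⁻¹ * (x * g * x⁻¹) ∈ N := by
    intro x
    rw [hD, Subgroup.mem_comap, Subgroup.mem_centralizer_singleton_iff, ← QuotientGroup.eq]
    simp only [QuotientGroup.mk'_apply, QuotientGroup.mk_mul, QuotientGroup.mk_inv]
    constructor
    · intro h; rw [h]; simp
    · intro h; rw [eq_mul_inv_iff_mul_eq] at h; exact h.symm
  have hcD : Nat.card D =
      Nat.card (Subgroup.centralizer ({(QuotientGroup.mk g : G ⧸ N)} : Set (G ⧸ N))) *
        Nat.card N := by
    have h1 := D.card_mul_index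
    have h2 := (Subgroup.centralizer ({(QuotientGroup.mk g : G ⧸ N)} : Set (G ⧸ N))).card_mul_index
    have h3 : D.index =
        (Subgroup.centralizer ({(QuotientGroup.mk g : G ⧸ N)} : Set (G ⧸ N))).index :=
      Subgroup.index_comap_of_surjective _ (QuotientGroup.mk'_surjective N)
    have h4 := Subgroup.card_eq_card_quotient_mul_card_subgroup N
    rw [← h3] at h2
    have h5 : D.index ≠ 0 := Subgroup.index_ne_zero_of_finite
    apply Nat.eq_of_mul_eq_mul_right (Nat.pos_of_ne_zero h5)
    rw [h1, h4, ← h2]; ring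
  have hC : D ⊓ Subgroup.centralizer ({g} : Set G) = Subgroup.centralizer ({g} : Set G) := by
    rw [inf_eq_right]
    intro x hx
    rw [memD]
    rw [Subgroup.mem_centralizer_singleton_iff] at hx
    rw [hx]; simp
  have h := H61.ncard_conj_mul_card D g
  rw [hC, hcD] at h
  set O : Set G := {a : G | ∃ s ∈ D, s * g * s⁻¹ = a} with hO
  have hT : ((fun n => g * n) '' (N : Set G)).ncard = Nat.card N := by
    rw [Set.ncard_image_of_injective _ (mul_right_injective g)]; rfl
  have hsub : O ⊆ (fun n => g * n) '' (N : Set G) := by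
    rintro a ⟨s, hs, rfl⟩
    exact ⟨_, (memD s).1 hs, by simp⟩
  have hNpos : 0 < Nat.card N := Nat.card_pos
  have hCpos : 0 < Nat.card (Subgroup.centralizer ({g} : Set G)) := Nat.card_pos
  constructor
  · intro hn
    have : O = (fun n => g * n) '' (N : Set G) := by
      refine hsub.antisymm ?_
      rintro _ ⟨n, hn', rfl⟩
      obtain ⟨x, hx⟩ := hn n hn'
      exact ⟨x, (memD x).2 (by rw [hx]; simpa using hn'), hx⟩
    rw [this, hT, mul_comm] at h
    exact Nat.eq_of_mul_eq_mul_right hNpos h
  · intro hc n hn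
    rw [← hc, mul_comm _ (Nat.card N)] at h
    have h1 := Nat.eq_of_mul_eq_mul_right hCpos h
    have h2 : O = (fun n => g * n) '' (N : Set G) :=
      Set.eq_of_subset_of_ncard_le hsub (by rw [hT, h1])
    have : g * n ∈ O := h2 ▸ ⟨n, hn, rfl⟩
    obtain ⟨x, -, hx⟩ := this
    exact ⟨x, hx⟩

/-- Let G be a finite group and N a normal subgroup. Then the conjugacy class of every element g outside N is a union of cosets of N (gn is conjugate to g for all n ∈ N) if and only if for every g outside N the centralizer of g in G has the same order as the centralizer of gN in G/N. -/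
theorem result {G : Type*} [Group G] [Finite G] (N : Subgroup G) [N.Normal] :
    (∀ g : G, g ∉ N → ∀ n ∈ N, ∃ x : G, x * g * x⁻¹ = g * n) ↔
      ∀ g : G, g ∉ N → Nat.card (Subgroup.centralizer ({g} : Set G)) =
        Nat.card (Subgroup.centralizer ({(QuotientGroup.mk g : G ⧸ N)} : Set (G ⧸ N))) := by
  exact forall_congr' fun g => forall_congr' fun _ => key N g

end Cfsg.Agent.S4142
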