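import Cfsg.Statements.S4149
import Cfsg.Agent.Base
import Cfsg.Agent.H4.Cover
import Cfsg.Agent.H8.AbFitting

set_option autoImplicit false
open Cfsg

namespace Cfsg.Agent.S4149

open H4 in
theorem half {G : Type*} [Group G] [Finite G] {p : ℕ} (hp : p.Prime)
    (h : ¬ Cfsg.HasNormalPComplement p G) : Nat.card G ≤ 2 * {x : G | p ∣ ind x}.ncard := by
  have := Fact.mk hp
  obtain ⟨P⟩ : Nonempty (Sylow p G) := inferInstance
  have h1 : 2 * (conjUnion (Subgroup.centralizer ((P : Subgroup G) : Set G))).ncard ≤ Nat.card G := by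
    refine two_mul_ncard_conjUnion_le fun hle =>
      h (H8.hasNPC_of_normalizer_le_centralizer P (le_trans ?_ hle))
    intro g hg
    rw [Subgroup.mem_normalizer_iff]
    intro c
    have h1 := Subgroup.mem_normalizer_iff.mp hg
    have h2 := Subgroup.mem_normalizer_iff.mp (Subgroup.inv_mem _ hg)
    constructor
    · intro hc y hy
      have h3 := hc _ ((h2 y).mp hy)
      calc y * (g * c * g⁻¹) = g * (g⁻¹ * y * g⁻¹⁻¹ * c) * g⁻¹ := by group
        _ = _ := by rw [h3]; group
    · intro hc y hy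
      have h3 := hc _ ((h1 y).mp hy)
      calc y * c = g⁻¹ * (g * y * g⁻¹ * (g * c * g⁻¹)) * g := by group
        _ = _ := by rw [h3]; group
  have h2 : {x : G | p ∣ ind x}ᶜ ⊆ conjUnion (Subgroup.centralizer ((P : Subgroup G) : Set G)) :=
    fun x hx => exists_conj_mem_centralizer_sylow P hx
  have h3 := Set.ncard_le_ncard h2
  have h4 := Set.ncard_add_ncard_compl {x : G | p ∣ ind x}
  omega

/-- Let G be a finite group that has a normal p-complement for at most one prime p dividing its order, and let σ be a natural number such that every conjugacy class size of G has at most σ distinct prime divisors. Then the number of primes dividing at least one conjugacy class size of G is at most 2σ. -/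
theorem result {G : Type*} [Group G] [Finite G] (σ : ℕ)
    (hσ : ∀ x : G, ((Subgroup.centralizer ({x} : Set G)).index).primeFactors.card ≤ σ)
    (hnil : ∀ p q : ℕ, p.Prime → q.Prime → p ∣ Nat.card G → q ∣ Nat.card G →
      Cfsg.HasNormalPComplement p G → Cfsg.HasNormalPComplement q G → p = q) :
    Nat.card {p : ℕ | p.Prime ∧ ∃ x : G, p ∣ (Subgroup.centralizer ({x} : Set G)).index} ≤ 2 * σ := by
  classical
  have := Fintype.ofFinite G
  let R := (Nat.card G).primeFactors.filter fun p => ∃ x : G, p ∣ H4.ind x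
  have hR : {p : ℕ | p.Prime ∧ ∃ x : G, p ∣ (Subgroup.centralizer ({x} : Set G)).index} = R := by
    ext p
    simp only [R, Set.mem_ofPred_eq, Finset.coe_filter, Nat.mem_primeFactors]
    exact ⟨fun ⟨h, x, hx⟩ => ⟨⟨h, hx.trans (Subgroup.index_dvd_card _), Nat.card_pos.ne'⟩, x, hx⟩,
      fun ⟨h, hx⟩ => ⟨h.1, hx⟩⟩
  rw [hR, Nat.card_coe_set_eq, Set.ncard_coe_finset]
  let R' := R.filter fun p => ¬ Cfsg.HasNormalPComplement p G
  have h1 : R.card ≤ R'.card + 1 := by
    rw [← Finset.card_filter_add_card_filter_not (s := R) (fun p => ¬ Cfsg.HasNormalPComplement p G)]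
    refine Nat.add_le_add_left (Finset.card_le_one.2 fun p hp q hq => ?_) _
    simp only [R, Finset.mem_filter, Nat.mem_primeFactors, not_not] at hp hq
    exact hnil p q hp.1.1.1 hq.1.1.1 hp.1.1.2.1 hq.1.1.2.1 hp.2 hq.2
  have h2 : R'.card * Nat.card G ≤ 2 * ∑ p ∈ R', (Finset.univ.filter fun x : G => p ∣ H4.ind x).card := by
    rw [Finset.mul_sum, ← smul_eq_mul, ← Finset.sum_const]
    refine Finset.sum_le_sum fun p hp => ?_
    simp only [R', R, Finset.mem_filter, Nat.mem_primeFactors] at hp
    rw [← Set.ncard_coe_finset]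
    simpa using half hp.1.1.1 hp.2
  have h3 : ∑ p ∈ R', (Finset.univ.filter fun x : G => p ∣ H4.ind x).card =
      ∑ x : G, (R'.filter fun p => p ∣ H4.ind x).card := by
    simp only [Finset.card_filter]
    exact Finset.sum_comm
  have h4 : ∑ x : G, (R'.filter fun p => p ∣ H4.ind x).card ≤ σ * (Nat.card G - 1) := by
    rw [← Finset.sum_erase (a := (1 : G)) (f := fun x => (R'.filter fun p => p ∣ H4.ind x).card),
      Nat.card_eq_fintype_card, ← Finset.card_univ,
      ← Finset.card_erase_of_mem (Finset.mem_univ (1 : G)), mul_comm, ← smul_eq_mul]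
    · refine Finset.sum_le_card_nsmul _ _ _ fun x _ => le_trans (Finset.card_le_card fun p hp => ?_) (hσ x)
      simp only [R', R, Finset.mem_filter, Nat.mem_primeFactors] at hp
      exact Nat.mem_primeFactors.2 ⟨hp.1.1.1.1, hp.2, (H4.ind_pos x).ne'⟩
    · rw [Finset.card_eq_zero, Finset.filter_eq_empty_iff]
      intro p hp
      simp only [R', R, Finset.mem_filter, Nat.mem_primeFactors] at hp
      rw [H4.ind_eq_one_iff.2 (Subgroup.one_mem _), Nat.dvd_one]
      exact hp.1.1.1.ne_one
  rcases R.eq_empty_or_nonempty with e | ⟨p, hp⟩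
  · simp [e]
  simp only [R, Finset.mem_filter, Nat.mem_primeFactors] at hp
  obtain ⟨⟨hp, -⟩, x, hx⟩ := hp
  have h5 : 0 < σ := lt_of_lt_of_le (Finset.card_pos.2
    ⟨p, Nat.mem_primeFactors.2 ⟨hp, hx, (H4.ind_pos x).ne'⟩⟩) (hσ x)
  have h6 : 0 < Nat.card G := Nat.card_pos
  by_contra h7
  have h8 : 2 * σ * Nat.card G ≤ R'.card * Nat.card G := Nat.mul_le_mul_right _ (by omega)
  obtain ⟨n, hn⟩ : ∃ n, Nat.card G = n + 1 := ⟨Nat.card G - 1, by omega⟩
  rw [h3] at h2
  rw [hn] at h2 h4 h8
  simp only [Nat.add_sub_cancel] at h4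
  nlinarith

end Cfsg.Agent.S4149
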