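import Cfsg.Statements.S4153
import Cfsg.Agent.H4.Product

set_option autoImplicit false
open Cfsg

namespace Cfsg.Agent.S4153

theorem fiber {G : Type*} [Group G] [Finite G] (p : ℕ) [Fact p.Prime] (N : Subgroup G) [N.Normal]
    (P : Sylow p G) (Pbar : Sylow p (G ⧸ N)) (z : G ⧸ N) (hz : ∃ k : ℕ, orderOf z = p ^ k) :
    Nat.card (P : Subgroup G) ≤
      {g : G | (∃ k : ℕ, orderOf g = p ^ k) ∧ (g : G ⧸ N) = z}.ncard *
        Nat.card (Pbar : Subgroup (G ⧸ N)) ∧
    (N ≤ Subgroup.center G → Nat.card (P : Subgroup G) =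
      {g : G | (∃ k : ℕ, orderOf g = p ^ k) ∧ (g : G ⧸ N) = z}.ncard *
        Nat.card (Pbar : Subgroup (G ⧸ N))) := by
  have hz' : IsPGroup p (Subgroup.zpowers z) := by
    rw [IsPGroup.iff_card, Nat.card_zpowers]; exact hz
  obtain ⟨R, hR⟩ := hz'.exists_le_sylow
  obtain ⟨Q, rfl⟩ := Sylow.mapSurjective_surjective (QuotientGroup.mk'_surjective N) p R
  have hzQ := hR (Subgroup.mem_zpowers z)
  rw [Sylow.coe_mapSurjective] at hzQ
  obtain ⟨g, hgQ, rfl⟩ := hzQ
  have h1 := H4.card_eq_card_map_mul_card_inf (Q : Subgroup G) N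
  have h2 : Nat.card (P : Subgroup G) = Nat.card (Q : Subgroup G) := by
    rw [P.card_eq_multiplicity, Q.card_eq_multiplicity]
  have h3 : Nat.card (Pbar : Subgroup (G ⧸ N)) =
      Nat.card ((Q : Subgroup G).map (QuotientGroup.mk' N)) := by
    rw [← Sylow.coe_mapSurjective (hf := QuotientGroup.mk'_surjective N),
      Pbar.card_eq_multiplicity, Sylow.card_eq_multiplicity]
  have hT : ((fun n => g * n) '' ((N ⊓ (Q : Subgroup G) : Subgroup G) : Set G)).ncard =
      Nat.card ↥(N ⊓ (Q : Subgroup G)) := by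
    rw [Set.ncard_image_of_injective _ (mul_right_injective g)]; rfl
  have hord : ∀ x ∈ (Q : Subgroup G), ∃ k : ℕ, orderOf x = p ^ k := by
    intro x hx
    obtain ⟨k, hk⟩ := (IsPGroup.iff_orderOf.1 Q.isPGroup') ⟨x, hx⟩
    exact ⟨k, by rw [← hk, ← Subgroup.orderOf_coe]⟩
  have hsub : (fun n => g * n) '' ((N ⊓ (Q : Subgroup G) : Subgroup G) : Set G) ⊆
      {x : G | (∃ k : ℕ, orderOf x = p ^ k) ∧ (x : G ⧸ N) = QuotientGroup.mk' N g} := by
    rintro _ ⟨n, hn, rfl⟩
    refine ⟨hord _ (mul_mem hgQ hn.2), ?_⟩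
    simp [(QuotientGroup.eq_one_iff n).2 hn.1]
  rw [h2, h1, h3, ← hT, mul_comm]
  refine ⟨Nat.mul_le_mul_right _ (Set.ncard_le_ncard hsub (Set.toFinite _)), fun hN => ?_⟩
  congr 2
  refine hsub.antisymm ?_
  rintro y ⟨⟨k, hk⟩, hy⟩
  have hn : g⁻¹ * y ∈ N := by
    rw [← QuotientGroup.eq]; exact hy.symm
  refine ⟨g⁻¹ * y, Subgroup.mem_inf.2 ⟨hn, ?_⟩, by simp⟩
  have hc := hN hn
  have hnorm : (Subgroup.zpowers (g⁻¹ * y)).Normal := by
    constructor
    intro a ha b
    have ha' : a ∈ Subgroup.center G := (Subgroup.zpowers_le.2 hc) ha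
    rw [Subgroup.mem_center_iff.1 ha' b]; simpa using ha
  have hcomm : Commute g⁻¹ y := by
    have h' := Subgroup.mem_center_iff.1 hc g
    have e : g * y = y * g := by
      calc g * y = g * (g * (g⁻¹ * y)) := by group
        _ = g * (g⁻¹ * y * g) := by rw [h']
        _ = y * g := by group
    exact Commute.inv_left e
  obtain ⟨l, hl⟩ := hord g hgQ
  have hp : IsPGroup p (Subgroup.zpowers (g⁻¹ * y)) := by
    rw [IsPGroup.iff_card, Nat.card_zpowers]
    have : orderOf (g⁻¹ * y) ∣ p ^ (l + k) := by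
      rw [orderOf_dvd_iff_pow_eq_one, hcomm.mul_pow, inv_pow, pow_add p, pow_mul g, ← hl,
        pow_orderOf_eq_one, mul_comm (orderOf g), pow_mul, ← hk, pow_orderOf_eq_one]
      simp
    obtain ⟨j, -, hj⟩ := (Nat.dvd_prime_pow Fact.out).1 this
    exact ⟨j, hj⟩
  exact hp.le_sylow_of_normal Q (Subgroup.mem_zpowers _)

/-- Let G be a finite group, p a prime, N a normal subgroup, P a Sylow p-subgroup of G and P̄ a Sylow p-subgroup of G/N. Count the elements of p-power order, the identity included. Then (number of such elements of G/N)/#P̄ ≤ (number of such elements of G)/#P, stated as a cross-multiplied inequality, with equality when N is central. -/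
theorem result {G : Type*} [Group G] [Finite G] (p : ℕ) [Fact p.Prime] (N : Subgroup G) [N.Normal]
    (P : Sylow p G) (Pbar : Sylow p (G ⧸ N)) :
    Nat.card {g : (G ⧸ N) // ∃ k : ℕ, orderOf g = p ^ k} * Nat.card (P : Subgroup G) ≤ Nat.card {g : G // ∃ k : ℕ, orderOf g = p ^ k} * Nat.card (Pbar : Subgroup (G ⧸ N)) ∧
    (N ≤ Subgroup.center G → Nat.card {g : (G ⧸ N) // ∃ k : ℕ, orderOf g = p ^ k} * Nat.card (P : Subgroup G) = Nat.card {g : G // ∃ k : ℕ, orderOf g = p ^ k} * Nat.card (Pbar : Subgroup (G ⧸ N))) := by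
  classical
  have := Fintype.ofFinite G
  have := Fintype.ofFinite (G ⧸ N)
  have hsum : Nat.card {g : G // ∃ k : ℕ, orderOf g = p ^ k} =
      ∑ z : {g : (G ⧸ N) // ∃ k : ℕ, orderOf g = p ^ k},
        {g : G | (∃ k : ℕ, orderOf g = p ^ k) ∧ (g : G ⧸ N) = z.1}.ncard := by
    let f : (Σ z : {g : (G ⧸ N) // ∃ k : ℕ, orderOf g = p ^ k},
        {g : G | (∃ k : ℕ, orderOf g = p ^ k) ∧ (g : G ⧸ N) = z.1}) →
        {g : G // ∃ k : ℕ, orderOf g = p ^ k} := fun w => ⟨w.2.1, w.2.2.1⟩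
    have hf : Function.Bijective f := by
      constructor
      · rintro ⟨⟨z, hz⟩, a, ha, ha'⟩ ⟨⟨w, hw⟩, b, hb, hb'⟩ h
        have hab : a = b := congrArg Subtype.val h
        subst hab
        simp only at ha' hb'
        subst ha'
        subst hb'
        rfl
      · rintro ⟨g, k, hk⟩
        have : orderOf (g : G ⧸ N) ∣ p ^ k := hk ▸ orderOf_map_dvd (QuotientGroup.mk' N) g
        obtain ⟨j, -, hj⟩ := (Nat.dvd_prime_pow Fact.out).1 this
        exact ⟨⟨⟨g, j, hj⟩, g, ⟨k, hk⟩, rfl⟩, rfl⟩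
    rw [← Nat.card_congr (Equiv.ofBijective f hf), Nat.card_sigma]
    rfl
  rw [hsum, Finset.sum_mul, Nat.card_eq_fintype_card, ← Finset.card_univ, ← smul_eq_mul,
    ← Finset.sum_const]
  exact ⟨Finset.sum_le_sum fun z _ => (fiber p N P Pbar z.1 z.2).1,
    fun hN => Finset.sum_congr rfl fun z _ => (fiber p N P Pbar z.1 z.2).2 hN⟩

end Cfsg.Agent.S4153
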