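import Cfsg.Statements.S4154
import Cfsg.Agent.Base
import Cfsg.Agent.H2.PrimeCore

set_option autoImplicit false
open Cfsg

namespace Cfsg.Agent.S4154



/-- Let G be a finite group and α an automorphism of G such that every element of G is the product of an element fixed by α and an element of the form g⁻¹α(g). If N is a normal α-invariant subgroup, then the automorphism ᾱ induced on G/N has the same property, and every coset fixed by ᾱ contains an element fixed by α (so the fixed points of ᾱ are the images of the fixed points of α). -/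
theorem result {G : Type*} [Group G] [Finite G] (α : MulAut G)
    (hccp : ∀ x : G, ∃ c g : G, α c = c ∧ x = c * (g⁻¹ * α g))
    (N : Subgroup G) [N.Normal] (hN : ∀ n ∈ N, α n ∈ N) :
    (∀ x : G, ∃ c g : G, c⁻¹ * α c ∈ N ∧ x⁻¹ * (c * (g⁻¹ * α g)) ∈ N) ∧
    (∀ x : G, x⁻¹ * α x ∈ N → ∃ c : G, α c = c ∧ c⁻¹ * x ∈ N) := by
  refine ⟨fun x => ?_, fun x hx => ?_⟩
  · obtain ⟨c, g, hc, rfl⟩ := hccp x
    exact ⟨c, g, by rw [hc, inv_mul_cancel]; exact N.one_mem,
      by rw [inv_mul_cancel]; exact N.one_mem⟩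
  have hNn : N.Normal := inferInstance
  let D : Subgroup G :=
    { carrier := {x | x⁻¹ * α x ∈ N}
      one_mem' := by simp
      mul_mem' := by
        intro a b ha hb
        have h1 := hNn.conj_mem _ ha b⁻¹
        have h2 := N.mul_mem h1 hb
        simp only [Set.mem_setOf_eq, map_mul] at h2 ⊢
        convert h2 using 1
        group
      inv_mem' := by
        intro a ha
        have h1 := hNn.conj_mem _ (N.inv_mem ha) a
        simp only [Set.mem_setOf_eq, map_inv] at h1 ⊢
        convert h1 using 1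
        group }
  let C : Subgroup G := α.toMonoidHom.eqLocus (MonoidHom.id G)
  have hCD : C ⊔ N ≤ D := by
    refine sup_le (fun c hc => ?_) (fun n hn => ?_)
    · have hc' : α c = c := hc
      change c⁻¹ * α c ∈ N
      rw [hc', inv_mul_cancel]; exact N.one_mem
    · exact N.mul_mem (N.inv_mem hn) (hN n hn)
  let f : G ⧸ D → G ⧸ (C ⊔ N) := Quotient.lift (fun h => ((α h * h⁻¹ : G) : G ⧸ (C ⊔ N))) (by
    intro a b hab
    have hab' : a⁻¹ * b ∈ D := QuotientGroup.leftRel_apply.1 hab
    have h1 : (a⁻¹ * b)⁻¹ * α (a⁻¹ * b) ∈ N := hab'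
    rw [QuotientGroup.eq]
    apply Subgroup.mem_sup_right
    have h2 := hNn.conj_mem _ h1 b
    rw [map_mul, map_inv] at h2
    convert h2 using 1
    group)
  have hf : Function.Surjective f := by
    intro y
    obtain ⟨y, rfl⟩ := QuotientGroup.mk_surjective y
    obtain ⟨c, g, hc, hy⟩ := hccp y⁻¹
    refine ⟨((g⁻¹ : G) : G ⧸ D), ?_⟩
    change ((α g⁻¹ * g⁻¹⁻¹ : G) : G ⧸ (C ⊔ N)) = y
    rw [QuotientGroup.eq]
    apply Subgroup.mem_sup_left
    have hy' : y = (c * (g⁻¹ * α g))⁻¹ := by rw [← hy, inv_inv]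
    have : (α g⁻¹ * g⁻¹⁻¹)⁻¹ * y = c⁻¹ := by rw [hy', map_inv]; group
    rw [this]
    exact C.inv_mem hc
  have h1 : (C ⊔ N).index ≤ D.index := Nat.card_le_card_of_surjective f hf
  have h2 : C ⊔ N = D := by
    apply Subgroup.eq_of_le_of_card_ge hCD
    have e1 := (C ⊔ N).card_mul_index
    have e2 := D.card_mul_index
    have hp : 0 < D.index := Nat.pos_of_ne_zero Subgroup.FiniteIndex.index_ne_zero
    have : Nat.card D * D.index ≤ Nat.card (C ⊔ N : Subgroup G) * D.index := by
      rw [e2, ← e1]; exact Nat.mul_le_mul_left _ h1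
    exact Nat.le_of_mul_le_mul_right this hp
  have hxD : x ∈ C ⊔ N := by rw [h2]; exact hx
  rw [← SetLike.mem_coe, Subgroup.mul_normal] at hxD
  obtain ⟨c, hc, n, hn, rfl⟩ := hxD
  exact ⟨c, hc, by simpa using hn⟩

end Cfsg.Agent.S4154
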