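import Cfsg.Statements.S4155
import Cfsg.Agent.Base
import Cfsg.Agent.S4107
import Cfsg.Agent.H2.PrimeCore
import Cfsg.Agent.H18.FpfHom

set_option autoImplicit false
open Cfsg

namespace Cfsg.Agent.S4155



/-- Let G be a finite group and N a proper non-trivial normal nilpotent subgroup whose order is not a prime power, such that for every x outside N all elements of the coset xN have the same order as x. Then N is the Fitting subgroup of G, and for every prime q every Sylow q-subgroup of G/N is cyclic or generalized quaternion. -/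
theorem result {G : Type*} [Group G] [Finite G] (N : Subgroup G) [N.Normal] (hN1 : N ≠ ⊥) (hN2 : N ≠ ⊤)
    (heq : ∀ x : G, x ∉ N → ∀ n ∈ N, orderOf (x * n) = orderOf x)
    (hnil : Group.IsNilpotent N) (hnpp : ¬ IsPrimePow (Nat.card N)) :
    N = Cfsg.fittingSubgroup G ∧
    ∀ (q : ℕ) [Fact q.Prime] (Q : Sylow q (G ⧸ N)), IsCyclic (Q : Subgroup (G ⧸ N)) ∨ ∃ n : ℕ, Nonempty ((Q : Subgroup (G ⧸ N)) ≃* QuaternionGroup (2 ^ n)) := by
  have hnp : ∀ p : ℕ, p.Prime → ¬ IsPGroup p N := by
    intro p hp h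
    have : Fact p.Prime := ⟨hp⟩
    obtain ⟨k, hk⟩ := IsPGroup.iff_card.1 h
    apply hnpp
    rw [hk]
    refine ⟨p, k, hp.prime, Nat.pos_of_ne_zero ?_, rfl⟩
    rintro rfl
    exact hN1 (Subgroup.card_eq_one.1 (by simpa using hk))
  have hF : N = fittingSubgroup G := by
    refine le_antisymm (H2.le_fitting N) ?_
    rw [H2.fitting_eq_iSup_pCore, iSup_le_iff]
    intro p
    by_contra h
    have := H2.pCore_characteristic (p : ℕ) G
    exact hnp p p.2 (S4107.isPGroup_of_not_le N heq _ (H2.pCore_isPGroup _ G) h)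
  refine ⟨hF, fun q _ Q => ?_⟩
  obtain ⟨p, hp, hpN, hpq⟩ : ∃ p : ℕ, p.Prime ∧ p ∣ Nat.card N ∧ p ≠ q := by
    by_contra h
    push Not at h
    apply hnp q Fact.out
    rw [IsPGroup.iff_card]
    exact ⟨_, Nat.eq_prime_pow_of_unique_prime_dvd Nat.card_pos.ne' (fun hp hd => h _ hp hd)⟩
  have : Fact p.Prime := ⟨hp⟩
  have := H2.pCore_characteristic p G
  have := H2.pCore_characteristic q G
  have hWN : pCore p G ≤ N := by rw [hF]; exact H2.pCore_le_fitting p G
  have hW : Nontrivial (pCore p G) := by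
    obtain ⟨y, hy⟩ := exists_prime_orderOf_dvd_card' p hpN
    have hy' : orderOf (y : G) = p := by rw [Subgroup.orderOf_coe, hy]
    have h1 : Subgroup.zpowers (y : G) ≤ pCore p G := by
      apply H2.le_pCore_of_le_fitting
      · apply IsPGroup.of_card (n := 1)
        rw [Nat.card_zpowers, hy', pow_one]
      · rw [← hF, Subgroup.zpowers_le]; exact y.2
    refine ⟨⟨⟨y, h1 (Subgroup.mem_zpowers _)⟩, 1, fun h => hp.one_lt.ne' ?_⟩⟩
    have h2 : (y : G) = 1 := congrArg Subtype.val h
    rw [← hy', h2, orderOf_one]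
  obtain ⟨P, rfl⟩ := Sylow.mapSurjective_surjective (QuotientGroup.mk'_surjective N) q Q
  let f : (P : Subgroup G) →* ((P : Subgroup G).map (QuotientGroup.mk' N)) :=
    (QuotientGroup.mk' N).subgroupMap P
  have hf : Function.Surjective f := MonoidHom.subgroupMap_surjective _ _
  let ψ : (P : Subgroup G) →* MulAut (pCore p G) :=
    (MulAut.conjNormal (H := pCore p G)).comp (P : Subgroup G).subtype
  have hker : f.ker ≤ ψ.ker := by
    intro x hx
    have hxN : (x : G) ∈ N := by
      have h1 : (f x : G ⧸ N) = 1 := by rw [MonoidHom.mem_ker.1 hx]; rfl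
      exact (QuotientGroup.eq_one_iff _).1 h1
    have h1 : Subgroup.zpowers (x : G) ≤ pCore q G := by
      apply H2.le_pCore_of_le_fitting
      · exact P.isPGroup'.to_le (by rw [Subgroup.zpowers_le]; exact x.2)
      · rw [← hF, Subgroup.zpowers_le]; exact hxN
    have h2 : pCore q G ≤ Subgroup.centralizer (pCore p G : Set G) :=
      H2.le_centralizer_of_disjoint_normal
        (IsPGroup.disjoint_of_ne q p hpq.symm _ _ (H2.pCore_isPGroup q G) (H2.pCore_isPGroup p G))
    have h3 := h2 (h1 (Subgroup.mem_zpowers _))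
    rw [MonoidHom.mem_ker]
    ext w
    have h4 := Subgroup.mem_centralizer_iff.1 h3 w w.2
    change (x : G) * w * (x : G)⁻¹ = w
    rw [← h4]; group
  let φ := f.liftOfSurjective hf ⟨ψ, hker⟩
  have hφ : ∀ x, φ (f x) = ψ x := fun x =>
    f.liftOfRightInverse_comp_apply _ _ ⟨ψ, hker⟩ x
  have hq : IsPGroup q ((P : Subgroup G).map (QuotientGroup.mk' N)) := P.isPGroup'.map _
  have key := H18.isCyclic_or_quaternion_of_fpf_hom φ (p := q) (by
    intro a ha w hw
    obtain ⟨x, rfl⟩ := hf a
    rw [hφ] at hw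
    have hxN : (x : G) ∉ N := by
      intro h
      apply ha
      apply Subtype.ext
      exact (QuotientGroup.eq_one_iff _).2 h
    have h1 : (x : G) * w * (x : G)⁻¹ = w := congrArg Subtype.val hw
    have hcm : Commute (x : G) (w : G) := by
      change (x : G) * w = w * x
      rw [← mul_inv_eq_iff_eq_mul, h1]
    have hco : (orderOf (x : G)).Coprime (orderOf (w : G)) := by
      obtain ⟨m, hm⟩ := P.isPGroup' x
      obtain ⟨l, hl⟩ := H2.pCore_isPGroup p G w
      have h2 : orderOf (x : G) ∣ q ^ m := orderOf_dvd_of_pow_eq_one (congrArg Subtype.val hm)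
      have h3 : orderOf (w : G) ∣ p ^ l := orderOf_dvd_of_pow_eq_one (congrArg Subtype.val hl)
      exact Nat.Coprime.coprime_dvd_left h2 (Nat.Coprime.coprime_dvd_right h3
        (Nat.Coprime.pow _ _ ((Nat.coprime_primes Fact.out hp).2 hpq.symm)))
    have e := heq x hxN w (hWN w.2)
    rw [hcm.orderOf_mul_eq_mul_orderOf_of_coprime hco] at e
    have h4 : orderOf (w : G) = 1 :=
      Nat.eq_of_mul_eq_mul_left (orderOf_pos (x : G)) (by rw [e, mul_one])
    exact Subtype.ext (orderOf_eq_one_iff.1 h4)) hq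
  exact key.imp id (fun h => h.2)

end Cfsg.Agent.S4155
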