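import Cfsg.Statements.S4156
import Cfsg.Agent.Base

set_option autoImplicit false
open Cfsg

namespace Cfsg.Agent.S4156

variable {n : ℕ} {F : Type*} [Field F]

/-- Action of a permutation on functions modulo constants. -/
def L (σ : Equiv.Perm (Fin (n + 1))) : Module.End F (Fin n → F) where
  toFun f i := (Fin.cons 0 f : Fin (n + 1) → F) (σ⁻¹ i.succ) - (Fin.cons 0 f : Fin (n + 1) → F) (σ⁻¹ 0)
  map_add' f g := by
    have h : ∀ x, (Fin.cons 0 (f + g) : Fin (n + 1) → F) x =
        (Fin.cons 0 f : Fin (n + 1) → F) x + (Fin.cons 0 g : Fin (n + 1) → F) x := by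
      intro x; cases x using Fin.cases <;> simp
    ext i
    simp only [h, Pi.add_apply]; ring
  map_smul' c f := by
    have h : ∀ x, (Fin.cons 0 (c • f) : Fin (n + 1) → F) x = c * (Fin.cons 0 f : Fin (n + 1) → F) x := by
      intro x; cases x using Fin.cases <;> simp
    ext i
    simp only [h, Pi.smul_apply, RingHom.id_apply, smul_eq_mul]; ring

theorem L_apply (σ : Equiv.Perm (Fin (n + 1))) (f : Fin n → F) (i : Fin n) :
    L σ f i = (Fin.cons 0 f : Fin (n + 1) → F) (σ⁻¹ i.succ) - (Fin.cons 0 f : Fin (n + 1) → F) (σ⁻¹ 0) := rfl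

theorem cons_L (σ : Equiv.Perm (Fin (n + 1))) (f : Fin n → F) (x : Fin (n + 1)) :
    (Fin.cons 0 (L σ f) : Fin (n + 1) → F) x =
      (Fin.cons 0 f : Fin (n + 1) → F) (σ⁻¹ x) - (Fin.cons 0 f : Fin (n + 1) → F) (σ⁻¹ 0) := by
  cases x using Fin.cases with
  | zero => simp
  | succ i => rw [Fin.cons_succ, L_apply]

/-- The action as a homomorphism. -/
def Lh : Equiv.Perm (Fin (n + 1)) →* Module.End F (Fin n → F) where
  toFun := L
  map_one' := by
    apply LinearMap.ext; intro f; funext i
    rw [L_apply]; simp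
  map_mul' σ τ := by
    apply LinearMap.ext; intro f; funext i
    rw [Module.End.mul_apply, L_apply, L_apply σ, cons_L, cons_L, mul_inv_rev, Equiv.Perm.mul_apply,
      Equiv.Perm.mul_apply]
    ring

/-- The action by matrices. -/
noncomputable def Mh : alternatingGroup (Fin (n + 1)) →* Matrix (Fin n) (Fin n) F :=
  ((LinearMap.toMatrixAlgEquiv' (R := F) (n := Fin n)).toMulEquiv.toMonoidHom.comp Lh).comp
    (alternatingGroup (Fin (n + 1))).subtype

theorem triv {G A : Type*} [Group G] [Group A] (h : commutator G = ⊤) (f : G →* A)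
    (hc : ∀ x y, f x * f y = f y * f x) (g : G) : f g = 1 := by
  have : commutator G ≤ f.ker := by
    rw [commutator_def, Subgroup.commutator_le]
    intro x _ y _
    rw [MonoidHom.mem_ker, map_commutatorElement, commutatorElement_eq_one_iff_mul_comm]
    exact hc x y
  rw [h] at this
  exact this (Subgroup.mem_top g)

/-- Let n ≥ 5 and F a finite field. Then the projective special linear group PSL_n(F) contains a subgroup isomorphic to the alternating group of degree n + 1. -/
theorem result (n : ℕ) (hn : 5 ≤ n) (F : Type*) [Field F] [Finite F] :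
    ∃ f : alternatingGroup (Fin (n + 1)) →* Matrix.ProjectiveSpecialLinearGroup (Fin n) F, Function.Injective f := by
  classical
  have hcard : 5 ≤ Nat.card (Fin (n + 1)) := by simp; omega
  have hp := commutator_alternatingGroup_eq_top hcard
  have hs := alternatingGroup.isSimpleGroup hcard
  have hdet : ∀ g, (Mh (F := F) (n := n) g).det = 1 := by
    intro g
    have := triv hp (Matrix.detMonoidHom.comp (Mh (F := F) (n := n))).toHomUnits
      (fun x y => mul_comm _ _) g
    exact congrArg Units.val this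
  let ρ : alternatingGroup (Fin (n + 1)) →* Matrix.SpecialLinearGroup (Fin n) F :=
    { toFun := fun g => ⟨Mh g, hdet g⟩
      map_one' := Subtype.ext (map_one _)
      map_mul' := fun x y => Subtype.ext (map_mul _ x y) }
  refine ⟨(QuotientGroup.mk' _).comp ρ, ?_⟩
  rw [← MonoidHom.ker_eq_bot_iff]
  refine (Subgroup.Normal.eq_bot_or_eq_top inferInstance).resolve_right fun h => ?_
  have hz : ∀ g, ρ g ∈ Subgroup.center (Matrix.SpecialLinearGroup (Fin n) F) := by
    intro g
    have : g ∈ ((QuotientGroup.mk' (Subgroup.center (Matrix.SpecialLinearGroup (Fin n) F))).comp ρ).ker := by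
      rw [h]; trivial
    exact (QuotientGroup.eq_one_iff _).1 this
  have h1 := triv hp ρ (fun x y => Subgroup.mem_center_iff.1 (hz y) _)
  let i0 : Fin n := ⟨0, by omega⟩
  let i1 : Fin n := ⟨1, by omega⟩
  let i2 : Fin n := ⟨2, by omega⟩
  have h01 : i0.succ ≠ i1.succ := by simp [i0, i1, Fin.ext_iff]
  have h02 : i0.succ ≠ i2.succ := by simp [i0, i2, Fin.ext_iff]
  have h12 : i1.succ ≠ i2.succ := by simp [i1, i2, Fin.ext_iff]
  let σ : Equiv.Perm (Fin (n + 1)) := Equiv.swap i0.succ i1.succ * Equiv.swap i0.succ i2.succ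
  have hσ : σ⁻¹ ∈ alternatingGroup (Fin (n + 1)) := by
    apply Subgroup.inv_mem
    rw [Equiv.Perm.mem_alternatingGroup]
    simp [σ, Equiv.Perm.sign_swap h01, Equiv.Perm.sign_swap h02]
  have h2 : Mh (F := F) ⟨σ⁻¹, hσ⟩ = 1 := congrArg Subtype.val (h1 ⟨σ⁻¹, hσ⟩)
  have h3 : L (F := F) σ⁻¹ = 1 := by
    apply (LinearMap.toMatrixAlgEquiv' (R := F) (n := Fin n)).injective
    rw [map_one]; exact h2
  have h4 := L_apply (F := F) σ⁻¹ (Pi.single i0 1) i0
  have e1 : σ i0.succ = i2.succ := by
    simp only [σ, Equiv.Perm.mul_apply, Equiv.swap_apply_left]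
    exact Equiv.swap_apply_of_ne_of_ne h02.symm h12.symm
  have e2 : σ 0 = 0 := by
    simp only [σ, Equiv.Perm.mul_apply]
    rw [Equiv.swap_apply_of_ne_of_ne (Fin.succ_ne_zero _).symm (Fin.succ_ne_zero _).symm,
      Equiv.swap_apply_of_ne_of_ne (Fin.succ_ne_zero _).symm (Fin.succ_ne_zero _).symm]
  have e3 : i2 ≠ i0 := fun e => h02 (by rw [e])
  rw [h3, inv_inv, e1, e2] at h4
  simp [Pi.single_eq_of_ne e3] at h4

end Cfsg.Agent.S4156
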