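import Cfsg.Statements.S4168
import Cfsg.Agent.H14.PElem

set_option autoImplicit false
open Cfsg

namespace Cfsg.Agent.S4168

/-- Let L be a finite quasisimple group (perfect with L/Z(L) simple). Then every prime dividing the order of the centre Z(L) also divides the order of L/Z(L). -/
theorem result {L : Type*} [Group L] [Finite L] (hL : Cfsg.IsQuasisimple L)
    (p : ℕ) (hp : p.Prime) (hdiv : p ∣ Nat.card (Subgroup.center L)) : p ∣ (Subgroup.center L).index := by
  have : Fact p.Prime := ⟨hp⟩
  have := hL.1
  by_contra hd
  obtain ⟨P⟩ : Nonempty (Sylow p L) := inferInstance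
  have h1 : (P : Subgroup L) ≤ Subgroup.center L := by
    refine (H14.le_pec P.isPGroup' le_top).trans (H14.pec_le_of_coprime_relIndex ?_ ?_)
    · rw [Subgroup.normalizer_eq_top]
    · rw [Subgroup.relIndex_top_right]
      exact ((Nat.Prime.coprime_iff_not_dvd hp).mpr hd).symm
  have h2 := H14.sylow_eq_bot_of_le_center P h1
  exact P.ne_bot_of_dvd_card (hdiv.trans (Subgroup.card_subgroup_dvd_card _)) h2

end Cfsg.Agent.S4168
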