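import Cfsg.Statements.S4170
import Cfsg.Agent.Base
import Cfsg.Agent.H46.Hall

set_option autoImplicit false
open scoped Pointwise
open Cfsg

namespace Cfsg.Agent.S4170

/-- Let p be an odd prime and G a nontrivial group of permutations of a finite set Ω that is generated by its elements of p-power order. Then Ω has two disjoint nonempty subsets Δ₁ and Δ₂ such that the index in G of the subgroup of elements mapping Δ₁ onto Δ₁ and Δ₂ onto Δ₂ (and hence also the complement of their union onto itself) is divisible by p. -/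
theorem result {Ω : Type*} [Fintype Ω] (p : ℕ) [Fact p.Prime] (hp : p ≠ 2) (G : Subgroup (Equiv.Perm Ω)) (hG : G ≠ ⊥) (hgen : Subgroup.closure {g : G | ∃ k : ℕ, orderOf g = p ^ k} = ⊤) :
    ∃ Δ₁ Δ₂ : Set Ω, Δ₁.Nonempty ∧ Δ₂.Nonempty ∧ Disjoint Δ₁ Δ₂ ∧ p ∣ (MulAction.stabilizer G Δ₁ ⊓ MulAction.stabilizer G Δ₂).index := by
  open H46 MulAction in
  have hp' : p.Prime := Fact.out
  obtain ⟨P₀, hP₀⟩ := exists_sylow hp' (⊤ : Subgroup G)
  obtain ⟨Y, -, ⟨P, hP, hY⟩, hmax⟩ := Finite.exists_le_maximal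
    (p := fun Y : Set Ω => ∃ P : Subgroup G, IsSylowOf p P ⊤ ∧ fixedPoints P Ω = Y) ⟨P₀, hP₀, rfl⟩
  have mY : ∀ (Q : Subgroup G) (a : Ω), a ∈ fixedPoints Q Ω ↔ ∀ g ∈ Q, g • a = a := fun Q a =>
    ⟨fun h g hg => h ⟨g, hg⟩, fun h g => h g g.2⟩
  have P1 : P ≠ ⊥ := fun e => hG (by
    have h1 : Subgroup.closure {g : G | ∃ k : ℕ, orderOf g = p ^ k} ≤ ⊥ :=
      (Subgroup.closure_le _).2 fun g ⟨k, hk⟩ => by
        have := hP.mem_of_normal (by rw [e]; simp) (x := g) (hk ▸ pnat_singleton_pow hp' k :) trivial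
        rwa [e] at this
    rw [hgen] at h1
    exact (Subgroup.eq_bot_iff_forall _).2 fun g hg =>
      congrArg Subtype.val (Subgroup.mem_bot.1 (h1 (Subgroup.mem_top (⟨g, hg⟩ : G)))))
  obtain ⟨g, hg, g1⟩ := exists_ne_one_of_ne_bot P1
  obtain ⟨a, ha⟩ : ∃ a : Ω, g • a ≠ a := by
    by_contra! h
    exact g1 (Subtype.ext (Equiv.ext h))
  have aY : a ∉ Y := fun h => ha ((mY P a).1 (hY ▸ h) g hg)
  refine ⟨{a}, Yᶜ \ {a}, Set.singleton_nonempty a, ⟨g • a, fun h => ha ?_, ha⟩, Set.disjoint_sdiff_right, ?_⟩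
  · have := (mY P _).1 (hY ▸ h) g hg
    exact smul_left_cancel g this
  by_contra hd
  obtain ⟨Q, hQ⟩ := exists_sylow hp' (stabilizer G ({a} : Set Ω) ⊓ stabilizer G (Yᶜ \ {a}))
  have hQ' : IsSylowOf p Q ⊤ :=
    hQ.trans_idx le_top (by rw [Subgroup.relIndex_top_right]; exact (pnat_compl_singleton hp').2 hd)
  have QN : Q ≤ stabilizer G Y := fun x hx => by
    have h1 : x • ({a} : Set Ω) = {a} := (hQ.le hx).1
    have h2 : x • (Yᶜ \ {a}) = Yᶜ \ {a} := (hQ.le hx).2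
    have e : Y = ({a} ∪ (Yᶜ \ {a}))ᶜ := by
      rw [Set.union_sdiff_cancel (Set.singleton_subset_iff.2 aY), compl_compl]
    rw [mem_stabilizer_iff, e, Set.smul_set_compl, Set.smul_set_union, h1, h2]
  have PN : P ≤ stabilizer G Y := fun x hx => by
    rw [mem_stabilizer_iff]
    ext y
    rw [Set.mem_smul_set_iff_inv_smul_mem]
    refine ⟨fun h => ?_, fun h => by rwa [(mY P y).1 (hY ▸ h) _ (inv_mem hx)]⟩
    have := (mY P _).1 (hY ▸ h) x hx
    rw [smul_inv_smul] at this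
    rwa [this]
  obtain ⟨n, hn, e⟩ := sylow_trans hp' (hP.of_le PN le_top) (hQ'.of_le QN le_top)
  have hle : Y ≤ fixedPoints Q Ω := fun y hy => (mY Q y).2 fun x hx => by
    have h1 : n⁻¹ • y ∈ Y := by rw [← Set.mem_smul_set_iff_inv_smul_mem, mem_stabilizer_iff.1 hn]; exact hy
    have h2 := (mY P _).1 (hY ▸ h1) _ (mem_cj.1 (e ▸ hx))
    rw [mul_smul, mul_smul, smul_inv_smul] at h2
    exact smul_left_cancel _ h2
  refine aY (hmax ⟨Q, hQ', rfl⟩ hle ((mY Q a).2 fun x hx => ?_))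
  have h1 : x • ({a} : Set Ω) = {a} := (hQ.le hx).1
  rwa [Set.smul_set_singleton, Set.singleton_eq_singleton_iff] at h1

end Cfsg.Agent.S4170
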