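import Cfsg.Statements.S4176
import Cfsg.Agent.H94.SwOrb
import Cfsg.Agent.H18.PiHall

set_option autoImplicit false
open Cfsg

namespace Cfsg.Agent.S4176

/-- Let k be a field of prime characteristic p, H a finite p-soluble group and ρ a k-linear representation of H on V. Let a be a vector that is fixed by some Sylow p-subgroup of H and whose H-orbit spans V. Then the space of H-fixed vectors has dimension at most 1, and every vector b whose H-orbit has size coprime to the size of the orbit of a is fixed by H. -/
theorem result {k V H : Type*} [Field k] (p : ℕ) [Fact p.Prime] [CharP k p] [AddCommGroup V] [Module k V]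
    [Group H] [Finite H] (hsol : Cfsg.IsPSolvable p H) (ρ : Representation k H V) (a : V)
    (hfix : ∃ P : Sylow p H, ∀ x : H, x ∈ (P : Subgroup H) → ρ x a = a)
    (hspan : Submodule.span k {u : V | ∃ h : H, ρ h a = u} = ⊤) :
    Module.finrank k ρ.invariants ≤ 1 ∧
    ∀ b : V, (Nat.card {u : V | ∃ h : H, ρ h a = u}).Coprime (Nat.card {u : V | ∃ h : H, ρ h b = u}) → ∀ h : H, ρ h b = b := by
  refine H94.Sw.orbit_main ρ a hspan fun B hB => ?_
  obtain ⟨P, hP⟩ := hfix
  obtain ⟨L, hL, -⟩ := H18.exists_pComplement (H18.isPSolvable_subgroup hsol B)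
  obtain ⟨h1, n, h2⟩ := H18.isPiHall_compl_singleton_iff.1 hL
  have hp : p.Prime := Fact.out
  refine ⟨L.map B.subtype, Subgroup.map_subtype_le L, ?_, ?_⟩
  · rw [Subgroup.card_subtype, Ne, CharP.cast_eq_zero_iff k p]
    exact hp.coprime_iff_not_dvd.1 h1.symm
  · rw [Subgroup.index_map_subtype, h2]
    refine Nat.Coprime.mul_left (Nat.Coprime.pow_left _ (hp.coprime_iff_not_dvd.2 fun h => ?_)) hB
    exact P.not_dvd_index (h.trans (Subgroup.index_dvd_of_le fun x hx => hP x hx))

end Cfsg.Agent.S4176
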