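import Cfsg.Statements.S4178
import Cfsg.Agent.Base

set_option autoImplicit false
open Cfsg

namespace Cfsg.Agent.S4178

theorem idx {H X : Type*} [Group H] [Finite X] (R : Subgroup H) (f : H → X) (x : X)
    (hf : ∀ h, f h ≠ x) (hR : ∀ a b, f a = f b → a⁻¹ * b ∈ R) : R.index + 1 ≤ Nat.card X := by
  classical
  let g : Option (H ⧸ R) → X := fun c => c.elim x (fun c => f c.out)
  have hg : Function.Injective g := by
    rintro (_ | a) (_ | b) h
    · rfl
    · exact absurd h.symm (hf _)
    · exact absurd h (hf _)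
    · have := hR _ _ h
      rw [← QuotientGroup.eq, QuotientGroup.out_eq', QuotientGroup.out_eq'] at this
      rw [this]
  have : Finite (Option (H ⧸ R)) := Finite.of_injective g hg
  have : Finite (H ⧸ R) := Finite.of_injective (some : H ⧸ R → _) (Option.some_injective _)
  have := Nat.card_le_card_of_injective g hg
  rwa [Finite.card_option] at this

/-- Let F be a finite field with q elements, V a non-zero finite-dimensional F-space of dimension d, H a group of invertible linear maps of V, and R the subgroup of H generated by the elements of H that fix some non-zero vector (have eigenvalue 1). Then the index of R in H is at most q^d − 1; and if H leaves invariant some proper non-zero subspace, the index is at most q^(d/2) − 1. -/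
theorem result {F V : Type*} [Field F] [Fintype F] [AddCommGroup V] [Module F V] [FiniteDimensional F V] [Nontrivial V]
    (H : Subgroup (V ≃ₗ[F] V)) :
    (Subgroup.closure {h : ↥H | ∃ v : V, v ≠ 0 ∧ (h : V ≃ₗ[F] V) v = v}).index ≤ Fintype.card F ^ Module.finrank F V - 1 ∧
    ((∃ W : Submodule F V, W ≠ ⊥ ∧ W ≠ ⊤ ∧ ∀ h ∈ H, ∀ w ∈ W, h w ∈ W) →
      ((Subgroup.closure {h : ↥H | ∃ v : V, v ≠ 0 ∧ (h : V ≃ₗ[F] V) v = v}).index : ℝ) ≤ Real.sqrt ((Fintype.card F : ℝ) ^ Module.finrank F V) - 1) := by
  classical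
  have : Finite V := Module.finite_of_finite F
  set R := Subgroup.closure {h : ↥H | ∃ v : V, v ≠ 0 ∧ (h : V ≃ₗ[F] V) v = v} with hRdef
  have key : ∀ (a b : H) (v : V), v ≠ 0 → (a : V ≃ₗ[F] V) v = (b : V ≃ₗ[F] V) v → a⁻¹ * b ∈ R := by
    intro a b v hv h
    refine Subgroup.subset_closure ⟨v, hv, ?_⟩
    show (a : V ≃ₗ[F] V).symm ((b : V ≃ₗ[F] V) v) = v
    rw [← h]; simp
  have cardV : Nat.card V = Fintype.card F ^ Module.finrank F V := by
    rw [Module.natCard_eq_pow_finrank (K := F), Nat.card_eq_fintype_card]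
  refine ⟨?_, ?_⟩
  · obtain ⟨v, hv⟩ := exists_ne (0 : V)
    have := idx R (fun h : H => (h : V ≃ₗ[F] V) v) 0 (fun h => by simpa using hv)
      (fun a b h => key a b v hv h)
    rw [cardV] at this
    omega
  · rintro ⟨W, hb, ht, hW⟩
    obtain ⟨w, hwW, hw⟩ := (Submodule.ne_bot_iff W).1 hb
    have h1 := idx R (fun h : H => (⟨(h : V ≃ₗ[F] V) w, hW _ h.2 w hwW⟩ : W)) 0
      (fun h e => hw (by simpa using congrArg Subtype.val e))
      (fun a b h => key a b w hw (congrArg Subtype.val h))
    obtain ⟨v, hv⟩ : ∃ v, v ∉ W := by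
      by_contra hh
      push Not at hh
      exact ht (eq_top_iff.2 fun v _ => hh v)
    have : Finite (V ⧸ W) := Finite.of_surjective _ W.mkQ_surjective
    have h2 := idx R (fun h : H => W.mkQ ((h : V ≃ₗ[F] V) v)) 0
      (fun h e => by
        rw [Submodule.mkQ_apply, Submodule.Quotient.mk_eq_zero] at e
        have := hW _ (h⁻¹).2 _ e
        apply hv
        have e2 : ((h⁻¹ : H) : V ≃ₗ[F] V) ((h : V ≃ₗ[F] V) v) = v :=
          (h : V ≃ₗ[F] V).symm_apply_apply v
        rwa [e2] at this)
      (fun a b h => by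
        simp only [Submodule.mkQ_apply, Submodule.Quotient.eq] at h
        set c : H := a⁻¹ * b with hc
        have hcv : (c : V ≃ₗ[F] V) v - v ∈ W := by
          have := hW _ (a⁻¹).2 _ (W.neg_mem h)
          have e2 : ((a⁻¹ : H) : V ≃ₗ[F] V) ((a : V ≃ₗ[F] V) v) = v :=
            (a : V ≃ₗ[F] V).symm_apply_apply v
          rw [neg_sub, map_sub, e2] at this
          exact this
        by_contra hcR
        have hinj : ∀ u : V, (c : V ≃ₗ[F] V) u = u → u = 0 := by
          intro u hu
          by_contra h0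
          exact hcR (Subgroup.subset_closure ⟨u, h0, hu⟩)
        let φ : W → W := fun u => ⟨(c : V ≃ₗ[F] V) u - u, W.sub_mem (hW _ c.2 _ u.2) u.2⟩
        have hφ : Function.Injective φ := by
          intro u u' e
          have e' : (c : V ≃ₗ[F] V) u - u = (c : V ≃ₗ[F] V) u' - u' := congrArg Subtype.val e
          have := hinj ((u : V) - u') (by rw [map_sub]; exact sub_eq_sub_iff_sub_eq_sub.1 e')
          exact Subtype.ext (sub_eq_zero.1 this)
        obtain ⟨u, hu⟩ := Finite.surjective_of_injective hφ ⟨_, hcv⟩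
        have e' : (c : V ≃ₗ[F] V) u - u = (c : V ≃ₗ[F] V) v - v := congrArg Subtype.val hu
        have := hinj (v - u) (by rw [map_sub]; exact sub_eq_sub_iff_sub_eq_sub.1 e'.symm)
        rw [sub_eq_zero] at this
        exact hv (this ▸ u.2))
    have h3 : Nat.card V = Nat.card W * Nat.card (V ⧸ W) := by
      rw [Submodule.card_eq_card_quotient_mul_card W]
    have h4 : (R.index + 1) ^ 2 ≤ Fintype.card F ^ Module.finrank F V := by
      rw [← cardV, h3, sq]; exact Nat.mul_le_mul h1 h2
    have h5 : ((R.index : ℝ) + 1) ^ 2 ≤ (Fintype.card F : ℝ) ^ Module.finrank F V := by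
      exact_mod_cast h4
    have := Real.le_sqrt_of_sq_le h5
    linarith

end Cfsg.Agent.S4178
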