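import Cfsg.Statements.S4186
import Cfsg.Agent.Base

set_option autoImplicit false
open Cfsg

namespace Cfsg.Agent.S4186

/-- Let T and X be subgroups of a group with T a finite 2-group normalizing X but not centralizing it. Then some element of T inverts some non-identity element of X under conjugation. -/
theorem result {G : Type*} [Group G] (T X : Subgroup G) [Finite ↥T] (hT : IsPGroup 2 ↥T) (hTN : T ≤ Subgroup.normalizer (X : Set G)) (hTC : ¬ T ≤ Subgroup.centralizer (X : Set G)) : ∃ t ∈ T, ∃ x ∈ X, x ≠ 1 ∧ t * x * t⁻¹ = x⁻¹ := by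
  classical
  obtain ⟨t, ht, htc⟩ := SetLike.not_le_iff_exists.mp hTC
  obtain ⟨k, hk⟩ := hT ⟨t, ht⟩
  have hk' : t ^ 2 ^ k ∈ Subgroup.centralizer (X : Set G) := by
    rw [show t ^ 2 ^ k = 1 from congrArg Subtype.val hk]; exact one_mem _
  have hex : ∃ k, t ^ 2 ^ k ∈ Subgroup.centralizer (X : Set G) := ⟨k, hk'⟩
  have h0 : Nat.find hex ≠ 0 := fun h => htc (by simpa [h] using Nat.find_spec hex)
  obtain ⟨j, hj⟩ := Nat.exists_eq_succ_of_ne_zero h0
  have h1 := Nat.find_spec hex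
  have h2 := Nat.find_min hex (m := j) (by omega)
  rw [hj, pow_succ, pow_mul] at h1
  have hs : t ^ 2 ^ j ∈ T := pow_mem ht _
  generalize t ^ 2 ^ j = s at h1 h2 hs
  rw [Subgroup.mem_centralizer_iff] at h1 h2
  push Not at h2
  obtain ⟨y, hy, hys⟩ := h2
  refine ⟨s, hs, y⁻¹ * (s * y * s⁻¹), mul_mem (inv_mem hy)
    ((Subgroup.mem_normalizer_iff.mp (hTN hs) y).mp hy), fun h => hys ?_, ?_⟩
  · rw [inv_mul_eq_one, eq_mul_inv_iff_mul_eq] at h
    exact h
  · have h3 := h1 y hy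
    rw [pow_two] at h3
    calc s * (y⁻¹ * (s * y * s⁻¹)) * s⁻¹ = s * y⁻¹ * s⁻¹ * (s * s * y) * s⁻¹ * s⁻¹ := by group
      _ = _ := by rw [← h3]; group

end Cfsg.Agent.S4186
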