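import Cfsg.Statements.S4188
import Cfsg.Agent.Base
import Cfsg.Agent.H33.Rank2

set_option autoImplicit false
open Cfsg

namespace Cfsg.Agent.S4188

/-- Let G be a finite group that is the semidirect product of a normal abelian subgroup N of odd order by a 2-subgroup P, and suppose N is the unique minimal normal subgroup of G. Then the index of the Frattini subgroup of P in P is at most #N − 1. -/
theorem result {G : Type*} [Group G] [Finite G] (N P : Subgroup G) (hN : N.Normal) (hNab : IsMulCommutative ↥N) (hNodd : Odd (Nat.card ↥N)) (hP : IsPGroup 2 ↥P) (hdisj : N ⊓ P = ⊥) (hprod : N ⊔ P = ⊤) (hmin : N ≠ ⊥ ∧ ∀ M : Subgroup G, M.Normal → M ≠ ⊥ → N ≤ M) : (frattini ↥P).index ≤ Nat.card ↥N - 1 := by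
  have hC : (Subgroup.centralizer (N : Set G)).Normal := inferInstance
  have hD : (P ⊓ Subgroup.centralizer (N : Set G)).Normal := by
    rw [← Subgroup.normalizer_eq_top_iff, eq_top_iff, ← hprod]
    refine sup_le (fun n hn => Subgroup.mem_normalizer_iff.2 fun x => ?_) fun n hn =>
      Subgroup.mem_normalizer_iff.2 fun x => ?_
    · refine ⟨fun hx => ?_, fun hx => ?_⟩
      · rw [hx.2 n hn, mul_inv_cancel_right]; exact hx
      · have h1 := hx.2 n hn
        have h2 : n * x * n⁻¹ = x := by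
          rw [inv_mul_cancel_right] at h1
          exact mul_left_cancel h1
        rwa [h2] at hx
    · refine ⟨fun hx => ⟨P.mul_mem (P.mul_mem hn hx.1) (P.inv_mem hn), hC.conj_mem _ hx.2 n⟩, fun hx => ?_⟩
      have e : x = n⁻¹ * (n * x * n⁻¹) * n⁻¹⁻¹ := by group
      rw [e]
      exact ⟨P.mul_mem (P.mul_mem (P.inv_mem hn) hx.1) (P.inv_mem (P.inv_mem hn)), hC.conj_mem _ hx.2 _⟩
  have hb : P ⊓ Subgroup.centralizer (N : Set G) = ⊥ := by
    by_contra h
    exact hmin.1 (by rw [← hdisj]; exact (inf_eq_left.2 ((hmin.2 _ hD h).trans inf_le_left)).symm)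
  have := H33.R2.main _ N rfl hNodd (fun a ha b hb => congrArg Subtype.val
    (hNab.is_comm.comm ⟨a, ha⟩ ⟨b, hb⟩)) P ((frattini P).map P.subtype) hP
    (by rw [Subgroup.normalizer_eq_top_iff.2 hN]; exact le_top) (Subgroup.map_subtype_le _)
    (fun x hx => ⟨⟨x, hx⟩ ^ 2, H3.pow_mem_frattini_pgroup hP _, by simp [pow_two]⟩)
    (by rw [hb]; exact bot_le)
  rw [H46.relIndex_map_subtype] at this
  have h1 : Nat.card N ≠ 1 := fun e => hmin.1 (Subgroup.card_eq_one.1 e)
  obtain ⟨k, hk⟩ := hNodd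
  have := this.1
  omega

end Cfsg.Agent.S4188
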