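import Cfsg.Statements.S4195
import Cfsg.Agent.Base
import Cfsg.Agent.H28.ConjCount

set_option autoImplicit false
open Cfsg

namespace Cfsg.Agent.S4195

/-- Let x be a non-identity element of a finite group G whose centralizer contains a Sylow 2-subgroup of G. If x is conjugate to its inverse, then x has order 2. -/
theorem result {G : Type*} [Group G] [Finite G] (x : G) (hx : x ≠ 1) (P : Sylow 2 G) (hP : (P : Subgroup G) ≤ Subgroup.centralizer ({x} : Set G)) (hreal : IsConj x x⁻¹) : orderOf x = 2 := by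
  classical
  have := Fintype.ofFinite {y // IsConj x y}
  have hinv : ∀ y, IsConj x y → IsConj x y⁻¹ := fun y hy => by
    obtain ⟨c, rfl⟩ := isConj_iff.mp hy
    exact hreal.trans (isConj_iff.mpr ⟨c, by group⟩)
  let σ : Equiv.Perm {y // IsConj x y} :=
    Function.Involutive.toPerm (fun y => ⟨y.1⁻¹, hinv y.1 y.2⟩) fun y => Subtype.ext (inv_inv _)
  obtain ⟨y, hy⟩ := Equiv.Perm.exists_fixed_point_of_prime (p := 2) (n := 1) (σ := σ) (by
    rw [← Nat.card_eq_fintype_card, H28.card_isConj_eq_index]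
    exact fun h => P.not_dvd_index (h.trans (Subgroup.index_dvd_of_le hP)))
    (Equiv.ext fun y => Subtype.ext (inv_inv _))
  obtain ⟨c, hc⟩ := isConj_iff.mp y.2
  have h1 : (y : G)⁻¹ = y := congrArg Subtype.val hy
  refine orderOf_eq_prime ?_ hx
  rw [← hc] at h1
  have h2 : x⁻¹ = x := by
    calc x⁻¹ = c⁻¹ * (c * x * c⁻¹)⁻¹ * c := by group
      _ = x := by rw [h1]; group
  rw [pow_two]
  nth_rewrite 1 [← h2]
  exact inv_mul_cancel x

end Cfsg.Agent.S4195
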