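import Cfsg.Statements.S4196
import Cfsg.Agent.Base
import Cfsg.Agent.S4195

set_option autoImplicit false
open Cfsg

namespace Cfsg.Agent.S4196

/-- A finite group G has elementary abelian Sylow 2-subgroups (commutative with every element squaring to the identity) if and only if every 2-element of G has a Sylow 2-subgroup in its centralizer and is conjugate to its inverse. -/
theorem result {G : Type*} [Group G] [Finite G] (P : Sylow 2 G) :
    (IsMulCommutative (P : Subgroup G) ∧ ∀ x ∈ (P : Subgroup G), x ^ 2 = 1) ↔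
      ∀ x : G, (∃ k : ℕ, orderOf x = 2 ^ k) → (∃ Q : Sylow 2 G, (Q : Subgroup G) ≤ Subgroup.centralizer ({x} : Set G)) ∧ IsConj x x⁻¹ := by
  constructor
  · rintro ⟨hc, h2⟩ x ⟨k, hk⟩
    obtain ⟨Q, hQ⟩ := (IsPGroup.of_card (G := Subgroup.zpowers x)
      (by rw [Nat.card_zpowers, hk])).exists_le_sylow
    have hx : x ∈ (Q : Subgroup G) := hQ (Subgroup.mem_zpowers x)
    let e := Sylow.equiv Q P
    refine ⟨⟨Q, fun y hy => Subgroup.mem_centralizer_singleton_iff.mpr ?_⟩, ?_⟩
    · have h3 : (⟨y, hy⟩ : (Q : Subgroup G)) * ⟨x, hx⟩ = ⟨x, hx⟩ * ⟨y, hy⟩ :=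
        e.injective (by rw [map_mul, map_mul]; exact hc.is_comm.comm _ _)
      exact congrArg Subtype.val h3
    · have h3 : (⟨x, hx⟩ : (Q : Subgroup G)) ^ 2 = 1 :=
        e.injective (by rw [map_pow, map_one]; exact Subtype.ext (h2 _ (e ⟨x, hx⟩).2))
      have h4 : x * x = 1 := by rw [← pow_two]; exact congrArg Subtype.val h3
      rw [← eq_inv_of_mul_eq_one_left h4]
  · intro h
    have h2 : ∀ x ∈ (P : Subgroup G), x ^ 2 = 1 := fun x hx => by
      by_cases h1 : x = 1
      · rw [h1, one_pow]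
      obtain ⟨k, hk⟩ := IsPGroup.iff_orderOf.mp P.2 ⟨x, hx⟩
      obtain ⟨⟨Q, hQ⟩, h3⟩ := h x ⟨k, by rw [← hk, Subgroup.orderOf_mk]⟩
      rw [← Cfsg.Agent.S4195.result x h1 Q hQ h3, pow_orderOf_eq_one]
    refine ⟨⟨⟨fun a b => Subtype.ext ?_⟩⟩, h2⟩
    have ha := h2 a a.2
    have hb := h2 b b.2
    have hab := h2 _ (a * b).2
    rw [pow_two] at ha hb hab
    change (a : G) * b * (a * b) = 1 at hab
    change (a : G) * b = b * a
    rw [eq_inv_of_mul_eq_one_left hab, mul_inv_rev, ← eq_inv_of_mul_eq_one_left ha,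
      ← eq_inv_of_mul_eq_one_left hb]

end Cfsg.Agent.S4196
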