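import Cfsg.Statements.S4202
import Cfsg.Agent.H2.KpCore
import Cfsg.Agent.H2.KpNA
import Cfsg.Agent.H7.KpGeoC
import Cfsg.Agent.H92.KpCJ
import Cfsg.Agent.H51.KpGA
import Cfsg.Agent.H28.KpHalf0
import Cfsg.Agent.H3.KpPA
import Cfsg.Agent.H79.KpMkS
import Cfsg.Agent.H44.KpPeel
import Cfsg.Agent.H72.KpAlt
import Cfsg.Agent.H9.KpCT
import Cfsg.Agent.H8.KpKB
import Cfsg.Agent.H84.KpPC
import Cfsg.Agent.H77.KpQQ
import Cfsg.Agent.H22.KpGeoA
import Cfsg.Agent.H91.KpRed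
import Cfsg.Agent.H31.KpGeo
import Cfsg.Agent.H13.KPPO1
import Cfsg.Agent.H55.KpStep
import Cfsg.Agent.H87.KpB3
import Cfsg.Agent.H15.KPHalfB
import Cfsg.Agent.H42.KpRec
import Cfsg.Agent.H80.KpTY
import Cfsg.Agent.H73.KpTop
import Cfsg.Agent.H18.KpTwo
import Cfsg.Agent.H93.KpGeoB
import Cfsg.Agent.H19.KpNB

set_option autoImplicit false
open Cfsg

namespace Cfsg.Agent.S4202

/-- Let S be a permutation group on a finite set with n ≥ 3 elements (a subgroup of its symmetric group) whose order is not divisible by p, where p is one of 3, 5, 7. Then the number k(S) of conjugacy classes of S satisfies k(S)² ≤ 3^(n−1), that is k(S) ≤ √3^(n−1). -/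
theorem result {α : Type*} [Fintype α] [DecidableEq α] (S : Subgroup (Equiv.Perm α)) (hn : 3 ≤ Fintype.card α) (p : ℕ) (hp : p = 3 ∨ p = 5 ∨ p = 7) (hcop : ¬ p ∣ Nat.card S) : Nat.card (ConjClasses S) ^ 2 ≤ 3 ^ (Fintype.card α - 1) := by
    have kb := H8.KpKB.jobKB
    have lk := H8.KpKB.jobLamK kb
    have ga := H51.Kp.jobGA
    have pe := H44.KpPeel.jobPeel
    have b3 := H87.KpB3.jobB3 pe
    have pc := H84.KpPC.jobPC H3.Kp.jobPA
    have top := H73.KpT.jobTOP kb H80.KpTY.jobTY pc (H84.KpPC.jobPO H3.Kp.jobPA)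
      (H13.KPO.jobPO1 H3.Kp.jobPA2)
    have core := H2.Kp.jobCore lk (H42.KpRec.jobRec pe b3) top (H72.KpA.jobAlt kb lk pe pc top)
      (H31.KpGeo.jobGeo H31.KpGeo.jobJL (H22.KpG.jobGeoA H31.KpGeo.jobJL) H93.Kp.jobGeoB
        H7.KpGeoC.jobGeoC) H7.KpGeoC.jobDeg H2.Kp.jobNA
      (H19.KpNB.jobNB H51.Kp.jobCF H92.KpCJ.jobCJ4 H92.KpCJ.jobCJ3 H9.KpCT.jobCT)
    have qq := H77.KpQQ.jobQQ H77.KpQQ.jobPrm H79.KpMkS.jobMkS core
    have h0 := H28.KpH.jobHalf0 kb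
    exact H2.Kp.main kb ga (H55.KpStep.jobStep ga (H91.KpRed.jobIntr ga lk pe)
      (H91.KpRed.jobBlk3 ga lk pe b3) (H55.KpStep.jobHalfA kb ga h0 qq)
      (H15.KP.jobHalfB kb ga (H18.KpTwo.jobTwo kb) h0) qq) S hn p hp hcop

end Cfsg.Agent.S4202
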