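import Cfsg.Statements.S4213
import Cfsg.Agent.Base
import Cfsg.Agent.H23.Frobenius
import Cfsg.Agent.H1.Cocycle

set_option autoImplicit false
open Cfsg

namespace Cfsg.Agent.S4213

universe u

theorem lift {G : Type u} [Group G] (K : Subgroup G) [hK : K.Normal] (m : ℕ) (H : Subgroup K)
    (hH : (H : Set K) = {x : K | x ^ m = 1}) :
    (H.map K.subtype).Normal ∧ ∀ x, x ∈ H.map K.subtype ↔ x ∈ K ∧ x ^ m = 1 := by
  have h2 : ∀ x, x ∈ H.map K.subtype ↔ x ∈ K ∧ x ^ m = 1 := by
    intro x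
    constructor
    · rintro ⟨y, hy, rfl⟩
      rw [hH] at hy
      exact ⟨y.2, congrArg Subtype.val hy⟩
    · rintro ⟨h1, h2⟩
      refine ⟨⟨x, h1⟩, ?_, rfl⟩
      rw [hH]; exact Subtype.ext h2
  refine ⟨⟨fun x hx g => ?_⟩, h2⟩
  rw [h2] at hx ⊢
  exact ⟨hK.conj_mem _ hx.1 g, by rw [conj_pow, hx.2]; simp⟩

theorem cardK {G : Type u} [Group G] (K : Subgroup G) (m : ℕ) :
    Nat.card {x : K // x ^ m = 1} = Nat.card {x : G // (1 : G)⁻¹ * x ∈ K ∧ x ^ m = 1} := by
  refine Nat.card_congr ⟨fun x => ⟨x.1.1, by simp, congrArg Subtype.val x.2⟩,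
    fun x => ⟨⟨x.1, by simpa using x.2.1⟩, Subtype.ext x.2.2⟩, fun _ => rfl, fun _ => rfl⟩

theorem aux (c : ℕ) : ∀ (G : Type u) [Group G] [Finite G] [Group.IsSolvable G], Nat.card G = c →
    ∀ n : ℕ, n ∣ Nat.card G → Nat.card {x : G // x ^ n = 1} = n →
      ∃ H : Subgroup G, H.Normal ∧ (H : Set G) = {x : G | x ^ n = 1} := by
  induction c using Nat.strong_induction_on with
  | _ c ih =>
  intro G _ _ _ hc n hn hcount
  classical
  rcases subsingleton_or_nontrivial G with hG | hG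
  · exact ⟨⊤, inferInstance, Set.ext fun x => iff_of_true trivial (Subsingleton.elim _ _)⟩
  obtain ⟨K, hKn, hp⟩ := H1.exists_normal_prime_index G
  set p := K.index with hpdef
  have hGK : Nat.card K * p = Nat.card G := K.card_mul_index
  have hKlt : Nat.card K < c := by
    have := hp.one_lt
    have h2 : 0 < Nat.card K := Nat.card_pos
    rw [← hc, ← hGK]; nlinarith
  have hn0 : 0 < n := Nat.pos_of_dvd_of_pos hn Nat.card_pos
  have hsub : ∀ y : G, Nat.card {x : G // y⁻¹ * x ∈ K ∧ x ^ n = 1} =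
      ({x : G | y⁻¹ * x ∈ K ∧ x ^ n = 1} : Set G).ncard := fun y => rfl
  have hS : ({x : G | x ^ n = 1} : Set G).ncard = n := hcount
  by_cases hnK : n ∣ Nat.card K
  · have h1 := H23.gcd_dvd_card_pow_eq_one_coset K n 1
    rw [Nat.gcd_eq_left hnK, hsub] at h1
    have hss : ({x : G | (1 : G)⁻¹ * x ∈ K ∧ x ^ n = 1} : Set G) ⊆ {x | x ^ n = 1} :=
      fun x hx => hx.2
    have hpos : 0 < ({x : G | (1 : G)⁻¹ * x ∈ K ∧ x ^ n = 1} : Set G).ncard :=
      (Set.ncard_pos (Set.toFinite _)).2 ⟨1, by simp⟩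
    have heq := Set.eq_of_subset_of_ncard_le hss (by rw [hS]; exact Nat.le_of_dvd hpos h1)
    obtain ⟨H, -, hH⟩ := ih _ hKlt K rfl n hnK (by rw [cardK, hsub, heq, hS])
    obtain ⟨h3, h4⟩ := lift K n H hH
    refine ⟨_, h3, ?_⟩
    ext x
    rw [SetLike.mem_coe, h4, ← heq]; simp
  · set m := n.gcd (Nat.card K) with hm
    have hm0 : 0 < m := Nat.gcd_pos_of_pos_left _ hn0
    have hnm : n = m * p := by
      obtain ⟨d, hd⟩ : m ∣ n := Nat.gcd_dvd_left _ _
      have h1 : n ∣ m * p := by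
        rw [hm, ← Nat.gcd_mul_right]
        exact Nat.dvd_gcd (Dvd.intro _ rfl) (hGK ▸ hn)
      have h2 : d ∣ p := by
        rw [hd] at h1
        exact Nat.dvd_of_mul_dvd_mul_left hm0 h1
      rcases (Nat.dvd_prime hp).1 h2 with h | h
      · exfalso
        apply hnK
        rw [hd, h, mul_one]; exact Nat.gcd_dvd_right _ _
      · rw [hd, h]
    have : Fact p.Prime := ⟨hp⟩
    obtain ⟨y, hyK, hyn⟩ : ∃ y : G, y ∉ K ∧ y ^ n = 1 := by
      obtain ⟨P⟩ : Nonempty (Sylow p G) := inferInstance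
      have hPK : ¬ (P : Subgroup G) ≤ K := fun h =>
        P.not_dvd_index (Subgroup.index_dvd_of_le h)
      obtain ⟨y, hyP, hyK⟩ := SetLike.not_le_iff_exists.1 hPK
      refine ⟨y, hyK, ?_⟩
      obtain ⟨a, ha⟩ := (IsPGroup.iff_orderOf.1 P.isPGroup') ⟨y, hyP⟩
      rw [Subgroup.orderOf_mk] at ha
      apply orderOf_dvd_iff_pow_eq_one.1
      rw [ha]
      have h1 : p ^ a ∣ Nat.card K * p := by rw [hGK, ← ha]; exact orderOf_dvd_natCard y
      obtain ⟨k, hk⟩ : m ∣ Nat.card K := Nat.gcd_dvd_right _ _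
      have hco : Nat.Coprime p k := by
        have h3 : (m * p).gcd (m * k) = m := by rw [← hnm, ← hk]
        rw [Nat.gcd_mul_left] at h3
        exact Nat.eq_of_mul_eq_mul_left hm0 (by rw [h3, mul_one])
      rw [hk, mul_right_comm, ← hnm] at h1
      exact (Nat.Coprime.pow_left a hco).dvd_of_dvd_mul_right h1
    have hQ : Nat.card (G ⧸ K) = p := rfl
    have hfib : ∀ d : G ⧸ K, ∃ z : G, (z : G ⧸ K) = d ∧ z ^ n = 1 := by
      intro d
      have hy1 : (y : G ⧸ K) ≠ 1 := fun h => hyK ((QuotientGroup.eq_one_iff y).1 h)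
      obtain ⟨i, hi⟩ := mem_powers_of_prime_card hQ hy1 (g' := d)
      exact ⟨y ^ i, by rw [← hi]; rfl, by rw [← pow_mul, mul_comm, pow_mul, hyn, one_pow]⟩
    have : Fintype G := Fintype.ofFinite G
    have : Fintype (G ⧸ K) := Fintype.ofFinite _
    set S : Finset G := Finset.univ.filter (fun x => x ^ n = 1) with hSdef
    have hSc : S.card = n := by
      rw [← hS, ← Set.ncard_coe_finset]; congr 1; ext x; simp [hSdef]
    have hsum := Finset.card_eq_sum_card_fiberwise (s := S) (t := Finset.univ)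
      (f := fun x : G => (x : G ⧸ K)) (fun _ _ => Finset.mem_coe.2 (Finset.mem_univ _))
    have hF : ∀ z : G, (S.filter (fun x : G => (x : G ⧸ K) = z)).card =
        Nat.card {x : G // z⁻¹ * x ∈ K ∧ x ^ n = 1} := by
      intro z
      rw [hsub, ← Set.ncard_coe_finset]; congr 1; ext x
      simp only [hSdef, Finset.coe_filter, Finset.mem_filter, Finset.mem_univ, true_and,
        Set.mem_ofPred_eq]
      rw [eq_comm (b := (z : G ⧸ K)), QuotientGroup.eq, and_comm]
    have hge : ∀ d : G ⧸ K, m ≤ (S.filter (fun x : G => (x : G ⧸ K) = d)).card := by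
      intro d
      obtain ⟨z, rfl, hz⟩ := hfib d
      refine Nat.le_of_dvd (Finset.card_pos.2 ⟨z, by simp [hSdef, hz]⟩) ?_
      rw [hF]; exact H23.gcd_dvd_card_pow_eq_one_coset K n z
    have h1eq : (S.filter (fun x : G => (x : G ⧸ K) = ((1 : G) : G ⧸ K))).card = m := by
      by_contra hne
      have hlt : ∑ _d : G ⧸ K, m < ∑ d : G ⧸ K, (S.filter (fun x : G => (x : G ⧸ K) = d)).card :=
        Finset.sum_lt_sum (fun d _ => hge d)
          ⟨_, Finset.mem_univ _, lt_of_le_of_ne (hge ((1 : G) : G ⧸ K)) (Ne.symm hne)⟩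
      rw [← hsum, hSc, Finset.sum_const, Finset.card_univ, ← Nat.card_eq_fintype_card, hQ,
        smul_eq_mul, mul_comm, ← hnm] at hlt
      exact lt_irrefl _ hlt
    rw [hF] at h1eq
    have hiff : ∀ x : G, x ∈ K → (x ^ m = 1 ↔ x ^ n = 1) := by
      intro x hx
      rw [hm, pow_gcd_eq_one]
      have : x ^ Nat.card K = 1 := congrArg Subtype.val (pow_card_eq_one' (x := (⟨x, hx⟩ : K)))
      tauto
    have hcm : Nat.card {x : K // x ^ m = 1} = m := by
      rw [cardK]
      refine Eq.trans ?_ h1eq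
      refine Nat.card_congr (Equiv.subtypeEquivRight fun x => ?_)
      exact and_congr_right fun h => hiff x (by simpa using h)
    obtain ⟨H, -, hH⟩ := ih _ hKlt K rfl m (Nat.gcd_dvd_right _ _) hcm
    obtain ⟨h3, h4⟩ := lift K m H hH
    set N := H.map K.subtype with hN
    have hNc : Nat.card N = m := by
      rw [← hcm, cardK]
      exact Nat.card_congr (Equiv.subtypeEquivRight fun x => by rw [h4]; simp)
    have hyp : (y : G ⧸ N) ^ p = 1 := by
      rw [← QuotientGroup.mk_pow, QuotientGroup.eq_one_iff, h4]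
      exact ⟨K.pow_index_mem y, by rw [← pow_mul, mul_comm, ← hnm, hyn]⟩
    have hy1 : (y : G ⧸ N) ≠ 1 := fun h => hyK ((h4 y).1 ((QuotientGroup.eq_one_iff y).1 h)).1
    have ho : orderOf (y : G ⧸ N) = p := orderOf_eq_prime hyp hy1
    set L := (Subgroup.zpowers (y : G ⧸ N)).comap (QuotientGroup.mk' N) with hL
    have hLc : Nat.card L = n := by
      have e := QuotientGroup.preimageMkEquivSubgroupProdSet N
        (Subgroup.zpowers (y : G ⧸ N) : Set (G ⧸ N))
      have := Nat.card_congr e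
      rw [Nat.card_prod, hNc] at this
      rw [hnm, ← ho, ← Nat.card_zpowers]
      exact this
    have hLS : (L : Set G) ⊆ {x | x ^ n = 1} := by
      intro x hx
      obtain ⟨i, hi⟩ := Subgroup.mem_zpowers_iff.1 (Subgroup.mem_comap.1 hx)
      have : x ^ p ∈ N := by
        rw [← QuotientGroup.eq_one_iff, QuotientGroup.mk_pow]
        have hi' : (x : G ⧸ N) = (y : G ⧸ N) ^ i := hi.symm
        rw [hi', ← zpow_natCast, ← zpow_mul, mul_comm, zpow_mul, zpow_natCast, hyp, one_zpow]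
      show x ^ n = 1
      rw [hnm, mul_comm, pow_mul]; exact ((h4 _).1 this).2
    have heq := Set.eq_of_subset_of_ncard_le hLS (by rw [hS]; exact hLc.ge)
    refine ⟨L, ⟨fun x hx g => ?_⟩, heq⟩
    rw [← SetLike.mem_coe, heq] at hx ⊢
    show (g * x * g⁻¹) ^ n = 1
    rw [conj_pow, hx]; simp

/-- If `G` is a finite solvable group and `n` divides the order of `G` and exactly `n` elements `x` of `G` satisfy `x^n = 1`, then these elements form a normal subgroup. -/
theorem result {G : Type*} [Group G] [Finite G] [Group.IsSolvable G] (n : ℕ) (hn : n ∣ Nat.card G) (hcount : Nat.card {x : G // x ^ n = 1} = n) : ∃ H : Subgroup G, H.Normal ∧ (H : Set G) = {x : G | x ^ n = 1} := by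
  exact aux _ G rfl n hn hcount

end Cfsg.Agent.S4213
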