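import Cfsg.Statements.S4231
import Cfsg.Agent.H74.PQ
import Cfsg.Agent.S2119
import Cfsg.Agent.H86.AltAut

set_option autoImplicit false
open Cfsg

namespace Cfsg.Agent.S4231

open Equiv Equiv.Perm in
theorem sq_mem {n : ℕ} (hn : 5 ≤ n) (φ : MulAut (alternatingGroup (Fin n))) :
    φ ^ 2 ∈ (MulAut.conjNormal : Perm (Fin n) →* MulAut (alternatingGroup (Fin n))).range := by
  by_cases h6 : n = 6
  swap
  · exact (S2119.result n (by omega) h6).2 _
  subst h6
  set R := (MulAut.conjNormal : Perm (Fin 6) →* MulAut (alternatingGroup (Fin 6))).range with hR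
  have fix : ∀ (ψ : MulAut (alternatingGroup (Fin 6))) (x : alternatingGroup (Fin 6)),
      orderOf x = 3 → (ψ x : Perm (Fin 6)).cycleType = (x : Perm (Fin 6)).cycleType → ψ ∈ R := by
    intro ψ x hx h
    obtain ⟨σ, hσ⟩ := isConj_iff.1 (isConj_iff_cycleType_eq.2 h)
    have e : (MulAut.conjNormal σ * ψ : MulAut (alternatingGroup (Fin 6))) x = x := Subtype.ext (by simpa using hσ)
    have := H86.exists_conjNormal_eq (by simp) _ (H86.isThreeCycle_aut_six (by simp) _ hx e)
    have h2 : MulAut.conjNormal σ * ψ ∈ R := this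
    exact (R.mul_mem_cancel_left ⟨σ, rfl⟩).1 h2
  have hct : ∀ y : alternatingGroup (Fin 6), orderOf y = 3 →
      (y : Perm (Fin 6)).cycleType = {3} ∨ (y : Perm (Fin 6)).cycleType = {3, 3} := by
    intro y hy
    obtain ⟨k, h1, hk⟩ := H86.cycleType_of_orderOf_three ((Subgroup.orderOf_coe y).trans hy)
    have := Finset.card_le_univ (y : Perm (Fin 6)).support
    rw [Fintype.card_fin] at this
    have : k = 0 ∨ k = 1 := by omega
    rcases this with rfl | rfl
    · left; exact h1
    · right; exact h1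
  haveI : Fact (Nat.Prime 3) := ⟨Nat.prime_three⟩
  obtain ⟨c, hc⟩ := exists_prime_orderOf_dvd_card' (G := alternatingGroup (Fin 6)) 3 (by
    rw [nat_card_alternatingGroup]; simp [Nat.factorial])
  have h1 : orderOf (φ c) = 3 := by rw [φ.orderOf_eq, hc]
  have h2 : orderOf (φ (φ c)) = 3 := by rw [φ.orderOf_eq, h1]
  by_cases e1 : (φ c : Perm (Fin 6)).cycleType = (c : Perm (Fin 6)).cycleType
  · exact R.pow_mem (fix φ c hc e1) 2
  by_cases e2 : (φ (φ c) : Perm (Fin 6)).cycleType = (φ c : Perm (Fin 6)).cycleType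
  · exact R.pow_mem (fix φ _ h1 e2) 2
  refine fix (φ ^ 2) c hc ?_
  have : (φ ^ 2) c = φ (φ c) := by rw [pow_two]; rfl
  rw [this]
  rcases hct c hc with a | a <;> rcases hct _ h1 with b | b <;> rcases hct _ h2 with d | d <;>
    simp_all

open Equiv Equiv.Perm in
theorem elt {n p q : ℕ} (hp : p.Prime) (hq : q.Prime) (hpq : p < q) (hn : 3 * q ≤ n) :
    ∃ σ : alternatingGroup (Fin n), orderOf σ = p * q := by
  have hco : p.Coprime q := (Nat.coprime_primes hp hq).2 hpq.ne
  have hp2 := hp.two_le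
  have hqo : q % 2 = 1 := hq.eq_two_or_odd.resolve_left (by omega)
  rcases hp.eq_two_or_odd with rfl | hpo
  · obtain ⟨σ, hσ⟩ := (exists_with_cycleType_iff (Fin n) (m := {2, 2, q})).2
      ⟨by simp; omega, by simp; omega⟩
    refine ⟨⟨σ, ?_⟩, ?_⟩
    · rw [mem_alternatingGroup, sign_of_cycleType, hσ]
      apply Even.neg_one_pow
      rw [Nat.even_iff]; simp; omega
    · rw [← Subgroup.orderOf_coe, ← lcm_cycleType, hσ]
      simp only [Multiset.insert_eq_cons, Multiset.lcm_cons, Multiset.lcm_singleton, normalize_eq,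
        lcm_eq_nat_lcm]
      rw [← Nat.lcm_assoc, Nat.lcm_self, hco.lcm_eq_mul]
  · obtain ⟨σ, hσ⟩ := (exists_with_cycleType_iff (Fin n) (m := {p, q})).2
      ⟨by simp; omega, by simp; omega⟩
    refine ⟨⟨σ, ?_⟩, ?_⟩
    · rw [mem_alternatingGroup, sign_of_cycleType, hσ]
      apply Even.neg_one_pow
      rw [Nat.even_iff]; simp; omega
    · rw [← Subgroup.orderOf_coe, ← lcm_cycleType, hσ]
      simp only [Multiset.insert_eq_cons, Multiset.lcm_cons, Multiset.lcm_singleton, normalize_eq,
        lcm_eq_nat_lcm]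
      rw [hco.lcm_eq_mul]

open Equiv Equiv.Perm in
theorem main (n : ℕ) (hn : 5 ≤ n) (G : Subgroup (MulAut (alternatingGroup (Fin n))))
    (hG : (MulAut.conj : alternatingGroup (Fin n) →* MulAut (alternatingGroup (Fin n))).range ≤ G)
    (p q : ℕ) [hp : Fact p.Prime] [hq : Fact q.Prime] (hpq : p < q)
    (h : ∀ g : G, orderOf g ≠ p * q) (Q : Sylow q G) : IsMulCommutative (Q : Subgroup G) := by
  have hp2 := hp.out.two_le
  have hn3 : n < 3 * q := by
    by_contra hc
    obtain ⟨σ, hσ⟩ := elt hp.out hq.out hpq (not_lt.1 hc)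
    refine h ⟨MulAut.conj σ, hG ⟨σ, rfl⟩⟩ ?_
    rw [← Subgroup.orderOf_coe, ← hσ, ← Subgroup.orderOf_coe σ]
    have e : MulAut.conj σ = MulAut.conjNormal (σ : Perm (Fin n)) := by
      ext x; simp
    simp only [e]
    exact orderOf_injective _ (H86.conjNormal_injective (by simp; omega)) _
  set R := (MulAut.conjNormal : Perm (Fin n) →* MulAut (alternatingGroup (Fin n))).range with hR
  have hle : (Q : Subgroup G).map G.subtype ≤ R := by
    intro φ hφ
    obtain ⟨k, hk⟩ := (Q.isPGroup'.map G.subtype) ⟨φ, hφ⟩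
    have hk' : φ ^ q ^ k = 1 := congrArg Subtype.val hk
    obtain ⟨m, hm⟩ : Odd (q ^ k) := (hq.out.odd_of_ne_two (by omega)).pow
    have : φ = ((φ ^ 2) ^ m)⁻¹ := by
      rw [eq_inv_iff_mul_eq_one, ← pow_mul, ← pow_succ', ← hm, hk']
    rw [this]
    exact R.inv_mem (R.pow_mem (sq_mem hn φ) m)
  obtain ⟨i, hi⟩ := Q.isPGroup'.exists_card_eq
  have hd : q ^ i ∣ n.factorial := by
    rw [← hi, ← Subgroup.card_map_of_injective G.subtype_injective]
    refine (Subgroup.card_dvd_of_le hle).trans ?_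
    have := Subgroup.card_range_dvd
      (MulAut.conjNormal : Perm (Fin n) →* MulAut (alternatingGroup (Fin n)))
    rwa [Nat.card_perm, Nat.card_fin] at this
  have h2 := H74.PQ.pow_dvd_factorial hq.out (by nlinarith) hd
  have h3 : n / q < 3 := (Nat.div_lt_iff_lt_mul hq.out.pos).2 hn3
  have : i = 0 ∨ i = 1 ∨ i = 2 := by omega
  rcases this with rfl | rfl | rfl
  · haveI : Subsingleton (Q : Subgroup G) := (Nat.card_eq_one_iff_unique.1 (by simpa using hi)).1
    exact ⟨⟨fun a b => Subsingleton.elim _ _⟩⟩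
  · haveI := isCyclic_of_prime_card (p := q) (by simpa using hi)
    exact IsCyclic.isMulCommutative
  · exact IsPGroup.isMulCommutative_of_card_eq_prime_sq hi

/-- Let n ≥ 5 and let G be a group of automorphisms of the alternating group of degree n containing all inner automorphisms. If p ≠ q are primes and G has no element of order pq, then every Sylow p-subgroup of G is abelian or every Sylow q-subgroup of G is abelian. -/
theorem result (n : ℕ) (hn : 5 ≤ n) (G : Subgroup (MulAut (alternatingGroup (Fin n))))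
    (hG : (MulAut.conj : alternatingGroup (Fin n) →* MulAut (alternatingGroup (Fin n))).range ≤ G)
    (p q : ℕ) [Fact p.Prime] [Fact q.Prime] (hpq : p ≠ q) (h : ∀ g : G, orderOf g ≠ p * q) :
    (∀ P : Sylow p G, IsMulCommutative (P : Subgroup G)) ∨ (∀ Q : Sylow q G, IsMulCommutative (Q : Subgroup G)) := by
  rcases lt_or_gt_of_ne hpq with hlt | hlt
  · exact Or.inr (main n hn G hG p q hlt h)
  · exact Or.inl (main n hn G hG q p hlt fun g hg => h g (hg.trans (mul_comm _ _)))

end Cfsg.Agent.S4231
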