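import Cfsg.Statements.S4236
import Cfsg.Agent.Base
import Cfsg.Agent.H25.SylowNot

set_option autoImplicit false
open Cfsg

namespace Cfsg.Agent.S4236


/-- No finite group has exactly 35 Sylow 17-subgroups. -/
theorem result {G : Type*} [Group G] [Finite G] : Nat.card (Sylow 17 G) ≠ 35 := by
  have : Fact (Nat.Prime 17) := ⟨by norm_num⟩
  refine H25.card_sylow_ne_of_simple (by norm_num)
    (H25.not_isPrimePow_mul (a := 5) (b := 7) (by norm_num) (by norm_num) (by norm_num)) ?_ ?_ G
  · intro a b hab ha hb
    have h1 : a ≤ 35 := Nat.le_of_dvd (by norm_num) (Dvd.intro _ hab)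
    interval_cases a <;> omega
  · intro S _ _ _ hS hd hn
    obtain ⟨P⟩ : Nonempty (Sylow 17 S) := inferInstance
    obtain ⟨e, he1, he2, he3, -⟩ := H25.simple_card_sylow_two_mul_add_one hS (by norm_num) P
      (H25.card_eq_prime_of_card_sylow_lt_sq hS hd (by omega) P) hn
    have h1 : e ≤ 16 := Nat.le_of_dvd (by norm_num) he1
    interval_cases e <;> simp_all (config := {decide := true})

end Cfsg.Agent.S4236
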