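import Cfsg.Statements.S4237
import Cfsg.Agent.Base
import Cfsg.Agent.H3.HallCount

set_option autoImplicit false
open Cfsg

namespace Cfsg.Agent.S4237

/-- Let G be a finite group, p a prime and a a natural number such that p^(a+1) divides the order of G. Then the number of subgroups of G of order p^a is congruent to 1 or to 1 + p modulo p². -/
theorem result {G : Type*} [Group G] [Finite G] (p a : ℕ) (hp : p.Prime) (hdvd : p ^ (a + 1) ∣ Nat.card G) :
    Nat.card {H : Subgroup G // Nat.card H = p ^ a} ≡ 1 [MOD p ^ 2] ∨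
      Nat.card {H : Subgroup G // Nat.card H = p ^ a} ≡ 1 + p [MOD p ^ 2] := by
  have : Fact p.Prime := ⟨hp⟩
  by_cases h2 : p = 2
  · subst h2
    have h1 := H3.card_subgroups_modEq ((pow_dvd_pow 2 a.le_succ).trans hdvd)
    unfold Nat.ModEq at h1 ⊢
    omega
  obtain ⟨P⟩ : Nonempty (Sylow p G) := inferInstance
  have h1 := H3.card_subgroups_modEq_sylow P hdvd
  obtain ⟨m, hm⟩ := IsPGroup.iff_card.mp P.2
  have ham : a + 1 ≤ m := by
    have h1 := P.card_eq_multiplicity
    rw [hm] at h1
    rw [Nat.pow_right_injective hp.two_le h1]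
    exact (hp.pow_dvd_iff_le_factorization Nat.card_pos.ne').mp hdvd
  by_cases hc : IsCyclic P
  · rw [H3.card_subgroups_of_isCyclic hc (hm ▸ pow_dvd_pow p (by omega))] at h1
    exact Or.inl h1
  rcases a with _ | a
  · left
    rw [H3.card_subtype_eq_one (a := ⊥) fun H => by rw [pow_zero, Subgroup.card_eq_one]]
  · exact Or.inr (h1.trans (H3.card_subgroups_modEq_sq m P hm hc _ (by omega) (by omega)
      fun h => absurd h h2))

end Cfsg.Agent.S4237
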