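import Cfsg.Statements.S4242
import Cfsg.Agent.H98.IsoP
import Cfsg.Agent.H98.Sylow
import Cfsg.Agent.H4.NilpCoprime
import Cfsg.Agent.H7.Frobenius
import Cfsg.Agent.H2.Fitting
import Cfsg.Agent.H9.PBasic
import Cfsg.Agent.H18.PiCore
import Cfsg.Agent.H99.Idx

set_option autoImplicit false
open Cfsg

namespace Cfsg.Agent.S4242

open Subgroup H98

section
variable {G : Type*} [Group G] [Finite G] {p : ℕ}

theorem nil_of_le {A B : Subgroup G} (h : A ≤ B) (hB : Group.IsNilpotent B) : Group.IsNilpotent A :=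
  Group.nilpotent_of_mulEquiv (subgroupOfEquivOfLe h)

theorem qgrp {q : ℕ} [hq : Fact q.Prime] {A B K : Subgroup G} (hA : IsPGroup p A) (hB : IsPGroup q B)
    (hp : p.Prime) (hd : Nat.card G ∣ Nat.card A * Nat.card B) (hK : ¬ p ∣ Nat.card K) :
    Group.IsNilpotent K := by
  have : Fact p.Prime := ⟨hp⟩
  obtain ⟨a, ha⟩ := IsPGroup.iff_card.1 hA
  obtain ⟨b, hb⟩ := IsPGroup.iff_card.1 hB
  have h1 : Nat.card K ∣ q ^ b := Nat.Coprime.dvd_of_dvd_mul_left
    (((Nat.Prime.coprime_iff_not_dvd hp).2 hK).symm.pow_right a)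
    (ha ▸ hb ▸ (card_subgroup_dvd_card K).trans hd)
  obtain ⟨c, -, hc⟩ := (Nat.dvd_prime_pow hq.out).1 h1
  exact (IsPGroup.of_card hc).isNilpotent

theorem exists_z [hp : Fact p.Prime] (P : Sylow p G) {N : Subgroup G} (hN : N ≤ P) (h0 : N ≠ ⊥)
    (hn : (N.subgroupOf P).Normal) :
    ∃ z ∈ N, orderOf z = p ∧ (P : Subgroup G) ≤ centralizer (zpowers z : Set G) := by
  obtain ⟨x, h1, h2, h3⟩ := H9.exists_mem_center_orderOf_eq P.isPGroup' (K := N.subgroupOf P)
    (fun e => h0 (by rwa [subgroupOf_eq_bot, disjoint_iff, inf_eq_left.2 hN] at e))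
  refine ⟨x, h1, by rw [orderOf_coe, h3], le_centralizer_iff.1 ((zpowers_le).2 fun y hy => ?_)⟩
  exact congrArg Subtype.val (mem_center_iff.1 h2 ⟨y, hy⟩)

theorem central [hp : Fact p.Prime] (hpG : p ∣ Nat.card G)
    (h : ∀ H : Subgroup G, H ≠ ⊤ → p ∣ Nat.card H → Group.IsNilpotent H) {K : Subgroup G}
    (hK : ¬ Group.IsNilpotent K) (hK' : ¬ p ∣ Nat.card K) :
    ∃ z : G, orderOf z = p ∧ z ∈ center G := by
  obtain ⟨P⟩ : Nonempty (Sylow p G) := inferInstance
  have fin : ∀ z : G, orderOf z = p → (P : Subgroup G) ≤ centralizer (zpowers z : Set G) →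
      (∀ (q : ℕ) [Fact q.Prime], q ≠ p → ∃ (Q : Sylow q G) (A : Subgroup G), z ∈ A ∧ IsPGroup p A ∧
        Nat.card (A ⊔ Q : Subgroup G) ∣ Nat.card A * Nat.card (Q : Subgroup G)) →
      ∃ z : G, orderOf z = p ∧ z ∈ center G := fun z h1 h2 h3 => by
    refine ⟨z, h1, ?_⟩
    have : centralizer (zpowers z : Set G) = ⊤ := H2.eq_top_of_forall_sylow_le fun q hq _ => by
      by_cases e : q = p
      · subst e; exact ⟨P, h2⟩
      obtain ⟨Q, A, a1, a2, a3⟩ := h3 q e
      have ne : A ⊔ Q ≠ ⊤ := fun e' => hK (qgrp a2 Q.isPGroup' hp.out (by rwa [e', card_top] at a3) hK')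
      have := h _ ne (h1 ▸ orderOf_dvd_natCard _ (mem_sup_left a1))
      exact ⟨Q, H4.le_centralizer_of_nilpotent (L := A ⊔ Q) le_sup_right
        ((zpowers_le.2 a1).trans le_sup_left) (H4.coprime_card_of_isPGroup hq.out hp.out e
          Q.isPGroup' (a2.to_le (zpowers_le.2 a1)))⟩
    exact centralizer_eq_top_iff_subset.1 this (mem_zpowers z)
  by_cases hN : ∃ N : Subgroup G, N.Normal ∧ IsPGroup p N ∧ N ≠ ⊥
  · obtain ⟨N, n1, n2, n3⟩ := hN
    obtain ⟨z, z1, z2, z3⟩ := exists_z P (n2.le_sylow_of_normal P) n3 inferInstance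
    refine fin z z2 z3 fun q _ _ => ?_
    obtain ⟨Q⟩ : Nonempty (Sylow q G) := inferInstance
    exact ⟨Q, N, z1, n2, H18.card_sup_dvd_of_normal _ _⟩
  have npc := H7.hasNPC_of_normalizer_centralizer_sylow P fun Q hQ h0 g hg hc => by
    have pQ := P.isPGroup'.to_le hQ
    have : Nontrivial Q := (nontrivial_iff_ne_bot Q).2 h0
    obtain ⟨k, hk, e⟩ := pQ.nontrivial_iff_card.1 this
    have := h (normalizer (Q : Set G)) (fun e => hN ⟨Q, normalizer_eq_top_iff.1 e, pQ, h0⟩)
      ((e ▸ dvd_pow_self p hk.ne').trans (card_dvd_of_le le_normalizer))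
    intro x hx
    obtain ⟨j, hj⟩ := (IsPGroup.iff_orderOf.1 pQ) ⟨x, hx⟩
    rw [← orderOf_coe] at hj
    exact (H4.commute_of_nilpotent (L := normalizer (Q : Set G)) (le_normalizer hx) hg
      (hj ▸ hc.symm.pow_left j)).eq
  obtain ⟨L, hL, l1, l2⟩ := H7.hasNPC_iff_exists.1 npc
  obtain ⟨z, -, z2, z3⟩ := exists_z P le_rfl (P.ne_bot_of_dvd_card hpG) (by rw [subgroupOf_self]; infer_instance)
  refine fin z z2 z3 fun q hq e => ?_
  have pz : IsPGroup p (zpowers z) := IsPGroup.of_card (n := 1) (by rw [Nat.card_zpowers, z2, pow_one])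
  obtain ⟨Q, q1, q2⟩ := exists_invSylP pz l1 (by rw [normalizer_eq_top_iff.2 hL]; exact le_top) q
  have q3 : IsSyl q Q ⊤ := isSyl_of_not_dvd_relIndex le_top q1.isPGroup (by
    obtain ⟨k, hk⟩ := H7.isPGroup_quotient_iff_index.1 l2
    rw [relIndex_top_right, ← relIndex_mul_index q1.le, hk, hq.out.dvd_mul]
    rintro (h | h)
    · exact q1.not_dvd_relIndex h
    · exact e ((Nat.prime_dvd_prime_iff_eq hq.out hp.out).1 (hq.out.dvd_of_dvd_pow h)))
  exact ⟨q3.toSylowTop, zpowers z, mem_zpowers z, pz, H99.card_sup_dvd_of_le_normalizer q2⟩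

end

/-- Let G be a finite group and p a prime dividing its order. Every maximal subgroup of G of order divisible by p is nilpotent if and only if G is nilpotent, or G is a minimal non-nilpotent group, or G is the internal direct product of a normal subgroup of order p and a normal minimal non-nilpotent subgroup of order prime to p. -/
theorem result {G : Type*} [Group G] [Finite G] (p : ℕ) (hp : p.Prime) (hpG : p ∣ Nat.card G) :
    (∀ M : Subgroup G, IsCoatom M → p ∣ Nat.card M → Group.IsNilpotent M) ↔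
      (Group.IsNilpotent G ∨ Cfsg.IsMinimalNonNilpotent G ∨
        ∃ Z K : Subgroup G, Z.Normal ∧ K.Normal ∧ Z ⊓ K = ⊥ ∧ Z ⊔ K = ⊤ ∧ Nat.card Z = p ∧
          Cfsg.IsMinimalNonNilpotent K ∧ ¬ p ∣ Nat.card K) := by
  have : Fact p.Prime := ⟨hp⟩
  constructor
  · intro h
    have h' : ∀ H : Subgroup G, H ≠ ⊤ → p ∣ Nat.card H → Group.IsNilpotent H := fun H h1 h2 => by
      obtain ⟨M, hM, hle⟩ := (eq_top_or_exists_le_coatom H).resolve_left h1
      exact nil_of_le hle (h M hM (h2.trans (card_dvd_of_le hle)))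
    by_cases h1 : Group.IsNilpotent G
    · exact Or.inl h1
    by_cases h2 : ∀ H : Subgroup G, H ≠ ⊤ → Group.IsNilpotent H
    · exact Or.inr (Or.inl ⟨h1, h2⟩)
    push Not at h2
    obtain ⟨H, hH, hn⟩ := h2
    obtain ⟨K, hK, hle⟩ := (eq_top_or_exists_le_coatom H).resolve_left hH
    have k1 : ¬ Group.IsNilpotent K := fun e => hn (nil_of_le hle e)
    have k2 : ¬ p ∣ Nat.card K := fun e => k1 (h K hK e)
    obtain ⟨z, z1, z2⟩ := central hpG h' k1 k2
    have zc : zpowers z ≤ center G := zpowers_le.2 z2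
    have zn : (zpowers z).Normal := ⟨fun x hx g => by
      rwa [mem_center_iff.1 (zc hx) g, mul_inv_cancel_right]⟩
    have cz : Nat.card (zpowers z) = p := by rw [Nat.card_zpowers, z1]
    have zK : z ∉ K := fun e => k2 (z1 ▸ orderOf_dvd_natCard _ e)
    have top : zpowers z ⊔ K = ⊤ := hK.2 _ (lt_of_le_of_ne le_sup_right fun e =>
      zK (e ▸ mem_sup_left (mem_zpowers z)))
    have dj : Disjoint (zpowers z) K :=
      disjoint_of_coprime_natCard (cz ▸ (Nat.Prime.coprime_iff_not_dvd hp).2 k2)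
    refine Or.inr (Or.inr ⟨zpowers z, K, zn, ?_, dj.eq_bot, top, cz, ⟨k1, fun L hL => ?_⟩, k2⟩)
    · rw [← normalizer_eq_top_iff, eq_top_iff, ← top]
      exact sup_le (zc.trans (center_le_normalizer _)) le_normalizer
    · have ne : zpowers z ⊔ L.map K.subtype ≠ ⊤ := fun e => hL (by
        have h3 := H18.card_sup_dvd_of_normal (zpowers z) (L.map K.subtype)
        have h4 : Nat.card K ∣ Nat.card (zpowers z) * Nat.card (L.map K.subtype) :=
          (card_subgroup_dvd_card K).trans (by rwa [e, card_top] at h3)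
        rw [cz, card_subtype] at h4
        exact eq_top_of_le_card _ (Nat.le_of_dvd Nat.card_pos (Nat.Coprime.dvd_of_dvd_mul_left
          ((Nat.Prime.coprime_iff_not_dvd hp).2 k2).symm h4)))
      have := nil_of_le le_sup_right (h' _ ne (cz ▸ card_dvd_of_le le_sup_left))
      exact Group.nilpotent_of_mulEquiv (L.equivMapOfInjective K.subtype K.subtype_injective).symm
  · rintro (h | h | ⟨Z, K, hZ, hK, h1, h2, h3, h4, h5⟩) M hM hd
    · infer_instance
    · exact h.2 M hM.1
    · have pZ : IsPGroup p Z := IsPGroup.of_card (n := 1) (by rw [h3, pow_one])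
      have hZM : Z ≤ M := by
        obtain ⟨x, hx⟩ := exists_prime_orderOf_dvd_card' (G := M) p hd
        rw [← orderOf_coe] at hx
        have sZ : IsSyl p Z ⊤ := isSyl_of_not_dvd_relIndex le_top pZ (by
          rw [relIndex_top_right]
          intro e
          have h6 := H18.card_sup_dvd_of_normal Z K
          rw [h2, card_top, ← Z.card_mul_index] at h6
          exact h5 (e.trans (Nat.dvd_of_mul_dvd_mul_left Nat.card_pos h6)))
        have px : IsPGroup p (zpowers (x : G)) :=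
          IsPGroup.of_card (n := 1) (by rw [Nat.card_zpowers, hx, pow_one])
        have h7 := sZ.le_of_le_normalizer' px le_top (by rw [normalizer_eq_top_iff.2 hZ]; exact le_top)
        rw [← eq_of_le_of_card_ge h7 (by rw [Nat.card_zpowers, hx, h3])]
        exact zpowers_le.2 x.2
      have zc : Z ≤ center G := by
        have := isCyclic_of_prime_card h3
        have := this.isMulCommutative
        rw [← centralizer_univ, ← coe_top, ← le_centralizer_iff, ← h2]
        exact sup_le Z.le_centralizer fun k hk z hz =>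
          (commute_of_normal_of_disjoint Z K hZ hK (disjoint_iff.2 h1) z k hz hk).eq
      have hKM : K ⊓ M ≠ K := fun e => hM.1 (eq_top_iff.2 (h2 ▸ sup_le hZM (inf_eq_left.1 e)))
      have n1 : Group.IsNilpotent (K ⊓ M : Subgroup G) := by
        have := h4.2 ((K ⊓ M).subgroupOf K) (by
          rw [Ne, subgroupOf_eq_top]; exact fun e => hKM (le_antisymm inf_le_left e))
        exact Group.nilpotent_of_mulEquiv (subgroupOfEquivOfLe inf_le_left)
      have n2 : Group.IsNilpotent ((K ⊓ M).subgroupOf M) :=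
        Group.nilpotent_of_mulEquiv (subgroupOfEquivOfLe inf_le_right).symm
      have n3 : Group.IsNilpotent (Z.subgroupOf M) := (isPGroup_subgroupOf pZ M).isNilpotent
      have n4 : ((K ⊓ M).subgroupOf M).Normal := by rw [inf_subgroupOf_right]; infer_instance
      have n5 := H2.isNilpotent_sup (Z.subgroupOf M) ((K ⊓ M).subgroupOf M)
      have e : Z.subgroupOf M ⊔ (K ⊓ M).subgroupOf M = ⊤ := by
        rw [← subgroupOf_sup hZM inf_le_right, subgroupOf_eq_top]
        intro m hm
        have : m ∈ Z ⊔ K := h2 ▸ mem_top m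
        obtain ⟨a, ha, b, hb, rfl⟩ := mem_sup_of_normal_left.1 this
        exact mul_mem (mem_sup_left ha) (mem_sup_right ⟨hb, (M.mul_mem_cancel_left (hZM ha)).1 hm⟩)
      rw [e] at n5
      exact Group.nilpotent_of_mulEquiv topEquiv

end Cfsg.Agent.S4242
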