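import Cfsg.Statements.S4250
import Cfsg.Agent.H8.AlperinP

set_option autoImplicit false
open Cfsg

namespace Cfsg.Agent.S4250

/-- Let P be a Sylow p-subgroup of a finite group G. Call an intersection H = P ∩ Q with a Sylow p-subgroup Q tame when N_P(H) and N_Q(H) are Sylow p-subgroups of N_G(H). Then P ∩ G′ is generated by [P, N_G(P)] together with the commutator subgroups [P ∩ Q, ⟨x⟩] for all tame intersections P ∩ Q and all p-elements x of N_G(P ∩ Q). -/
theorem result {G : Type*} [Group G] [Finite G] (p : ℕ) [Fact p.Prime] (P : Sylow p G) :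
    (P : Subgroup G) ⊓ commutator G =
      ⁅(P : Subgroup G), Subgroup.normalizer ((P : Subgroup G) : Set G)⁆ ⊔
        ⨆ (Q : Sylow p G) (_ : (¬ p ∣ ((P : Subgroup G) ⊓ Subgroup.normalizer (((P : Subgroup G) ⊓ (Q : Subgroup G) : Subgroup G) : Set G)).relIndex (Subgroup.normalizer (((P : Subgroup G) ⊓ (Q : Subgroup G) : Subgroup G) : Set G)) ∧ ¬ p ∣ ((Q : Subgroup G) ⊓ Subgroup.normalizer (((P : Subgroup G) ⊓ (Q : Subgroup G) : Subgroup G) : Set G)).relIndex (Subgroup.normalizer (((P : Subgroup G) ⊓ (Q : Subgroup G) : Subgroup G) : Set G))))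
          (x : G) (_ : x ∈ Subgroup.normalizer (((P : Subgroup G) ⊓ (Q : Subgroup G) : Subgroup G) : Set G) ∧ ∃ k : ℕ, orderOf x = p ^ k),
          ⁅(P : Subgroup G) ⊓ (Q : Subgroup G), Subgroup.zpowers x⁆ := by
  apply le_antisymm
  · apply H8.inf_commutator_le_of_tame P
    · intro n hn t ht
      exact Subgroup.mem_sup_left (Subgroup.commutator_mem_commutator ht hn)
    · intro Q hQ x hx hp t ht
      refine Subgroup.mem_sup_right (Subgroup.mem_iSup_of_mem Q (Subgroup.mem_iSup_of_mem hQ
        (Subgroup.mem_iSup_of_mem x (Subgroup.mem_iSup_of_mem ⟨hx, hp⟩ ?_))))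
      exact Subgroup.commutator_mem_commutator ht (Subgroup.mem_zpowers x)
  · have key : ∀ U K : Subgroup G, U ≤ P → K ≤ Subgroup.normalizer (U : Set G) →
        ⁅U, K⁆ ≤ (P : Subgroup G) ⊓ commutator G := fun U K hU hK =>
      le_inf ((H8.commutator_le_focal_of_le_normalizer U K hK).trans
        (U.focalSubgroup_le.trans hU)) (Subgroup.commutator_mono le_top le_top)
    refine sup_le (key _ _ le_rfl le_rfl) (iSup_le fun Q => iSup_le fun _ => iSup_le fun x =>
      iSup_le fun hx => key _ _ inf_le_left (Subgroup.zpowers_le.mpr hx.1))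

end Cfsg.Agent.S4250
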