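import Cfsg.Statements.S4260
import Cfsg.Agent.Base

set_option autoImplicit false
open Cfsg

namespace Cfsg.Agent.S4260


/-- Let H be a Hall subgroup of a finite group G (the order of H is coprime to its index) such that x^[G : H] lies in H for every x in G. Then H is normal in G. -/
theorem result {G : Type*} [Group G] [Finite G] (H : Subgroup G) (hHall : (Nat.card H).Coprime H.index)
    (hexp : ∀ x : G, x ^ H.index ∈ H) : H.Normal := by
  constructor
  intro h hh g
  have hc : (orderOf (g * h * g⁻¹)).Coprime H.index := by
    have h1 : orderOf (g * h * g⁻¹) = orderOf h := by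
      have := (MulAut.conj g).orderOf_eq h
      simpa using this
    rw [h1]
    exact Nat.Coprime.coprime_dvd_left (Subgroup.orderOf_dvd_natCard H hh) hHall
  obtain ⟨m, hm⟩ := exists_pow_eq_self_of_coprime hc.symm
  rw [← hm]
  exact H.pow_mem (hexp _) m

end Cfsg.Agent.S4260
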