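import Cfsg.Statements.S4261
import Cfsg.Agent.H2.Misc1
import Cfsg.Agent.H9.PBasic

set_option autoImplicit false
open Cfsg

namespace Cfsg.Agent.S4261

/-- Let M be a maximal subgroup of a finite solvable group G such that x^[G : M] lies in M for every x in G. Then M is normal in G. -/
theorem result {G : Type*} [Group G] [Finite G] (hG : Group.IsSolvable G) (M : Subgroup G) (hM : IsCoatom M)
    (hexp : ∀ x : G, x ^ M.index ∈ M) : M.Normal := by
  obtain ⟨p, k, hp, -, e⟩ := (isPrimePow_nat_iff _).1 (H2.isPrimePow_index_of_isCoatom M hM)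
  haveI := Fact.mk hp
  have hk : (QuotientGroup.mk' M.normalCore).ker ≤ M := by
    rw [QuotientGroup.ker_mk']; exact M.normalCore_le
  have hP : IsPGroup p (G ⧸ M.normalCore) := fun q => by
    obtain ⟨x, rfl⟩ := QuotientGroup.mk_surjective q
    refine ⟨k, ?_⟩
    rw [← QuotientGroup.mk_pow, QuotientGroup.eq_one_iff, e]
    intro b
    simpa [conj_pow] using hexp (b * x * b⁻¹)
  have hc : IsCoatom (M.map (QuotientGroup.mk' M.normalCore)) := by
    refine ⟨fun h => hM.1 ?_, fun K hK => ?_⟩
    · rw [← Subgroup.comap_map_eq_self hk, h, Subgroup.comap_top]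
    · have : M < K.comap (QuotientGroup.mk' M.normalCore) :=
        (Subgroup.comap_map_eq_self hk).symm.trans_lt
          ((Subgroup.comap_lt_comap_of_surjective (QuotientGroup.mk'_surjective _)).2 hK)
      rw [← Subgroup.map_comap_eq_self_of_surjective (QuotientGroup.mk'_surjective M.normalCore) K, hM.2 _ this,
        Subgroup.map_top_of_surjective _ (QuotientGroup.mk'_surjective _)]
  have := (H9.normal_of_isCoatom hP hc).comap (QuotientGroup.mk' M.normalCore)
  rwa [Subgroup.comap_map_eq_self hk] at this

end Cfsg.Agent.S4261
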