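import Cfsg.Statements.S4265
import Cfsg.Agent.H14.KsChar

set_option autoImplicit false
open Cfsg

namespace Cfsg.Agent.S4265

/-- Let G be a finite solvable subgroup of GL_r(ℂ), r ≥ 1, with Fitting subgroup F(G) normal in G. Then for every subgroup H of G the quotient H/(H ∩ F(G)) has at most 3^{r−1} conjugacy classes. -/
theorem result (r : ℕ) (hr : 1 ≤ r) (G : Subgroup (GL (Fin r) ℂ)) [Finite ↥G] (hsolv : Group.IsSolvable ↥G) [hF : (Cfsg.fittingSubgroup ↥G).Normal] (H : Subgroup ↥G) : Nat.card (ConjClasses (↥H ⧸ (Cfsg.fittingSubgroup ↥G).subgroupOf H)) ≤ 3 ^ (r - 1) := by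
  let ρ : Representation ℂ G (Fin r → ℂ) :=
    (Matrix.toLinAlgEquiv' : Matrix (Fin r) (Fin r) ℂ ≃ₐ[ℂ] _).toMonoidHom.comp
      ((Units.coeHom _).comp G.subtype)
  have hk : H28.charKer ρ.character = ⊥ := by
    rw [H28.charKer_rep, MonoidHom.ker_eq_bot_iff]
    exact (Matrix.toLinAlgEquiv' : Matrix (Fin r) (Fin r) ℂ ≃ₐ[ℂ] _).injective.comp
      (Units.val_injective.comp G.subtype_injective)
  exact ((H14.Ks.ks_char r G ρ.character hsolv (H28.isCharacter_rep ρ) hk
    (by rw [H28.charDegree_rep, Module.finrank_fin_fun])).quot_sub H).kk_le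

end Cfsg.Agent.S4265
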