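import Cfsg.Statements.S4331
import Cfsg.Agent.Base
import Cfsg.Agent.H2.Misc1
import Cfsg.Agent.H29.Burnside
import Cfsg.Agent.H10.CharP

set_option autoImplicit false
open Cfsg

namespace Cfsg.Agent.S4331

open Subgroup

/-- the maps `z ↦ (a + b i) σ_e(z) + (x + y i)` of the field with nine elements -/
def AG : Type := {p : ZMod 3 × ZMod 3 × ZMod 3 × ZMod 3 × ZMod 3 //
  p.2.2.1 * p.2.2.1 = 1 ∧ (p.1 * p.1 + p.2.1 * p.2.1) * (p.1 * p.1 + p.2.1 * p.2.1) = 1}

instance : DecidableEq AG := inferInstanceAs (DecidableEq (Subtype _))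
instance : Fintype AG := inferInstanceAs (Fintype (Subtype _))

instance : Mul AG := ⟨fun ⟨(a, b, e, x, y), h⟩ ⟨(c, d, f, u, v), k⟩ =>
  ⟨(a * c - e * b * d, b * c + e * a * d, e * f, a * u - e * b * v + x, b * u + e * a * v + y),
    (by decide +kernel : ∀ a b e c d f : ZMod 3, e * e = 1 ∧ (a * a + b * b) * (a * a + b * b) = 1 →
      f * f = 1 ∧ (c * c + d * d) * (c * c + d * d) = 1 → e * f * (e * f) = 1 ∧
      ((a * c - e * b * d) * (a * c - e * b * d) + (b * c + e * a * d) * (b * c + e * a * d)) *
      ((a * c - e * b * d) * (a * c - e * b * d) + (b * c + e * a * d) * (b * c + e * a * d)) = 1)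
      a b e c d f h k⟩⟩
instance : One AG := ⟨⟨(1, 0, 1, 0, 0), by decide⟩⟩
instance : Inv AG := ⟨fun g => g * g * g * (g * g * g * g) * (g * g * g * g * (g * g * g * g)) *
  (g * g * g * g * (g * g * g * g))⟩

instance : Group AG := Group.ofLeftAxioms
  (fun ⟨(a, b, e, x, y), h⟩ ⟨(c, d, f, u, v), k⟩ ⟨(r, s, t, w, z), l⟩ => Subtype.ext (by
    have h1 : e * e = 1 := h.1
    refine Prod.ext ?_ (Prod.ext ?_ (Prod.ext ?_ (Prod.ext ?_ ?_)))
    · show (a * c - e * b * d) * r - e * f * (b * c + e * a * d) * s =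
        a * (c * r - f * d * s) - e * b * (d * r + f * c * s)
      linear_combination (-f * a * d * s) * h1
    · show (b * c + e * a * d) * r + e * f * (a * c - e * b * d) * s =
        b * (c * r - f * d * s) + e * a * (d * r + f * c * s)
      linear_combination (-f * b * d * s) * h1
    · exact mul_assoc e f t
    · show (a * c - e * b * d) * w - e * f * (b * c + e * a * d) * z + (a * u - e * b * v + x) =
        a * (c * w - f * d * z + u) - e * b * (d * w + f * c * z + v) + x
      linear_combination (-f * a * d * z) * h1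
    · show (b * c + e * a * d) * w + e * f * (a * c - e * b * d) * z + (b * u + e * a * v + y) =
        b * (c * w - f * d * z + u) + e * a * (d * w + f * c * z + v) + y
      linear_combination (-f * b * d * z) * h1))
  (by decide +kernel) (by decide +kernel)

/-- the field automorphism -/
def sg : AG := ⟨(1, 0, -1, 0, 0), by decide⟩
/-- a translation -/
def tr : AG := ⟨(1, 0, 1, 0, 1), by decide⟩

/-- the stabiliser of zero -/
def St : Subgroup AG where
  carrier := {g | g.1.2.2.2 = 0}
  one_mem' := rfl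
  mul_mem' := fun {g g'} ha hb => by
    obtain ⟨⟨a, b, e, x, y⟩, h⟩ := g
    obtain ⟨⟨c, d, f, u, v⟩, k⟩ := g'
    obtain ⟨rfl, rfl⟩ := Prod.ext_iff.1 ha
    obtain ⟨rfl, rfl⟩ := Prod.ext_iff.1 hb
    exact Prod.ext (show a * 0 - e * b * 0 + 0 = 0 by ring) (show b * 0 + e * a * 0 + 0 = 0 by ring)
  inv_mem' := fun {a} => (by decide +kernel : ∀ a : AG, a.1.2.2.2 = 0 → a⁻¹.1.2.2.2 = 0) a

/-- There is a finite solvable group G with a subgroup A of order 2 such that every conjugacy class of G contains an element g for which A is subnormal in the subgroup generated by A and g, and yet A is not contained in O_2(G). (So the corresponding criteria for odd primes fail at the prime 2, even for solvable groups.) -/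
theorem result :
    ∃ (G : Type) (_ : Group G) (_ : Finite G) (A : Subgroup G), Group.IsSolvable G ∧ Nat.card A = 2 ∧
      (∀ c : G, ∃ g : G, IsConj c g ∧ (A.subgroupOf (A ⊔ Subgroup.zpowers g)).IsSubnormal) ∧
      ¬ A ≤ Cfsg.pCore 2 G := by
  have o2 : orderOf sg = 2 := orderOf_eq_prime (by decide +kernel) (by decide +kernel)
  refine ⟨AG, inferInstance, inferInstance, zpowers sg, H29.isSolvable_of_card_dvd_pow_mul_pow (p := 2) (q := 3)
    (a := 4) (b := 2) Nat.prime_two Nat.prime_three (by
      rw [Nat.card_eq_fintype_card, show Fintype.card AG = 144 by decide +kernel]; norm_num),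
    by rw [Nat.card_zpowers, o2], fun c => ?_, fun h => ?_⟩
  · obtain ⟨h, e⟩ := (by decide +kernel : ∀ c : AG, ∃ h : AG, (h⁻¹ * c * h).1.2.2.2 = 0 ∨
      h⁻¹ * c * h * sg = sg * (h⁻¹ * c * h)) c
    refine ⟨h⁻¹ * c * h, isConj_iff.2 ⟨h⁻¹, by rw [inv_inv]⟩, ?_⟩
    generalize h⁻¹ * c * h = g at e
    rcases e with e | e
    · have hS : IsPGroup 2 St := fun g => ⟨3, Subtype.ext
        ((by decide +kernel : ∀ a : AG, a.1.2.2.2 = 0 → a ^ 2 ^ 3 = 1) g g.2)⟩
      have := (hS.to_le (sup_le (zpowers_le.2 (show sg ∈ St from rfl)) (zpowers_le.2 (show g ∈ St from e)))).isNilpotent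
      exact H2.isSubnormal_of_isNilpotent _
    · refine Normal.isSubnormal ((normal_subgroupOf_iff_le_normalizer le_sup_left).2 (sup_le le_normalizer
        (zpowers_le.2 (centralizer_le_normalizer _ (mem_centralizer_iff.2 ?_)))))
      rintro _ ⟨k, rfl⟩
      exact (Commute.zpow_right e k).eq.symm
  · have := H2.pCore_characteristic 2 AG
    have m := h (mem_zpowers sg)
    have := H10.eq_one_of_mem_isPGroup_of_coprime (H2.pCore_isPGroup 2 AG)
      (mul_mem m (Normal.conj_mem inferInstance _ m tr))
      (by rw [orderOf_eq_prime (p := 3) (by decide +kernel) (by decide +kernel)]; norm_num)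
    revert this
    decide +kernel

end Cfsg.Agent.S4331
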