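import Cfsg.Statements.S4332
import Cfsg.Agent.Base
import Cfsg.Agent.H2.Core

set_option autoImplicit false
open Pointwise
open Cfsg

namespace Cfsg.Agent.S4332

theorem triple (c : Equiv.Perm (Fin 8)) : ∃ a b d, a ≠ b ∧ a ≠ d ∧ b ≠ d ∧
    ((c a = a ∧ c b = b ∧ c d = d) ∨ (c a = b ∧ c b = d ∧ c d = a) ∨
      ∀ x ∈ [a, b, d], ∀ y ∈ [a, b, d], c x ≠ y) := by
  by_cases h : 2 < c.supportᶜ.card
  · obtain ⟨a, ha, b, hb, d, hd, e⟩ := Finset.two_lt_card.1 h
    simp only [Finset.mem_compl, Equiv.Perm.notMem_support] at ha hb hd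
    exact ⟨a, b, d, e.1, e.2.1, e.2.2, .inl ⟨ha, hb, hd⟩⟩
  rw [Finset.card_compl, Fintype.card_fin] at h
  have k : ∀ l : List (Fin 8), l.length ≤ 5 → ∃ x, c x ≠ x ∧ x ∉ l := fun l hl => by
    obtain ⟨x, a, b⟩ := Finset.exists_mem_notMem_of_card_lt_card (s := l.toFinset) (t := c.support)
      ((List.toFinset_card_le l).trans_lt (by omega))
    exact ⟨x, Equiv.Perm.mem_support.1 a, by simpa using b⟩
  obtain ⟨a, ha, -⟩ := k [] (by simp)
  have h1 : c (c a) ≠ c a := c.injective.ne ha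
  by_cases h2 : c (c a) = a
  · obtain ⟨b, hb, e⟩ := k [a, c a] (by simp)
    obtain ⟨d, hd, e'⟩ := k [a, c a, b, c b, c.symm b] (by simp)
    simp only [List.mem_cons, List.not_mem_nil, or_false, not_or, Equiv.eq_symm_apply] at e e'
    refine ⟨a, b, d, Ne.symm e.1, Ne.symm e'.1, Ne.symm e'.2.2.1, .inr (.inr ?_)⟩
    have x : c b ≠ a := fun x => e.2 (c.injective (x.trans h2.symm))
    have y : c d ≠ a := fun x => e'.2.1 (c.injective (x.trans h2.symm))
    simp [ha, hb, hd, x, y, Ne.symm e.2, Ne.symm e'.2.1, Ne.symm e'.2.2.2.1, e'.2.2.2.2]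
  by_cases h3 : c (c (c a)) = a
  · exact ⟨a, c a, c (c a), ha.symm, Ne.symm h2, h1.symm, .inr (.inl ⟨rfl, rfl, h3⟩)⟩
  obtain ⟨d, hd, e⟩ := k [a, c a, c (c a), c (c (c a)), c.symm a] (by simp)
  simp only [List.mem_cons, List.not_mem_nil, or_false, not_or, Equiv.eq_symm_apply] at e
  refine ⟨a, c (c a), d, Ne.symm h2, Ne.symm e.1, Ne.symm e.2.2.1, .inr (.inr ?_)⟩
  simp [ha, hd, h3, ha.symm, Ne.symm e.2.1, Ne.symm e.2.2.2.1, e.2.2.2.2, e.2.1]

open Equiv in
theorem exists_comm (c : Perm (Fin 8)) : ∃ τ : Perm (Fin 8), τ.IsThreeCycle ∧ Commute τ (c * τ * c⁻¹) := by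
  obtain ⟨a, b, d, h1, h2, h3, h⟩ := triple c
  refine ⟨_, Perm.isThreeCycle_swap_mul_swap_same h1 h2 h3, ?_⟩
  rw [← conj_mul, ← swap_apply_apply, ← swap_apply_apply]
  rcases h with ⟨x, y, z⟩ | ⟨x, y, z⟩ | h
  · rw [x, y, z]
  · rw [x, y, z, show swap b d * swap b a = swap a b * swap a d from Perm.ext fun x => by
      simp only [Perm.mul_apply, swap_apply_def]; grind]
  · refine Perm.Disjoint.commute fun x => ?_
    simp only [List.forall_mem_cons, List.not_mem_nil, IsEmpty.forall_iff, implies_true] at h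
    simp only [Perm.mul_apply, swap_apply_def]
    grind

/-- In the symmetric group of degree 8, let A be the subgroup generated by a 3-cycle. Then every conjugacy class contains an element g for which A is subnormal in the subgroup generated by A and its conjugate by g, although O_3 of the symmetric group of degree 8 is trivial. -/
theorem result
    (σ : Equiv.Perm (Fin 8)) (hσ : σ.IsThreeCycle) :
    (∀ c : Equiv.Perm (Fin 8), ∃ g : Equiv.Perm (Fin 8), IsConj c g ∧
      ((Subgroup.zpowers σ).subgroupOf (Subgroup.zpowers σ ⊔ MulAut.conj g • Subgroup.zpowers σ)).IsSubnormal) ∧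
    Cfsg.pCore 3 (Equiv.Perm (Fin 8)) = ⊥ := by
  refine ⟨fun c => ?_, H2.pCore_eq_bot_iff.2 fun N hN h => by_contra fun e => ?_⟩
  · obtain ⟨τ, h1, h2⟩ := exists_comm c
    obtain ⟨x, rfl⟩ := isConj_iff.1 (Equiv.Perm.isConj_of_cycleType_eq (hσ.cycleType.trans h1.cycleType.symm))
    refine ⟨x⁻¹ * c * x, isConj_iff.2 ⟨x⁻¹, by simp⟩, Subgroup.Normal.isSubnormal ?_⟩
    have k : Commute σ (x⁻¹ * c * x * σ * (x⁻¹ * c * x)⁻¹) := by
      simpa [mul_assoc] using h2.map (MulAut.conj x⁻¹)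
    refine (Subgroup.normal_subgroupOf_iff_le_normalizer le_sup_left).2
      (sup_le Subgroup.le_normalizer ?_)
    refine le_trans ?_ (Subgroup.centralizer_le_normalizer _)
    rintro _ ⟨_, ⟨m, rfl⟩, rfl⟩ _ ⟨n, rfl⟩
    have := (k.zpow_zpow n m).eq
    rw [conj_zpow] at this
    exact this
  · have h1 := Subgroup.card_dvd_of_le (Equiv.Perm.alternatingGroup_le_of_normal (α := Fin 8) (by simp)
      ((Subgroup.nontrivial_iff_ne_bot N).2 e))
    obtain ⟨n, hn⟩ := h.exists_card_eq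
    have h2 : Nat.card (alternatingGroup (Fin 8)) = 20160 := by
      rw [nat_card_alternatingGroup]; simp [Nat.factorial]
    rw [h2, hn] at h1
    have := Nat.Prime.dvd_of_dvd_pow Nat.prime_two (dvd_trans (by norm_num) h1)
    omega

end Cfsg.Agent.S4332
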