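import Cfsg.Statements.S4342
import Cfsg.Agent.Base

set_option autoImplicit false
open Cfsg

namespace Cfsg.Agent.S4342

/-- Let H be a normal subgroup of a finite group G and p a prime not dividing the index of H. Then the number of Sylow p-subgroups of H/Z(H) equals the number of Sylow p-subgroups of G. -/
theorem result {G : Type*} [Group G] [Finite G]
    (p : ℕ) [Fact p.Prime] (H : Subgroup G) [H.Normal] (hp : ¬ p ∣ H.index) :
    Nat.card (Sylow p (H ⧸ Subgroup.center H)) = Nat.card (Sylow p G) := by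
  have hle : ∀ P : Sylow p G, (P : Subgroup G) ≤ H := by
    intro P x hx
    obtain ⟨k, hk⟩ := P.isPGroup' ⟨x, hx⟩
    have h1 : (x : G ⧸ H) ^ p ^ k = 1 := by
      rw [← QuotientGroup.mk_pow, show x ^ p ^ k = 1 from congrArg Subtype.val hk,
        QuotientGroup.mk_one]
    have h2 : (x : G ⧸ H) ^ H.index = 1 := pow_card_eq_one'
    have h3 : Nat.Coprime (p ^ k) H.index :=
      Nat.Coprime.pow_left k ((Nat.Prime.coprime_iff_not_dvd Fact.out).2 hp)
    have h4 := Nat.dvd_gcd (orderOf_dvd_of_pow_eq_one h1) (orderOf_dvd_of_pow_eq_one h2)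
    rw [h3, Nat.dvd_one, orderOf_eq_one_iff, QuotientGroup.eq_one_iff] at h4
    exact h4
  have e1 : Nat.card (Sylow p G) = Nat.card (Sylow p H) := by
    refine Nat.card_eq_of_bijective (fun P => P.subtype (hle P)) ⟨fun P Q h => Sylow.subtype_injective h, ?_⟩
    intro Q
    obtain ⟨P, hP⟩ := Q.exists_comap_subtype_eq
    exact ⟨P, Sylow.ext hP⟩
  rw [e1]
  symm
  refine Nat.card_eq_of_bijective (Sylow.mapSurjective (QuotientGroup.mk'_surjective (Subgroup.center H)))
    ⟨?_, Sylow.mapSurjective_surjective _ p⟩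
  intro P Q h
  have h1 : (P : Subgroup H).map (QuotientGroup.mk' (Subgroup.center H))
      = (Q : Subgroup H).map (QuotientGroup.mk' (Subgroup.center H)) := congrArg Sylow.toSubgroup h
  have h2 : (Q : Subgroup H) ≤ Subgroup.normalizer (P : Set H) := by
    have h3 := congrArg (Subgroup.comap (QuotientGroup.mk' (Subgroup.center H))) h1
    rw [Subgroup.comap_map_eq, Subgroup.comap_map_eq, QuotientGroup.ker_mk'] at h3
    refine le_sup_left.trans (h3.symm.le.trans (sup_le (P : Subgroup H).le_normalizer ?_))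
    exact Subgroup.center_le_normalizer _
  have h4 := Q.isPGroup'.inf_normalizer_sylow P
  rw [inf_of_le_left h2] at h4
  have h5 : (Q : Subgroup H) ≤ P := h4 ▸ inf_le_right
  exact Sylow.ext (Q.is_maximal' P.isPGroup' h5)

end Cfsg.Agent.S4342
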