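import Cfsg.Statements.S4344
import Cfsg.Agent.Base

set_option autoImplicit false
open Cfsg

namespace Cfsg.Agent.S4344

/-- Let S be a finite non-abelian simple group, M a maximal subgroup of S and C a cyclic normal subgroup of M. If a Sylow p-subgroup P of S (for a prime p dividing the order of S) is contained in C, then the number of Sylow p-subgroups of S equals the index of M. -/
theorem result {S : Type*} [Group S] [Finite S]
    [IsSimpleGroup S] (hS : ¬ IsMulCommutative S) (p : ℕ) [Fact p.Prime] (hp : p ∣ Nat.card S)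
    (M : Subgroup S) (hM : IsCoatom M) (C : Subgroup S) (hCM : C ≤ M) (hCn : (C.subgroupOf M).Normal)
    (hC : IsCyclic C) (P : Sylow p S) (hP : (P : Subgroup S) ≤ C) :
    Nat.card (Sylow p S) = M.index := by
  have hMN : M ≤ Subgroup.normalizer (P : Set S) := by
    intro m hm
    rw [← Sylow.smul_eq_iff_mem_normalizer]
    have h1 : ((m • P : Sylow p S) : Subgroup S) ≤ C := by
      intro y hy
      rw [Sylow.coe_subgroup_smul, Subgroup.mem_pointwise_smul_iff_inv_smul_mem] at hy
      have h2 := (Subgroup.normal_subgroupOf_iff hCM).1 hCn _ m (hP hy) hm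
      simpa [mul_assoc] using h2
    have h2 : ((m • P : Sylow p S) : Subgroup S) ≤ Subgroup.normalizer (P : Set S) := by
      refine h1.trans ?_
      intro c hc
      apply Subgroup.mem_normalizer_fintype
      intro n hn
      have : (⟨c, hc⟩ : C) * ⟨n, hP hn⟩ = ⟨n, hP hn⟩ * ⟨c, hc⟩ := hC.commGroup.mul_comm _ _
      have h3 : c * n = n * c := congrArg Subtype.val this
      rw [h3, mul_inv_cancel_right]
      exact hn
    have h4 := (m • P).isPGroup'.inf_normalizer_sylow P
    rw [inf_of_le_left h2] at h4
    have h5 : ((m • P : Sylow p S) : Subgroup S) ≤ P := h4 ▸ inf_le_right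
    exact Sylow.ext ((m • P).is_maximal' P.isPGroup' h5).symm
  have hN : Subgroup.normalizer (P : Set S) ≠ ⊤ := by
    intro h
    have hn : (P : Subgroup S).Normal := Subgroup.normalizer_eq_top_iff.1 h
    rcases hn.eq_bot_or_eq_top with h0 | h0
    · exact P.ne_bot_of_dvd_card hp h0
    · exact hM.1 (top_le_iff.1 (h0 ▸ hP.trans hCM))
  rw [P.card_eq_index_normalizer]
  rcases hMN.eq_or_lt with h | h
  · rw [← h]
  · exact absurd (hM.2 _ h) hN

end Cfsg.Agent.S4344
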