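import Cfsg.Statements.S4345
import Cfsg.Agent.Base
import Cfsg.Agent.H25.SylowNum

set_option autoImplicit false
open Cfsg

namespace Cfsg.Agent.S4345


/-- Let G be a finite solvable group and p, ℓ primes. Then the largest power of ℓ dividing the number of Sylow p-subgroups of G is congruent to 1 modulo p. -/
theorem result {G : Type*} [Group G] [Finite G]
    (hG : Group.IsSolvable G) (p ℓ : ℕ) [Fact p.Prime] (hℓ : ℓ.Prime) :
    ℓ ^ (Nat.card (Sylow p G)).factorization ℓ ≡ 1 [MOD p] := by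
  have hp : p.Prime := Fact.out
  refine (H25.card_sylow_induction (p := p) (fun n => n ≠ 0 ∧ ℓ ^ n.factorization ℓ ≡ 1 [MOD p])
    ⟨one_ne_zero, by simp [Nat.ModEq]⟩ ?_ ?_ (fun X _ => Group.IsSolvable X)
    (fun _ _ _ _ => inferInstance) (fun _ _ _ _ _ => inferInstance) ?_ G hG).2
  · rintro a b ⟨ha, ha'⟩ ⟨hb, hb'⟩
    refine ⟨mul_ne_zero ha hb, ?_⟩
    rw [Nat.factorization_mul ha hb, Finsupp.add_apply, pow_add]
    simpa using ha'.mul hb'
  · intro m h1 h2
    refine ⟨h1.ne_zero, ?_⟩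
    obtain ⟨q, k, hq, hk, rfl⟩ := (isPrimePow_nat_iff m).1 h1
    rw [hq.factorization_pow, Finsupp.single_apply]
    split_ifs with h
    · subst h
      rwa [Nat.ModEq, Nat.mod_eq_of_lt hp.one_lt]
    · simp [Nat.ModEq]
  · intro S _ _ hS hsol
    have hc : IsMulCommutative S := ⟨⟨IsSimpleGroup.comm_iff_isSolvable.2 hsol⟩⟩
    obtain ⟨P⟩ : Nonempty (Sylow p S) := inferInstance
    have : (P : Subgroup S).Normal := ⟨fun n hn g => by
      rw [hc.is_comm.comm g n]; simpa using hn⟩
    have := P.unique_of_normal this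
    simp [Nat.ModEq]

end Cfsg.Agent.S4345
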