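import Cfsg.Statements.S4346
import Cfsg.Agent.Base
import Cfsg.Agent.H25.SylowNot
import Cfsg.Agent.H25.Syl22b

set_option autoImplicit false
open Cfsg

namespace Cfsg.Agent.S4346


/-- No finite group has exactly 22 Sylow 3-subgroups. -/
theorem result {G : Type*} [Group G] [Finite G] : Nat.card (Sylow 3 G) ≠ 22 := by
  refine H25.card_sylow_ne_of_simple (by norm_num)
    (H25.not_isPrimePow_mul (a := 2) (b := 11) (by norm_num) (by norm_num) (by norm_num)) ?_ ?_ G
  · intro a b hab ha hb
    have h1 : a ≤ 22 := Nat.le_of_dvd (by norm_num) (Dvd.intro _ hab)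
    interval_cases a <;> omega
  · intro S _ _ _ hS _ hn
    exact H25.S22.false_of_simple hn hS

end Cfsg.Agent.S4346
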