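import Cfsg.Statements.S4354
import Cfsg.Agent.H18.Elt

set_option autoImplicit false
open Cfsg

namespace Cfsg.Agent.S4354

/-- Let G be a finite group and p a prime such that the Sylow p-subgroups of G are non-abelian while every element of p-power order has conjugacy class size prime to p, and suppose no nontrivial proper normal subgroup N of G has this property and no quotient G/N by such an N has it. Then G is simple. -/
theorem result {G : Type*} [Group G] [Finite G]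
    (p : ℕ) [Fact p.Prime] (h : ((∃ P : Sylow p G, ¬ IsMulCommutative P) ∧ ∀ x : G, (∃ k : ℕ, orderOf x = p ^ k) → ¬ p ∣ (Subgroup.centralizer ({x} : Set G)).index))
    (hmin : ∀ (N : Subgroup G) [N.Normal], N ≠ ⊥ → N ≠ ⊤ →
      ¬ ((∃ P : Sylow p N, ¬ IsMulCommutative P) ∧ ∀ x : N, (∃ k : ℕ, orderOf x = p ^ k) → ¬ p ∣ (Subgroup.centralizer ({x} : Set N)).index) ∧
      ¬ ((∃ P : Sylow p (G ⧸ N), ¬ IsMulCommutative P) ∧ ∀ x : (G ⧸ N), (∃ k : ℕ, orderOf x = p ^ k) → ¬ p ∣ (Subgroup.centralizer ({x} : Set (G ⧸ N))).index)) :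
    IsSimpleGroup G := by
  obtain ⟨⟨P, hP⟩, hc⟩ := h
  have hp : p.Prime := Fact.out
  haveI : Nontrivial G := by
    by_contra hG
    rw [not_nontrivial_iff_subsingleton] at hG
    exact hP ⟨⟨fun a b => Subsingleton.elim _ _⟩⟩
  refine ⟨fun N hN => ?_⟩
  by_contra hne
  push Not at hne
  obtain ⟨h1, h2⟩ := hmin N hne.1 hne.2
  have h3 : ∀ Q : Sylow p N, IsMulCommutative Q := fun Q => by
    by_contra hQ
    refine h1 ⟨⟨Q, hQ⟩, fun x hx hd => hc x (by simpa using hx) ?_⟩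
    exact hd.trans (H18.index_centralizer_normal_dvd N x)
  have h4 : ∀ Q : Sylow p (G ⧸ N), IsMulCommutative Q := fun Q => by
    by_contra hQ
    refine h2 ⟨⟨Q, hQ⟩, fun x hx hd => ?_⟩
    obtain ⟨x, rfl, hx'⟩ := H18.exists_lift_primePow _ (QuotientGroup.mk'_surjective N) hp hx
    exact hc x hx' (hd.trans (H18.index_centralizer_map_dvd _ (QuotientGroup.mk'_surjective N) x))
  have h5 : ∀ a ∈ (P : Subgroup G), ∀ b ∈ (P : Subgroup G), a ∈ N → b ∈ N → a * b = b * a := by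
    intro a ha b hb haN hbN
    obtain ⟨Q, hQ⟩ := ((H98.isSyl_sylow P).inf_of_le_normalizer (N := N) le_top
      Subgroup.le_normalizer_of_normal).exists_sylow
    have := (h3 Q).1.1 ⟨⟨a, haN⟩, by rw [hQ]; exact ⟨ha, haN⟩⟩ ⟨⟨b, hbN⟩, by rw [hQ]; exact ⟨hb, hbN⟩⟩
    exact congrArg (fun x : (Q : Subgroup N) => ((x : N) : G)) this
  have h6 : ∀ (Q : Sylow p G), ∀ a ∈ (Q : Subgroup G), (Q : Subgroup G) ≤
      (Subgroup.centralizer {QuotientGroup.mk' N a}).comap (QuotientGroup.mk' N) := by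
    intro Q a ha b hb
    rw [Subgroup.mem_comap, Subgroup.mem_centralizer_singleton_iff]
    have := (h4 (Q.mapSurjective (QuotientGroup.mk'_surjective N))).1.1 ⟨_, b, hb, rfl⟩
      ⟨_, a, ha, rfl⟩
    exact congrArg Subtype.val this
  have h7 : ∀ x ∈ (P : Subgroup G), ∃ z ∈ (P : Subgroup G), (∀ y ∈ (P : Subgroup G), y * z = z * y)
      ∧ x * z⁻¹ ∈ N := by
    intro x hx
    obtain ⟨k, hk⟩ := IsPGroup.iff_orderOf.1 P.isPGroup' ⟨x, hx⟩
    have hk' : ∃ k, orderOf x = p ^ k := ⟨k, by rw [← hk, ← Subgroup.orderOf_coe]⟩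
    obtain ⟨Q, hQ⟩ := H18.exists_sylow_le_of_not_dvd (hc x hk')
    have hxQ := H18.mem_sylow_of_le_centralizer Q ((H18.exists_orderOf_eq_pow_iff hp).1 hk') hQ
    obtain ⟨c, hc1, hc2⟩ := (H98.isSyl_sylow_of_le Q (h6 Q x hxQ)).exists_cj_eq
      (H98.isSyl_sylow_of_le P (h6 P x hx))
    refine ⟨c * x * c⁻¹, hc2 ▸ H98.conj_mem_cj hxQ, fun y hy => ?_, ?_⟩
    · rw [← hc2, H98.mem_cj] at hy
      have := Subgroup.mem_centralizer_singleton_iff.1 (hQ hy)
      calc y * (c * x * c⁻¹) = c * (c⁻¹ * y * c * x) * c⁻¹ := by group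
        _ = c * (x * (c⁻¹ * y * c)) * c⁻¹ := by rw [this]
        _ = _ := by group
    · rw [Subgroup.mem_comap, Subgroup.mem_centralizer_singleton_iff] at hc1
      rw [← QuotientGroup.eq_one_iff, ← QuotientGroup.mk'_apply]
      simp only [map_mul, map_inv, hc1]
      group
  refine hP ⟨⟨fun a b => Subtype.ext ?_⟩⟩
  obtain ⟨z, hz, hz1, hz2⟩ := h7 a a.2
  obtain ⟨w, hw, hw1, hw2⟩ := h7 b b.2
  have h8 := h5 _ (mul_mem a.2 (inv_mem hz)) _ (mul_mem b.2 (inv_mem hw)) hz2 hw2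
  have e1 : Commute (a : G) w := hw1 a a.2
  have e2 : Commute (b : G) z := hz1 b b.2
  have e3 : Commute z w := hw1 z hz
  have h9 : Commute ((a : G) * z⁻¹ * z) (b * w⁻¹ * w) :=
    Commute.mul_left (Commute.mul_right h8 (e1.mul_left e3.inv_left))
      (Commute.mul_right (e2.symm.mul_right e3.inv_right) e3)
  simpa using h9.eq

end Cfsg.Agent.S4354
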