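import Cfsg.Statements.S4359
import Cfsg.Agent.Base
import Cfsg.Agent.H3.FrattiniP

set_option autoImplicit false
open Pointwise
open Cfsg

namespace Cfsg.Agent.S4359

open Subgroup
open scoped commutatorElement

section Abstract

variable {G : Type*} [Group G]

/-- the subgroup generated by a segment of a sequence -/
def seg (y : ℤ → G) (a b : ℤ) : Subgroup G := closure (y '' Set.Icc a b)

theorem mem_seg (y : ℤ → G) {a b c : ℤ} (h1 : a ≤ c) (h2 : c ≤ b) : y c ∈ seg y a b :=
  subset_closure ⟨c, ⟨h1, h2⟩, rfl⟩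

theorem seg_le {y : ℤ → G} {a b : ℤ} {N : Subgroup G} (h : ∀ c, a ≤ c → c ≤ b → y c ∈ N) :
    seg y a b ≤ N := by
  rw [seg, closure_le]
  rintro _ ⟨c, hc, rfl⟩
  exact h c hc.1 hc.2

theorem commute_seg {y : ℤ → G} {a b : ℤ} {w x : G} (h : ∀ c, a ≤ c → c ≤ b → Commute w (y c))
    (hx : x ∈ seg y a b) : Commute w x := by
  have : seg y a b ≤ centralizer {w} :=
    seg_le fun c h1 h2 => mem_centralizer_singleton_iff.2 (h c h1 h2).symm
  exact (mem_centralizer_singleton_iff.1 (this hx)).symm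

theorem seg_split {y : ℤ → G} {a b : ℤ} {x : G}
    (h : ∀ c, a + 1 ≤ c → c ≤ b → Commute (y a) (y c)) (hx : x ∈ seg y a b) :
    ∃ m : ℤ, ∃ z ∈ seg y (a + 1) b, x = y a ^ m * z := by
  induction hx using closure_induction with
  | mem x hx =>
    obtain ⟨c, hc, rfl⟩ := hx
    by_cases hca : c = a
    · exact ⟨1, 1, one_mem _, by simp [hca]⟩
    · exact ⟨0, y c, mem_seg y (by have := hc.1; omega) hc.2, by simp⟩
  | one => exact ⟨0, 1, one_mem _, by simp⟩
  | mul u v _ _ hu hv =>
    obtain ⟨m, z, hz, rfl⟩ := hu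
    obtain ⟨m', z', hz', rfl⟩ := hv
    refine ⟨m + m', z * z', mul_mem hz hz', ?_⟩
    have := ((commute_seg h hz).zpow_left m').eq
    rw [zpow_add, mul_assoc, mul_assoc, ← mul_assoc z, ← this, mul_assoc]
  | inv u _ hu =>
    obtain ⟨m, z, hz, rfl⟩ := hu
    refine ⟨-m, z⁻¹, inv_mem hz, ?_⟩
    rw [mul_inv_rev, ← zpow_neg]
    exact (((commute_seg h hz).zpow_left (-m)).inv_right.eq).symm

theorem push_right (y : ℤ → G) (t k : ℤ) (hk : 0 < k) (hkt : k ≤ t - 1)
    (H1 : ∀ i j, i - j < k → j - i < k → Commute (y i) (y j))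
    (H2 : ∀ i, ¬ Commute (y i) (y (i + k)))
    (H3 : ∀ a b, a < b → b - a ≤ t - 1 → ⁅y a, y b⁆ ∈ seg y (a + 1) (b - 1))
    (H4 : ∀ i (m : ℤ), y i ^ m ≠ 1 → y i ∈ zpowers (y i ^ m))
    (a : ℤ) (ha : 1 ≤ a) (h1 : a ≤ t - k) (h2 : a ≤ k) : ⁅y 0, y k⁆ ∈ seg y a (k - 1) := by
  induction a, ha using Int.leInduction with
  | base => simpa using H3 0 k hk (by omega)
  | succ a ha ih =>
    have hc := ih (by omega) (by omega)
    have hd := H3 0 (a + k) (by omega) (by omega)
    have e1 : Commute (y k) ⁅y 0, y (a + k)⁆ :=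
      commute_seg (fun c h1 h2 => H1 _ _ (by omega) (by omega)) hd
    have e2 : Commute ⁅y 0, y k⁆ ⁅y 0, y (a + k)⁆ := by
      refine commute_seg (fun c h1 h2 => (commute_seg (fun c' h1' h2' => ?_) hc).symm) hd
      exact H1 _ _ (by omega) (by omega)
    have e3 : Commute (y k) (y (a + k)) := H1 _ _ (by omega) (by omega)
    have e4 : Commute (y (a + k)) ⁅y 0, y k⁆ := by
      generalize y 0 = x at *
      generalize y k = z at *
      generalize y (a + k) = w at *
      have f1 : w * x * w⁻¹ = ⁅x, w⁆⁻¹ * x := by simp only [commutatorElement_def]; group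
      have f2 : w * ⁅x, z⁆ * w⁻¹ = ⁅w * x * w⁻¹, w * z * w⁻¹⁆ := by
        simp only [commutatorElement_def]; group
      have f3 : w * z * w⁻¹ = z := by rw [← e3.eq]; group
      rw [f1, f3] at f2
      generalize ⁅x, w⁆ = d at *
      have f4 : ⁅d⁻¹ * x, z⁆ = d⁻¹ * ⁅x, z⁆ * (z * d * z⁻¹) := by
        simp only [commutatorElement_def]; group
      have f5 : z * d * z⁻¹ = d := by rw [e1.eq]; group
      rw [f4, f5, mul_assoc d⁻¹, e2.eq, inv_mul_cancel_left] at f2
      exact mul_inv_eq_iff_eq_mul.1 f2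
    obtain ⟨m, z, hz, hcz⟩ := seg_split (fun c h1 h2 => H1 _ _ (by omega) (by omega)) hc
    have e5 : Commute (y (a + k)) z :=
      commute_seg (fun c h1 h2 => H1 _ _ (by omega) (by omega)) hz
    have e6 : Commute (y (a + k)) (y a ^ m) := by
      have : y a ^ m = ⁅y 0, y k⁆ * z⁻¹ := by rw [hcz]; group
      rw [this]; exact e4.mul_right e5.inv_right
    by_cases hm : y a ^ m = 1
    · rw [hcz, hm, one_mul]; exact hz
    · exfalso
      obtain ⟨l, hl⟩ := H4 a m hm
      apply H2 a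
      have := (e6.zpow_right l).symm
      simp only at hl
      rwa [hl] at this

theorem seg_neg (y : ℤ → G) (k a b : ℤ) :
    seg (fun j => y (k - j)) a b = seg y (k - b) (k - a) := by
  apply le_antisymm
  · exact seg_le fun c h1 h2 => mem_seg y (by omega) (by omega)
  · refine seg_le fun c h1 h2 => ?_
    have := mem_seg (fun j => y (k - j)) (a := a) (b := b) (c := k - c) (by omega) (by omega)
    simpa using this

theorem two_le (y : ℤ → G) (t k : ℤ) (hk : 0 < k) (hkt : k ≤ t - 1)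
    (H1 : ∀ i j, i - j < k → j - i < k → Commute (y i) (y j))
    (H2 : ∀ i, ¬ Commute (y i) (y (i + k)))
    (H3 : ∀ a b, a < b → b - a ≤ t - 1 → ⁅y a, y b⁆ ∈ seg y (a + 1) (b - 1))
    (H4 : ∀ i (m : ℤ), y i ^ m ≠ 1 → y i ∈ zpowers (y i ^ m))
    (H5 : ∀ a b a' b', a ≤ b + 1 → b < a' → a' ≤ b' + 1 → b' - a ≤ t - 1 →
      seg y a b ⊓ seg y a' b' = ⊥) :
    2 * t ≤ 3 * k := by
  have hc : ⁅y 0, y k⁆ ≠ 1 := fun h => H2 0 (by
    rw [zero_add]; exact commutatorElement_eq_one_iff_commute.1 h)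
  by_cases h : k ≤ t - k
  · exfalso
    have h1 := push_right y t k hk hkt H1 H2 H3 H4 k (by omega) h le_rfl
    have h2 : seg y k (k - 1) ≤ ⊥ := seg_le fun c h1 h2 => by omega
    exact hc (mem_bot.1 (h2 h1))
  have h1 := push_right y t k hk hkt H1 H2 H3 H4 (t - k) (by omega) le_rfl (by omega)
  have h2 := push_right (fun j => y (k - j)) t k hk hkt
    (fun i j h1 h2 => H1 _ _ (by omega) (by omega))
    (fun i h => H2 (k - (i + k)) (by
      have e : k - (i + k) + k = k - i := by ring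
      rw [e]; exact h.symm))
    (fun a b h1 h2 => by
      rw [seg_neg, ← commutatorElement_inv]
      apply inv_mem
      have := H3 (k - b) (k - a) (by omega) (by omega)
      convert this using 2 <;> ring)
    (fun i => H4 _) (t - k) (by omega) le_rfl (by omega)
  rw [seg_neg] at h2
  simp only [sub_zero, sub_self] at h2
  rw [← commutatorElement_inv, inv_mem_iff] at h2
  by_contra hlt
  have h3 := H5 (k - (k - 1)) (k - (t - k)) (t - k) (k - 1) (by omega) (by omega) (by omega)
    (by omega)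
  exact hc (mem_bot.1 (h3 ▸ (⟨h2, h1⟩ : _ ∈ seg y _ _ ⊓ seg y _ _)))

end Abstract

section Structure

variable {G : Type*} [Group G]

theorem card_sm (ψ : MulAut G) (H : Subgroup G) : Nat.card (ψ • H : Subgroup G) = Nat.card H :=
  (Nat.card_congr (equivSMul ψ H).toEquiv).symm

theorem smul_eq_of_le [Finite G] (ψ : MulAut G) {H : Subgroup G} (h : ψ • H ≤ H) : ψ • H = H :=
  eq_of_le_of_card_ge h (by rw [card_sm])

theorem eq_or_eq [Finite G] {A B C : Subgroup G} {p : ℕ} (hp : p.Prime) (hAB : A ≤ B) (hBC : B ≤ C)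
    (h : Nat.card A * p = Nat.card C) : B = A ∨ B = C := by
  obtain ⟨u, hu⟩ := card_dvd_of_le hAB
  obtain ⟨v, hv⟩ := card_dvd_of_le hBC
  have h1 : u * v = p := by
    apply Nat.eq_of_mul_eq_mul_left (Nat.card_pos (α := A))
    rw [h, hv, hu, mul_assoc]
  rcases (Nat.dvd_prime hp).1 (Dvd.intro _ h1) with h2 | h2
  · left
    exact (eq_of_le_of_card_ge hAB (by rw [hu, h2, mul_one])).symm
  · right
    have : v = 1 := Nat.eq_of_mul_eq_mul_left hp.pos (by rw [mul_one]; rw [h2] at h1; exact h1)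
    exact eq_of_le_of_card_ge hBC (by rw [hv, this, mul_one])

theorem relIndex_of_card [Finite G] {A C : Subgroup G} {p : ℕ} (hAC : A ≤ C)
    (h : Nat.card A * p = Nat.card C) : (A.subgroupOf C).index = p := by
  have h1 := (A.subgroupOf C).card_mul_index
  rw [Nat.card_congr (subgroupOfEquivOfLe hAC).toEquiv, ← h] at h1
  exact Nat.eq_of_mul_eq_mul_left Nat.card_pos h1

theorem isPGroup_P [Finite G] (P : Subgroup G) (φ : MulAut G) (p : ℕ) (hp : p.Prime)
    (hN : ((P ⊓ φ • P).subgroupOf (φ • P)).Normal)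
    (hidx : (P ⊓ φ • P).relIndex (φ • P) = p)
    (h1 : ∀ Q : Subgroup G, Q ≤ P → (Q.subgroupOf P).Normal → φ • Q = Q → Q = ⊥) :
    IsPGroup p P := by
  have : Fact p.Prime := ⟨hp⟩
  let S : Set G := {x | x ∈ P ∧ (orderOf x).Coprime p}
  have key : ∀ ψ : MulAut G, (∀ x ∈ S, ψ x ∈ P) → ψ • closure S = closure S := by
    intro ψ h
    apply smul_eq_of_le
    rw [smul_closure, closure_le]
    rintro _ ⟨x, hx, rfl⟩
    refine subset_closure ⟨h x hx, ?_⟩
    have : orderOf (ψ x) = orderOf x := ψ.orderOf_eq x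
    change (orderOf (ψ x)).Coprime p
    rw [this]; exact hx.2
  have hle : closure S ≤ P := by rw [closure_le]; exact fun x hx => hx.1
  have hbot : closure S = ⊥ := by
    refine h1 _ hle ?_ (key φ ?_)
    · rw [normal_subgroupOf_iff_le_normalizer hle]
      intro u hu
      rw [mem_normalizer_iff_map_conj_eq]
      exact key (MulAut.conj u) (fun x hx => P.mul_mem (P.mul_mem hu hx.1) (P.inv_mem hu))
    · intro x hx
      have hx' : φ x ∈ φ • P := smul_mem_pointwise_smul _ _ _ hx.1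
      have h2 := ((P ⊓ φ • P).subgroupOf (φ • P)).pow_index_mem ⟨φ x, hx'⟩
      have h3 : ((P ⊓ φ • P).subgroupOf (φ • P)).index = p := hidx
      rw [h3] at h2
      have h4 : (φ x) ^ p ∈ P := (mem_subgroupOf.1 h2).1
      have h5 : (orderOf (φ x)).Coprime p := by rw [φ.orderOf_eq x]; exact hx.2
      obtain ⟨m, hm⟩ := exists_pow_eq_self_of_coprime h5.symm
      rw [← hm]; exact P.pow_mem h4 m
  rw [IsPGroup.iff_card]
  refine ⟨_, Nat.eq_prime_pow_of_unique_prime_dvd Nat.card_pos.ne' (fun {q} hq hd => ?_)⟩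
  by_contra hne
  have : Fact q.Prime := ⟨hq⟩
  obtain ⟨y, hy⟩ := exists_prime_orderOf_dvd_card' q hd
  have hy' : orderOf (y : G) = q := by rw [orderOf_coe, hy]
  have h2 : (y : G) ∈ closure S :=
    subset_closure ⟨y.2, by rw [hy']; exact (Nat.coprime_primes hq hp).2 hne⟩
  rw [hbot, mem_bot] at h2
  rw [h2, orderOf_one] at hy'
  exact hq.one_lt.ne hy'

/-- intersection of consecutive translates -/
def II (P : Subgroup G) (φ : MulAut G) (a b : ℤ) : Subgroup G :=
  ⨅ j ∈ Set.Icc a b, φ ^ j • P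

theorem mem_II {P : Subgroup G} {φ : MulAut G} {a b : ℤ} {x : G} :
    x ∈ II P φ a b ↔ ∀ j, a ≤ j → j ≤ b → x ∈ φ ^ j • P := by
  simp only [II, mem_iInf, Set.mem_Icc, and_imp]

theorem II_mono {P : Subgroup G} {φ : MulAut G} {a b a' b' : ℤ} (h1 : a' ≤ a) (h2 : b ≤ b') :
    II P φ a' b' ≤ II P φ a b :=
  fun _ hx => mem_II.2 fun j h3 h4 => mem_II.1 hx j (h1.trans h3) (h4.trans h2)

theorem II_self (P : Subgroup G) (φ : MulAut G) (a : ℤ) : II P φ a a = φ ^ a • P := by
  ext x
  rw [mem_II]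
  exact ⟨fun h => h a le_rfl le_rfl, fun h j h1 h2 => le_antisymm h1 h2 ▸ h⟩

theorem II_inf {P : Subgroup G} {φ : MulAut G} {a b a' b' : ℤ} (h : a' ≤ b + 1) :
    II P φ a b ⊓ II P φ a' b' ≤ II P φ a b' := by
  intro x hx
  refine mem_II.2 fun j h1 h2 => ?_
  by_cases hj : j ≤ b
  · exact mem_II.1 hx.1 j h1 hj
  · exact mem_II.1 hx.2 j (by omega) h2

theorem smul_II (P : Subgroup G) (φ : MulAut G) (a b c : ℤ) :
    φ ^ c • II P φ a b = II P φ (a + c) (b + c) := by
  ext x
  rw [mem_pointwise_smul_iff_inv_smul_mem, mem_II, mem_II]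
  have key : ∀ j : ℤ, (φ ^ c)⁻¹ • x ∈ φ ^ j • P ↔ x ∈ φ ^ (j + c) • P := by
    intro j
    rw [← mem_pointwise_smul_iff_inv_smul_mem, smul_smul, ← zpow_add, add_comm]
  constructor
  · intro h j h1 h2
    have := (key (j - c)).1 (h _ (by omega) (by omega))
    rwa [sub_add_cancel] at this
  · intro h j h1 h2
    exact (key j).2 (h _ (by omega) (by omega))

theorem card_II (P : Subgroup G) (φ : MulAut G) (a : ℤ) (d : ℤ) :
    Nat.card (II P φ a (a + d)) = Nat.card (II P φ 0 d) := by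
  have := smul_II P φ 0 d a
  rw [zero_add, add_comm d a] at this
  rw [← this, card_sm]

theorem isPGroup_II {P : Subgroup G} {φ : MulAut G} {p : ℕ} (hP : IsPGroup p P) {a b : ℤ}
    (h : a ≤ b) : IsPGroup p (II P φ a b) := by
  have h1 : IsPGroup p (φ ^ a • P : Subgroup G) := hP.of_equiv (equivSMul _ P)
  refine h1.to_le ?_
  rw [← II_self]
  exact II_mono le_rfl h

theorem comm_II [Finite G] {P : Subgroup G} {φ : MulAut G} {p : ℕ} [hp : Fact p.Prime]
    (hP : IsPGroup p P) (h01 : Nat.card (II P φ 0 1) * p = Nat.card P) {a b : ℤ} (hab : a ≤ b)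
    {u v : G} (hu : u ∈ II P φ a b) (hv : v ∈ II P φ a b) :
    ⁅u, v⁆ ∈ II P φ (a - 1) (b + 1) := by
  have key : ∀ (c : ℤ) (L : Subgroup G), L ≤ II P φ c c → Nat.card L = Nat.card (II P φ 0 1) →
      u ∈ II P φ c c → v ∈ II P φ c c → ⁅u, v⁆ ∈ L := by
    intro c L hL hc hu hv
    have h1 : (L.subgroupOf (II P φ c c)).index = p :=
      relIndex_of_card hL (by rw [hc, h01, II_self, card_sm])
    have := H3.normal_of_index_eq_pgroup (isPGroup_II (φ := φ) hP (le_refl c)) h1
    have h2 := H3.commutator_le_of_index_prime (M := L.subgroupOf (II P φ c c))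
      (by rw [h1]; exact hp.out)
    exact mem_subgroupOf.1 (h2 (commutator_mem_commutator (mem_top ⟨u, hu⟩) (mem_top ⟨v, hv⟩)))
  have h1 := key b (II P φ b (b + 1)) (II_mono le_rfl (by omega)) (card_II P φ b 1)
    (II_mono hab le_rfl hu) (II_mono hab le_rfl hv)
  have h2 := key a (II P φ (a - 1) a) (II_mono (by omega) le_rfl)
    (by simpa using card_II P φ (a - 1) 1) (II_mono le_rfl hab hu) (II_mono le_rfl hab hv)
  have h3 : ⁅u, v⁆ ∈ II P φ a b := by
    rw [commutatorElement_def]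
    exact mul_mem (mul_mem (mul_mem hu hv) (inv_mem hu)) (inv_mem hv)
  exact II_inf (by omega) ⟨II_inf (by omega) ⟨h2, h3⟩, h1⟩

theorem step_II [Finite G] {P : Subgroup G} {φ : MulAut G} {p : ℕ} [hp : Fact p.Prime]
    (hP : IsPGroup p P) (h01 : Nat.card (II P φ 0 1) * p = Nat.card P) {d : ℤ} (hd : 0 ≤ d)
    (hne : II P φ 0 (d + 1) ≠ II P φ 0 d) :
    Nat.card (II P φ 0 (d + 1)) * p = Nat.card (II P φ 0 d) := by
  have h1 : (II P φ d (d + 1)).relIndex (II P φ d d) = p :=
    relIndex_of_card (II_mono le_rfl (by omega)) (by rw [card_II, h01, II_self, card_sm])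
  have h2 : (II P φ d (d + 1)).relIndex (II P φ 0 d) ≤ p := by
    rw [← h1]
    exact relIndex_le_of_le_right (II_mono hd le_rfl) (by rw [h1]; exact hp.out.ne_zero)
  have h3 : II P φ d (d + 1) ⊓ II P φ 0 d = II P φ 0 (d + 1) := by
    apply le_antisymm
    · rw [inf_comm]; exact II_inf (by omega)
    · exact le_inf (II_mono hd le_rfl) (II_mono le_rfl (by omega))
  rw [← inf_relIndex_right, h3] at h2
  have hle : II P φ 0 (d + 1) ≤ II P φ 0 d := II_mono le_rfl (by omega)
  have h4 := ((II P φ 0 (d + 1)).subgroupOf (II P φ 0 d)).card_mul_index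
  rw [Nat.card_congr (subgroupOfEquivOfLe hle).toEquiv] at h4
  obtain ⟨j, hj⟩ := (isPGroup_II (φ := φ) hP hd).index ((II P φ 0 (d + 1)).subgroupOf (II P φ 0 d))
  have h5 : p ^ j ≤ p ^ 1 := by rw [← hj, pow_one]; exact h2
  have h6 := (Nat.pow_le_pow_iff_right hp.out.one_lt).1 h5
  have h7 : j ≠ 0 := by
    rintro rfl
    rw [pow_zero, index_eq_one, subgroupOf_eq_top] at hj
    exact hne (le_antisymm hle hj)
  rw [← h4, hj, show j = 1 by omega, pow_one]

theorem structure_thm [Finite G] {P : Subgroup G} {φ : MulAut G} {p : ℕ} [hp : Fact p.Prime]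
    (hP : IsPGroup p P) (h01 : Nat.card (II P φ 0 1) * p = Nat.card P)
    (h1 : ∀ Q : Subgroup G, Q ≤ P → (Q.subgroupOf P).Normal → φ • Q = Q → Q = ⊥) :
    ∃ t : ℕ, 1 ≤ t ∧ Nat.card P = p ^ t ∧ (∀ a, II P φ a (a + t) = ⊥) ∧
      ∃ y : ℤ → G, (∀ i j, y (i + j) = (φ ^ j) (y i)) ∧ (∀ i, orderOf (y i) = p) ∧
        ∀ a b : ℤ, a ≤ b + 1 → b - a ≤ t - 1 → seg y a b = II P φ b (a + t - 1) := by
  classical
  have h00 : II P φ 0 0 = P := by rw [II_self, zpow_zero, one_smul]
  have hc : ∀ m : ℕ, (∀ j : ℕ, j < m → II P φ 0 (j + 1) ≠ II P φ 0 j) →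
      Nat.card (II P φ 0 m) * p ^ m = Nat.card P := by
    intro m
    induction m with
    | zero => intro _; simp [h00]
    | succ m ih =>
      intro h
      rw [← ih (fun j hj => h j (by omega)), ← step_II hP h01 (Int.natCast_nonneg m) (h m (by omega))]
      push_cast
      ring
  have hex : ∃ s : ℕ, II P φ 0 (s + 1) = II P φ 0 s := by
    by_contra h
    push Not at h
    have h2 := hc (Nat.card P) (fun j _ => h j)
    have h3 : Nat.card P < p ^ Nat.card P := Nat.lt_pow_self hp.out.one_lt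
    have h4 : 1 * p ^ Nat.card P ≤ Nat.card (II P φ 0 (Nat.card P)) * p ^ Nat.card P :=
      Nat.mul_le_mul_right _ Nat.card_pos
    omega
  obtain ⟨t, ht, hmin⟩ : ∃ t : ℕ, II P φ 0 (t + 1) = II P φ 0 t ∧
      ∀ j : ℕ, j < t → II P φ 0 (j + 1) ≠ II P φ 0 j :=
    ⟨Nat.find hex, Nat.find_spec hex, fun j hj => Nat.find_min hex hj⟩
  have ht1 : 1 ≤ t := by
    rcases Nat.eq_zero_or_pos t with rfl | h
    · exfalso
      simp only [Nat.cast_zero, zero_add] at ht
      rw [ht, h00] at h01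
      have : Nat.card P * p = Nat.card P * 1 := by rw [h01, mul_one]
      exact hp.out.one_lt.ne' (Nat.eq_of_mul_eq_mul_left Nat.card_pos this)
    · exact h
  have hstep : ∀ d : ℤ, 0 ≤ d → d < t →
      Nat.card (II P φ 0 (d + 1)) * p = Nat.card (II P φ 0 d) := by
    intro d h0 hd
    lift d to ℕ using h0
    exact step_II hP h01 (Int.natCast_nonneg d) (hmin d (by omega))
  have hgen : ∀ (N : Subgroup G) (e : ℕ) (a d : ℤ), d + e = t - 1 → 0 ≤ d →
      (∀ c, c ≤ a → a + d ≤ c + t - 1 → II P φ c (c + t - 1) ≤ N) → II P φ a (a + d) ≤ N := by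
    intro N e
    induction e with
    | zero =>
      intro a d h h0 hN
      have := hN a le_rfl (by omega)
      rwa [show a + t - 1 = a + d by omega] at this
    | succ e ih =>
      intro a d h h0 hN
      have e1 := ih a (d + 1) (by omega) (by omega) (fun c h1 h2 => hN c h1 (by omega))
      have e2 := ih (a - 1) (d + 1) (by omega) (by omega)
        (fun c h1 h2 => hN c (by omega) (by omega))
      have l1 : II P φ a (a + (d + 1)) ≤ II P φ a (a + d) := II_mono le_rfl (by omega)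
      have l2 : II P φ (a - 1) (a - 1 + (d + 1)) ≤ II P φ a (a + d) :=
        II_mono (by omega) (by omega)
      rcases eq_or_eq hp.out (le_sup_left (b := II P φ (a - 1) (a - 1 + (d + 1)))) (sup_le l1 l2)
        (by rw [card_II, card_II, hstep d h0 (by omega)]) with h2 | h2
      · exfalso
        have h3 : II P φ (a - 1) (a - 1 + (d + 1)) ≤ II P φ (a - 1) (a - 1 + (d + 1 + 1)) := by
          intro x hx
          have h4 : x ∈ II P φ a (a + (d + 1)) := by rw [← h2]; exact mem_sup_right hx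
          have h5 : x ∈ II P φ (a - 1) (a + (d + 1)) := II_inf (by omega) (mem_inf.2 ⟨hx, h4⟩)
          rwa [show a + (d + 1) = a - 1 + (d + 1 + 1) by ring] at h5
        have h4 := card_le_of_le h3
        rw [card_II, card_II, ← hstep (d + 1) (by omega) (by omega)] at h4
        have h5 : 0 < Nat.card (II P φ 0 (d + 1 + 1)) := Nat.card_pos
        have h6 := hp.out.one_lt
        nlinarith
      · rw [← h2]; exact sup_le e1 e2
  have hM : φ • II P φ 0 t = II P φ 0 t := by
    symm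
    apply eq_of_le_of_card_ge _ (by rw [card_sm])
    have := smul_II P φ 0 t 1
    rw [zpow_one] at this
    rw [this]
    exact ht.symm.le.trans (II_mono (by omega) le_rfl)
  have hMa : ∀ a : ℤ, II P φ a (a + t) = II P φ 0 t := by
    intro a
    have := smul_II P φ 0 t a
    rw [zero_add, add_comm _ a] at this
    rw [← this]
    exact (MulAction.stabilizer (MulAut G) (II P φ 0 t)).zpow_mem hM a
  have hcE : ∀ c : ℤ, Nat.card (II P φ 0 t) * p = Nat.card (II P φ c (c + t - 1)) := by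
    intro c
    have := hstep (t - 1) (by omega) (by omega)
    rw [sub_add_cancel] at this
    rw [this, add_sub_assoc, card_II]
  have hbot : II P φ 0 t = ⊥ := by
    have hle : II P φ 0 t ≤ P := by
      exact (II_mono le_rfl (by omega)).trans h00.le
    refine h1 _ hle ?_ hM
    rw [normal_subgroupOf_iff_le_normalizer hle]
    have := hgen (normalizer (II P φ 0 t : Set G)) (t - 1) 0 0 (by omega) le_rfl (fun c _ _ => by
      have hl : II P φ 0 t ≤ II P φ c (c + t - 1) := by
        rw [← hMa c]; exact II_mono le_rfl (by omega)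
      rw [← normal_subgroupOf_iff_le_normalizer hl]
      exact H3.normal_of_index_eq_pgroup (isPGroup_II hP (by omega)) (relIndex_of_card hl (hcE c)))
    rwa [add_zero, h00] at this
  rw [hbot, card_bot, one_mul] at hcE
  refine ⟨t, ht1, ?_, fun a => by rw [hMa, hbot], ?_⟩
  · rw [← hc t hmin, hbot, card_bot, one_mul]
  obtain ⟨y0, hy0⟩ := exists_prime_orderOf_dvd_card' (G := II P φ 0 (0 + t - 1)) p
    (by rw [← hcE])
  have ho : ∀ i : ℤ, orderOf ((φ ^ i) (y0 : G)) = p := fun i => by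
    rw [MulEquiv.orderOf_eq, orderOf_coe, hy0]
  have hm : ∀ i : ℤ, (φ ^ i) (y0 : G) ∈ II P φ i (i + t - 1) := fun i => by
    have h2 := smul_mem_pointwise_smul _ (φ ^ i) _ y0.2
    rw [smul_II, zero_add, show (0 : ℤ) + t - 1 + i = i + t - 1 by ring] at h2
    exact h2
  refine ⟨fun i => (φ ^ i) y0, fun i j => by simp only [add_comm i j, zpow_add]; rfl, ho, ?_⟩
  intro a b hab hba
  apply le_antisymm
  · exact seg_le fun c h1 h2 => II_mono h2 (by omega) (hm c)
  by_cases h : a = b + 1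
  · rw [show a + t - 1 = b + t by omega, hMa, hbot]; exact bot_le
  have := hgen (seg (fun i => (φ ^ i) (y0 : G)) a b) (b - a).toNat b (a + t - 1 - b) (by omega)
    (by omega) (fun c h1 h2 => by
      have h3 : zpowers ((φ ^ c) (y0 : G)) = II P φ c (c + t - 1) :=
        eq_of_le_of_card_ge (zpowers_le.2 (hm c)) (by rw [← hcE, Nat.card_zpowers, ho])
      rw [← h3, zpowers_le]
      exact mem_seg (fun i => (φ ^ i) (y0 : G)) (by omega) h1)
  rwa [add_sub_cancel] at this

theorem mem_zp [Finite G] {x : G} {p : ℕ} (hp : p.Prime) (h : orderOf x = p) {m : ℤ}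
    (hm : x ^ m ≠ 1) : x ∈ zpowers (x ^ m) := by
  rcases eq_or_eq (A := ⊥) (B := zpowers (x ^ m)) (C := zpowers x) hp bot_le
    (zpowers_le.2 (zpow_mem_zpowers x m)) (by rw [card_bot, one_mul, Nat.card_zpowers, h]) with h | h
  · exact absurd (zpowers_eq_bot.1 h) hm
  · rw [h]; exact mem_zpowers x

end Structure

/-- Let P be a subgroup of a finite group G and g an element such that P ∩ g⁻¹Pg is a normal subgroup of prime index p in g⁻¹Pg. Let n ≥ 1 and let K be the subgroup generated by P and its conjugates g⁻ⁱPgⁱ for i ≤ n. Suppose that g normalizes no non-identity normal subgroup of P and that P meets the center of K trivially. Then the order of P is pᵗ for some t with 1 ≤ t ≤ 3n and t ≠ 3n - 1. -/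
theorem result {G : Type*} [Group G] [Finite G]
    (P : Subgroup G) (g : G) (p : ℕ) (hp : p.Prime)
    (hN : ((P ⊓ MulAut.conj g⁻¹ • P).subgroupOf (MulAut.conj g⁻¹ • P)).Normal)
    (hidx : (P ⊓ MulAut.conj g⁻¹ • P).relIndex (MulAut.conj g⁻¹ • P) = p)
    (n : ℕ) (hn : 1 ≤ n) (K : Subgroup G) (hK : K = ⨆ i ∈ Finset.range (n + 1), MulAut.conj (g ^ i)⁻¹ • P)
    (h1 : ∀ Q : Subgroup G, Q ≤ P → (Q.subgroupOf P).Normal → MulAut.conj g • Q = Q → Q = ⊥)
    (h2 : P ⊓ (Subgroup.center K).map K.subtype = ⊥) :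
    ∃ t : ℕ, Nat.card P = p ^ t ∧ 1 ≤ t ∧ t ≤ 3 * n ∧ t ≠ 3 * n - 1 := by
  classical
  have : Fact p.Prime := ⟨hp⟩
  obtain ⟨φ, hφ⟩ : ∃ φ, φ = MulAut.conj g⁻¹ := ⟨_, rfl⟩
  have hφn : ∀ i : ℕ, MulAut.conj (g ^ i)⁻¹ = φ ^ (i : ℤ) := fun i => by
    rw [hφ, zpow_natCast, ← map_pow, inv_pow]
  have h1' : ∀ Q : Subgroup G, Q ≤ P → (Q.subgroupOf P).Normal → φ • Q = Q → Q = ⊥ := by
    intro Q hQ hn h
    refine h1 Q hQ hn ?_
    rw [hφ, map_inv, inv_smul_eq_iff] at h
    exact h.symm
  rw [← hφ] at hN hidx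
  have hP := isPGroup_P P φ p hp hN hidx h1'
  have h01 : Nat.card (II P φ 0 1) * p = Nat.card P := by
    have e : II P φ 0 1 = P ⊓ φ • P := by
      apply le_antisymm
      · intro x hx
        have e0 := mem_II.1 hx 0 le_rfl zero_le_one
        have e1 := mem_II.1 hx 1 zero_le_one le_rfl
        rw [zpow_zero, one_smul] at e0
        rw [zpow_one] at e1
        exact ⟨e0, e1⟩
      · refine le_trans ?_ (II_inf (a := 0) (b := 0) (a' := 1) (b' := 1) (by omega))
        rw [II_self, II_self, zpow_zero, one_smul, zpow_one]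
    have h3 := ((P ⊓ φ • P).subgroupOf (φ • P)).card_mul_index
    rw [Nat.card_congr (subgroupOfEquivOfLe inf_le_right).toEquiv, card_sm] at h3
    rw [e, ← h3]
    exact congrArg _ hidx.symm
  obtain ⟨t, ht1, hcard, hbot, y, hy1, hy2, hy3⟩ := structure_thm hP h01 h1'
  refine ⟨t, hcard, ht1, ?_⟩
  have hex : ∃ k : ℕ, k = t ∨ ¬ Commute (y 0) (y k) := ⟨t, Or.inl rfl⟩
  obtain ⟨k, hk, hkt, hmin⟩ : ∃ k : ℕ, (k = t ∨ ¬ Commute (y 0) (y k)) ∧ k ≤ t ∧
      ∀ j : ℕ, j < k → Commute (y 0) (y j) :=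
    ⟨Nat.find hex, Nat.find_spec hex, Nat.find_min' hex (Or.inl rfl), fun j hj => by
      have := Nat.find_min hex hj
      push Not at this
      exact this.2⟩
  have hk0 : 0 < k := by
    rcases Nat.eq_zero_or_pos k with rfl | h
    · rcases hk with h | h
      · omega
      · exact absurd (Commute.refl _) h
    · exact h
  have hshift : ∀ i j : ℤ, Commute (y 0) (y j) ↔ Commute (y i) (y (i + j)) := by
    intro i j
    have e1 := hy1 0 i
    rw [zero_add] at e1
    rw [e1, add_comm i j, hy1]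
    exact ⟨fun h => h.map _, fun h => (φ ^ i).injective (by simpa using h.eq)⟩
  have H1 : ∀ i j : ℤ, i - j < k → j - i < k → Commute (y i) (y j) := by
    have key : ∀ i j : ℤ, i ≤ j → j - i < k → Commute (y i) (y j) := by
      intro i j h1 h2
      have h3 := (hshift i _).1 (hmin (j - i).toNat (by omega))
      rwa [show i + ((j - i).toNat : ℤ) = j by omega] at h3
    intro i j h1 h2
    rcases le_total i j with h | h
    · exact key i j h h2
    · exact (key j i h h1).symm
  have hPi : ∀ i : ℤ, φ ^ i • P = seg y (i - t + 1) i := fun i => by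
    rw [hy3 _ _ (by omega) (by omega), show i - t + 1 + t - 1 = i by ring, II_self]
  have hb1 : 2 * k ≤ t + n := by
    by_contra hlt
    have hP0 : y (k - t) ∈ P := by
      have := hPi 0
      rw [zpow_zero, one_smul] at this
      rw [this]
      exact mem_seg y (by omega) (by omega)
    have hKc : K ≤ centralizer {y (k - t)} := by
      rw [hK]
      refine iSup₂_le fun i hi => ?_
      rw [hφn, hPi]
      have := Finset.mem_range.1 hi
      exact seg_le fun c h1 h2 =>
        mem_centralizer_singleton_iff.2 (H1 _ _ (by omega) (by omega))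
    have hPK : P ≤ K := by
      rw [hK]
      refine le_iSup₂_of_le 0 (by simp) ?_
      simp
    have h3 : y (k - t) ∈ P ⊓ (Subgroup.center K).map K.subtype :=
      ⟨hP0, ⟨_, hPK hP0⟩, Subgroup.mem_center_iff.2 fun u =>
        Subtype.ext (mem_centralizer_singleton_iff.1 (hKc u.2)), rfl⟩
    rw [h2, mem_bot] at h3
    have h4 := hy2 (k - t)
    rw [h3, orderOf_one] at h4
    exact hp.one_lt.ne h4
  by_cases hkt' : k = t
  · omega
  have hb2 : 2 * (t : ℤ) ≤ 3 * k := by
    refine two_le y t k (by omega) (by omega) H1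
      (fun i h => hk.resolve_left hkt' ((hshift i k).2 h)) (fun a b h1 h2 => ?_)
      (fun i m hm => ?_) (fun a b a' b' h1 h2 h3 h4 => ?_)
    · have h3 := comm_II hP h01 (a := b) (b := a + t - 1) (by omega) (u := y a) (v := y b)
        (by rw [← hy3 a b (by omega) h2]; exact mem_seg y le_rfl h1.le)
        (by rw [← hy3 a b (by omega) h2]; exact mem_seg y h1.le le_rfl)
      rw [hy3 _ _ (by omega) (by omega)]
      convert h3 using 2
      ring
    · exact mem_zp hp (hy2 i) hm
    · rw [hy3 _ _ h1 (by omega), hy3 _ _ h3 (by omega), eq_bot_iff, ← hbot b]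
      exact (II_inf (by omega)).trans (II_mono le_rfl (by omega))
  omega

end Cfsg.Agent.S4359
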