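import Cfsg.Statements.S4365
import Cfsg.Agent.H4.Mann

set_option autoImplicit false
open Cfsg

namespace Cfsg.Agent.S4365

open H4

/-- Let P be a finite p-group whose conjugacy class sizes are exactly 1 and pᵃ for some a ≥ 1. Then every element of P has its p-th power in the center of P (P/Z(P) has exponent p). -/
theorem result {P : Type*} [Group P] [Finite P] (p : ℕ) [Fact p.Prime]
    (hP : IsPGroup p P) (a : ℕ) (ha : 1 ≤ a)
    (hcs : {k : ℕ | ∃ x : P, (Subgroup.centralizer ({x} : Set P)).index = k} = {1, p ^ a}) (x : P) :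
    x ^ p ∈ Subgroup.center P := by
  refine pow_mem_center_of_two_sizes hP (Nat.one_lt_pow (by omega : a ≠ 0) (Fact.out : p.Prime).one_lt)
    (fun y => ?_) x
  have h : ind y ∈ ({1, p ^ a} : Set ℕ) := hcs ▸ ⟨y, rfl⟩
  exact h

end Cfsg.Agent.S4365
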