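import Cfsg.Statements.S4370
import Cfsg.Agent.Base
import Cfsg.Agent.H3.NonCyclic

set_option autoImplicit false
open Cfsg

namespace Cfsg.Agent.S4370

/-- Let G be a finite non-abelian nilpotent group. Then the centralizer of every non-central element of G is cyclic if and only if G is isomorphic to the direct product of a generalized quaternion group and a cyclic group of odd order. -/
theorem result {G : Type*} [Group G] [Finite G] (hG : Group.IsNilpotent G)
    (hna : ¬ IsMulCommutative G) :
    (∀ x : G, x ∉ Subgroup.center G → IsCyclic (Subgroup.centralizer ({x} : Set G))) ↔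
      ∃ (k m : ℕ), 1 ≤ k ∧ Odd m ∧ Nonempty (G ≃* QuaternionGroup (2 ^ k) × Multiplicative (ZMod m)) := by
  constructor
  · intro h
    obtain ⟨x₀, hx₀⟩ : ∃ x : G, x ∉ Subgroup.center G := by
      by_contra hcon
      push Not at hcon
      exact hna ⟨⟨fun a b => Subgroup.mem_center_iff.mp (hcon b) a⟩⟩
    have hab : ∀ A : Subgroup G, IsMulCommutative A → IsCyclic A := by
      intro A hA
      by_cases hAZ : A ≤ Subgroup.center G
      · have := h x₀ hx₀
        exact Subgroup.isCyclic_of_le (hAZ.trans (Subgroup.center_le_centralizer {x₀}))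
      · obtain ⟨x, hxA, hx⟩ := SetLike.not_le_iff_exists.mp hAZ
        have := h x hx
        exact Subgroup.isCyclic_of_le (H' := Subgroup.centralizer {x}) fun y hy =>
          Subgroup.mem_centralizer_singleton_iff.mpr (setLike_mul_comm hy hxA)
    have hsub : ∀ (p : ℕ) [Fact p.Prime] (P : Subgroup G), IsPGroup p P →
        IsCyclic P ∨ (p = 2 ∧ ∃ n : ℕ, Nonempty (P ≃* QuaternionGroup (2 ^ (n + 1)))) := by
      intro p _ P hP
      refine H3.isCyclic_or_quaternion_of_abelian_cyclic hP fun A hA => ?_
      have := hab (A.map P.subtype) inferInstance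
      exact (Subgroup.equivMapOfInjective A _ P.subtype_injective).isCyclic.mpr this
    obtain ⟨P⟩ : Nonempty (Sylow 2 G) := inferInstance
    obtain ⟨K, hKn, hK, hc, hodd⟩ := H3.exists_isComplement'_sylow_of_nilpotent P
    obtain ⟨e⟩ := H3.nonempty_mulEquiv_prod_of_isComplement' hK hc
    have hKc : IsCyclic K := by
      by_contra hnc
      obtain ⟨p, hp, Q, hQ⟩ := H3.exists_sylow_not_isCyclic hnc
      rcases hsub p ((Q : Subgroup K).map K.subtype) (Q.2.map _) with h1 | ⟨rfl, n, ⟨f⟩⟩
      · exact hQ ((Subgroup.equivMapOfInjective _ _ K.subtype_injective).isCyclic.mpr h1)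
      · refine hodd (dvd_trans ?_ (Subgroup.card_dvd_of_le (Subgroup.map_subtype_le (Q : Subgroup K))))
        rw [Nat.card_congr f.toEquiv, H3.natCard_quaternionGroup (by positivity)]
        exact ⟨2 * 2 ^ (n + 1), by ring⟩
    rcases hsub 2 P P.2 with h1 | ⟨-, n, ⟨f⟩⟩
    · exact absurd (H3.isMulCommutative_of_mulEquiv e.symm) hna
    · exact ⟨n + 1, Nat.card K, by omega, Nat.odd_iff.mpr (by omega),
        ⟨e.trans (f.prodCongr (zmodCyclicMulEquiv hKc).symm)⟩⟩
  · rintro ⟨k, m, hk, hm, ⟨e⟩⟩ x hx
    obtain ⟨n, rfl⟩ := Nat.exists_eq_add_of_le' hk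
    have hq := H3.dsq_quaternion n
    have h1 : (e x).1 ∉ Subgroup.center (QuaternionGroup (2 ^ (n + 1))) := by
      intro h
      refine hx (Subgroup.mem_center_iff.mpr fun g => e.injective ?_)
      rw [map_mul, map_mul]
      exact Prod.ext (Subgroup.mem_center_iff.mp h _) (mul_comm _ _)
    have h2 := hq.isCyclic_centralizer ⟨by
      simp [QuaternionGroup.xa_sq, QuaternionGroup.a_one_pow], by
      rw [mul_inv_eq_iff_eq_mul, eq_inv_mul_iff_mul_eq]; simp⟩ h1
    have h3 : IsCyclic (Subgroup.centralizer ({(e x).1} : Set (QuaternionGroup (2 ^ (n + 1)))) ×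
        Multiplicative (ZMod m)) := by
      refine Group.isCyclic_prod_iff.mpr ⟨h2, inferInstance, ?_⟩
      have := hq.finite
      obtain ⟨j, hj⟩ := IsPGroup.iff_card.mp (hq.isPGroup.to_subgroup
        (Subgroup.centralizer ({(e x).1} : Set (QuaternionGroup (2 ^ (n + 1))))))
      rw [hj, Nat.card_congr Multiplicative.toAdd, Nat.card_zmod]
      exact Nat.Coprime.pow_left _ ((Nat.coprime_two_left).mpr hm)
    let f : Subgroup.centralizer ({x} : Set G) →*
        Subgroup.centralizer ({(e x).1} : Set (QuaternionGroup (2 ^ (n + 1)))) ×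
          Multiplicative (ZMod m) :=
      MonoidHom.mk' (fun y => (⟨(e y).1, Subgroup.mem_centralizer_singleton_iff.mpr (by
        rw [← Prod.fst_mul, ← Prod.fst_mul, ← map_mul, ← map_mul,
          Subgroup.mem_centralizer_singleton_iff.mp y.2])⟩, (e y).2)) fun a b => by
        ext <;> simp
    refine isCyclic_of_injective f fun a b hab => Subtype.ext (e.injective (Prod.ext ?_ ?_))
    · exact congrArg (fun z => (z.1 : QuaternionGroup (2 ^ (n + 1)))) hab
    · exact (congrArg Prod.snd hab :)

end Cfsg.Agent.S4370
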