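import Cfsg.Statements.S4373
import Cfsg.Agent.Base
import Cfsg.Agent.H33.SolvCop
import Cfsg.Agent.H18.PiHall
import Cfsg.Agent.H4.HallBasic

set_option autoImplicit false
open Pointwise
open Cfsg

namespace Cfsg.Agent.S4373

/-- Let π be a set of primes and G a finite π-solvable group: G has a chain of normal subgroups from 1 to G in which each successive index is a power of a prime in π or is divisible by no prime in π. Let H be a Hall π-subgroup of G. Then there are x, y ∈ G with H ∩ xHx⁻¹ ∩ yHy⁻¹ = O_π(G), the largest normal π-subgroup. -/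
theorem result {G : Type*} [Group G] [Finite G] (π : Set ℕ)
    (hsolv : (∃ (n : ℕ) (N : Fin (n + 1) → Subgroup G), N 0 = ⊥ ∧ N (Fin.last n) = ⊤ ∧ Monotone N ∧ (∀ i, (N i).Normal) ∧
      ∀ i : Fin n, (∃ p ∈ π, p.Prime ∧ ∃ k : ℕ, (N i.castSucc).relIndex (N i.succ) = p ^ k) ∨
        (∀ q : ℕ, q.Prime → q ∣ (N i.castSucc).relIndex (N i.succ) → q ∉ π))) (H : Subgroup G) (hH : Cfsg.IsPiHall π H) :
    ∃ x y : G, H ⊓ MulAut.conj x • H ⊓ MulAut.conj y • H = Cfsg.piCore π G := by
  have hs := H18.isPiSolv_iff.2 hsolv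
  let f := QuotientGroup.mk' (piCore π G)
  have hf : Function.Surjective f := QuotientGroup.mk'_surjective _
  have hle : piCore π G ≤ H := H4.le_isPiHall_of_normal hH (H18.piNum_card_piCore π)
  let K := piCore πᶜ (G ⧸ piCore π G)
  have hC : Subgroup.centralizer (K : Set _) ≤ K := (H18.isPiSep_compl.2
    (hs.isPiSep.quotient _)).centralizer_piCore_le (by rw [compl_compl, H18.piCore_quotient_piCore])
  have hH' : Group.IsSolvable H := H18.IsPiSolv.isSolvable
    (H18.HasSeries.of_injective (H18.dvdClosed_famNum _) hs _ H.subtype_injective) hH.1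
  let _ : MulDistribMulAction H K :=
    MulDistribMulAction.compHom _ ((MulAut.conjNormal (H := K)).comp (f.comp H.subtype))
  have hd : ∀ a ∈ H, f a ∈ K → a ∈ piCore π G := fun a ha hk => (QuotientGroup.eq_one_iff a).1
    (Subgroup.disjoint_def.1 (Subgroup.disjoint_of_coprime_natCard
      ((H18.PiNum.card_map f hH.1).coprime (H18.piNum_card_piCore πᶜ))) ⟨a, ha, rfl⟩ hk)
  obtain ⟨x, y, h⟩ := H33.Solv.two_points (A := H) (K := K) hH'
    (H18.PiNum.coprime hH.1 (H18.piNum_card_piCore πᶜ))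
  have key : ∀ (z : K) (g : G), f g = z → ∀ a : H, a.1 ∈ MulAut.conj g • H → a • z = z := by
    rintro z g e a ⟨b, hb, e'⟩
    change g * b * g⁻¹ = a at e'
    have := (QuotientGroup.eq_one_iff _).2 (hd _ (mul_mem a.2 (inv_mem hb)) (by
      rw [← e', map_mul, map_mul, map_mul, map_inv, map_inv, e, mul_assoc, mul_assoc, ← mul_assoc (f b)]
      exact mul_mem z.2 (Subgroup.Normal.conj_mem inferInstance _ (inv_mem z.2) _)))
    change f _ = 1 at this
    rw [map_mul, map_inv, mul_inv_eq_one] at this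
    refine Subtype.ext ?_
    change f a * z * (f a)⁻¹ = z
    rw [mul_inv_eq_iff_eq_mul, ← e]
    nth_rewrite 2 [this]
    rw [← e', ← map_mul, ← map_mul, inv_mul_cancel_right]
  obtain ⟨x', ex⟩ := hf x
  obtain ⟨y', ey⟩ := hf y
  have hn : ∀ g : G, piCore π G ≤ MulAut.conj g • H := fun g a ha =>
    ⟨_, hle (Subgroup.Normal.conj_mem inferInstance a ha g⁻¹), by simp [mul_assoc]⟩
  refine ⟨x', y', le_antisymm (fun a ha => hd a ha.1.1 (hC fun k hk => ?_))
    (le_inf (le_inf hle (hn _)) (hn _))⟩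
  have := h ⟨a, ha.1.1⟩ (key x x' ex _ ha.1.2) (key y y' ey _ ha.2) ⟨k, hk⟩
  exact (mul_inv_eq_iff_eq_mul.1 (congrArg Subtype.val this)).symm

end Cfsg.Agent.S4373
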