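import Cfsg.Statements.S4377
import Cfsg.Agent.Base

set_option autoImplicit false
open Cfsg

namespace Cfsg.Agent.S4377

theorem card_pow_eq (G : Type*) [Group G] [Finite G] (n : ℕ) (hn : n ≠ 0) :
    Nat.card {g : G // g ^ n = 1} = ∑ d ∈ n.divisors, Nat.card {g : G // orderOf g = d} := by
  classical
  have := Fintype.ofFinite G
  have h := sum_card_orderOf_eq_card_pow_eq_one (G := G) hn
  simp only [Nat.card_eq_fintype_card, Fintype.card_subtype]
  exact h.symm

theorem card_zero_eq (G : Type*) [Group G] [Finite G] (n : ℕ) (hn : ∀ g : G, g ^ n = 1) :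
    Nat.card {g : G // g ^ 0 = 1} = Nat.card {g : G // g ^ n = 1} :=
  Nat.card_congr (Equiv.subtypeEquivRight fun g => by simp [hn g])

theorem card_order_zero (G : Type*) [Group G] [Finite G] :
    Nat.card {g : G // orderOf g = 0} = 0 := by
  have : IsEmpty {g : G // orderOf g = 0} := ⟨fun g => (orderOf_pos g.1).ne' g.2⟩
  exact Nat.card_of_isEmpty

/-- Two finite groups have the same number of elements of each order if and only if, for every n, they have the same number of elements g with gⁿ = 1. -/
theorem result {G H : Type*} [Group G] [Finite G] [Group H] [Finite H] :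
    (∀ n : ℕ, Nat.card {g : G // orderOf g = n} = Nat.card {h : H // orderOf h = n}) ↔
      ∀ n : ℕ, Nat.card {g : G // g ^ n = 1} = Nat.card {h : H // h ^ n = 1} := by
  constructor
  · intro h
    have key : ∀ n : ℕ, n ≠ 0 → Nat.card {g : G // g ^ n = 1} = Nat.card {h : H // h ^ n = 1} := by
      intro n hn
      rw [card_pow_eq G n hn, card_pow_eq H n hn]
      exact Finset.sum_congr rfl fun d _ => h d
    intro n
    rcases eq_or_ne n 0 with rfl | hn
    · rw [card_zero_eq G (Nat.card G * Nat.card H) (fun g => by rw [pow_mul, pow_card_eq_one', one_pow]),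
        card_zero_eq H (Nat.card G * Nat.card H)
          (fun g => by rw [mul_comm, pow_mul, pow_card_eq_one', one_pow])]
      exact key _ (mul_ne_zero Nat.card_pos.ne' Nat.card_pos.ne')
    · exact key n hn
  · intro h n
    induction n using Nat.strong_induction_on with
    | _ n ih =>
      rcases eq_or_ne n 0 with rfl | hn
      · rw [card_order_zero, card_order_zero]
      · have h1 := h n
        rw [card_pow_eq G n hn, card_pow_eq H n hn, ← Nat.insert_self_properDivisors hn,
          Finset.sum_insert Nat.self_notMem_properDivisors,
          Finset.sum_insert Nat.self_notMem_properDivisors,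
          Finset.sum_congr rfl fun d hd => ih d (Nat.mem_properDivisors.1 hd).2] at h1
        omega

end Cfsg.Agent.S4377
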