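import Cfsg.Statements.S4381
import Cfsg.Agent.Base
import Cfsg.Agent.H48.Maschke
import Cfsg.Agent.H1.InvSylow
import Cfsg.Agent.H3.AutP

set_option autoImplicit false
open Pointwise
open Cfsg

namespace Cfsg.Agent.S4381

/-- Let the finite group A act by automorphisms on the finite group G with the orders of A and G coprime, and assume that A or G is solvable. Call a proper A-invariant subgroup of G maximal A-invariant when no A-invariant subgroup lies strictly between it and G. Then all maximal A-invariant subgroups of G are conjugate under elements of the fixed-point subgroup C_G(A) if and only if G is a p-group for some prime p and A leaves invariant no subgroup strictly between the Frattini subgroup of G and G. In that case, if G is nontrivial, the Frattini subgroup is the only maximal A-invariant subgroup (a trivial G has none). -/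
theorem result {A G : Type*} [Group A] [Finite A]
    [Group G] [Finite G] [MulDistribMulAction A G] (hcop : (Nat.card A).Coprime (Nat.card G)) (hsol : Group.IsSolvable A ∨ Group.IsSolvable G) :
    ((∀ M N : Subgroup G, (M ≠ ⊤ ∧ (∀ a : A, ∀ x ∈ M, a • x ∈ M) ∧ ∀ L : Subgroup G, M < L → (∀ a : A, ∀ x ∈ L, a • x ∈ L) → L = ⊤) → (N ≠ ⊤ ∧ (∀ a : A, ∀ x ∈ N, a • x ∈ N) ∧ ∀ L : Subgroup G, N < L → (∀ a : A, ∀ x ∈ L, a • x ∈ L) → L = ⊤) →
        ∃ c : G, (∀ a : A, a • c = c) ∧ N = MulAut.conj c • M) ↔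
      ((∃ p : ℕ, p.Prime ∧ IsPGroup p G) ∧ ∀ L : Subgroup G, frattini G < L → (∀ a : A, ∀ x ∈ L, a • x ∈ L) → L = ⊤)) ∧
    (((∃ p : ℕ, p.Prime ∧ IsPGroup p G) ∧ ∀ L : Subgroup G, frattini G < L → (∀ a : A, ∀ x ∈ L, a • x ∈ L) → L = ⊤) →
      ∀ M : Subgroup G, (M ≠ ⊤ ∧ (∀ a : A, ∀ x ∈ M, a • x ∈ M) ∧ ∀ L : Subgroup G, M < L → (∀ a : A, ∀ x ∈ L, a • x ∈ L) → L = ⊤) ↔ (M = frattini G ∧ M ≠ ⊤)) := by
  let I : Subgroup G → Prop := fun M => ∀ a : A, ∀ x ∈ M, a • x ∈ M
  let Mx : Subgroup G → Prop := fun M => M ≠ ⊤ ∧ I M ∧ ∀ L : Subgroup G, M < L → I L → L = ⊤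
  let φ := MulDistribMulAction.toMulAut A G
  have hΦ : I (frattini G) := fun a x hx =>
    (Subgroup.characteristic_iff_map_le.1 inferInstance (φ a)) ⟨_, hx, rfl⟩
  have h1 : ∀ M, Mx M → frattini G ≤ M := fun M hM => by
    by_contra e
    refine hM.1 (frattini_nongenerating (hM.2.2 _ (left_lt_sup.2 e) fun a x hx => ?_))
    obtain ⟨y, hy, z, hz, rfl⟩ := Subgroup.mem_sup_of_normal_right.1 hx
    rw [smul_mul']
    exact mul_mem (Subgroup.mem_sup_left (hM.2.1 a y hy)) (Subgroup.mem_sup_right (hΦ a z hz))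
  have h2 : ∀ U, U ≠ ⊤ → I U → ∃ M, Mx M ∧ U ≤ M := fun U a b => by
    obtain ⟨M, c, d⟩ := Finite.exists_le_maximal (p := fun M => M ≠ ⊤ ∧ I M) ⟨a, b⟩
    exact ⟨M, ⟨d.1.1, d.1.2, fun L e f => by_contra fun g => e.not_ge (d.2 ⟨g, f⟩ e.le)⟩, c⟩
  have h3 : (∀ L : Subgroup G, frattini G < L → I L → L = ⊤) → ∀ M, Mx M ↔ M = frattini G ∧ M ≠ ⊤ :=
    fun h M => ⟨fun a => ⟨((h1 M a).eq_or_lt.resolve_right fun b => a.1 (h M b a.2.1)).symm, a.1⟩,
      fun ⟨a, b⟩ => ⟨b, a ▸ hΦ, a ▸ h⟩⟩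
  refine ⟨⟨fun h => ?_, fun h M N a b => ⟨1, fun _ => smul_one _, by
    rw [((h3 h.2 M).1 a).1, ((h3 h.2 N).1 b).1, map_one, one_smul]⟩⟩, fun h => h3 h.2⟩
  have hc : ∀ M N, Mx M → Mx N → Nat.card N = Nat.card M := fun M N a b => by
    obtain ⟨c, -, rfl⟩ := h M N a b
    exact Nat.card_congr (Subgroup.equivSMul _ M).toEquiv.symm
  obtain ⟨p, hp, hG⟩ : ∃ p : ℕ, p.Prime ∧ IsPGroup p G := by
    by_contra e
    push Not at e
    obtain ⟨M, a, -⟩ := h2 ⊥ (fun a => e 2 Nat.prime_two fun x => ⟨0, by simpa using a.ge trivial⟩)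
      fun _ _ a => by simp [Subgroup.mem_bot.1 a]
    obtain ⟨p, hp, hd⟩ := Nat.exists_prime_and_dvd (mt Subgroup.index_eq_one.1 a.1)
    have := Fact.mk hp
    obtain ⟨P, hP⟩ := H1.exists_invariant_sylow φ hcop hsol p
    obtain ⟨N, b, c⟩ := h2 P (fun a => e p hp ((a ▸ P.2).of_equiv Subgroup.topEquiv)) hP
    have k := M.index_mul_card.trans N.index_mul_card.symm
    rw [hc M N a b, Nat.mul_left_inj Nat.card_pos.ne'] at k
    exact P.not_dvd_index (hd.trans (k ▸ Subgroup.index_dvd_of_le c))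
  refine ⟨⟨p, hp, hG⟩, fun L hL hI => by_contra fun e => ?_⟩
  have := Fact.mk hp
  let π := QuotientGroup.mk' (frattini G)
  have hs : Function.Surjective π := QuotientGroup.mk'_surjective _
  have : IsMulCommutative (G ⧸ frattini G) :=
    Subgroup.Normal.quotient_commutative_iff_commutator_le.2 (H9.commutator_le_frattini hG)
  let _ : CommGroup (G ⧸ frattini G) := { (inferInstance : Group _) with mul_comm := this.is_comm.comm }
  obtain ⟨W, w1, w2⟩ := H48.exists_compl_of_elemAb (p := p) (V := ⊤) (U := L.map π)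
    ⟨inferInstance, fun x _ => by
      obtain ⟨x, rfl⟩ := hs x
      exact (QuotientGroup.eq_one_iff _).2 (H9.pow_mem_frattini hG x)⟩ le_top
  obtain ⟨τ, t1, t2⟩ := H48.exists_proj_of_compl w1 w2
  obtain ⟨X, x1, x2, x3⟩ := H48.maschke_abstract ((H3.frattiniAut G).comp φ) (L.map π) (by
    rintro a _ ⟨x, hx, rfl⟩
    exact ⟨_, hI a x hx, rfl⟩) (hcop.symm.coprime_dvd_left ((Subgroup.card_subgroup_dvd_card _).trans
      (Subgroup.card_quotient_dvd_card _))) τ t1 t2
  obtain ⟨M, a, b⟩ := h2 L e hI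
  obtain ⟨N, c, d⟩ := h2 (X.comap π) (fun a => by
    rw [← Subgroup.map_comap_eq_self_of_surjective hs X, a, Subgroup.map_top_of_surjective _ hs,
      inf_top_eq, Subgroup.map_eq_bot_iff, QuotientGroup.ker_mk'] at x2
    exact hL.not_ge x2) fun a x hx => x1 a _ hx
  obtain ⟨g, -, k⟩ := h M N a c
  have : M.Normal := Subgroup.Normal.of_commutator_le G ((H9.commutator_le_frattini hG).trans (h1 M a))
  rw [Subgroup.Normal.conj_smul_eq_self] at k
  refine a.1 (eq_top_iff.2 ?_)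
  rw [← Subgroup.comap_top π, ← x3, ← Subgroup.comap_sup_eq π _ _ hs, Subgroup.comap_map_eq,
    QuotientGroup.ker_mk']
  exact sup_le (sup_le b (h1 M a)) (k ▸ d)

end Cfsg.Agent.S4381
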