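import Cfsg.Statements.S4387
import Cfsg.Agent.Base

set_option autoImplicit false
open Pointwise
open Cfsg

namespace Cfsg.Agent.S4387

/-- Let G be a non-trivial finite group in which any two maximal subgroups are conjugate. Then G is cyclic of prime-power order. -/
theorem result {G : Type*} [Group G] [Finite G] [Nontrivial G]
    (h : ∀ M N : Subgroup G, IsCoatom M → IsCoatom N → ∃ g : G, N = MulAut.conj g • M) :
    IsCyclic G ∧ IsPrimePow (Nat.card G) := by
  obtain ⟨M, hM⟩ : ∃ M : Subgroup G, IsCoatom M := by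
    rcases eq_top_or_exists_le_coatom (⊥ : Subgroup G) with h0 | ⟨M, hM, -⟩
    · exact absurd h0 bot_ne_top
    · exact ⟨M, hM⟩
  have hidx : ∀ N : Subgroup G, IsCoatom N → N.index = M.index := by
    intro N hN
    obtain ⟨g, rfl⟩ := h M N hM hN
    exact Subgroup.index_map_equiv M (MulAut.conj g)
  have hM1 : M.index ≠ 1 := by
    rw [Ne, Subgroup.index_eq_one]
    exact hM.1
  obtain ⟨p, hp, hpM⟩ := Nat.exists_prime_and_dvd hM1
  have := Fact.mk hp
  obtain ⟨P⟩ : Nonempty (Sylow p G) := inferInstance
  have hP : (P : Subgroup G) = ⊤ := by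
    rcases eq_top_or_exists_le_coatom (P : Subgroup G) with h0 | ⟨N, hN, hPN⟩
    · exact h0
    · exfalso
      apply P.not_dvd_index
      rw [← hidx N hN] at hpM
      exact hpM.trans (Subgroup.index_dvd_of_le hPN)
  have hG : IsPGroup p G := by
    have := P.isPGroup'
    rw [hP] at this
    exact this.of_equiv Subgroup.topEquiv
  have hnil : Group.IsNilpotent G := hG.isNilpotent
  have hMn : M.Normal := Subgroup.NormalizerCondition.normal_of_coatom M (Group.normalizerCondition_of_isNilpotent (G := G)) hM
  constructor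
  · obtain ⟨x, hx⟩ : ∃ x : G, x ∉ M := by
      by_contra hx
      push Not at hx
      exact hM.1 (Subgroup.eq_top_iff' M |>.2 hx)
    have : Subgroup.zpowers x = ⊤ := by
      rcases eq_top_or_exists_le_coatom (Subgroup.zpowers x) with h0 | ⟨N, hN, hPN⟩
      · exact h0
      · exfalso
        obtain ⟨g, rfl⟩ := h M N hM hN
        rw [hMn.conj_smul_eq_self] at hPN
        exact hx (hPN (Subgroup.mem_zpowers x))
    exact ⟨⟨x, fun y => by
      have hy : y ∈ Subgroup.zpowers x := this ▸ Subgroup.mem_top y
      exact hy⟩⟩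
  · obtain ⟨n, hn⟩ := IsPGroup.iff_card.1 hG
    refine ⟨p, n, hp.prime, ?_, hn.symm⟩
    rcases Nat.eq_zero_or_pos n with rfl | h0
    · exact absurd hn (by simpa using (Finite.one_lt_card (α := G)).ne')
    · exact h0

end Cfsg.Agent.S4387
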