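import Cfsg.Statements.S4398
import Cfsg.Agent.Base
import Cfsg.Agent.H3.SecRank

set_option autoImplicit false
open Cfsg

namespace Cfsg.Agent.S4398

/-- Let S be a finite 2-group of sectional 2-rank at most 2 that contains a subgroup isomorphic to the dihedral group of order 8 or to the quaternion group of order 8. Then S is dihedral of order at least 8, semidihedral of order at least 16 (order 2^(k+4) with an element a of order 2^(k+3) and an involution b with b a b⁻¹ = a^(2^(k+2)−1)), or generalized quaternion of order at least 8. -/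
theorem result {S : Type*} [Group S] [Finite S] (h2 : IsPGroup 2 S) (hr : Cfsg.SectionalPRankLE 2 2 S)
    (hsub : ∃ H : Subgroup S, Nonempty (↥H ≃* DihedralGroup 4) ∨ Nonempty (↥H ≃* QuaternionGroup 2)) :
    ((∃ k : ℕ, Nonempty (S ≃* DihedralGroup (2 ^ (k + 2)))) ∨
      (∃ k : ℕ, Nat.card S = 2 ^ (k + 4) ∧ ∃ a b : S, orderOf a = 2 ^ (k + 3) ∧ orderOf b = 2 ∧ b * a * b⁻¹ = a ^ (2 ^ (k + 2) - 1)) ∨
      (∃ k : ℕ, Nonempty (S ≃* QuaternionGroup (2 ^ (k + 1))))) := by
  have hm := H3.isMetacyclic_of_sectionalPRankLE_two _ S rfl h2 hr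
  obtain ⟨H, ⟨⟨e⟩⟩ | ⟨⟨e⟩⟩⟩ := hsub
  · obtain ⟨m, a, b, h⟩ :=
      H3.exists_dsq_of_isMetacyclic h2 hm ((H3.dsq_dihedral 0).of_mulEquiv e.symm)
    exact h.three_cases
  · obtain ⟨m, a, b, h⟩ :=
      H3.exists_dsq_of_isMetacyclic h2 hm ((H3.dsq_quaternion 0).of_mulEquiv e.symm)
    exact h.three_cases

end Cfsg.Agent.S4398
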