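import Cfsg.Statements.S4404
import Cfsg.Agent.H19.Th44A
import Cfsg.Agent.H48.Scn3
import Cfsg.Agent.H48.Rank2Solv
import Cfsg.Agent.H52.Sec5d
import Cfsg.Agent.H4.Hall
import Cfsg.Agent.H7.NPC
import Cfsg.Agent.H2.PrimeCore

set_option autoImplicit false
open Cfsg

namespace Cfsg.Agent.S4404

/-- Let S be a finite solvable group and M a normal elementary abelian 2-subgroup of S. Suppose S contains an elementary abelian subgroup of order p³ for some odd prime p, and a cyclic 3-subgroup Q such that the cubes of the elements of Q centralize M and the commutator subgroup [Q, M] has order 4 (a four-group inside M). Then S contains an elementary abelian subgroup F of order r³, for some odd prime r, whose centralizer of [Q, M] in F — the subgroup C_F([Q, M]) — is not cyclic. -/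
theorem result {S : Type*} [Group S] [Finite S]
    [Group.IsSolvable S] (M : Subgroup S) [M.Normal] (hM : Cfsg.IsElementaryAbelian 2 M)
    (p : ℕ) (hp : p.Prime) (hp2 : p ≠ 2) (E : Subgroup S) (hE : Cfsg.IsElementaryAbelian p E) (hE3 : Nat.card ↥E = p ^ 3)
    (Q : Subgroup S) (hQc : IsCyclic ↥Q) (hQ3 : IsPGroup 3 ↥Q)
    (hQ1 : ∀ x ∈ Q, x ^ 3 ∈ Subgroup.centralizer (M : Set S)) (hQM : Nat.card ↥⁅Q, M⁆ = 4) :
    ∃ (r : ℕ) (F : Subgroup S), r.Prime ∧ r ≠ 2 ∧ Cfsg.IsElementaryAbelian r F ∧ Nat.card ↥F = r ^ 3 ∧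
      ¬ IsCyclic ↥(F ⊓ Subgroup.centralizer ((⁅Q, M⁆ : Subgroup S) : Set S)) := by
  have : Fact (Nat.Prime 3) := ⟨Nat.prime_three⟩
  have := Fact.mk hp
  obtain ⟨x, rfl⟩ := (Subgroup.isCyclic_iff_exists_zpowers_eq_top Q).1 hQc
  rw [H19.T44.comm_eq hM] at hQM ⊢
  have hx : H19.T44.Good hM x := ⟨hQ1 x (Subgroup.mem_zpowers x), hQM⟩
  obtain ⟨T, hT⟩ := hQ3.exists_le_sylow
  by_cases hr : PRankLE 3 2 (T : Subgroup S)
  swap
  · obtain ⟨B, hB, he, hc⟩ := H48.exists_normal_elemAb_cube (by norm_num) T.2 hr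
    have he' : IsElementaryAbelian 3 (B.map (T : Subgroup S).subtype) := ⟨by have := he.1; infer_instance, by
      rintro _ ⟨a, ha, rfl⟩; exact congrArg Subtype.val (he.2 a ha)⟩
    have hc' := (Subgroup.card_map_of_injective (K := B) (T : Subgroup S).subtype_injective).trans hc
    exact ⟨3, _, Nat.prime_three, by norm_num, he', hc', H19.T44.fin (hM := hM) (x := x) Nat.prime_three (by norm_num)
      he' hc' (H19.T44.Wd_le hM x) (by rw [hQM]; decide) (H19.T44.caseA hx T.2 (hT (Subgroup.mem_zpowers x))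
        (Subgroup.map_subtype_le _) (fun t ht => Subgroup.mem_normalizer_fintype (by
          rintro _ ⟨a, ha, rfl⟩; exact ⟨_, hB.conj_mem a ha ⟨t, ht⟩, rfl⟩)) he') le_rfl⟩
  have hr' := H52.pRankLE_of_sylow T hr
  have p3 : p ≠ 3 := by
    rintro rfl
    exact H48.not_pRankLE_two_of_cube hE hE3 le_rfl (H48.pRankLE_subgroup hr' E)
  obtain ⟨H, hH, hQH⟩ := H4.exists_isPiHall_ge (π := {3, p}) (K := Subgroup.zpowers x) fun q hq hd => by
    obtain ⟨k, hk⟩ := IsPGroup.iff_card.1 hQ3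
    exact Or.inl ((Nat.prime_dvd_prime_iff_eq hq Nat.prime_three).1 (hq.dvd_of_dvd_pow (hk ▸ hd)))
  obtain ⟨g, hg⟩ := H4.le_conj_isPiHall hH (K := E) fun q hq hd =>
    Or.inr ((Nat.prime_dvd_prime_iff_eq hq hp).1 (hq.dvd_of_dvd_pow (hE3 ▸ hd)))
  have hodd : Odd (Nat.card H) := Nat.not_even_iff_odd.1 fun e =>
    (hH.1 2 Nat.prime_two e.two_dvd).elim (by norm_num) fun e => hp2 e.symm
  have hN := (H48.rank_two_structure hodd (H48.pRankLE_subgroup hr' H)).2.1 (Or.inl rfl)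
  let R := (pPrimeCore 3 H).map H.subtype
  have cR : Nat.card R = Nat.card (pPrimeCore 3 H) := Subgroup.card_map_of_injective H.subtype_injective
  have hR : IsPGroup p R := IsPGroup.of_card (Nat.eq_prime_pow_of_unique_prime_dvd Nat.card_pos.ne' fun {q} hq hd =>
    (hH.1 q hq (hd.trans (Subgroup.card_dvd_of_le (Subgroup.map_subtype_le _)))).resolve_left (by
      rintro rfl
      exact Nat.prime_three.coprime_iff_not_dvd.1 (H2.coprime_card_pPrimeCore 3 H).symm (cR ▸ hd)))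
  obtain ⟨V, hV, h8, hn, hW⟩ := H19.T44.caseB hx hodd hp hp2 p3 hR (Subgroup.map_subtype_le _)
    (fun t ht => Subgroup.mem_normalizer_fintype (by
      rintro _ ⟨a, ha, rfl⟩; exact ⟨_, (inferInstance : (pPrimeCore 3 H).Normal).conj_mem a ha ⟨t, ht⟩, rfl⟩))
    (hQH (Subgroup.mem_zpowers x))
  let F := E.map (MulAut.conj g⁻¹).toMonoidHom
  have he' : IsElementaryAbelian p F := ⟨by have := hE.1; infer_instance, by
    rintro _ ⟨a, ha, rfl⟩; rw [← map_pow, hE.2 a ha, map_one]⟩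
  have hc' : Nat.card F = p ^ 3 := (Subgroup.card_map_of_injective (MulAut.conj g⁻¹).injective).trans hE3
  have hFH : F ≤ H := by
    rintro _ ⟨a, ha, rfl⟩
    obtain ⟨b, hb, rfl⟩ := hg ha
    simpa [mul_assoc] using hb
  refine ⟨p, F, hp, hp2, he', hc', H19.T44.fin (hM := hM) (x := x) hp hp2 he' hc' hV h8 (le_trans ?_ hn) hW⟩
  rw [← Subgroup.map_subgroupOf_eq_of_le hFH]
  refine Subgroup.map_mono (H48.le_pPrimeCore_of_hasNPC hN ?_)
  rw [Nat.card_congr (Subgroup.subgroupOfEquivOfLe hFH).toEquiv, hc']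
  exact ((Nat.coprime_primes hp Nat.prime_three).2 p3).pow_left 3

end Cfsg.Agent.S4404
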