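import Cfsg.Statements.S4406
import Cfsg.Agent.Base

set_option autoImplicit false
open Cfsg

namespace Cfsg.Agent.S4406

abbrev A := ↥(alternatingGroup (Fin 4))

set_option synthInstance.maxSize 4000 in
theorem cyc : ∀ a : A, a ^ 9 = 1 → a ≠ 1 → ∀ x : A, x ^ 4 = 1 → x ≠ 1 → ∀ y : A, y ^ 4 = 1 → y ≠ 1 →
    x ≠ y → (a ^ 3 = 1 ∧ a * x * a⁻¹ = y ∧ a * y * a⁻¹ = x * y ∧ a * (x * y) * a⁻¹ = x) ∨
      (a⁻¹ ^ 3 = 1 ∧ a⁻¹ * x * a⁻¹⁻¹ = y ∧ a⁻¹ * y * a⁻¹⁻¹ = x * y ∧ a⁻¹ * (x * y) * a⁻¹⁻¹ = x) := by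
  decide +kernel

set_option synthInstance.maxSize 4000 in
theorem four : ∀ x : A, x ^ 4 = 1 → x ≠ 1 → ∀ y : A, y ^ 4 = 1 → y ≠ 1 → x ≠ y →
    x * y ≠ 1 ∧ x * y ≠ x ∧ x * y ≠ y := by
  decide +kernel

theorem cardA : Nat.card A = 12 := by
  rw [Nat.card_eq_fintype_card]; decide +kernel

theorem cyc' {S : Subgroup A} {a : A} (ha : a ∈ S) (h9 : a ^ 9 = 1) (h1 : a ≠ 1) {x y : A}
    (hx : x ^ 4 = 1) (hx1 : x ≠ 1) (hy : y ^ 4 = 1) (hy1 : y ≠ 1) (hxy : x ≠ y) :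
    ∃ c ∈ S, c ≠ 1 ∧ c ^ 3 = 1 ∧ c * x * c⁻¹ = y ∧ c * y * c⁻¹ = x * y ∧ c * (x * y) * c⁻¹ = x := by
  rcases cyc a h9 h1 x hx hx1 y hy hy1 hxy with h | h
  · exact ⟨a, ha, h1, h⟩
  · exact ⟨a⁻¹, S.inv_mem ha, inv_ne_one.2 h1, h⟩


/-- In the direct product P = A₄ × A₄, let X be the Sylow 2-subgroup, X₁ and X₂ its intersections with the two direct factors, Q a Sylow 3-subgroup and Q₁, Q₂ its intersections with the two factors. Then every subgroup B of X of order 4 either meets X₁ or X₂ nontrivially, or is normalized by one of the two subgroups of Q of order 3 other than Q₁ and Q₂. -/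
theorem result
    (X : Sylow 2 (↥(alternatingGroup (Fin 4)) × ↥(alternatingGroup (Fin 4))))
    (Q : Sylow 3 (↥(alternatingGroup (Fin 4)) × ↥(alternatingGroup (Fin 4))))
    (B : Subgroup (↥(alternatingGroup (Fin 4)) × ↥(alternatingGroup (Fin 4)))) (hBX : B ≤ (X : Subgroup _)) (hB4 : Nat.card ↥B = 4) :
    B ⊓ ((X : Subgroup _) ⊓ Subgroup.prod ⊤ ⊥) ≠ ⊥ ∨ B ⊓ ((X : Subgroup _) ⊓ Subgroup.prod ⊥ ⊤) ≠ ⊥ ∨
      ∃ R : Subgroup (↥(alternatingGroup (Fin 4)) × ↥(alternatingGroup (Fin 4))), R ≤ (Q : Subgroup _) ∧ Nat.card ↥R = 3 ∧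
        R ≠ (Q : Subgroup _) ⊓ Subgroup.prod ⊤ ⊥ ∧ R ≠ (Q : Subgroup _) ⊓ Subgroup.prod ⊥ ⊤ ∧ R ≤ Subgroup.normalizer (B : Set _) := by
  classical
  by_contra hcon
  rw [not_or, not_or, not_not, not_not] at hcon
  obtain ⟨h1, h2, h3⟩ := hcon
  apply h3
  have hQ : Nat.card (Q : Subgroup (A × A)) = 9 := by
    rw [Q.card_eq_multiplicity, Nat.card_prod, cardA]; decide +kernel
  have q9 : ∀ q ∈ (Q : Subgroup (A × A)), q ^ 9 = 1 := fun q hq => by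
    rw [← hQ]
    exact congrArg Subtype.val (pow_card_eq_one' (x := (⟨q, hq⟩ : (Q : Subgroup (A × A)))))
  have b4 : ∀ q ∈ B, q ^ 4 = 1 := fun q hq => by
    have := congrArg Subtype.val (pow_card_eq_one' (x := (⟨q, hq⟩ : B)))
    rw [hB4] at this
    exact this
  set Q1 := (Q : Subgroup (A × A)).map (MonoidHom.fst A A)
  set Q2 := (Q : Subgroup (A × A)).map (MonoidHom.snd A A)
  have hp : IsPGroup 3 (Q1.prod Q2) := by
    rintro ⟨⟨x, y⟩, ⟨a, ha, e⟩, b, hb, e'⟩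
    refine ⟨2, Subtype.ext (Prod.ext ?_ ?_)⟩
    · exact (congrArg (· ^ 9) e).symm.trans (congrArg Prod.fst (q9 a ha))
    · exact (congrArg (· ^ 9) e').symm.trans (congrArg Prod.snd (q9 b hb))
  have hQe : Q1.prod Q2 = Q := Q.is_maximal' hp fun q hq => ⟨⟨q, hq, rfl⟩, q, hq, rfl⟩
  have ex : ∀ f g : A × A →* A, (∀ q, f q = 1 → g q = 1 → q = 1) →
      ∃ q ∈ (Q : Subgroup (A × A)), f q ≠ 1 := fun f g hfg => by
    by_contra hne
    push Not at hne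
    have := Subgroup.card_dvd_of_injective (g.comp (Q : Subgroup (A × A)).subtype)
      ((injective_iff_map_eq_one _).2 fun q hq => Subtype.ext (hfg q (hne q q.2) hq))
    rw [hQ, cardA] at this
    exact absurd this (by decide)
  obtain ⟨a, ha, ha1⟩ := ex (MonoidHom.fst A A) (MonoidHom.snd A A) fun q h h' => Prod.ext h h'
  obtain ⟨b, hb, hb1⟩ := ex (MonoidHom.snd A A) (MonoidHom.fst A A) fun q h h' => Prod.ext h' h
  have n1 : ∀ q ∈ B, q.2 = 1 → q = 1 := fun q hq h =>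
    Subgroup.mem_bot.1 (h1 ▸ ⟨hq, hBX hq, trivial, h⟩)
  have n2 : ∀ q ∈ B, q.1 = 1 → q = 1 := fun q hq h =>
    Subgroup.mem_bot.1 (h2 ▸ ⟨hq, hBX hq, h, trivial⟩)
  have hc : (B : Set (A × A)).ncard = 4 := hB4
  obtain ⟨u, hu, hu1⟩ := Set.exists_mem_notMem_of_ncard_lt_ncard
    (s := ({1} : Set (A × A))) (t := B) (by rw [hc, Set.ncard_singleton]; decide)
  obtain ⟨v, hv, hv1⟩ := Set.exists_mem_notMem_of_ncard_lt_ncard
    (s := ({1, u} : Set (A × A))) (t := B)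
    (by rw [hc]; exact lt_of_le_of_lt (Set.ncard_insert_le _ _) (by simp))
  have hu1' : u ≠ 1 := hu1
  have hv1' : v ≠ 1 := fun e => hv1 (Or.inl e)
  have huv : u ≠ v := fun e => hv1 (Or.inr e.symm)
  have d : u * v⁻¹ ∈ B := B.mul_mem hu (B.inv_mem hv)
  have u1 : u.1 ≠ 1 := fun e => hu1' (n2 u hu e)
  have v1 : v.1 ≠ 1 := fun e => hv1' (n2 v hv e)
  have uv1 : u.1 ≠ v.1 := fun e => huv (mul_inv_eq_one.1 (n2 _ d (mul_inv_eq_one.2 e)))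
  have u4 : u.1 ^ 4 = 1 := congrArg Prod.fst (b4 u hu)
  have v4 : v.1 ^ 4 = 1 := congrArg Prod.fst (b4 v hv)
  obtain ⟨c, hcQ, hc1, hc3, c1, c2, c3⟩ := cyc' (S := Q1) ⟨a, ha, rfl⟩ (congrArg Prod.fst (q9 a ha))
    ha1 u4 u1 v4 v1 uv1
  obtain ⟨e, heQ, he1, he3, e1, e2, e3⟩ := cyc' (S := Q2) ⟨b, hb, rfl⟩ (congrArg Prod.snd (q9 b hb))
    hb1 (congrArg Prod.snd (b4 u hu)) (fun e => hu1' (n1 u hu e)) (congrArg Prod.snd (b4 v hv))
    (fun e => hv1' (n1 v hv e)) fun e => huv (mul_inv_eq_one.1 (n1 _ d (mul_inv_eq_one.2 e)))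
  obtain ⟨f1, f2, f3⟩ := four _ u4 u1 _ v4 v1 uv1
  have hB : ({1, u, v, u * v} : Set (A × A)) = B := by
    refine Set.eq_of_subset_of_ncard_le ?_ ?_
    · rintro _ (rfl | rfl | rfl | rfl)
      exacts [B.one_mem, hu, hv, B.mul_mem hu hv]
    · rw [hc, Set.ncard_insert_of_notMem, Set.ncard_insert_of_notMem, Set.ncard_pair]
      · exact fun e => f3 (congrArg Prod.fst e).symm
      · rintro (e | e)
        exacts [huv e, f2 (congrArg Prod.fst e).symm]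
      · rintro (e | e | e)
        exacts [hu1' e.symm, hv1' e.symm, f1 (congrArg Prod.fst e).symm]
  haveI : Fact (Nat.Prime 3) := ⟨Nat.prime_three⟩
  refine ⟨Subgroup.zpowers (c, e), ?_, ?_, fun h => he1 ?_, fun h => hc1 ?_, ?_⟩
  · rw [Subgroup.zpowers_le, ← hQe]; exact ⟨hcQ, heQ⟩
  · rw [Nat.card_zpowers]
    exact orderOf_eq_prime (Prod.ext hc3 he3) fun h => hc1 (congrArg Prod.fst h)
  · exact (h ▸ Subgroup.mem_zpowers (c, e) : (c, e) ∈ _ ⊓ Subgroup.prod ⊤ ⊥).2.2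
  · exact (h ▸ Subgroup.mem_zpowers (c, e) : (c, e) ∈ _ ⊓ Subgroup.prod ⊥ ⊤).2.1
  · rw [Subgroup.zpowers_le]
    refine Subgroup.mem_normalizer_fintype fun q hq => ?_
    rw [← hB] at hq ⊢
    rcases hq with rfl | rfl | rfl | rfl
    · exact Or.inl (by simp)
    · exact Or.inr (Or.inr (Or.inl (Prod.ext c1 e1)))
    · exact Or.inr (Or.inr (Or.inr (Prod.ext c2 e2)))
    · exact Or.inr (Or.inl (Prod.ext c3 e3))

end Cfsg.Agent.S4406
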