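import Cfsg.Statements.S4407
import Cfsg.Agent.Base

set_option autoImplicit false
open Cfsg

namespace Cfsg.Agent.S4407

open Subgroup

section core
variable {S M : Type*} [Group S] [AddCommGroup M] [Module (ZMod 2) M] [DistribMulAction S M]
  [SMulCommClass S (ZMod 2) M]

omit [DistribMulAction S M] [SMulCommClass S (ZMod 2) M] in
theorem two (m : M) : m + m = 0 := by
  rw [← two_smul (ZMod 2), show (2 : ZMod 2) = 0 from rfl, zero_smul]

omit [SMulCommClass S (ZMod 2) M] in
theorem exists_fix {g : S} (hg : g * g = 1) (P : M → Prop) (hP : ∀ m, P m → P (m + g • m)) {w : M}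
    (w0 : w ≠ 0) (hw : P w) : ∃ v, v ≠ 0 ∧ P v ∧ g • v = v := by
  by_cases h : g • w = w
  · exact ⟨w, w0, hw, h⟩
  · refine ⟨w + g • w, fun e => h ?_, hP w hw, by rw [smul_add, smul_smul, hg, one_smul, add_comm]⟩
    exact add_left_cancel (e.trans (two w).symm)

omit [SMulCommClass S (ZMod 2) M] in
theorem quad {a b : S} (b3 : b ^ 3 = 1) (ab : a * b = b * a) (h0 : ∀ m : M, a • m = m → b • m = m → m = 0)
    {u : M} (hu : a • u = u) : b • b • u = u + b • u := by
  have c : ∀ m : M, a • b • m = b • a • m := fun m => by rw [smul_smul, ab, mul_smul]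
  have := h0 (u + b • u + b • b • u) (by simp only [smul_add, c, hu]) (by
    rw [smul_add, smul_add, show b • b • b • u = u by
      rw [smul_smul, smul_smul, ← pow_three', b3, one_smul]]
    abel)
  exact add_left_cancel (this.trans (two _).symm)

theorem core (irr : ∀ N : Submodule (ZMod 2) M, (∀ g : S, ∀ m ∈ N, g • m ∈ N) → N = ⊥ ∨ N = ⊤)
    {a b r s : S} (b3 : b ^ 3 = 1) (ab : a * b = b * a) (ra : r * a = b * r) (rb : r * b = a⁻¹ * r)
    (r4 : r * r * (r * r) = 1) (ss : s * s = 1) (sr : s * r = r⁻¹ * s) (sa : s * a = a * s)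
    (gen : ∀ L : Subgroup S, a ∈ L → b ∈ L → r ∈ L → s ∈ L → L = ⊤) [Finite S]
    (h0 : ∀ m : M, a • m = m → b • m = m → m = 0) {w : M} (w0 : w ≠ 0) (hw : a • w = w) :
    Nat.card M = 16 ∧ Nat.card {m : M // s • m = m ∧ (r * r) • m = m} = 4 ∧
      Nat.card {m : M // (r * s) • m = m ∧ (r * r) • m = m} = 2 := by
  have ar : a * r = r * b⁻¹ := by rw [eq_mul_inv_iff_mul_eq, mul_assoc, rb]; group
  have ri : r⁻¹ = r * (r * r) := inv_eq_of_mul_eq_one_right (by rw [← r4]; group)
  have za : a * (r * r) = r * r * a⁻¹ := by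
    rw [← mul_assoc, ar, eq_mul_inv_iff_mul_eq, mul_assoc, ra]; group
  have zb : r * r * b = b⁻¹ * (r * r) := by
    rw [mul_assoc, rb, eq_inv_mul_iff_mul_eq, ← mul_assoc, ← ra]; group
  have sb : s * b = b⁻¹ * s := by
    have e : b = r * a * r⁻¹ := by rw [ra]; group
    have e' : s * r⁻¹ = r * s := by rw [mul_inv_eq_iff_eq_mul, mul_assoc, sr]; group
    calc s * b = s * r * a * r⁻¹ := by rw [e]; group
      _ = r⁻¹ * (a * r) * s := by rw [sr, mul_assoc r⁻¹, sa, mul_assoc, mul_assoc, e']; group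
      _ = _ := by rw [ar]; group
  have sz : s * (r * r) = r * r * s := by
    rw [← mul_assoc, sr, mul_assoc, sr, ← mul_assoc, ← mul_inv_rev, inv_eq_of_mul_eq_one_right r4]
  obtain ⟨w1, w1a, w1b, w1c⟩ := exists_fix ss (fun m : M => a • m = m)
    (fun m hm => by rw [smul_add, smul_smul, ← sa, mul_smul, hm]) w0 hw
  obtain ⟨v, v0, ⟨av, sv⟩, zv⟩ := exists_fix r4 (fun m : M => a • m = m ∧ s • m = m)
    (fun m hm => ⟨by rw [smul_add, smul_smul, za, mul_smul, inv_smul_eq_iff.2 hm.1.symm, hm.1],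
      by rw [smul_add, smul_smul, sz, mul_smul, hm.2]⟩) w1a ⟨w1b, w1c⟩
  have bb := quad b3 ab h0 av
  have bi : b⁻¹ • v = v + b • v := by
    rw [← bb, inv_smul_eq_iff, smul_smul, smul_smul, ← pow_three', b3, one_smul]
  have abv : a • b • v = b • v := by rw [smul_smul, ab, mul_smul, av]
  have br : ∀ u : M, a • u = u → b • r • u = r • u := fun u hu => by rw [smul_smul, ← ra, mul_smul, hu]
  have zbv : r • r • b • v = v + b • v := by rw [smul_smul, smul_smul, zb, mul_smul, zv, bi]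
  have sbv : s • b • v = v + b • v := by rw [smul_smul, sb, mul_smul, sv, bi]
  have rrv : r • r • v = v := by rw [smul_smul, zv]
  let f := Fintype.linearCombination (ZMod 2) ![v, b • v, r • v, r • b • v]
  have fe : ∀ c, f c = c 0 • v + c 1 • b • v + c 2 • r • v + c 3 • r • b • v := fun c => by
    simp [f, Fintype.linearCombination_apply, Fin.sum_univ_four]
  have fa : ∀ c, a • f c = f ![c 0, c 1, c 2 + c 3, c 2] := fun c => by
    have e1 : a • r • v = r • v + r • b • v := by rw [smul_smul, ar, mul_smul, bi, smul_add]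
    have e2 : a • r • b • v = r • v := by rw [smul_smul, ar, mul_smul, inv_smul_smul]
    simp only [fe, smul_add, smul_comm a, av, abv, e1, e2]
    simp [add_smul]; abel
  have fb : ∀ c, b • f c = f ![c 1, c 0 + c 1, c 2, c 3] := fun c => by
    simp only [fe, smul_add, smul_comm b, bb, br v av, br _ abv]
    simp [add_smul]; abel
  have fr : ∀ c, r • f c = f ![c 2 + c 3, c 3, c 0, c 1] := fun c => by
    simp only [fe, smul_add, smul_comm r, rrv, zbv]
    simp [add_smul]; abel
  have fs : ∀ c, s • f c = f ![c 0 + c 1, c 1, c 2, c 3] := fun c => by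
    have e1 : s • r • v = r • v := by rw [smul_smul, sr, mul_smul, sv, ri, mul_smul, zv]
    have e2 : s • r • b • v = r • b • v := by
      rw [smul_smul, sr, mul_smul, sbv, ri, mul_smul, smul_add, zv, mul_smul, zbv, ← add_assoc, two, zero_add]
    simp only [fe, smul_add, smul_comm s, sv, sbv, e1, e2]
    simp [add_smul]; abel
  have ind : ∀ x y : ZMod 2, x • v + y • b • v = 0 → x = 0 ∧ y = 0 := fun x y e => by
    have hx : ∀ x : ZMod 2, x = 0 ∨ x = 1 := by decide
    rcases hx x with rfl | rfl <;> rcases hx y with rfl | rfl <;> simp only [zero_smul, one_smul, zero_add, add_zero] at e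
    · exact ⟨rfl, rfl⟩
    · exact absurd ((smul_eq_zero_iff_eq _).1 e) v0
    · exact absurd e v0
    · exact absurd (h0 v av (add_left_cancel (e.trans (two v).symm))) v0
  have inj : Function.Injective f := (injective_iff_map_eq_zero f).2 fun c e => by
    rw [fe, add_assoc] at e
    have e' : c 0 • v + c 1 • b • v = c 2 • r • v + c 3 • r • b • v :=
      add_right_cancel (e.trans (two _).symm)
    have e0 : c 0 • v + c 1 • b • v = 0 := h0 _ (by simp only [smul_add, smul_comm a, av, abv])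
      (by rw [e']; simp only [smul_add, smul_comm b, br v av, br _ abv])
    have e1 := ind _ _ e0
    have e2 := ind (c 2) (c 3) ((smul_eq_zero_iff_eq r).1 (by
      rw [← e0, e']; simp only [smul_add, smul_comm r]))
    ext i; fin_cases i
    exacts [e1.1, e1.2, e2.1, e2.2]
  have sj : Function.Surjective f := by
    refine LinearMap.range_eq_top.1 ((irr _ fun g => ?_).resolve_left fun e => v0 ?_)
    · let L : Subgroup S :=
        { carrier := {g | ∀ m ∈ LinearMap.range f, g • m ∈ LinearMap.range f}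
          one_mem' := fun m hm => by rwa [one_smul]
          mul_mem' := fun {x y} hx hy m hm => by rw [mul_smul]; exact hx _ (hy m hm)
          inv_mem' := fun {x} hx m hm => by
            rw [← zpow_neg_one, ← zpow_mod_orderOf, ← Int.toNat_of_nonneg (Int.emod_nonneg _ (by
              exact_mod_cast (orderOf_pos x).ne')), zpow_natCast]
            generalize Int.toNat _ = n
            induction n with
            | zero => rwa [pow_zero, one_smul]
            | succ n ih => rw [pow_succ', mul_smul]; exact hx _ ih }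
      have : g ∈ L := by
        rw [gen L ?_ ?_ ?_ ?_]
        · trivial
        all_goals rintro _ ⟨c, rfl⟩
        exacts [⟨_, (fa c).symm⟩, ⟨_, (fb c).symm⟩, ⟨_, (fr c).symm⟩, ⟨_, (fs c).symm⟩]
      exact this
    · have : v ∈ LinearMap.range f := ⟨![1, 0, 0, 0], by simp [fe]⟩
      rwa [e] at this
  let e := Equiv.ofBijective f ⟨inj, sj⟩
  refine ⟨by rw [← Nat.card_congr e]; simp, ?_, ?_⟩
  · rw [← Nat.card_congr (e.subtypeEquiv (p := fun c => c 1 = 0 ∧ c 3 = 0) fun c => ?_)]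
    · rw [Nat.card_eq_fintype_card]; decide
    · show _ ↔ s • f c = f c ∧ (r * r) • f c = f c
      rw [mul_smul, fs, fr, fr, inj.eq_iff, inj.eq_iff]
      revert c; decide
  · rw [← Nat.card_congr (e.subtypeEquiv (p := fun c => c 1 = 0 ∧ c 3 = 0 ∧ c 0 = c 2) fun c => ?_)]
    · rw [Nat.card_eq_fintype_card]; decide
    · show _ ↔ (r * s) • f c = f c ∧ (r * r) • f c = f c
      rw [mul_smul, mul_smul, fs, fr, fr, fr, inj.eq_iff, inj.eq_iff]
      revert c; decide

end core

section grp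
variable {S : Type*} [Group S] [Finite S] {A : Subgroup S} [A.Normal]

theorem pair_gen (hA : Cfsg.IsElementaryAbelian 3 A) (hA9 : Nat.card ↥A = 9) {a r : S} (ha : a ∈ A) (a1 : a ≠ 1)
    (hz : r * r * a = a⁻¹ * (r * r)) (L : Subgroup S) (h1 : a ∈ L) (h2 : r * a * r⁻¹ ∈ L) : A ≤ L := by
  have oa : orderOf a = 3 := orderOf_eq_prime (hA.2 a ha) a1
  have nm : r * a * r⁻¹ ∉ zpowers a := by
    rintro ⟨k, hk⟩
    have hk : a ^ k = r * a * r⁻¹ := hk
    have : a ^ (k * k + 1) = 1 := by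
      rw [zpow_add_one, zpow_mul, hk, conj_zpow, hk,
        show r * (r * a * r⁻¹) * r⁻¹ = r * r * a * (r * r)⁻¹ by group, hz]
      group
    have := (ZMod.intCast_zmod_eq_zero_iff_dvd _ 3).2 (oa ▸ orderOf_dvd_iff_zpow_eq_one.2 this)
    push_cast at this
    generalize (k : ZMod 3) = x at this
    revert x; decide
  have lt : zpowers a < A ⊓ L := lt_of_le_of_ne (zpowers_le.2 ⟨ha, h1⟩) fun e =>
    nm (e ▸ ⟨Normal.conj_mem inferInstance a ha r, h2⟩)
  have c3 : 3 < Nat.card (A ⊓ L : Subgroup S) := by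
    rw [← oa, ← Nat.card_zpowers]
    exact lt_of_not_ge fun h => lt.ne (eq_of_le_of_card_ge lt.le h)
  have d := card_dvd_of_le (inf_le_left : A ⊓ L ≤ A)
  obtain ⟨i, hi, e⟩ := (Nat.dvd_prime_pow Nat.prime_three).1 (show _ ∣ 3 ^ 2 from hA9 ▸ d)
  refine inf_eq_left.1 (eq_of_le_of_card_ge inf_le_left ?_)
  rw [e] at c3 ⊢
  rw [hA9]
  interval_cases i <;> omega

theorem inverts (hA : Cfsg.IsElementaryAbelian 3 A) (hA9 : Nat.card ↥A = 9)
    (hAC : Subgroup.centralizer (A : Set S) = A) {r : S} (r4 : r * r * (r * r) = 1) (zA : r * r ∉ A) :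
    ∀ a ∈ A, r * r * a = a⁻¹ * (r * r) := by
  have := hA.1
  have cm : ∀ x ∈ A, ∀ y ∈ A, x * y = y * x := fun x hx y hy =>
    congrArg Subtype.val (mul_comm' (⟨x, hx⟩ : A) ⟨y, hy⟩)
  obtain ⟨c, hc, n⟩ : ∃ c ∈ A, c * (r * r) ≠ r * r * c := by
    by_contra h
    push Not at h
    exact zA (hAC ▸ mem_centralizer_iff.2 h)
  set z := r * r with hz
  have m : z * c * z⁻¹ ∈ A := Normal.conj_mem inferInstance c hc z
  have zi : z⁻¹ = z := inv_eq_of_mul_eq_one_right r4
  have hb : z * (z * c * z⁻¹ * c⁻¹) = (z * c * z⁻¹ * c⁻¹)⁻¹ * z := by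
    calc _ = z * z * c * (z⁻¹ * c⁻¹ * z) * z⁻¹ := by group
      _ = c * (z * c⁻¹ * z⁻¹) * z := by rw [r4, zi, one_mul]
      _ = _ := by group
  let L : Subgroup S :=
    { carrier := {a | a ∈ A ∧ z * a = a⁻¹ * z}
      one_mem' := ⟨one_mem _, by simp⟩
      mul_mem' := fun {x y} hx hy => ⟨mul_mem hx.1 hy.1, by
        rw [← mul_assoc, hx.2, mul_assoc, hy.2, cm x hx.1 y hy.1]; group⟩
      inv_mem' := fun {x} hx => ⟨inv_mem hx.1, by rw [mul_inv_eq_iff_eq_mul, mul_assoc, hx.2]; group⟩ }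
  have bA := mul_mem m (inv_mem hc)
  exact fun a ha => (pair_gen hA hA9 bA (fun e => n (mul_inv_eq_iff_eq_mul.1 (mul_inv_eq_one.1 e)).symm) hb L
    ⟨bA, hb⟩ ⟨Normal.conj_mem inferInstance _ bA r, by
      generalize z * c * z⁻¹ * c⁻¹ = b at hb
      calc z * (r * b * r⁻¹) = r * (z * b) * r⁻¹ := by rw [hz]; group
        _ = _ := by rw [hb, hz]; group⟩ ha).2

variable {M : Type*} [AddCommGroup M] [Module (ZMod 2) M] [DistribMulAction S M] [SMulCommClass S (ZMod 2) M]

theorem core2 (irr : ∀ N : Submodule (ZMod 2) M, (∀ g : S, ∀ m ∈ N, g • m ∈ N) → N = ⊥ ∨ N = ⊤)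
    (hA : Cfsg.IsElementaryAbelian 3 A) (hA9 : Nat.card ↥A = 9) {r s a : S}
    (hz : ∀ a ∈ A, r * r * a = a⁻¹ * (r * r)) (r4 : r * r * (r * r) = 1) (ss : s * s = 1)
    (sr : s * r = r⁻¹ * s) (gen : ∀ L : Subgroup S, A ≤ L → r ∈ L → s ∈ L → L = ⊤)
    (h0 : ∀ m : M, A ≤ MulAction.stabilizer S m → m = 0) (ha : a ∈ A) (a1 : a ≠ 1) (sa : s * a = a * s)
    {w : M} (w0 : w ≠ 0) (hw : a • w = w ∨ (r * a * r⁻¹) • w = w) :
    Nat.card M = 16 ∧ Nat.card {m : M // s • m = m ∧ (r * r) • m = m} = 4 ∧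
      Nat.card {m : M // (r * s) • m = m ∧ (r * r) • m = m} = 2 := by
  have := hA.1
  have hb : r * a * r⁻¹ ∈ A := Normal.conj_mem inferInstance a ha r
  have key : ∀ w : M, w ≠ 0 → a • w = w → _ := fun w w0 hw =>
    core irr (hA.2 _ hb) (congrArg Subtype.val (mul_comm' (⟨a, ha⟩ : A) ⟨_, hb⟩)) (by group)
      (by rw [← mul_assoc, ← mul_assoc, hz a ha]; group) r4 ss sr sa
      (fun L h1 h2 => gen L (pair_gen hA hA9 ha a1 (hz a ha) L h1 h2))
      (fun m h1 h2 => h0 m (pair_gen hA hA9 ha a1 (hz a ha) _ h1 h2)) w0 hw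
  refine hw.elim (key w w0) fun h => key (r⁻¹ • w) ((smul_ne_zero_iff_ne _).2 w0) ?_
  rw [eq_inv_smul_iff, smul_smul, smul_smul, h]

theorem core3 [Nontrivial M]
    (irr : ∀ N : Submodule (ZMod 2) M, (∀ g : S, ∀ m ∈ N, g • m ∈ N) → N = ⊥ ∨ N = ⊤)
    (faith : ∀ g : S, (∀ m : M, g • m = m) → g = 1)
    (hA : Cfsg.IsElementaryAbelian 3 A) (hA9 : Nat.card ↥A = 9)
    (hAC : Subgroup.centralizer (A : Set S) = A) {r s : S} (r4 : r * r * (r * r) = 1) (ss : s * s = 1)
    (sr : s * r = r⁻¹ * s) (zA : r * r ∉ A) (szA : s * (r * r) ∉ A)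
    (gen : ∀ L : Subgroup S, A ≤ L → r ∈ L → s ∈ L → L = ⊤) :
    Nat.card M = 16 ∧ ((Nat.card {m : M // s • m = m ∧ (r * r) • m = m} = 4 ∧
      Nat.card {m : M // (r * s) • m = m ∧ (r * r) • m = m} = 2) ∨
      (Nat.card {m : M // (r * s) • m = m ∧ (r * r) • m = m} = 4 ∧
      Nat.card {m : M // (r * (r * s)) • m = m ∧ (r * r) • m = m} = 2)) := by
  have hz := inverts hA hA9 hAC r4 zA
  have := hA.1
  have cm : ∀ x ∈ A, ∀ y ∈ A, x * y = y * x := fun x hx y hy =>
    congrArg Subtype.val (mul_comm' (⟨x, hx⟩ : A) ⟨y, hy⟩)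
  have si : s⁻¹ = s := inv_eq_of_mul_eq_one_right ss
  obtain ⟨c, hc, n⟩ : ∃ c ∈ A, c * (s * c * s⁻¹) ≠ 1 := by
    by_contra h
    push Not at h
    refine szA (hAC ▸ mem_centralizer_iff.2 fun c hc => ?_)
    calc c * (s * (r * r)) = (s * c * s⁻¹)⁻¹ * (s * (r * r)) := by
          rw [eq_inv_of_mul_eq_one_right (h c hc), inv_inv]
      _ = s * (c⁻¹ * (r * r)) := by group
      _ = _ := by rw [← hz c hc]; group
  have hc' : s * c * s⁻¹ ∈ A := Normal.conj_mem inferInstance c hc s
  have ha := mul_mem hc hc'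
  have sa : s * (c * (s * c * s⁻¹)) = c * (s * c * s⁻¹) * s := by
    calc _ = s * c * s⁻¹ * (s * s * c * s⁻¹) := by group
      _ = s * c * s⁻¹ * c * s := by rw [show s * s * c * s⁻¹ = c * s by rw [ss, si, one_mul], ← mul_assoc]
      _ = _ := by rw [cm c hc _ hc']
  generalize c * (s * c * s⁻¹) = a at ha n sa
  have hb : r * a * r⁻¹ ∈ A := Normal.conj_mem inferInstance a ha r
  have h0 : ∀ m : M, A ≤ MulAction.stabilizer S m → m = 0 := fun m hm => by
    let N : Submodule (ZMod 2) M :=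
      { carrier := {m | A ≤ MulAction.stabilizer S m}
        zero_mem' := fun g _ => smul_zero g
        add_mem' := fun {x y} hx hy g hg => by
          rw [MulAction.mem_stabilizer_iff, smul_add, hx hg, hy hg]
        smul_mem' := fun c x hx g hg => by rw [MulAction.mem_stabilizer_iff, smul_comm, hx hg] }
    rcases irr N (fun g m hm x hx => by
      rw [MulAction.mem_stabilizer_iff, smul_smul, show x * g = g * (g⁻¹ * x * g) by group, mul_smul,
        hm (Normal.conj_mem' inferInstance x hx g)]) with e | e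
    · exact (Submodule.mem_bot (ZMod 2)).1 (e ▸ (show m ∈ N from hm))
    · exact absurd (faith a fun m => (e ▸ Submodule.mem_top : m ∈ N) ha) n
  have ab1 : a * (r * a * r⁻¹) ≠ 1 := fun e => by
    have := pair_gen hA hA9 ha n (hz a ha) (zpowers a) (mem_zpowers a)
      (eq_inv_of_mul_eq_one_right e ▸ inv_mem (mem_zpowers a))
    have := card_le_of_le this
    rw [Nat.card_zpowers, orderOf_eq_prime (hA.2 a ha) n] at this
    omega
  by_cases h1 : ∃ w : M, w ≠ 0 ∧ (a • w = w ∨ (r * a * r⁻¹) • w = w)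
  · obtain ⟨w, w0, hw⟩ := h1
    exact (core2 irr hA hA9 hz r4 ss sr gen h0 ha n sa w0 hw).imp_right .inl
  have h2 : ∃ w : M, w ≠ 0 ∧ ((a * (r * a * r⁻¹)) • w = w ∨ (r * (a * (r * a * r⁻¹)) * r⁻¹) • w = w) := by
    by_contra h2
    push Not at h1 h2
    have q : ∀ g ∈ A, (∀ w : M, w ≠ 0 → g • w ≠ w) → ∀ m : M, g • g • m = m + g • m := fun g hg h m =>
      quad (a := 1) (hA.2 g hg) (by simp) (fun m _ e => not_not.1 fun c => h m c e) (one_smul _ _)
    obtain ⟨m, m0⟩ := exists_ne (0 : M)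
    have e : r * (a * (r * a * r⁻¹)) * r⁻¹ = r * a * r⁻¹ * a⁻¹ := by
      rw [show r * (a * (r * a * r⁻¹)) * r⁻¹ = r * a * r⁻¹ * (r * r * a) * (r * r)⁻¹ by group, hz a ha]; group
    rw [e] at h2
    generalize r * a * r⁻¹ = b at h1 h2 hb
    have qa := q a ha fun w w0 => (h1 w w0).1
    have qb := q b hb fun w w0 => (h1 w w0).2
    have := q _ (mul_mem ha hb) (fun w w0 => (h2 w w0).1) m
    rw [smul_smul, show a * b * (a * b) = a * (b * a) * b by group, ← cm a ha b hb,
      show a * (a * b) * b = a * a * b * b by group] at this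
    simp only [mul_smul, qb, qa, smul_add] at this
    refine (h2 (a • m) ((smul_ne_zero_iff_ne _).2 m0)).2 ?_
    rw [mul_smul, inv_smul_smul]
    have e2 : a • m + b • m + (m + a • b • m) = 0 + (m + a • b • m) := by
      rw [zero_add]; exact Eq.trans (by abel) this
    exact add_left_cancel ((add_right_cancel e2).trans (two _).symm)
  obtain ⟨w, w0, hw⟩ := h2
  refine (core2 irr hA hA9 hz r4 (s := r * s) ?_ ?_ (fun L h1 h2 h3 => gen L h1 h2 (by simpa using mul_mem (inv_mem h2) h3))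
    h0 (mul_mem ha hb) ab1 ?_ w0 hw).imp_right .inr
  · rw [show r * s * (r * s) = r * (s * r) * s by group, sr, mul_inv_cancel_left, ss]
  · rw [mul_assoc, sr]; group
  · have e' : s * r⁻¹ = r * s := by rw [mul_inv_eq_iff_eq_mul, mul_assoc, sr]; group
    calc _ = r * (s * a) * r * a * r⁻¹ := by group
      _ = r * a * (s * r) * a * r⁻¹ := by rw [sa]; group
      _ = r * a * r⁻¹ * (s * a) * r⁻¹ := by rw [sr]; group
      _ = r * a * r⁻¹ * a * (s * r⁻¹) := by rw [sa]; group
      _ = _ := by rw [e', ← cm a ha _ hb]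

end grp

/-- the four-groups of `D₈` -/
def V (i : ZMod 4) : Subgroup (DihedralGroup 4) where
  carrier := {x | x = .r 0 ∨ x = .r 2 ∨ x = .sr i ∨ x = .sr (i + 2)}
  one_mem' := .inl rfl
  mul_mem' := fun {a b} => by simp only [Set.mem_ofPred_eq]; revert i a b; decide
  inv_mem' := fun {a} => by simp only [Set.mem_ofPred_eq]; revert i a; decide

theorem mem_V {i : ZMod 4} {x : DihedralGroup 4} :
    x ∈ V i ↔ x = .r 0 ∨ x = .r 2 ∨ x = .sr i ∨ x = .sr (i + 2) := Iff.rfl

theorem card_V (i : ZMod 4) : Nat.card (V i) = 4 := by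
  rw [← Nat.card_congr (Equiv.subtypeEquivRight fun x => (mem_V (i := i) (x := x)).symm), Nat.card_eq_fintype_card]
  revert i; decide

theorem eq_V (B : Subgroup (DihedralGroup 4)) (h4 : Nat.card B = 4) (h2 : ∀ b ∈ B, b ^ 2 = 1) (i : ZMod 4) :
    B = V i ∨ B = V (i - 1) := by
  have k : ∀ j, (∀ x ∈ B, x ∈ V j) → B = V j := fun j h => eq_of_le_of_card_ge h (by rw [h4, card_V])
  by_contra hc
  push Not at hc
  have h1 := mt (k _) hc.1
  have h3 := mt (k _) hc.2
  push Not at h1 h3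
  obtain ⟨x, hx, x1⟩ := h1
  obtain ⟨y, hy, y1⟩ := h3
  rw [mem_V] at x1 y1
  have := h2 _ (mul_mem hx hy)
  have a := h2 x hx
  have b := h2 y hy
  clear hx hy hc k
  revert x y i; decide

/-- Let S be a finite group with a normal elementary abelian subgroup A of order 9 that is self-centralizing (C_S(A) = A), and a dihedral subgroup X of order 8 with S = AX. Let M be a finite-dimensional module for S over the field with two elements that is faithful and irreducible. Then M has 16 elements, and X contains exactly one subgroup B of order 4 and exponent 2 whose fixed points on M form a subspace with exactly 2 elements (equivalently, M is free of rank one over the group algebra of B). -/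
theorem result {S : Type*} [Group S] [Finite S]
    (A : Subgroup S) [A.Normal] (hA : Cfsg.IsElementaryAbelian 3 A) (hA9 : Nat.card ↥A = 9)
    (hAC : Subgroup.centralizer (A : Set S) = A) (X : Subgroup S) (hX : Nonempty (↥X ≃* DihedralGroup 4)) (hAX : A ⊔ X = ⊤)
    {M : Type*} [AddCommGroup M] [Module (ZMod 2) M] [Finite M] (ρ : Representation (ZMod 2) S M)
    (hfaith : Function.Injective ρ)
    (hirr : ∀ N : Submodule (ZMod 2) M, (∀ s : S, ∀ m ∈ N, ρ s m ∈ N) → N = ⊥ ∨ N = ⊤) (hM : Nontrivial M) :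
    Nat.card M = 16 ∧
      ∃! B : Subgroup S, B ≤ X ∧ Nat.card ↥B = 4 ∧ (∀ b ∈ B, b ^ 2 = 1) ∧
        Nat.card {m : M // ∀ b ∈ B, ρ b m = m} = 2 := by
  obtain ⟨e⟩ := hX
  let φ : DihedralGroup 4 →* S := X.subtype.comp e.symm.toMonoidHom
  have inj : Function.Injective φ := X.subtype_injective.comp e.symm.injective
  have rg : φ.range = X := by
    rw [MonoidHom.range_comp, MonoidHom.range_eq_top.2 e.symm.surjective, ← MonoidHom.range_eq_map, range_subtype]
  let : DistribMulAction S M := DistribMulAction.compHom M ρ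
  have : SMulCommClass S (ZMod 2) M := ⟨fun g c m => (ρ g).map_smul c m⟩
  have nA : ∀ x, x ≠ 1 → x * x = 1 → φ x ∉ A := fun x x1 xx h => x1 (inj (by
    have := hA.2 _ h
    rwa [pow_three', ← map_mul, xx, map_one, one_mul, ← map_one φ] at this))
  obtain ⟨h16, h⟩ := core3 (M := M) (r := φ (.r 1)) (s := φ (.sr 0)) hirr
    (fun g hg => hfaith (by rw [map_one]; exact LinearMap.ext hg)) hA hA9 hAC
    (by simp only [← map_mul]; exact map_one φ) (by rw [← map_mul]; exact map_one φ)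
    (by rw [← map_inv, ← map_mul, ← map_mul]; rfl) (by rw [← map_mul]; exact nA _ (by decide) (by decide))
    (by rw [← map_mul, ← map_mul]; exact nA _ (by decide) (by decide)) fun L h1 h2 h3 => by
      rw [eq_top_iff, ← hAX, ← rg]
      refine sup_le h1 ?_
      rintro _ ⟨x, rfl⟩
      obtain ⟨k, rfl | rfl⟩ := (by decide : ∀ x : DihedralGroup 4, ∃ k : Fin 4,
        x = DihedralGroup.r 1 ^ k.1 ∨ x = .sr 0 * DihedralGroup.r 1 ^ k.1) x
      · rw [map_pow]; exact pow_mem h2 _
      · rw [map_mul, map_pow]; exact mul_mem h3 (pow_mem h2 _)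
  refine ⟨h16, ?_⟩
  have cV : ∀ i, Nat.card {m : M // ∀ b ∈ (V i).map φ, ρ b m = m} =
      Nat.card {m : M // φ (.sr i) • m = m ∧ φ (.r 2) • m = m} := fun i =>
    Nat.card_congr (Equiv.subtypeEquivRight fun m => ⟨fun h =>
      ⟨h _ ⟨_, .inr (.inr (.inl rfl)), rfl⟩, h _ ⟨_, .inr (.inl rfl), rfl⟩⟩, fun h => by
        rintro _ ⟨x, rfl | rfl | rfl | rfl, rfl⟩
        · exact (show φ 1 • m = m by rw [map_one, one_smul])
        · exact h.2
        · exact h.1
        · exact (show φ (.sr i * .r 2) • m = m by rw [map_mul, mul_smul, h.2, h.1])⟩)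
  have fin : ∀ i, Nat.card {m : M // φ (.sr i) • m = m ∧ φ (.r 2) • m = m} = 4 →
      Nat.card {m : M // φ (.sr (i - 1)) • m = m ∧ φ (.r 2) • m = m} = 2 → ∃! B : Subgroup S, B ≤ X ∧
      Nat.card ↥B = 4 ∧ (∀ b ∈ B, b ^ 2 = 1) ∧ Nat.card {m : M // ∀ b ∈ B, ρ b m = m} = 2 := fun i h4 h2 => by
    refine ⟨(V (i - 1)).map φ, ⟨rg ▸ map_le_range _ _, (card_map_of_injective inj).trans (card_V _), ?_,
      (cV _).trans h2⟩, ?_⟩
    · rintro _ ⟨x, hx, rfl⟩
      rw [← map_pow, (by decide : ∀ (j : ZMod 4) (x : DihedralGroup 4),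
        (x = .r 0 ∨ x = .r 2 ∨ x = .sr j ∨ x = .sr (j + 2)) → x ^ 2 = 1) _ x hx, map_one]
    rintro B ⟨b1, b2, b3, b4⟩
    have eB : (B.comap φ).map φ = B := map_comap_eq_self (rg ▸ b1)
    rcases eq_V (B.comap φ) (by rw [← card_map_of_injective inj, eB, b2])
      (fun x hx => inj (by rw [map_pow, b3 _ hx, map_one])) i with h | h
    · rw [← eB, h, cV, h4] at b4
      omega
    · rw [← eB, h]
  simp only [← map_mul] at h
  exact h.elim (fun h => fin 0 h.1 h.2) fun h => fin 3 h.1 h.2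

end Cfsg.Agent.S4407
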