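import Cfsg.Statements.S4408
import Cfsg.Agent.Base
import Cfsg.Agent.H1.Coprime2
import Cfsg.Agent.H1.CoprimeGen
import Cfsg.Agent.H12.Basic
import Cfsg.Agent.H2.MinNormal

set_option autoImplicit false
open Cfsg

namespace Cfsg.Agent.S4408

open Subgroup

variable {G : Type*} [Group G] [Finite G] {I : Subgroup G}

theorem exists_inv (hI : IsElementaryAbelian 2 I) {k : ℕ} (hk : Nat.card I = 2 ^ k) {F : Subgroup G}
    (hF : Odd (Nat.card F)) (hN : I ≤ normalizer (F : Set G)) {j : G} (hj : j ∈ I)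
    (h : ¬ F ≤ centralizer {j}) : ∃ a ∈ F, (orderOf a).Prime ∧ j * a * j⁻¹ = a⁻¹ ∧
      ∀ i ∈ I, i * j ∈ centralizer {a} ∨ i ∈ centralizer {a} := by
  have := hI.1
  have cm : ∀ x ∈ I, ∀ y ∈ I, x * y = y * x := fun x hx y hy =>
    congrArg Subtype.val (mul_comm' (⟨x, hx⟩ : I) ⟨y, hy⟩)
  have j2 : j * j = 1 := (sq j).symm.trans (hI.2 j hj)
  obtain ⟨Y, hY, hc, hn⟩ : ∃ Y ≤ I, IsCyclic (I ⧸ Y.subgroupOf I) ∧
      ¬ F ⊓ centralizer (Y : Set G) ≤ centralizer {j} := by
    by_contra! hn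
    exact h (H1.le_of_cocyclic_centralizer_le hN
      (hk ▸ Nat.Coprime.pow_left _ hF.coprime_two_left) _ hn)
  obtain ⟨c, hc1, hc2⟩ := SetLike.not_le_iff_exists.1 hn
  rw [mem_centralizer_singleton_iff] at hc2
  have cY : c ∈ centralizer (Y : Set G) := hc1.2
  have cF : c ∈ F := hc1.1
  have jY : j ∉ Y := fun k => hc2 (cY j k).symm
  set x := c⁻¹ * (j * c * j⁻¹) with hx
  have x1 : x ≠ 1 := fun e => hc2 (mul_inv_eq_iff_eq_mul.1 (inv_mul_eq_one.1 e).symm).symm
  have xY : x ∈ centralizer (Y : Set G) := mul_mem (inv_mem cY) (mul_mem (mul_mem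
    (fun y hy => cm y (hY hy) j hj) cY) (inv_mem fun y hy => cm y (hY hy) j hj))
  obtain ⟨p, hp, hd⟩ := Nat.exists_prime_and_dvd (mt orderOf_eq_one_iff.1 x1)
  refine ⟨x ^ (orderOf x / p), pow_mem (mul_mem (inv_mem cF)
    (H1.conj_mem_of_le_normalizer hN hj cF)) _,
    by rwa [orderOf_pow_orderOf_div (orderOf_pos x).ne' hd], ?_, fun i hi => ?_⟩
  · rw [← conj_pow, ← inv_pow]
    congr 1
    calc j * x * j⁻¹ = j * c⁻¹ * j⁻¹ * (j * j) * c * (j * j)⁻¹ := by rw [hx]; group
      _ = _ := by rw [j2, hx]; group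
  have key : i * j ∈ Y ∨ i ∈ Y := by
    obtain ⟨g, hg⟩ := hc.exists_generator
    have g2 : g ^ (2 : ℤ) = 1 := by
      obtain ⟨g, rfl⟩ := QuotientGroup.mk_surjective g
      rw [← QuotientGroup.mk_zpow, show g ^ (2 : ℤ) = 1 from Subtype.ext
        ((zpow_ofNat (g : G) 2).trans (hI.2 g g.2)), QuotientGroup.mk_one]
    have two : ∀ u : I ⧸ Y.subgroupOf I, u = 1 ∨ u = g := fun u => by
      obtain ⟨m, rfl⟩ := hg u
      rcases Int.even_or_odd' m with ⟨l, rfl | rfl⟩
      · exact Or.inl (by simp only [zpow_mul, g2, one_zpow])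
      · exact Or.inr (by simp only [zpow_add, zpow_mul, g2, one_zpow, one_mul, zpow_one])
    have e1 := (two (QuotientGroup.mk ⟨j, hj⟩)).resolve_left
      fun e => jY (mem_subgroupOf.1 ((QuotientGroup.eq_one_iff (⟨j, hj⟩ : I)).1 e))
    refine (two (QuotientGroup.mk ⟨i, hi⟩)).symm.imp (fun e => ?_)
      fun e => mem_subgroupOf.1 ((QuotientGroup.eq_one_iff (⟨i, hi⟩ : I)).1 e)
    have : i⁻¹ * j ∈ Y := mem_subgroupOf.1
      ((QuotientGroup.eq (s := Y.subgroupOf I)).1 (e.trans e1.symm))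
    rwa [inv_eq_of_mul_eq_one_right ((sq i).symm.trans (hI.2 i hi))] at this
  have l : ∀ y ∈ Y, y ∈ centralizer {x ^ (orderOf x / p)} := fun y hy =>
    mem_centralizer_singleton_iff.2 (pow_mem xY _ y hy)
  exact key.imp (l _) (l _)

theorem pq {F : Subgroup G} [Group.IsNilpotent F] (hF : Odd (Nat.card F)) {a y : G} (ha : a ∈ F)
    (hp : (orderOf a).Prime) (hy : y ∈ normalizer (F : Set G)) (y2 : y ^ 2 = 1) (hc : y * a = a * y)
    (h : F ⊓ centralizer {a} ≤ centralizer {y}) : F ≤ centralizer {y} := by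
  have := Fact.mk hp
  have hA : IsPGroup (orderOf a) (zpowers a) := IsPGroup.of_card (by rw [Nat.card_zpowers, pow_one])
  have aU : (⟨a, ha⟩ : F) ∈ pCore (orderOf a) F := H2.le_pCore_of_isNilpotent
    (IsPGroup.of_card (n := 1) (by rw [Nat.card_zpowers, pow_one, ← orderOf_coe])) (mem_zpowers _)
  have h1 := H1.thompson_pq (P := zpowers a) (Q := zpowers y) hA (by
      rw [Nat.card_zpowers]
      exact (Odd.of_dvd_nat hF (F.orderOf_dvd_natCard ha)).coprime_two_left.coprime_dvd_left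
        (orderOf_dvd_of_pow_eq_one y2))
    (by rw [H12.centralizer_zpowers, zpowers_le, mem_centralizer_singleton_iff, hc]) _
    ((pCore (orderOf a) F).map F.subtype) rfl (H2.isPGroup_map_pCore_subtype F)
    (zpowers_le.2 (le_normalizer ⟨_, aU, rfl⟩))
    (H1.le_normalizer_map_of_characteristic (zpowers_le.2 hy) _)
    (by rw [H12.centralizer_zpowers, H12.centralizer_zpowers]
        exact (inf_le_inf_right _ (map_subtype_le _)).trans h)
  have h2 := congrArg (map F.subtype) (H2.pCore_sup_pPrimeCore_eq_top (G := F) (orderOf a))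
  rw [Subgroup.map_sup, ← MonoidHom.range_eq_map, range_subtype] at h2
  rw [← h2]
  refine sup_le (fun u hu => mem_centralizer_singleton_iff.2 (h1 (mem_zpowers y) u hu)) ?_
  rintro _ ⟨v, hv, rfl⟩
  exact h ⟨v.2, mem_centralizer_singleton_iff.2 (congrArg Subtype.val
    (H2.pPrimeCore_le_centralizer_pCore _ _ hv _ aU)).symm⟩

theorem main (hI : IsElementaryAbelian 2 I) {m : ℕ} (hm : Nat.card I = 2 ^ m) (k : ℕ) :
    ∀ (J F : Subgroup G), J ≤ I → Nat.card J = 2 ^ k → Group.IsNilpotent F → Odd (Nat.card F) →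
    I ≤ normalizer (F : Set G) → (∀ j ∈ J, F ≤ centralizer {j} → j = 1) →
    ∃ f : Fin k → Subgroup G, (∀ i, (Nat.card (f i)).Prime) ∧ (∀ i, f i ≤ F) ∧
      (∀ i, I ≤ normalizer ((f i) : Set G)) ∧ (∀ i j, i ≠ j → ∀ a ∈ f i, ∀ b ∈ f j, a * b = b * a) ∧
      Nat.card ↥(⨆ i, f i) = ∏ i, Nat.card (f i) ∧
      J ⊓ centralizer ((⨆ i, f i : Subgroup G) : Set G) = ⊥ ∧
      (⨆ i, f i) ⊓ centralizer (J : Set G) = ⊥ := by
  induction k with
  | zero =>
    intro J F _ hJ _ _ _ _
    exact ⟨Fin.elim0, by simp, by simp, by simp, by simp, by simp,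
      by rw [eq_bot_of_card_eq J hJ, bot_inf_eq], by simp⟩
  | succ k ih =>
    intro J F JI hJ _ hF hN hf
    obtain ⟨⟨j, hj⟩, j1⟩ := ne_bot_iff_exists_ne_one.1 (show J ≠ ⊥ from fun e => by
      rw [e, card_bot, pow_succ] at hJ
      omega)
    obtain ⟨a, ha, hp, ja, hi⟩ := exists_inv hI hm hF hN (JI hj)
      fun h => j1 (Subtype.ext (hf j hj h))
    have odd : ∀ b ∈ F, b⁻¹ = b → b = 1 := fun b hb e => orderOf_eq_one_iff.1
      (Nat.eq_one_of_dvd_coprimes hF.coprime_two_right (F.orderOf_dvd_natCard hb)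
        (orderOf_dvd_of_pow_eq_one (by rw [sq]; nth_rw 1 [← e]; exact inv_mul_cancel b)))
    have inv : ∀ b ∈ zpowers a, j * b * j⁻¹ = b⁻¹ := by
      rintro _ ⟨n, rfl⟩
      rw [← conj_zpow, ja, inv_zpow]
    have fix : ∀ b ∈ zpowers a, j * b = b * j → b = 1 := fun b hb e =>
      odd b (zpowers_le.2 ha hb) (by rw [← inv b hb, e, mul_inv_cancel_right])
    have jn : j ∉ centralizer {a} := fun e => hp.one_lt.ne' (orderOf_eq_one_iff.2
      (fix a (mem_zpowers a) (mem_centralizer_singleton_iff.1 e)))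
    have hA : I ≤ normalizer (zpowers a : Set G) := H1.le_normalizer_of_conj_mem (by
      rintro i hi' _ ⟨n, rfl⟩
      rw [← conj_zpow]
      refine zpow_mem ?_ n
      rcases hi i hi' with e | e
      · have e := mem_centralizer_singleton_iff.1 e
        rw [show i * a * i⁻¹ = (i * j * a * (i * j)⁻¹)⁻¹ from (by
          calc _ = i * (j * a * j⁻¹)⁻¹ * i⁻¹ := by rw [ja, inv_inv]
            _ = _ := by group), e, mul_inv_cancel_right]
        exact inv_mem (mem_zpowers a)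
      · rw [mem_centralizer_singleton_iff.1 e, mul_inv_cancel_right]
        exact mem_zpowers a)
    have c1 : Nat.card ↥(centralizer {a} ⊓ J) = 2 ^ k := by
      have := H12.card_inf_mul_relIndex (centralizer {a}) J
      rw [relIndex_eq_two_iff_exists_notMem_and.2 ⟨j, hj, jn, fun b hb => hi b (JI hb)⟩, hJ,
        pow_succ] at this
      omega
    obtain ⟨f, h1, h2, h3, h4, h5, h6, h7⟩ := ih _ (F ⊓ centralizer {a}) (inf_le_right.trans JI) c1
      (H2.isNilpotent_of_le inf_le_left) (Odd.of_dvd_nat hF (card_dvd_of_le inf_le_left))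
      (H1.le_normalizer_inf hN (H12.centralizer_zpowers a ▸ H1.le_normalizer_centralizer hA))
      fun y hy h => hf y hy.2 (pq hF ha hp (hN (JI hy.2)) (hI.2 y (JI hy.2))
        (mem_centralizer_singleton_iff.1 hy.1) h)
    have cA : ∀ i, ∀ b ∈ zpowers a, ∀ c ∈ f i, b * c = c * b := fun i b hb c hc =>
      (H12.centralizer_zpowers a).ge (h2 i hc).2 b hb
    have BA : (⨆ i, f i) ≤ centralizer (zpowers a : Set G) := iSup_le fun i c hc b hb =>
      cA i b hb c hc
    have sup : (⨆ i, (Fin.cons (zpowers a) f : Fin (k + 1) → Subgroup G) i) =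
        zpowers a ⊔ ⨆ i, f i := le_antisymm
      (iSup_le fun i => Fin.cases le_sup_left (fun i => le_sup_of_le_right (le_iSup f i)) i)
      (sup_le (le_iSup (Fin.cons (zpowers a) f : Fin (k + 1) → Subgroup G) 0) (iSup_le fun i =>
        le_iSup (Fin.cons (zpowers a) f : Fin (k + 1) → Subgroup G) i.succ))
    have AJ : ∀ b ∈ zpowers a, b ∈ centralizer ((centralizer {a} ⊓ J : Subgroup G) : Set G) :=
      fun b hb y hy => ((H12.centralizer_zpowers a).ge hy.1 b hb).symm
    refine ⟨Fin.cons (zpowers a) f, fun i => Fin.cases (by rwa [Fin.cons_zero, Nat.card_zpowers])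
      h1 i, fun i => Fin.cases (zpowers_le.2 ha) (fun i => (h2 i).trans inf_le_left) i,
      fun i => Fin.cases hA h3 i, fun i => Fin.cases (fun l => Fin.cases (fun h => absurd rfl h)
        (fun l _ => cA l) l) (fun i l => Fin.cases (fun _ b hb c hc => (cA i c hc b hb).symm)
        (fun l h => h4 i l fun e => h (congrArg _ e)) l) i, ?_, ?_, ?_⟩ <;> rw [sup]
    · rw [Fin.prod_univ_succ, sup_comm, H12.card_sup_of_disjoint
        (H12.le_normalizer_of_le_centralizer BA)
        (eq_bot_iff.2 fun b hb => h7.le ⟨hb.1, AJ b hb.2⟩), h5, mul_comm]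
      rfl
    · rw [H12.centralizer_sup, H12.centralizer_zpowers]
      exact eq_bot_iff.2 fun y hy => h6.le ⟨⟨hy.2.1, hy.1⟩, hy.2.2⟩
    · refine eq_bot_iff.2 fun x hx => ?_
      obtain ⟨b, hb, c, hc, rfl⟩ :=
        (H12.mem_sup_of_le_normalizer' (H12.le_normalizer_of_le_centralizer BA)).1 hx.1
      have c1 : c = 1 := h7.le ⟨hc, (mul_mem_cancel_left (AJ b hb)).1
        (centralizer_le inf_le_right hx.2)⟩
      rw [c1, mul_one] at hx ⊢
      exact fix b hb (hx.2 j hj)

/-- Let S be a finite solvable group whose Fitting subgroup F(S) has odd order, and let I be an elementary abelian 2-subgroup of S of order 2ⁿ with n ≥ 1. Then F(S) contains subgroups A₁, …, Aₙ of prime order, each normalized by I, pairwise commuting and generating a subgroup A of order |A₁|⋯|Aₙ| (their internal direct product), such that no non-identity element of I centralizes A. -/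
theorem result {S : Type*} [Group S] [Finite S]
    [Group.IsSolvable S] (hF : Odd (Nat.card ↥(Cfsg.fittingSubgroup S)))
    (I : Subgroup S) (hI : Cfsg.IsElementaryAbelian 2 I) (n : ℕ) (hn : 1 ≤ n) (hIn : Nat.card ↥I = 2 ^ n) :
    ∃ f : Fin n → Subgroup S, (∀ i, (Nat.card ↥(f i)).Prime) ∧ (∀ i, f i ≤ Cfsg.fittingSubgroup S) ∧
      (∀ i, I ≤ Subgroup.normalizer ((f i) : Set S)) ∧ (∀ i j, i ≠ j → ∀ a ∈ f i, ∀ b ∈ f j, a * b = b * a) ∧
      Nat.card ↥(⨆ i, f i) = ∏ i, Nat.card ↥(f i) ∧ I ⊓ Subgroup.centralizer ((⨆ i, f i : Subgroup S) : Set S) = ⊥ := by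
  obtain ⟨f, h1, h2, h3, h4, h5, h6, -⟩ := main hI hIn n I (fittingSubgroup S) le_rfl hIn
    inferInstance hF Subgroup.le_normalizer_of_normal fun j hj h => orderOf_eq_one_iff.1
      (Nat.eq_one_of_dvd_coprimes hF.coprime_two_right (Subgroup.orderOf_dvd_natCard _
        (H2.centralizer_fitting_le S fun x hx => Subgroup.mem_centralizer_singleton_iff.1 (h hx)))
        (orderOf_dvd_of_pow_eq_one (hI.2 j hj)))
  exact ⟨f, h1, h2, h3, h4, h5, h6⟩

end Cfsg.Agent.S4408
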