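import Cfsg.Statements.S4409
import Cfsg.Agent.H9.Ab8B
import Cfsg.Agent.H4.Hall

set_option autoImplicit false
open Cfsg

namespace Cfsg.Agent.S4409

/-- Let S be a finite solvable group with O_{2'}(S) = 1 that contains a non-cyclic abelian subgroup of order 8, while no proper subgroup of S of 2-power index contains one. Then a Sylow 2-subgroup X of S is normal in S, and one of the following holds: X is abelian; X is extraspecial of order at least 32; X has a generalized quaternion subgroup X₀ of index 2 with X = X₀·C_X(X₀); or X is special with centre of order 4. -/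
theorem result {S : Type*} [Group S] [Finite S]
    [Group.IsSolvable S] (hO : Cfsg.pPrimeCore 2 S = ⊥)
    (h8 : ∃ A : Subgroup S, IsMulCommutative ↥A ∧ ¬ IsCyclic ↥A ∧ Nat.card ↥A = 8)
    (hmin : ∀ R : Subgroup S, R ≠ ⊤ → (∃ k : ℕ, R.index = 2 ^ k) →
      ¬ ∃ A : Subgroup S, A ≤ R ∧ IsMulCommutative ↥A ∧ ¬ IsCyclic ↥A ∧ Nat.card ↥A = 8)
    (X : Sylow 2 S) :
    (X : Subgroup S).Normal ∧
      (IsMulCommutative ↥X ∨
        (Cfsg.IsExtraspecial 2 ↥X ∧ 32 ≤ Nat.card ↥X) ∨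
        (∃ (X₀ : Subgroup S) (k : ℕ), X₀ ≤ (X : Subgroup S) ∧ X₀.relIndex (X : Subgroup S) = 2 ∧
          Nonempty (↥X₀ ≃* QuaternionGroup (2 ^ (k + 1))) ∧ X₀ ⊔ ((X : Subgroup S) ⊓ Subgroup.centralizer (X₀ : Set S)) = (X : Subgroup S)) ∨
        (Cfsg.IsSpecial 2 ↥X ∧ Nat.card ↥(Subgroup.center ↥X) = 4)) := by
  open H9.Ab8 Subgroup H98 in
  obtain ⟨H, h1, h2⟩ := H4.exists_isPiHall {2}ᶜ S
  have oH : Odd (Nat.card H) :=
    Nat.not_even_iff_odd.1 fun e => h1 2 Nat.prime_two e.two_dvd rfl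
  obtain ⟨k, hk⟩ : ∃ k, H.index = 2 ^ k :=
    ⟨_, Nat.eq_prime_pow_of_unique_prime_dvd index_ne_zero_of_finite fun {d} hd e =>
      by_contra fun hn => h2 d hd hn e⟩
  have key : ∀ Y : Subgroup S, IsPGroup 2 Y → H ≤ normalizer (Y : Set S) → Bad Y →
      Y ⊔ H = ⊤ ∧ Y.Normal ∧ Y = X := fun Y hY hn hb => by
    have e : Y ⊔ H = ⊤ := by_contra fun e => by
      obtain ⟨l, -, hl⟩ := (Nat.dvd_prime_pow Nat.prime_two).1
        (hk ▸ index_dvd_of_le (le_sup_right : H ≤ Y ⊔ H))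
      exact hmin _ e ⟨l, hl⟩ (hb.mono le_sup_left)
    have hN := normal_of_top_le_normalizer (e.ge.trans (sup_le le_normalizer hn))
    have l := hY.le_sylow_of_normal X
    refine ⟨e, hN, le_antisymm l fun x hx => ?_⟩
    obtain ⟨y, hy, h, hh, rfl⟩ := (mem_sup_right_norm hn).1 (e.ge (mem_top x))
    obtain ⟨n, hn⟩ := isPGroup_iff_forall.1 X.isPGroup' h ((mul_mem_cancel_left (l hy)).1 hx)
    rwa [orderOf_eq_one_iff.1 (Nat.eq_one_of_dvd_coprimes
      (Nat.Coprime.pow_left n (Nat.coprime_two_left.2 oH)) (orderOf_dvd_of_pow_eq_one hn)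
      (orderOf_dvd_natCard H hh)), mul_one]
  have bt : Bad (⊤ : Subgroup S) := let ⟨A, h⟩ := h8; ⟨A, le_top, h⟩
  have pQ := isPGroup_pCore 2 S
  have cQ := H2.centralizer_pCore_le hO
  have bQ : Bad (pCore 2 S) := by
    by_contra nb
    by_cases hc : H ≤ centralizer (pCore 2 S : Set S)
    · obtain ⟨n, hn⟩ := (pQ.to_le (hc.trans cQ)).exists_card_eq
      have e := H.card_mul_index
      rw [hn, hk, ← pow_add] at e
      exact nb (bt.mono (le_sSup ⟨inferInstance, isPGroup_top_iff.2 (.of_card e.symm)⟩))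
    · exact not_small pQ cQ (small oH pQ nb le_normalizer_of_normal hc) bt
  obtain ⟨e1, hN, e2⟩ := key _ pQ le_normalizer_of_normal bQ
  rw [e2] at e1 hN bQ
  refine ⟨hN, or_iff_not_imp_left.2 fun na => ?_⟩
  have s : St H X := ⟨oH, X.isPGroup', e1, bQ, fun Y l hn hb =>
    (key Y (X.isPGroup'.to_le l) hn hb).2.2, fun h => na (le_centralizer_iff_isMulCommutative.1 h)⟩
  by_cases hY : ⁅(X : Subgroup S), H⁆ = X
  · exact (s.caseB hY).imp_right Or.inr
  · obtain ⟨Y, h⟩ := s.caseA hY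
    exact Or.inr (Or.inl ⟨Y, 0, h⟩)

end Cfsg.Agent.S4409
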