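import Cfsg.Statements.S4411
import Cfsg.Agent.Base
import Cfsg.Agent.S0618
import Cfsg.Agent.H12.Factor
import Cfsg.Agent.H12.SL2p
import Cfsg.Agent.H18.PSolv
import Cfsg.Agent.H1.InvSylow
import Cfsg.Agent.H1.Coprime2
import Cfsg.Agent.H29.Burnside
import Cfsg.Agent.H21.CentralExt
import Cfsg.Agent.H2.MinNormal

set_option autoImplicit false
open Cfsg

namespace Cfsg.Agent.S4411

open Subgroup Pointwise
open scoped commutatorElement
universe u

section gen
variable {G : Type*} [Group G] [Finite G] {p q : ℕ}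

omit [Finite G] in
theorem card_dvd_of_prod {A B : Subgroup G} (h : ∀ g, ∃ a ∈ A, ∃ b ∈ B, g = a * b) :
    Nat.card G ∣ Nat.card A * Nat.card B := by
  have : MulAction.IsPretransitive A (G ⧸ B) := by
    have k : ∀ x : G ⧸ B, ∃ a : A, a • ((1 : G) : G ⧸ B) = x := fun x => by
      obtain ⟨g, rfl⟩ := QuotientGroup.mk_surjective x
      obtain ⟨a, ha, b, hb, rfl⟩ := h g
      exact ⟨⟨a, ha⟩, QuotientGroup.eq.2 (by simpa using hb)⟩
    refine ⟨fun x y => ?_⟩
    obtain ⟨a, rfl⟩ := k x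
    obtain ⟨b, rfl⟩ := k y
    exact ⟨b * a⁻¹, by rw [smul_smul, inv_mul_cancel_right]⟩
  rw [← B.index_mul_card]
  refine Nat.mul_dvd_mul_right ?_ _
  rw [index, ← MulAction.index_stabilizer_of_transitive A ((1 : G) : G ⧸ B)]
  exact index_dvd_card _

theorem dvd_index_iff [hq : Fact q.Prime] (K : Subgroup G) [K.Normal] :
    q ∣ K.index ↔ ∃ y : G, (∃ k, y ^ q ^ k = 1) ∧ y ∉ K := by
  constructor
  · intro h
    by_contra hc
    push Not at hc
    obtain ⟨Q⟩ : Nonempty (Sylow q G) := inferInstance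
    exact Q.not_dvd_index (h.trans (index_dvd_of_le fun y hy => hc y (by
      obtain ⟨k, hk⟩ := Q.2 ⟨y, hy⟩
      exact ⟨k, congrArg Subtype.val hk⟩)))
  · rintro ⟨y, ⟨k, hk⟩, hy⟩
    obtain ⟨j, -, hj⟩ := (Nat.dvd_prime_pow hq.out).1 (orderOf_dvd_of_pow_eq_one
      (show (y : G ⧸ K) ^ q ^ k = 1 by rw [← QuotientGroup.mk_pow, hk, QuotientGroup.mk_one]))
    refine Dvd.dvd.trans ?_ (orderOf_dvd_natCard (y : G ⧸ K))
    rw [hj]
    refine dvd_pow_self q fun e => hy ?_
    rw [e, pow_zero, orderOf_eq_one_iff] at hj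
    exact (QuotientGroup.eq_one_iff y).1 hj

theorem lift_elt [Fact q.Prime] {X : Type*} [Group X] (f : G →* X) (hf : Function.Surjective f) {x : X} {k : ℕ}
    (hx : x ^ q ^ k = 1) : ∃ y : G, f y = x ∧ ∃ k, y ^ q ^ k = 1 := by
  have := Finite.of_surjective f hf
  obtain ⟨Q, hQ⟩ := (show IsPGroup q (zpowers x) from by
    obtain ⟨j, -, hj⟩ := (Nat.dvd_prime_pow Fact.out).1 (orderOf_dvd_of_pow_eq_one hx)
    exact IsPGroup.of_card (by rw [Nat.card_zpowers, hj])).exists_le_sylow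
  obtain ⟨R, rfl⟩ := Sylow.mapSurjective_surjective hf q Q
  obtain ⟨y, hy, e⟩ := hQ (mem_zpowers x)
  obtain ⟨j, hj⟩ := R.2 ⟨y, hy⟩
  exact ⟨y, e, j, congrArg Subtype.val hj⟩

omit [Finite G] in
theorem le_syl {H : Subgroup G} (hH : IsPGroup p H) (T : Sylow p (normalizer (H : Set G))) :
    H.subgroupOf (normalizer (H : Set G)) ≤ T :=
  IsPGroup.le_sylow_of_normal (N := H.subgroupOf (normalizer (H : Set G))) hH.comap_subtype T

theorem exists_sylow [Fact p.Prime] {L : Subgroup G} (hL : ¬ p ∣ L.index) (S : Sylow p L) :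
    ∃ T : Sylow p G, (T : Subgroup G) = (S : Subgroup L).map L.subtype :=
  ⟨(S.2.map L.subtype).toSylow (by
    rw [index_map_subtype]
    exact fun h => ((Nat.Prime.dvd_mul Fact.out).1 h).elim S.not_dvd_index hL), rfl⟩

theorem factorizable [hp : Fact p.Prime] [hq : Fact q.Prime] (h23 : ¬ ((p = 2 ∧ q = 3) ∨ (p = 3 ∧ q = 2)))
    (C : Subgroup G) [C.Normal] (hC : ∀ x ∈ C, (∃ k, x ^ p ^ k = 1) → ∀ c ∈ C, x * c = c * x)
    (hi : ∀ r : ℕ, r.Prime → r ∣ C.index → r = p ∨ r = q) : IsThompsonFactorizable p G := by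
  have := H2.pPrimeCore_characteristic p G
  rw [H12.isThompsonFactorizable_iff_of_ker (QuotientGroup.mk' (pPrimeCore p G)) (QuotientGroup.mk'_surjective _)
    (by rw [QuotientGroup.ker_mk']; exact H2.coprime_card_pPrimeCore p G)]
  obtain ⟨T⟩ : Nonempty (Sylow p C) := inferInstance
  have hT : normalizer (T : Set C) ≤ centralizer (T : Set C) := fun c _ => mem_centralizer_iff.2 fun x hx => by
    obtain ⟨k, hk⟩ := T.2 ⟨x, hx⟩
    exact Subtype.ext (hC x x.2 ⟨k, congrArg (fun a : T => a.1.1) hk⟩ c c.2)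
  have hc := MonoidHom.ker_transferSylow_isComplement' T hT
  obtain ⟨k, hk⟩ := IsPGroup.iff_card.1 T.2
  have le : (MonoidHom.transferSylow T hT).ker.map C.subtype ≤ pPrimeCore p G :=
    (map_mono (H2.le_pPrimeCore_of_not_dvd (by rw [← hc.index_eq_card]; exact T.not_dvd_index))).trans
      (H2.map_pPrimeCore_subtype_le C)
  have pr : ∀ r : ℕ, r.Prime → r ∣ Nat.card (G ⧸ pPrimeCore p G) → r = p ∨ r = q := fun r hr h => by
    have := h.trans (index_dvd_of_le le)
    rw [index_map_subtype, hc.symm.index_eq_card, hk] at this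
    exact (hr.dvd_mul.1 this).elim
      (fun h => .inl ((Nat.prime_dvd_prime_iff_eq hr hp.out).1 (hr.dvd_of_dvd_pow h))) (hi r hr)
  have := H29.isSolvable_of_prime_dvd_card hp.out hq.out pr
  by_contra hn
  obtain ⟨h1, E, -, -, -, _, ⟨e⟩⟩ := Cfsg.Agent.S0618.result (H18.isPSolvable_of_isSolvable p)
    (H2.pPrimeCore_quotient_pPrimeCore p G) hn
  have d : p * (p ^ 2 - 1) ∣ Nat.card (G ⧸ pPrimeCore p G) := by
    rw [← H12.card_sl2p, ← Nat.card_congr e.toEquiv]
    exact (card_quotient_dvd_card _).trans (card_subgroup_dvd_card E)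
  have d6 : 6 ∣ Nat.card (G ⧸ pPrimeCore p G) := by
    rcases h1 with rfl | rfl
    · exact d
    · exact (by norm_num : 6 ∣ 24).trans d
  have a := pr 2 Nat.prime_two ((by norm_num : 2 ∣ 6).trans d6)
  have b := pr 3 Nat.prime_three ((by norm_num : 3 ∣ 6).trans d6)
  omega

end gen

theorem exists_pq {p q : ℕ} [hp : Fact p.Prime] [hq : Fact q.Prime] (hpq : p ≠ q) (n : ℕ) :
    ∀ (G : Type u) [Group G] [Finite G], Nat.card G = n → IsPSolvable p G → q ∣ Nat.card G →
      ∃ L : Subgroup G, ¬ p ∣ L.index ∧ q ∣ Nat.card L ∧ ∀ r : ℕ, r.Prime → r ∣ Nat.card L → r = p ∨ r = q := by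
  induction n using Nat.strong_induction_on with
  | _ n ih =>
  intro G _ _ hn hs hd
  obtain ⟨M, hM, M1, -, hMp⟩ := H18.isPSolvable_exists_normal_le hs ⊤ fun e => by
    rw [← card_top (G := G), e, card_bot] at hd
    exact hq.out.one_lt.ne' (Nat.dvd_one.1 hd)
  have step : ¬ q ∣ Nat.card M → ∃ L : Subgroup G, M ≤ L ∧ ¬ p ∣ L.index ∧ q ∣ M.relIndex L ∧
      ∀ r : ℕ, r.Prime → r ∣ M.relIndex L → r = p ∨ r = q := fun h => by
    have e := M.index_mul_card
    obtain ⟨L, l1, l2, l3⟩ := ih _ (by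
      rw [← hn, ← e]
      exact lt_mul_of_one_lt_right Nat.card_pos ((one_lt_card_iff_ne_bot M).2 M1)) (G ⧸ M) rfl
      (H18.isPSolvable_quotient hs M) ((hq.out.dvd_mul.1 (e ▸ hd)).resolve_right h)
    have c : M.relIndex (L.comap (QuotientGroup.mk' M)) = Nat.card L := by
      have := relIndex_ker (K := L.comap (QuotientGroup.mk' M)) (QuotientGroup.mk' M)
      rwa [QuotientGroup.ker_mk', map_comap_eq_self_of_surjective (QuotientGroup.mk'_surjective _)] at this
    refine ⟨L.comap (QuotientGroup.mk' M), fun x hx => ?_,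
      by rwa [index_comap_of_surjective _ (QuotientGroup.mk'_surjective _)], c ▸ l2, c ▸ l3⟩
    rw [mem_comap, show QuotientGroup.mk' M x = 1 from (QuotientGroup.eq_one_iff x).2 hx]
    exact one_mem _
  rcases hMp with h | h
  · obtain ⟨k, hk⟩ := IsPGroup.iff_card.1 h
    obtain ⟨L, l0, l1, l2, l3⟩ := step fun c => hpq
      ((Nat.prime_dvd_prime_iff_eq hq.out hp.out).1 (hq.out.dvd_of_dvd_pow (hk ▸ c))).symm
    refine ⟨L, l1, l2.trans (relIndex_dvd_card _ _), fun r hr c => ?_⟩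
    rw [← (M.subgroupOf L).index_mul_card, Nat.card_congr (subgroupOfEquivOfLe l0).toEquiv, hk] at c
    exact (hr.dvd_mul.1 c).elim (l3 r hr)
      fun h => .inl ((Nat.prime_dvd_prime_iff_eq hr hp.out).1 (hr.dvd_of_dvd_pow h))
  by_cases c : q ∣ Nat.card M
  · obtain ⟨P⟩ : Nonempty (Sylow p G) := inferInstance
    obtain ⟨Q, hQ⟩ := H1.exists_invariant_sylow_subgroup P M le_normalizer_of_normal
      (H2.coprime_card_of_isPGroup P.2 h) (.inl (H1.isSolvable_of_isPGroup P.2)) q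
    obtain ⟨k, hk⟩ := IsPGroup.iff_card.1 P.2
    obtain ⟨j, hj⟩ := IsPGroup.iff_card.1 Q.2
    have cQ : Nat.card ((Q : Subgroup M).map M.subtype) = Nat.card Q := card_map_of_injective M.subtype_injective
    refine ⟨P ⊔ (Q : Subgroup M).map M.subtype, fun c => P.not_dvd_index (c.trans (index_dvd_of_le le_sup_left)),
      Dvd.dvd.trans (cQ ▸ Q.dvd_card_of_dvd_card c) (card_dvd_of_le le_sup_right), fun r hr c => ?_⟩
    have := c.trans (card_dvd_of_prod (G := ((P : Subgroup G) ⊔ (Q : Subgroup M).map M.subtype : Subgroup G))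
      (A := (P : Subgroup G).subgroupOf _) (B := ((Q : Subgroup M).map M.subtype).subgroupOf _) fun g => by
        obtain ⟨a, ha, b, hb, e⟩ : g.1 ∈ ((P : Subgroup G) : Set G) * ((Q : Subgroup M).map M.subtype : Set G) := by
          rw [← coe_mul_of_left_le_normalizer_right _ _ hQ]; exact g.2
        exact ⟨⟨a, mem_sup_left ha⟩, ha, ⟨b, mem_sup_right hb⟩, hb, Subtype.ext e.symm⟩)
    rw [Nat.card_congr (subgroupOfEquivOfLe le_sup_left).toEquiv,
      Nat.card_congr (subgroupOfEquivOfLe le_sup_right).toEquiv, cQ, hk, hj] at this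
    exact (hr.dvd_mul.1 this).imp (fun h => (Nat.prime_dvd_prime_iff_eq hr hp.out).1 (hr.dvd_of_dvd_pow h))
      fun h => (Nat.prime_dvd_prime_iff_eq hr hq.out).1 (hr.dvd_of_dvd_pow h)
  obtain ⟨L, l0, l1, l2, l3⟩ := step c
  have cM : Nat.card (M.subgroupOf L) = Nat.card M := Nat.card_congr (subgroupOfEquivOfLe l0).toEquiv
  have np : ¬ p ∣ Nat.card M := hp.out.coprime_iff_not_dvd.1 h.symm
  obtain ⟨K, hK⟩ := exists_right_complement'_of_coprime (N := M.subgroupOf L) (by
    rw [cM]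
    exact Nat.coprime_of_dvd fun r hr a b => (l3 r hr b).elim (fun e => np (e ▸ a)) fun e => c (e ▸ a))
  have cK : Nat.card (K.map L.subtype) = M.relIndex L := by
    rw [card_map_of_injective L.subtype_injective, ← hK.symm.index_eq_card]; rfl
  refine ⟨K.map L.subtype, ?_, cK ▸ l2, cK ▸ l3⟩
  rw [index_map_subtype, hK.index_eq_card, cM]
  exact fun h => (hp.out.dvd_mul.1 h).elim np l1

/-- automizers of `p`-subgroups are `p`-solvable -/
def Sol (p : ℕ) (G : Type u) [Group G] : Prop := ∀ H : Subgroup G, IsPGroup p H →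
  ∀ (L X : Type u) [Group L] [Group X] (i : L →* G) (f : L →* X), (∀ l, i l ∈ normalizer (H : Set G)) →
    Function.Surjective f → (∀ l, i l ∈ centralizer (H : Set G) → f l = 1) → IsPSolvable p X

/-- a `q`-element acts nontrivially on the `p`-group `H` -/
def Bad (p q : ℕ) {G : Type*} [Group G] (H : Subgroup G) : Prop :=
  IsPGroup p H ∧ ∃ y ∈ normalizer (H : Set G), (∃ k, y ^ q ^ k = 1) ∧ y ∉ centralizer (H : Set G)

section main
variable {p q : ℕ} [hp : Fact p.Prime] [hq : Fact q.Prime] {G : Type u} [Group G] [Finite G]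

omit hp hq [Finite G] in
theorem norm_lift {M Y : Type*} [Group M] [Group Y] (j : M →* G) (π : M →* Y) (K : Subgroup Y) {m : M}
    (h : π m ∈ normalizer (K : Set Y)) : j m ∈ normalizer (((K.comap π).map j : Subgroup G) : Set G) :=
  le_normalizer_map j ⟨m, le_normalizer_comap π h, rfl⟩

omit hp hq [Finite G] in
theorem cent_lift {M Y : Type*} [Group M] [Group Y] {j : M →* G} (hj : Function.Injective j) {π : M →* Y}
    (hπ : Function.Surjective π) (K : Subgroup Y) {m : M}
    (h : j m ∈ centralizer (((K.comap π).map j : Subgroup G) : Set G)) : π m ∈ centralizer (K : Set Y) :=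
  mem_centralizer_iff.2 fun x hx => by
    obtain ⟨x, rfl⟩ := hπ x
    rw [← map_mul, ← map_mul, hj (show j (x * m) = j (m * x) by
      rw [map_mul, map_mul, mem_centralizer_iff.1 h _ ⟨x, hx, rfl⟩])]

omit hp hq [Finite G] in
theorem Sol.section (h : Sol p G) {M Y : Type u} [Group M] [Group Y] {j : M →* G} (hj : Function.Injective j)
    {π : M →* Y} (hπ : Function.Surjective π) (hk : IsPGroup p π.ker) : Sol p Y := by
  intro H hH L X _ _ i f hi hf hc
  refine h _ ((hH.comap_of_ker_isPGroup π hk).map j) (H21.pullback i π) X (j.comp (H21.pullbackSnd i π))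
    (f.comp (H21.pullbackFst i π)) (fun l => norm_lift j π H (H21.pullback_comm i π l ▸ hi _))
    (hf.comp fun l => ?_) fun l hl => hc _ (H21.pullback_comm i π l ▸ cent_lift hj hπ H hl)
  obtain ⟨m, hm⟩ := hπ (i l)
  exact ⟨⟨(l, m), hm.symm⟩, rfl⟩

omit hp in
theorem bad_iff {H : Subgroup G} (hH : IsPGroup p H) :
    Bad p q H ↔ q ∣ ((centralizer (H : Set G)).subgroupOf (normalizer (H : Set G))).index := by
  rw [dvd_index_iff]
  exact ⟨fun ⟨_, y, a, ⟨k, b⟩, c⟩ => ⟨⟨y, a⟩, ⟨k, Subtype.ext b⟩, c⟩,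
    fun ⟨y, ⟨k, b⟩, c⟩ => ⟨hH, y, y.2, ⟨k, congrArg Subtype.val b⟩, c⟩⟩

theorem step_c (hpq : p ≠ q) (hS : Sol p G)
    (ih : ∀ (Y : Type u) [Group Y] [Finite Y], Nat.card Y < Nat.card G → Sol p Y → ∀ K : Subgroup Y, Bad p q K →
      ∃ K : Subgroup Y, Bad p q K ∧ ¬ p ∣ (normalizer (K : Set Y)).index) {i : ℕ}
    (hi : ∀ K : Subgroup G, Bad p q K → ¬ p ^ (i + 1) ∣ Nat.card (normalizer (K : Set G))) {H Z : Subgroup G}
    (hH : IsPGroup p H) (hZ : IsPGroup p Z) (Z1 : Z ≠ ⊥) (HZ : H ≤ normalizer (Z : Set G))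
    (hd : p ^ (i + 1) ∣ Nat.card (normalizer (Z : Set G))) {y : G} (yH : y ∈ normalizer (H : Set G))
    (yZ : y ∈ normalizer (Z : Set G)) {k : ℕ} (hk : y ^ q ^ k = 1) : y ∈ centralizer (H : Set G) := by
  have yc : y ∈ centralizer (Z : Set G) := not_not.1 fun c => hi Z ⟨hZ, y, yZ, ⟨k, hk⟩, c⟩ hd
  set M := normalizer (Z : Set G)
  let π := QuotientGroup.mk' (Z.subgroupOf M)
  have hπ : Function.Surjective π := QuotientGroup.mk'_surjective _
  have hker : IsPGroup p π.ker := by rw [QuotientGroup.ker_mk']; exact hZ.comap_subtype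
  by_cases c : π ⟨y, yZ⟩ ∈ centralizer (((H.subgroupOf M).map π : Subgroup _) : Set (M ⧸ Z.subgroupOf M))
  · have cop : (Nat.card (zpowers y)).Coprime (Nat.card H) := by
      obtain ⟨j, -, hj⟩ := (Nat.dvd_prime_pow hq.out).1 (orderOf_dvd_of_pow_eq_one hk)
      rw [Nat.card_zpowers, hj]
      exact H1.coprime_card_of_isPGroup hH (Nat.Coprime.pow_left _ ((Nat.coprime_primes hq.out hp.out).2 hpq.symm))
    refine H1.commutator_eq_bot_iff_le_centralizer'.1 (H1.commutator_eq_bot_of_commutator_commutator_eq_bot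
      (zpowers_le.2 yH) cop (.inl inferInstance) (H1.commutator_eq_bot_iff_le_centralizer'.2
        ((zpowers_le.2 yc).trans (centralizer_le (commutator_le.2 fun h hh a ha => ?_))))) (mem_zpowers y)
    obtain ⟨n, rfl⟩ := ha
    have := mem_centralizer_iff.1 (zpow_mem c n) _ ⟨⟨h, HZ hh⟩, hh, rfl⟩
    have e : π ⁅(⟨h, HZ hh⟩ : M), (⟨y, yZ⟩ : M) ^ n⁆ = 1 := by
      rw [map_commutatorElement, map_zpow, commutatorElement_eq_one_iff_mul_comm, this]
    exact (QuotientGroup.eq_one_iff (N := Z.subgroupOf M) _).1 e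
  exfalso
  obtain ⟨K, ⟨hK, x, xN, ⟨l, hl⟩, xc⟩, hn⟩ := ih (M ⧸ Z.subgroupOf M) (by
      refine lt_of_lt_of_le ?_ (card_le_card_group M)
      rw [← (Z.subgroupOf M).index_mul_card]
      refine lt_mul_of_one_lt_right Nat.card_pos ((one_lt_card_iff_ne_bot _).2 fun e => Z1 ?_)
      exact (subgroupOf_eq_bot.1 e).eq_bot_of_le le_normalizer)
    (hS.section M.subtype_injective hπ hker) ((H.subgroupOf M).map π) ⟨hH.comap_subtype.map π, π ⟨y, yZ⟩,
      le_normalizer_map π ⟨_, le_normalizer_comap M.subtype yH, rfl⟩,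
      ⟨k, by rw [← map_pow, show (⟨y, yZ⟩ : M) ^ q ^ k = 1 from Subtype.ext hk, map_one]⟩, c⟩
  obtain ⟨w, rfl, m, hm⟩ := lift_elt π hπ hl
  refine hi ((K.comap π).map M.subtype) ⟨(hK.comap_of_ker_isPGroup π hker).map _, w, norm_lift _ π K xN,
    ⟨m, congrArg Subtype.val hm⟩, fun c => xc (cent_lift M.subtype_injective hπ K c)⟩ ?_
  rw [← ((normalizer (K : Set (M ⧸ Z.subgroupOf M))).comap π).index_mul_card, index_comap_of_surjective _ hπ] at hd
  refine ((Nat.Coprime.pow_left _ (hp.out.coprime_iff_not_dvd.2 hn)).dvd_of_dvd_mul_left hd).trans ?_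
  rw [← card_map_of_injective M.subtype_injective]
  refine card_dvd_of_le ?_
  rintro _ ⟨a, ha, rfl⟩
  exact norm_lift _ π K ha

theorem step_d {i : ℕ} {H : Subgroup G} (hH : Bad p q H) (hd : p ^ i ∣ Nat.card (normalizer (H : Set G)))
    (hm : ∀ K : Subgroup G, Bad p q K ∧ p ^ i ∣ Nat.card (normalizer (K : Set G)) → H ≤ K → K = H)
    {x : G} (hx : x ∈ centralizer (H : Set G)) {k : ℕ} (hk : x ^ p ^ k = 1) : x ∈ H := by
  set N := normalizer (H : Set G)
  let C := (centralizer (H : Set G)).subgroupOf N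
  let x' : N := ⟨x, centralizer_le_normalizer _ hx⟩
  obtain ⟨P, hP⟩ := (show IsPGroup p (zpowers x') from by
    obtain ⟨j, -, hj⟩ := (Nat.dvd_prime_pow hp.out).1 (orderOf_dvd_of_pow_eq_one (show x' ^ p ^ k = 1 from Subtype.ext hk))
    exact IsPGroup.of_card (by rw [Nat.card_zpowers, hj])).exists_le_sylow
  have fr := H12.frattini_inf P C
  have HP : H.subgroupOf N ≤ P := le_syl hH.1 P
  have nD : ∀ y ∈ normalizer (((P : Subgroup N) ⊓ C : Subgroup N) : Set N),
      y.1 ∈ normalizer ((H ⊔ ((P : Subgroup N) ⊓ C).map N.subtype : Subgroup G) : Set G) := fun y hy =>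
    H1.le_normalizer_sup (A := zpowers y.1) (zpowers_le.2 y.2)
      (zpowers_le.2 (le_normalizer_map N.subtype ⟨y, hy, rfl⟩)) (mem_zpowers _)
  rw [← hm (H ⊔ ((P : Subgroup N) ⊓ C).map N.subtype) ⟨⟨(P.2.map N.subtype).to_le (sup_le
    (fun h hh => ⟨⟨h, le_normalizer hh⟩, HP hh, rfl⟩) (map_mono inf_le_left)), ?_⟩, ?_⟩ le_sup_left]
  · exact mem_sup_right ⟨x', ⟨hP (mem_zpowers _), hx⟩, rfl⟩
  · have := (bad_iff hH.1).1 hH
    rw [← relIndex_top_right, ← fr, relIndex_sup_right] at this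
    obtain ⟨y, ⟨l, hl⟩, yc⟩ := (dvd_index_iff _).1 this
    exact ⟨y, nD _ y.2, ⟨l, congrArg (fun a => a.1.1) hl⟩, fun c => yc (mem_centralizer_iff.2 fun h hh =>
      mem_centralizer_iff.1 c h (mem_sup_left hh))⟩
  · refine (P.pow_dvd_card_of_pow_dvd_card hd).trans ?_
    rw [← card_map_of_injective N.subtype_injective]
    refine card_dvd_of_le ?_
    rintro _ ⟨a, ha, rfl⟩
    exact nD a (H1.le_normalizer_inf le_normalizer le_normalizer_of_normal ha)

end main

theorem main {p q : ℕ} [hp : Fact p.Prime] [hq : Fact q.Prime] (hpq : p ≠ q)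
    (h23 : ¬ ((p = 2 ∧ q = 3) ∨ (p = 3 ∧ q = 2))) (n : ℕ) :
    ∀ (G : Type u) [Group G] [Finite G], Nat.card G = n → Sol p G → ∀ H : Subgroup G, Bad p q H →
      ∃ K : Subgroup G, Bad p q K ∧ ¬ p ∣ (normalizer (K : Set G)).index := by
  induction n using Nat.strong_induction_on with
  | _ n ih =>
  intro G _ _ hn hS H₀ h₀
  classical
  have ex : ∃ j, ∀ K : Subgroup G, Bad p q K → ¬ p ^ j ∣ Nat.card (normalizer (K : Set G)) :=
    ⟨Nat.card G, fun K _ h => absurd (Nat.le_of_dvd Nat.card_pos (h.trans (card_subgroup_dvd_card _)))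
      (Nat.lt_pow_self hp.out.one_lt).not_ge⟩
  obtain ⟨i, e⟩ := Nat.exists_eq_succ_of_ne_zero (n := Nat.find ex) fun e => by
    have := Nat.find_spec ex H₀ h₀
    rw [e] at this
    exact this (one_dvd _)
  have hi := Nat.find_spec ex
  rw [e] at hi
  obtain ⟨H, ⟨hH, hd⟩, hm⟩ := H2.exists_maximal_subgroup
    (fun K : Subgroup G => Bad p q K ∧ p ^ i ∣ Nat.card (normalizer (K : Set G))) (by
      have := Nat.find_min ex (m := i) (by omega)
      push Not at this
      exact this)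
  refine ⟨H, hH, fun hN => ?_⟩
  have sd := fun x hx k => step_d hH hd hm (x := x) hx (k := k)
  set N := normalizer (H : Set G)
  let C := (centralizer (H : Set G)).subgroupOf N
  let π := QuotientGroup.mk' C
  have hπ : Function.Surjective π := QuotientGroup.mk'_surjective _
  obtain ⟨L, l1, l2, l3⟩ := exists_pq hpq _ (N ⧸ C) rfl (hS H hH.1 N _ N.subtype π (fun l => l.2) hπ
    fun l hl => (QuotientGroup.eq_one_iff l).2 hl) ((bad_iff hH.1).1 hH)
  rw [← index_comap_of_surjective _ hπ] at l1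
  set Y := L.comap π
  let ψ : Y →* L := π.subgroupComap L
  have hψ : Function.Surjective ψ := π.subgroupComap_surjective_of_surjective L hπ
  let j : Y →* G := N.subtype.comp Y.subtype
  have hj : Function.Injective j := N.subtype_injective.comp Y.subtype_injective
  have kψ : ∀ y, y ∈ ψ.ker ↔ j y ∈ centralizer (H : Set G) := fun y =>
    Subtype.ext_iff.trans (QuotientGroup.eq_one_iff y.1)
  have fa := factorizable h23 ψ.ker (fun x hx ⟨k, hk⟩ c hc => hj (by
      rw [map_mul, map_mul]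
      exact mem_centralizer_iff.1 ((kψ c).1 hc) _ (sd _ ((kψ x).1 hx) k (by rw [← map_pow, hk, map_one]))))
    (by rwa [index_ker, MonoidHom.range_eq_top.2 hψ, card_top])
  obtain ⟨S⟩ : Nonempty (Sylow p Y) := inferInstance
  obtain ⟨T, hT⟩ := exists_sylow l1 S
  have eP : (S : Subgroup Y).map j = (T : Subgroup N).map N.subtype := by rw [hT, map_map]
  have hP : IsPGroup p ((S : Subgroup Y).map j) := S.2.map j
  have HP : H ≤ (S : Subgroup Y).map j := fun h hh =>
    eP ▸ ⟨⟨h, le_normalizer hh⟩, le_syl hH.1 T hh, rfl⟩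
  have cP : Nat.card ((S : Subgroup Y).map j) = p ^ i := by
    rw [eP, card_map_of_injective N.subtype_injective]
    obtain ⟨m, hm⟩ := IsPGroup.iff_card.1 T.2
    have a := T.pow_dvd_card_of_pow_dvd_card hd
    have b : ¬ p ^ (i + 1) ∣ Nat.card T := fun h => hi H hH (h.trans (card_subgroup_dvd_card _))
    rw [hm, Nat.pow_dvd_pow_iff_le_right hp.out.one_lt] at a b
    rw [hm, show m = i by omega]
  have dN := Sylow.prime_pow_dvd_card_normalizer (show p ^ (i + 1) ∣ Nat.card G by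
    rw [← N.card_mul_index, pow_succ]; exact Nat.mul_dvd_mul hd hN) cP
  have H1' : H ≠ ⊥ := by
    rintro rfl
    obtain ⟨-, y, -, -, c⟩ := hH
    exact c (by simp [mem_centralizer_iff])
  have P1 : (S : Subgroup Y).map j ≠ ⊥ := fun e => H1' (le_bot_iff.1 (e ▸ HP))
  have pP : p ∣ Nat.card ((S : Subgroup Y).map j) := hP.card_eq_or_dvd.resolve_left fun e => P1 (card_eq_one.1 e)
  have key : ∀ Z : Subgroup Y, Z ≤ S → Z.map j ≠ ⊥ →
      normalizer (((S : Subgroup Y).map j : Subgroup G) : Set G) ≤ normalizer ((Z.map j : Subgroup G) : Set G) →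
      ¬ q ∣ Nat.card ((normalizer (Z : Set Y)).map ψ) := fun Z ZS Z1 hz c => by
    rw [← relIndex_ker] at c
    obtain ⟨y, ⟨k, hk⟩, yc⟩ := (dvd_index_iff _).1 c
    exact yc ((kψ _).2 (step_c hpq hS (fun X _ _ h => ih _ (hn ▸ h) X rfl) hi hH.1 (hP.to_le (map_mono ZS)) Z1
      (HP.trans (le_normalizer.trans hz)) (dN.trans (card_dvd_of_le hz)) y.1.1.2
      (le_normalizer_map j ⟨y, y.2, rfl⟩) (k := k) (congrArg (fun a => j a.1) hk)))
  have k1 := key (H12.omZ p S) (H12.omZ_le _) (by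
      rw [H12.map_omZ _ _ hj]
      have := hP.isNilpotent
      have z1 := H2.inf_inf_centralizer_ne_bot (N := (S : Subgroup Y).map j) le_normalizer (by rwa [inf_idem])
      rw [inf_idem] at z1
      obtain ⟨z, hz⟩ := exists_prime_orderOf_dvd_card' p
        (hP.to_inf_left.card_eq_or_dvd.resolve_left fun e => z1 (card_eq_one.1 e))
      refine fun e => hp.out.one_lt.ne' (hz.symm.trans (orderOf_eq_one_iff.2 (Subtype.ext (mem_bot.1 (e ▸ ?_)))))
      exact H12.mem_omegaOne z.2 (congrArg Subtype.val (orderOf_dvd_iff_pow_eq_one.1 hz.dvd)))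
    (by
      rw [H12.map_omZ _ _ hj]
      exact (H1.le_normalizer_inf le_rfl (H1.le_normalizer_centralizer le_rfl)).trans
        (H12.normalizer_le_normalizer_omegaOne _))
  have k2 := key (thompsonSubgroupOf p S) (H12.thompsonSubgroupOf_le _)
    (by rw [H12.map_thompsonSubgroupOf _ _ hj]; exact H12.thompsonSubgroupOf_ne_bot pP)
    (by rw [H12.map_thompsonSubgroupOf _ _ hj]; exact H12.normalizer_le_normalizer_thompsonSubgroupOf _)
  refine (hq.out.dvd_mul.1 (l2.trans (card_dvd_of_prod fun g => ?_))).elim k1 k2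
  obtain ⟨g, rfl⟩ := hψ g
  obtain ⟨x, hx, c, hc, m, hm, rfl⟩ := fa S g
  refine ⟨_, ⟨c, centralizer_le_normalizer _ hc, rfl⟩, _, ⟨m, hm, rfl⟩, ?_⟩
  have : (H.comap j).Normal := ⟨fun a ha g => by
    rw [mem_comap, map_mul, map_mul, map_inv]
    exact (mem_normalizer_iff.1 g.1.2 _).1 ha⟩
  have : ψ x = 1 := (kψ x).2 (mem_centralizer_iff.2 fun h hh => by
    obtain ⟨a, -, rfl⟩ := HP hh
    rw [← map_mul, ← map_mul, mem_centralizer_iff.1 (H2.pPrimeCore_le_centralizer_pCore p Y hx) a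
      (H2.le_pCore (hH.1.comap_of_injective j hj) hh)])
  rw [map_mul, map_mul, this, one_mul]

/-- Let p and q be distinct primes with {p, q} ≠ {2, 3}, and let G be a finite group such that for every p-subgroup H of G the automizer N_G(H)/C_G(H) is p-solvable. If q divides the order of N_G(H)/C_G(H) for some p-subgroup H, then a Sylow p-subgroup of G has a normal subgroup K (normal in the Sylow subgroup) such that q divides the order of N_G(K)/C_G(K). -/
theorem result {G : Type*} [Group G] [Finite G]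
    (p q : ℕ) [Fact p.Prime] [Fact q.Prime] (hpq : p ≠ q) (h23 : ¬ ((p = 2 ∧ q = 3) ∨ (p = 3 ∧ q = 2)))
    (hsol : ∀ H : Subgroup G, IsPGroup p ↥H →
      Cfsg.IsPSolvable p (↥(Subgroup.normalizer (H : Set G)) ⧸ (Subgroup.centralizer (H : Set G)).subgroupOf (Subgroup.normalizer (H : Set G))))
    (H : Subgroup G) (hH : IsPGroup p ↥H)
    (hq : q ∣ ((Subgroup.centralizer (H : Set G)).subgroupOf (Subgroup.normalizer (H : Set G))).index)
    (Gp : Sylow p G) :
    ∃ K : Subgroup G, K ≤ (Gp : Subgroup G) ∧ (Gp : Subgroup G) ≤ Subgroup.normalizer (K : Set G) ∧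
      q ∣ ((Subgroup.centralizer (K : Set G)).subgroupOf (Subgroup.normalizer (K : Set G))).index := by
  obtain ⟨K, ⟨hK, y, yN, ⟨k, hk⟩, yc⟩, hn⟩ := main hpq h23 _ G rfl (fun H hH L X _ _ i f hi hf hc => by
    let g := (QuotientGroup.mk' ((centralizer (H : Set G)).subgroupOf (normalizer (H : Set G)))).comp
      (i.codRestrict _ hi)
    refine H18.isPSolvable_of_surjective (H18.isPSolvable_subgroup (hsol H hH) g.range)
      (g.rangeRestrict.liftOfSurjective g.rangeRestrict_surjective ⟨f, fun l hl => hc l ?_⟩) fun x => ?_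
    · exact (QuotientGroup.eq_one_iff (N := (centralizer (H : Set G)).subgroupOf (normalizer (H : Set G)))
        (i.codRestrict _ hi l)).1 (congrArg Subtype.val hl)
    · obtain ⟨l, rfl⟩ := hf x
      exact ⟨g.rangeRestrict l, MonoidHom.liftOfRightInverse_comp_apply _ _ _ _ l⟩) H ((bad_iff hH).2 hq)
  obtain ⟨S⟩ : Nonempty (Sylow p (normalizer (K : Set G))) := inferInstance
  obtain ⟨T, hT⟩ := exists_sylow hn S
  obtain ⟨g, rfl⟩ := MulAction.exists_smul_eq G T Gp
  let e := (MulAut.conj g).toMonoidHom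
  have he : Function.Injective e := (MulAut.conj g).injective
  refine ⟨K.map e, ?_, ?_, (bad_iff (hK.map e)).1 ⟨hK.map e, e y, le_normalizer_map e ⟨y, yN, rfl⟩,
    ⟨k, by rw [← map_pow, hk, map_one]⟩, fun c => yc (mem_centralizer_iff.2 fun x hx => he ?_)⟩⟩
  · rw [H12.coe_sylow_smul, hT]
    exact map_mono fun x hx => ⟨⟨x, le_normalizer hx⟩, le_syl hK S hx, rfl⟩
  · rw [H12.coe_sylow_smul, hT]
    exact (map_mono (map_subtype_le _)).trans (le_normalizer_map e)
  · rw [map_mul, map_mul, mem_centralizer_iff.1 c _ ⟨x, hx, rfl⟩]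

end Cfsg.Agent.S4411
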