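import Cfsg.Statements.S4412
import Cfsg.Agent.Base
import Cfsg.Agent.H1.CoprimeGen

set_option autoImplicit false
open Cfsg

namespace Cfsg.Agent.S4412

section

set_option linter.unusedSectionVars false

open Subgroup

variable {P : Type*} [Group P] [Finite P] {p : ℕ} {I I₀ : Subgroup (MulAut P)}

/-- The fixed points of `T` form a cyclic group. -/
def Cy (T : MulAut P) : Prop := ∃ g : P, ∀ x : P, (T x = x ↔ x ∈ zpowers g)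

/-- `a` is an eigenvector. -/
def Ev (I : Subgroup (MulAut P)) (a : P) : Prop := ∀ S ∈ I, S a = a ∨ S a = a⁻¹

structure Hy (p : ℕ) (I I₀ : Subgroup (MulAut P)) : Prop where
  hp : p.Prime
  hp2 : p ≠ 2
  hP : IsPGroup p P
  hI : IsElementaryAbelian 2 I
  h8 : Nat.card I = 8
  le : I₀ ≤ I
  dis : ∀ T ∈ I₀, T ≠ 1 → Cy T
  prod : ∀ T ∈ I, ∀ T' ∈ I, T ≠ 1 → T' ≠ 1 → ¬ Cy T → ¬ Cy T' → T * T' ∈ I₀

structure Tri (I : Subgroup (MulAut P)) (T₁ T₂ T₃ : MulAut P) (a₁ a₂ a₃ : P) : Prop where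
  m1 : T₁ ∈ I
  m2 : T₂ ∈ I
  m3 : T₃ ∈ I
  n1 : a₁ ≠ 1
  n2 : a₂ ≠ 1
  n3 : a₃ ≠ 1
  t1 : T₁ a₁ = a₁⁻¹ ∧ T₁ a₂ = a₂ ∧ T₁ a₃ = a₃
  t2 : T₂ a₂ = a₂⁻¹ ∧ T₂ a₃ = a₃ ∧ T₂ a₁ = a₁
  t3 : T₃ a₃ = a₃⁻¹ ∧ T₃ a₁ = a₁ ∧ T₃ a₂ = a₂

variable {T₁ T₂ T₃ S T : MulAut P} {a₁ a₂ a₃ a b g x y : P}

theorem Tri.rot (t : Tri I T₁ T₂ T₃ a₁ a₂ a₃) : Tri I T₂ T₃ T₁ a₂ a₃ a₁ :=
  ⟨t.m2, t.m3, t.m1, t.n2, t.n3, t.n1, t.t2, t.t3, t.t1⟩

variable (h : Hy p I I₀)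
include h

theorem Hy.dvd (hx : x ≠ 1) {n : ℤ} (e : x ^ n = 1) : (p : ℤ) ∣ n := by
  have := Fact.mk h.hp
  obtain ⟨k, hk⟩ := IsPGroup.iff_orderOf.1 h.hP x
  refine (Int.natCast_dvd_natCast.2 ?_).trans (orderOf_dvd_iff_zpow_eq_one.2 e)
  rw [hk]
  exact dvd_pow_self p fun e => hx (orderOf_eq_one_iff.1 (by rw [hk, e, pow_zero]))

theorem Hy.two : ¬ (p : ℤ) ∣ 2 := fun e =>
  h.hp2 ((Nat.prime_dvd_prime_iff_eq h.hp Nat.prime_two).1 (Int.natCast_dvd_natCast.1 e))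

theorem Hy.one (e : x = x⁻¹) : x = 1 := by_contra fun n =>
  h.two (h.dvd n (by rw [zpow_two]; exact mul_eq_one_iff_eq_inv.2 e))

theorem Hy.cm (hS : S ∈ I) (hT : T ∈ I) : S * T = T * S :=
  congrArg Subtype.val (h.hI.1.1.1 (⟨S, hS⟩ : I) ⟨T, hT⟩)

theorem Hy.cm' (hS : S ∈ I) (hT : T ∈ I) (x : P) : S (T x) = T (S x) :=
  congrArg (fun f : MulAut P => f x) (h.cm hS hT)

theorem Hy.sq (hS : S ∈ I) : S * S = 1 := (pow_two S).symm.trans (h.hI.2 S hS)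

theorem Hy.sq' (hS : S ∈ I) (x : P) : S (S x) = x := congrArg (fun f : MulAut P => f x) (h.sq hS)

theorem Hy.cyc (hS : S ∈ I) (hT : T ∈ I) (hg : ∀ x : P, (T x = x ↔ x ∈ zpowers g))
    (hx : T x = x) (hy : T y = y) (x1 : x ≠ 1) (e1 : S x = x) (e2 : S y = y⁻¹) : y = 1 := by
  by_contra y1
  obtain ⟨r, hr⟩ := (hg (S g)).1 (by rw [← h.cm' hS hT, (hg g).2 (mem_zpowers g)])
  have key : ∀ z, T z = z → S z = z ^ r := fun z hz => by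
    obtain ⟨n, rfl⟩ := (hg z).1 hz
    rw [map_zpow, ← hr, ← zpow_mul, ← zpow_mul, mul_comm]
  have d1 := h.dvd x1 (n := r - 1) (by rw [zpow_sub_one, ← key x hx, e1, mul_inv_cancel])
  have d2 := h.dvd y1 (n := r + 1) (by rw [zpow_add_one, ← key y hy, e2, inv_mul_cancel])
  exact h.two (by simpa using dvd_sub d2 d1)

theorem Hy.gen (L : Subgroup P) (hL : ∀ Y : Subgroup (MulAut P),
    (∀ S ∈ I, ∀ T ∈ I, S ∈ Y ∨ T ∈ Y ∨ S * T ∈ Y) → Y ≤ I → ∀ x, (∀ y ∈ Y, y x = x) → x ∈ L) :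
    L = ⊤ := by
  have := h.hI.1
  have := Fact.mk h.hp
  obtain ⟨k, hk⟩ := IsPGroup.iff_card.1 h.hP
  refine H1.eq_top_of_cocyclic_fixed _ P I.subtype rfl (by
    rw [h.h8, hk]
    exact ((Nat.coprime_primes Nat.prime_two h.hp).2 h.hp2.symm).pow 3 k) L fun Y hY x hx =>
    hL (Y.map I.subtype) (fun S hS T hT => ?_) (map_subtype_le Y) x
      (by rintro _ ⟨y, hy, rfl⟩; exact hx y hy)
  obtain ⟨g, hg⟩ := hY.exists_generator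
  have g2 : g ^ (2 : ℤ) = 1 := by
    obtain ⟨g, rfl⟩ := QuotientGroup.mk_surjective g
    rw [← QuotientGroup.mk_zpow, show g ^ (2 : ℤ) = 1 from Subtype.ext
      ((zpow_ofNat (g : MulAut P) 2).trans (h.hI.2 g g.2)), QuotientGroup.mk_one]
  have two : ∀ u : I ⧸ Y, u = 1 ∨ u = g := fun u => by
    obtain ⟨m, rfl⟩ := hg u
    rcases Int.even_or_odd' m with ⟨l, rfl | rfl⟩
    · exact Or.inl (by simp only [zpow_mul, g2, one_zpow])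
    · exact Or.inr (by simp only [zpow_add, zpow_mul, g2, one_zpow, one_mul, zpow_one])
  have m : ∀ u : I, (u : I ⧸ Y) = 1 → (u : MulAut P) ∈ Y.map I.subtype := fun u e =>
    ⟨u, (QuotientGroup.eq_one_iff u).1 e, rfl⟩
  rcases two (⟨S, hS⟩ : I) with e | e
  · exact Or.inl (m _ e)
  rcases two (⟨T, hT⟩ : I) with f | f
  · exact Or.inr (Or.inl (m _ f))
  · exact Or.inr (Or.inr (m (⟨S, hS⟩ * ⟨T, hT⟩) (by rw [QuotientGroup.mk_mul, e, f, ← zpow_two, g2])))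

theorem Hy.ev (a b : P) (ha : Ev I a) (hb : Ev I b) :
    ∃ T ∈ I, T a = a ∧ T b = b ∧ ∃ c ≠ 1, T c = c⁻¹ ∧ Ev I c := by
  classical
  obtain ⟨T, hT, T1, e1, e2⟩ : ∃ T ∈ I, T ≠ 1 ∧ T a = a ∧ T b = b := by
    have : Finite I := Nat.finite_of_card_ne_zero (by rw [h.h8]; omega)
    have := Fintype.ofFinite I
    obtain ⟨S, T, n, e⟩ := Fintype.exists_ne_map_eq_of_card_lt
      (fun S : I => (S.1 a = a, S.1 b = b)) (by rw [← Nat.card_eq_fintype_card (α := I), h.h8]; simp)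
    have k : ∀ c, Ev I c → (S.1 c = c) = (T.1 c = c) → (S.1 * T.1) c = c := fun c hc e => by
      rcases hc T T.2 with f | f
      · rw [MulAut.mul_apply, f, e.mpr f]
      · rcases hc S S.2 with f' | f'
        · rw [MulAut.mul_apply, e.mp f', f']
        · rw [MulAut.mul_apply, f, map_inv, f', inv_inv]
    exact ⟨S * T, mul_mem S.2 T.2, fun e => n (Subtype.ext ((eq_inv_of_mul_eq_one_left e).trans
      (inv_eq_of_mul_eq_one_right (h.sq T.2)))), k a ha (congrArg Prod.fst e),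
      k b hb (congrArg Prod.snd e)⟩
  refine ⟨T, hT, e1, e2, ?_⟩
  by_contra! hn
  refine T1 (MulEquiv.ext fun x => (h.gen ((T.toMonoidHom).eqLocus (MonoidHom.id P))
    fun Y hY YI c hc => by_contra fun n => ?_).ge (mem_top x))
  have i : T (c⁻¹ * T c) = (c⁻¹ * T c)⁻¹ := by rw [map_mul, map_inv, h.sq' hT, mul_inv_rev, inv_inv]
  have f : ∀ S ∈ Y, S (c⁻¹ * T c) = c⁻¹ * T c := fun S hS => by
    rw [map_mul, map_inv, h.cm' (YI hS) hT, hc S hS]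
  refine hn _ (fun e => n (inv_mul_eq_one.1 e).symm) i fun S hS => ?_
  rcases hY S hS T hT with k | k | k
  · exact Or.inl (f S k)
  · exact absurd (hc T k) n
  · have := f _ k
    rw [MulAut.mul_apply, i, map_inv] at this
    exact Or.inr (inv_eq_iff_eq_inv.1 this)

theorem Hy.tri : ∃ T₁ T₂ T₃ a₁ a₂ a₃, Tri I T₁ T₂ T₃ a₁ a₂ a₃ ∧ Ev I a₁ ∧ Ev I a₂ ∧ Ev I a₃ := by
  have o : Ev I 1 := fun S _ => Or.inl (map_one S)
  obtain ⟨T₁, m1, -, -, a₁, n1, i1, e1⟩ := h.ev 1 1 o o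
  obtain ⟨T₂, m2, f1, -, a₂, n2, i2, e2⟩ := h.ev a₁ 1 e1 o
  obtain ⟨T₃, m3, g1, g2, a₃, n3, i3, e3⟩ := h.ev a₁ a₂ e1 e2
  have adj : ∀ T ∈ I, ∀ S ∈ I, ∀ c, Ev I c → S c = c⁻¹ →
      ∃ T' ∈ I, T' c = c ∧ ∀ d, S d = d → T' d = T d := fun T hT S hS c hc i =>
    (hc T hT).elim (fun e => ⟨T, hT, e, fun _ _ => rfl⟩) fun e => ⟨T * S, mul_mem hT hS,
      by rw [MulAut.mul_apply, i, map_inv, e, inv_inv], fun d hd => by rw [MulAut.mul_apply, hd]⟩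
  obtain ⟨U₂, u2, u3, u⟩ := adj T₂ m2 T₃ m3 a₃ e3 i3
  obtain ⟨V, v1, v3, v⟩ := adj T₁ m1 T₃ m3 a₃ e3 i3
  obtain ⟨U₁, u1, w2, w⟩ := adj V v1 U₂ u2 a₂ e2 ((u _ g2).trans i2)
  exact ⟨U₁, U₂, T₃, a₁, a₂, a₃, ⟨u1, u2, m3, n1, n2, n3,
    ⟨by rw [w _ ((u _ g1).trans f1), v _ g1, i1], w2, (w _ u3).trans v3⟩,
    ⟨(u _ g2).trans i2, u3, (u _ g1).trans f1⟩, i3, g1, g2⟩, e1, e2, e3⟩

theorem Hy.ne (n : a ≠ 1) (e : T a = a⁻¹) : T ≠ 1 := fun k => n (h.one (by rw [← e, k]; rfl))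

theorem Hy.broad (t : Tri I T₁ T₂ T₃ a₁ a₂ a₃) (hS : S ∈ I) (e2 : S a₂ = a₂) (e3 : S a₃ = a₃) :
    ¬ Cy S := fun ⟨_, hg⟩ => t.n3 (h.cyc t.m3 hS hg e2 e3 t.n2 t.t3.2.2 t.t3.1)

theorem Hy.b1 (t : Tri I T₁ T₂ T₃ a₁ a₂ a₃) : T₁ ∈ I ∧ T₁ ≠ 1 ∧ ¬ Cy T₁ :=
  ⟨t.m1, h.ne t.n1 t.t1.1, h.broad t t.m1 t.t1.2.1 t.t1.2.2⟩

theorem Hy.p23 (t : Tri I T₁ T₂ T₃ a₁ a₂ a₃) : T₂ * T₃ ∈ I₀ :=
  h.prod _ t.m2 _ t.m3 (h.b1 t.rot).2.1 (h.b1 t.rot.rot).2.1 (h.b1 t.rot).2.2 (h.b1 t.rot.rot).2.2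

theorem Hy.all (t : Tri I T₁ T₂ T₃ a₁ a₂ a₃) (e1 : Ev I a₁) (e2 : Ev I a₂) (e3 : Ev I a₃)
    (hS : S ∈ I) : S = 1 ∨ S = T₁ ∨ S = T₂ ∨ S = T₃ ∨ S = T₂ * T₃ ∨ S = T₃ * T₁ ∨ S = T₁ * T₂ ∨
      S = T₁ * (T₂ * T₃) := by
  have k : ∀ U ∈ I, U a₁ = S a₁ → U a₂ = S a₂ → U a₃ = S a₃ → S = U := fun U hU f1 f2 f3 => by
    have m := mul_mem hS hU
    have f : ∀ c, U c = S c → (S * U) c = c := fun c e => by rw [MulAut.mul_apply, e, h.sq' hS]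
    by_contra n
    refine h.broad t (mul_mem m t.m1) (by rw [MulAut.mul_apply, t.t1.2.1, f _ f2])
      (by rw [MulAut.mul_apply, t.t1.2.2, f _ f3]) (h.dis _ (h.prod _ m _ t.m1 (fun e => n ?_)
        (h.b1 t).2.1 (h.broad t m (f _ f2) (f _ f3)) (h.b1 t).2.2)
        (h.ne t.n1 (by rw [MulAut.mul_apply, t.t1.1, map_inv, f _ f1])))
    rw [eq_inv_of_mul_eq_one_left e, inv_eq_of_mul_eq_one_right (h.sq hU)]
  obtain ⟨m1, m2, m3, -, -, -, ⟨c1, c2, c3⟩, ⟨c4, c5, c6⟩, c7, c8, c9⟩ := t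
  rcases e1 S hS with f1 | f1 <;> rcases e2 S hS with f2 | f2 <;> rcases e3 S hS with f3 | f3
  · exact Or.inl (k _ (one_mem _) (by simp [*]) (by simp [*]) (by simp [*]))
  · simp [k _ m3 (by simp [*]) (by simp [*]) (by simp [*])]
  · simp [k _ m2 (by simp [*]) (by simp [*]) (by simp [*])]
  · simp [k _ (mul_mem m2 m3) (by simp [*]) (by simp [*]) (by simp [*])]
  · simp [k _ m1 (by simp [*]) (by simp [*]) (by simp [*])]
  · simp [k _ (mul_mem m3 m1) (by simp [*]) (by simp [*]) (by simp [*])]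
  · simp [k _ (mul_mem m1 m2) (by simp [*]) (by simp [*]) (by simp [*])]
  · simp [k _ (mul_mem m1 (mul_mem m2 m3)) (by simp [*]) (by simp [*]) (by simp [*])]

theorem Hy.g1 (t : Tri I T₁ T₂ T₃ a₁ a₂ a₃) : ∃ g ≠ 1, (∀ x, (T₂ * T₃) x = x ↔ x ∈ zpowers g) ∧
    T₁ g = g⁻¹ ∧ T₂ g = g ∧ T₃ g = g := by
  obtain ⟨g, hg⟩ := h.dis _ (h.p23 t) (h.ne t.n2 (by rw [MulAut.mul_apply, t.t3.2.2, t.t2.1]))
  have m := mul_mem t.m2 t.m3
  have a1 : (T₂ * T₃) a₁ = a₁ := by rw [MulAut.mul_apply, t.t3.2.1, t.t2.2.2]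
  have gg := (hg g).2 (mem_zpowers g)
  have sg : ∀ S ∈ I, (T₂ * T₃) (S g) = S g := fun S hS => by rw [h.cm' m hS, gg]
  have fx : ∀ S ∈ I, S a₁ = a₁ → S g = g := fun S hS e => (inv_mul_eq_one.1 (h.cyc hS m hg a1
    (y := g⁻¹ * S g) (by rw [map_mul, map_inv, gg, sg S hS]) t.n1 e
    (by rw [map_mul, map_inv, h.sq' hS, mul_inv_rev, inv_inv]))).symm
  refine ⟨g, fun e => t.n1 (by simpa [e] using (hg a₁).1 a1), hg, eq_inv_of_mul_eq_one_right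
    (by_contra fun n => t.n1 (h.cyc t.m1 m hg (x := g * T₁ g) (by rw [map_mul, gg, sg _ t.m1]) a1 n
      ?_ t.t1.1)), fx _ t.m2 t.t2.2.2, fx _ t.m3 t.t3.2.1⟩
  obtain ⟨r, hr⟩ := (hg _).1 (sg _ t.m1)
  rw [map_mul, h.sq' t.m1, ← hr]
  exact ((Commute.refl g).zpow_left r).eq

theorem Hy.comm (t : Tri I T₁ T₂ T₃ a₁ a₂ a₃) (hg : ∀ x, (T₂ * T₃) x = x ↔ x ∈ zpowers a₁) :
    a₂ * a₃ = a₃ * a₂ := by
  have := Fact.mk h.hp
  have m := mul_mem t.m2 t.m3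
  have e1 : T₁ (a₂ * a₃) = a₂ * a₃ := by rw [map_mul, t.t1.2.1, t.t1.2.2]
  have e2 : (T₂ * T₃) (a₂ * a₃) = a₂⁻¹ * a₃⁻¹ := by
    simp only [MulAut.mul_apply, map_mul, map_inv, t.t2.1, t.t2.2.1, t.t3.1, t.t3.2.2]
  generalize hx : a₂ * a₃ = x at e1 e2
  set u := x⁻¹ * (T₂ * T₃) x with hu
  obtain ⟨k, hk⟩ := IsPGroup.iff_orderOf.1 h.hP u
  obtain ⟨n, hn⟩ : Odd (orderOf u) := hk ▸ (h.hp.odd_of_ne_two h.hp2).pow
  have u1 : T₁ u = u := by rw [hu, map_mul, map_inv, h.cm' t.m1 m, e1]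
  have u2 : (T₂ * T₃) u = u⁻¹ := by rw [hu, map_mul, map_inv, h.sq' m, mul_inv_rev, inv_inv]
  have v : u ^ (n + 1) * u ^ (n + 1) = u := by
    rw [← pow_add, show n + 1 + (n + 1) = orderOf u + 1 by omega, pow_succ, pow_orderOf_eq_one,
      one_mul]
  obtain ⟨r, hr⟩ := (hg (x * u ^ (n + 1))).1 (by
    rw [map_mul, map_pow, u2, inv_pow, mul_inv_eq_iff_eq_mul, mul_assoc, v, hu, mul_inv_cancel_left])
  have : x * u ^ (n + 1) = 1 := h.one (by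
    nth_rw 1 [← e1, ← u1]
    rw [← map_pow, ← map_mul, ← hr, map_zpow, t.t1.1, inv_zpow])
  rw [eq_inv_of_mul_eq_one_left this, map_inv, map_pow, u2, inv_pow, inv_inv,
    eq_inv_of_mul_eq_one_right this] at e2
  rw [← inv_inj, e2, mul_inv_rev]

theorem Hy.indep (t : Tri I T₁ T₂ T₃ a₁ a₂ a₃) {k l m : ℤ} (e : a₁ ^ k * (a₂ ^ l * a₃ ^ m) = 1) :
    (p : ℤ) ∣ k := by
  have := congrArg T₁ e
  rw [map_mul, map_mul, map_zpow, map_zpow, map_zpow, t.t1.1, t.t1.2.1, t.t1.2.2, map_one, ← e,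
    mul_left_inj, inv_zpow] at this
  exact h.dvd t.n1 (h.one this.symm)

end


/-- Let p be an odd prime, P a finite p-group and I an elementary abelian subgroup of order 8 of Aut(P). Call T ∈ I, T ≠ 1, broad when its fixed-point subgroup C_P(T) is not cyclic. Suppose I has a proper subgroup I₀ containing no broad element such that the product of any two broad elements lies in I₀. Then P is abelian of rank exactly 3 (generated by three elements but not by two), there are exactly three broad elements and they generate I, and I₀ is exactly the set of products of two broad elements. -/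
theorem result
    {P : Type*} [Group P] [Finite P] (p : ℕ) (hp : p.Prime) (hp2 : p ≠ 2) (hP : IsPGroup p P)
    (I : Subgroup (MulAut P)) (hI : Cfsg.IsElementaryAbelian 2 I) (hI8 : Nat.card ↥I = 8)
    (I₀ : Subgroup (MulAut P)) (hI₀ : I₀ < I)
    (hdisj : ∀ T ∈ I₀, T ≠ 1 → ∃ g : P, ∀ x : P, (T x = x ↔ x ∈ Subgroup.zpowers g))
    (hprod : ∀ T ∈ I, ∀ T' ∈ I, T ≠ 1 → T' ≠ 1 → (¬ ∃ g : P, ∀ x : P, (T x = x ↔ x ∈ Subgroup.zpowers g)) →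
      (¬ ∃ g : P, ∀ x : P, (T' x = x ↔ x ∈ Subgroup.zpowers g)) → T * T' ∈ I₀) :
    IsMulCommutative P ∧ (∃ a b c : P, Subgroup.closure {a, b, c} = ⊤) ∧ (¬ ∃ a b : P, Subgroup.closure {a, b} = ⊤) ∧
      Nat.card {T : MulAut P // T ∈ I ∧ T ≠ 1 ∧ ¬ ∃ g : P, ∀ x : P, (T x = x ↔ x ∈ Subgroup.zpowers g)} = 3 ∧
      Subgroup.closure {T : MulAut P | T ∈ I ∧ T ≠ 1 ∧ ¬ ∃ g : P, ∀ x : P, (T x = x ↔ x ∈ Subgroup.zpowers g)} = I ∧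
      (I₀ : Set (MulAut P)) = {S : MulAut P | ∃ T T' : MulAut P, T ∈ I ∧ T' ∈ I ∧ T ≠ 1 ∧ T' ≠ 1 ∧
        (¬ ∃ g : P, ∀ x : P, (T x = x ↔ x ∈ Subgroup.zpowers g)) ∧ (¬ ∃ g : P, ∀ x : P, (T' x = x ↔ x ∈ Subgroup.zpowers g)) ∧ S = T * T'} := by
  have h : Hy p I I₀ := ⟨hp, hp2, hP, hI, hI8, hI₀.le, hdisj, hprod⟩
  obtain ⟨T₁, T₂, T₃, a₁, a₂, a₃, t₀, e1, e2, e3⟩ := h.tri
  have all := fun S => h.all (S := S) t₀ e1 e2 e3
  obtain ⟨g₁, n1, c1, d1⟩ := h.g1 t₀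
  obtain ⟨g₂, n2, c2, d2⟩ := h.g1 t₀.rot
  obtain ⟨g₃, n3, c3, d3⟩ := h.g1 t₀.rot.rot
  have t : Tri I T₁ T₂ T₃ g₁ g₂ g₃ := ⟨t₀.m1, t₀.m2, t₀.m3, n1, n2, n3, ⟨d1.1, d2.2.2, d3.2.1⟩,
    ⟨d2.1, d3.2.2, d1.2.1⟩, d3.1, d1.2.2, d2.2.1⟩
  have top : Subgroup.closure {g₁, g₂, g₃} = ⊤ := h.gen _ fun Y hY _ x hx => by
    have k : ∀ {S : MulAut P} {g : P}, (∀ x, S x = x ↔ x ∈ Subgroup.zpowers g) → S ∈ Y →
        g ∈ ({g₁, g₂, g₃} : Set P) → x ∈ Subgroup.closure {g₁, g₂, g₃} := fun c m hg =>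
      Subgroup.zpowers_le.2 (Subgroup.subset_closure hg) ((c x).1 (hx _ m))
    rcases hY _ t.m1 _ t.m2 with a | a | a
    · rcases hY _ t.m2 _ t.m3 with b | b | b
      exacts [k c3 (mul_mem a b) (by simp), k c2 (mul_mem b a) (by simp), k c1 b (by simp)]
    · rcases hY _ t.m3 _ t.m1 with b | b | b
      exacts [k c1 (mul_mem a b) (by simp), k c3 (mul_mem b a) (by simp), k c2 b (by simp)]
    · exact k c3 a (by simp)
  have p1 := h.comm t c1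
  have p2 := h.comm t.rot c2
  have p3 := h.comm t.rot.rot c3
  have cm : ∀ x y : P, x * y = y * x := fun x y => by
    refine Subgroup.mem_center_iff.1 ((top.ge.trans ((Subgroup.closure_le _).2 fun g hg =>
      Subgroup.mem_center_iff.2 fun z => Subgroup.mem_centralizer_singleton_iff.1
        ((top.ge.trans ((Subgroup.closure_le _).2 fun g' hg' =>
          Subgroup.mem_centralizer_singleton_iff.2 ?_)) (Subgroup.mem_top z)))) (Subgroup.mem_top y)) x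
    rcases hg with rfl | rfl | rfl <;> rcases hg' with rfl | rfl | rfl <;> simp only [*]
  let : CommGroup P := { (inferInstance : Group P) with mul_comm := cm }
  have nf : ∀ x : P, ∃ k l m : ℤ, x = g₁ ^ k * (g₂ ^ l * g₃ ^ m) := fun x => by
    have := top.ge (Subgroup.mem_top x)
    rw [Set.insert_eq, Subgroup.closure_union, Subgroup.mem_sup] at this
    obtain ⟨y, hy, z, hz, rfl⟩ := this
    obtain ⟨k, rfl⟩ := Subgroup.mem_closure_singleton.1 hy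
    obtain ⟨l, m, rfl⟩ := Subgroup.mem_closure_pair.1 hz
    exact ⟨k, l, m, rfl⟩
  have b1 := h.b1 t
  have b2 := h.b1 t.rot
  have b3 := h.b1 t.rot.rot
  have q1 := h.p23 t
  have q2 := h.p23 t.rot
  have q3 := h.p23 t.rot.rot
  have br : {T : MulAut P | T ∈ I ∧ T ≠ 1 ∧ ¬ Cy T} = {T₁, T₂, T₃} := by
    refine Set.ext fun S => ⟨fun ⟨m, n, c⟩ => ?_, by rintro (rfl | rfl | rfl) <;> assumption⟩
    rcases all S m with rfl | rfl | rfl | rfl | rfl | rfl | rfl | rfl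
    · exact absurd rfl n
    · simp
    · simp
    · simp
    · exact absurd (hdisj _ q1 n) c
    · exact absurd (hdisj _ q2 n) c
    · exact absurd (hdisj _ q3 n) c
    · refine absurd ⟨1, fun x => ⟨fun e => ?_, fun e => by simp [Subgroup.mem_bot.1 (by simpa using e)]⟩⟩ c
      obtain ⟨k, l, m, rfl⟩ := nf x
      rw [h.one (e.symm.trans (by simp [d1, d2, d3, mul_comm]))]
      exact one_mem _
  refine ⟨⟨⟨cm⟩⟩, ⟨_, _, _, top⟩, ?_, ?_, ?_, ?_⟩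
  · rintro ⟨a, b, hab⟩
    obtain ⟨α₁, α₂, α₃, rfl⟩ := nf a
    obtain ⟨β₁, β₂, β₃, rfl⟩ := nf b
    have := Fact.mk hp
    have k : ∀ d₁ d₂ d₃ : ℤ, ∃ m n : ZMod p, α₁ * m + β₁ * n = d₁ ∧ α₂ * m + β₂ * n = d₂ ∧
        α₃ * m + β₃ * n = d₃ := fun d₁ d₂ d₃ => by
      obtain ⟨m, n, e⟩ := Subgroup.mem_closure_pair.1 (hab.ge
        (Subgroup.mem_top (g₁ ^ d₁ * (g₂ ^ d₂ * g₃ ^ d₃))))
      have e' : g₁ ^ (α₁ * m + β₁ * n - d₁) * (g₂ ^ (α₂ * m + β₂ * n - d₂) *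
          g₃ ^ (α₃ * m + β₃ * n - d₃)) = 1 := by
        rw [← mul_inv_eq_one] at e
        rw [← e]
        simp only [zpow_sub, zpow_add, zpow_mul, mul_zpow, mul_inv]
        ac_rfl
      have z : ∀ {u v : ℤ}, (p : ℤ) ∣ u - v → (u : ZMod p) = v := fun e =>
        ((ZMod.intCast_eq_intCast_iff_dvd_sub _ _ p).2 e).symm
      exact ⟨m, n, by exact_mod_cast z (h.indep t e'), by
        exact_mod_cast z (h.indep t.rot (by rw [← e']; ac_rfl)), by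
        exact_mod_cast z (h.indep t.rot.rot (by rw [← e']; ac_rfl))⟩
    obtain ⟨m₁, n₁, x1, x2, x3⟩ := k 1 0 0
    obtain ⟨m₂, n₂, y1, y2, y3⟩ := k 0 1 0
    obtain ⟨m₃, n₃, z1, z2, z3⟩ := k 0 0 1
    have det : (α₁ * m₁ + β₁ * n₁) * ((α₂ * m₂ + β₂ * n₂) * (α₃ * m₃ + β₃ * n₃) -
        (α₃ * m₂ + β₃ * n₂) * (α₂ * m₃ + β₂ * n₃)) - (α₂ * m₁ + β₂ * n₁) * ((α₁ * m₂ + β₁ * n₂) *
        (α₃ * m₃ + β₃ * n₃) - (α₃ * m₂ + β₃ * n₂) * (α₁ * m₃ + β₁ * n₃)) + (α₃ * m₁ + β₃ * n₁) *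
        ((α₁ * m₂ + β₁ * n₂) * (α₂ * m₃ + β₂ * n₃) - (α₂ * m₂ + β₂ * n₂) * (α₁ * m₃ + β₁ * n₃)) =
        0 := by ring
    rw [x1, x2, x3, y1, y2, y3, z1, z2, z3] at det
    simp at det
  · have n : ∀ {S T : MulAut P} {a : P}, a ≠ 1 → S a = a⁻¹ → T a = a → S ≠ T := fun n e f k =>
      n (h.one (by rw [← e, k, f]))
    exact (Nat.card_coe_set_eq {T : MulAut P | T ∈ I ∧ T ≠ 1 ∧ ¬ Cy T}).trans (Set.ncard_eq_three.2
      ⟨_, _, _, n n1 d1.1 d1.2.1, n n1 d1.1 d1.2.2, n n2 d2.1 d2.2.1, br⟩)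
  · refine le_antisymm ((Subgroup.closure_le _).2 fun S hS => hS.1) fun S m => ?_
    have s1 := Subgroup.subset_closure (k := {T : MulAut P | T ∈ I ∧ T ≠ 1 ∧ ¬ Cy T}) b1
    have s2 := Subgroup.subset_closure (k := {T : MulAut P | T ∈ I ∧ T ≠ 1 ∧ ¬ Cy T}) b2
    have s3 := Subgroup.subset_closure (k := {T : MulAut P | T ∈ I ∧ T ≠ 1 ∧ ¬ Cy T}) b3
    rcases all S m with rfl | rfl | rfl | rfl | rfl | rfl | rfl | rfl
    exacts [one_mem _, s1, s2, s3, mul_mem s2 s3, mul_mem s3 s1, mul_mem s1 s2,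
      mul_mem s1 (mul_mem s2 s3)]
  · refine Set.ext fun S => ⟨fun m => ?_, ?_⟩
    · rcases all S (hI₀.le m) with rfl | rfl | rfl | rfl | rfl | rfl | rfl | rfl
      · exact ⟨_, _, b1.1, b1.1, b1.2.1, b1.2.1, b1.2.2, b1.2.2, (h.sq b1.1).symm⟩
      · exact absurd (hdisj _ m b1.2.1) b1.2.2
      · exact absurd (hdisj _ m b2.2.1) b2.2.2
      · exact absurd (hdisj _ m b3.2.1) b3.2.2
      · exact ⟨_, _, b2.1, b3.1, b2.2.1, b3.2.1, b2.2.2, b3.2.2, rfl⟩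
      · exact ⟨_, _, b3.1, b1.1, b3.2.1, b1.2.1, b3.2.2, b1.2.2, rfl⟩
      · exact ⟨_, _, b1.1, b2.1, b1.2.1, b2.2.1, b1.2.2, b2.2.2, rfl⟩
      · exact absurd (hdisj _ ((mul_mem_cancel_right q1).1 m) b1.2.1) b1.2.2
    · rintro ⟨T, T', a, b, c, d, e, f, rfl⟩
      exact hprod T a T' b c d e f

end Cfsg.Agent.S4412
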