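import Cfsg.Statements.S4414
import Cfsg.Agent.H26.ChFix

set_option autoImplicit false
open Cfsg

namespace Cfsg.Agent.S4414

/-- Let S be a finite solvable group whose order is divisible only by the primes 2, p, q (p, q distinct odd primes), with a Sylow system S₂, S_p, S_q (pairwise permutable Sylow subgroups) such that: S_p is a minimal normal subgroup of S of order p or p²; S_q has order q and [S_p, S_q] = S_p; and O₂(S) = 1. Let E be an irreducible module for S over the field with two elements on which S_p acts faithfully, and E₀ the subspace of fixed points of S₂. Then either E₀ has at least 8 elements, or E₀ has exactly 4 elements and S_q does not leave E₀ invariant. -/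
theorem result {S : Type*} [Group S] [Finite S]
    [Group.IsSolvable S] (p q : ℕ) (hp : p.Prime) (hq : q.Prime) (hp2 : p ≠ 2) (hq2 : q ≠ 2) (hpq : p ≠ q)
    (hπ : ∀ r : ℕ, r.Prime → r ∣ Nat.card S → r = 2 ∨ r = p ∨ r = q)
    (S₂ : Sylow 2 S) (Sp : Sylow p S) (Sq : Sylow q S)
    (h2q : Nat.card ↥((S₂ : Subgroup S) ⊔ (Sq : Subgroup S)) = Nat.card ↥S₂ * Nat.card ↥Sq)
    (h2p : Nat.card ↥((S₂ : Subgroup S) ⊔ (Sp : Subgroup S)) = Nat.card ↥S₂ * Nat.card ↥Sp)
    (hpq' : Nat.card ↥((Sp : Subgroup S) ⊔ (Sq : Subgroup S)) = Nat.card ↥Sp * Nat.card ↥Sq)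
    (hSpN : (Sp : Subgroup S).Normal) (hSpmin : ∀ N : Subgroup S, N.Normal → N ≤ (Sp : Subgroup S) → N = ⊥ ∨ N = (Sp : Subgroup S))
    (hSpcard : Nat.card ↥Sp = p ∨ Nat.card ↥Sp = p ^ 2)
    (hSq : Nat.card ↥Sq = q) (hcomm : ⁅(Sp : Subgroup S), (Sq : Subgroup S)⁆ = (Sp : Subgroup S))
    (hO2 : Cfsg.pCore 2 S = ⊥)
    {E : Type*} [AddCommGroup E] [Module (ZMod 2) E] [Finite E] (ρ : Representation (ZMod 2) S E) (hE : Nontrivial E)
    (hirr : ∀ N : Submodule (ZMod 2) E, (∀ s : S, ∀ m ∈ N, ρ s m ∈ N) → N = ⊥ ∨ N = ⊤)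
    (hfaith : ∀ x ∈ (Sp : Subgroup S), ρ x = 1 → x = 1) :
    8 ≤ Nat.card {v : E // ∀ s ∈ (S₂ : Subgroup S), ρ s v = v} ∨
      (Nat.card {v : E // ∀ s ∈ (S₂ : Subgroup S), ρ s v = v} = 4 ∧
        ∃ x ∈ (Sq : Subgroup S), ∃ v : E, (∀ s ∈ (S₂ : Subgroup S), ρ s v = v) ∧ ¬ ∀ s ∈ (S₂ : Subgroup S), ρ s (ρ x v) = ρ x v) := by
  classical
  change Nat.card (Sp : Subgroup S) = p ∨ Nat.card (Sp : Subgroup S) = p ^ 2 at hSpcard
  have := Fact.mk hp
  have := Fact.mk hq
  have := Fintype.ofFinite (Sp : Subgroup S)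
  have hc : ∀ a b : (Sp : Subgroup S), a * b = b * a := by
    rcases hSpcard with h | h
    · have := isCyclic_of_prime_card h
      exact fun a b => IsCyclic.commGroup.mul_comm a b
    · exact (IsPGroup.commGroupOfCardEqPrimeSq h).mul_comm
  have hodd : Odd (Nat.card (Sp : Subgroup S)) := by
    rcases hSpcard with h | h <;> rw [h]
    exacts [hp.odd_of_ne_two hp2, (hp.odd_of_ne_two hp2).pow]
  have h0 : H22.fixSp ρ (Sp : Subgroup S) = ⊥ := by
    refine (hirr (H22.fixSp ρ (Sp : Subgroup S)) fun s m hm a ha => ?_).resolve_right fun e => ?_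
    · have := hm _ (hSpN.conj_mem a ha s⁻¹)
      rw [inv_inv, map_mul, map_mul, Module.End.mul_apply, Module.End.mul_apply] at this
      rw [← ρ.self_inv_apply s (ρ a (ρ s m)), this]
    · have : (Sp : Subgroup S) = ⊥ := eq_bot_iff.2 fun x hx =>
        hfaith x hx (LinearMap.ext fun v => (e.ge Submodule.mem_top : v ∈ _) x hx)
      rw [this, Subgroup.card_bot] at hSpcard
      rcases hSpcard with h | h
      · exact hp.one_lt.ne h
      · exact (Nat.one_lt_pow two_ne_zero hp.one_lt).ne h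
  have := (H22.one_tmul_injective (F := ZMod 2) (K := AlgebraicClosure (ZMod 2)) (V := E)).nontrivial
  obtain ⟨k1, k2⟩ := H26.CF.main (H22.repBC (AlgebraicClosure (ZMod 2)) ρ) hc (by
      rw [Ne, CharP.cast_eq_zero_iff _ 2]
      exact hodd.not_two_dvd_nat) (fun v hv => by
      have : v ∈ H22.fixSp (H22.repBC (AlgebraicClosure (ZMod 2)) ρ) (Sp : Subgroup S) := hv
      rwa [H22.fixSp_repBC, h0, Submodule.baseChange_bot, Submodule.mem_bot] at this)
    hq2 hq2 S₂.isPGroup' Sq.isPGroup' hcomm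
  rw [H22.finrank_fixSp_repBC] at k1 k2
  have e : Nat.card {v : E // ∀ s ∈ (S₂ : Subgroup S), ρ s v = v} =
      2 ^ Module.finrank (ZMod 2) (H22.fixSp ρ (S₂ : Subgroup S)) := by
    have := Module.natCard_eq_pow_finrank (K := ZMod 2) (V := H22.fixSp ρ (S₂ : Subgroup S))
    rwa [Nat.card_zmod] at this
  rw [e]
  rcases k1.eq_or_lt with k | k
  · refine Or.inr ⟨by rw [← k]; rfl, ?_⟩
    by_contra hn
    push Not at hn
    refine k2 k.symm fun x hx v hv => ?_
    rw [H22.fixSp_repBC, H22.mem_baseChange_iff_tcoord] at hv ⊢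
    intro φ
    rw [H22.repBC_apply, H22.tcoord_baseChange]
    exact hn x hx _ (hv φ)
  · exact Or.inl (Nat.pow_le_pow_right two_pos k)

end Cfsg.Agent.S4414
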