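import Cfsg.Statements.S4417
import Cfsg.Agent.H30.DerLen

set_option autoImplicit false
open Cfsg

namespace Cfsg.Agent.S4417

/-- Let F be a field with q elements, p a prime not dividing q, and e the multiplicative order of q modulo p; assume e ≤ n. Then every p-subgroup of GL_n(F) has derived length at most ⌊log₂(n/e)⌋ + 1: that term of its derived series is trivial (n/e is the integer quotient). -/
theorem result {F : Type*} [Field F] [Fintype F] (q : ℕ) (hF : Fintype.card F = q) (p : ℕ) [Fact p.Prime] (hpq : ¬ p ∣ q) (n e : ℕ) (he : e = orderOf (q : ZMod p)) (hen : e ≤ n) (P : Subgroup (GL (Fin n) F)) (hP : IsPGroup p P) : derivedSeries ↥P (Nat.log 2 (n / e) + 1) = ⊥ := by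
  subst hF he
  have hp : p.Prime := Fact.out
  have h0 : (p : F) ≠ 0 := fun h => by
    haveI := (CharP.charP_iff_prime_eq_zero hp).2 h
    obtain ⟨k, -, e⟩ := FiniteField.card F p
    exact hpq (e ▸ dvd_pow_self p k.ne_zero)
  have h1 : (Fintype.card F : ZMod p) ≠ 0 := by rwa [Ne, ZMod.natCast_eq_zero_iff]
  have h2 := orderOf_dvd_of_pow_eq_one (ZMod.pow_card_sub_one_eq_one h1)
  have h3 : 0 < orderOf (Fintype.card F : ZMod p) := Nat.pos_of_dvd_of_pos h2 (by have := hp.two_le; omega)
  refine H30.DL.up_gl h0 (H30.DL.small_fin hpq) (fun e => by subst e; exact Nat.le_of_dvd one_pos h2) hP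
    ((Units.coeHom _).comp P.subtype) (Units.val_injective.comp P.subtype_injective) ?_
  rw [Fintype.card_fin, mul_comm, ← Nat.div_lt_iff_lt_mul h3]
  exact (Nat.lt_pow_succ_log_self one_lt_two _).trans_le (Nat.pow_le_pow_left hp.two_le _)

end Cfsg.Agent.S4417
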