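import Cfsg.Statements.S4420
import Cfsg.Agent.Base

set_option autoImplicit false
open Cfsg

namespace Cfsg.Agent.S4420

theorem inverts {H : Type*} [Group H] (A : Subgroup H) (hD : ∀ x : H, x ∉ A → x ^ 2 = 1)
    (x : H) (hx : x ∉ A) (a : H) (ha : a ∈ A) : x * a * x⁻¹ = a⁻¹ := by
  have h1 := hD x hx
  have h2 := hD (x * a) (fun h => hx ((A.mul_mem_cancel_right ha).1 h))
  have hxi : x⁻¹ = x := by
    rw [inv_eq_iff_mul_eq_one, ← pow_two, h1]
  rw [hxi, eq_inv_iff_mul_eq_one, mul_assoc, ← pow_two, h2]

theorem comm_of_inverts {H : Type*} [Group H] (A : Subgroup H) (x : H)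
    (h : ∀ a ∈ A, x * a * x⁻¹ = a⁻¹) (a b : H) (ha : a ∈ A) (hb : b ∈ A) : a * b = b * a := by
  have h1 := h (a * b) (A.mul_mem ha hb)
  have h2 : x * (a * b) * x⁻¹ = (x * a * x⁻¹) * (x * b * x⁻¹) := by group
  rw [h2, h a ha, h b hb, ← mul_inv_rev] at h1
  exact (inv_injective h1).symm

theorem comm_of_sq {H : Type*} [Group H] (h : ∀ x : H, x ^ 2 = 1) (a b : H) : a * b = b * a := by
  have hi : ∀ x : H, x⁻¹ = x := fun x => by rw [inv_eq_iff_mul_eq_one, ← pow_two, h x]
  rw [← hi (a * b), mul_inv_rev, hi, hi]

/-- If the index is not two, everything squares to one. -/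
theorem all_sq {H : Type*} [Group H] (A : Subgroup H) (hA : A ≠ ⊤)
    (hD : ∀ x : H, x ∉ A → x ^ 2 = 1) (h2 : A.index ≠ 2) : ∀ x : H, x ^ 2 = 1 := by
  obtain ⟨x, hx⟩ : ∃ x : H, x ∉ A := by
    by_contra hx
    push Not at hx
    exact hA (Subgroup.eq_top_iff' A |>.2 hx)
  obtain ⟨y, hy1, hy2⟩ : ∃ y : H, y * x ∉ A ∧ y ∉ A := by
    by_contra hcon
    push Not at hcon
    apply h2
    rw [Subgroup.index_eq_two_iff_exists_notMem_and]
    refine ⟨x, hx, fun b => ?_⟩
    by_cases hb : b * x ∈ A
    · exact Or.inl hb
    · exact Or.inr (hcon b hb)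
  intro a
  by_cases ha : a ∈ A
  · have e1 := inverts A hD x hx a ha
    have e2 := inverts A hD y hy2 a⁻¹ (A.inv_mem ha)
    have e3 := inverts A hD (y * x) hy1 a ha
    have e4 : y * x * a * (y * x)⁻¹ = y * (x * a * x⁻¹) * y⁻¹ := by group
    rw [e4, e1, e2, inv_inv] at e3
    rw [pow_two, ← eq_inv_iff_mul_eq_one]
    exact e3
  · exact hD a ha

/-- Structure of groups in which every element outside some proper subgroup has square 1. Let H be a finite group with a proper subgroup A such that every element outside A has square 1. Then H has an abelian normal subgroup B of index 2 such that every element outside B is an involution inverting every element of B; and if H is not an elementary abelian 2-group, B is the only abelian normal subgroup of index 2 with this property. -/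
theorem result {H : Type*} [Group H] [Finite H] (A : Subgroup H) (hA : A ≠ ⊤) (hD : ∀ x : H, x ∉ A → x ^ 2 = 1) :
    ∃ B : Subgroup H, B.Normal ∧ IsMulCommutative ↥B ∧ B.index = 2 ∧
      (∀ x : H, x ∉ B → x ^ 2 = 1 ∧ ∀ b ∈ B, x * b * x⁻¹ = b⁻¹) ∧
      (¬ (IsMulCommutative H ∧ ∀ x : H, x ^ 2 = 1) →
        ∀ B' : Subgroup H, B'.Normal → IsMulCommutative ↥B' → B'.index = 2 →
          (∀ x : H, x ∉ B' → x ^ 2 = 1 ∧ ∀ b ∈ B', x * b * x⁻¹ = b⁻¹) → B' = B) := by
  by_cases h2 : A.index = 2
  · obtain ⟨x, hx⟩ : ∃ x : H, x ∉ A := by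
      by_contra hx
      push Not at hx
      exact hA (Subgroup.eq_top_iff' A |>.2 hx)
    refine ⟨A, Subgroup.normal_of_index_eq_two h2, ⟨⟨fun a b => Subtype.ext
      (comm_of_inverts A x (inverts A hD x hx) a b a.2 b.2)⟩⟩, h2,
      fun y hy => ⟨hD y hy, inverts A hD y hy⟩, ?_⟩
    intro hne B _ _ hB2 hB
    by_contra hBA
    apply hne
    have hsq : ∀ z : H, z ^ 2 = 1 := by
      intro z
      by_cases hzA : z ∈ A
      · by_cases hzB : z ∈ B
        · -- an element of `A` outside `B`, or of `B` outside `A`
          have hi : z = z⁻¹ := by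
            by_cases hAB : A ≤ B
            · by_cases hBA' : B ≤ A
              · exact absurd (le_antisymm hBA' hAB) hBA
              · obtain ⟨w, hwB, hwA⟩ := SetLike.not_le_iff_exists.1 hBA'
                obtain ⟨u, hu⟩ : ∃ u : H, u ∉ B := by
                  by_contra hu
                  push Not at hu
                  rw [(Subgroup.eq_top_iff' B).2 hu, Subgroup.index_top] at hB2
                  omega
                have e1 := inverts A hD w hwA z hzA
                rw [comm_of_inverts B u (hB u hu).2 w z hwB hzB, mul_inv_cancel_right] at e1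
                exact e1
            · obtain ⟨w, hwA, hwB⟩ := SetLike.not_le_iff_exists.1 hAB
              have e1 := (hB w hwB).2 z hzB
              rw [comm_of_inverts A x (inverts A hD x hx) w z hwA hzA, mul_inv_cancel_right] at e1
              exact e1
          rw [pow_two, ← eq_inv_iff_mul_eq_one]
          exact hi
        · exact (hB z hzB).1
      · exact hD z hzA
    exact ⟨⟨⟨comm_of_sq hsq⟩⟩, hsq⟩
  · have hsq := all_sq A hA hD h2
    have hc := comm_of_sq hsq
    obtain ⟨B, hB⟩ : ∃ B : Subgroup H, IsCoatom B := by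
      rcases eq_top_or_exists_le_coatom A with h0 | ⟨M, hM, -⟩
      · exact absurd h0 hA
      · exact ⟨M, hM⟩
    have hB2 : B.index = 2 := by
      obtain ⟨x, hx⟩ : ∃ x : H, x ∉ B := by
        by_contra hx
        push Not at hx
        exact hB.1 (Subgroup.eq_top_iff' B |>.2 hx)
      rw [Subgroup.index_eq_two_iff_exists_notMem_and]
      refine ⟨x, hx, fun b => ?_⟩
      let C : Subgroup H :=
        { carrier := {b | b * x ∈ B ∨ b ∈ B}
          one_mem' := Or.inr B.one_mem
          mul_mem' := by
            rintro a b (ha | ha) (hb | hb)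
            · right
              have := B.mul_mem ha hb
              have e : a * x * (b * x) = a * b := by
                rw [hc b x, ← mul_assoc, mul_assoc a x x, ← pow_two, hsq, mul_one]
              rwa [e] at this
            · left
              have := B.mul_mem ha hb
              rwa [mul_assoc, hc x b, ← mul_assoc] at this
            · left
              have := B.mul_mem ha hb
              rwa [← mul_assoc] at this
            · right
              exact B.mul_mem ha hb
          inv_mem' := by
            intro a ha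
            have hi : a⁻¹ = a := by rw [inv_eq_iff_mul_eq_one, ← pow_two, hsq]
            rw [hi]
            exact ha }
      have hBC : B < C := by
        refine lt_of_le_of_ne (fun b hb => Or.inr hb) fun h => hx ?_
        rw [h]
        left
        rw [← pow_two, hsq]
        exact B.one_mem
      have : b ∈ C := by
        rw [hB.2 C hBC]
        exact Subgroup.mem_top b
      exact this
    refine ⟨B, Subgroup.normal_of_index_eq_two hB2, ⟨⟨fun a b => Subtype.ext (hc a b)⟩⟩, hB2,
      fun y _ => ⟨hsq y, fun b _ => ?_⟩, fun hne => absurd ⟨⟨⟨hc⟩⟩, hsq⟩ hne⟩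
    rw [hc y b, mul_inv_cancel_right, eq_inv_iff_mul_eq_one, ← pow_two, hsq]

end Cfsg.Agent.S4420
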