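import Cfsg.Statements.S4426
import Cfsg.Agent.H35.PRegInd

set_option autoImplicit false
open Cfsg H28

namespace Cfsg.Agent.S4426

/-- Let χ be an irreducible character in the p-block B of the finite group G (relative to a maximal ideal M of the algebraic integers containing p), let p^a be the p-part of the order of G, and let χ̃ be the class function equal to p^a · χ on p-regular elements and zero elsewhere. For ξ ∈ B the inner product [χ̃, ξ] is an integer. The following are equivalent: (a) χ has height zero in B; (b) for some ξ ∈ B the integer [χ̃, ξ] is nonzero and the exact power of p dividing it equals the exact power of p dividing ξ(1); (c) the same holds for every ξ ∈ B. -/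
theorem result {G : Type*} [Group G] [Fintype G] (p : ℕ) [Fact p.Prime] (M : Ideal Cfsg.AlgInt) (hM : Cfsg.IsPModular p M) (B : Set (Cfsg.IrrCharacter G)) (hB : Cfsg.IsPBlock M B) (χ : Cfsg.IrrCharacter G) (hχ : χ ∈ B) : (Cfsg.blockHeight p B (χ : G → ℂ) = 0 ↔ ∃ ξ ∈ B, ∃ n : ℤ, Cfsg.classInner (fun x : G => if p ∣ orderOf x then (0 : ℂ) else ((p ^ (Nat.card G).factorization p : ℕ) : ℂ) * (χ : G → ℂ) x) (ξ : G → ℂ) = (n : ℂ) ∧ n ≠ 0 ∧ padicValInt p n = (Cfsg.charDegree (ξ : G → ℂ)).factorization p) ∧ (Cfsg.blockHeight p B (χ : G → ℂ) = 0 ↔ ∀ ξ ∈ B, ∃ n : ℤ, Cfsg.classInner (fun x : G => if p ∣ orderOf x then (0 : ℂ) else ((p ^ (Nat.card G).factorization p : ℕ) : ℂ) * (χ : G → ℂ) x) (ξ : G → ℂ) = (n : ℂ) ∧ n ≠ 0 ∧ padicValInt p n = (Cfsg.charDegree (ξ : G → ℂ)).factorization p) := by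
  have := hM.2.1
  have hp := hM.1
  rw [← H35.smul_pReg_eq]
  have key : ∀ ξ ∈ B, Cfsg.classInner (((p ^ (Nat.card G).factorization p : ℕ) : ℂ) •
      Cfsg.pRegularPart p (χ : G → ℂ)) (ξ : G → ℂ) =
      ((p ^ H35.minNu p B * H35.cz p B ξ χ : ℤ) : ℂ) := by
    intro ξ hξ
    rw [classInner_smul_left, ← H35.minNu_add_blockDefect p ⟨χ, hχ⟩, H35.cz_comm]
    push_cast
    rw [H35.coe_cz hp hχ, H35.ctr]; ring
  have key2 : ∀ ξ ∈ B, Cfsg.blockHeight p B (χ : G → ℂ) = 0 ↔ ∃ n : ℤ,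
      Cfsg.classInner (((p ^ (Nat.card G).factorization p : ℕ) : ℂ) •
      Cfsg.pRegularPart p (χ : G → ℂ)) (ξ : G → ℂ) = (n : ℂ) ∧ n ≠ 0 ∧
      padicValInt p n = (Cfsg.charDegree (ξ : G → ℂ)).factorization p := by
    intro ξ hξ
    have hp0 : (p : ℤ) ^ H35.minNu p B ≠ 0 := pow_ne_zero _ (Int.natCast_ne_zero.2 hp.ne_zero)
    have hv : padicValInt p ((p : ℤ) ^ H35.minNu p B) = H35.minNu p B := by
      rw [← Nat.cast_pow, padicValInt.of_nat, padicValNat.prime_pow]
    rw [key ξ hξ, H35.nu_eq_minNu_add p hξ]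
    constructor
    · intro h0
      have hne := H35.cz_ne_zero_of_height_zero hM hB hξ hχ h0
      refine ⟨_, rfl, mul_ne_zero hp0 hne, ?_⟩
      rw [padicValInt.mul hp0 hne, hv, H35.padicValInt_cz_of_height_zero hM hB hξ hχ h0]
    · rintro ⟨n, hn, hn0, hv'⟩
      have hn' : (p : ℤ) ^ H35.minNu p B * H35.cz p B ξ χ = n := by exact_mod_cast hn
      subst hn'
      have hne := right_ne_zero_of_mul hn0
      rw [padicValInt.mul hp0 hne, hv] at hv'
      by_contra h0
      have h1 := (H35.pow_height_succ_dvd_cz_iff hM hB hξ hχ).2 h0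
      rw [padicValInt_dvd_iff] at h1
      simp only [hne, false_or] at h1
      omega
  refine ⟨⟨fun h => ⟨χ, hχ, (key2 χ hχ).1 h⟩, fun ⟨ξ, hξ, h⟩ => (key2 ξ hξ).2 h⟩,
    fun h ξ hξ => (key2 ξ hξ).1 h, fun h => (key2 χ hχ).2 (h χ hχ)⟩

end Cfsg.Agent.S4426
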