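import Cfsg.Statements.S4531
import Cfsg.Agent.H34.TameZ

set_option autoImplicit false
open Cfsg

namespace Cfsg.Agent.S4531

/-- Let the finite group G have a 2-block B (relative to a maximal ideal M of the algebraic integers containing 2) of 2-regular rank three (three irreducible Brauer characters) whose defect group D is dihedral of order 2 ^ n with n ≥ 3 or semidihedral. Then the centre of G has odd order and G is not solvable. -/
theorem result {G : Type*} [Group G] [Finite G] (M : Ideal Cfsg.AlgInt) (hM : Cfsg.IsPModular 2 M) (B : Set (Cfsg.IrrCharacter G)) (hB : Cfsg.IsPBlock M B) (D : Subgroup G) (hD : Cfsg.IsDefectGroup 2 M B D) (hD' : (∃ n : ℕ, 3 ≤ n ∧ Nonempty (D ≃* DihedralGroup (2 ^ (n - 1)))) ∨ Cfsg.IsQuasiDihedral D) (hl : Cfsg.blockRank 2 B = 3) : Odd (Nat.card (Subgroup.center G)) ∧ ¬ Group.IsSolvable G := by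
  classical
  have := hM.2.1
  have := Fintype.ofFinite G
  obtain ⟨e, h⟩ := H34.exists_bd hM hB hD
  obtain ⟨m, a, b, hd, hb, hab, hJ⟩ : ∃ m, ∃ a b : D, H3.DSQ m a b ∧ b ^ 2 = 1 ∧
      (a * b) ^ 2 ^ m = 1 ∧ H34.IsJ (fun v w : D => H34.FC 2 D e ⊤ v w) a b ∅ := by
    rcases hD' with ⟨n, hn, hd⟩ | hsd
    · obtain ⟨a, b, hd, hi⟩ := H34.exists_dsq_dihedral hn hd
      obtain ⟨J, hJ⟩ := H34.exists_isJ h.equivalence a b
      have h1 := (h.dihedral hd hi hJ).2.1
      refine ⟨_, a, b, hd, hi b hd.notMem, ?_, Finset.card_eq_zero.1 (by omega : J.card = 0) ▸ hJ⟩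
      rw [← Nat.sub_add_cancel hd.one_le, pow_succ', pow_mul, hi _ (by
        simpa using hd.zpow_mul_notMem 1), one_pow]
    · obtain ⟨m, a, b, hd, hm, hb, hab⟩ := H3.exists_dsq_of_isQuasiDihedral hsd
      obtain ⟨J, hJ⟩ := H34.exists_isJ h.equivalence a b
      have h1 := h.rank_semidihedral hd hb (by
        rw [← Nat.sub_add_cancel (Nat.one_le_two_pow (n := m)), pow_succ' a, ← hab,
          sq, inv_eq_of_mul_eq_one_right (sq b ▸ hb)]
        simp only [mul_assoc]) hJ
      obtain ⟨A, Z, t, r, H, -⟩ := h.exists_tn hd (H34.good_w hd) hJ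
      have h2 := H.lz_pos
      have h3 := Finset.card_insert_le b J
      have h4 := Finset.card_le_card (Finset.subset_insert b J)
      have h5 := Finset.card_pos.2 (Finset.insert_nonempty b J)
      obtain ⟨-, s, -, h8, -, h9, h10⟩ := (H.main hm).resolve_left (by omega)
      refine ⟨_, a, b, hd, hb, ?_, Finset.card_eq_zero.1 (by omega : J.card = 0) ▸ hJ⟩
      obtain ⟨k, rfl⟩ := Nat.exists_eq_add_of_le hm
      rw [pow_add, pow_mul]
      exact (congrArg (· ^ _) (hd.pow_four_eq_one (by simpa using hd.zpow_mul_notMem 1))).trans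
        (one_pow _)
  have h1 : ∀ v, v = b ∨ v = a * b → ∃ u ∈ Subgroup.zpowers a, orderOf v = orderOf u ∧
      ∃ g : G, g * v * g⁻¹ = u := fun v hv => by
    obtain ⟨u, hu, h1⟩ := (hJ.all v hv).resolve_right (by simp)
    exact ⟨u, hu, h1.orderOf_eq, h1.imp fun g hg => hg.2.1⟩
  refine ⟨Nat.not_even_iff_odd.1 fun h2 => ?_, fun ⟨n, hn⟩ => ?_⟩
  · obtain ⟨⟨x, hx⟩, h3⟩ := exists_prime_orderOf_dvd_card' 2 h2.two_dvd
    rw [Subgroup.orderOf_mk] at h3
    have : (Subgroup.zpowers x).Normal := ⟨fun y hy g => by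
      rwa [Subgroup.mem_center_iff.1 (Subgroup.zpowers_le.2 hx hy), mul_inv_cancel_right]⟩
    have h4 : x ∈ D := H36.le_of_normal_of_isDefectGroup hM hB hD
      (IsPGroup.of_card (n := 1) (by rw [Nat.card_zpowers, h3, pow_one])) (Subgroup.mem_zpowers x)
    have h5 : ∀ u ∈ Subgroup.zpowers a, orderOf u = 2 → u = a ^ 2 ^ m := fun u hu h5 =>
      (H34.Dsq.eq_of_sq hd hu (h5 ▸ pow_orderOf_eq_one u)).resolve_left (by
        rintro rfl; simp at h5)
    obtain ⟨u, hu, h6, g, hg⟩ := h1 b (Or.inl rfl)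
    rw [orderOf_eq_prime hb fun h => hd.notMem (h ▸ one_mem _)] at h6
    have h7 : (⟨x, h4⟩ : D) = u := (h5 _ (Subgroup.zpowers_le.2 (pow_mem (Subgroup.mem_zpowers a) _)
      (hd.center_eq.le (Subgroup.mem_center_iff.2 fun y => Subtype.ext
        (Subgroup.mem_center_iff.1 hx y)))) (by simpa using h3)).trans (h5 u hu h6.symm).symm
    subst h7
    refine hd.notMem ((Subtype.ext ?_ : b = _) ▸ hu)
    rw [mul_inv_eq_iff_eq_mul, ← Subgroup.mem_center_iff.1 hx] at hg
    exact mul_left_cancel hg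
  · have h2 : ∀ n, D ≤ derivedSeries G n := fun n => by
      induction n with
      | zero => exact le_top
      | succ n ih =>
        have h2 : commutator D ≤ (derivedSeries G (n + 1)).subgroupOf D :=
          Subgroup.commutator_le.2 fun x _ y _ =>
            Subgroup.commutator_mem_commutator (ih x.2) (ih y.2)
        have h3 : ∀ v, v = b ∨ v = a * b → v ^ 2 ^ m = 1 →
            v ∈ (derivedSeries G (n + 1)).subgroupOf D := fun v hv h3 => by
          obtain ⟨_, ⟨i, rfl⟩, h4, g, hg⟩ := h1 v hv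
          rw [← orderOf_dvd_iff_pow_eq_one, h4, orderOf_dvd_iff_pow_eq_one, ← zpow_natCast,
            ← zpow_mul, ← orderOf_dvd_iff_zpow_eq_one, hd.ord, pow_succ'] at h3
          push_cast at h3
          obtain ⟨j, rfl⟩ := Int.dvd_of_mul_dvd_mul_right (by positivity) h3
          have h5 : g * v * g⁻¹ ∈ derivedSeries G (n + 1) :=
            hg.symm ▸ h2 (hd.commutator_eq.ge (show a ^ (2 * j) ∈ _ from
              ⟨j, by simp only [zpow_mul, zpow_ofNat]⟩))
          simpa [Subgroup.mem_subgroupOf] using (derivedSeries_normal _ _).mem_comm h5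
        have h4 := h3 b (Or.inl rfl) (by
          rw [← Nat.sub_add_cancel hd.one_le, pow_succ', pow_mul, hb, one_pow])
        have h5 := (Subgroup.mul_mem_cancel_right _ h4).1 (h3 _ (Or.inr rfl) hab)
        intro x hx
        rcases hd.eq_zpow_or ⟨x, hx⟩ with ⟨i, hi⟩ | ⟨i, hi⟩
        · exact (hi ▸ zpow_mem h5 i : (⟨x, hx⟩ : D) ∈ _)
        · exact (hi ▸ mul_mem (zpow_mem h5 i) h4 : (⟨x, hx⟩ : D) ∈ _)
    exact hd.notMem ((Subtype.ext ((h2 n).trans hn.le b.2) : b = 1) ▸ one_mem _)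

end Cfsg.Agent.S4531
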