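import Cfsg.Statements.S4534
import Cfsg.Agent.H40.SnBlock
import Cfsg.Agent.H3.SecRank

set_option autoImplicit false
open Cfsg

namespace Cfsg.Agent.S4534

/-- Let B be a p-block of a finite symmetric group (relative to a maximal ideal M of the algebraic integers containing p) with a nontrivial defect group D all of whose sections have p-rank at most s. Then the p-regular rank of B is less than p ^ s. -/
theorem result (n : ℕ) (p : ℕ) [Fact p.Prime] (M : Ideal Cfsg.AlgInt) (hM : Cfsg.IsPModular p M) (B : Set (Cfsg.IrrCharacter (Equiv.Perm (Fin n)))) (hB : Cfsg.IsPBlock M B) (D : Subgroup (Equiv.Perm (Fin n))) (hD : Cfsg.IsDefectGroup p M B D) (hD1 : D ≠ ⊥) (s : ℕ) (hs : Cfsg.SectionalPRankLE p s D) : Cfsg.blockRank p B < p ^ s := by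
  classical
  have := hM.2.1
  have hp : p.Prime := Fact.out
  obtain ⟨χ, rfl⟩ := id hB
  have hχ := H34.self_mem_blockOf (M := M) χ
  obtain ⟨r, δ, m, w, γ, h, hγ⟩ := H40.Sn.exists_core (p := p) (H40.Sn.stair1_val n) (by simp) χ
  obtain ⟨e, P, rfl⟩ := h.defect_struct hM hB hχ hγ hD
  have hw : 1 ≤ w := by
    by_contra hw
    obtain rfl : w = 0 := by omega
    refine hD1 ?_
    have : Subsingleton (Equiv.Perm (Fin (p * 0))) := inferInstanceAs (Subsingleton (Equiv.Perm (Fin 0)))
    rw [Subsingleton.elim (P : Subgroup (Equiv.Perm (Fin (p * 0)))) ⊥, Subgroup.map_bot]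
  refine (h.blockRank_le hM hB hχ hγ 0).trans_lt ((H40.Sn.ncard_CP_lt _ hw).trans_le ?_)
  rw [Finset.card_erase_add_one (Finset.mem_univ _), Finset.card_univ, Fintype.card_fin]
  obtain ⟨f, hf, -⟩ := H40.Sn.exists_hom_pi (Ω := Fin (p * w)) (Multiplicative (ZMod p)) w
    (by simp [mul_comm])
  have h1 : ∀ a : Fin w → Multiplicative (ZMod p), a ^ p = 1 := fun a => funext fun i => by
    rw [Pi.pow_apply, ← ofAdd_toAdd (a i), ← ofAdd_nsmul]; simp
  obtain ⟨Q, hQ⟩ := IsPGroup.exists_le_sylow (p := p) (P := f.range) (by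
    rintro ⟨_, a, rfl⟩
    exact ⟨1, Subtype.ext (by simp [← map_pow, h1])⟩)
  obtain ⟨x, rfl⟩ := MulAction.exists_smul_eq (Equiv.Perm (Fin (p * w))) Q P
  let g := ((Equiv.Perm.viaEmbeddingHom e).comp (MulAut.conj x).toMonoidHom).comp f
  have h2 := H3.pRankLE_of_sectionalPRankLE (H3.sectionalPRankLE_of_injective hs
    (g.codRestrict _ fun a => ⟨_, ⟨f a, hQ ⟨a, rfl⟩, rfl⟩, rfl⟩)
    fun a b hab => hf ((MulAut.conj x).injective (Equiv.Perm.viaEmbeddingHom_injective e
      (congrArg Subtype.val hab)))) ⊤ inferInstance fun a _ => h1 a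
  simpa using h2

end Cfsg.Agent.S4534
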