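import Cfsg.Statements.S4541
import Cfsg.Agent.H35.ConSys

set_option autoImplicit false
open Cfsg H28

namespace Cfsg.Agent.S4541

/-- Let B be a 2-block of the finite group G (relative to a maximal ideal M of the algebraic integers containing 2), u a 2-element, and b a block of the centralizer of u inducing B (a subsection (u, b)), of defect q and 2-regular rank l; write s for the integer square root of l and k₀(B) for the number of members of B of height zero. If s is odd then k₀(B) ≤ s·2 ^ q, and otherwise (s + 1)·k₀(B) ≤ l·2 ^ q; in particular k₀(B) ≤ 2 ^ q when l ≤ 3. -/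
theorem result {G : Type*} [Group G] [Finite G] (M : Ideal Cfsg.AlgInt) (hM : Cfsg.IsPModular 2 M) (B : Set (Cfsg.IrrCharacter G)) (hB : Cfsg.IsPBlock M B) (u : G) (hu : ∃ j : ℕ, orderOf u = 2 ^ j) (b : Set (Cfsg.IrrCharacter ↥(Subgroup.centralizer ({u} : Set G)))) (hb : Cfsg.IsInducedBlock M (Subgroup.centralizer ({u} : Set G)) b B) : (Odd (Nat.sqrt (Cfsg.blockRank 2 b)) → Nat.card {χ : Cfsg.IrrCharacter G // χ ∈ B ∧ Cfsg.blockHeight 2 B (χ : G → ℂ) = 0} ≤ Nat.sqrt (Cfsg.blockRank 2 b) * 2 ^ Cfsg.blockDefect 2 b) ∧ (¬ Odd (Nat.sqrt (Cfsg.blockRank 2 b)) → (Nat.sqrt (Cfsg.blockRank 2 b) + 1) * Nat.card {χ : Cfsg.IrrCharacter G // χ ∈ B ∧ Cfsg.blockHeight 2 B (χ : G → ℂ) = 0} ≤ Cfsg.blockRank 2 b * 2 ^ Cfsg.blockDefect 2 b) ∧ (Cfsg.blockRank 2 b ≤ 3 → Nat.card {χ : Cfsg.IrrCharacter G // χ ∈ B ∧ Cfsg.blockHeight 2 B (χ : G → ℂ) = 0} ≤ 2 ^ Cfsg.blockDefect 2 b) := by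
  classical
  have := hM.2.1
  have := Fintype.ofFinite G
  have hs := H41.isSec_centralizer (p := 2) hu
  obtain ⟨k, hk⟩ := H35.exists_sec_exp hs
  have hbb := ((hs.isInducedBlock_iff hM).1 hb).1
  set J := (H35.bF B).filter (fun χ : IrrCharacter G => blockHeight 2 B (χ : G → ℂ) = 0) with hJ
  have hmem : ∀ χ, χ ∈ J ↔ χ ∈ B ∧ blockHeight 2 B (χ : G → ℂ) = 0 := fun χ => by
    simp [hJ, H35.mem_bF]
  have hcard : Nat.card {χ : Cfsg.IrrCharacter G // χ ∈ B ∧ Cfsg.blockHeight 2 B (χ : G → ℂ) = 0}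
      = J.card := Nat.subtype_card J hmem
  obtain ⟨χ₀, h₀, hh⟩ := H35.exists_height_zero 2 (H37.block_nonempty hB)
  obtain ⟨r, hr, h1, h2⟩ := (H35.conSys_mcon hM hs hb hk).exists_odd hM
    (Finset.filter_subset _ _) ⟨χ₀, (hmem _).2 ⟨h₀, hh⟩⟩ (fun χ hχ ψ hψ => by
      rw [H35.mcon_one, (H35.P_QB_fsec_iff hM hs hb ((hmem _).1 hχ).1 ((hmem _).1 hψ).1).2]
      simp [((hmem _).1 hχ).2, ((hmem _).1 hψ).2])
  have h3 : J.card * r ≤ 2 ^ blockDefect 2 b * blockRank 2 b := by exact_mod_cast h2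
  have hl := H35.blockRank_pos hM.1 (H37.block_nonempty hbb)
  rw [hcard]
  change J.card ≤ _ at h1
  generalize J.card = a at *
  generalize 2 ^ blockDefect 2 b = Q at *
  generalize blockRank 2 b = l at *
  have s1 := Nat.sqrt_le' l
  have s2 := Nat.lt_succ_sqrt' l
  have key : Odd (Nat.sqrt l) → a ≤ Nat.sqrt l * Q := by
    intro ho
    generalize Nat.sqrt l = s at *
    by_cases hrs : r ≤ s
    · exact h1.trans (by rw [mul_comm]; exact Nat.mul_le_mul_right _ hrs)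
    · have h4 : s + 2 ≤ r := by
        obtain ⟨x, rfl⟩ := ho
        obtain ⟨y, rfl⟩ := hr
        omega
      have h5 : l ≤ s * (s + 2) := by simp only [Nat.succ_eq_add_one] at s2; nlinarith
      have h6 : a * (s + 2) ≤ (s * Q) * (s + 2) :=
        calc a * (s + 2) ≤ a * r := Nat.mul_le_mul_left _ h4
          _ ≤ Q * l := h3
          _ ≤ Q * (s * (s + 2)) := Nat.mul_le_mul_left _ h5
          _ = _ := by ring
      exact Nat.le_of_mul_le_mul_right h6 (by omega)
  refine ⟨key, fun ho => ?_, fun h4 => ?_⟩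
  · generalize Nat.sqrt l = s at *
    by_cases hrs : s + 1 ≤ r
    · calc (s + 1) * a ≤ r * a := Nat.mul_le_mul_right _ hrs
        _ = a * r := mul_comm _ _
        _ ≤ Q * l := h3
        _ = _ := mul_comm _ _
    · have h5 : r ≤ s := by omega
      have h6 : r ≠ s := fun h => ho (h ▸ hr)
      obtain ⟨x, rfl⟩ : ∃ x, s = r + 1 + x := ⟨s - r - 1, by omega⟩
      calc (r + 1 + x + 1) * a ≤ (r + 1 + x + 1) * (Q * r) := Nat.mul_le_mul_left _ h1
        _ = ((r + 1 + x + 1) * r) * Q := by ring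
        _ ≤ l * Q := Nat.mul_le_mul_right _ (by nlinarith)
  · have : Nat.sqrt l = 1 := by
      symm; rw [Nat.eq_sqrt]; omega
    simpa [this] using key (by rw [this]; exact odd_one)

end Cfsg.Agent.S4541
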