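import Cfsg.Agent.S4549
import Cfsg.Agent.H93.Van1
import Cfsg.Agent.H31.SylowIn
import Cfsg.Agent.H40.SnSyl
import Cfsg.Agent.H41.BlockOrth
import Cfsg.Statements.S4548

set_option autoImplicit false
set_option linter.unusedSectionVars false
open Cfsg

namespace Cfsg.Agent.S4548

open H28 H29 H35 H38

open Classical in
/-- The points moved by a permutation of `2`-power order contribute an element of the local ideal to
the sum of an invariant function. -/
theorem sum_moved {α : Type*} [Fintype α] {M : Ideal AlgInt} [M.IsMaximal] (hM : IsPModular 2 M)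
    (τ : Function.End α) (hi : Function.Injective τ) {n : ℕ} (hτ : τ ^ 2 ^ n = 1) (F : α → ℂ)
    (hF : ∀ a, F (τ a) = F a) (hS : ∀ a, F a ∈ S M) :
    MemLocalIdeal M (∑ a with τ a ≠ a, F a) := by
  rw [show ∑ a with τ a ≠ a, F a = _ from Finset.sum_comp id F]
  refine P_sum _ _ fun v hv => ?_
  obtain ⟨a0, -, rfl⟩ := Finset.mem_image.1 hv
  rw [nsmul_eq_mul]
  refine P_mul_right ((P_natCast_iff hM).2 ?_) (hS a0)
  let τ' : Function.End {a // τ a ≠ a ∧ F a = F a0} :=
    fun a => ⟨τ a.1, fun e => a.2.1 (hi e), (hF _).trans a.2.2⟩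
  have h1 : ∀ (j : ℕ) a, ((τ' ^ j) a).1 = (τ ^ j) a.1 := fun j => by
    induction j with
    | zero => exact fun _ => rfl
    | succ j ih => exact fun a => by rw [pow_succ', pow_succ']; exact congrArg τ (ih a)
  have : Fact (Nat.Prime 2) := ⟨Nat.prime_two⟩
  have h2 := Equiv.Perm.card_fixedPoints_modEq (p := 2) (f := τ') (n := n)
    (funext fun a => Subtype.ext (by rw [h1, hτ]; rfl))
  have : IsEmpty (Function.fixedPoints τ') := ⟨fun a => a.1.2.1 (congrArg Subtype.val a.2)⟩
  rw [Fintype.card_eq_zero (α := Function.fixedPoints τ'), Fintype.card_subtype] at h2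
  rw [Finset.filter_filter]
  exact Nat.modEq_zero_iff_dvd.1 h2

variable {G : Type*} [Group G] [Finite G] {M : Ideal AlgInt} [M.IsMaximal] {k : ℕ}

/-- The characters that are counted. -/
def Fx (M : Ideal AlgInt) (k : ℕ) (χ : IrrCharacter G) : Prop :=
  χ ∈ principalBlock M G ∧ Odd (charDegree χ.1) ∧ ∀ g : G, χ.1 (g ^ k) = χ.1 g

open Classical in
theorem key (hM : IsPModular 2 M) (hev : 2 ∣ Nat.card G) (hkG : k.Coprime (Nat.card G))
    (hk₂ : ∀ g : G, Odd (orderOf g) → g ^ k = g) {y : G} (hy : Odd (orderOf y)) :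
    MemLocalIdeal M (∑ χ : IrrCharacter G with Fx M k χ, χ.1 1 * χ.1 y) := by
  obtain ⟨σ', hσ'⟩ := H29.exists_ringEquiv_pow (Nat.card_pos (α := G)).ne' hkG
  set σ : ℂ →+* ℂ := σ'.toRingHom
  have hσG : ∀ χ : IrrCharacter G, ∀ g, σ (χ.1 g) = χ.1 (g ^ k) := fun χ g =>
    χ.2.isCharacter.ringHom_apply σ Nat.card_pos.ne' hσ' g pow_card_eq_one'
  let τ : Function.End (IrrCharacter G) := galIrr σ
  have hτ : ∀ (j : ℕ) (θ : IrrCharacter G) (g : G), ((τ ^ j) θ).1 g = θ.1 (g ^ k ^ j) := by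
    intro j
    induction j with
    | zero => intro θ n; rw [pow_zero, pow_zero, pow_one]; rfl
    | succ j ih =>
      intro θ n
      rw [pow_succ' τ, pow_succ' k, pow_mul, ← ih, ← hσG]
      rfl
  let F : IrrCharacter G → ℂ := fun χ => if χ ∈ principalBlock M G then χ.1 1 * χ.1 y else 0
  have hS : ∀ (χ : IrrCharacter G) g, χ.1 g ∈ S M := fun χ g =>
    mem_S_of_isIntegral_int (χ.2.isCharacter.isIntegral g)
  have h1 := sum_moved hM τ (galIrr_injective σ) (n := Nat.card G) (funext fun θ => Subtype.ext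
    (funext fun g => by rw [hτ, S4549.pow_iter (hkG.coprime_dvd_right hev) hk₂]; rfl)) F
    (fun χ => if_congr (galIrr_mem_principalBlock_iff hM σ)
      (by rw [show (τ χ).1 1 = _ from hσG χ 1, show (τ χ).1 y = _ from hσG χ y, one_pow, hk₂ y hy]) rfl)
    fun χ => by
      simp only [F]
      split_ifs
      exacts [mul_mem (hS _ _) (hS _ _), zero_mem _]
  have h2 : MemLocalIdeal M (∑ χ, F χ) := by
    have : ∑ χ, F χ = (Nat.card G : ℂ) * blockCoeff (principalBlock M G) y⁻¹ := by
      rw [blockCoeff, mul_inv_cancel_left₀ (card_ne_zero' G), H41.finsum_mem_irr]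
      refine Finset.sum_congr rfl fun χ _ => ?_
      rw [← χ.2.isCharacter.apply_inv, inv_inv]
    rw [this]
    exact P_mul_right ((P_natCast_iff hM).2 hev) (H34.blockCoeff_mem_S H34.isPBlock_principalBlock _)
  have h3 : MemLocalIdeal M (∑ χ, F χ - ∑ χ with τ χ ≠ χ, F χ -
      ∑ χ : IrrCharacter G with Fx M k χ, χ.1 1 * χ.1 y) := by
    rw [Finset.sum_filter, Finset.sum_filter, ← Finset.sum_sub_distrib, ← Finset.sum_sub_distrib]
    refine P_sum _ _ fun χ _ => ?_
    have e : τ χ = χ ↔ ∀ g, χ.1 (g ^ k) = χ.1 g :=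
      ⟨fun h g => (hσG χ g).symm.trans (congrFun (congrArg Subtype.val h) g),
        fun h => Subtype.ext (funext fun g => (hσG χ g).trans (h g))⟩
    by_cases c : Fx M k χ
    · simpa [F, c, c.1, e.2 c.2.2] using P_zero
    by_cases c1 : τ χ = χ
    swap
    · simpa [c, c1] using P_zero
    by_cases c2 : χ ∈ principalBlock M G
    swap
    · simpa [F, c, c1, c2] using P_zero
    have c3 : 2 ∣ charDegree χ.1 := even_iff_two_dvd.1
      (Nat.not_odd_iff_even.1 fun h => c ⟨c2, h, e.1 c1⟩)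
    have := P_mul_right ((P_natCast_iff hM).2 c3) (hS χ y)
    rw [coe_deg] at this
    simpa [F, c, c1, c2] using this
  simpa using P_sub (P_sub h2 h1) h3

theorem fx_one : Fx M k (⟨fun _ => 1, isIrrCharacter_one⟩ : IrrCharacter G) :=
  ⟨H34.one_mem_principalBlock, by simp [charDegree], fun _ => rfl⟩

theorem sgn (hM : IsPModular 2 M) (hk : Odd k) {H : Subgroup G} (hH : H.index = 2) :
    ∃ χ : IrrCharacter G, Fx M k χ ∧ ∀ g, χ.1 g = 1 ↔ g ∈ H := by
  classical
  let f : G →* ℂˣ := MonoidHom.mk' (fun g => if g ∈ H then 1 else -1) fun a b => by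
    by_cases ha : a ∈ H <;> by_cases hb : b ∈ H <;>
      simp [Subgroup.mul_mem_iff_of_index_two hH, ha, hb]
  have e : ∀ g, f g = if g ∈ H then 1 else -1 := fun _ => rfl
  refine ⟨⟨_, isIrrCharacter_of_hom f⟩, ⟨(hom_mem_principalBlock_iff f).2 fun g => ?_, ?_, fun g => ?_⟩,
    fun g => ?_⟩
  · refine P_mul_left (natCast_mem _ _) ?_
    rw [e]
    split_ifs
    · simpa using P_zero
    · simpa [one_add_one_eq_two] using P_p hM
  · rw [charDegree_hom]; exact odd_one
  · change ((f (g ^ k) : ℂˣ) : ℂ) = f g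
    rw [map_pow, e]
    split_ifs
    · rw [one_pow]
    · rw [hk.neg_one_pow]
  · change ((f g : ℂˣ) : ℂ) = 1 ↔ _
    rw [e]
    split_ifs with h
    · simp [h]
    · simp only [h, Units.val_neg, Units.val_one, iff_false]; norm_num

/-- Let G be a finite group of even order with Sylow 2-subgroup P and M a maximal ideal of the algebraic integers containing 2. Let k be a natural number with g ^ k = g ^ 3 for every 2-element g and g ^ k = g for every element g of odd order (such k exist); an irreducible character χ is unchanged by g ↦ g ^ k exactly when it is fixed by the field automorphism that cubes the 2-power roots of unity and fixes the roots of unity of odd order. Then P is cyclic if and only if exactly two members χ of the principal 2-block of odd degree satisfy χ (g ^ k) = χ g for all g. -/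
theorem result {G : Type*} [Group G] [Finite G] (M : Ideal Cfsg.AlgInt) (hM : Cfsg.IsPModular 2 M) (hev : Even (Nat.card G)) (P : Sylow 2 G) (k : ℕ) (hk₁ : ∀ g : G, (∃ j : ℕ, orderOf g = 2 ^ j) → g ^ k = g ^ 3) (hk₂ : ∀ g : G, Odd (orderOf g) → g ^ k = g) : IsCyclic P ↔ Nat.card {χ : Cfsg.IrrCharacter G // χ ∈ Cfsg.principalBlock M G ∧ Odd (Cfsg.charDegree (χ : G → ℂ)) ∧ ∀ g : G, (χ : G → ℂ) (g ^ k) = (χ : G → ℂ) g} = 2 := by
  classical
  have := hM.2.1
  have : Fact (Nat.Prime 2) := ⟨Nat.prime_two⟩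
  have hkG := S4549.coprime_card hk₁ hk₂
  have h2 := even_iff_two_dvd.1 hev
  have hk : Odd k := Nat.coprime_two_right.1 (hkG.coprime_dvd_right h2)
  change _ ↔ Nat.card {χ : IrrCharacter G // Fx M k χ} = 2
  rw [Nat.card_eq_fintype_card, Fintype.card_subtype]
  have K := fun y => key (y := y) hM h2 hkG hk₂
  have m1 := fx_one (G := G) (M := M) (k := k)
  generalize hT : (Finset.univ.filter fun χ : IrrCharacter G => Fx M k χ) = T at K
  have mem : ∀ χ, χ ∈ T ↔ Fx M k χ := fun χ => by simp [← hT]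
  have nor : (pPrimeCore 2 G).Normal := inferInstance
  refine ⟨fun hc => le_antisymm ?_ ?_, fun hT2 => ?_⟩
  · have npc := H31.hasNPC_two_of_isCyclic P hc
    obtain ⟨x, hx⟩ := hc.exists_generator
    have top : (P : Subgroup G) ⊔ pPrimeCore 2 G = ⊤ := by
      rw [← Subgroup.index_eq_one]
      refine Nat.Coprime.eq_one_of_dvd (Nat.Coprime.coprime_dvd_left
        (Subgroup.index_dvd_of_le le_sup_left) ?_) (Subgroup.index_dvd_of_le le_sup_right)
      rw [H36.index_pPrimeCore_of_hasNPC npc]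
      exact ((Nat.prime_two.coprime_iff_not_dvd.2 P.not_dvd_index).symm).pow_right _
    have hom : ∀ χ ∈ T, ∃ f : G →* ℂˣ, (χ.1 = fun g => (f g : ℂ)) ∧ pPrimeCore 2 G ≤ f.ker ∧
        (f x = 1 ∨ f x = -1) := fun χ h => by
      obtain ⟨c1, c2, c3⟩ := (mem χ).1 h
      obtain ⟨f, hf⟩ := χ.2.isCharacter.exists_hom (χ.2.isCharacter.charDegree_eq_one_iff.1
        ((S4549.result M hM k hk₁ hk₂).1 npc χ c1 c2 c3))
      refine ⟨f, hf, fun g hg => Units.ext ?_, ?_⟩
      · simpa [hf] using apply_of_mem_charKer (H37.pPrimeCore_le_charKer hM c1 hg)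
      · obtain ⟨j, hj⟩ := IsPGroup.iff_orderOf.1 P.2 x
        have e := c3 x
        rw [hk₁ _ ⟨j, (Subgroup.orderOf_coe x).trans hj⟩, hf] at e
        have e' : f x ^ 3 = f x := by rw [← map_pow]; exact Units.ext e
        rw [pow_succ, mul_eq_right, sq] at e'
        exact (mul_self_eq_one_iff.1 (congrArg Units.val e')).imp Units.ext Units.ext
    rw [← Fintype.card_prop, ← Finset.card_univ]
    refine Finset.card_le_card_of_injOn (fun χ => χ.1 x = 1) (fun _ _ => Finset.mem_univ _)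
      fun χ h ψ h' e => ?_
    obtain ⟨f, f1, f2, f3⟩ := hom χ h
    obtain ⟨g, g1, g2, g3⟩ := hom ψ h'
    have e1 : f x = g x := by
      simp only [f1, g1, Units.val_eq_one, eq_iff_iff] at e
      rcases f3 with a | a <;> rcases g3 with b | b
      exacts [a.trans b.symm, a.trans (e.1 a).symm, (e.2 b).trans b.symm, a.trans b.symm]
    have e2 : ⊤ ≤ f.eqLocus g := top ▸ sup_le (fun a ha => by
      obtain ⟨i, hi⟩ := hx ⟨a, ha⟩
      rw [show a = (x : G) ^ i from (congrArg Subtype.val hi).symm]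
      exact zpow_mem e1 i) fun a ha => (f2 ha).trans (g2 ha).symm
    exact Subtype.ext (f1.trans ((funext fun a => congrArg Units.val (e2 trivial)).trans g1.symm))
  · by_contra hlt
    have e : T = {_} := Finset.eq_singleton_iff_unique_mem.2 ⟨(mem _).2 m1, fun χ h =>
      Finset.card_le_one.1 (by omega) _ h _ ((mem _).2 m1)⟩
    have := K 1 (by simp)
    rw [e, Finset.sum_singleton, mul_one] at this
    exact P_not_one this
  have npc : HasNormalPComplement 2 G := S4549.main hM hkG hk₂ fun χ c1 c2 c3 => by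
    by_contra d
    obtain ⟨g, hg⟩ := H93.Van.burn_zero χ.2 d
    obtain ⟨u, y, rfl, c, ⟨j, hj⟩, hy⟩ := H41.exists_isPPart Nat.prime_two g
    have e1 := P_char_mul_sub hM χ.2.isCharacter (hj ▸ pow_orderOf_eq_one u) c
    rw [hg, zero_sub, P_neg_iff] at e1
    have ne : (⟨fun _ => 1, isIrrCharacter_one⟩ : IrrCharacter G) ≠ χ := fun e => by
      rw [← e] at hg; exact one_ne_zero hg
    have e : {_, χ} = T := Finset.eq_of_subset_of_card_le
      (Finset.insert_subset ((mem _).2 m1) (Finset.singleton_subset_iff.2 ((mem _).2 ⟨c1, c2, c3⟩)))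
      (by rw [hT2, Finset.card_pair ne])
    have e2 := K y (Nat.not_even_iff_odd.1 fun h => hy (even_iff_two_dvd.1 h))
    rw [← e, Finset.sum_pair ne, mul_one] at e2
    exact P_not_one (by simpa using P_sub e2 (P_mul_left
      (mem_S_of_isIntegral_int (χ.2.isCharacter.isIntegral 1)) e1))
  have pg : IsPGroup 2 (G ⧸ pPrimeCore 2 G) := IsPGroup.of_card (H36.index_pPrimeCore_of_hasNPC npc)
  let π := QuotientGroup.mk' (pPrimeCore 2 G)
  have cy : IsCyclic (G ⧸ pPrimeCore 2 G) := by
    by_contra nc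
    have ex : ∀ x : G, ∃ χ ∈ T, χ.1 x = 1 ∧ ∃ g, χ.1 g ≠ 1 := fun x => by
      obtain ⟨H, h1, h3, -, h4⟩ := H40.Sn.exists_coatom pg (S := Subgroup.zpowers (π x))
        fun e => nc (isCyclic_iff_exists_zpowers_eq_top.2 ⟨_, e⟩)
      obtain ⟨χ, c1, c2⟩ := sgn hM hk ((H.index_comap_of_surjective
        (QuotientGroup.mk'_surjective _)).trans h4)
      obtain ⟨q, -, hq⟩ := SetLike.exists_of_lt h3.1.lt_top
      obtain ⟨g, rfl⟩ := QuotientGroup.mk'_surjective _ q
      exact ⟨χ, (mem _).2 c1, (c2 x).2 (h1 (Subgroup.mem_zpowers _)), g, fun e => hq ((c2 g).1 e)⟩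
    obtain ⟨χ, c1, -, x, c2⟩ := ex 1
    obtain ⟨ψ, d1, d2, y, d3⟩ := ex x
    have := Finset.two_lt_card_iff.2 ⟨_, χ, ψ, (mem _).2 m1, c1, d1, fun e => c2 (e ▸ rfl),
      fun e => d3 (e ▸ rfl), fun e => c2 (e ▸ d2)⟩
    omega
  refine isCyclic_of_injective (π.comp P.1.subtype) ((injective_iff_map_eq_one _).2 fun a ha => ?_)
  obtain ⟨j, hj⟩ := IsPGroup.iff_orderOf.1 P.2 a
  have e := (H36.mem_pPrimeCore_iff_of_hasNPC npc).1 ((QuotientGroup.eq_one_iff _).1 ha)
  rw [Subgroup.coe_subtype, Subgroup.orderOf_coe, hj] at e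
  rw [← orderOf_eq_one_iff, hj]
  rcases j with _ | j
  exacts [rfl, (e (dvd_pow_self 2 j.succ_ne_zero)).elim]

end Cfsg.Agent.S4548
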