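import Cfsg.Agent.Base
import Cfsg.Agent.H38.PrinDeg
import Cfsg.Agent.H38.Quot
import Cfsg.Agent.H29.Codeg
import Cfsg.Agent.H36.PrinLoc
import Cfsg.Agent.H40.GlCan
import Cfsg.Statements.S4549

set_option autoImplicit false
open Cfsg

namespace Cfsg.Agent.S4549

open H28 H29 H35 H38

theorem coprime_card {G : Type*} [Group G] [Finite G] {k : ℕ}
    (hk₁ : ∀ g : G, (∃ j : ℕ, orderOf g = 2 ^ j) → g ^ k = g ^ 3)
    (hk₂ : ∀ g : G, Odd (orderOf g) → g ^ k = g) : k.Coprime (Nat.card G) := by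
  refine Nat.coprime_of_dvd fun q hq h1 h2 => ?_
  have := Fact.mk hq
  obtain ⟨g, hg⟩ := exists_prime_orderOf_dvd_card' q h2
  have h3 : g ^ k = 1 := orderOf_dvd_iff_pow_eq_one.1 (hg ▸ h1)
  rcases hq.eq_two_or_odd' with rfl | h4
  · have h5 := hk₁ g ⟨1, hg⟩
    rw [h3] at h5
    have h6 := orderOf_dvd_iff_pow_eq_one.2 h5.symm
    rw [hg] at h6
    omega
  · have h5 := hk₂ g (hg ▸ h4)
    rw [h3] at h5
    rw [← h5, orderOf_one] at hg
    exact hq.one_lt.ne hg

theorem pow_iter {G : Type*} [Group G] [Finite G] {k : ℕ} (hk : k.Coprime 2)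
    (hk₂ : ∀ g : G, Odd (orderOf g) → g ^ k = g) (g : G) : g ^ k ^ 2 ^ Nat.card G = g := by
  obtain ⟨a, b, hb, hab⟩ := Nat.exists_eq_two_pow_mul_odd (orderOf_pos g).ne'
  conv_rhs => rw [← pow_one g]
  rw [pow_eq_pow_iff_modEq, hab]
  refine (Nat.modEq_and_modEq_iff_modEq_mul
    ((Nat.coprime_two_left.2 hb).pow_left a)).1 ⟨?_, ?_⟩
  · have h1 : a ≤ Nat.card G + 1 := by
      have h2 : 2 ^ a ≤ Nat.card G := Nat.le_of_dvd Nat.card_pos
        ((Dvd.intro _ hab.symm).trans (orderOf_dvd_natCard g))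
      have := Nat.lt_two_pow_self (n := a)
      omega
    have h2 := Nat.ModEq.pow_totient (hk.pow_right (Nat.card G + 1))
    rw [Nat.totient_prime_pow_succ Nat.prime_two] at h2
    simpa using h2.of_dvd (pow_dvd_pow 2 h1)
  · have h1 : orderOf (g ^ 2 ^ a) = b := by
      rw [orderOf_pow_of_dvd (by positivity) (Dvd.intro _ hab.symm), hab,
        Nat.mul_div_cancel_left _ (by positivity)]
    have h2 := hk₂ _ (h1 ▸ hb)
    conv_rhs at h2 => rw [← pow_one (g ^ 2 ^ a)]
    rw [pow_eq_pow_iff_modEq, h1] at h2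
    simpa using h2.pow (2 ^ Nat.card G)

theorem main {G : Type*} [Group G] [Finite G] {M : Ideal AlgInt} [M.IsMaximal]
    (hM : IsPModular 2 M) {k : ℕ} (hkG : k.Coprime (Nat.card G))
    (hk₂ : ∀ g : G, Odd (orderOf g) → g ^ k = g)
    (hdeg : ∀ χ ∈ principalBlock M G, Odd (charDegree χ.1) → (∀ g : G, χ.1 (g ^ k) = χ.1 g) →
      charDegree χ.1 = 1) : HasNormalPComplement 2 G := by
  classical
  have hp := hM.1
  have := Fintype.ofFinite G
  rw [H7.hasNPC_iff_not_dvd]
  set N := pResidual 2 G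
  have : N.Normal := H7.pResidual_normal
  have := Fintype.ofFinite N
  obtain ⟨e, he⟩ : ∃ k, N.index = 2 ^ k := H7.index_pResidual
  have hcop : ∀ {d : ℕ}, ¬ 2 ∣ d → N.index.Coprime d := fun h =>
    he ▸ ((Nat.Prime.coprime_iff_not_dvd hp).2 h).pow_left e
  intro hd
  have hk2 : k.Coprime 2 := hkG.coprime_dvd_right (hd.trans N.card_subgroup_dvd_card)
  obtain ⟨σ', hσ'⟩ := H29.exists_ringEquiv_pow (Nat.card_pos (α := G)).ne' hkG
  set σ : ℂ →+* ℂ := σ'.toRingHom
  have hσG : ∀ χ : IrrCharacter G, ∀ g, σ (χ.1 g) = χ.1 (g ^ k) := fun χ g =>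
    χ.2.isCharacter.ringHom_apply σ Nat.card_pos.ne' hσ' g pow_card_eq_one'
  have hσN : ∀ χ : IrrCharacter N, ∀ g, σ (χ.1 g) = χ.1 (g ^ k) := fun χ g =>
    χ.2.isCharacter.ringHom_apply σ Nat.card_pos.ne' hσ' g
      (Subtype.ext (by simpa using pow_card_eq_one'))
  have hfin : Finite (N →* ℂˣ) := Finite.of_equiv _ homEquivLinearIrr.symm
  let K : Subgroup (N →* ℂˣ) :=
    { carrier := {f | (∀ (g : G) (n : N), f ((NEmb.ofNormal N).α g n) = f n) ∧ (∀ n : N,
        MemLocalIdeal M (((Subgroup.centralizer ({n} : Set N)).index : ℂ) * (1 - f n))) ∧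
        ∀ n : N, f (n ^ k) = f n}
      one_mem' := ⟨fun _ _ => rfl, fun n => by simpa using P_zero, fun _ => rfl⟩
      mul_mem' := fun {a b} ha hb => ⟨fun g n => by simp [ha.1, hb.1], fun n => by
        have h1 := P_add (ha.2.1 n) (P_mul_right (hb.2.1 n)
          (mem_S_of_pow_eq_one (ζ := (a n : ℂ)) (orderOf_pos n).ne' (by
            rw [← Units.val_pow_eq_pow_val, ← map_pow, pow_orderOf_eq_one, map_one,
              Units.val_one])))
        convert h1 using 1
        simp only [MonoidHom.mul_apply, Units.val_mul]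
        ring, fun n => by rw [MonoidHom.mul_apply, MonoidHom.mul_apply, ha.2.2, hb.2.2]⟩
      inv_mem' := fun {a} ha => ⟨fun g n => by simp [ha.1], fun n => by
        have h1 := P_neg (P_mul_right (ha.2.1 n)
          (mem_S_of_pow_eq_one (ζ := (a⁻¹ n : ℂ)) (orderOf_pos n).ne' (by
            rw [← Units.val_pow_eq_pow_val, ← map_pow, pow_orderOf_eq_one, map_one,
              Units.val_one])))
        convert h1 using 1
        simp only [MonoidHom.inv_apply, Units.val_inv_eq_inv_val]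
        field_simp
        ring, fun n => by rw [MonoidHom.inv_apply, MonoidHom.inv_apply, ha.2.2]⟩ }
  have hK : ¬ 2 ∣ Nat.card K := fun hd => by
    obtain ⟨f, hf⟩ := exists_prime_orderOf_dvd_card' 2 hd
    have h1 := not_dvd_orderOf_hom_of_pResidual_eq_top hp H7.pResidual_pResidual
      (f : N →* ℂˣ)
    rw [Subgroup.orderOf_coe, hf] at h1
    exact h1 dvd_rfl
  set F : IrrCharacter N → ℤ := fun θ =>
    if θ ∈ principalBlock M N then (charDegree θ.1 : ℤ) ^ 2 else 0 with hF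
  have h1 : ((2 : ℕ) : ℤ) ∣ ∑ θ, F θ := dvd_sum_sq_block hM H34.isPBlock_principalBlock hd
  have h2 := dvd_sum_not_invariant' hp N he F fun g θ => by
    have h3 : (NEmb.ofNormal N).cjI g θ ∈ principalBlock M N ↔ θ ∈ principalBlock M N :=
      ⟨fun h => (NEmb.ofNormal N).cjI_inv_cjI g θ ▸ gInv_principal (NEmb.ofNormal N) g⁻¹ _ h,
        gInv_principal (NEmb.ofNormal N) g θ⟩
    have h4 : charDegree ((NEmb.ofNormal N).cjI g θ).1 = charDegree θ.1 :=
      charDegree_congr ((NEmb.ofNormal N).cjI_apply_one g θ)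
    rw [hF]
    beta_reduce
    rw [h4]
    exact if_congr h3 rfl rfl
  rw [← Finset.sum_filter_add_sum_filter_not _ (fun θ => H32.inertia θ.1 = ⊤)] at h1
  replace h1 := (dvd_add_left h2).1 h1
  rw [← Finset.sum_filter_add_sum_filter_not _
    (fun θ => θ ∈ principalBlock M N ∧ ¬ 2 ∣ charDegree θ.1)] at h1
  have h3 : ((2 : ℕ) : ℤ) ∣ ∑ θ ∈ (Finset.univ.filter fun θ : IrrCharacter N =>
      H32.inertia θ.1 = ⊤).filter fun θ => ¬ (θ ∈ principalBlock M N ∧ ¬ 2 ∣ charDegree θ.1),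
      F θ := by
    refine Finset.dvd_sum fun θ h => ?_
    simp only [hF]
    split_ifs with h4
    · exact (Int.natCast_dvd_natCast.2 (not_not.1 fun h5 => (Finset.mem_filter.1 h).2 ⟨h4, h5⟩)).trans
        (dvd_pow_self _ two_ne_zero)
    · exact dvd_zero _
  replace h1 := (dvd_add_left h3).1 h1
  set S := (Finset.univ.filter fun θ : IrrCharacter N =>
      H32.inertia θ.1 = ⊤).filter fun θ => θ ∈ principalBlock M N ∧ ¬ 2 ∣ charDegree θ.1 with hS
  have hmem : ∀ θ, θ ∈ S ↔ H32.inertia θ.1 = ⊤ ∧ θ ∈ principalBlock M N ∧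
      ¬ 2 ∣ charDegree θ.1 := fun θ => by simp [hS]
  have h4 : 2 ∣ S.card := by
    have h5 : ((2 : ℕ) : ℤ) ∣ ∑ θ ∈ S, (F θ - 1) := Finset.dvd_sum fun θ h => by
      obtain ⟨-, h6, h7⟩ := (hmem θ).1 h
      simp only [hF, if_pos h6]
      obtain ⟨c, hc⟩ : Odd (charDegree θ.1) := Nat.odd_iff.2 (by omega)
      rw [hc]
      exact ⟨2 * c ^ 2 + 2 * c, by push_cast; ring⟩
    rw [Finset.sum_sub_distrib, Finset.sum_const, nsmul_eq_mul, mul_one] at h5
    exact Int.natCast_dvd_natCast.1 ((dvd_sub_right h1).1 h5)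
  let τ : Function.End S := fun θ => ⟨galIrr σ θ.1, by
    obtain ⟨h5, h6, h7⟩ := (hmem _).1 θ.2
    refine (hmem _).2 ⟨H32.inertia_eq_top_iff.2 fun g n => ?_,
      (galIrr_mem_principalBlock_iff hM σ).2 h6, by rwa [charDegree_galIrr]⟩
    exact congrArg σ (H32.inertia_eq_top_iff.1 h5 g n)⟩
  have hτ : ∀ (j : ℕ) (θ : S) (n : N), ((τ ^ j) θ).1.1 n = θ.1.1 (n ^ k ^ j) := by
    intro j
    induction j with
    | zero => intro θ n; rw [pow_zero, pow_zero, pow_one]; rfl
    | succ j ih =>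
      intro θ n
      rw [pow_succ' τ, pow_succ' k, pow_mul, ← ih, ← hσN]
      rfl
  have hτ1 : τ ^ 2 ^ Nat.card G = 1 := by
    funext θ
    refine Subtype.ext (Subtype.ext (funext fun n => ?_))
    rw [hτ]
    exact congrArg θ.1.1 (Subtype.ext (pow_iter hk2 hk₂ (n : G)))
  have h5 := Equiv.Perm.card_fixedPoints_modEq hτ1
  rw [Fintype.card_coe] at h5
  refine hK (((Nat.ModEq.dvd_iff h5 dvd_rfl).1 h4).trans (dvd_of_eq ?_))
  rw [← Nat.card_eq_fintype_card]
  symm
  refine Nat.card_congr (Equiv.ofBijective (fun f => ⟨⟨⟨_, isIrrCharacter_of_hom f.1⟩,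
    (hmem _).2 ⟨H32.inertia_eq_top_iff.2 fun g n => congrArg Units.val (f.2.1 g n),
      (hom_mem_principalBlock_iff _).2 f.2.2.1, by
        rw [charDegree_hom]; exact hp.not_dvd_one⟩⟩, ?_⟩) ⟨fun f g e => ?_, fun θ => ?_⟩)
  · refine Subtype.ext (Subtype.ext (funext fun n => ?_))
    exact (hσN ⟨_, isIrrCharacter_of_hom f.1⟩ n).trans (congrArg Units.val (f.2.2.2 n))
  · ext x
    exact congrFun (congrArg (fun t => t.1.1.1) e) x
  · obtain ⟨⟨θ, hθ⟩, hfix⟩ := θ
    obtain ⟨h4, h5, h6⟩ := (hmem _).1 hθ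
    have hfix' : ∀ n, σ (θ.1 n) = θ.1 n := fun n => congrFun (congrArg (fun t => t.1.1) hfix) n
    have h7 := not_dvd_detOrder_of_pResidual_eq_top hp H7.pResidual_pResidual θ.1
    obtain ⟨χ, hχ, h8, h8'⟩ := H32.exists_canonical_ext θ.2 (H32.inertia_eq_top_iff.1 h4)
      θ.2.cast_charDegree.symm ((hcop h7).mul_right (hcop h6))
    have h9 : charDegree χ = charDegree θ.1 := charDegree_congr (h8 1)
    have h10 : (⟨χ, hχ⟩ : IrrCharacter G) ∈ principalBlock M G :=
      mem_principalBlock_of_pRegular hM (NEmb.ofNormal N) (fun g hg => ⟨⟨g,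
        H7.mem_pResidual_of_coprime ((Nat.Prime.coprime_iff_not_dvd hp).2 hg).symm⟩, rfl⟩) h5
        (over_of_eq θ.2.ne_zero h8)
    have h14 : (fun g => σ (χ g)) = χ := H32.canonical_ext_unique θ.2 θ.2.cast_charDegree.symm
      (hcop h6) hχ (hχ.gal σ) h8 (fun n => by rw [h8, hfix']) (h8' ▸ hcop h7)
      ((h8' ▸ hcop h7 : N.index.Coprime (detOrder χ)).coprime_dvd_right
        (H40.detOrder_gal_dvd hχ σ))
    have h11 : charDegree θ.1 = 1 := h9 ▸ hdeg _ h10 (Nat.odd_iff.2 (by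
      change charDegree χ % 2 = 1
      omega)) fun g => (hσG ⟨χ, hχ⟩ g).symm.trans (congrFun h14 g)
    obtain ⟨f, hf⟩ := θ.2.isCharacter.exists_hom (θ.2.isCharacter.charDegree_eq_one_iff.1 h11)
    have h12 : θ = ⟨_, isIrrCharacter_of_hom f⟩ := Subtype.ext hf
    refine ⟨⟨f, fun g n => Units.ext ?_, (hom_mem_principalBlock_iff f).1 (h12 ▸ h5),
      fun n => Units.ext ?_⟩, Subtype.ext (Subtype.ext h12.symm)⟩
    · have h13 := H32.inertia_eq_top_iff.1 h4 g n
      rw [hf] at h13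
      exact h13
    · have h13 := (hσN θ n).symm.trans (hfix' n)
      rw [hf] at h13
      exact h13

/-- Let G be a finite group and M a maximal ideal of the algebraic integers containing 2. Let k be a natural number with g ^ k = g ^ 3 for every 2-element g and g ^ k = g for every element g of odd order (such k exist); an irreducible character χ is unchanged by g ↦ g ^ k exactly when it is fixed by the field automorphism that cubes the 2-power roots of unity and fixes the roots of unity of odd order. Then G has a normal 2-complement if and only if every member χ of the principal 2-block of odd degree with χ (g ^ k) = χ g for all g has degree one. -/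
theorem result {G : Type*} [Group G] [Finite G] (M : Ideal Cfsg.AlgInt) (hM : Cfsg.IsPModular 2 M) (k : ℕ) (hk₁ : ∀ g : G, (∃ j : ℕ, orderOf g = 2 ^ j) → g ^ k = g ^ 3) (hk₂ : ∀ g : G, Odd (orderOf g) → g ^ k = g) : Cfsg.HasNormalPComplement 2 G ↔ ∀ χ ∈ Cfsg.principalBlock M G, Odd (Cfsg.charDegree (χ : G → ℂ)) → (∀ g : G, (χ : G → ℂ) (g ^ k) = (χ : G → ℂ) g) → Cfsg.charDegree (χ : G → ℂ) = 1 := by
  have := hM.2.1
  refine ⟨fun h χ h1 h2 _ => ?_, main hM (coprime_card hk₁ hk₂) hk₂⟩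
  have h3 := H29.charDegree_dvd_index_of_le_charKer χ.2 _ (H37.pPrimeCore_le_charKer hM h1)
  rw [H36.index_pPrimeCore_of_hasNPC h] at h3
  exact Nat.Coprime.eq_one_of_dvd ((Nat.coprime_two_right.2 h2).pow_right _) h3

end Cfsg.Agent.S4549
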