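import Cfsg.Statements.S4550
import Cfsg.Agent.H41.RealBlock
import Cfsg.Agent.H29.GalChar

set_option autoImplicit false
open Cfsg

namespace Cfsg.Agent.S4550

/-- Let G be a finite group of even order and M a maximal ideal of the algebraic integers containing 2. Let k be a natural number with g ^ k = g ^ 3 for every 2-element g and g ^ k = g for every element g of odd order (such k exist); an irreducible character χ is unchanged by g ↦ g ^ k exactly when it is fixed by the field automorphism that cubes the 2-power roots of unity and fixes the roots of unity of odd order. Then the number of members χ of the principal 2-block of odd degree with χ (g ^ k) = χ g for all g is even. -/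
theorem result {G : Type*} [Group G] [Finite G] (M : Ideal Cfsg.AlgInt) (hM : Cfsg.IsPModular 2 M) (hev : Even (Nat.card G)) (k : ℕ) (hk₁ : ∀ g : G, (∃ j : ℕ, orderOf g = 2 ^ j) → g ^ k = g ^ 3) (hk₂ : ∀ g : G, Odd (orderOf g) → g ^ k = g) : Even (Nat.card {χ : Cfsg.IrrCharacter G // χ ∈ Cfsg.principalBlock M G ∧ Odd (Cfsg.charDegree (χ : G → ℂ)) ∧ ∀ g : G, (χ : G → ℂ) (g ^ k) = (χ : G → ℂ) g}) := by
  open H28 H29 H34 H35 in
  classical
  have := hM.2.1
  have := Fintype.ofFinite G
  have hk : k.Coprime (Nat.card G) := Nat.Coprime.symm (Nat.coprime_of_dvd fun q hq h1 h2 => by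
    have := Fact.mk hq
    obtain ⟨g, hg⟩ := exists_prime_orderOf_dvd_card' q h1
    have h3 : g ^ k = 1 := orderOf_dvd_iff_pow_eq_one.1 (hg ▸ h2)
    rcases hq.eq_two_or_odd' with rfl | ho
    · rw [hk₁ g ⟨1, by simpa using hg⟩, ← orderOf_dvd_iff_pow_eq_one, hg] at h3
      omega
    · rw [hk₂ g (hg ▸ ho)] at h3
      rw [h3, orderOf_one] at hg
      exact hq.ne_one hg.symm)
  let X := {χ : Cfsg.IrrCharacter G // χ ∈ Cfsg.principalBlock M G ∧ Odd (Cfsg.charDegree (χ : G → ℂ))}
  let f : Function.End X := fun χ => ⟨⟨fun g => (χ.1 : G → ℂ) (g ^ k), χ.1.2.comp_pow hk⟩,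
    mem_of_sameBlock isPBlock_principalBlock χ.2.1 (sameBlock_of_pReg_eq hM
      (pReg_eq_pReg_iff.2 fun g hg => congrArg _ (hk₂ g (Nat.odd_iff.2 (by omega))).symm)),
    by simpa [Cfsg.charDegree] using χ.2.2⟩
  have h1 : ∀ (n : ℕ) (χ : X) (g : G), ((f ^ n) χ).1.1 g = χ.1.1 (g ^ k ^ n) := by
    intro n
    induction n with
    | zero => intro χ g; rw [pow_zero, pow_zero, pow_one]; rfl
    | succ n ih =>
      intro χ g
      rw [pow_succ' f, pow_succ' k, pow_mul, ← ih]
      rfl
  have h2 : ∀ g : G, g ^ k ^ 2 ^ (Nat.card G).factorization 2 = g := fun g => by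
    obtain ⟨x, y, rfl, hc, ⟨j, hj⟩, hy⟩ := H41.exists_isPPart Nat.prime_two g
    have h3 : ∀ n : ℕ, x ^ k ^ n = x ^ 3 ^ n := fun n => by
      induction n with
      | zero => simp
      | succ n ih =>
        rw [pow_succ, pow_mul, ih, hk₁ _ ?_, ← pow_mul, ← pow_succ]
        obtain ⟨i, -, hi⟩ := (Nat.dvd_prime_pow Nat.prime_two).1 (hj ▸ orderOf_pow_dvd (x := x) (3 ^ n))
        exact ⟨i, hi⟩
    have h4 : ∀ n : ℕ, y ^ k ^ n = y := fun n => by
      induction n with
      | zero => simp
      | succ n ih => rw [pow_succ, pow_mul, ih, hk₂ y (Nat.odd_iff.2 (by omega))]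
    rw [hc.mul_pow, h3, h4]
    congr 1
    have h5 := Nat.ModEq.pow_totient (x := 3) (n := 2 ^ ((Nat.card G).factorization 2 + 1))
      (Nat.Coprime.pow_right _ (by norm_num))
    rw [Nat.totient_prime_pow_succ Nat.prime_two, show 2 - 1 = 1 from rfl, mul_one] at h5
    have h6 : orderOf x ∣ 2 ^ ((Nat.card G).factorization 2 + 1) := by
      rw [hj]
      refine pow_dvd_pow _ (Nat.le_succ_of_le ?_)
      exact (Nat.prime_two.pow_dvd_iff_le_factorization Nat.card_pos.ne').1
        (hj ▸ orderOf_dvd_natCard x)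
    exact (pow_eq_pow_iff_modEq.2 (h5.of_dvd h6)).trans (pow_one x)
  have h3 : f ^ 2 ^ (Nat.card G).factorization 2 = 1 :=
    funext fun χ => Subtype.ext (Subtype.ext (funext fun g => by rw [h1, h2]; rfl))
  have h4 := Equiv.Perm.card_fixedPoints_modEq h3
  have h5 : Even (Fintype.card X) := by
    have h6 := factorization_sum_deg_sq hM (isPBlock_principalBlock (M := M) (G := G))
    have h7 := Nat.prime_two.factorization_pos_of_dvd Nat.card_pos.ne' hev.two_dvd
    rw [H36.blockDefect_principalBlock hM.1] at h6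
    have h8 := even_iff_two_dvd.2 (Nat.dvd_of_factorization_pos (h6.trans_ne (by omega)))
    rw [Finset.even_sum_iff_even_card_odd] at h8
    rw [Fintype.card_subtype]
    convert h8 using 2
    ext χ
    simp [Nat.odd_pow_iff]
  have h6 : Nat.card {χ : Cfsg.IrrCharacter G // χ ∈ Cfsg.principalBlock M G ∧
      Odd (Cfsg.charDegree (χ : G → ℂ)) ∧ ∀ g : G, (χ : G → ℂ) (g ^ k) = (χ : G → ℂ) g} =
      Fintype.card (Function.fixedPoints f) := by
    rw [← Nat.card_eq_fintype_card]
    exact Nat.card_congr ⟨fun χ => ⟨⟨χ.1, χ.2.1, χ.2.2.1⟩, Subtype.ext (Subtype.ext (funext χ.2.2.2))⟩,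
      fun χ => ⟨χ.1.1, χ.1.2.1, χ.1.2.2, congrFun (congrArg (fun x : X => x.1.1) χ.2)⟩,
      fun _ => rfl, fun _ => rfl⟩
  rw [h6, Nat.even_iff, ← h4, ← Nat.even_iff]
  exact h5

end Cfsg.Agent.S4550
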