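import Cfsg.Statements.S4553
import Cfsg.Agent.H38.PrinCov
import Cfsg.Agent.H32.DegreeRatio
import Cfsg.Agent.H32.DetExt
import Cfsg.Agent.H32.Gallagher
import Cfsg.Agent.H40.GlCan
import Cfsg.Agent.H28.DegSum
import Cfsg.Agent.H7.NPC
import Cfsg.Agent.H35.PReg

set_option autoImplicit false
open Cfsg

namespace Cfsg.Agent.S4553

/-- Let G be a finite group, p a prime, P a Sylow p-subgroup, N the p-residual of G (the subgroup generated by the elements of order prime to p, the smallest normal subgroup with G/N a p-group), and M a maximal ideal of the algebraic integers containing p; suppose G/N is cyclic and nontrivial. Let k be a natural number with g ^ k = g ^ (1 + p) for every p-element g and g ^ k = g for every element g of order prime to p (so that χ (g ^ k) is the image of χ g under the field automorphism that raises p-power roots of unity to the power 1 + p and fixes the roots of unity of order prime to p). Then the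 number of members χ of the principal block of G of degree prime to p with χ (g ^ k) = χ g for all g equals p times the number of members θ of the principal block of N of degree prime to p that are invariant under conjugation by P and satisfy θ (n ^ k) = θ n for all n. -/
theorem result {G : Type*} [Group G] [Finite G] (p : ℕ) [Fact p.Prime] (M : Ideal Cfsg.AlgInt) (hM : Cfsg.IsPModular p M) (P : Sylow p G) (N : Subgroup G) [hN : N.Normal] (hNres : N = Cfsg.pResidual p G) (hcyc : IsCyclic (G ⧸ N)) (hnt : N ≠ ⊤) (k : ℕ) (hk₁ : ∀ g : G, (∃ j : ℕ, orderOf g = p ^ j) → g ^ k = g ^ (1 + p)) (hk₂ : ∀ g : G, Nat.Coprime (orderOf g) p → g ^ k = g) : Nat.card {χ : Cfsg.IrrCharacter G // χ ∈ Cfsg.principalBlock M G ∧ ¬ p ∣ Cfsg.charDegree (χ : G → ℂ) ∧ ∀ g : G, (χ : G → ℂ) (g ^ k) = (χ : G → ℂ) g} = p * Nat.card {θ : Cfsg.IrrCharacter ↥N // θ ∈ Cfsg.principalBlock M ↥N ∧ ¬ p ∣ Cfsg.charDegree (θ : ↥N → ℂ) ∧ (∀ x ∈ (P : Subgroup G),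 ∀ n : ↥N, (θ : ↥N → ℂ) ⟨x * n * x⁻¹, hN.conj_mem n n.2 x⟩ = (θ : ↥N → ℂ) n) ∧ ∀ n : ↥N, (θ : ↥N → ℂ) (n ^ k) = (θ : ↥N → ℂ) n} := by
  open H28 H29 in
  have := hM.2.1
  have hp : p.Prime := hM.1
  let _ : Fintype G := Fintype.ofFinite G
  let _ : Fintype N := Fintype.ofFinite N
  obtain ⟨c, hc⟩ : ∃ c, N.index = p ^ c := hNres ▸ H7.index_pResidual
  have hc0 : c ≠ 0 := by
    rintro rfl
    exact hnt (Subgroup.index_eq_one.1 (by simpa using hc))
  have hpi : p ∣ N.index := hc ▸ dvd_pow_self p hc0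
  have hsup : N ⊔ (P : Subgroup G) = ⊤ := hNres ▸ H7.pResidual_sup_sylow P
  have hdec : ∀ g : G, ∃ n ∈ N, ∃ x ∈ (P : Subgroup G), n * x = g := fun g =>
    Subgroup.mem_sup_of_normal_left.1 (hsup ▸ Subgroup.mem_top g)
  have hPel : ∀ x ∈ (P : Subgroup G), ∃ j, orderOf x = p ^ j := by
    intro x hx
    obtain ⟨j, hj⟩ := (IsPGroup.iff_orderOf.1 P.isPGroup') ⟨x, hx⟩
    exact ⟨j, by rw [← hj, Subgroup.orderOf_mk]⟩
  have hreg : ∀ g : G, ¬ p ∣ orderOf g → g ∈ (H38.NEmb.ofNormal N).ι.range := fun g hg =>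
    ⟨⟨g, hNres ▸ H7.mem_pResidual_of_coprime ((Nat.Prime.coprime_iff_not_dvd hp).2 hg).symm⟩, rfl⟩
  have hkc : k.Coprime (Nat.card G) := by
    rw [Nat.coprime_comm]
    refine Nat.Coprime.symm (Nat.coprime_of_dvd fun q hq hqk hqG => ?_)
    have : Fact q.Prime := ⟨hq⟩
    obtain ⟨g, hg⟩ := exists_prime_orderOf_dvd_card' q hqG
    have h1 : g ^ k = g := by
      by_cases hqp : q = p
      · rw [hk₁ g ⟨1, by rw [hg, hqp, pow_one]⟩, pow_add, pow_one, ← hqp, ← hg,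
          pow_orderOf_eq_one, mul_one]
      · exact hk₂ g (hg ▸ (Nat.coprime_primes hq hp).2 hqp)
    have h2 : g ^ k = 1 := orderOf_dvd_iff_pow_eq_one.1 (hg ▸ hqk)
    rw [h2] at h1
    rw [← h1, orderOf_one] at hg
    exact hq.one_lt.ne hg
  obtain ⟨σ, hσ⟩ := exists_ringEquiv_char_pow G hkc
  have hdo : ∀ θ : N → ℂ, N.index.Coprime (detOrder θ) := by
    intro θ
    rw [hc]
    refine Nat.Coprime.pow_left _ ((Nat.Prime.coprime_iff_not_dvd hp).2 ?_)
    refine H28.not_dvd_detOrder_of_pResidual_eq_top hp ?_ θ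
    subst hNres
    exact H7.pResidual_pResidual
  -- linear characters killed by `p`
  have hL1 : ∀ f : G →* ℂˣ, f ^ p = 1 → ∀ n ∈ N, f n = 1 := by
    intro f hf
    rw [hNres]
    intro n hn
    refine (Subgroup.closure_le f.ker).2 (fun g hg => ?_) hn
    have h1 : f g ^ p = 1 := DFunLike.congr_fun hf g
    have h2 : f g ^ orderOf g = 1 := by rw [← map_pow, pow_orderOf_eq_one, map_one]
    exact (pow_eq_one_iff_of_coprime hg).1 ⟨h2, h1⟩
  have hL2 : ∀ f : G →* ℂˣ, (∀ n ∈ N, f n = 1) → (f ^ p = 1 ↔ ∀ g, f (g ^ k) = f g) := by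
    intro f hf
    have h1 : ∀ g, ∃ x ∈ (P : Subgroup G), f g = f x := fun g => by
      obtain ⟨n, hn, x, hx, rfl⟩ := hdec g
      exact ⟨x, hx, by rw [map_mul, hf n hn, one_mul]⟩
    constructor
    · intro h g
      obtain ⟨x, hx, hgx⟩ := h1 g
      have h2 : f x ^ p = 1 := DFunLike.congr_fun h x
      rw [map_pow, hgx, ← map_pow, hk₁ x (hPel x hx), map_pow, pow_add, pow_one, h2, mul_one]
    · intro h
      ext1 g
      obtain ⟨x, hx, hgx⟩ := h1 g
      have h2 := h x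
      rw [hk₁ x (hPel x hx), map_pow, pow_add, pow_one, mul_eq_left] at h2
      rw [MonoidHom.pow_apply, hgx, h2, MonoidHom.one_apply]
  have hLc : Nat.card {f : G →* ℂˣ // f ^ p = 1} = p := by
    let _ := IsCyclic.commGroup (α := G ⧸ N)
    obtain ⟨e⟩ := CommGroup.monoidHom_mulEquiv_of_hasEnoughRootsOfUnity (G ⧸ N) ℂ
    have h1 : Nat.card {f : G →* ℂˣ // f ^ p = 1} = Nat.card {f : G ⧸ N →* ℂˣ // f ^ p = 1} := by
      refine (Nat.card_congr (Equiv.ofBijective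
        (fun f : {f : G ⧸ N →* ℂˣ // f ^ p = 1} =>
          (⟨f.1.comp (QuotientGroup.mk' N), MonoidHom.ext fun g => DFunLike.congr_fun f.2 _⟩ :
            {f : G →* ℂˣ // f ^ p = 1})) ⟨fun f f' h => ?_, fun f => ?_⟩)).symm
      · refine Subtype.ext (MonoidHom.ext fun q => ?_)
        obtain ⟨g, rfl⟩ := QuotientGroup.mk_surjective q
        exact DFunLike.congr_fun (congrArg Subtype.val h) g
      · refine ⟨⟨QuotientGroup.lift N f.1 (hL1 f.1 f.2), MonoidHom.ext fun q => ?_⟩, rfl⟩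
        obtain ⟨g, rfl⟩ := QuotientGroup.mk_surjective q
        exact DFunLike.congr_fun f.2 g
    have h2 : Nat.card {f : G ⧸ N →* ℂˣ // f ^ p = 1} =
        Nat.card (powMonoidHom p : G ⧸ N →* G ⧸ N).ker :=
      Nat.card_congr (e.toEquiv.subtypeEquiv fun θ => by
        simp only [MulEquiv.toEquiv_eq_coe, EquivLike.coe_coe, MonoidHom.mem_ker,
          powMonoidHom_apply]
        rw [← map_pow, map_eq_one_iff e e.injective])
    rw [h1, h2, IsCyclic.card_powMonoidHom_ker]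
    exact Nat.gcd_eq_right hpi
  have hcancel : ∀ (X : G → ℂ), IsIrrCharacter G X → IsIrrCharacter N (fun n : N => X n) →
      ∀ f f' : G →* ℂˣ, (∀ n ∈ N, f n = 1) → (∀ n ∈ N, f' n = 1) →
      (∀ g, (f g : ℂ) * X g = f' g * X g) → f = f' := by
    intro X hX hXN f f' hf hf' h
    have h1 := H32.gallagher_inj hX.isCharacter hXN (isIrrCharacter_of_hom f)
      (isIrrCharacter_of_hom f') (fun n hn x => by simp [hf n hn])
      (fun n hn x => by simp [hf' n hn]) (funext h)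
    exact MonoidHom.ext fun g => Units.ext (congrFun h1 g)
  set Bs := {θ : Cfsg.IrrCharacter ↥N // θ ∈ Cfsg.principalBlock M ↥N ∧ ¬ p ∣ Cfsg.charDegree (θ : ↥N → ℂ) ∧ (∀ x ∈ (P : Subgroup G), ∀ n : ↥N, (θ : ↥N → ℂ) ⟨x * n * x⁻¹, hN.conj_mem n n.2 x⟩ = (θ : ↥N → ℂ) n) ∧ ∀ n : ↥N, (θ : ↥N → ℂ) (n ^ k) = (θ : ↥N → ℂ) n} with hBs
  have hext : ∀ θ : Bs, ∃ X : G → ℂ, IsIrrCharacter G X ∧ (∀ n : N, X n = θ.1.1 n) ∧
      ∀ g, X (g ^ k) = X g := by
    rintro ⟨θ, h1, h2, h3, h4⟩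
    have hcop : N.index.Coprime (charDegree θ.1) :=
      hc ▸ Nat.Coprime.pow_left _ ((Nat.Prime.coprime_iff_not_dvd hp).2 h2)
    obtain ⟨X, hX, hXθ, hXd⟩ := H32.exists_canonical_ext θ.2 (fun g n => by
      obtain ⟨m, hm, x, hx, rfl⟩ := hdec g
      rw [← h3 x hx n, ← θ.2.isClassFunction.apply_conj ⟨m, hm⟩ ⟨x * n * x⁻¹, _⟩]
      exact congrArg θ.1 (Subtype.ext (by simp [mul_assoc]))) (H35.coe_deg θ).symm (Nat.Coprime.mul_right (hdo _) hcop)
    refine ⟨X, hX, hXθ, fun g => ?_⟩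
    have h5 := H32.canonical_ext_unique θ.2 (H35.coe_deg θ).symm hcop hX (hX.gal σ) hXθ
      (fun n => by
        rw [RingHom.coe_coe, hσ X hX.isCharacter, ← h4 n, ← hXθ]; rfl)
      (hXd ▸ hdo _)
      (Nat.Coprime.coprime_dvd_right (H40.detOrder_gal_dvd hX σ) (hXd ▸ hdo _))
    rw [← hσ X hX.isCharacter]
    exact congrFun h5 g
  choose X hX hXθ hXk using hext
  have hXN : ∀ θ : Bs, IsIrrCharacter N (fun n : N => X θ n) := fun θ => by
    rw [funext (hXθ θ)]; exact θ.1.2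
  have e1 : ∀ a : {f : G →* ℂˣ // f ^ p = 1} × Bs,
      IsIrrCharacter G (fun g => (a.1.1 g : ℂ) * X a.2 g) := fun a => by
    have := (hX a.2).mul_linear (isCharacter_of_hom a.1.1) (by simp)
    rw [mul_comm] at this
    exact this
  have e2 : ∀ a : {f : G →* ℂˣ // f ^ p = 1} × Bs,
      (⟨_, e1 a⟩ : IrrCharacter G) ∈ principalBlock M G := fun a => by
    refine H38.mem_principalBlock_of_pRegular hM (H38.NEmb.ofNormal N) hreg a.2.2.1
      (H38.over_of_eq a.2.1.2.ne_zero fun n => ?_)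
    change (a.1.1 n : ℂ) * X a.2 n = _
    rw [hL1 a.1.1 a.1.2 n n.2, hXθ]
    simp
  have e3 : ∀ a : {f : G →* ℂˣ // f ^ p = 1} × Bs,
      ¬ p ∣ charDegree (fun g => (a.1.1 g : ℂ) * X a.2 g) := fun a => by
    have h1 : charDegree (fun g => (a.1.1 g : ℂ) * X a.2 g) = charDegree a.2.1.1 := by
      apply charDegree_eq
      rw [H35.coe_deg, ← hXθ]
      simp
    exact h1 ▸ a.2.2.2.1
  have e4 : ∀ a : {f : G →* ℂˣ // f ^ p = 1} × Bs, ∀ g,
      (a.1.1 (g ^ k) : ℂ) * X a.2 (g ^ k) = a.1.1 g * X a.2 g := fun a g => by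
    rw [hXk, (hL2 a.1.1 (hL1 a.1.1 a.1.2)).1 a.1.2]
  refine Eq.trans ?_ (by rw [Nat.card_prod, hLc] :
    Nat.card ({f : G →* ℂˣ // f ^ p = 1} × Bs) = _)
  refine (Nat.card_congr (Equiv.ofBijective
    (fun a : {f : G →* ℂˣ // f ^ p = 1} × Bs => ⟨⟨_, e1 a⟩, e2 a, e3 a, e4 a⟩)
    ⟨?_, ?_⟩)).symm
  · rintro ⟨f, θ⟩ ⟨f', θ'⟩ h
    have h1 : ∀ g, (f.1 g : ℂ) * X θ g = f'.1 g * X θ' g :=
      fun g => congrFun (congrArg (fun x => x.1.1) h) g
    have h2 : θ = θ' := by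
      refine Subtype.ext (Subtype.ext (funext fun n => ?_))
      have := h1 n
      rw [hL1 f.1 f.2 n n.2, hL1 f'.1 f'.2 n n.2, hXθ, hXθ] at this
      simpa using this
    subst h2
    rw [Subtype.ext (hcancel _ (hX θ) (hXN θ) _ _ (hL1 f.1 f.2) (hL1 f'.1 f'.2) h1)]
  · rintro ⟨χ, h1, h2, h3⟩
    have h4 := H32.isIrrCharacter_res_of_coprime (N := N) χ.2 (H35.coe_deg χ).symm
      (hc ▸ Nat.Coprime.pow_right _ ((Nat.Prime.coprime_iff_not_dvd hp).2 h2).symm)
    let θ : Bs := ⟨⟨_, h4⟩, H38.mem_principalBlock_of_over (H38.NEmb.ofNormal N) h1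
      (H38.over_of_eq h4.ne_zero fun n => rfl), h2,
      fun x _ n => χ.2.isClassFunction.apply_conj x n, fun n => h3 n⟩
    obtain ⟨f, hf, hχ⟩ := H32.exists_hom_of_ext_of_ext (hX θ).isCharacter (hXN θ)
      χ.2.isCharacter (fun n => (hXθ θ n).symm)
    have h5 : f ^ k = f := by
      refine hcancel _ (hX θ) (hXN θ) _ _ (fun n hn => by simp [hf n hn]) hf fun g => ?_
      have := h3 g
      rw [hχ] at this
      simp only [hXk] at this
      rw [← this, map_pow, MonoidHom.pow_apply]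
    refine ⟨⟨⟨f, (hL2 f hf).2 fun g => ?_⟩, θ⟩, Subtype.ext (Subtype.ext hχ.symm)⟩
    rw [map_pow, ← MonoidHom.pow_apply, h5]

end Cfsg.Agent.S4553
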