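import Cfsg.Statements.S4560
import Cfsg.Agent.H72.FourTr

set_option autoImplicit false
open Cfsg

namespace Cfsg.Agent.S4560

/-- For n ≥ 7 the alternating group on n letters has an irreducible character that vanishes at some 2-element and is the restriction of an irreducible character of the symmetric group, and an irreducible character that vanishes at some element of order 3 and is the restriction of an irreducible character of the symmetric group. -/
theorem result (n : ℕ) (hn : 7 ≤ n) : (∃ χ : Cfsg.IrrCharacter (alternatingGroup (Fin n)), (∃ x : alternatingGroup (Fin n), (∃ j : ℕ, orderOf x = 2 ^ j) ∧ (χ : alternatingGroup (Fin n) → ℂ) x = 0) ∧ ∃ ψ : Cfsg.IrrCharacter (Equiv.Perm (Fin n)), ∀ x : alternatingGroup (Fin n), (ψ : Equiv.Perm (Fin n) → ℂ) x = (χ : alternatingGroup (Fin n) → ℂ) x) ∧ (∃ χ : Cfsg.IrrCharacter (alternatingGroup (Fin n)), (∃ y : alternatingGroup (Fin n), orderOf y = 3 ∧ (χ : alternatingGroup (Fin n) → ℂ) y = 0)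 ∧ ∃ ψ : Cfsg.IrrCharacter (Equiv.Perm (Fin n)), ∀ x : alternatingGroup (Fin n), (ψ : Equiv.Perm (Fin n) → ℂ) x = (χ : alternatingGroup (Fin n) → ℂ) x) := by
  classical
  open H72.T4 in
  haveI := alternatingGroup.isMultiplyPretransitive (Fin n)
  haveI : MulAction.IsMultiplyPretransitive (alternatingGroup (Fin n)) (Fin n) 4 :=
    MulAction.isMultiplyPretransitive_of_le (n := Nat.card (Fin n) - 2) (by simp; omega) (by simp)
  haveI := Equiv.Perm.isMultiplyPretransitive (Fin n) 4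
  obtain ⟨a1, a2, a3⟩ := irr (G := alternatingGroup (Fin n)) (α := Fin n) (by simp; omega)
  obtain ⟨b1, b2, b3⟩ := irr (G := Equiv.Perm (Fin n)) (α := Fin n) (by simp; omega)
  constructor
  · have : n % 2 = 1 ∨ n % 4 = 0 ∨ n % 4 = 2 := by omega
    rcases this with h | h | h
    · obtain ⟨x, o, e, -⟩ := exists_two (α := Fin n) (c := 2) (k := n / 2) (r := 1) (by simp)
        (by omega) (by simp; omega)
      exact ⟨⟨_, a1⟩, ⟨x, o, by simp [e]⟩, ⟨_, b1⟩, fun _ => rfl⟩
    · obtain ⟨x, o, e, e'⟩ := exists_two (α := Fin n) (c := 4) (k := n / 4) (r := 0) (by simp)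
        (by omega) (by simp; omega)
      exact ⟨⟨_, a2⟩, ⟨x, o, by simp [e, e' rfl]⟩, ⟨_, b2⟩, fun _ => rfl⟩
    · obtain ⟨x, o, e, e'⟩ := exists_two (α := Fin n) (c := 4) (k := n / 4) (r := 2) (by simp)
        (by omega) (by simp; omega)
      exact ⟨⟨_, a3⟩, ⟨x, o, by simp [e, e' rfl]; norm_num⟩, ⟨_, b3⟩, fun _ => rfl⟩
  · obtain ⟨x, o, e, e'⟩ := exists_three (α := Fin n) (k := n / 3 - 1) (r := n % 3) (by simp; omega)
    have : n % 3 = 0 ∨ n % 3 = 1 ∨ n % 3 = 2 := by omega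
    rcases this with h | h | h <;> rw [h] at e
    · exact ⟨⟨_, a2⟩, ⟨x, o, by simp [e, e']⟩, ⟨_, b2⟩, fun _ => rfl⟩
    · exact ⟨⟨_, a1⟩, ⟨x, o, by simp [e]⟩, ⟨_, b1⟩, fun _ => rfl⟩
    · exact ⟨⟨_, a3⟩, ⟨x, o, by simp [e, e']; norm_num⟩, ⟨_, b3⟩, fun _ => rfl⟩

end Cfsg.Agent.S4560
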