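import Cfsg.Statements.S4563
import Cfsg.Agent.Base
import Cfsg.Agent.H32.FullyRamSyl
import Cfsg.Agent.S0006

set_option autoImplicit false
open Cfsg

namespace Cfsg.Agent.S4563

open H28 H33 H32

theorem aux_degree {L : Type*} [Group L] [Fintype L] {η : L → ℂ} (hη : IsCharacter L η) {d : ℂ}
    (h : ∀ φ, IsIrrCharacter L φ → classInner η φ ≠ 0 → φ 1 = d) : ∃ c : ℕ, η 1 = c * d := by
  obtain ⟨a, ha, h1⟩ := hη.exists_nat_coeffs
  refine ⟨∑ φ, a φ, ?_⟩
  rw [h1, Finset.sum_apply, Nat.cast_sum, Finset.sum_mul]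
  refine Finset.sum_congr rfl fun φ _ => ?_
  rw [Pi.smul_apply, smul_eq_mul]
  rcases eq_or_ne (a φ) 0 with h0 | h0
  · simp [h0]
  · rw [h φ.1 φ.2 (by rw [ha]; exact_mod_cast h0)]

/-- Let χ be an irreducible character of the finite group H that is fully ramified over the normal subgroup Z: the restriction of χ to Z is e times an irreducible character of Z with e ^ 2 equal to the index of Z. If K is a proper normal subgroup of H containing Z and χ is induced from a character of K, then H/K is solvable; in particular, if K is solvable then so is H. -/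
theorem result {H : Type*} [Group H] [Fintype H] (Z : Subgroup H) [Z.Normal] (χ : Cfsg.IrrCharacter H) (hfr : ∃ (θ : Cfsg.IrrCharacter ↥Z) (e : ℕ), e ^ 2 = Z.index ∧ ∀ z : ↥Z, (χ : H → ℂ) z = (e : ℂ) * (θ : ↥Z → ℂ) z) (K : Subgroup H) [K.Normal] [Fintype K] (hZK : Z ≤ K) (hK : K ≠ ⊤) (φ : ↥K → ℂ) (hφ : Cfsg.IsCharacter ↥K φ) (hind : Cfsg.indFun K φ = (χ : H → ℂ)) : Group.IsSolvable (H ⧸ K) ∧ (Group.IsSolvable ↥K → Group.IsSolvable H) := by
  classical
  obtain ⟨θ, e, he, hres⟩ := hfr
  have h : FullyRam Z θ.1 χ.1 e := ⟨θ.2, χ.2, he, funext hres⟩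
  have hs : Group.IsSolvable (H ⧸ K) := Cfsg.Agent.S0006.result fun p hp => by
    have := Fact.mk hp
    refine h.exists_index_eq hZK p ?_
    rintro S P hP ψ f hψ L _ _ hZL rfl φ₁ hφ₁ hc
    have hZP : Z ≤ P := hP ▸ le_sup_right
    have hφi := isIrrCharacter_of_indFun hφ (hind ▸ χ.2)
    have h1 : classInner (fun x : K => χ.1 x) φ ≠ 0 := by
      rw [← classInner_indFun_right _ _ χ.2.isClassFunction, hind, χ.2.classInner_self]
      exact one_ne_zero
    have h2 := clifford_le_inertia hZK θ.2 (h.inertia_eq_top ▸ le_top) hφi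
      (h.over_of_under hZK hφi h1)
    have hη : IsCharacter (K.subgroupOf P) fun x : K.subgroupOf P => φ ⟨(x : P), x.2⟩ :=
      hφ.comp ((P.subtype.comp (Subgroup.subtype _)).codRestrict K fun x : K.subgroupOf P => x.2)
    have h3 := hψ.under hZL hφ₁ hc
    obtain ⟨c, hcη⟩ := aux_degree hη (d := φ₁ 1) fun φ₂ hφ₂ h4 => by
      have h5 := isCharacter_res_le hZL hφ₂.isCharacter
      obtain ⟨μ, hμ, h6⟩ := h5.exists_constituent fun h0 => hφ₂.apply_one_ne_zero (congrFun h0 1)
      have h7 := classInner_re_le_of_sub (isCharacter_res_le hZL (hη.sub_irr hφ₂ h4)) hμ.isCharacter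
        (χ := fun z : Z.subgroupOf P => φ ⟨(z : P), hZK z.2⟩)
        (ψ := fun z : Z.subgroupOf P => φ₂ ⟨z, hZL z.2⟩)
      have h8 : (fun z : Z.subgroupOf P => φ ⟨(z : P), hZK z.2⟩) =
          classInner (fun n : Z => φ ⟨n, hZK n.2⟩) θ.1 •
            fun x : Z.subgroupOf P => θ.1 ⟨(x : P), x.2⟩ :=
        funext fun z => congrFun h2 ⟨_, z.2⟩
      have h9 := eq_of_homogeneous hψ.irr_sub hμ h8 fun h0 => by
        obtain ⟨n, hn⟩ := h5.classInner_nat hμ.isCharacter
        rw [h0, hn] at h7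
        have : n = 0 := by simpa using h7
        exact h6 (by rw [hn, this, Nat.cast_zero])
      rw [← h9] at h6
      obtain ⟨g, rfl⟩ := mem_conjSet.1
        (mem_conjSet_of_constituent hψ.irr hφ₁ hφ₂ h3 (hψ.under hZL hφ₂ h6))
      exact cj_apply_one g φ₁
    obtain ⟨m, hm⟩ := (hψ.irr.isCharacter.restrict _).classInner_nat hφ₁.isCharacter
    have hm0 : m ≠ 0 := by rintro rfl; exact h3 (by simpa using hm)
    have h4 := hψ.sq_mul_index hZL hφ₁ hm hm0
    have h5 := clifford_degree hψ.irr hφ₁ h3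
    have h6 : (K.subgroupOf P).index = p ^ (Nat.card (H ⧸ K)).factorization p := by
      rw [← relIndex_sylow_sup S hZK, ← hP]; rfl
    have h7 := Subgroup.relIndex_mul_index (le_inertia hφ₁.isClassFunction)
    rw [← h4, h6] at h7
    obtain ⟨r, hr⟩ : p ^ (Nat.card (H ⧸ K)).factorization p ∣ K.index := Nat.ordProj_dvd _ _
    have h8 : χ.1 1 = K.index * φ 1 := by rw [← hind, indFun_apply_one]
    have h9 : φ 1 = c * φ₁ 1 := hcη
    have h10 : ψ 1 = f * θ.1 1 := hψ.apply_one
    have h11 : (e : ℂ) * (m * (inertia φ₁).index) = f * (m * r * c) * (m * (inertia φ₁).index) := by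
      refine mul_right_cancel₀ hφ₁.apply_one_ne_zero ?_
      rw [mul_assoc, ← hm, ← h5, h10, mul_left_comm, ← h.apply_one, h8, h9, hr, ← h7, hm]
      push_cast
      ring
    have h12 : e = f * (m * r * c) := by
      have := mul_right_cancel₀ (by
        exact_mod_cast mul_ne_zero hm0 Subgroup.index_ne_zero_of_finite) h11
      exact_mod_cast this
    have h13 : (m * r * c) ^ 2 = P.index := by
      have h14 := Subgroup.relIndex_mul_index hZP
      rw [← he, h12, mul_pow, hψ.sq] at h14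
      exact (Nat.eq_of_mul_eq_mul_left
        (Nat.pos_of_ne_zero Subgroup.index_ne_zero_of_finite) h14).symm
    have h14 : m = 1 := by
      refine Nat.eq_one_of_dvd_coprimes (((Nat.Prime.coprime_iff_not_dvd hp).2 S.not_dvd_index).pow_left
        ((Nat.card (H ⧸ K)).factorization p)) ?_ ?_
      · rw [← h7]; exact (dvd_pow_self m two_ne_zero).mul_right _
      · refine Dvd.dvd.trans ?_ (Subgroup.index_dvd_of_le (hP ▸ le_sup_left : _ ≤ P))
        rw [← h13]
        exact Dvd.dvd.pow ((Dvd.intro _ rfl).mul_right _) two_ne_zero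
    rw [← Subgroup.relIndex_eq_one, ← h4, h14, one_pow]
  exact ⟨hs, fun _ => H2.isSolvable_of_normal_of_quotient K⟩

end Cfsg.Agent.S4563
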