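import Cfsg.Statements.S4564
import Cfsg.Agent.Base
import Cfsg.Agent.H32.FullyRamSyl

set_option autoImplicit false
open Cfsg

namespace Cfsg.Agent.S4564

open H28 H33 H32

/-- Let χ be an irreducible character of the finite group H that is fully ramified over the normal subgroup Z: the restriction of χ to Z is e times an irreducible character of Z with e ^ 2 equal to the index of Z. Let K be a normal subgroup of H containing Z and P a cyclic Sylow p-subgroup of H/K. Then P has a complement in H/K: a subgroup meeting P trivially whose product with P is the whole group. -/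
theorem result {H : Type*} [Group H] [Finite H] (Z : Subgroup H) [Z.Normal] (χ : Cfsg.IrrCharacter H) (hfr : ∃ (θ : Cfsg.IrrCharacter ↥Z) (e : ℕ), e ^ 2 = Z.index ∧ ∀ z : ↥Z, (χ : H → ℂ) z = (e : ℂ) * (θ : ↥Z → ℂ) z) (K : Subgroup H) [K.Normal] (hZK : Z ≤ K) (p : ℕ) [Fact p.Prime] (P : Sylow p (H ⧸ K)) (hcyc : IsCyclic P) : ∃ M : Subgroup (H ⧸ K), M.IsComplement' (P : Subgroup (H ⧸ K)) := by
  obtain ⟨θ, e, he, hres⟩ := hfr
  have h : FullyRam Z θ.1 χ.1 e := ⟨θ.2, χ.2, he, funext hres⟩
  obtain ⟨W, hW⟩ := h.exists_index_eq hZK p (by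
    rintro S P₀ hP₀ ψ f hψ L _ _ hZL rfl φ hφ hc
    refine hψ.inertia_le_of_cyclic hZL ?_ hφ hc
    let S' := S.mapSurjective (QuotientGroup.mk'_surjective K)
    have h1 : IsCyclic S' := isCyclic_of_surjective _ (P.equiv S').surjective
    let j : P₀ →* S' := ((QuotientGroup.mk' K).comp P₀.subtype).codRestrict _ fun x => by
      obtain ⟨s, hs, z, hz, e⟩ := Subgroup.mem_sup_of_normal_right.1 (hP₀.le x.2)
      refine ⟨s, hs, ?_⟩
      simp [← e, (QuotientGroup.eq_one_iff z).2 (hZK hz)]
    refine isCyclic_of_injective (QuotientGroup.lift (K.subgroupOf P₀) j fun x hx =>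
      Subtype.ext ((QuotientGroup.eq_one_iff (x : H)).2 hx)) ?_
    rw [injective_iff_map_eq_one]
    intro x hx
    obtain ⟨x, rfl⟩ := QuotientGroup.mk_surjective x
    exact (QuotientGroup.eq_one_iff x).2
      ((QuotientGroup.eq_one_iff (x : H)).1 (congrArg Subtype.val hx)))
  rw [← P.card_eq_multiplicity] at hW
  have h1 : Nat.card W * Nat.card P = Nat.card (H ⧸ K) := by rw [← hW, W.card_mul_index]
  refine ⟨W, Subgroup.isComplement'_of_coprime h1 ?_⟩
  have h2 : Nat.card W = (P : Subgroup (H ⧸ K)).index :=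
    Nat.eq_of_mul_eq_mul_right Nat.card_pos (h1.trans (Subgroup.index_mul_card _).symm)
  rw [h2]
  exact P.card_coprime_index.symm

end Cfsg.Agent.S4564
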