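import Cfsg.Statements.S4565
import Cfsg.Agent.Base
import Cfsg.Agent.H32.FullyRam
import Cfsg.Agent.H32.CentralChar

set_option autoImplicit false
open Cfsg

namespace Cfsg.Agent.S4565

open H28 H33 H32

/-- Let χ be an irreducible character of the finite group H that is fully ramified over the normal subgroup Z: the restriction of χ to Z is e times an irreducible character of Z with e ^ 2 equal to the index of Z. If Z ≠ H, then H/Z has no cyclic subgroup that is its own centralizer. -/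
theorem result {H : Type*} [Group H] [Finite H] (Z : Subgroup H) [Z.Normal] (χ : Cfsg.IrrCharacter H) (hfr : ∃ (θ : Cfsg.IrrCharacter ↥Z) (e : ℕ), e ^ 2 = Z.index ∧ ∀ z : ↥Z, (χ : H → ℂ) z = (e : ℂ) * (θ : ↥Z → ℂ) z) (hZ : Z ≠ ⊤) (C : Subgroup (H ⧸ Z)) (hC : IsCyclic C) : Subgroup.centralizer (C : Set (H ⧸ Z)) ≠ C := by
  classical
  intro hCC
  obtain ⟨θ, e, he, hres⟩ := hfr
  have h : FullyRam Z θ.1 χ.1 e := ⟨θ.2, χ.2, he, funext hres⟩
  obtain ⟨Q, _, _, ρ, lam, β, hρ, hc, hβ⟩ := h.exists_central_type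
  have := Fintype.ofFinite Q
  obtain ⟨c, hgen⟩ := hC.exists_generator
  obtain ⟨g, hg⟩ := hρ c
  have hsp : ∀ x : Q, x⁻¹ * g⁻¹ * x * g ∈ ρ.ker → x * g = g * x := fun x hx => by
    have h1 : ρ x * c = c * ρ x := by
      rw [MonoidHom.mem_ker, map_mul, map_mul, map_mul, map_inv, map_inv, hg] at hx
      calc ρ x * c = c * ρ x * ((ρ x)⁻¹ * (c : H ⧸ Z)⁻¹ * ρ x * c) := by group
        _ = _ := by rw [hx, mul_one]
    have h2 : ρ x ∈ C := by
      rw [← hCC, Subgroup.mem_centralizer_iff]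
      intro y hy
      obtain ⟨n, hn⟩ := hgen ⟨y, hy⟩
      have h3 : (c : H ⧸ Z) ^ n = y := congrArg Subtype.val hn
      rw [← h3]
      exact ((Commute.zpow_right h1 n).eq).symm
    obtain ⟨n, hn⟩ := hgen ⟨_, h2⟩
    have h3 : (c : H ⧸ Z) ^ n = ρ x := congrArg Subtype.val hn
    have h4 : (g ^ n)⁻¹ * x ∈ ρ.ker := by
      rw [MonoidHom.mem_ker, map_mul, map_inv, map_zpow, hg, h3, inv_mul_cancel]
    have h5 := Subgroup.mem_center_iff.1 (hc h4) g
    calc x * g = g ^ n * ((g ^ n)⁻¹ * x * g) := by group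
      _ = _ := by rw [← h5]; group
  obtain ⟨ψ, hψ, h1, h2⟩ := exists_over_apply_ne_zero hc hβ.irr_sub hsp
  rw [hβ.eq_of_over hψ h1] at h2
  have h3 : (c : H ⧸ Z) = 1 := by
    rw [← hg]
    by_contra h3
    exact h2 (hβ.eq_zero h3)
  refine hZ (eq_top_iff.2 fun x _ => (QuotientGroup.eq_one_iff x).1 ?_)
  have h4 : ∀ y ∈ C, y = 1 := fun y hy => by
    obtain ⟨n, hn⟩ := hgen ⟨y, hy⟩
    have h5 : (c : H ⧸ Z) ^ n = y := congrArg Subtype.val hn
    rw [← h5, h3, one_zpow]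
  refine h4 _ ?_
  rw [← hCC, Subgroup.mem_centralizer_iff]
  intro y hy
  rw [h4 y hy, one_mul, mul_one]

end Cfsg.Agent.S4565
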