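import Cfsg.Statements.S4574
import Cfsg.Agent.H40.Zeros

set_option autoImplicit false
open Cfsg

namespace Cfsg.Agent.S4574

/-- Let χ be an irreducible character of the finite group G, of degree d, and let Z(χ) be the set of elements g with |χ g| = d (the centre of χ). Then χ vanishes on at least (d ^ 2 - 1) · |Z(χ)| elements of G, with equality when every value |χ g| is 0, 1 or d. -/
theorem result {G : Type*} [Group G] [Fintype G] [DecidableEq G] (χ : G → ℂ) (hχ : Cfsg.IsIrrCharacter G χ) : (Cfsg.charDegree χ ^ 2 - 1) * (Finset.univ.filter (fun g : G => ‖χ g‖ = (Cfsg.charDegree χ : ℝ))).card ≤ (Finset.univ.filter (fun g : G => χ g = 0)).card ∧ ((∀ g : G, ‖χ g‖ = 0 ∨ ‖χ g‖ = 1 ∨ ‖χ g‖ = (Cfsg.charDegree χ : ℝ)) → (Cfsg.charDegree χ ^ 2 - 1) * (Finset.univ.filter (fun g : G => ‖χ g‖ = (Cfsg.charDegree χ : ℝ))).card = (Finset.univ.filter (fun g : G => χ g = 0)).card) := by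
  classical
  have hc := H28.Cfsg.IsIrrCharacter.isCharacter hχ
  have hd := H28.Cfsg.IsIrrCharacter.charDegree_pos hχ
  have hre := H28.Cfsg.IsCharacter.re_apply_one hc
  have hmem : ∀ g, g ∈ H28.charCenter χ ↔ ‖χ g‖ = (Cfsg.charDegree χ : ℝ) := fun g => by
    rw [H28.Cfsg.IsCharacter.mem_charCenter hc, hre]
  have hZ : (Finset.univ.filter (fun g : G => ‖χ g‖ = (Cfsg.charDegree χ : ℝ))).card =
      Nat.card (H28.charCenter χ) := by
    rw [Nat.card_eq_fintype_card, Fintype.card_subtype]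
    congr 1
    ext g
    simp [hmem]
  have hz : (Finset.univ.filter (fun g : G => χ g = 0)).card =
      (Finset.univ.filter fun g => g ∉ H28.charCenter χ ∧ χ g = 0).card := by
    congr 1
    ext g
    simp only [Finset.mem_filter, Finset.mem_univ, true_and, hmem]
    refine ⟨fun h => ⟨?_, h⟩, fun h => h.2⟩
    rw [h, norm_zero]
    exact_mod_cast hd.ne
  have h1 := H28.Cfsg.IsIrrCharacter.card_eq_add_sum_compl hχ (Z := H28.charCenter χ) le_rfl
  rw [hre, H40.sum_compl_eq_sum_nonzero] at h1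
  have h2 := H40.card_nonzero_compl_le hc (H28.charCenter χ) 2
  have h3 : (Nat.card G : ℝ) = _ :=
    congrArg Nat.cast (H40.card_eq_add_zero_add_nonzero χ (H28.charCenter χ))
  push_cast at h3
  have h4 : 1 ≤ Cfsg.charDegree χ ^ 2 := Nat.one_le_pow _ _ hd
  rw [hZ, hz]
  constructor
  · rw [← Nat.cast_le (α := ℝ)]
    push_cast [h4]
    have h5 : ((Cfsg.charDegree χ : ℝ) ^ 2 - 1) * (Nat.card (H28.charCenter χ) : ℝ) ≤
        ((Finset.univ.filter fun g => g ∉ H28.charCenter χ ∧ χ g = 0).card : ℝ) := by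
      linarith
    convert h5
  · intro hv
    rw [← Nat.cast_inj (R := ℝ)]
    push_cast [h4]
    have h6 : ∑ g ∈ Finset.univ.filter (fun g => g ∉ H28.charCenter χ ∧ χ g ≠ 0), ‖χ g‖ ^ 2 =
        ((Finset.univ.filter fun g => g ∉ H28.charCenter χ ∧ χ g ≠ 0).card : ℝ) := by
      rw [Finset.card_eq_sum_ones, Nat.cast_sum]
      refine Finset.sum_congr rfl fun g hg => ?_
      obtain ⟨h7, h8⟩ := (Finset.mem_filter.1 hg).2
      rcases hv g with h | h | h
      · exact absurd (norm_eq_zero.1 h) h8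
      · rw [h]; simp
      · exact absurd ((hmem g).2 h) h7
    have h5 : ((Cfsg.charDegree χ : ℝ) ^ 2 - 1) * (Nat.card (H28.charCenter χ) : ℝ) =
        ((Finset.univ.filter fun g => g ∉ H28.charCenter χ ∧ χ g = 0).card : ℝ) := by
      linarith
    convert h5

end Cfsg.Agent.S4574
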