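import Cfsg.Statements.S4575
import Cfsg.Agent.H35.ConSys

set_option autoImplicit false
open Cfsg H28

namespace Cfsg.Agent.S4575

/-- Let B be a 2-block of the finite group G (relative to a maximal ideal M of the algebraic integers containing 2) of defect d with defect group D. Let z be an element of D commuting with every element of D, and let b be a block of the centralizer of z with defect group D that induces B (a major subsection (z, b)). If the number of irreducible characters in B exceeds the 2-regular rank of b by at most three, then B contains at most 2 ^ d irreducible characters. -/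
theorem result {G : Type*} [Group G] [Finite G] (M : Ideal Cfsg.AlgInt) (hM : Cfsg.IsPModular 2 M) (B : Set (Cfsg.IrrCharacter G)) (hB : Cfsg.IsPBlock M B) (D : Subgroup G) (hD : Cfsg.IsDefectGroup 2 M B D) (z : G) (hzD : z ∈ D) (hzc : ∀ d ∈ D, d * z = z * d) (b : Set (Cfsg.IrrCharacter ↥(Subgroup.centralizer ({z} : Set G)))) (hb : Cfsg.IsInducedBlock M (Subgroup.centralizer ({z} : Set G)) b B) (hbD : Cfsg.IsDefectGroup 2 M b (D.subgroupOf (Subgroup.centralizer ({z} : Set G)))) (h : Nat.card B ≤ Cfsg.blockRank 2 b + 3) : Nat.card B ≤ 2 ^ Cfsg.blockDefect 2 B := by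
  classical
  have := hM.2.1
  have := Fintype.ofFinite G
  have : Fact (Nat.Prime 2) := ⟨Nat.prime_two⟩
  by_cases hd0 : blockDefect 2 B = 0
  · rw [(H35.defect_zero_iff_card_eq_one hM hB).1 hd0]; exact Nat.one_le_two_pow
  have hs := H41.isSec_centralizer (p := 2) (u := z) (by
    simpa using IsPGroup.iff_orderOf.1 (IsPGroup.of_card (H35.card_defectGroup hM hB hD)) ⟨z, hzD⟩)
  obtain ⟨k, hk⟩ := H35.exists_sec_exp hs
  have hbb := ((hs.isInducedBlock_iff hM).1 hb).1
  have hd := H35.blockDefect_eq_of_major hM hbb hB hD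
    (fun d hd => Subgroup.mem_centralizer_singleton_iff.2 (hzc d hd)) hbD
  obtain ⟨χ₀, h₀, hh⟩ := H35.exists_height_zero 2 (H37.block_nonempty hB)
  have hP : ∀ χ ∈ B, ∀ ψ : IrrCharacter G, MemLocalIdeal M ((if χ = ψ then ((2 : ℕ) : ℂ) ^
      blockDefect 2 b else 0) / ((2 : ℕ) : ℂ) ^ blockHeight 2 B (χ : G → ℂ)) := by
    intro χ hχ ψ
    split_ifs
    · have h1 : blockHeight 2 B (χ : G → ℂ) < blockDefect 2 B := by
        by_cases h2 : blockHeight 2 B (χ : G → ℂ) = 0
        · omega
        · have := H35.height_add_two_le hM hB hχ h2; omega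
      rw [hd, ← Nat.cast_pow, ← Nat.cast_pow, H35.P_natCast_div_natCast_iff hM (by positivity)
        (by positivity)]
      simpa [Nat.prime_two.factorization_pow] using h1
    · rw [zero_div]; exact H35.P_zero
  have key := (H35.conSys_mcon hM hs hb hk).compl.sum_weight_le hM (by
      rw [H35.card_bF]
      have : (Nat.card B : ℝ) ≤ blockRank 2 b + 3 := by exact_mod_cast h
      linarith)
    (fun χ => blockHeight 2 B (χ : G → ℂ)) (H35.mem_bF.2 h₀) hh
    (fun χ hχ ψ _ => by
      rw [H35.mcon_one, sub_div]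
      exact (H35.S M).sub_mem (H35.P_mem_S (hP χ (H35.mem_bF.1 hχ) ψ))
        (H35.QB_fsec_div_mem_S hM hs hd (H35.mem_bF.1 hχ) (H35.inV_fsec hM hbb _ _)
        (H35.conj_fsec_mem_S hs ψ.2.isCharacter)))
    (fun χ hχ ψ hψ => by
      rw [H35.mcon_one, sub_div,
        ← H35.P_QB_fsec_div_iff hM hs hb hd (H35.mem_bF.1 hχ) (H35.mem_bF.1 hψ),
        ← H35.P_neg_iff (x := H35.QB _ _ _ _ / _)]
      refine H37.P_congr_iff ?_
      rw [sub_neg_eq_add, sub_add_cancel]
      exact hP χ (H35.mem_bF.1 hχ) ψ)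
    (fun χ _ ψ _ h => by
      have := congrArg (starRingEnd ℂ) h
      rw [map_sub, H35.mcon, H35.conj_QB, map_zero] at this
      refine Eq.trans ?_ this
      rw [H35.mcon]
      by_cases e : χ = ψ
      · rw [if_pos e, if_pos e.symm, map_pow, map_natCast]
      · rw [if_neg e, if_neg (Ne.symm e), map_zero])
  rw [hd] at key
  have : ∑ χ ∈ H35.bF B, 3 ≤ 3 * 2 ^ blockDefect 2 B := le_trans (Finset.sum_le_sum fun χ _ => by
    split_ifs with h1
    · rfl
    · have : 2 ^ 1 ≤ 2 ^ blockHeight 2 B (χ : G → ℂ) :=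
        Nat.pow_le_pow_right (by norm_num) (by omega)
      omega) key
  rw [Finset.sum_const, H35.card_bF, smul_eq_mul] at this
  omega

end Cfsg.Agent.S4575
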