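import Cfsg.Statements.S4580
import Cfsg.Agent.H41.RealBlock
import Cfsg.Agent.H38.CoverS
import Cfsg.Agent.H32.Gallagher
import Cfsg.Agent.H28.Degree

set_option autoImplicit false
open Cfsg

namespace Cfsg.Agent.S4580

/-- Let N be a normal subgroup of the finite group G, M a maximal ideal of the algebraic integers containing 2, and θ a real-valued irreducible character of N of odd degree that extends to G (some irreducible character of G restricts to θ). Then θ has an extension to G lying in the principal 2-block of G. -/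
theorem result {G : Type*} [Group G] [Finite G] (N : Subgroup G) [N.Normal] (M : Ideal Cfsg.AlgInt) (hM : Cfsg.IsPModular 2 M) (θ : Cfsg.IrrCharacter N) (hreal : ∀ n : N, ((θ : N → ℂ) n).im = 0) (hodd : Odd (Cfsg.charDegree (θ : N → ℂ))) (hext : ∃ η : Cfsg.IrrCharacter G, ∀ n : N, (η : G → ℂ) n = (θ : N → ℂ) n) :
    ∃ η : Cfsg.IrrCharacter G, (∀ n : N, (η : G → ℂ) n = (θ : N → ℂ) n) ∧ η ∈ Cfsg.principalBlock M G := by
  classical
  have := hM.2.1
  obtain ⟨η, hη⟩ := hext
  let _inst : Fintype G := Fintype.ofFinite G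
  let K : Subgroup G := N ⊔ commutator G
  have hK : K.Normal := inferInstance
  let _inst : Fintype K := Fintype.ofFinite K
  have hNK : N ≤ K := le_sup_left
  have hηN : (fun n : N => (η : G → ℂ) n) = θ.1 := funext hη
  have hηNi : IsIrrCharacter N (fun n : N => (η : G → ℂ) n) := hηN ▸ θ.2
  have hc : IsCharacter G η.1 := H28.Cfsg.IsIrrCharacter.isCharacter η.2
  have hηK : IsIrrCharacter K (fun k : K => (η : G → ℂ) k) :=
    H28.Cfsg.IsCharacter.irr_of_comp (H28.Cfsg.IsCharacter.restrict hc K)
      (Subgroup.inclusion hNK) hηNi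
  obtain ⟨f, hf, hfe⟩ := H32.exists_hom_of_ext_of_ext (ψ := (H41.cconj η).1) hc hηNi
    (H28.Cfsg.IsIrrCharacter.isCharacter (H41.cconj η).2) (fun n => by
      rw [show (H41.cconj η).1 n = _ from H41.cconj_apply η n, hη n]
      exact Complex.conj_eq_iff_im.2 (hreal n))
  have hfK : K ≤ f.ker := sup_le (fun n hn => hf n hn) (Abelianization.commutator_subset_ker f)
  let κ : IrrCharacter K := ⟨_, hηK⟩
  have hκ : H41.cconj κ = κ := by
    apply Subtype.ext
    funext k
    have h1 := congrFun hfe k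
    have h2 : f k = 1 := hfK k.2
    rw [h2, show (H41.cconj η).1 k = _ from H41.cconj_apply η k] at h1
    rw [show (H41.cconj κ).1 k = _ from H41.cconj_apply κ k]
    simpa using h1
  have hdeg : charDegree κ.1 = charDegree θ.1 := H28.charDegree_congr (hη 1)
  have hκ0 : κ ∈ principalBlock M K := H41.mem_principal_of_sameBlock_cconj hM
    (by
      show ¬ 2 ∣ charDegree κ.1
      rw [hdeg]; exact hodd.not_two_dvd_nat) (by rw [hκ]; exact H34.sameBlock_refl _)
  have hcov : H38.Covers K.subtype (principalBlock M G) (principalBlock M K) :=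
    ⟨⟨_, H28.isIrrCharacter_one⟩, H34.sameBlock_refl _, ⟨_, H28.isIrrCharacter_one⟩,
      H34.sameBlock_refl _, H38.over_one⟩
  obtain ⟨χ, hχ, hov⟩ := H38.Covers.exists_over (H34.isPBlock_principalBlock)
    (H34.isPBlock_principalBlock) hcov hκ0
  obtain ⟨β, hβ, hβk, hβe⟩ := H32.gallagher_surj (N := K) hc hηK χ.2 hov
  have hβ1 : β 1 = 1 := (H28.Cfsg.IsIrrCharacter.degree_one_iff hβ).2 (le_sup_right.trans hβk)
  refine ⟨χ, fun n => ?_, hχ⟩
  have h3 : β n = 1 := by rw [H28.apply_of_mem_charKer (hβk (hNK n.2)), hβ1]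
  rw [show (χ : G → ℂ) n = β n * η.1 n from congrFun hβe n, h3, one_mul, hη n]

end Cfsg.Agent.S4580
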