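import Cfsg.Statements.S4581
import Cfsg.Agent.Base
import Cfsg.Agent.H32.McF
import Cfsg.Agent.H30.FrobSchur
import Cfsg.Agent.H3.FrattiniP

set_option autoImplicit false
open Cfsg

namespace Cfsg.Agent.S4581

open H28 H33 H32

theorem aux_real {X : Type*} (χ : X → ℂ) :
    (∀ g, (χ g).im = 0) ↔ gl (starRingEnd ℂ) χ = χ := by
  simp only [funext_iff, Complex.conj_eq_iff_im]

theorem aux_card {X : Type*} [Group X] :
    Nat.card {χ : IrrCharacter X // (∀ g, (χ.1 g).im = 0) ∧ Odd (charDegree χ.1)} =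
      Nat.card {χ : IrrCharacter X // ¬ 2 ∣ charDegree χ.1 ∧ gl (starRingEnd ℂ) χ.1 = χ.1} :=
  Nat.card_congr (Equiv.subtypeEquivRight fun χ => by
    rw [aux_real, ← Nat.not_even_iff_odd, even_iff_two_dvd, and_comm])

theorem aux_iff {X : Type*} [Group X] [Finite X] :
    (∀ χ : IrrCharacter X, Odd (charDegree χ.1) → ∀ g, (χ.1 g).im = 0) ↔
      Nat.card {χ : IrrCharacter X // ¬ 2 ∣ charDegree χ.1 ∧ gl (starRingEnd ℂ) χ.1 = χ.1} =
      Nat.card {χ : IrrCharacter X // ¬ 2 ∣ charDegree χ.1 ∧ gl (RingHom.id ℂ) χ.1 = χ.1} := by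
  simp only [aux_real, ← Nat.not_even_iff_odd, even_iff_two_dvd]
  refine ⟨fun h => Nat.card_congr (Equiv.subtypeEquivRight fun χ => and_congr_right fun h1 =>
    iff_of_true (h χ h1) rfl), fun h χ h1 => ?_⟩
  have h2 : {χ : IrrCharacter X | ¬ 2 ∣ charDegree χ.1 ∧ gl (starRingEnd ℂ) χ.1 = χ.1} =
      {χ : IrrCharacter X | ¬ 2 ∣ charDegree χ.1 ∧ gl (RingHom.id ℂ) χ.1 = χ.1} :=
    Set.eq_of_subset_of_ncard_le (fun χ h => ⟨h.1, rfl⟩) h.ge
  exact (h2.ge ⟨h1, rfl⟩).2

theorem aux_pgroup {X : Type*} [Group X] [Finite X] (hX : IsPGroup 2 X) :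
    (∀ χ : IrrCharacter X, Odd (charDegree χ.1) → ∀ g, (χ.1 g).im = 0) ↔
      commutator X = frattini X := by
  constructor
  · intro h
    refine le_antisymm (H3.commutator_le_frattini_pgroup hX)
      ((H3.frattini_le_iff_pgroup hX).2 ⟨le_rfl, fun x => ?_⟩)
    by_contra hx
    obtain ⟨η, hη, h1⟩ := exists_irr_not_mem_charKer
      (mt (QuotientGroup.eq_one_iff (N := commutator X) (x ^ 2)).1 hx)
    have h2 := hη.apply_one_of_comm fun a b => mul_comm (G := Abelianization X) a b
    obtain ⟨f, rfl⟩ := hη.isCharacter.exists_hom h2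
    have h3 := h ⟨_, hη.inflate⟩ (by rw [charDegree_eq (n := 1) (by simp)]; exact odd_one) x
    have h4 := H40.norm_eq_one_of_degree_one hη.isCharacter h2 x
    refine h1 (hη.mem_charKer.2 ?_)
    change (f x : ℂ).im = 0 at h3
    rw [QuotientGroup.mk_pow, map_pow, map_one, Units.val_pow_eq_pow_val, Units.val_one, sq]
    nth_rw 2 [← Complex.conj_eq_iff_im.2 h3]
    rw [Complex.mul_conj, Complex.normSq_eq_norm_sq, h4]
    simp
  · intro h χ h1 g
    obtain ⟨k, hk⟩ := χ.2.exists_pow_charDegree hX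
    have h2 : charDegree χ.1 = 1 := by
      rcases k with _ | k
      · exact hk
      · exact absurd (hk ▸ h1) (by simp [pow_succ, parity_simps])
    obtain ⟨f, hf⟩ := χ.2.isCharacter.exists_hom (χ.2.isCharacter.charDegree_eq_one_iff.1 h2)
    have h3 : f (g ^ 2) = 1 := Abelianization.commutator_subset_ker f
      (((H3.frattini_le_iff_pgroup hX).1 h.ge).2 g)
    have h4 : (f g : ℂ) ^ 2 = 1 := by rw [← Units.val_pow_eq_pow_val, ← map_pow, h3, Units.val_one]
    rw [hf]
    rcases sq_eq_one_iff.1 h4 with h5 | h5 <;> simp [h5]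

/-- Let G be a finite solvable group, P a Sylow 2-subgroup and N its normalizer. Then G and N have the same number of real-valued irreducible characters of odd degree; and every odd-degree irreducible character of G is real-valued exactly when the derived subgroup of P equals the Frattini subgroup of P and P is its own normalizer in G. -/
theorem result {G : Type*} [Group G] [Finite G] [Group.IsSolvable G] (P : Sylow 2 G) :
    Nat.card {χ : Cfsg.IrrCharacter G // (∀ g : G, ((χ : G → ℂ) g).im = 0) ∧ Odd (Cfsg.charDegree (χ : G → ℂ))} =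
      Nat.card {ψ : Cfsg.IrrCharacter (Subgroup.normalizer ((P : Subgroup G) : Set G)) // (∀ g, ((ψ : Subgroup.normalizer ((P : Subgroup G) : Set G) → ℂ) g).im = 0) ∧ Odd (Cfsg.charDegree (ψ : Subgroup.normalizer ((P : Subgroup G) : Set G) → ℂ))} ∧
    ((∀ χ : Cfsg.IrrCharacter G, Odd (Cfsg.charDegree (χ : G → ℂ)) → ∀ g : G, ((χ : G → ℂ) g).im = 0) ↔
      (commutator (P : Subgroup G) = frattini (P : Subgroup G) ∧ Subgroup.normalizer ((P : Subgroup G) : Set G) = (P : Subgroup G))) := by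
  have hG := H18.isPSolvable_of_isSolvable (G := G) 2
  have h1 := mcKay_abs conj_iterate hG mcBase_real P
  have h2 := mcKay_abs (id_iterate (2 ^ 0)) hG mcBase_id P
  refine ⟨aux_card.trans (h1.trans aux_card.symm), ?_⟩
  rw [aux_iff, h1, h2, ← aux_iff]
  have h3 : Nm (P : Subgroup G) = P → ((∀ χ : IrrCharacter (Nm (P : Subgroup G)),
      Odd (charDegree χ.1) → ∀ g, (χ.1 g).im = 0) ↔
        commutator (P : Subgroup G) = frattini (P : Subgroup G)) := fun h => by
    rw [h]; exact aux_pgroup P.2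
  refine ⟨fun h => ?_, fun h => (h3 h.2).2 h.1⟩
  suffices h4 : Nm (P : Subgroup G) = P from ⟨(h3 h4).1 h, h4⟩
  refine le_antisymm (fun x hx => ?_) Subgroup.le_normalizer
  by_contra h4
  obtain ⟨η, hη, h5⟩ := exists_irr_not_mem_charKer (mt (QuotientGroup.eq_one_iff
    (N := (P : Subgroup G).subgroupOf (Nm (P : Subgroup G))) ⟨x, hx⟩).1 h4)
  have h6 : Odd (Nat.card (Nm (P : Subgroup G) ⧸
      (P : Subgroup G).subgroupOf (Nm (P : Subgroup G)))) := by
    rw [← Nat.not_even_iff_odd, even_iff_two_dvd]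
    exact not_dvd_relIndex_of_le Subgroup.le_normalizer le_top
      (by rw [Subgroup.relIndex_top_right]; exact P.not_dvd_index)
  have := Fintype.ofFinite (Nm (P : Subgroup G) ⧸
      (P : Subgroup G).subgroupOf (Nm (P : Subgroup G)))
  have h7 := H30.eq_one_of_real_of_odd h6 hη fun g => by
    obtain ⟨g, rfl⟩ := QuotientGroup.mk_surjective g
    exact h ⟨_, hη.inflate⟩ (h6.of_dvd_nat hη.charDegree_dvd_card) g
  exact h5 (hη.mem_charKer.2 (by rw [h7]))

end Cfsg.Agent.S4581
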