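import Cfsg.Statements.S4583
import Cfsg.Agent.H41.RegSum
import Cfsg.Agent.H41.RelOrth

set_option autoImplicit false
open Cfsg

namespace Cfsg.Agent.S4583

/-- Let N be a normal subgroup of the finite group G, p a prime, M a maximal ideal of the algebraic integers containing p, and P a Sylow p-subgroup of G. Let θ be an irreducible character of N of degree prime to p lying in the principal p-block of N, and suppose θ extends to the subgroup NP (some irreducible character of NP restricts to θ). Then some irreducible character χ of G of degree prime to p in the principal p-block of G lies over θ (θ is a constituent of the restriction of χ to N). -/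
theorem result {G : Type*} [Group G] [Finite G] (N : Subgroup G) [N.Normal] (p : ℕ) [Fact p.Prime] (M : Ideal Cfsg.AlgInt) (hM : Cfsg.IsPModular p M) (P : Sylow p G)
    (θ : Cfsg.IrrCharacter N) (hθ : θ ∈ Cfsg.principalBlock M N) (hdeg : ¬ p ∣ Cfsg.charDegree (θ : N → ℂ))
    (hext : ∃ η : Cfsg.IrrCharacter ↥(N ⊔ (P : Subgroup G)), ∀ n : N, (η : ↥(N ⊔ (P : Subgroup G)) → ℂ) (Subgroup.inclusion le_sup_left n) = (θ : N → ℂ) n) :
    ∃ χ : Cfsg.IrrCharacter G, χ ∈ Cfsg.principalBlock M G ∧ ¬ p ∣ Cfsg.charDegree (χ : G → ℂ) ∧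
      haveI := Fintype.ofFinite N; Cfsg.classInner (fun n : N => (χ : G → ℂ) n) (θ : N → ℂ) ≠ 0 := by
  open H28 in
  have := hM.2.1
  have hp : p.Prime := hM.1
  have := Fintype.ofFinite G
  let _ : Fintype N := Fintype.ofFinite N
  let _ : Fintype ↥(N ⊔ (P : Subgroup G)) := Fintype.ofFinite _
  obtain ⟨η, hη⟩ := hext
  have hreg : ∀ g : ↥(N ⊔ (P : Subgroup G)), ¬ p ∣ orderOf g →
      g ∈ (Subgroup.inclusion (le_sup_left : N ≤ N ⊔ (P : Subgroup G))).range := by
    intro g hg
    obtain ⟨n, hn, x, hx, hnx⟩ := Subgroup.mem_sup_of_normal_left.1 g.2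
    obtain ⟨k, hk⟩ := P.isPGroup' ⟨x, hx⟩
    have hk' : x ^ p ^ k = 1 := by simpa using congrArg Subtype.val hk
    have hxN : x ∈ N := by
      by_contra hxN
      apply hg
      rw [← Subgroup.orderOf_coe, ← hnx]
      exact H41.dvd_orderOf_mul_of_not_mem hp hk' hxN hn
    exact ⟨⟨g, hnx ▸ N.mul_mem hn hxN⟩, rfl⟩
  have h1 : H41.regS p η.1 = H41.regS p θ.1 := by
    rw [← H41.regS_comp (Subgroup.inclusion_injective _) hreg]
    congr 1
    exact funext hη
  have h2 : ¬ p ∣ (N ⊔ (P : Subgroup G)).index :=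
    fun h => P.not_dvd_index (h.trans (Subgroup.index_dvd_of_le le_sup_right))
  obtain ⟨χ, h3, h4, h5⟩ := H41.exists_principal_over hM h2 η.2.isGeneralizedCharacter
    (by rw [h1]; exact (H41.not_P_regS_iff hM).2 ⟨hθ, hdeg⟩)
  refine ⟨χ, h3, h4, ?_⟩
  have h6 : H38.Over (N ⊔ (P : Subgroup G)).subtype χ.1 η.1 := H35.ne_zero_of_not_P h5
  have h7 : H38.Over (Subgroup.inclusion (le_sup_left : N ≤ N ⊔ (P : Subgroup G))) η.1 θ.1 :=
    H38.over_of_eq θ.2.ne_zero hη
  have h8 := H38.Over.trans χ.2.isCharacter η.2 θ.2.isCharacter h6 h7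
  exact h8

end Cfsg.Agent.S4583
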