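import Cfsg.Statements.S4586
import Cfsg.Agent.H9.MaxClass

set_option autoImplicit false
open Cfsg

namespace Cfsg.Agent.S4586

theorem card_map_mul {G : Type*} [Group G] {M H : Subgroup G} [M.Normal] (h : M ≤ H) :
    Nat.card (H.map (QuotientGroup.mk' M)) * Nat.card M = Nat.card H := by
  rw [← Subgroup.relIndex_ker, QuotientGroup.ker_mk', ← (M.subgroupOf H).index_mul_card,
    Nat.card_congr (Subgroup.subgroupOfEquivOfLe h).toEquiv]
  rfl

theorem key {P : Type*} [Group P] [Finite P] {p : ℕ} (hp : p.Prime) (N : Subgroup P) [N.Normal]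
    (hN : N.index = p) {x : P} (hx : x ∉ N) : (commutator P).index * Nat.card (commutator N) =
      p * Nat.card {n : N // x * n * x⁻¹ * (n : P)⁻¹ ∈ (commutator N).map N.subtype} := by
  have hM : (commutator N).map N.subtype = ⁅N, N⁆ := Subgroup.map_subtype_commutator N
  rw [← Subgroup.card_map_of_injective (K := commutator N) N.subtype_injective, hM]
  set M := ⁅N, N⁆
  let π := QuotientGroup.mk' M
  have hπ := QuotientGroup.mk'_surjective M
  have h7 : N ⊔ Subgroup.zpowers x = ⊤ := by
    have h8 := Subgroup.index_dvd_of_le (le_sup_left : N ≤ N ⊔ Subgroup.zpowers x)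
    rw [hN] at h8
    rcases (Nat.dvd_prime hp).1 h8 with h9 | h9
    · exact Subgroup.index_eq_one.1 h9
    · have h10 := Subgroup.relIndex_mul_index (le_sup_left : N ≤ N ⊔ Subgroup.zpowers x)
      rw [h9, hN] at h10
      have h11 := Subgroup.relIndex_eq_one.1
        (Nat.eq_of_mul_eq_mul_right hp.pos (h10.trans (one_mul p).symm))
      exact absurd (h11 (Subgroup.mem_sup_right (Subgroup.mem_zpowers x))) hx
  have hcm : ∀ a ∈ N.map π, ∀ b ∈ N.map π, a * b = b * a := by
    rintro _ ⟨a, ha, rfl⟩ _ ⟨b, hb, rfl⟩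
    rw [← commutatorElement_eq_one_iff_mul_comm, ← map_commutatorElement]
    exact (QuotientGroup.eq_one_iff _).2 (Subgroup.commutator_mem_commutator ha hb)
  have := Subgroup.Normal.map ‹N.Normal› π hπ
  have h8 : N.map π ⊔ Subgroup.zpowers (π x) = ⊤ := by
    rw [← MonoidHom.map_zpowers, ← Subgroup.map_sup, h7, Subgroup.map_top_of_surjective _ hπ]
  have h1 := (H9.card_commutator_mul_card_inf_center
    ⟨⟨fun a b => Subtype.ext (hcm _ a.2 _ b.2)⟩⟩ h8).1
  have hMN : M ≤ N := Subgroup.commutator_le_left N N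
  have h2 := card_map_mul hMN
  have h3 := card_map_mul (show M ≤ commutator P from Subgroup.commutator_mono le_top le_top)
  rw [show (commutator P).map (QuotientGroup.mk' M) = commutator (P ⧸ M) by
    rw [commutator_def, Subgroup.map_commutator, Subgroup.map_top_of_surjective _ hπ,
      commutator_def]] at h3
  have h4 := card_map_mul (show M ≤ (N.map π ⊓ Subgroup.center (P ⧸ M)).comap π from fun m hm => by
    rw [Subgroup.mem_comap, show π m = 1 from (QuotientGroup.eq_one_iff _).2 hm]; exact one_mem _)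
  rw [Subgroup.map_comap_eq_self_of_surjective hπ] at h4
  have hmem : ∀ n, π n ∈ N.map π → n ∈ N := fun n hn => by
    have := Subgroup.comap_map_eq π N
    rw [QuotientGroup.ker_mk', sup_eq_left.2 hMN] at this
    exact this ▸ hn
  have h5 : Nat.card ((N.map π ⊓ Subgroup.center (P ⧸ M)).comap π) =
      Nat.card {n : N // x * n * x⁻¹ * (n : P)⁻¹ ∈ M} := by
    refine Nat.card_congr ⟨fun c => ⟨⟨c, hmem _ c.2.1⟩, ?_⟩, fun n => ⟨n.1, ⟨_, n.1.2, rfl⟩, ?_⟩,
      fun _ => rfl, fun _ => rfl⟩
    · refine (QuotientGroup.eq_one_iff _).1 ?_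
      change π _ = 1
      rw [map_mul, map_mul, map_mul, Subgroup.mem_center_iff.1 c.2.2 (π x)]; simp
    · have h6 : Subgroup.centralizer {π n.1} = ⊤ := by
        rw [eq_top_iff, ← h8, sup_le_iff, Subgroup.zpowers_le]
        refine ⟨fun a ha => Subgroup.mem_centralizer_singleton_iff.2 (hcm a ha _ ⟨_, n.1.2, rfl⟩),
          Subgroup.mem_centralizer_singleton_iff.2 ?_⟩
        rw [← commutatorElement_eq_one_iff_mul_comm, ← map_commutatorElement]
        exact (QuotientGroup.eq_one_iff _).2 n.2
      exact Subgroup.mem_center_iff.2 fun g =>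
        Subgroup.mem_centralizer_singleton_iff.1 (h6 ▸ Subgroup.mem_top g)
  have h6 := (commutator P).card_mul_index
  have h9 := N.card_mul_index
  rw [← h5, ← h4]
  refine Nat.eq_of_mul_eq_mul_left (Nat.card_pos (α := commutator P)) ?_
  rw [← mul_assoc, h6, ← h9, hN, ← h3, ← h2, ← h1]
  ring

/-- Let p be a prime, P a finite p-group and N a normal subgroup of P of index p. For x ∈ P write c(x) for the number of elements n of N whose commutator x n x⁻¹ n⁻¹ lies in the derived subgroup N' (so c(x)/#N' is the order of the centralizer of x acting on N/N'). Then [P : P'] = p² if and only if c(x) = p·#N' for every x ∈ P outside N, and also if and only if c(x) = p·#N' for some x ∈ P outside N. -/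
theorem result {P : Type*} [Group P] [Finite P] (p : ℕ) [Fact p.Prime] (hP : IsPGroup p P) (N : Subgroup P) [N.Normal] (hN : N.index = p) :
    ((commutator P).index = p ^ 2 ↔ ∀ x : P, x ∉ N →
        Nat.card {n : N // x * n * x⁻¹ * (n : P)⁻¹ ∈ (commutator N).map N.subtype} = p * Nat.card (commutator N)) ∧
    ((commutator P).index = p ^ 2 ↔ ∃ x : P, x ∉ N ∧
        Nat.card {n : N // x * n * x⁻¹ * (n : P)⁻¹ ∈ (commutator N).map N.subtype} = p * Nat.card (commutator N)) := by
  have hp : p.Prime := Fact.out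
  have h1 : ∀ x ∉ N, (commutator P).index = p ^ 2 ↔
      Nat.card {n : N // x * n * x⁻¹ * (n : P)⁻¹ ∈ (commutator N).map N.subtype} =
        p * Nat.card (commutator N) := fun x hx => by
    have h2 := key hp N hN hx
    refine ⟨fun h => Nat.eq_of_mul_eq_mul_left hp.pos ?_,
      fun h => Nat.eq_of_mul_eq_mul_right (Nat.card_pos (α := commutator N)) ?_⟩
    · rw [← h2, h]; ring
    · rw [h2, h]; ring
  obtain ⟨x, -, hx⟩ := SetLike.exists_of_lt (lt_top_iff_ne_top.2 (show N ≠ ⊤ from fun e => by
    rw [e, Subgroup.index_top] at hN; exact hp.one_lt.ne hN))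
  exact ⟨⟨fun h y hy => (h1 y hy).1 h, fun h => (h1 x hx).2 (h x hx)⟩,
    fun h => ⟨x, hx, (h1 x hx).1 h⟩, fun ⟨y, hy, h⟩ => (h1 y hy).2 h⟩

end Cfsg.Agent.S4586
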