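import Cfsg.Statements.S4588
import Cfsg.Agent.H35.KW

set_option autoImplicit false
open Cfsg H28

namespace Cfsg.Agent.S4588

/-- Let G be a finite group, p a prime and M a maximal ideal of the algebraic integers containing p. If some p-element x of G (possibly x = 1) has centralizer whose order has p-part at most p², then the principal p-block of G contains at most p² irreducible characters of degree prime to p. -/
theorem result {G : Type*} [Group G] [Finite G] (p : ℕ) [Fact p.Prime] (M : Ideal Cfsg.AlgInt) (hM : Cfsg.IsPModular p M)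
    (hx : ∃ x : G, (∃ k : ℕ, orderOf x = p ^ k) ∧ (Nat.card (Subgroup.centralizer ({x} : Set G))).factorization p ≤ 2) :
    Nat.card {χ : Cfsg.IrrCharacter G // χ ∈ Cfsg.principalBlock M G ∧ ¬ p ∣ Cfsg.charDegree (χ : G → ℂ)} ≤ p ^ 2 := by
  classical
  have := hM.2.1
  have := Fintype.ofFinite G
  have hp := hM.1
  obtain ⟨x, hx, h2⟩ := hx
  have hu := H41.isSec_centralizer hx
  by_cases h1 : x = 1
  · subst h1
    have e : Subgroup.centralizer ({1} : Set G) = ⊤ :=
      eq_top_iff.2 fun g _ => Subgroup.mem_centralizer_singleton_iff.2 (by simp)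
    rw [e, Subgroup.card_top] at h2
    have h3 := (H35.blockDefect_le p (principalBlock M G)).trans h2
    refine le_trans ?_ ((H35.card_le_of_defect_le_two hM H34.isPBlock_principalBlock h3).trans
      (Nat.pow_le_pow_right hp.pos h3))
    exact Nat.card_le_card_of_injective (fun χ => ⟨χ.1, χ.2.1⟩)
      fun _ _ h => Subtype.ext (Subtype.mk.inj h)
  generalize Subgroup.centralizer {x} = C at hu h2
  have := Fintype.ofFinite C
  have hi : IsInducedBlock M C (principalBlock M C) (principalBlock M G) :=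
    (hu.isInducedBlock_iff hM).2 ⟨H34.isPBlock_principalBlock, H34.isPBlock_principalBlock,
      (H34.locSet_principal hM hu).ge⟩
  obtain ⟨D, hD⟩ := H34.exists_isDefectGroup p hi.1
  obtain ⟨Q, _, _, c, E, φ, e1, e2, -, -, e5, -, e7⟩ := H35.exists_sec_quot hM hu hi hD
  have h3 := (H35.blockDefect_le p (principalBlock M C)).trans h2
  have h4 := H35.card_defectGroup hM hi.1 hD
  have h5 := H35.card_defectGroup hM e1 e2
  obtain ⟨k, hk⟩ := hx
  have hk0 : k ≠ 0 := by
    rintro rfl
    exact h1 (orderOf_eq_one_iff.1 hk)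
  have hE : IsCyclic E := H35.isCyclic_of_card_le hp (by
    rw [h4, hk, h5, ← pow_add] at e5
    have := Nat.pow_right_injective hp.two_le e5
    omega) h5
  refine le_trans ?_ ((((e7 hE).trans (Nat.mul_le_mul_left _
    (H35.card_le_of_cyclic hM e1 e2 hE))).trans_eq (e5.symm.trans h4)).trans
      (Nat.pow_le_pow_right hp.pos h3))
  rw [← Fintype.card_coe, ← Nat.card_eq_fintype_card]
  refine Nat.card_le_card_of_injective (fun χ => ⟨χ.1, H35.mem_nzF.2 ⟨χ.2.1, fun h => χ.2.2 ?_⟩⟩)
    fun _ _ h => Subtype.ext (Subtype.mk.inj h)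
  have h6 : ¬ p ∣ orderOf (1 : C) := by rw [orderOf_one]; exact hp.not_dvd_one
  have h7 := congrFun h 1
  rw [H35.fsec, H35.pReg_of_reg _ h6, ← H34.prin_apply_eq hM hu χ.2.1 h6] at h7
  have h8 := H37.char_congr_of_isPPart hM χ.1.2.isCharacter (x := x) (y := (1 : C)) ⟨k, hk⟩
    (hu.comm 1)
  rw [h7, Pi.zero_apply, zero_sub, H35.P_neg_iff, OneMemClass.coe_one, ← H35.coe_deg,
    H35.P_natCast_iff hM] at h8
  exact h8

end Cfsg.Agent.S4588
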