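import Cfsg.Agent.Base
import Cfsg.Agent.H87.PKer
import Cfsg.Statements.S4591

set_option autoImplicit false
open Cfsg

namespace Cfsg.Agent.S4591

/-- Let G be a finite group, p a prime and P a Sylow p-subgroup, and let N be the largest normal subgroup of G in which P has trivial centralizer (N is normal with C_N(P) = 1 and contains every normal subgroup with that property). Then the intersection of the kernels of the irreducible characters of G of degree prime to p is the normal core in G of the subgroup N·P' (P' the derived subgroup of P). In particular, when G has no nontrivial normal subgroup of order prime to p, that intersection is the normal core of P'. -/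
theorem result {G : Type*} [Group G] [Finite G] (p : ℕ) [Fact p.Prime] (P : Sylow p G) (N : Subgroup G) [N.Normal]
    (hN : N ⊓ Subgroup.centralizer ((P : Subgroup G) : Set G) = ⊥)
    (hmax : ∀ L : Subgroup G, L.Normal → L ⊓ Subgroup.centralizer ((P : Subgroup G) : Set G) = ⊥ → L ≤ N) :
    {g : G | ∀ χ : Cfsg.IrrCharacter G, ¬ p ∣ Cfsg.charDegree (χ : G → ℂ) → (χ : G → ℂ) g = (χ : G → ℂ) 1} =
      ((N ⊔ ⁅(P : Subgroup G), (P : Subgroup G)⁆).normalCore : Set G) := by
  let K : Subgroup G := ⨅ χ : {χ : IrrCharacter G // ¬ p ∣ charDegree χ.1}, H28.charKer χ.1.1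
  have hK : K.Normal := Subgroup.normal_iInf_normal fun χ =>
    H28.Cfsg.IsIrrCharacter.charKer_normal χ.1.2
  have h1 : H87.PKer p K := fun χ hχ hd => iInf_le_of_le ⟨⟨χ, hχ⟩, hd⟩ le_rfl
  obtain ⟨L, h2, -, -, h3, h4⟩ := h1.exists_compl P
  ext g
  constructor
  · intro hg
    have h5 : K ≤ (N ⊔ ⁅(P : Subgroup G), (P : Subgroup G)⁆).normalCore :=
      Subgroup.normal_le_normalCore.2 (h4.trans (sup_le_sup_right (hmax L h2 h3) _))
    exact h5 (Subgroup.mem_iInf.2 fun χ =>
      (H28.Cfsg.IsIrrCharacter.mem_charKer χ.1.2).2 (hg χ.1 χ.2))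
  · exact fun hg χ hd => H28.apply_of_mem_charKer (H87.pk_normalCore P hN χ.1 χ.2 hd hg)

end Cfsg.Agent.S4591
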