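import Cfsg.Agent.Base
import Cfsg.Agent.H4.Cover
import Cfsg.Agent.H8.Focal
import Cfsg.Agent.H18.PSolv
import Cfsg.Agent.H19.Metacyclic
import Cfsg.Agent.H32.FullyRamSyl
import Cfsg.Agent.H26.SylowTI
import Cfsg.Statements.S4601

set_option autoImplicit false
open Cfsg

namespace Cfsg.Agent.S4601

open Subgroup H4

universe u

theorem frat {G : Type*} [Group G] [Finite G] {q : ℕ} [Fact q.Prime] (Q : Sylow q G) (N : Subgroup G)
    [N.Normal] : (normalizer ((Q : Subgroup G).map (QuotientGroup.mk' N) : Set (G ⧸ N))).comap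
      (QuotientGroup.mk' N) ≤ normalizer (Q : Set G) ⊔ N := by
  intro g hg
  obtain ⟨k, hk, e⟩ := H8.exists_mem_smul_sylow_eq (g • Q) Q (Q ⊔ N) (by
    rintro _ ⟨y, hy, rfl⟩
    have := (mem_normalizer_iff.1 hg _).1 (mem_map_of_mem (QuotientGroup.mk' N) hy)
    rwa [← map_inv, ← map_mul, ← map_mul, ← mem_comap, comap_map_eq, QuotientGroup.ker_mk'] at this)
    le_sup_left
  have h1 : k * g ∈ normalizer (Q : Set G) := Sylow.smul_eq_iff_mem_normalizer.1 (by rw [mul_smul, e])
  simpa using mul_mem (inv_mem (sup_le_sup_right le_normalizer N hk)) (mem_sup_left h1)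

theorem cop {G : Type*} [Group G] [Finite G] {p q : ℕ} [Fact p.Prime] [hq : Fact q.Prime] (N : Subgroup G)
    [hN : N.Normal] (hc : (Nat.card N).Coprime q) (h : ∀ Q : Sylow q G, ∀ y ∈ (Q : Subgroup G), ¬ p ∣ ind y) :
    ∃ Q : Sylow q G, ¬ p ∣ (normalizer (Q : Set G)).relIndex N := by
  obtain ⟨S, h1, h2⟩ := H32.exists_sylow_inf p N
  set R := (S : Subgroup G) ⊓ N with hR
  obtain ⟨Q, -, hQ⟩ := H26.exists_sylow_le_of_not_dvd_index (p := q) (K := normalizer (R : Set G))
    IsPGroup.of_bot bot_le (by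
    rw [H19.index_eq_relIndex_mul_index_sup _ N, h1, index_top, mul_one]
    exact fun e => hq.out.coprime_iff_not_dvd.1 hc.symm (e.trans (relIndex_dvd_card _ _)))
  refine ⟨Q, fun e => h2 ?_⟩
  rw [← inf_relIndex_right]
  refine e.trans (relIndex_dvd_of_le_left _ (le_trans ?_ (centralizer_le_normalizer _)))
  refine le_centralizer_iff.1 fun y hy => ?_
  obtain ⟨g, hg⟩ := exists_conj_mem_centralizer_sylow S (h Q y hy)
  obtain ⟨t, ht, n, hn, rfl⟩ := mem_sup_of_normal_right.1 (h1 ▸ mem_top g)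
  replace hg : t * n * y * (t * n)⁻¹ ∈ centralizer (R : Set G) := centralizer_le (by exact inf_le_left) hg
  let φ := R.normalizerMonoidHom
  have hk : ∀ a : normalizer (R : Set G), φ a = 1 ↔ (a : G) ∈ centralizer (R : Set G) := fun a => by
    rw [← MonoidHom.mem_ker, normalizerMonoidHom_ker, mem_subgroupOf]
  let c : normalizer (R : Set G) := ⟨_, centralizer_le_normalizer _ hg⟩
  let m : normalizer (R : Set G) := (⟨t, ht⟩⁻¹ * c⁻¹ * ⟨t, ht⟩) * ⟨y, hQ hy⟩
  have hm : (m : G) ∈ N := by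
    simpa [m, c, mul_assoc] using N.mul_mem hn (hN.conj_mem' _ (N.inv_mem hn) y)
  have e1 : φ m = φ ⟨y, hQ hy⟩ := by simp [m, (hk c).2 hg]
  obtain ⟨k, hk'⟩ := (IsPGroup.iff_orderOf.1 Q.isPGroup') ⟨y, hy⟩
  refine (hk ⟨y, hQ hy⟩).1 (orderOf_eq_one_iff.1 (Nat.eq_one_of_dvd_coprimes (hc.pow_right k) ?_ ?_))
  · rw [← e1]
    exact (orderOf_map_dvd φ m).trans (by rw [← orderOf_coe]; exact N.orderOf_dvd_natCard hm)
  · exact (orderOf_map_dvd φ _).trans (by rw [← hk', orderOf_mk, orderOf_mk])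

theorem key {p q : ℕ} [hp : Fact p.Prime] [hq : Fact q.Prime] (hpq : p ≠ q) (n : ℕ) :
    ∀ (G : Type u) [Group G] [Finite G], Nat.card G = n → (IsPSolvable p G ∨ IsPSolvable q G) →
      (∀ Q : Sylow q G, ∀ y ∈ (Q : Subgroup G), ¬ p ∣ ind y) → ¬ p ∣ Nat.card (Sylow q G) := by
  induction n using Nat.strong_induction_on with
  | _ n ih =>
    intro G _ _ hn hs h
    by_cases h0 : (⊤ : Subgroup G) = ⊥
    · obtain ⟨Q⟩ : Nonempty (Sylow q G) := inferInstance
      rw [Q.card_eq_index_normalizer, eq_top_iff.2 (h0.le.trans bot_le : ⊤ ≤ normalizer (Q : Set G)), index_top]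
      exact hp.out.not_dvd_one
    have hc := (Nat.coprime_primes hp.out hq.out).2 hpq
    obtain ⟨N, hN, h1, h2⟩ : ∃ N : Subgroup G, N.Normal ∧ N ≠ ⊥ ∧
        ((Nat.card N).Coprime p ∨ (Nat.card N).Coprime q) := by
      rcases hs with hs | hs <;> obtain ⟨N, a, b, -, c | c⟩ := H18.isPSolvable_exists_normal_le hs ⊤ h0
      · obtain ⟨k, hk⟩ := c.exists_card_eq
        exact ⟨N, a, b, .inr (hk ▸ hc.pow_left k)⟩
      · exact ⟨N, a, b, .inl c⟩
      · obtain ⟨k, hk⟩ := c.exists_card_eq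
        exact ⟨N, a, b, .inl (hk ▸ hc.symm.pow_left k)⟩
      · exact ⟨N, a, b, .inr c⟩
    obtain ⟨Q, hQ⟩ : ∃ Q : Sylow q G, ¬ p ∣ (normalizer (Q : Set G)).relIndex N := by
      rcases h2 with h2 | h2
      · exact ⟨Sylow.nonempty.some, fun e => hp.out.coprime_iff_not_dvd.1 h2.symm
          (e.trans (relIndex_dvd_card _ _))⟩
      · exact cop N h2 h
    have hf := QuotientGroup.mk'_surjective N
    have h3 := ih _ (by
      rw [← hn, card_eq_card_quotient_mul_card_subgroup N]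
      exact lt_mul_of_one_lt_right Nat.card_pos (N.one_lt_card_iff_ne_bot.2 h1)) (G ⧸ N) rfl
      (hs.imp (H18.isPSolvable_quotient · N) (H18.isPSolvable_quotient · N)) fun Q' y hy e => by
        obtain ⟨Q, rfl⟩ := Sylow.mapSurjective_surjective hf q Q'
        obtain ⟨y, hy, rfl⟩ := hy
        refine h Q y hy (e.trans ?_)
        rw [ind, ← index_comap_of_surjective _ hf]
        exact index_dvd_of_le fun g hg => mem_cent_iff.2 (congrArg (QuotientGroup.mk' N) (mem_cent_iff.1 hg))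
    rw [(Q.mapSurjective hf).card_eq_index_normalizer, ← index_comap_of_surjective _ hf] at h3
    rw [Q.card_eq_index_normalizer, H19.index_eq_relIndex_mul_index_sup _ N]
    exact hp.out.not_dvd_mul hQ fun e => h3 (e.trans (index_dvd_of_le (frat Q N)))

/-- Let p and q be primes and G a finite group that is p-solvable or q-solvable, in which no q-element has conjugacy class size divisible by p. Then some Sylow p-subgroup of G normalizes some Sylow q-subgroup of G. -/
theorem result {G : Type*} [Group G] [Finite G] (p q : ℕ) [Fact p.Prime] [Fact q.Prime] (hsolv : Cfsg.IsPSolvable p G ∨ Cfsg.IsPSolvable q G)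
    (h : ∀ y : G, (∃ k : ℕ, orderOf y = q ^ k) → ¬ p ∣ (Subgroup.centralizer ({y} : Set G)).index) :
    ∃ (P : Sylow p G) (Q : Sylow q G), (P : Subgroup G) ≤ Subgroup.normalizer ((Q : Subgroup G) : Set G) := by
  obtain ⟨Q⟩ : Nonempty (Sylow q G) := inferInstance
  by_cases hpq : p = q
  · subst hpq
    exact ⟨Q, Q, le_normalizer⟩
  have := key hpq _ G rfl hsolv fun Q y hy => h y (by
    simpa using (IsPGroup.iff_orderOf.1 Q.isPGroup') ⟨y, hy⟩)
  rw [Q.card_eq_index_normalizer] at this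
  obtain ⟨P, -, hP⟩ := H26.exists_sylow_le_of_not_dvd_index IsPGroup.of_bot bot_le this
  exact ⟨P, Q, hP⟩

end Cfsg.Agent.S4601
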