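import Cfsg.Statements.S4604
import Cfsg.Agent.H35.GalB

set_option autoImplicit false
open Cfsg H28

namespace Cfsg.Agent.S4604

/-- Let G be a finite group, p a prime and p^a the p-part of the order of G. Let x, y ∈ G and let x′, y′ be their p-regular parts: x′ has order prime to p, commutes with x·x′⁻¹, and x·x′⁻¹ has p-power order (likewise for y). Then x′ and y′ are conjugate in G if and only if for every irreducible character χ of G the algebraic integer χ(x)^(p^a) − χ(y)^(p^a) is p times an algebraic integer. -/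
theorem result {G : Type*} [Group G] [Finite G] (p : ℕ) [Fact p.Prime] (x y x' y' : G)
    (hx : (∃ k : ℕ, orderOf (x * x'⁻¹) = p ^ k) ∧ Commute (x * x'⁻¹) x' ∧ ¬ p ∣ orderOf x')
    (hy : (∃ k : ℕ, orderOf (y * y'⁻¹) = p ^ k) ∧ Commute (y * y'⁻¹) y' ∧ ¬ p ∣ orderOf y') :
    IsConj x' y' ↔ ∀ χ : Cfsg.IrrCharacter G, ∃ γ : Cfsg.AlgInt,
      (χ : G → ℂ) x ^ (p ^ (Nat.card G).factorization p) - (χ : G → ℂ) y ^ (p ^ (Nat.card G).factorization p) = (p : ℂ) * (γ : ℂ) := by
  have hp : p.Prime := Fact.out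
  obtain ⟨M, hM⟩ := H35.exists_isPModular p hp
  have := hM.2.1
  set q := p ^ (Nat.card G).factorization p with hq
  have key : ∀ z z' : G, (∃ k : ℕ, orderOf (z * z'⁻¹) = p ^ k) → Commute (z * z'⁻¹) z' →
      z ^ q = z' ^ q := by
    rintro z z' ⟨k, hk⟩ hc
    have h1 : (z * z'⁻¹) ^ q = 1 := by
      rw [← orderOf_dvd_iff_pow_eq_one, hk]
      exact pow_dvd_pow _ ((hp.pow_dvd_iff_le_factorization Nat.card_pos.ne').1
        (hk ▸ orderOf_dvd_natCard _))
    rw [← one_mul (z' ^ q), ← h1, ← hc.mul_pow, inv_mul_cancel_right]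
  have hx' := key x x' hx.1 hx.2.1
  have hy' := key y y' hy.1 hy.2.1
  constructor
  · intro h χ
    obtain ⟨γ, hγ⟩ := H35.exists_char_pow_sub hp χ.2.isCharacter x ((Nat.card G).factorization p)
    obtain ⟨δ, hδ⟩ := H35.exists_char_pow_sub hp χ.2.isCharacter y ((Nat.card G).factorization p)
    refine ⟨γ - δ, ?_⟩
    rw [← hq, hx', χ.2.isClassFunction.eq_of_isConj (h.pow q)] at hγ
    rw [← hq, hy'] at hδ
    push_cast
    rw [mul_sub, ← hγ, ← hδ]; ring
  · intro h
    refine H35.isConj_of_char_congr hM hx.2.2 hy.2.2 fun χ => ?_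
    have := H35.charP_F hM
    have hc := χ.2.isCharacter
    obtain ⟨γ, hγ⟩ := h χ
    rw [← H35.red_eq_red_iff (H34.char_mem_S hc _) (H34.char_mem_S hc _)]
    apply (iterateFrobenius_inj (H35.F M) p ((Nat.card G).factorization p))
    simp only [iterateFrobenius_def]
    rw [← H35.red_char_pow hM hc, ← H35.red_char_pow hM hc, ← hq, ← hx', ← hy', hq,
      H35.red_char_pow hM hc, H35.red_char_pow hM hc, ← H35.red_pow (H34.char_mem_S hc _),
      ← H35.red_pow (H34.char_mem_S hc _), H35.red_eq_red_iff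
      ((H35.S M).pow_mem (H34.char_mem_S hc _) _) ((H35.S M).pow_mem (H34.char_mem_S hc _) _),
      ← hq, hγ]
    exact H35.P_mul_right (H35.P_p hM) (H35.algInt_mem_S γ)

end Cfsg.Agent.S4604
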