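import Cfsg.Statements.S4606
import Cfsg.Agent.H24.KSm4

set_option autoImplicit false
open Cfsg

namespace Cfsg.Agent.S4606

/-- Let G be a finite group, p a prime, M a maximal ideal of the algebraic integers containing p, and B a p-block of G with defect group D. Suppose the number of irreducible characters in B exceeds the p-regular rank of B (the number of irreducible Brauer characters in B) by exactly one. If B is the principal block, or if G is p-solvable, then D is elementary abelian. -/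
theorem result {G : Type*} [Group G] [Finite G] (p : ℕ) [Fact p.Prime] (M : Ideal Cfsg.AlgInt) (hM : Cfsg.IsPModular p M) (B : Set (Cfsg.IrrCharacter G)) (hB : Cfsg.IsPBlock M B) (D : Subgroup G) (hD : Cfsg.IsDefectGroup p M B D)
    (hk : Nat.card B = Cfsg.blockRank p B + 1) (hB0 : B = Cfsg.principalBlock M G ∨ Cfsg.IsPSolvable p G) :
    Cfsg.IsElementaryAbelian p D := by
  have := hM.2.1
  cases nonempty_fintype G
  refine ⟨⟨⟨fun x y => Subtype.ext ?_⟩⟩, fun a ha => H24.KS.pow_eq_one_of_conj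
    (H36.isPGroup_of_isDefectGroup hD) (H24.KS.conj_of_card hM hB hD hk) ha⟩
  obtain ⟨x, hx⟩ := x
  obtain ⟨y, hy⟩ := y
  show x * y = y * x
  rcases hB0 with rfl | hs
  · obtain ⟨P, rfl⟩ := (H36.isDefectGroup_principalBlock_iff hM).1 hD
    exact H24.KS.comm_of_oneCl P (H24.KS.npc_of_card hM P hk) (H24.KS.conj_of_card hM hB hD hk)
      hx hy
  revert D x y hk
  refine H38.fong_induction hM (C := fun G _ => IsPSolvable p G)
    (fun G _ _ T h => H18.isPSolvable_subgroup h T)
    (fun G _ _ h => H38.isPConstrained_of_isPSolvable h)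
    (motive := fun G _ B => ∀ D : Subgroup G, IsDefectGroup p M B D →
      Nat.card B = blockRank p B + 1 → ∀ x ∈ D, ∀ y ∈ D, x * y = y * x)
    (fun G _ _ _ θ hG hθ hB D hD hk x hx y hy => ?_)
    (fun G _ _ T B' B _ h ih P hP hk x hx y hy => ?_) hs hB
  · obtain ⟨S, rfl⟩ := H37.isSylowIn_top_iff.1
      ((H38.isDefectGroup_above_iff hM (H2.not_dvd_card_pPrimeCore p G) hθ hB).1 hD)
    exact H24.KS.comm_of_constrained (H38.isPConstrained_of_isPSolvable hG) S
      (H24.KS.conj_of_card hM hB hD hk) hx hy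
  · obtain ⟨D, hD⟩ := H34.exists_isDefectGroup p h.ind.1
    obtain ⟨c, rfl⟩ := H36.isDefectGroup_exists_conj hM h.ind.2.1 (h.defect D hD) hP
    obtain ⟨_, ⟨u, hu, rfl⟩, rfl⟩ := hx
    obtain ⟨_, ⟨v, hv, rfl⟩, rfl⟩ := hy
    obtain ⟨h1, h2⟩ := H24.KS.rank_eq_of_indBij hM h
    rw [← map_mul, ← map_mul, ← map_mul, ← map_mul, ih D hD (by rwa [← h1, ← h2]) u hu v hv]

end Cfsg.Agent.S4606
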