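import Cfsg.Statements.S4608
import Cfsg.Agent.H35.BasicAlg
import Cfsg.Agent.H35.KW
import Cfsg.Agent.H39.AbDef

set_option autoImplicit false
open Cfsg H28

namespace Cfsg.Agent.S4608

open Cfsg H28 H35 Finset in
theorem avg_ge {G : Type*} [Group G] [Fintype G] {M : Ideal AlgInt} [M.IsMaximal]
    (hM : IsPModular 2 M) {B : Set (IrrCharacter G)} {u : G} {C : Subgroup G} [Fintype C]
    (hu : H41.IsSec 2 u C) {b : Set (IrrCharacter C)} (hi : IsInducedBlock M C b B)
    (hd : blockDefect 2 b = blockDefect 2 B) {k : ℕ} (hk : u ^ (2 * 2 ^ k) = 1)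
    {χ : IrrCharacter G} (hχ : χ ∈ B) (h1 : blockHeight 2 B (χ : G → ℂ) = 1) :
    ((TT 2 (2 * 2 ^ k)).card : ℝ) * 4 ≤ ∑ t ∈ TT 2 (2 * 2 ^ k), (mcon 2 b u χ χ t).re := by
  have h := conSys_mcon hM hu hi hk
  have hχ' := mem_bF.2 hχ
  obtain ⟨r, h2, h3⟩ := exists_avg_two_re hM (h.cyc χ hχ' χ hχ') (fun t ht => h.real t ht χ hχ')
    (e := 1) (by
      rw [mcon_one, ← h1]
      exact QB_fsec_div_mem_S hM hu hd hχ (inV_fsec hM hi.1 _ _)
        (conj_fsec_mem_S hu χ.2.isCharacter))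
  obtain ⟨s, rfl⟩ := h3.1 (by
    rw [mcon_one, ← h1]
    exact (P_QB_fsec_div_iff hM hu hi hd hχ hχ).2 (by omega))
  have h4 : 0 < ∑ t ∈ TT 2 (2 * 2 ^ k), (mcon 2 b u χ χ t).re :=
    sum_pos' (fun t _ => QB_self_re_nonneg _) ⟨1, one_mem_TT hM.1 (by positivity), by
      rw [mcon_one]
      exact QB_self_re_pos hM.1 (mem_nzF.1 ((nzF_eq_of_major hM hu hi hd).symm ▸ hχ')).2⟩
  rw [h2] at h4 ⊢
  have h5 : (0 : ℝ) < (TT 2 (2 * 2 ^ k)).card := Nat.cast_pos.2 (card_TT_pos hM.1 (by positivity))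
  have h6 : (1 : ℝ) ≤ s := by
    have := (mul_pos_iff_of_pos_left h5).1 h4
    push_cast at this
    have h7 : (0 : ℝ) < s := by linarith
    exact_mod_cast h7
  push_cast
  nlinarith

open Cfsg H28 H35 H39 H36 Finset in
theorem not_ab {G : Type*} [Group G] [Fintype G] {M : Ideal AlgInt} [M.IsMaximal]
    (hM : IsPModular 2 M) {B : Set (IrrCharacter G)} (hB : IsPBlock M B) {P : Subgroup G}
    {e : MonoidAlgebra (F M) G} (hm : MaxP 2 ⊤ (H34.eB M B) P e) (hab : P ≤ Cen P)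
    (hP : Nat.card P = 8) (hl : blockRank 2 B = 1) (hk : Nat.card B = 5)
    {χ : IrrCharacter G} (hχ : χ ∈ B) (h1 : blockHeight 2 B (χ : G → ℂ) = 1) : False := by
  classical
  have := Fact.mk hM.1
  have := charP_F hM
  have := Fintype.ofFinite P
  have := fun v : G => Fintype.ofFinite (Cen (Subgroup.zpowers v))
  choose s1 b s2 s3 s4 using fun v : P => hm.exists_sec hM hB v.2
  have hD : ∀ v : P, IsDef 2 _ (eS M _ (b v)) P := fun v => by
    have h4 := hm.local_of_le_cen (hm.sub_subP' v.2)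
      (hab.trans (cen_anti (Subgroup.zpowers_le.2 v.2)))
    rw [top_inf_eq, ← s4] at h4
    exact h4.isDef
  have hd : ∀ v : P, 2 ^ blockDefect 2 (b v) = 8 := fun v =>
    (H41.isDef_card_eq hM (s3 v) (hD v)).symm.trans hP
  have hd' : ∀ v : P, blockDefect 2 (b v) = blockDefect 2 B := fun v =>
    Nat.pow_right_injective le_rfl ((hd v).trans (hP.symm.trans (hm.card_eq hM hB)))
  let w : G → ℝ := fun v => Nat.card (Cen (Subgroup.zpowers v)) /
    Nat.card {g // BMor 2 ⊤ P e (Subgroup.zpowers v) g}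
  have hw : ∀ v, 0 ≤ w v := fun v => by positivity
  have key : ∀ (v : P) t, ¬ 2 ∣ t → ∀ ψ : IrrCharacter G,
      mP 2 P e ψ ψ (v ^ t) = w v / 8 * mcon 2 (b v) v ψ ψ t := fun v t ht ψ => by
    have h5 := zpowers_pow_eq hM.1 (s1 v).ord ht
    rw [mP_eq hM ψ.2.isClassFunction ψ.2.isClassFunction (isSec_pow hM.1 (s1 v) ht) (s3 v)
      (h5.symm ▸ s4 v), h5, mcon, QB_apply, ← Nat.cast_pow, hd]
    simp only [w]
    push_cast
    ring
  have e1 : ∀ ψ ∈ B, ∑ v : P, mP 2 P e ψ.1 ψ.1 v = 1 := fun ψ hψ => by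
    rw [← hm.classInner_eq hM hB (inB_irr hψ) ψ.2.isClassFunction, ψ.2.classInner_self]
  have e2 : ∀ t ∈ TT 2 (2 * 2 ^ 2), ∑ v : P, w v / 8 * (mcon 2 (b v) v χ χ t).re = 1 :=
    fun t ht => by
      have ht := (mem_TT.1 ht).2
      have h2 := e1 χ hχ
      rw [← (powCoprime (G := P) (n := t) (hP ▸ (Nat.Coprime.pow_left 3
        ((Nat.Prime.coprime_iff_not_dvd hM.1).2 ht)))).sum_comp] at h2
      have h3 := congrArg Complex.re h2
      rw [Complex.re_sum] at h3
      refine Eq.trans (sum_congr rfl fun v _ => ?_) h3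
      have := key v t ht χ
      rw [← Subgroup.coe_pow] at this
      rw [powCoprime_apply, this, ← Complex.re_ofReal_mul]
      push_cast; rfl
  have e3 : ∑ v : P, w v ≤ 2 := by
    have h5 : (0 : ℝ) < (TT 2 (2 * 2 ^ 2)).card :=
      Nat.cast_pos.2 (card_TT_pos hM.1 (by positivity))
    have h2 := sum_congr rfl e2
    rw [sum_comm, sum_const, nsmul_eq_mul] at h2
    have h3 : ∑ v : P, w v / 8 * (((TT 2 (2 * 2 ^ 2)).card : ℝ) * 4) ≤ _ :=
      (sum_le_sum fun v _ => ?_).trans h2.le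
    · rw [← sum_mul, ← sum_div] at h3
      generalize ((TT 2 (2 * 2 ^ 2)).card : ℝ) = n at h3 h5
      nlinarith
    · rw [← mul_sum]
      refine mul_le_mul_of_nonneg_left (avg_ge hM (s1 v) (s2 v) (hd' v) ?_ hχ h1)
        (div_nonneg (hw v) (by norm_num))
      rw [show 2 * 2 ^ 2 = 8 by norm_num, ← hP, ← Subgroup.coe_pow, pow_card_eq_one',
        OneMemClass.coe_one]
  have e4 : ∀ v : P, ∑ ψ ∈ bF B, mP 2 P e ψ.1 ψ.1 v = w v * blockRank 2 (b v) := fun v => by
    have h2 := fun ψ => key v 1 (by norm_num) ψ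
    simp only [pow_one, mcon_one] at h2
    simp only [h2, ← mul_sum]
    rw [sum_QB_self hM (s1 v) (s2 v), ← Nat.cast_pow, hd]
    push_cast
    ring
  have e5 : ∑ v : P, w v * blockRank 2 (b v) = 5 := by
    have h2 := sum_congr rfl fun ψ (hψ : ψ ∈ bF B) => e1 ψ (mem_bF.1 hψ)
    rw [sum_comm, sum_const, card_bF, hk] at h2
    simp only [e4, nsmul_eq_mul, mul_one] at h2
    exact_mod_cast h2
  have e6 : w (1 : P) * blockRank 2 (b 1) = 1 := by
    have h2 := hm.sum_mP hM hab hB P.one_mem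
    rw [Subgroup.zpowers_one_eq_bot, cen_bot, hm.bk_top hM hB,
      blockRank_image, Subgroup.relIndex_top_left, hl, Nat.cast_one, div_one] at h2
    exact_mod_cast (e4 1).symm.trans h2
  have e7 : 1 ≤ w (1 : P) := by
    simp only [w]
    rw [one_le_div (Nat.cast_pos.2 (hm.card_bmor_pos (1 : P).2)), OneMemClass.coe_one,
      Subgroup.zpowers_one_eq_bot, cen_bot, Subgroup.card_top]
    exact_mod_cast Finite.card_subtype_le _
  have e8 : ∀ v : P, v ≠ 1 → blockRank 2 (b v) ≤ 3 := fun v hv => by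
    obtain ⟨Q, _, _, c, E, φ, h1, h2, -, -, h5, h6, -⟩ := exists_sec_quot hM (s1 v) (s2 v)
      ((isDefectGroup_subgroupOf_iff hM (s3 v) (hD v).le).2 (hD v))
    rw [Nat.card_congr (Subgroup.subgroupOfEquivOfLe (hD v).le).toEquiv, hP,
      card_defectGroup hM h1 h2] at h5
    have h7 : 2 ≤ orderOf (v : G) := by
      have := orderOf_pos (v : G)
      have : orderOf (v : G) ≠ 1 := fun h => hv (Subtype.ext (orderOf_eq_one_iff.1 h))
      omega
    have h8 : 2 ^ blockDefect 2 c ≤ 2 ^ 2 := by nlinarith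
    have h9 := (card_le_of_defect_le_two hM h1 ((Nat.pow_le_pow_iff_right one_lt_two).1 h8)).trans h8
    have h10 := blockRank_le_card (p := 2) (B := c)
    by_contra! h
    obtain ⟨ξ, hξ⟩ := IsPBlock.nonempty' h1
    have := (defect_zero_iff_card_eq_one hM h1).1 (defect_zero_of_vanish hM h1 hξ
      (pReg_eq_self_iff.1 (pReg_eq_self_of_card_eq_rank hM h1 (by omega) hξ)))
    omega
  rw [← add_sum_erase _ _ (mem_univ 1)] at e3 e5
  have e9 : ∑ v ∈ univ.erase (1 : P), w v * blockRank 2 (b v) ≤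
      (∑ v ∈ univ.erase (1 : P), w v) * 3 := by
    rw [sum_mul]
    exact sum_le_sum fun v hv => mul_le_mul_of_nonneg_left
      (by exact_mod_cast e8 v (ne_of_mem_erase hv)) (hw v)
  linarith

/-- Let G be a finite group, p a prime, M a maximal ideal of the algebraic integers containing p, and B a p-block of G with defect group D. If B has p-regular rank one and exactly five irreducible characters, then D is cyclic of order 5, or D has order 8 and is non-abelian (dihedral or quaternion). -/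
theorem result {G : Type*} [Group G] [Finite G] (p : ℕ) [Fact p.Prime] (M : Ideal Cfsg.AlgInt) (hM : Cfsg.IsPModular p M) (B : Set (Cfsg.IrrCharacter G)) (hB : Cfsg.IsPBlock M B) (D : Subgroup G) (hD : Cfsg.IsDefectGroup p M B D)
    (hl : Cfsg.blockRank p B = 1) (hk : Nat.card B = 5) :
    (Nat.card D = 5) ∨ (Nat.card D = 8 ∧ ¬ IsMulCommutative D) := by
  classical
  have := hM.2.1
  have := H35.charP_F hM
  have := Fintype.ofFinite G
  have hp := hM.1
  have hc := H35.card_defectGroup hM hB hD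
  have h1 := H35.pow_le_eight_of_le_five hM hB hl hk.le
  have h2 := H35.sum_rdeg_sq_of_rank_one hM hB hl
  have h3 : (H35.bF B).card = 5 := H35.card_bF.trans hk
  by_cases h : ∀ χ ∈ H35.bF B, H35.rdeg B χ.1 ^ 2 = 1
  · left
    rw [hc, ← h2, Finset.sum_congr rfl h, Finset.sum_const, h3]; rfl
  right
  push Not at h
  obtain ⟨χ, hχ, h⟩ := h
  have h4 := Finset.card_nsmul_le_sum ((H35.bF B).erase χ) (fun ψ => H35.rdeg B ψ.1 ^ 2) 1
    fun ψ hψ => Nat.one_le_pow _ _ (Nat.pos_of_ne_zero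
      (H35.rdeg_ne_zero (H35.mem_bF.1 (Finset.mem_of_mem_erase hψ))))
  rw [Finset.card_erase_of_mem hχ, h3, smul_eq_mul] at h4
  rw [← Finset.add_sum_erase _ _ hχ] at h2
  have h5 := H35.rdeg_ne_zero (H35.mem_bF.1 hχ)
  have h6 : H35.rdeg B χ.1 = 2 := by
    have : H35.rdeg B χ.1 ≤ 2 := by nlinarith
    interval_cases H35.rdeg B χ.1 <;> simp_all
  have h7 : p ^ blockDefect p B = 8 := by rw [h6] at h2; omega
  refine ⟨hc.trans h7, fun hab => ?_⟩
  obtain rfl : p = 2 := (Nat.prime_dvd_prime_iff_eq hp Nat.prime_two).1 (hp.dvd_of_dvd_pow (n := 3)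
    (by rw [show 2 ^ 3 = 8 by norm_num, ← h7]; exact dvd_pow_self p (by rintro h0; simp [h0] at h7)))
  obtain ⟨e, he⟩ := H39.exists_bp le_rfl (H39.blk_eB hB) (H36.isPGroup_of_isDefectGroup hD) le_top
    (H36.br_eB_ne_zero_of_le hM hB hD le_rfl)
  obtain ⟨b, hb, rfl⟩ := he.blk.exists_eS'
  have hab : D ≤ H39.Cen D := H39.le_cen_of_comm fun x hx y hy =>
    congrArg Subtype.val (hab.is_comm.comm (⟨x, hx⟩ : D) ⟨y, hy⟩)
  have hind := (H37.induced_iff_bp hM he.pQ hab hb hB).2 he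
  refine not_ab hM hB (H39.maxP_of_induced hM hD hind) hab (hc.trans h7) hl hk (H35.mem_bF.1 hχ) ?_
  rw [← H35.factorization_rdeg hp (H35.mem_bF.1 hχ), h6, Nat.prime_two.factorization_self]

end Cfsg.Agent.S4608
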