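import Cfsg.Statements.S4610
import Cfsg.Agent.H10.PrinPQ
import Cfsg.Agent.H4.Cover
import Cfsg.Agent.H4.Product
import Cfsg.Agent.H2.PrimeCore
-- import your own Cfsg.Agent.* helpers here

set_option autoImplicit false
open Cfsg

namespace Cfsg.Agent.S4610

/-- Let G be a finite group and p a prime dividing its order; fix for every prime r a maximal ideal M r of the algebraic integers containing r. Then, for every prime q ≠ p dividing the order of G, the principal p-block and the principal q-block of G have only the principal character in common, if and only if a Sylow p-subgroup P of G is normal and G is generated by P and its largest normal subgroup of order prime to p (that is, G is the direct product of P and that subgroup). -/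
theorem result {G : Type*} [Group G] [Finite G] (p : ℕ) [Fact p.Prime] (hp : p ∣ Nat.card G) (M : ℕ → Ideal Cfsg.AlgInt) (hM : ∀ r : ℕ, r.Prime → Cfsg.IsPModular r (M r)) (P : Sylow p G) :
    (∀ q : ℕ, q.Prime → q ≠ p → q ∣ Nat.card G →
        ∀ χ : Cfsg.IrrCharacter G, χ ∈ Cfsg.principalBlock (M p) G → χ ∈ Cfsg.principalBlock (M q) G → (χ : G → ℂ) = fun _ => 1) ↔
      ((P : Subgroup G).Normal ∧ (P : Subgroup G) ⊔ Cfsg.pPrimeCore p G = ⊤) := by
  have hpp : p.Prime := Fact.out
  constructor
  · intro h
    have hn : (P : Subgroup G).Normal := by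
      refine ⟨fun x hx g => ?_⟩
      have hx' : ∃ k : ℕ, orderOf x = p ^ k := by
        obtain ⟨k, hk⟩ := IsPGroup.iff_orderOf.1 P.isPGroup' ⟨x, hx⟩
        exact ⟨k, (Subgroup.orderOf_mk x hx).symm.trans hk⟩
      have hc : (P : Subgroup G).index.Coprime (Subgroup.centralizer ({x} : Set G)).index := by
        refine Nat.coprime_of_dvd fun q hq h1 h2 => ?_
        have hqp : q ≠ p := fun e => P.not_dvd_index (e ▸ h1)
        exact H10.PQ.not_dvd_index (hM p hpp) (hM q hq)
          (h q hq hqp (h1.trans (P : Subgroup G).index_dvd_card)) hx' h2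
      obtain ⟨u, hu, c, hc, rfl⟩ := H4.exists_mul_of_coprime_index hc g
      have h1 : c * x = x * c := Subgroup.mem_centralizer_singleton_iff.1 hc
      have h2 : u * c * x * (u * c)⁻¹ = u * x * u⁻¹ := by
        rw [mul_assoc u c x, h1]
        group
      rw [h2]
      exact mul_mem (mul_mem hu hx) (inv_mem hu)
    obtain ⟨H, h1, h2, h3, -⟩ := H4.exists_normal_compl_of_centralize P fun x hx =>
      H4.mem_of_forall_primePow_mem x fun e q k hq hqx hk => by
        have hqp : q ≠ p := fun e => hx (e ▸ hqx)
        have h4 := H10.PQ.not_dvd_index (hM q hq) (hM p hpp) (fun χ a b =>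
          h q hq hqp (hqx.trans (orderOf_dvd_natCard x)) χ b a) ⟨k, hk⟩
        exact H4.mem_centralizer_of_coprime_ind _ (P.isPGroup'.exists_card_eq.elim fun j hj => by
          rw [hj]
          exact ((Nat.Prime.coprime_iff_not_dvd hpp).mpr h4).pow_left j)
    refine ⟨hn, top_le_iff.1 ?_⟩
    rw [← h2.symm.sup_eq_top]
    exact sup_le_sup_left (H2.le_pPrimeCore_of_not_dvd h3) _
  · rintro ⟨hn, ht⟩ q hq hqp - χ h1 h2
    have := (hM p hpp).2.1
    have := (hM q hq).2.1
    refine (H28.Cfsg.IsIrrCharacter.charKer_eq_top_iff χ.2).1 (top_le_iff.1 ?_)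
    rw [← ht]
    refine sup_le (le_trans (H2.le_pPrimeCore ?_) (H37.pPrimeCore_le_charKer (hM q hq) h2))
      (H37.pPrimeCore_le_charKer (hM p hpp) h1)
    obtain ⟨j, hj⟩ := P.isPGroup'.exists_card_eq
    rw [hj]
    exact ((Nat.coprime_primes hpp hq).2 hqp.symm).pow_left j

end Cfsg.Agent.S4610
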