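import Cfsg.Agent.Base
import Cfsg.Agent.H2.MinNormal
import Cfsg.Agent.H18.PiCore
import Cfsg.Statements.S4620

set_option autoImplicit false
open scoped Pointwise
open Cfsg

namespace Cfsg.Agent.S4620

open Subgroup

structure TI (p : ℕ) (G : Type*) [Group G] : Prop where
  h1 : ∀ K : Subgroup G, K.Normal → IsPGroup p K → K = ⊥
  h2 : ∀ K : Subgroup G, K.Normal → ¬ p ∣ Nat.card K → K = ⊥
  ti : ∀ Q R : Sylow p G, ∀ x ∈ (Q : Subgroup G), x ∈ (R : Subgroup G) → x ≠ 1 → Q = R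

variable {G : Type*} [Group G] [Finite G] {p : ℕ} [hp : Fact p.Prime]

theorem TI.exists_elt (h : TI p G) {M : Subgroup G} (hM : M.Normal) (h0 : M ≠ ⊥) :
    ∃ x ∈ M, orderOf x = p := by
  obtain ⟨x, hx⟩ := exists_prime_orderOf_dvd_card' (G := M) p
    (by by_contra e; exact h0 (h.h2 M hM e))
  exact ⟨x, x.2, by rwa [Subgroup.orderOf_coe]⟩

omit [Finite G] hp in
theorem pg_zpowers {x : G} {k : ℕ} (h : x ^ p ^ k = 1) : IsPGroup p (zpowers x) := by
  rintro ⟨_, n, rfl⟩
  refine ⟨k, Subtype.ext ?_⟩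
  show (x ^ n) ^ p ^ k = 1
  rw [← zpow_natCast, ← zpow_mul, mul_comm, zpow_mul, zpow_natCast, h, one_zpow]

theorem TI.cent (h : TI p G) {M : Subgroup G} (hM : M.Normal) (h0 : M ≠ ⊥) :
    centralizer (M : Set G) = ⊥ := by
  by_contra hc
  obtain ⟨x, hx, ho⟩ := h.exists_elt inferInstance hc
  have x1 : x ≠ 1 := fun e => hp.out.one_lt.ne (by rw [← ho, e, orderOf_one])
  obtain ⟨Q, hQ⟩ := (pg_zpowers (k := 1) (by rw [pow_one, ← ho, pow_orderOf_eq_one]) :
    IsPGroup p (zpowers x)).exists_le_sylow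
  have hxQ : x ∈ (Q : Subgroup G) := hQ (mem_zpowers x)
  have key : ∀ y ∈ M, ∀ k : ℕ, y ^ p ^ k = 1 → y ∈ (Q : Subgroup G) := fun y hy k hk => by
    have h1 : y • Q = Q := h.ti _ _ x (by
      rw [Sylow.coe_subgroup_smul, mem_pointwise_smul_iff_inv_smul_mem]
      have : y⁻¹ * x * y = x := by
        rw [mem_centralizer_iff.1 hx _ (inv_mem hy), inv_mul_cancel_right]
      simpa [this] using hxQ) hxQ x1
    have h2 := IsPGroup.inf_normalizer_sylow (pg_zpowers hk) Q
    exact (mem_inf.1 (h2.le (mem_inf.2 ⟨mem_zpowers y, Sylow.smul_eq_iff_mem_normalizer.1 h1⟩))).2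
  have hn : ((Q : Subgroup G) ⊓ M).Normal := ⟨fun y hy g => by
    obtain ⟨k, hk⟩ := Q.isPGroup' ⟨y, (mem_inf.1 hy).1⟩
    have hk' : y ^ p ^ k = 1 := congrArg Subtype.val hk
    exact mem_inf.2 ⟨key _ (hM.conj_mem y (mem_inf.1 hy).2 g) k (by rw [conj_pow, hk']; group),
      hM.conj_mem y (mem_inf.1 hy).2 g⟩⟩
  obtain ⟨y, hy, hyo⟩ := h.exists_elt hM h0
  have : y ∈ (Q : Subgroup G) ⊓ M :=
    mem_inf.2 ⟨key y hy 1 (by rw [pow_one, ← hyo, pow_orderOf_eq_one]), hy⟩
  rw [h.h1 _ hn Q.isPGroup'.to_inf_left, mem_bot] at this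
  exact hp.out.one_lt.ne (by rw [← hyo, this, orderOf_one])

theorem TI.min (h : TI p G) [Nontrivial G] :
    ∃ N : Subgroup G, N.Normal ∧ N ≠ ⊥ ∧ ∀ K : Subgroup G, K.Normal → K ≠ ⊥ → N ≤ K := by
  obtain ⟨N, hN, h0, hm⟩ := H2.exists_minimal_normal G
  refine ⟨N, hN, h0, fun K hK hK0 => ?_⟩
  rcases hm (K ⊓ N) inferInstance inf_le_right with e | e
  · refine absurd (le_bot_iff.1 ?_) hK0
    rw [← h.cent hN h0]
    exact fun x hx => mem_centralizer_iff.2 fun y hy =>
      (commute_of_normal_of_disjoint K N hK hN (disjoint_iff.2 e) x y hx hy).symm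
  · exact e ▸ inf_le_left

theorem TI.sub (h : TI p G) {N : Subgroup G} [N.Normal] : TI p N where
  h1 := fun K hK hp' => by
    have h1 := h.h1 ((pCore p N).map N.subtype) inferInstance ((H18.isPGroup_pCore p).map _)
    rw [map_eq_bot_iff_of_injective _ N.subtype_injective] at h1
    exact le_bot_iff.1 (h1 ▸ H18.le_pCore hp')
  h2 := fun K hK hp' => by
    have h1 := h.h2 ((pPrimeCore p N).map N.subtype) inferInstance (by
      rw [card_map_of_injective N.subtype_injective]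
      exact (Nat.Prime.coprime_iff_not_dvd hp.out).1 (H18.coprime_card_pPrimeCore p).symm)
    rw [map_eq_bot_iff_of_injective _ N.subtype_injective] at h1
    exact le_bot_iff.1 (h1 ▸ H18.le_pPrimeCore ((Nat.Prime.coprime_iff_not_dvd hp.out).2 hp').symm)
  ti := fun Q R x hQ hR x1 => by
    obtain ⟨Q', e1⟩ := Q.exists_comap_subtype_eq
    obtain ⟨R', e2⟩ := R.exists_comap_subtype_eq
    have := h.ti Q' R' x (by rw [← e1] at hQ; exact hQ) (by rw [← e2] at hR; exact hR)
      fun e => x1 (Subtype.ext e)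
    exact Sylow.ext (by rw [← e1, ← e2, this])

/-- Let H be a finite group with no nontrivial normal p-subgroup and no nontrivial normal subgroup of order prime to p, whose Sylow p-subgroup P is nontrivial and a trivial-intersection set (P meets its conjugates by elements outside N_H(P) trivially). Then H has a unique minimal normal subgroup N; N is non-abelian simple with trivial centralizer in H (so H embeds in Aut(N)), and a Sylow p-subgroup of N is again a nontrivial trivial-intersection set in N. -/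
theorem result {H : Type*} [Group H] [Finite H] (p : ℕ) [Fact p.Prime] (hOp : Cfsg.pCore p H = ⊥) (hOp' : Cfsg.pPrimeCore p H = ⊥) (P : Sylow p H) (hP1 : (P : Subgroup H) ≠ ⊥)
    (hTI : ∀ g : H, g ∉ Subgroup.normalizer ((P : Subgroup H) : Set H) → (P : Subgroup H) ⊓ (MulAut.conj g • (P : Subgroup H)) = ⊥) :
    ∃ N : Subgroup H, N.Normal ∧ N ≠ ⊥ ∧ (∀ K : Subgroup H, K.Normal → K ≠ ⊥ → N ≤ K) ∧
      IsSimpleGroup N ∧ ¬ IsMulCommutative N ∧ Subgroup.centralizer (N : Set H) = ⊥ ∧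
      ∀ Q : Sylow p N, (Q : Subgroup N) ≠ ⊥ ∧
        ∀ n : N, n ∉ Subgroup.normalizer ((Q : Subgroup N) : Set N) → (Q : Subgroup N) ⊓ (MulAut.conj n • (Q : Subgroup N)) = ⊥ := by
  have h : TI p H := ⟨fun K hK h => le_bot_iff.1 (hOp ▸ H18.le_pCore h),
    fun K hK h => le_bot_iff.1 (hOp' ▸ H18.le_pPrimeCore
      ((Nat.Prime.coprime_iff_not_dvd Fact.out).2 h).symm), fun Q R x hQ hR x1 => by
    obtain ⟨a, rfl⟩ := MulAction.exists_smul_eq H P Q
    obtain ⟨b, rfl⟩ := MulAction.exists_smul_eq H P R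
    by_contra hne
    have h1 := hTI (a⁻¹ * b) fun e => hne (by
      have e' := Sylow.smul_eq_iff_mem_normalizer.2 e
      rw [mul_smul, inv_smul_eq_iff] at e'
      exact e'.symm)
    rw [Sylow.coe_subgroup_smul, mem_pointwise_smul_iff_inv_smul_mem] at hQ hR
    have h2 : a⁻¹ * x * a ∈ (P : Subgroup H) ⊓ MulAut.conj (a⁻¹ * b) • (P : Subgroup H) := by
      refine mem_inf.2 ⟨by simpa using hQ, ?_⟩
      rw [mem_pointwise_smul_iff_inv_smul_mem]
      simpa [mul_assoc] using hR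
    rw [h1, mem_bot] at h2
    exact x1 (by rw [show x = a * (a⁻¹ * x * a) * a⁻¹ by group, h2]; group)⟩
  have : Nontrivial H := by
    obtain ⟨⟨x, hx⟩, x1⟩ := ne_bot_iff_exists_ne_one.1 hP1
    exact ⟨x, 1, fun e => x1 (Subtype.ext e)⟩
  obtain ⟨N, hN, h0, hm⟩ := h.min
  have hc := h.cent hN h0
  have : Nontrivial N := (nontrivial_iff_ne_bot N).2 h0
  have h' : TI p N := h.sub
  refine ⟨N, hN, h0, hm, ⟨fun K hK => ?_⟩, fun e => h0 (le_bot_iff.1 ?_), hc, fun Q => ⟨?_, ?_⟩⟩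
  · obtain ⟨M, hM, hM0, hm'⟩ := h'.min
    have hch : M.Characteristic := characteristic_iff_le_map.2 fun φ =>
      hm' _ (hM.map _ φ.surjective) (by rwa [Ne, map_eq_bot_iff_of_injective _ φ.injective])
    have h1 := hm (M.map N.subtype) inferInstance
      (by rwa [Ne, map_eq_bot_iff_of_injective _ N.subtype_injective])
    refine (em _).imp_right fun e => top_le_iff.1 fun x _ => hm' K hK e ?_
    obtain ⟨y, hy, e⟩ := h1 x.2
    exact Subtype.ext e ▸ hy
  · rw [← hc]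
    exact fun x hx => mem_centralizer_iff.2 fun y hy =>
      congrArg Subtype.val (e.is_comm.comm ⟨y, hy⟩ ⟨x, hx⟩)
  · exact Q.ne_bot_of_dvd_card (by by_contra e; exact h0 (h.h2 N hN e))
  · intro n hn
    rw [eq_bot_iff]
    intro x hx
    by_contra x1
    exact hn (Sylow.smul_eq_iff_mem_normalizer.1
      (h'.ti Q (n • Q) x (mem_inf.1 hx).1 (mem_inf.1 hx).2 x1).symm)

end Cfsg.Agent.S4620
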