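import Cfsg.Statements.S4630
import Cfsg.Agent.H86.CFOrth

set_option autoImplicit false
open Cfsg

namespace Cfsg.Agent.S4630

/-- Let F be a finite field of odd order and m ≥ 1 with m even or m ≥ 4. For the commutator subgroup Ω of the isometry group of the plus-type quadratic form Σ_{i<m} x_i y_i in dimension 2m over F, a Sylow 2-subgroup P of Ω has P/P' elementary abelian: the square of every element of P lies in the derived subgroup of P. -/
theorem result {F : Type*} [Field F] [Fintype F] (hF : Odd (Fintype.card F)) (m : ℕ) (hm : 1 ≤ m) (hm' : Even m ∨ 4 ≤ m) (P : Sylow 2 (Cfsg.Omega F (Cfsg.quadFormPlus m F))) : ∀ x : (P : Subgroup (Cfsg.Omega F (Cfsg.quadFormPlus m F))), x ^ 2 ∈ commutator (P : Subgroup (Cfsg.Omega F (Cfsg.quadFormPlus m F))) := by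
  have h2 : 2 ≤ m := by
    rcases hm' with ⟨k, hk⟩ | h <;> omega
  exact H86.powC_iff.1 ((H86.ea_omega hF (H58.qPlus_nondeg m F)
    (by simp; omega)).of_equiv (H56.omegaEquiv _ (H58.coe_qPlus m F)).symm P)

end Cfsg.Agent.S4630
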