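import Cfsg.Statements.S4733
import Cfsg.Agent.H35.BSpan

set_option autoImplicit false
open Cfsg H28

namespace Cfsg.Agent.S4733

/-- Let p be a prime, M a maximal ideal of the algebraic integers containing p, and B a p-block of the finite group G with k irreducible characters and p-regular rank l (the number of irreducible Brauer characters). Then l ≤ k, and the following are equivalent: B has defect 0; k = l = 1; k = l. -/
theorem result {G : Type*} [Group G] [Finite G] (p : ℕ) [Fact p.Prime] (M : Ideal Cfsg.AlgInt) (hM : Cfsg.IsPModular p M) (B : Set (Cfsg.IrrCharacter G)) (hB : Cfsg.IsPBlock M B) : Cfsg.blockRank p B ≤ Nat.card B ∧ (Cfsg.blockDefect p B = 0 ↔ (Nat.card B = 1 ∧ Cfsg.blockRank p B = 1)) ∧ (Cfsg.blockDefect p B = 0 ↔ Nat.card B = Cfsg.blockRank p B) := by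
  have := Fintype.ofFinite G
  have := hM.2.1
  have hpos := H35.blockRank_pos hM.1 (H35.IsPBlock.nonempty' hB)
  have hle : Cfsg.blockRank p B ≤ Nat.card B := H35.blockRank_le_card
  have h1 := H35.defect_zero_iff_card_eq_one hM hB
  refine ⟨hle, ⟨fun h => ⟨h1.1 h, by have := h1.1 h; omega⟩, fun h => h1.2 h.1⟩,
    fun h => by have := h1.1 h; omega, fun h => ?_⟩
  obtain ⟨χ, hχ⟩ := H35.IsPBlock.nonempty' hB
  exact H35.defect_zero_of_vanish hM hB hχ
    (H35.pReg_eq_self_iff.1 (H35.pReg_eq_self_of_card_eq_rank hM hB h hχ))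

end Cfsg.Agent.S4733
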