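import Cfsg.Statements.S4742
import Cfsg.Agent.H36.Robinson2

set_option autoImplicit false
open Cfsg

namespace Cfsg.Agent.S4742

/-- Let p ≠ q be primes dividing the order of the finite group G, and suppose the centralizer of every non-identity p-element of G has order prime to q. Then either G has an irreducible character of p-defect zero, or for every non-identity q-element z of G there are conjugates g, h of z such that g h⁻¹ is a non-identity p-element. -/
theorem result {G : Type*} [Group G] [Finite G] (p q : ℕ) [Fact p.Prime] [Fact q.Prime] (hppq : p ≠ q) (hpG : p ∣ Nat.card G) (hqG : q ∣ Nat.card G) (hC : ∀ g : G, g ≠ 1 → (∃ k : ℕ, orderOf g = p ^ k) → ¬ q ∣ Nat.card ↥(Subgroup.centralizer ({g} : Set G))) : (∃ χ : Cfsg.IrrCharacter G, (Cfsg.charDegree (χ : G → ℂ)).factorization p = (Nat.card G).factorization p) ∨ ∀ z : G, z ≠ 1 → (∃ k : ℕ, orderOf z = q ^ k) → ∃ g h : G, IsConj z g ∧ IsConj z h ∧ g * h⁻¹ ≠ 1 ∧ ∃ k : ℕ, orderOf (g * h⁻¹) = p ^ k := by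
  rw [or_iff_not_imp_right]
  intro h
  push Not at h
  obtain ⟨z, hz1, ⟨k, hk⟩, h⟩ := h
  refine H36.exists_defect_zero_of_separated Fact.out (x := z) (fun hd => ?_)
    fun u v hu hv ⟨n, hn⟩ => ?_
  · obtain ⟨g, hg⟩ := exists_prime_orderOf_dvd_card' p hd
    rw [← Subgroup.orderOf_coe] at hg
    refine hC g (fun h1 => (Fact.out : p.Prime).ne_one (by rw [← hg, h1, orderOf_one]))
      ⟨1, by rw [hg, pow_one]⟩ ?_
    have hzg : z ∈ Subgroup.centralizer ({(g : G)} : Set G) :=
      Subgroup.mem_centralizer_singleton_iff.2 (Subgroup.mem_centralizer_singleton_iff.1 g.2).symm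
    refine dvd_trans ?_ (Subgroup.orderOf_dvd_natCard _ hzg)
    rw [hk]
    refine dvd_pow_self q ?_
    rintro rfl
    exact hz1 (orderOf_eq_one_iff.1 (by simpa using hk))
  · by_contra hne
    exact h v u hv hu (fun h1 => hne (mul_inv_eq_one.1 h1)) n hn

end Cfsg.Agent.S4742
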