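import Cfsg.Statements.S4746
import Cfsg.Agent.H36.Invol

set_option autoImplicit false
open Cfsg

namespace Cfsg.Agent.S4746

theorem sq_sum {ι R : Type*} [CommRing R] (s : Finset ι) (a : ι → R) :
    ∃ w, (∑ i ∈ s, a i) ^ 2 = ∑ i ∈ s, a i ^ 2 + 2 * w := by
  classical
  induction s using Finset.induction_on with
  | empty => exact ⟨0, by simp⟩
  | insert i s hi ih =>
    obtain ⟨w, hw⟩ := ih
    exact ⟨w + a i * ∑ i ∈ s, a i, by
      rw [Finset.sum_insert hi, Finset.sum_insert hi]; linear_combination hw⟩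

/-- Let p be an odd prime and G a finite group of even order divisible by p in which the centralizer of every non-identity p-element has odd order. Then G has an irreducible character of p-defect zero or an irreducible character of even degree. -/
theorem result {G : Type*} [Group G] [Finite G] (p : ℕ) [Fact p.Prime] (hp2 : p ≠ 2) (hpG : p ∣ Nat.card G) (h2G : 2 ∣ Nat.card G) (hC : ∀ g : G, g ≠ 1 → (∃ k : ℕ, orderOf g = p ^ k) → Odd (Nat.card ↥(Subgroup.centralizer ({g} : Set G)))) : (∃ χ : Cfsg.IrrCharacter G, (Cfsg.charDegree (χ : G → ℂ)).factorization p = (Nat.card G).factorization p) ∨ ∃ χ : Cfsg.IrrCharacter G, Even (Cfsg.charDegree (χ : G → ℂ)) := by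
  by_contra hcon
  obtain ⟨hno, hodd⟩ := not_or.1 hcon
  simp only [not_exists, Nat.not_even_iff_odd] at hodd
  obtain ⟨t, ht⟩ := exists_prime_orderOf_dvd_card' 2 h2G
  obtain ⟨P⟩ : Nonempty (Sylow p G) := inferInstance
  obtain ⟨s, -, hs⟩ := H36.OddCen.exists_conj_inverts hC hno ht P
  obtain ⟨⟨u, hu⟩, hu1⟩ := Subgroup.ne_bot_iff_exists_ne_one.1
    (H36.sylow_ne_bot_of_no_defect_zero hno P)
  have hu1' : u ≠ 1 := fun e => hu1 (Subtype.ext e)
  obtain ⟨c, hc⟩ := hC u hu1' (H36.exists_orderOf_of_mem P.isPGroup' hu)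
  have hch := fun χ : IrrCharacter G => H28.Cfsg.IsIrrCharacter.isCharacter χ.2
  let a : IrrCharacter G → integralClosure ℤ ℂ := fun χ =>
    ⟨(χ : G → ℂ) u, H28.Cfsg.IsCharacter.isIntegral (hch χ) u⟩
  choose k hk using hodd
  obtain ⟨w, hw⟩ := sq_sum Finset.univ a
  have h1 := H28.column_orthogonality_of_isConj (IsConj.refl u)
  have h2 := H28.sum_degree_mul_apply_of_ne_one hu1'
  simp only [← H28.Cfsg.IsCharacter.apply_inv (hch _), ← hs u hu,
    H28.Cfsg.IsClassFunction.apply_conj (H28.Cfsg.IsCharacter.isClassFunction (hch _)), hc,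
    ← pow_two] at h1
  simp only [← H35.coe_deg, hk] at h2
  have h3 := congrArg Subtype.val hw
  set b : integralClosure ℤ ℂ := ∑ χ, k χ * a χ with hb
  have h4 : ∑ χ : IrrCharacter G, (χ : G → ℂ) u = -2 * (b : ℂ) := by
    rw [hb, eq_comm, neg_mul, neg_eq_iff_add_eq_zero, ← h2]
    push_cast
    rw [Finset.mul_sum, ← Finset.sum_add_distrib]
    exact Finset.sum_congr rfl fun χ _ => by simp only [a]; ring
  push_cast at h3 h1
  simp only [a] at h3
  rw [h1, h4] at h3
  have h5 : IsIntegral ℤ (algebraMap ℚ ℂ (1 / 2)) := by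
    have h6 : algebraMap ℚ ℂ (1 / 2) = ((2 * b ^ 2 - w - c : integralClosure ℤ ℂ) : ℂ) := by
      have : ((2 : integralClosure ℤ ℂ) : ℂ) = 2 := rfl
      push_cast
      simp only [map_div₀, map_one, map_ofNat, this] at h3 ⊢
      linear_combination (-1 / 2 : ℂ) * h3
    exact h6 ▸ (2 * b ^ 2 - w - c : integralClosure ℤ ℂ).2
  obtain ⟨z, hz⟩ := IsIntegrallyClosed.isIntegral_iff.1
    ((isIntegral_algebraMap_iff (algebraMap ℚ ℂ).injective).1 h5)
  have : (2 * z : ℤ) = 1 := by
    have h6 : (2 * z : ℚ) = 1 := by rw [show (z : ℚ) = 1 / 2 from hz]; norm_num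
    exact_mod_cast h6
  omega

end Cfsg.Agent.S4746
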