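import Cfsg.Statements.S4750
import Cfsg.Agent.H40.TIDeg

set_option autoImplicit false
open scoped Pointwise
open Cfsg

namespace Cfsg.Agent.S4750

/-- Let P be a Sylow p-subgroup of the finite group G that meets each conjugate g P g⁻¹ with g outside N_G(P) trivially, χ a character of G with χ(1)² ≤ |P|, and H a subgroup of G containing N_G(P). Then the inner product of χ with itself over G equals the inner product over H of the restriction of χ to H. -/
theorem result {G : Type*} [Group G] [Fintype G] [DecidableEq G] (p : ℕ) [Fact p.Prime] (P : Sylow p G) (hTI : ∀ g : G, g ∉ Subgroup.normalizer ((P : Subgroup G) : Set G) → (P : Subgroup G) ⊓ (MulAut.conj g • (P : Subgroup G)) = ⊥) (χ : G → ℂ) (hχ : Cfsg.IsCharacter G χ) (hdeg : Cfsg.charDegree χ ^ 2 ≤ Nat.card ↥(P : Subgroup G)) (H : Subgroup G) [Fintype ↥H] (hH : Subgroup.normalizer ((P : Subgroup G) : Set G) ≤ H) : Cfsg.classInner χ χ = Cfsg.classInner (fun h : ↥H => χ h) (fun h : ↥H => χ h) := by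
  have hPH : (P : Subgroup G) ≤ H := Subgroup.le_normalizer.trans hH
  refine H40.classInner_self_eq_restrict_of_free P.isPGroup' hPH (fun x hx g hg hxg => ?_) hχ hdeg
  obtain ⟨k, hk⟩ := P.isPGroup' ⟨x, hx⟩
  have hk' : x ^ p ^ k = 1 := congrArg Subtype.val hk
  obtain ⟨c, hc, h1⟩ := H28.exists_conj_mem_of_not_dvd_relIndex (p := p) (X := (P : Subgroup G))
    (H := H) (fun h => P.not_dvd_index (h.trans (Subgroup.relIndex_dvd_index_of_le hPH))) hxg
    (k := k) (by rw [show g⁻¹ * x * g = g⁻¹ * x * g⁻¹⁻¹ by rw [inv_inv], conj_pow, hk']; simp)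
  have h2 := hTI (g * c⁻¹) fun h => hg ((H.mul_mem_cancel_right (H.inv_mem hc)).1 (hH h))
  rw [← Subgroup.mem_bot, ← h2]
  refine Subgroup.mem_inf.2 ⟨hx, ?_⟩
  rw [Subgroup.mem_pointwise_smul_iff_inv_smul_mem]
  simpa [mul_assoc] using h1

end Cfsg.Agent.S4750
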