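import Cfsg.Statements.S4755
import Cfsg.Agent.H40.ClassProd

set_option autoImplicit false
open Cfsg

namespace Cfsg.Agent.S4755

/-- Let x, y be non-identity elements of the finite group G such that χ(x' y') = χ(x') χ(y') for all conjugates x' of x, y' of y and every irreducible character χ. Then the conjugacy class of x y is the set of all products of a conjugate of x with a conjugate of y; every irreducible character of degree greater than 1 vanishes at x y; and the conjugacy class of x y is the coset of the commutator subgroup containing x y. -/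
theorem result {G : Type*} [Group G] [Finite G] (x y : G) (hx : x ≠ 1) (hy : y ≠ 1) (h : ∀ (a b : G) (χ : Cfsg.IrrCharacter G), (χ : G → ℂ) (a * x * a⁻¹ * (b * y * b⁻¹)) = (χ : G → ℂ) (a * x * a⁻¹) * (χ : G → ℂ) (b * y * b⁻¹)) : (∀ z : G, IsConj (x * y) z ↔ ∃ a b : G, z = a * x * a⁻¹ * (b * y * b⁻¹)) ∧ (∀ χ : Cfsg.IrrCharacter G, (χ : G → ℂ) 1 ≠ 1 → (χ : G → ℂ) (x * y) = 0) ∧ (∀ z : G, IsConj (x * y) z ↔ (x * y)⁻¹ * z ∈ commutator G) := by
  have hcl : ∀ χ : Cfsg.IrrCharacter G, Cfsg.IsClassFunction G (χ : G → ℂ) := fun χ =>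
    H28.Cfsg.IsIrrCharacter.isClassFunction χ.2
  have h' : ∀ (a b : G) (χ : Cfsg.IrrCharacter G),
      (χ : G → ℂ) (a * x * a⁻¹ * (b * y * b⁻¹)) = (χ : G → ℂ) x * (χ : G → ℂ) y := fun a b χ => by
    rw [h, hcl χ x a, hcl χ y b]
  have hxy : ∀ χ : Cfsg.IrrCharacter G, (χ : G → ℂ) (x * y) = (χ : G → ℂ) x * (χ : G → ℂ) y :=
    fun χ => by simpa using h' 1 1 χ
  have h1 : ∀ z : G, IsConj (x * y) z ↔ ∃ a b : G, z = a * x * a⁻¹ * (b * y * b⁻¹) := by
    intro z
    constructor
    · intro hz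
      obtain ⟨c, rfl⟩ := isConj_iff.1 hz
      exact ⟨c, c, by group⟩
    · rintro ⟨a, b, rfl⟩
      exact H28.isConj_iff_irr.2 fun χ => by rw [h', hxy]
  have h2 : ∀ χ : Cfsg.IrrCharacter G, (χ : G → ℂ) 1 ≠ 1 → (χ : G → ℂ) (x * y) = 0 := by
    intro χ hχ
    have h3 := (H40.class_prod_iff x y).1 h1 1 1 χ
    rw [h', ← hxy] at h3
    have h4 : ((χ : G → ℂ) 1 - 1) * (χ : G → ℂ) (x * y) = 0 := by linear_combination h3
    exact (mul_eq_zero.1 h4).resolve_left (sub_ne_zero.2 hχ)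
  refine ⟨h1, h2, fun z => ⟨fun hz => ?_, fun hz => ?_⟩⟩
  · obtain ⟨c, rfl⟩ := isConj_iff.1 hz
    have := Subgroup.commutator_mem_commutator (Subgroup.mem_top (x * y)⁻¹) (Subgroup.mem_top c)
    rw [commutatorElement_def, inv_inv] at this
    rw [commutator_def]
    convert this using 1
    group
  · refine H40.isConj_of_forall_irr_zero_or fun χ => ?_
    by_cases hχ : (χ : G → ℂ) 1 = 1
    · right
      have h5 := H28.Cfsg.IsCharacter.commutator_le_charKer
        (H28.Cfsg.IsIrrCharacter.isCharacter χ.2) hχ hz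
      have h6 := H28.Cfsg.IsClassFunction.apply_mul_of_mem_charKer (hcl χ) h5 (x * y)
      rwa [mul_inv_cancel_left] at h6
    · exact Or.inl (h2 χ hχ)

end Cfsg.Agent.S4755
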