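import Cfsg.Statements.S4756
import Cfsg.Agent.H73.RealE

set_option autoImplicit false
open Cfsg

namespace Cfsg.Agent.S4756

/-- For a finite group G the following are equivalent. (1) χ(x y) = χ(x) χ(y) for every irreducible character χ and all non-identity elements x, y of prime power orders for two different primes. (2) G is a p-group for some prime p, or G is abelian, or for some prime p: G = A P with P a normal Sylow p-subgroup and A a nontrivial cyclic subgroup of order prime to p such that, with C = C_P(A) and D = [A, P], one has P = C D, C abelian, D normal in G, C ∩ D = 1, and A acts fixed-point-freely on D (no non-identity element of A centralizes a non-identity element of D). -/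
theorem result {G : Type*} [Group G] [Finite G] : (∀ (x y : G) (χ : Cfsg.IrrCharacter G), x ≠ 1 → y ≠ 1 → (∃ p q a b : ℕ, p.Prime ∧ q.Prime ∧ p ≠ q ∧ orderOf x = p ^ a ∧ orderOf y = q ^ b) → (χ : G → ℂ) (x * y) = (χ : G → ℂ) x * (χ : G → ℂ) y) ↔ ((∃ p : ℕ, p.Prime ∧ IsPGroup p G) ∨ IsMulCommutative G ∨ ∃ (p : ℕ) (_ : Fact p.Prime) (P : Sylow p G) (A : Subgroup G), (P : Subgroup G).Normal ∧ IsCyclic ↥A ∧ A ≠ ⊥ ∧ (Nat.card ↥A).Coprime p ∧ A ⊔ (P : Subgroup G) = ⊤ ∧ IsMulCommutative ↥((P : Subgroup G) ⊓ Subgroup.centralizer (A : Set G)) ∧ (⁅A, (P : Subgroup G)⁆).Normal ∧ ((P : Subgroup G) ⊓ Subgroup.centralizer (A : Set G)) ⊔ ⁅A, (P : Subgroup G)⁆ = (P : Subgroup G) ∧ ((P : Subgroup G) ⊓ Subgroup.centralizer (A : Set G)) ⊓ ⁅A, (P : Subgroup G)⁆ = ⊥ ∧ ∀ a ∈ A, a ≠ 1 → ∀ d ∈ ⁅A, (P : Subgroup G)⁆, a * d = d * a → d = 1) := by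
  constructor
  · intro h
    by_cases hna : IsMulCommutative G
    · exact Or.inr (Or.inl hna)
    obtain ⟨p, hp, h1⟩ := H73.REE.forward h hna
    by_cases hG : IsPGroup p G
    · exact Or.inl ⟨p, hp, hG⟩
    haveI := Fact.mk hp
    exact Or.inr (Or.inr ⟨p, inferInstance, H73.REE.structure_of hna hG h1⟩)
  · rintro h x y χ hx hy ⟨r, s, a, b, hr, hs, hrs, ha, hb⟩
    rcases h with ⟨p, hp, hG⟩ | hG | ⟨p, hp, P, A, hP, hA, -, -, hsup, hC, hD, hCD, -, hf⟩
    · exact absurd ((H73.REE.eq_of_pelt hp hr hx (hG x) ha).trans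
        (H73.REE.eq_of_pelt hp hs hy (hG y) hb).symm) hrs
    · exact H28.Cfsg.IsCharacter.map_mul_of_degree_one (H28.Cfsg.IsIrrCharacter.isCharacter χ.2)
        (H28.Cfsg.IsIrrCharacter.apply_one_of_comm χ.2 hG.is_comm.comm) x y
    by_cases h1 : (χ : G → ℂ) 1 = 1
    · exact H28.Cfsg.IsCharacter.map_mul_of_degree_one (H28.Cfsg.IsIrrCharacter.isCharacter χ.2) h1 x y
    have hz := fun g hg => H73.REE.backward P A hP hA hsup hC hD hCD hf χ.2 h1 (g := g) hg
    have hpe : ∀ g ∈ (P : Subgroup G), ∃ k, g ^ p ^ k = 1 := fun g hg => by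
      obtain ⟨k, hk⟩ := P.isPGroup' ⟨g, hg⟩
      exact ⟨k, congrArg Subtype.val hk⟩
    have hnb : x ∈ (P : Subgroup G) → y ∈ (P : Subgroup G) → False := fun h2 h3 =>
      hrs ((H73.REE.eq_of_pelt hp.out hr hx (hpe x h2) ha).trans
        (H73.REE.eq_of_pelt hp.out hs hy (hpe y h3) hb).symm)
    have hxy : x * y ∉ (P : Subgroup G) := fun h2 => by
      have e : (x : G ⧸ (P : Subgroup G)) = (y : G ⧸ (P : Subgroup G))⁻¹ := by
        rw [eq_inv_iff_mul_eq_one, ← QuotientGroup.mk_mul, QuotientGroup.eq_one_iff]; exact h2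
      have d1 : orderOf (x : G ⧸ (P : Subgroup G)) ∣ r ^ a :=
        ha ▸ orderOf_map_dvd (QuotientGroup.mk' (P : Subgroup G)) x
      have d2 : orderOf (x : G ⧸ (P : Subgroup G)) ∣ s ^ b := by
        rw [e, orderOf_inv]
        exact hb ▸ orderOf_map_dvd (QuotientGroup.mk' (P : Subgroup G)) y
      have d3 := Nat.dvd_gcd d1 d2
      rw [(Nat.coprime_pow_primes a b hr hs hrs).gcd_eq_one, Nat.dvd_one, orderOf_eq_one_iff,
        QuotientGroup.eq_one_iff] at d3
      exact hnb d3 ((Subgroup.mul_mem_cancel_left _ d3).1 h2)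
    rw [hz _ hxy]
    by_cases h2 : x ∈ (P : Subgroup G)
    · rw [hz y (hnb h2), mul_zero]
    · rw [hz x h2, zero_mul]

end Cfsg.Agent.S4756
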