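import Cfsg.Agent.Base
import Cfsg.Agent.H2.Fitting
import Cfsg.Agent.H2.PrimeCore
import Cfsg.Agent.H9.ZModProd
import Cfsg.Agent.H9.Cube
import Cfsg.Agent.H27.Extra
import Cfsg.Agent.H29.PGroupChar
import Cfsg.Agent.H28.CharProd
import Cfsg.Agent.H28.Degree
import Cfsg.Agent.H18.PiCore
import Cfsg.Statements.S4762

set_option autoImplicit false
open Cfsg

namespace Cfsg.Agent.S4762

open H28

theorem isPGroup_of {G : Type*} [Group G] [Finite G] [Group.IsNilpotent G] (p : ℕ)
    [hp : Fact p.Prime]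
    (h : Nat.card {χ : IrrCharacter G // p ∣ charDegree (χ : G → ℂ)} = 1) : IsPGroup p G := by
  obtain ⟨hs, ⟨χ, hχ⟩⟩ := Nat.card_eq_one_iff_unique.1 h
  obtain ⟨e⟩ := H9.nonempty_equiv_prod (H := pCore p G) (K := pPrimeCore p G)
    (fun x hx y hy => (Subgroup.mem_centralizer_iff.1
      (H2.pCore_le_centralizer_pPrimeCore p G hx) y hy).symm)
    (H2.disjoint_pCore_pPrimeCore p G).eq_bot (H2.pCore_sup_pPrimeCore_eq_top p)
  obtain ⟨φ, ψ, hφ, hψ, hθ⟩ := (χ.2.comp_mulEquiv e.symm).exists_prod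
  have hd : charDegree (χ : G → ℂ) = charDegree φ * charDegree ψ := by
    have h1 := congrFun hθ 1
    simp only [map_one, Prod.fst_one, Prod.snd_one] at h1
    apply charDegree_eq
    rw [h1, Nat.cast_mul, hφ.cast_charDegree, hψ.cast_charDegree]
  have hpφ : p ∣ charDegree φ := by
    rw [hd] at hχ
    refine (hp.out.dvd_mul.1 hχ).resolve_right fun h2 => ?_
    exact H2.not_dvd_card_pPrimeCore p G (h2.trans hψ.charDegree_dvd_card)
  have key : ∀ ψ', IsIrrCharacter (pPrimeCore p G) ψ' →
      (fun g => φ (e g).1 * ψ' (e g).2) = (χ : G → ℂ) := fun ψ' hψ' => by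
    have h1 := (hφ.prod hψ').comp_mulEquiv e
    have h2 : p ∣ charDegree (fun g => φ (e g).1 * ψ' (e g).2) := by
      rw [charDegree_eq (n := charDegree φ * charDegree ψ')
        (by simp [hφ.cast_charDegree, hψ'.cast_charDegree])]
      exact hpφ.mul_right _
    exact congrArg (fun x => x.1.1) (hs.elim ⟨⟨_, h1⟩, h2⟩ ⟨χ, hχ⟩)
  have hK : pPrimeCore p G = ⊥ := by
    rw [eq_bot_iff]
    intro k hk
    have : (⟨k, hk⟩ : pPrimeCore p G) = 1 := eq_one_of_forall_irr fun ψ' hψ' => by
      have h1 := (key ψ' hψ').trans (key _ isIrrCharacter_one).symm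
      have h2 := congrFun h1 (e.symm (1, ⟨k, hk⟩))
      have h3 := congrFun h1 1
      simp only [MulEquiv.apply_symm_apply, map_one, Prod.fst_one, Prod.snd_one] at h2 h3
      exact mul_left_cancel₀ hφ.apply_one_ne_zero (h2.trans h3.symm)
    exact congrArg Subtype.val this
  have ht := H2.pCore_sup_pPrimeCore_eq_top (G := G) p
  rw [hK, sup_bot_eq] at ht
  have := H18.isPGroup_pCore (G := G) p
  rw [ht] at this
  exact this.of_equiv Subgroup.topEquiv

theorem dvd_iff {G : Type*} [Group G] [Finite G] {p : ℕ} [hp : Fact p.Prime] (hG : IsPGroup p G)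
    {χ : G → ℂ} (hχ : IsIrrCharacter G χ) : p ∣ charDegree χ ↔ χ 1 ≠ 1 := by
  obtain ⟨k, hk⟩ := hχ.exists_pow_charDegree hG
  rw [Ne, ← hχ.isCharacter.charDegree_eq_one_iff, hk]
  rcases k with _ | k
  · simp [hp.out.ne_one]
  · exact iff_of_true (dvd_pow_self p k.succ_ne_zero) (Nat.one_lt_pow k.succ_ne_zero hp.out.one_lt).ne'

/-- Let p be a prime and G a finite nilpotent group. Then G has exactly one irreducible complex character of degree divisible by p if and only if p = 2 and G is an extraspecial 2-group. -/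
theorem result {G : Type*} [Group G] [Finite G] [Group.IsNilpotent G] (p : ℕ) [Fact p.Prime] : Nat.card {χ : Cfsg.IrrCharacter G // p ∣ Cfsg.charDegree (χ : G → ℂ)} = 1 ↔ (p = 2 ∧ Cfsg.IsExtraspecial 2 G) := by
  classical
  have hp : p.Prime := Fact.out
  constructor
  · intro h
    have hG := isPGroup_of p h
    obtain ⟨hs, ⟨χ, hχ⟩⟩ := Nat.card_eq_one_iff_unique.1 h
    have hlin : ∀ ψ : IrrCharacter G, ψ ≠ χ → (ψ : G → ℂ) 1 = 1 := fun ψ hψ => by
      by_contra h1
      exact hψ (congrArg (fun x => x.1) (hs.elim ⟨ψ, (dvd_iff hG ψ.2).2 h1⟩ ⟨χ, hχ⟩))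
    have hχ1 := (dvd_iff hG χ.2).1 hχ
    have hsum := sum_charDegree_sq (G := G)
    rw [← Finset.add_sum_erase _ _ (Finset.mem_univ χ), Finset.sum_congr rfl (g := fun _ => 1)
      (fun ψ hψ => by rw [charDegree_eq (n := 1) (by simpa using hlin ψ (Finset.mem_erase.1 hψ).1),
        one_pow]), Finset.sum_const, smul_eq_mul, mul_one] at hsum
    have hcard : (Finset.univ.erase χ).card = (commutator G).index := by
      rw [← card_linear_irr, Nat.card_eq_fintype_card, Fintype.card_subtype]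
      congr 1
      ext ψ
      simp only [Finset.mem_erase, Finset.mem_univ, and_true, Finset.mem_filter, true_and]
      exact ⟨hlin ψ, fun h1 h2 => hχ1 (h2 ▸ h1)⟩
    rw [hcard, ← (commutator G).card_mul_index] at hsum
    obtain ⟨k, hk⟩ := χ.2.exists_pow_charDegree hG
    obtain ⟨c, hc⟩ := IsPGroup.iff_card.1 (hG.to_subgroup (commutator G))
    have hi : (commutator G).index ≠ 0 := Subgroup.index_ne_zero_of_finite
    have hd := χ.2.charDegree_pos
    have hc1 : 1 ≤ p ^ c := Nat.one_le_iff_ne_zero.2 (pow_ne_zero _ hp.ne_zero)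
    have h1 : (p ^ c - 1) * (commutator G).index = p ^ (k * 2) := by
      rw [Nat.sub_mul, ← hc, ← hsum, pow_mul, ← hk]; omega
    obtain ⟨j, -, hj⟩ := (Nat.dvd_prime_pow hp).1 (Dvd.intro _ h1)
    have hc0 : c ≠ 0 := by
      rintro rfl
      simp only [pow_zero, tsub_self] at hj
      exact pow_ne_zero _ hp.ne_zero hj.symm
    have hj0 : j = 0 := by
      by_contra hj0
      have h2 : p ∣ p ^ c - 1 := hj ▸ dvd_pow_self p hj0
      have h3 := (Nat.dvd_sub_iff_right hc1 (dvd_pow_self p hc0)).1 h2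
      exact hp.ne_one (Nat.dvd_one.1 h3)
    have hpc : p ^ c = 2 := by rw [hj0, pow_zero] at hj; omega
    have hp2 : p = 2 :=
      (Nat.prime_dvd_prime_iff_eq hp Nat.prime_two).1 (hpc ▸ dvd_pow_self p hc0)
    subst hp2
    refine ⟨rfl, H9.isExtraspecial_of_card_center hG (fun hcomm => hχ1
      (χ.2.apply_one_of_comm fun a b => hcomm.is_comm.comm a b)) ?_ ?_⟩
    · intro x hx
      rw [Subgroup.mem_center_iff]
      intro g
      obtain ⟨z, -, hz⟩ := (Nat.card_eq_two_iff' (1 : commutator G)).1 (hc.trans hpc)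
      by_cases hx1 : x = 1
      · simp [hx1]
      have h2 := hz ⟨x, hx⟩ (fun e => hx1 (congrArg Subtype.val e))
      have h3 := hz ⟨g * x * g⁻¹, Subgroup.Normal.conj_mem inferInstance x hx g⟩
        (fun e => hx1 (by simpa using congrArg Subtype.val e))
      have h4 : g * x * g⁻¹ = x := congrArg Subtype.val (h3.trans h2.symm)
      rw [← mul_inv_eq_iff_eq_mul, h4]
    · have h2 := χ.2.charDegree_sq_le_index χ.2.center_le_charCenter
      have h3 := (Subgroup.center G).card_mul_index
      rw [← (commutator G).card_mul_index] at h3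
      rw [hc, hpc] at hsum h3
      have h4 : (Subgroup.center G).index ≠ 0 := Subgroup.index_ne_zero_of_finite
      by_contra h5
      have : 3 * (Subgroup.center G).index ≤ Nat.card (Subgroup.center G) * (Subgroup.center G).index :=
        Nat.mul_le_mul_right _ (by omega)
      omega
  · rintro ⟨rfl, hE⟩
    obtain ⟨n, -, hn, hcard, -⟩ := H27.exists_cform_of_isExtraspecial hE
    refine Eq.trans (Nat.card_congr (Equiv.subtypeEquivRight fun χ => ?_))
      (H29.card_nonlinear_irr_of_extraspecial hE hcard)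
    rw [dvd_iff hE.1.1 χ.2]
    refine ⟨H29.degree_of_extraspecial hE hcard χ.2, fun h1 h2 => ?_⟩
    rw [h2] at h1
    have h3 : 1 = 2 ^ n := by exact_mod_cast h1
    exact (Nat.one_lt_pow (by omega) one_lt_two).ne h3

end Cfsg.Agent.S4762
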