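import Cfsg.Agent.Base
import Cfsg.Agent.H40.GlSolv
import Cfsg.Agent.H40.CopDeg
import Cfsg.Agent.H32.Gallagher
import Cfsg.Agent.H32.Clifford
import Cfsg.Agent.H24.ClassCount
import Cfsg.Agent.H28.CharProd
import Cfsg.Agent.H28.Degree
import Cfsg.Statements.S4763

set_option autoImplicit false
open Cfsg

namespace Cfsg.Agent.S4763

open H28 H32 Subgroup

theorem card_add {α : Type*} [Finite α] (q : α → Prop) :
    Nat.card {a // q a} + Nat.card {a // ¬ q a} = Nat.card α := by
  classical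
  rw [← Nat.card_sum, Nat.card_congr (Equiv.sumCompl q)]

variable {G : Type*} [Group G] [Finite G] {p : ℕ} [hp : Fact p.Prime] {N : Subgroup G} [N.Normal]

theorem dvd_of_over [Fintype N] {k : ℕ} (hi : N.index = p ^ k) {χ : G → ℂ} (hχ : IsIrrCharacter G χ)
    {θ : N → ℂ} (hθ : IsIrrCharacter N θ) (h : classInner (fun n : N => χ n) θ ≠ 0)
    (h1 : inertia θ ≠ ⊤) : p ∣ charDegree χ := by
  have := Fintype.ofFinite G
  obtain ⟨e, he⟩ := (hχ.isCharacter.restrict N).classInner_nat hθ.isCharacter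
  have h2 := clifford_degree hχ hθ h
  obtain ⟨l, -, hl⟩ := (Nat.dvd_prime_pow hp.out).1
    (hi ▸ index_dvd_of_le (le_inertia hθ.isClassFunction))
  rw [charDegree_eq (n := e * (inertia θ).index * charDegree θ)
    (by rw [h2, he, ← hθ.cast_charDegree]; push_cast; rfl), hl]
  refine ((dvd_pow_self p ?_).mul_left _).mul_right _
  rintro rfl
  exact h1 (index_eq_one.1 hl)

theorem card_irr (hN : (Nat.card N).Coprime p) {k : ℕ} (hi : N.index = p ^ k)
    (hc : commutator G ≤ N) : Nat.card {χ : IrrCharacter G // ¬ p ∣ charDegree χ.1} =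
      Nat.card {θ : IrrCharacter N // inertia θ.1 = ⊤} * N.index := by
  have := Fintype.ofFinite G
  have := Fintype.ofFinite N
  choose X hX h1 h2 using fun θ : {θ : IrrCharacter N // inertia θ.1 = ⊤} =>
    H40.exists_canonical_ext_of_coprime N (hi ▸ hN.pow_right k) θ.1.2 (inertia_eq_top_iff.1 θ.2)
  have h3 : ∀ θ, IsIrrCharacter N fun n => X θ n := fun θ => by rw [funext (h1 θ)]; exact θ.1.2
  have h4 : ∀ β : {β : IrrCharacter G // N ≤ charKer β.1}, ∀ n ∈ N, β.1.1 n = 1 := fun β n hn =>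
    (apply_of_mem_charKer (β.2 hn)).trans (β.1.2.degree_one_iff.2 (hc.trans β.2))
  rw [index_eq_card, ← card_irr_of_comm (Normal.quotient_commutative_iff_commutator_le.2 hc).1.comm,
    Nat.card_congr (irrQuotientEquiv N), ← Nat.card_prod, eq_comm]
  refine Nat.card_eq_of_bijective (fun x => ⟨⟨x.2.1.1 * X x.1,
    gallagher_irr (hX _).isCharacter (h3 _) x.2.1.2 x.2.2⟩, fun h => ?_⟩) ⟨?_, ?_⟩
  · rw [show charDegree (x.2.1.1 * X x.1) = charDegree x.1.1.1 from charDegree_congr (by
      rw [Pi.mul_apply, h4 _ _ (one_mem _), one_mul]; exact h1 _ 1)] at h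
    exact (hp.out.coprime_iff_not_dvd.1 hN.symm) (h.trans x.1.1.2.charDegree_dvd_card)
  · rintro ⟨θ, β⟩ ⟨θ', β'⟩ h
    have h5 : β.1.1 * X θ = β'.1.1 * X θ' := congrArg (fun x => x.1.1) h
    obtain rfl : θ = θ' := Subtype.ext (Subtype.ext (funext fun n => by
      simpa [h4 _ _ n.2, h1] using congrFun h5 n))
    rw [show β = β' from Subtype.ext (Subtype.ext
      (gallagher_inj (hX _).isCharacter (h3 _) β.1.2 β'.1.2 β.2 β'.2 h5))]
  · rintro ⟨χ, hχ⟩
    obtain ⟨θ, hθ, h⟩ := exists_constituent_res (H := N) χ.2.isCharacter χ.2.apply_one_ne_zero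
    have h5 : inertia θ = ⊤ := by_contra fun e => hχ (dvd_of_over hi χ.2 hθ h e)
    obtain ⟨β, hβ, h6, h7⟩ := gallagher_surj (hX ⟨⟨θ, hθ⟩, h5⟩).isCharacter (h3 _) χ.2
      (by rwa [funext (h1 _)])
    exact ⟨(⟨⟨θ, hθ⟩, h5⟩, ⟨⟨β, hβ⟩, h6⟩), Subtype.ext (Subtype.ext h7.symm)⟩

theorem card_cls (P : Sylow p G) (h1 : N ⊔ P = ⊤) (h2 : Disjoint N P) (hc : commutator G ≤ N) :
    Nat.card {C : ConjClasses G // ¬ p ∣ Nat.card C.carrier} =
      Nat.card (IrrCharacter ↥(N ⊓ centralizer ((P : Subgroup G) : Set G))) * Nat.card P := by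
  have hP : ∀ g ∈ normalizer ((P : Subgroup G) : Set G), ∀ x ∈ (P : Subgroup G), x * g = g * x :=
    fun g hg x hx => by
      have := disjoint_def.1 h2 (hc (commutator_mem_commutator (mem_top g) (mem_top x)))
        (mul_mem ((mem_normalizer_iff.1 hg x).1 hx) (inv_mem hx))
      exact (commutatorElement_eq_one_iff_mul_comm.1 this).symm
  let f : ↥(N ⊓ centralizer ((P : Subgroup G) : Set G)) × P →* G :=
    (Subgroup.subtype _).noncommCoprod (Subgroup.subtype _) fun a b => (a.2.2 b b.2).symm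
  have hf : Function.Injective f := (injective_iff_map_eq_one f).2 fun x hx => by
    have h3 : (x.1 : G) = (x.2 : G)⁻¹ := eq_inv_of_mul_eq_one_left hx
    have h4 := disjoint_def.1 h2 x.1.2.1 (h3 ▸ inv_mem x.2.2)
    exact Prod.ext (Subtype.ext h4) (Subtype.ext (inv_eq_one.1 (h3 ▸ h4)))
  have hr : ∀ g ∈ normalizer ((P : Subgroup G) : Set G), ∃ x, f x = g := fun g hg => by
    obtain ⟨n, hn, x, hx, rfl⟩ := mem_sup_of_normal_left.1 (h1 ▸ mem_top g)
    exact ⟨(⟨n, hn, fun y hy => hP n ((mul_mem_cancel_right (le_normalizer hx)).1 hg) y hy⟩,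
      ⟨x, hx⟩), rfl⟩
  have hC : ∀ x, f x ∈ centralizer ((P : Subgroup G) : Set G) := fun x =>
    mul_mem x.1.2.2 (hP _ (le_normalizer x.2.2))
  rw [← card_irr_of_comm (G := P) fun a b => Subtype.ext (hP _ (le_normalizer b.2) a a.2),
    ← Nat.card_prod, Nat.card_congr irrProdEquiv, card_irr_eq_card_conjClasses, eq_comm]
  refine Nat.card_eq_of_bijective (fun C => ⟨C.map f, ?_⟩) ⟨fun a b h => ?_, fun C => ?_⟩
  · obtain ⟨x, rfl⟩ := C.exists_rep
    change ¬ p ∣ Nat.card (ConjClasses.mk (f x)).carrier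
    rw [H24.card_carrier_eq_index]
    exact fun h => P.not_dvd_index (h.trans (index_dvd_of_le fun y hy =>
      mem_centralizer_singleton_iff.2 (hC x y hy)))
  · obtain ⟨x, rfl⟩ := a.exists_rep
    obtain ⟨y, rfl⟩ := b.exists_rep
    obtain ⟨g, hg⟩ := isConj_iff.1 (ConjClasses.mk_eq_mk_iff_isConj.1 (congrArg Subtype.val h))
    obtain ⟨n, hn, h3⟩ := P.conj_eq_normalizer_conj_of_mem_centralizer (f x) g⁻¹ (hC x)
      (by rw [inv_inv, hg]; exact hC y)
    obtain ⟨z, rfl⟩ := hr n hn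
    refine ConjClasses.mk_eq_mk_iff_isConj.2 (isConj_iff.2 ⟨z⁻¹, hf ?_⟩)
    rw [inv_inv, map_mul, map_mul, map_inv, ← h3, inv_inv, hg]
  · obtain ⟨C, hC'⟩ := C
    obtain ⟨x, rfl⟩ := C.exists_rep
    rw [H24.card_carrier_eq_index, ← relIndex_top_right] at hC'
    obtain ⟨c, -, h3⟩ := exists_conj_le_of_not_dvd_relIndex hC' P.isPGroup' le_top
    obtain ⟨z, hz⟩ := hr (c⁻¹ * x * c) (centralizer_le_normalizer _ fun y hy => by
      have := mem_centralizer_singleton_iff.1 (h3 y hy)
      calc y * (c⁻¹ * x * c) = c⁻¹ * (c * y * c⁻¹ * x) * c := by group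
        _ = _ := by rw [this]; group)
    exact ⟨ConjClasses.mk z, Subtype.ext (ConjClasses.mk_eq_mk_iff_isConj.2
      (isConj_iff.2 ⟨c, by rw [hz]; group⟩))⟩

/-- Let p be a prime and G a finite group that is not nilpotent and has a normal p-complement (a normal subgroup of order prime to p and index a power of p). If G has exactly one irreducible complex character of degree divisible by p, then G has exactly one conjugacy class whose size is divisible by p. -/
theorem result {G : Type*} [Group G] [Finite G] (p : ℕ) [Fact p.Prime] (hnil : ¬ Group.IsNilpotent G) (N : Subgroup G) [N.Normal] (hN : (Nat.card N).Coprime p) (hidx : ∃ k : ℕ, N.index = p ^ k) (hone : Nat.card {χ : Cfsg.IrrCharacter G // p ∣ Cfsg.charDegree (χ : G → ℂ)} = 1) : Nat.card {C : ConjClasses G // p ∣ Nat.card C.carrier} = 1 := by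
  obtain ⟨k, hi⟩ := hidx
  have hp : p.Prime := Fact.out
  have := Fintype.ofFinite G
  have := Fintype.ofFinite N
  obtain ⟨hs, -⟩ := Nat.card_eq_one_iff_unique.1 hone
  have hc : commutator G ≤ N := fun g hg => by
    by_contra hg'
    obtain ⟨β, hβ, h1, h2⟩ := exists_irr_le_charKer_not_mem N hg'
    have h3 : p ∣ charDegree β := by
      obtain ⟨η, hη, h3⟩ := hβ.exists_quotient N h1
      obtain ⟨l, hl⟩ := hη.exists_pow_charDegree (IsPGroup.of_card hi)
      rw [show charDegree η = charDegree β from charDegree_congr (h3 1)] at hl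
      refine hl ▸ dvd_pow_self p ?_
      rintro rfl
      exact h2 (hβ.charDegree_eq_one_iff.1 hl hg)
    obtain ⟨θ, hθ, h4⟩ : ∃ θ, IsIrrCharacter N θ ∧ θ ≠ fun _ => 1 := by
      by_contra h4
      push Not at h4
      have h5 : N = ⊥ := eq_bot_iff.2 fun n hn => congrArg Subtype.val
        (eq_one_of_forall_irr (g := (⟨n, hn⟩ : N)) fun θ hθ => by rw [h4 θ hθ])
      rw [h5, index_bot] at hi
      exact hnil (IsPGroup.of_card hi).isNilpotent
    by_cases h5 : inertia θ = ⊤
    · obtain ⟨X, hX, h6, -⟩ := H40.exists_canonical_ext_of_coprime N (hi ▸ hN.pow_right k) hθ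
        (inertia_eq_top_iff.1 h5)
      have h7 : β * X = β := congrArg (fun x => x.1.1) (hs.elim ⟨⟨_, gallagher_irr hX.isCharacter
        (by rwa [funext h6]) hβ h1⟩, by
          rw [hβ.isCharacter.charDegree_mul hX.isCharacter]; exact h3.mul_right _⟩ ⟨⟨β, hβ⟩, h3⟩)
      refine h4 (funext fun n => ?_)
      have h8 := congrFun h7 n
      rw [Pi.mul_apply, apply_of_mem_charKer (h1 n.2), h6] at h8
      exact mul_left_cancel₀ hβ.apply_one_ne_zero (h8.trans (mul_one _).symm)
    · obtain ⟨χ, hχ, h6⟩ := exists_irr_over hθ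
      obtain rfl : χ = β := congrArg (fun x => x.1.1)
        (hs.elim ⟨⟨χ, hχ⟩, dvd_of_over hi hχ hθ h6 h5⟩ ⟨⟨β, hβ⟩, h3⟩)
      refine h6 ?_
      rw [show (fun n : N => χ n) = χ 1 • fun _ => 1 from funext fun n => by
        simp [apply_of_mem_charKer (h1 n.2)], classInner_smul_left,
        isIrrCharacter_one.classInner_of_ne hθ h4.symm, mul_zero]
  obtain ⟨P⟩ : Nonempty (Sylow p G) := inferInstance
  obtain ⟨m, hm⟩ := IsPGroup.iff_card.1 P.isPGroup'
  have h1 : N ⊔ P = ⊤ := index_eq_one.1 (Nat.eq_one_of_dvd_coprimes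
    ((hp.coprime_iff_not_dvd.2 P.not_dvd_index).pow_left k) (hi ▸ index_dvd_of_le le_sup_left)
    (index_dvd_of_le le_sup_right))
  have h2 : (Nat.card N).Coprime (Nat.card P) := hm ▸ hN.pow_right m
  have h3 := card_cls P h1 (disjoint_of_coprime_natCard h2) hc
  have := P.isPGroup'.isNilpotent
  rw [← H40.card_inv_irr (by rw [normalizer_eq_top]; exact le_top) h2 inferInstance,
    ← (isComplement'_of_disjoint_and_mul_eq_univ (disjoint_of_coprime_natCard h2) (by
      rw [← normal_mul, h1, coe_top])).symm.index_eq_card, Nat.card_congr (Equiv.subtypeEquivRight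
      (q := fun θ : IrrCharacter N => inertia θ.1 = ⊤) fun θ => ⟨fun h => eq_top_iff.2 (h1.ge.trans
        (sup_le (le_inertia θ.2.isClassFunction) fun x hx => mem_inertia_iff.2 fun n =>
          h x hx n _ rfl)), fun h x _ g g' e => (congrArg θ.1 (Subtype.ext e)).trans
            (inertia_eq_top_iff.1 h x g)⟩), ← card_irr hN hi hc] at h3
  have h4 := card_add fun χ : IrrCharacter G => p ∣ charDegree χ.1
  have h5 := card_add fun C : ConjClasses G => p ∣ Nat.card C.carrier
  rw [card_irr_eq_card_conjClasses] at h4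
  omega

end Cfsg.Agent.S4763
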