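import Cfsg.Statements.S4782
import Cfsg.Agent.H72.RhoB

set_option autoImplicit false
open Cfsg

namespace Cfsg.Agent.S4782

/-- If the finite group G is not solvable, then at least three distinct primes each divide some irreducible complex character degree of G. -/
theorem result {G : Type*} [Group G] [Finite G] (hG : ¬ Group.IsSolvable G) : ∃ p q r : ℕ, p ≠ q ∧ q ≠ r ∧ p ≠ r ∧ p ∈ Cfsg.degreePrimes G ∧ q ∈ Cfsg.degreePrimes G ∧ r ∈ Cfsg.degreePrimes G := by
  obtain ⟨p, hp, -, -⟩ := H72.Rho.third hG Nat.prime_two Nat.prime_two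
  obtain ⟨q, hq, h1, -⟩ := H72.Rho.third hG hp.1 hp.1
  obtain ⟨r, hr, h2, h3⟩ := H72.Rho.third hG hp.1 hq.1
  exact ⟨p, q, r, h1.symm, h3.symm, h2.symm, hp, hq, hr⟩

end Cfsg.Agent.S4782
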