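import Cfsg.Statements.S4784
import Cfsg.Agent.Base
import Cfsg.Agent.H30.Counting
import Cfsg.Agent.H28.Degree
import Cfsg.Agent.H33.PermChar
import Cfsg.Agent.H30.PermChar

set_option autoImplicit false
open Cfsg

namespace Cfsg.Agent.S4784

open Cfsg H28 H30

/-- Let H be a subgroup of the finite group G and consider the permutation character of G on the cosets of H (the function induced from the principal character of H). Then exactly one irreducible constituent of it is real-valued with Frobenius–Schur indicator +1 (namely the principal character) if and only if the normal core of H has odd index in G. -/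
theorem result {G : Type*} [Group G] [Fintype G] (H : Subgroup G) : Nat.card {χ : Cfsg.IrrCharacter G // Cfsg.classInner (Cfsg.indFun H (fun _ : H => (1 : ℂ))) (χ : G → ℂ) ≠ 0 ∧ (∀ g : G, (starRingEnd ℂ) ((χ : G → ℂ) g) = (χ : G → ℂ) g) ∧ (Nat.card G : ℂ)⁻¹ * ∑ g : G, (χ : G → ℂ) (g * g) = 1} = 1 ↔ Odd H.normalCore.index := by
  classical
  have h1 : classInner (indFun H (fun _ : H => (1 : ℂ))) (fun _ => 1) = 1 := by
    rw [H33.classInner_indFun_left _ _ (isClassFunction_const 1)]
    exact classInner_one_one
  have hfs1 : (Nat.card G : ℂ)⁻¹ * ∑ _g : G, (1 : ℂ) = 1 := by simp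
  have hπ : IsCharacter G (indFun H (fun _ : H => (1 : ℂ))) := isCharacter_one.indFun
  rw [Nat.card_eq_one_iff_exists]
  constructor
  · rintro ⟨x, hx⟩
    by_contra hodd
    rw [Nat.not_odd_iff_even] at hodd
    haveI := Fact.mk Nat.prime_two
    obtain ⟨t, ht⟩ := exists_prime_orderOf_dvd_card' (G := G ⧸ H.normalCore) 2 hodd.two_dvd
    obtain ⟨t, rfl⟩ := QuotientGroup.mk_surjective t
    have ht2 : t * t ∈ H.normalCore := by
      rw [← QuotientGroup.eq_one_iff, QuotientGroup.mk_mul, ← sq, ← ht, pow_orderOf_eq_one]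
    have ht1 : t ∉ H.normalCore := by
      rw [← QuotientGroup.eq_one_iff]
      intro h
      simp [h] at ht
    -- the indicator of the permutation character is `1`
    have h2 : ∃ m : ℤ, m ≤ 1 ∧ fsInd (indFun H (fun _ : H => (1 : ℂ))) = m := by
      obtain ⟨a, ha, he⟩ := hπ.exists_nat_coeffs
      have h3 : ∀ χ : IrrCharacter G, ∃ n : ℤ, fsInd χ.1 = n ∧
          (a χ ≠ 0 → χ ≠ ⟨_, isIrrCharacter_one⟩ → n ≤ 0) := by
        intro χ
        rcases fsInd_trichotomy χ.2 with h | h | h
        · exact ⟨0, by simpa using h, fun _ _ => le_rfl⟩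
        · refine ⟨1, by simpa using h, fun h0 hne => absurd ?_ hne⟩
          have hr : ∀ g, (χ.1 g).im = 0 := by
            by_contra hr
            rw [fsInd_eq_zero_of_not_real χ.2 hr] at h
            exact zero_ne_one h
          have e1 := hx ⟨χ, by rw [ha]; exact_mod_cast h0,
            fun g => congrFun (real_iff_conj_eq.1 hr) g, h⟩
          have e2 := hx ⟨⟨_, isIrrCharacter_one⟩, by rw [h1]; exact one_ne_zero, by simp, hfs1⟩
          exact congrArg Subtype.val (e1.trans e2.symm)
        · exact ⟨-1, by simpa using h, fun _ _ => by norm_num⟩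
      choose n hn hn0 using h3
      refine ⟨∑ χ, a χ * n χ, ?_, ?_⟩
      · rw [← Finset.add_sum_erase _ _ (Finset.mem_univ ⟨_, isIrrCharacter_one⟩)]
        have e1 : a ⟨_, isIrrCharacter_one⟩ = 1 := by
          have := ha ⟨_, isIrrCharacter_one⟩
          rw [h1] at this
          exact_mod_cast this.symm
        have e2 : n ⟨_, isIrrCharacter_one⟩ = 1 := by
          have := hn ⟨_, isIrrCharacter_one⟩
          rw [show fsInd (fun _ : G => (1 : ℂ)) = 1 from hfs1] at this
          exact_mod_cast this.symm
        have e3 : ∑ χ ∈ Finset.univ.erase (⟨_, isIrrCharacter_one⟩ : IrrCharacter G),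
            (a χ : ℤ) * n χ ≤ 0 := by
          refine Finset.sum_nonpos fun χ hχ => ?_
          by_cases h0 : a χ = 0
          · simp [h0]
          · exact mul_nonpos_of_nonneg_of_nonpos (by positivity)
              (hn0 χ h0 (Finset.ne_of_mem_erase hχ))
        rw [e1, e2]
        simpa using e3
      · push_cast
        simp only [← hn]
        conv_lhs => rw [he]
        simp only [fsInd, Finset.sum_apply, Pi.smul_apply, smul_eq_mul, Finset.mul_sum]
        rw [Finset.sum_comm]
        refine Finset.sum_congr rfl fun χ _ => Finset.sum_congr rfl fun g _ => ?_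
        ring
    obtain ⟨m, hm, hm'⟩ := h2
    have h3 : ∑ g : G, Nat.card (MulAction.fixedBy (G ⧸ H) g) <
        ∑ g : G, Nat.card (MulAction.fixedBy (G ⧸ H) (g * g)) := by
      have hsub : ∀ g : G, MulAction.fixedBy (G ⧸ H) g ⊆ MulAction.fixedBy (G ⧸ H) (g * g) := by
        intro g q hq
        rw [MulAction.mem_fixedBy] at hq ⊢
        rw [mul_smul, hq, hq]
      refine Finset.sum_lt_sum (fun g _ => Nat.card_mono (Set.toFinite _) (hsub g))
        ⟨t, Finset.mem_univ _, ?_⟩
      refine Set.ncard_lt_ncard ⟨hsub t, fun hc => ht1 ?_⟩ (Set.toFinite _)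
      rw [Subgroup.normalCore_eq_ker] at ht2 ⊢
      ext q
      exact hc (congrFun (congrArg (fun f : Equiv.Perm (G ⧸ H) => (f : _ → _)) ht2) q)
    rw [classInner_one_right] at h1
    simp only [fsInd, H33.indFun_one_eq_card_fixedBy] at h1 hm'
    rw [inv_mul_eq_iff_eq_mul₀ (card_ne_zero' G)] at h1 hm'
    have h4 : ((∑ g : G, Nat.card (MulAction.fixedBy (G ⧸ H) g) : ℕ) : ℤ) = Nat.card G := by
      have : ((∑ g : G, Nat.card (MulAction.fixedBy (G ⧸ H) g) : ℕ) : ℂ) = Nat.card G := by
        push_cast
        rw [h1, mul_one]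
      exact_mod_cast this
    have h5 : ((∑ g : G, Nat.card (MulAction.fixedBy (G ⧸ H) (g * g)) : ℕ) : ℤ) =
        Nat.card G * m := by
      have : ((∑ g : G, Nat.card (MulAction.fixedBy (G ⧸ H) (g * g)) : ℕ) : ℂ) =
          Nat.card G * m := by
        push_cast
        exact hm'
      exact_mod_cast this
    have h6 : (Nat.card G : ℤ) * m ≤ Nat.card G := by nlinarith [Nat.card_pos (α := G)]
    omega
  · intro hodd
    refine ⟨⟨⟨_, isIrrCharacter_one⟩, by rw [h1]; exact one_ne_zero, by simp, hfs1⟩, ?_⟩
    rintro ⟨χ, hχ, hr, -⟩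
    have hk : H.normalCore ≤ charKer χ.1 := by
      refine le_trans ?_ (hπ.charKer_le_of_constituent χ.2 hχ)
      rw [hπ.le_charKer_iff]
      intro g hg
      simp only [H33.indFun_one_eq_card_fixedBy]
      congr 3
      ext q
      simp only [MulAction.mem_fixedBy, one_smul, iff_true]
      rw [Subgroup.normalCore_eq_ker] at hg
      exact congrFun (congrArg (fun f : Equiv.Perm (G ⧸ H) => (f : _ → _)) hg) q
    obtain ⟨η, hη, he⟩ := χ.2.exists_quotient _ hk
    haveI := Fintype.ofFinite (G ⧸ H.normalCore)
    have h2 := eq_one_of_real_of_odd (G := G ⧸ H.normalCore) hodd hη (by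
      intro q
      obtain ⟨g, rfl⟩ := QuotientGroup.mk_surjective q
      rw [he]
      exact Complex.conj_eq_iff_im.1 (hr g))
    refine Subtype.ext (Subtype.ext ?_)
    ext g
    simp [← he, h2]

end Cfsg.Agent.S4784
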