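import Cfsg.Statements.S4796
import Cfsg.Agent.Base
import Cfsg.Agent.H29.Codeg
import Cfsg.Agent.H5.FrobStruct

set_option autoImplicit false
open Cfsg

namespace Cfsg.Agent.S4796

open Cfsg H28 H29

/-- Let G be a finite group with a faithful irreducible complex character χ whose codegree #G / χ(1) is a prime p (for a faithful character the kernel is trivial, so the codegree is #G / χ(1)). Then either G is cyclic of order p, or G is a Frobenius group whose Frobenius kernel has order p: some proper non-trivial subgroup H satisfies H ∩ gHg⁻¹ = 1 for every element g outside H, and the set of elements lying in no conjugate of H, together with the identity, has exactly p elements. -/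
theorem result {G : Type*} [Group G] [Finite G] (χ : Cfsg.IrrCharacter G) (hfaith : ∀ g : G, (χ : G → ℂ) g = (χ : G → ℂ) 1 → g = 1) (p : ℕ) (hp : p.Prime) (hcod : Nat.card G = p * Cfsg.charDegree (χ : G → ℂ)) : (IsCyclic G ∧ Nat.card G = p) ∨ ∃ H : Subgroup G, Cfsg.IsFrobeniusComplement H ∧ Nat.card ↥(Cfsg.frobeniusKernel H) = p := by
  obtain ⟨P, hn, hP, hi, hc⟩ := exists_normal_of_prime_codeg hp χ.2 hcod
  haveI := Fact.mk hp
  by_cases htop : P.index = 1
  · left
    have h1 : Nat.card G = p := by rw [← P.card_mul_index, htop, hP, mul_one]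
    exact ⟨isCyclic_of_prime_card h1, h1⟩
  right
  have hcop : (Nat.card P).Coprime P.index := by
    rw [hP]
    exact (Nat.Prime.coprime_iff_not_dvd hp).2
      (Nat.not_dvd_of_pos_of_lt (Nat.pos_of_ne_zero P.index_ne_zero_of_finite) hi)
  obtain ⟨H, hH⟩ := Subgroup.exists_right_complement'_of_coprime hcop
  have hP1 : P ≠ ⊥ := by
    rintro rfl
    exact hp.one_lt.ne (by simpa using hP)
  have hH1 : H ≠ ⊥ := by
    rintro rfl
    exact htop (by rw [← hH.symm.index_eq_card.symm.trans rfl]; simp)
  have hF : IsFrobeniusComplement H := by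
    refine H5.isFrobeniusComplement_of_fpf hH hP1 hH1 fun h hh hh1 => ?_
    by_contra hne
    have h2 : P ⊓ Subgroup.centralizer {h} = P := by
      have h3 := (P ⊓ Subgroup.centralizer {h}).subgroupOf P |>.eq_bot_or_eq_top_of_prime_card
        (hp := ⟨hP ▸ hp⟩)
      rcases h3 with h3 | h3
      · exfalso
        apply hne
        rw [Subgroup.subgroupOf_eq_bot] at h3
        exact h3.eq_bot_of_le inf_le_left
      · rw [Subgroup.subgroupOf_eq_top] at h3
        exact le_antisymm inf_le_left h3
    have h4 : h ∈ P := by
      refine hc (Subgroup.mem_centralizer_iff.2 fun y hy => ?_)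
      have h5 : y ∈ P ⊓ Subgroup.centralizer {h} := h2.symm ▸ hy
      exact mem_centralizer_singleton.1 h5.2
    exact hh1 ((Subgroup.disjoint_def.1 hH.disjoint) h4 hh)
  refine ⟨H, hF, ?_⟩
  rw [← hP, H5.eq_frobKer_of_isComplement' hF hH]
  exact Nat.card_congr (Equiv.subtypeEquivRight fun x => (H5.mem_frobKer hF x).symm)

end Cfsg.Agent.S4796
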