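import Cfsg.Statements.S4797
import Cfsg.Agent.Base
import Cfsg.Agent.H29.Codeg

set_option autoImplicit false
open Cfsg

namespace Cfsg.Agent.S4797

open Cfsg H28 H29

theorem aux {G : Type*} [Group G] [Finite G] (h : commutator G = ⊤) (P : Subgroup G) [P.Normal]
    {p : ℕ} (hp : p.Prime) (hP : Nat.card P = p) (hc : Subgroup.centralizer (P : Set G) ≤ P) :
    False := by
  haveI := Fact.mk hp
  haveI : IsCyclic P := isCyclic_of_prime_card hP
  have h1 : commutator G ≤ (MulAut.conjNormal (H := P)).ker := by
    letI := IsCyclic.commGroup (α := P)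
    have e := IsCyclic.mulAutMulEquiv P
    rw [commutator, Subgroup.commutator_le]
    intro a _ b _
    rw [MonoidHom.mem_ker, map_commutatorElement, commutatorElement_eq_one_iff_mul_comm]
    apply e.injective
    rw [map_mul, map_mul, mul_comm]
  have h2 : ∀ g : G, g ∈ P := by
    intro g
    have h3 := h1 (h ▸ Subgroup.mem_top g)
    refine hc (Subgroup.mem_centralizer_iff.2 fun y hy => ?_)
    have h4 := congrArg (fun f : MulAut P => ((f ⟨y, hy⟩ : P) : G)) (MonoidHom.mem_ker.1 h3)
    simp only [MulAut.conjNormal_apply, MulAut.one_apply] at h4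
    rw [← h4, inv_mul_cancel_right, h4]
  have h5 : commutator G = ⊥ := by
    letI := IsCyclic.commGroup (α := P)
    rw [eq_bot_iff, commutator, Subgroup.commutator_le]
    intro a _ b _
    rw [Subgroup.mem_bot, commutatorElement_eq_one_iff_mul_comm]
    exact congrArg Subtype.val (mul_comm (⟨a, h2 a⟩ : P) ⟨b, h2 b⟩)
  have h6 : P = ⊥ := by
    rw [eq_bot_iff, ← h5, h]
    exact le_top
  rw [h6] at hP
  exact hp.one_lt.ne (by simpa using hP)

/-- The codegree of an irreducible complex character χ of a finite group G is [G : ker χ] / χ(1), where ker χ is the set of elements at which χ takes the value χ(1). A non-trivial finite group is perfect if and only if no irreducible complex character of it has prime codegree. -/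
theorem result {G : Type*} [Group G] [Finite G] [Nontrivial G] : commutator G = ⊤ ↔ ∀ χ : Cfsg.IrrCharacter G, ¬ ((Nat.card G / (Nat.card {g : G // (χ : G → ℂ) g = (χ : G → ℂ) 1} * Cfsg.charDegree (χ : G → ℂ)))).Prime := by
  classical
  constructor
  · intro h χ hp
    haveI := χ.2.charKer_normal
    obtain ⟨η, hη, he⟩ := χ.2.exists_quotient _ le_rfl
    have h1 : charDegree η = charDegree χ.1 := charDegree_congr (by simpa using he 1)
    obtain ⟨P, hn, hP, -, hc⟩ := exists_normal_of_prime_codeg hp hη
      (by rw [h1, codeg_mul_degree χ.2]; rfl)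
    refine aux ?_ P hp hP hc
    have h2 := congrArg (Subgroup.map (QuotientGroup.mk' (charKer χ.1))) h
    rwa [commutator, Subgroup.map_commutator, Subgroup.map_top_of_surjective _
      (QuotientGroup.mk'_surjective _)] at h2
  · intro h
    by_contra hc
    have h1 : 1 < Nat.card (G →* ℂˣ) := by
      rw [card_hom_units]
      have h2 := (commutator G).index_ne_zero_of_finite
      have h3 := (commutator G).index_eq_one.not.2 hc
      omega
    haveI : Finite (G →* ℂˣ) := Nat.finite_of_card_ne_zero (by omega)
    obtain ⟨p, hp, hpd⟩ := Nat.exists_prime_and_dvd h1.ne'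
    haveI := Fact.mk hp
    obtain ⟨f, hf⟩ := exists_prime_orderOf_dvd_card' p hpd
    have hirr := isIrrCharacter_of_hom f
    apply h ⟨_, hirr⟩
    have h2 := codeg_mul_degree hirr
    have h3 : charKer (fun g => (f g : ℂ)) = f.ker := by
      ext g
      rw [hirr.mem_charKer, MonoidHom.mem_ker, map_one, Units.val_inj]
    rw [charDegree_hom, mul_one, h3, Subgroup.index_ker] at h2
    simp only [charDegree_hom]
    rw [h2]
    have h4 : f.range ≤ rootsOfUnity p ℂ := by
      rintro _ ⟨g, rfl⟩
      rw [mem_rootsOfUnity, ← MonoidHom.pow_apply, ← hf, pow_orderOf_eq_one, MonoidHom.one_apply]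
    haveI : NeZero p := ⟨hp.ne_zero⟩
    have h5 := Subgroup.card_dvd_of_le h4
    rw [Complex.card_rootsOfUnity] at h5
    rcases (Nat.dvd_prime hp).1 h5 with h6 | h6
    · exfalso
      rw [Subgroup.card_eq_one, MonoidHom.range_eq_bot_iff] at h6
      rw [h6, orderOf_one] at hf
      exact hp.one_lt.ne hf
    · rwa [h6]

end Cfsg.Agent.S4797
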