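import Cfsg.Statements.S4801
import Cfsg.Agent.Base
import Cfsg.Agent.H29.Codeg

set_option autoImplicit false
open Cfsg

namespace Cfsg.Agent.S4801

open Cfsg H28 H29

/-- The codegree of an irreducible complex character χ of a finite group G is [G : ker χ] / χ(1), where ker χ is the set of elements at which χ takes the value χ(1). Let S be a finite simple group and G a finite group such that every codegree of an irreducible character of S is a codegree of an irreducible character of G. Then the order of S divides the order of G. -/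
theorem result {S : Type*} [Group S] [Finite S] (hS : IsSimpleGroup S) {G : Type*} [Group G] [Finite G] (hsub : ∀ χ : Cfsg.IrrCharacter S, ∃ ψ : Cfsg.IrrCharacter G, (Nat.card S / (Nat.card {g : S // (χ : S → ℂ) g = (χ : S → ℂ) 1} * Cfsg.charDegree (χ : S → ℂ))) = (Nat.card G / (Nat.card {g : G // (ψ : G → ℂ) g = (ψ : G → ℂ) 1} * Cfsg.charDegree (ψ : G → ℂ)))) : Nat.card S ∣ Nat.card G := by
  classical
  have key : ∀ χ : IrrCharacter S, χ.1 ≠ (fun _ => 1) →
      Nat.card S ∣ charDegree χ.1 ^ 2 * Nat.card G := by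
    intro χ hχ
    obtain ⟨ψ, hψ⟩ := hsub χ
    have h1 := codeg_mul_degree χ.2
    rw [χ.2.charKer_eq_bot_of_simple hχ, Subgroup.index_bot, hψ] at h1
    obtain ⟨c, hc⟩ := codeg_dvd_card ψ.2
    refine ⟨c * charDegree χ.1, ?_⟩
    conv_lhs => rw [hc]
    rw [← h1]
    ring
  have h1 := sum_charDegree_sq (G := S)
  rw [← Finset.add_sum_erase _ _ (Finset.mem_univ ⟨_, isIrrCharacter_one⟩)] at h1
  simp only [charDegree_one, one_pow] at h1
  have h2 : Nat.card S ∣ (∑ χ ∈ Finset.univ.erase (⟨_, isIrrCharacter_one⟩ : IrrCharacter S),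
      charDegree χ.1 ^ 2) * Nat.card G := by
    rw [Finset.sum_mul]
    exact Finset.dvd_sum fun χ hχ => key χ fun h => Finset.ne_of_mem_erase hχ (Subtype.ext h)
  have h3 : Nat.card S ∣ Nat.card G + (∑ χ ∈ Finset.univ.erase
      (⟨_, isIrrCharacter_one⟩ : IrrCharacter S), charDegree χ.1 ^ 2) * Nat.card G := by
    refine ⟨Nat.card G, ?_⟩
    conv_rhs => rw [← h1]
    ring
  exact (Nat.dvd_add_left h2).1 h3

end Cfsg.Agent.S4801
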