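import Cfsg.Statements.S4802
import Cfsg.Agent.H40.ClassProd

set_option autoImplicit false
open Cfsg

namespace Cfsg.Agent.S4802

/-- Let N < M be normal subgroups of the finite group G and g ∈ M ∖ N. Then the conjugacy class of g is exactly M ∖ N if and only if every irreducible complex character of G whose kernel contains N takes the same value at all elements of M ∖ N, and every irreducible complex character of G whose kernel does not contain N vanishes at g. -/
theorem result {G : Type*} [Group G] [Finite G] (N M : Subgroup G) [N.Normal] [M.Normal] (hNM : N < M) (g : G) (hgM : g ∈ M) (hgN : g ∉ N) : {h : G | IsConj g h} = (M : Set G) \ (N : Set G) ↔ ((∀ χ : Cfsg.IrrCharacter G, (∀ x ∈ N, (χ : G → ℂ) x = (χ : G → ℂ) 1) → ∀ x ∈ M, x ∉ N → ∀ y ∈ M, y ∉ N → (χ : G → ℂ) x = (χ : G → ℂ) y) ∧ (∀ χ : Cfsg.IrrCharacter G, (∃ x ∈ N, (χ : G → ℂ) x ≠ (χ : G → ℂ) 1) → (χ : G → ℂ) g = 0)) := by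
  have hcl : ∀ χ : Cfsg.IrrCharacter G, Cfsg.IsClassFunction G (χ : G → ℂ) := fun χ =>
    H28.Cfsg.IsIrrCharacter.isClassFunction χ.2
  constructor
  · intro h
    have h1 : ∀ x ∈ M, x ∉ N → IsConj g x := fun x hx hx' => by
      have : x ∈ {h : G | IsConj g h} := by rw [h]; exact ⟨hx, hx'⟩
      exact this
    refine ⟨fun χ _ x hx hx' y hy hy' => ?_, fun χ hχ => ?_⟩
    · exact H28.Cfsg.IsClassFunction.eq_of_isConj (hcl χ) ((h1 x hx hx').symm.trans (h1 y hy hy'))
    · have := Fintype.ofFinite N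
      have hk : ¬ N ≤ H28.charKer (χ : G → ℂ) := fun hk => by
        obtain ⟨x, hx, hx'⟩ := hχ
        exact hx' (H28.apply_of_mem_charKer (hk hx))
      have h2 := H30.sum_coset_eq_zero χ.2 N hk g
      rw [Finset.sum_congr rfl (g := fun _ => (χ : G → ℂ) g) (fun n _ =>
        (H28.Cfsg.IsClassFunction.eq_of_isConj (hcl χ) (h1 _ (M.mul_mem (hNM.le n.2) hgM)
          (fun hn => hgN ((N.mul_mem_cancel_left n.2).1 hn)))).symm), Finset.sum_const,
        Finset.card_univ, nsmul_eq_mul] at h2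
      exact (mul_eq_zero.1 h2).resolve_left (Nat.cast_ne_zero.2 Fintype.card_ne_zero)
  · rintro ⟨h1, h2⟩
    ext x
    constructor
    · intro hx
      obtain ⟨c, rfl⟩ := isConj_iff.1 hx
      refine ⟨Subgroup.Normal.conj_mem inferInstance g hgM c, fun hn => hgN ?_⟩
      have := Subgroup.Normal.conj_mem (inferInstance : N.Normal) _ hn c⁻¹
      simpa [mul_assoc] using this
    · rintro ⟨hx, hx'⟩
      refine H40.isConj_of_forall_irr_zero_or fun χ => ?_
      by_cases hχ : ∀ x ∈ N, (χ : G → ℂ) x = (χ : G → ℂ) 1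
      · exact Or.inr (h1 χ hχ x hx hx' g hgM hgN)
      · push Not at hχ
        exact Or.inl (h2 χ hχ)

end Cfsg.Agent.S4802
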