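import Cfsg.Statements.S4807
import Cfsg.Agent.Base
import Cfsg.Agent.H32.McF

set_option autoImplicit false
open Cfsg

namespace Cfsg.Agent.S4807

open H28 H33 H32

/-- Let p be a prime and G a finite p-solvable group, L a normal subgroup of G, S a Sylow p-subgroup of G and P the subgroup generated by L and S (so P/L is a Sylow p-subgroup of G/L), and let ν be an irreducible complex character of L that is invariant under conjugation by every element of P. Let N be the normalizer of P in G (it contains L). Then the number of irreducible characters of G of degree prime to p lying over ν (restriction to L not orthogonal to ν) equals the number of irreducible characters of N of degree prime to p lying over ν. -/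
theorem result {G : Type*} [Group G] [Finite G] (p : ℕ) [Fact p.Prime] (hG : Cfsg.IsPSolvable p G) (L : Subgroup G) [L.Normal] (S : Sylow p G) (P : Subgroup G) (hP : P = L ⊔ (S : Subgroup G)) (hLN : L ≤ (Subgroup.normalizer ((P : Subgroup G) : Set G))) (ν : Cfsg.IrrCharacter ↥L) (hν : ∀ x ∈ P, Cfsg.IsConjCharOf L x (ν : ↥L → ℂ) (ν : ↥L → ℂ)) : Nat.card {χ : Cfsg.IrrCharacter G // ¬ p ∣ Cfsg.charDegree (χ : G → ℂ) ∧ (∑ᶠ l : ↥L, (χ : G → ℂ) (l : G) * (starRingEnd ℂ) ((ν : ↥L → ℂ) l)) ≠ 0} = Nat.card {ψ : Cfsg.IrrCharacter ↥(Subgroup.normalizer ((P : Subgroup G) : Set G)) // ¬ p ∣ Cfsg.charDegree (ψ : ↥(Subgroup.normalizer ((P : Subgroup G) : Set G)) → ℂ) ∧ (∑ᶠ l : ↥L, (ψ : ↥(Subgroup.normalizer ((P : Subgroup G) : Set G)) → ℂ) (Subgroup.inclusion hLN l) * (starRingEnd ℂ) ((ν : ↥L → ℂ) l)) ≠ 0} := by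
  subst hP
  have := Fintype.ofFinite L
  have h1 := mcKay_rel (id_iterate (p ^ 0)) hG mcBase_id S ν.2
    (fun x hx => hν x (Subgroup.mem_sup_right hx)) rfl hLN
  have h2 : ∀ φ : L → ℂ, (∑ᶠ l : L, φ l * (starRingEnd ℂ) (ν.1 l)) ≠ 0 ↔ classInner φ ν.1 ≠ 0 :=
    fun φ => by
      rw [finsum_eq_sum_of_fintype, ← card_mul_classInner, mul_ne_zero_iff_left (natCard_ne_zero _)]
  refine (Nat.card_congr (Equiv.subtypeEquivRight fun χ => and_congr_right fun _ => ?_)).trans
    (h1.trans (Nat.card_congr (Equiv.subtypeEquivRight fun χ => and_congr_right fun _ => ?_)))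
  · exact (h2 _).trans (and_iff_right rfl).symm
  · exact (and_iff_right rfl).trans (h2 _).symm

end Cfsg.Agent.S4807
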