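import Cfsg.Statements.S4808
import Cfsg.Agent.Base
import Cfsg.Agent.H29.Codeg

set_option autoImplicit false
open Cfsg

namespace Cfsg.Agent.S4808

open Cfsg H28 H29

/-- The codegree of an irreducible complex character χ of a finite group G is [G : ker χ] / χ(1), where ker χ is the set of elements at which χ takes the value χ(1). A prime divides the order of G if and only if it divides the codegree of some irreducible complex character of G. -/
theorem result {G : Type*} [Group G] [Finite G] (p : ℕ) (hp : p.Prime) : p ∣ Nat.card G ↔ ∃ χ : Cfsg.IrrCharacter G, p ∣ (Nat.card G / (Nat.card {g : G // (χ : G → ℂ) g = (χ : G → ℂ) 1} * Cfsg.charDegree (χ : G → ℂ))) := by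
  classical
  refine ⟨fun h => ?_, fun ⟨χ, h⟩ => h.trans (codeg_dvd_card χ.2)⟩
  by_contra hc
  push Not at hc
  haveI := Fact.mk hp
  obtain ⟨x, hx⟩ := exists_prime_orderOf_dvd_card' p h
  have hx1 : x ≠ 1 := by
    rintro rfl
    exact hp.one_lt.ne (by simpa using hx)
  have key : ∀ χ : IrrCharacter G, ∃ n : ℕ, χ.1 1 * χ.1 x = n := by
    intro χ
    by_cases hk : x ∈ charKer χ.1
    · refine ⟨charDegree χ.1 ^ 2, ?_⟩
      rw [apply_of_mem_charKer hk, ← χ.2.cast_charDegree]
      push_cast
      ring
    · haveI := χ.2.charKer_normal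
      refine ⟨0, ?_⟩
      rw [eq_zero_of_not_dvd_index_div hp χ.2 _ le_rfl (x := x) ?_ ?_]
      · simp
      · rw [← codeg_mul_degree χ.2, Nat.mul_div_cancel _ χ.2.charDegree_pos]
        exact hc χ
      · have h1 : orderOf (x : G ⧸ charKer χ.1) ∣ p :=
          hx ▸ orderOf_map_dvd (QuotientGroup.mk' (charKer χ.1)) x
        rcases (Nat.dvd_prime hp).1 h1 with h2 | h2
        · exact absurd ((QuotientGroup.eq_one_iff _).1 (orderOf_eq_one_iff.1 h2)) hk
        · rw [h2]
  choose n hn using key
  have h1 := sum_degree_mul_apply_of_ne_one hx1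
  simp only [hn] at h1
  have h2 : ∑ χ, n χ = 0 := by exact_mod_cast h1
  have h3 := hn ⟨_, isIrrCharacter_one⟩
  rw [Finset.sum_eq_zero_iff.1 h2 _ (Finset.mem_univ _)] at h3
  simp at h3

end Cfsg.Agent.S4808
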