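import Cfsg.Statements.S4813
import Cfsg.Agent.H44.CD7

set_option autoImplicit false
open Cfsg

namespace Cfsg.Agent.S4813

open H28 H44

/-- If every irreducible complex character of the finite group G of degree greater than one has prime degree, then G has at most three distinct irreducible character degrees. -/
theorem result {G : Type*} [Group G] [Finite G] (hprime : ∀ d ∈ Cfsg.charDegrees G, d = 1 ∨ d.Prime) : Nat.card ↥(Cfsg.charDegrees G) ≤ 3 := by
  obtain ⟨m, n, h⟩ := three_of_prime_degrees hprime
  rw [Nat.card_coe_set_eq]
  refine (ncard_cd_le_of_forall (S := {1, m, n}) (Set.toFinite _) h).trans ?_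
  refine (Set.ncard_insert_le _ _).trans (Nat.succ_le_succ ?_)
  exact (Set.ncard_insert_le _ _).trans (by simp)

end Cfsg.Agent.S4813
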