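import Cfsg.Statements.S4823
import Cfsg.Agent.H32.BPChar
import Cfsg.Agent.S4426
import Cfsg.Agent.H34.Block

set_option autoImplicit false
universe u
open Cfsg

namespace Cfsg.Agent.S4823

/-- For every prime p and every natural number k there is a bound N such that, for every finite group G and every maximal ideal M of the algebraic integers containing p, if the principal p-block of G has at most k irreducible characters then the p-part of the order of G (the order of a defect group of the principal block) is at most p ^ N. -/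
theorem result (p : ℕ) [Fact p.Prime] (k : ℕ) : ∃ N : ℕ, ∀ (G : Type u) [Group G] [Finite G] (M : Ideal Cfsg.AlgInt), Cfsg.IsPModular p M → Nat.card (Cfsg.principalBlock M G) ≤ k → (Nat.card G).factorization p ≤ N := by
  classical
  have hp : p.Prime := Fact.out
  choose F hF hFm using H32.BP.finite_ratio.{u}
  have hfin : (⋃ n ∈ Set.Iic k, ⋃ i : Fin n, F n i).Finite :=
    (Set.finite_Iic k).biUnion fun n _ => Set.finite_iUnion fun i => hF n i
  have hA : (⋃ r ∈ (⋃ n ∈ Set.Iic k, ⋃ i : Fin n, F n i),
      {ν : ℕ | ∃ a : ℤ, (p : ℝ) ^ ν * r = a ∧ ¬ (p : ℤ) ∣ a}).Finite := by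
    refine hfin.biUnion fun r _ => Set.Subsingleton.finite ?_
    have key : ∀ ν μ : ℕ, ∀ a b : ℤ, ν < μ → (p : ℝ) ^ ν * r = a → (p : ℝ) ^ μ * r = b →
        (p : ℤ) ∣ b := by
      intro ν μ a b h h1 h2
      obtain ⟨d, rfl⟩ := Nat.exists_eq_add_of_lt h
      have h3 : (b : ℝ) = ((p * (p ^ d * a) : ℤ) : ℝ) := by
        push_cast
        rw [← h1, ← h2]; ring
      exact ⟨_, by exact_mod_cast h3⟩
    rintro ν ⟨a, ha, ha'⟩ μ ⟨b, hb, hb'⟩
    rcases lt_trichotomy ν μ with h | h | h
    · exact absurd (key ν μ a b h ha hb) hb'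
    · exact h
    · exact absurd (key μ ν b a h hb ha) ha'
  obtain ⟨N, hN⟩ := hA.bddAbove
  refine ⟨N, fun G _ _ M hM hk => hN ?_⟩
  have := hM.2.1
  cases nonempty_fintype G
  have hB : IsPBlock M (principalBlock M G) := H34.isPBlock_principalBlock
  set B := principalBlock M G with hBdef
  set one : IrrCharacter G := ⟨fun _ => 1, H28.isIrrCharacter_one⟩ with hone
  have h1 : one ∈ B := H34.one_mem_principalBlock
  set ι : B ≃ Fin (Nat.card B) := Finite.equivFin B with hι
  have hsum : ∀ f : IrrCharacter G → ℂ, ∑ χ ∈ H35.bF B, f χ = ∑ j, f (ι.symm j) := by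
    intro f
    rw [Finset.sum_subtype (H35.bF B) (p := (· ∈ B)) (fun χ => H35.mem_bF) f]
    exact (Equiv.sum_comp ι.symm (fun x : B => f x)).symm
  have hr := hFm (Nat.card B) (ι ⟨one, h1⟩) G (fun j => ((ι.symm j : B) : IrrCharacter G))
    (fun g => ¬ p ∣ orderOf g) (fun j => H28.Cfsg.IsIrrCharacter.isCharacter (ι.symm j).1.2)
    (by simp only [Equiv.symm_apply_apply]; rfl)
    (fun i j => by
      rw [H28.classInner_irr]
      simp only [Subtype.val_inj, EmbeddingLike.apply_eq_iff_eq])
    (fun i => by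
      refine ⟨fun j => (classInner (pRegularPart p ((ι.symm i).1 : G → ℂ)) (ι.symm j).1).re,
        fun g => ?_⟩
      have e1 := ((H35.inB_irr (ι.symm i).2).pReg hM hB).apply_eq_sum g
      rw [hsum, H35.pReg_apply] at e1
      rw [ite_not, e1]
      refine Finset.sum_congr rfl fun j _ => ?_
      congr 1
      refine (Complex.conj_eq_iff_re.1 ?_).symm
      rw [H28.classInner_conj_symm, ← H35.classInner_pReg_left, H35.classInner_pReg_irr_comm])
    (fun m hm g => by
      rw [(hm.symm.coprime_dvd_left (orderOf_dvd_natCard g)).orderOf_pow])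
  obtain ⟨a, ha, ha0, hav⟩ :=
    (Cfsg.Agent.S4426.result p M hM B hB one h1).2.1 (by simp [blockHeight, charDegree, hone])
      one h1
  simp only [Set.mem_iUnion, Set.mem_ofPred_eq]
  refine ⟨_, ⟨Nat.card B, hk, ι ⟨one, h1⟩, hr⟩, a, ?_, ?_⟩
  · apply Complex.ofReal_injective
    push_cast
    rw [← ha]
    simp only [classInner, hone, map_one, mul_one]
    rw [Finset.sum_ite, Finset.sum_const_zero, zero_add, Finset.sum_const, nsmul_eq_mul]
    push_cast
    ring
  · intro hd
    have h2 : (p : ℤ) ^ 1 ∣ a := by simpa using hd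
    rw [padicValInt_dvd_iff] at h2
    simp [ha0, hav, charDegree, hone] at h2

end Cfsg.Agent.S4823
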