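import Cfsg.Statements.S4825
import Cfsg.Agent.H41.RelOrth

set_option autoImplicit false
open Cfsg

namespace Cfsg.Agent.S4825

/-- Let p be a prime, G a finite group with Sylow p-subgroup P, M a maximal ideal of the algebraic integers containing p, and B a p-block of G with defect group P. Let N be a normal subgroup of G not containing P and θ an irreducible character of N. Then the number of irreducible characters in B of degree prime to p lying over θ (having θ as a constituent on restriction to N) is either 0 or at least 2, and when p ≤ 3 it is divisible by p. -/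
theorem result {G : Type*} [Group G] [Fintype G] (p : ℕ) [Fact p.Prime] (P : Sylow p G) (M : Ideal Cfsg.AlgInt) (hM : Cfsg.IsPModular p M) (B : Set (Cfsg.IrrCharacter G)) (hB : Cfsg.IsPBlock M B) (hBP : Cfsg.IsDefectGroup p M B P) (N : Subgroup G) [N.Normal] [Fintype N] (hPN : ¬ (P : Subgroup G) ≤ N) (θ : Cfsg.IrrCharacter N) :
    (Nat.card {χ : Cfsg.IrrCharacter G // χ ∈ B ∧ ¬ p ∣ Cfsg.charDegree (χ : G → ℂ) ∧ Cfsg.classInner (fun n : N => (χ : G → ℂ) n) (θ : N → ℂ) ≠ 0} = 0 ∨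
      2 ≤ Nat.card {χ : Cfsg.IrrCharacter G // χ ∈ B ∧ ¬ p ∣ Cfsg.charDegree (χ : G → ℂ) ∧ Cfsg.classInner (fun n : N => (χ : G → ℂ) n) (θ : N → ℂ) ≠ 0}) ∧
    (p ≤ 3 → p ∣ Nat.card {χ : Cfsg.IrrCharacter G // χ ∈ B ∧ ¬ p ∣ Cfsg.charDegree (χ : G → ℂ) ∧ Cfsg.classInner (fun n : N => (χ : G → ℂ) n) (θ : N → ℂ) ≠ 0}) := by
  classical
  have := hM.2.1
  have hp : p.Prime := hM.1
  obtain ⟨x, hxP, hxN⟩ := SetLike.not_le_iff_exists.1 hPN
  obtain ⟨k, hk⟩ := P.isPGroup' ⟨x, hxP⟩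
  have hk' : x ^ p ^ k = 1 := by simpa using congrArg Subtype.val hk
  have h1 := H41.dvd_sum_deg_sq_above hM (H38.NEmb.ofNormal N) {θ} (H35.osima hM hB) hk'
    (by rintro ⟨n, rfl⟩; exact hxN n.2)
  set T := H35.bF ((H38.NEmb.ofNormal N).above {θ} ∩ B) with hT
  set T' := T.filter (fun χ : IrrCharacter G => ¬ p ∣ charDegree (χ : G → ℂ)) with hT'
  have h2 : p ∣ ∑ χ ∈ T', charDegree χ.1 ^ 2 := by
    rw [← Finset.sum_filter_add_sum_filter_not T (fun χ : IrrCharacter G => p ∣ charDegree (χ : G → ℂ))] at h1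
    refine (Nat.dvd_add_right ?_).1 h1
    exact Finset.dvd_sum fun χ hχ => (Finset.mem_filter.1 hχ).2.trans (dvd_pow_self _ two_ne_zero)
  have h3 : Nat.card {χ : Cfsg.IrrCharacter G // χ ∈ B ∧ ¬ p ∣ Cfsg.charDegree (χ : G → ℂ) ∧
      Cfsg.classInner (fun n : N => (χ : G → ℂ) n) (θ : N → ℂ) ≠ 0} = T'.card := by
    rw [← Nat.card_eq_finsetCard]
    refine Nat.card_congr (Equiv.subtypeEquivRight fun χ => ?_)
    simp only [hT', hT, Finset.mem_filter, H35.mem_bF, Set.mem_inter_iff, H38.NEmb.above,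
      Set.mem_setOf_eq, Set.mem_singleton_iff, exists_eq_left]
    exact ⟨fun h => ⟨⟨h.2.2, h.1⟩, h.2.1⟩, fun h => ⟨h.1.2, h.2, h.1.1⟩⟩
  rw [h3]
  constructor
  · by_contra hn
    have h4 : T'.card = 1 := by omega
    obtain ⟨χ, hχ⟩ := Finset.card_eq_one.1 h4
    have h5 : χ ∈ T' := by rw [hχ]; exact Finset.mem_singleton_self χ
    rw [hχ, Finset.sum_singleton] at h2
    exact (Finset.mem_filter.1 h5).2 (hp.dvd_of_dvd_pow h2)
  · intro hp3
    have h4 : ∑ χ ∈ T', charDegree χ.1 ^ 2 ≡ ∑ _χ ∈ T', 1 [MOD p] := by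
      refine Nat.ModEq.sum fun χ hχ => ?_
      have h5 := (Finset.mem_filter.1 hχ).2
      generalize charDegree χ.1 = d at h5
      have h2p := hp.two_le
      unfold Nat.ModEq
      rw [Nat.pow_mod]
      interval_cases p
      · have : d % 2 = 1 := by omega
        rw [this]
      · have : d % 3 = 1 ∨ d % 3 = 2 := by omega
        rcases this with h | h <;> rw [h]
    rw [Finset.sum_const, smul_eq_mul, mul_one] at h4
    exact (Nat.modEq_zero_iff_dvd).1 (h4.symm.trans ((Nat.modEq_zero_iff_dvd).2 h2))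

end Cfsg.Agent.S4825
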