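import Cfsg.Statements.S4840
import Cfsg.Agent.H40.Gagola3

set_option autoImplicit false
open Cfsg

namespace Cfsg.Agent.S4840

/-- Let G be a finite solvable group of order greater than 2 with an irreducible character nonzero on exactly two conjugacy classes. Then there is exactly one prime p with O_p(G) ≠ 1, and the quotient G/O_p(G) has a normal p-complement and commutative Sylow p-subgroups. -/
theorem result {G : Type*} [Group G] [Finite G] [hs : Group.IsSolvable G] (hG : 2 < Nat.card G) (χ : Cfsg.IrrCharacter G) (hχ : Nat.card {C : ConjClasses G // ∃ g ∈ C.carrier, (χ : G → ℂ) g ≠ 0} = 2) :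
    ∃ p : ℕ, p.Prime ∧ (∀ q : ℕ, q.Prime → (Cfsg.pCore q G ≠ ⊥ ↔ q = p)) ∧
      Cfsg.HasNormalPComplement p (G ⧸ Cfsg.pCore p G) ∧ ∀ Q : Sylow p (G ⧸ Cfsg.pCore p G), IsMulCommutative (Q : Subgroup (G ⧸ Cfsg.pCore p G)) := by
  obtain ⟨N, a, c, h⟩ := H40.exists_gag χ.2 hG hχ
  obtain ⟨p, hp, -, hNp⟩ := h.exists_elemab
  have := Fact.mk hp
  have := h.normal
  have hN : IsPGroup p N := fun x => ⟨1, Subtype.ext (by simpa using hNp x x.2)⟩
  refine ⟨p, hp, fun q hq => ⟨fun hne => ?_, ?_⟩,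
    H40.hasNPC_and_comm_of_not_dvd_commutator (h.not_dvd_card_commutator hN)⟩
  · by_contra hqp
    have := Fact.mk hq
    exact h.ne_bot (disjoint_self.1 (IsPGroup.disjoint_of_ne q p hqp _ _
      ((H2.pCore_isPGroup q G).to_le (h.le_of_normal _ hne)) hN))
  · rintro rfl hb
    exact h.ne_bot (eq_bot_iff.2 (hb ▸ H2.le_pCore hN))

end Cfsg.Agent.S4840
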