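import Cfsg.Agent.Base
import Cfsg.Agent.H2.MinNormal
import Cfsg.Agent.H28.Degree
import Cfsg.Agent.H28.CharCenter
import Cfsg.Agent.H28.CharProd
import Cfsg.Agent.H29.GalChar
import Cfsg.Agent.H29.Central
import Cfsg.Statements.S4843

set_option autoImplicit false
open Cfsg

namespace Cfsg.Agent.S4843

open H28 H29
open scoped ComplexConjugate

/-- Schur's lemma for the average of the conjugates of `u` under an irreducibly acting group. -/
theorem sum_conj {G Γ : Type*} [Group G] [Fintype G] [Group Γ] {θ : Γ → ℂ} (hθ : IsCharacter Γ θ)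
    (f : G →* Γ) (h : IsIrrCharacter G fun g => θ (f g)) (u v : Γ) :
    ∑ y, θ (f y * u * (f y)⁻¹ * v) = Nat.card G * θ u * θ v / θ 1 := by
  have hc := hθ.isClassFunction
  obtain ⟨n, ρ, rfl⟩ := hθ
  have : Representation.IsIrreducible (ρ.comp f) := isIrreducible_of_isIrrCharacter _ h
  have h1 := eq_trace_div_smul_of_comm (ρ.comp f) (∑ y, ρ (f y * u * (f y)⁻¹)) fun g => by
    rw [Finset.sum_mul, Finset.mul_sum]
    refine Fintype.sum_equiv (Equiv.mulLeft g⁻¹) _ _ fun y => ?_
    simp only [MonoidHom.comp_apply, ← map_mul ρ, Equiv.coe_mulLeft, map_mul f, map_inv]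
    congr 1
    group
  have h2 := congrArg (fun T => LinearMap.trace ℂ _ (T * ρ v)) h1
  simp only [Finset.sum_mul, map_sum, ← map_mul ρ, smul_mul_assoc, map_smul] at h2
  change ∑ y, ρ.character _ = (∑ y, ρ.character _) / _ * LinearMap.trace ℂ _ (1 * ρ v) at h2
  rw [h2, one_mul]
  simp only [hc.apply_conj, Finset.sum_const, Finset.card_univ, nsmul_eq_mul,
    Representation.char_one, Nat.card_eq_fintype_card]
  change _ * ρ.character v = _
  ring

/-- Let G be a finite group with a faithful irreducible character χ (taking the value χ(1) only at the identity) and let k be prime to the order of G, so that g ↦ χ(g^k) is a Galois conjugate of χ. If the pointwise product g ↦ χ(g)·χ(g^k) is again an irreducible character, then the Fitting subgroup of G equals its centre. -/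
theorem result {G : Type*} [Group G] [Finite G] (χ : Cfsg.IrrCharacter G) (hfaith : ∀ g : G, (χ : G → ℂ) g = (χ : G → ℂ) 1 → g = 1) (k : ℕ) (hk : Nat.Coprime k (Nat.card G)) (hirr : Cfsg.IsIrrCharacter G (fun g => (χ : G → ℂ) g * (χ : G → ℂ) (g ^ k))) : Cfsg.fittingSubgroup G = Subgroup.center G := by
  classical
  have := Fintype.ofFinite G
  have hker := charKer_eq_bot_of_forall hfaith
  obtain ⟨a, b, hab⟩ := Nat.isCoprime_iff_coprime.2 hk
  have hj : ∀ g : G, (g ^ (-a)) ^ k = g⁻¹ := fun g => by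
    rw [← zpow_natCast, ← zpow_mul, show -a * k = (Nat.card G : ℤ) * b + -1 by linear_combination -hab,
      zpow_add, zpow_mul, zpow_natCast, pow_card_eq_one', one_zpow, one_mul, zpow_neg_one]
  have hd := χ.2.apply_one_ne_zero
  have hinv := χ.2.isCharacter.apply_inv
  have hA : ∀ x : G, ∑ y, χ.1 (y * x * y⁻¹ * x⁻¹) =
      Nat.card G * (χ.1 x * conj (χ.1 x) / χ.1 1) := fun x => by
    have := sum_conj χ.2.isCharacter (MonoidHom.id G) χ.2 x x⁻¹
    simp only [MonoidHom.id_apply, hinv] at this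
    rw [this]; ring
  have hB : ∀ x : G, ∑ y, χ.1 (y * x * y⁻¹ * x⁻¹) *
      χ.1 (((y * x * y⁻¹) ^ (-a) * x⁻¹ ^ (-a)) ^ k) =
      Nat.card G * (χ.1 x * conj (χ.1 x) / χ.1 1) ^ 2 := fun x => by
    have := sum_conj (χ.2.isCharacter.prod (χ.2.isCharacter.comp_pow hk))
      ((MonoidHom.id G).prod (MonoidHom.id G)) hirr (x, x ^ (-a)) (x⁻¹, x⁻¹ ^ (-a))
    simp only [MonoidHom.prod_apply, MonoidHom.id_apply, Prod.inv_mk, Prod.mk_mul_mk, hj, inv_inv,
      hinv, Prod.fst_one, Prod.snd_one, one_pow] at this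
    simp only [conj_zpow]
    rw [this]; ring
  have hC : ∀ x y : G, Commute (y * x * y⁻¹) x →
      χ.1 (y * x * y⁻¹ * x⁻¹) * χ.1 (((y * x * y⁻¹) ^ (-a) * x⁻¹ ^ (-a)) ^ k) =
        χ.1 (y * x * y⁻¹ * x⁻¹) * conj (χ.1 (y * x * y⁻¹ * x⁻¹)) := fun x y h => by
    rw [← h.inv_right.mul_zpow, hj, hinv]
  have hD : ∀ x : G, (∀ y, Commute (y * x * y⁻¹) x) → x ∈ Subgroup.center G := fun x h => by
    set m := χ.1 x * conj (χ.1 x) / χ.1 1 with hm
    have hm' : conj m = m := by
      rw [hm, map_div₀, map_mul, Complex.conj_conj, χ.2.isCharacter.conj_apply_one, mul_comm]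
    have h1 := hA x
    have h2 := hB x
    simp only [hC x _ (h _), ← hm] at h1 h2
    have h3 := congrArg conj h1
    rw [map_sum, map_mul, hm', map_natCast] at h3
    have h4 : ∑ y, (χ.1 (y * x * y⁻¹ * x⁻¹) - m) * conj (χ.1 (y * x * y⁻¹ * x⁻¹) - m) = 0 := by
      simp only [map_sub, hm', mul_sub, sub_mul, Finset.sum_sub_distrib, ← Finset.mul_sum,
        ← Finset.sum_mul, h1, h2, h3, Finset.sum_const, Finset.card_univ, nsmul_eq_mul,
        Nat.card_eq_fintype_card]
      ring
    simp only [Complex.mul_conj, ← Complex.ofReal_sum, Complex.ofReal_eq_zero] at h4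
    rw [Finset.sum_eq_zero_iff_of_nonneg fun _ _ => Complex.normSq_nonneg _] at h4
    have h5 : ∀ y, χ.1 (y * x * y⁻¹ * x⁻¹) = m := fun y =>
      sub_eq_zero.1 (Complex.normSq_eq_zero.1 (h4 y (Finset.mem_univ y)))
    rw [Subgroup.mem_center_iff]
    intro y
    have h6 := hfaith _ ((h5 y).trans (by simpa using (h5 1).symm))
    rwa [mul_inv_eq_one, mul_inv_eq_iff_eq_mul] at h6
  refine le_antisymm ?_ (H2.center_le_fitting G)
  by_contra hF
  have := H2.isSolvable_map (fittingSubgroup G) (QuotientGroup.mk' (Subgroup.center G))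
  have := (H2.fitting_normal G).map _ (QuotientGroup.mk'_surjective (Subgroup.center G))
  obtain ⟨p, M, -, hM, -, hM0, hMe, -⟩ := H2.exists_elementaryAbelian_normal_le
    ((fittingSubgroup G).map (QuotientGroup.mk' (Subgroup.center G)))
    (fun e => hF (by rwa [Subgroup.map_eq_bot_iff, QuotientGroup.ker_mk'] at e))
  set N := M.comap (QuotientGroup.mk' (Subgroup.center G))
  have hN : N.Normal := hM.comap _
  have hNc : ∀ x ∈ N, ∀ y ∈ N, y * x * y⁻¹ * x⁻¹ ∈ Subgroup.center G := fun x hx y hy => by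
    rw [← QuotientGroup.ker_mk' (Subgroup.center G), MonoidHom.mem_ker]
    simp only [map_mul, map_inv]
    rw [show QuotientGroup.mk' _ y * QuotientGroup.mk' _ x = _ from
      congrArg Subtype.val (hMe.1.is_comm.comm ⟨_, hy⟩ ⟨_, hx⟩)]
    simp
  have hv : ∀ x ∈ N, x ∉ Subgroup.center G → χ.1 x = 0 := fun x hx hx' => by
    by_contra h0
    refine hx' (hD x fun y => ?_)
    by_contra h1
    refine h0 (χ.2.isClassFunction.eq_zero_of_commutator (x := y * x * y⁻¹)
      (χ.2.center_le_charCenter (hNc x hx _ (hN.conj_mem x hx y))) fun h2 => h1 ?_)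
    rw [hker, Subgroup.mem_bot, mul_inv_eq_one, mul_inv_eq_iff_eq_mul] at h2
    exact h2
  obtain ⟨⟨z, hz⟩, hz1⟩ := Subgroup.ne_bot_iff_exists_ne_one.1 hM0
  obtain ⟨x, rfl⟩ := QuotientGroup.mk'_surjective _ z
  have hx : x ∉ Subgroup.center G := fun h =>
    hz1 (Subtype.ext ((QuotientGroup.eq_one_iff x).2 h))
  have h1 := hB x
  rw [hv x hz hx, Finset.sum_congr rfl (g := fun y => (Complex.normSq
    (χ.1 (y * x * y⁻¹ * x⁻¹)) : ℂ)) fun y _ => ?_] at h1
  · simp only [zero_mul, zero_div, ne_eq, OfNat.ofNat_ne_zero, not_false_eq_true, zero_pow,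
      mul_zero, ← Complex.ofReal_sum, Complex.ofReal_eq_zero] at h1
    rw [Finset.sum_eq_zero_iff_of_nonneg fun _ _ => Complex.normSq_nonneg _] at h1
    exact hd (by simpa using h1 1 (Finset.mem_univ _))
  · by_cases h2 : y * x * y⁻¹ * x⁻¹ ∈ Subgroup.center G
    · rw [hC, Complex.mul_conj]
      have h3 := Subgroup.mem_center_iff.1 h2 x
      change _ = _
      calc y * x * y⁻¹ * x = y * x * y⁻¹ * x⁻¹ * x * x := by group
        _ = x * (y * x * y⁻¹) := by rw [← h3]; group
    · rw [hv _ (N.mul_mem (hN.conj_mem x hz y) (N.inv_mem hz)) h2]; simp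

end Cfsg.Agent.S4843
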