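import Cfsg.Agent.Base
import Cfsg.Agent.H9.PBasic
import Cfsg.Agent.H18.PiCore
import Cfsg.Agent.H28.Degree
import Cfsg.Agent.H28.CharCenter
import Cfsg.Agent.H29.PGroupChar
import Cfsg.Statements.S4845

set_option autoImplicit false
open Cfsg

namespace Cfsg.Agent.S4845

open H28 H29 Subgroup

universe u

/-- the hypothesis -/
def Hy (P : Type*) [Group P] : Prop :=
  ∀ χ ψ : IrrCharacter P, charDegree (χ : P → ℂ) ≠ 1 →
    charDegree (χ : P → ℂ) = charDegree (ψ : P → ℂ) →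
      ∃ k : ℕ, Nat.Coprime k (Nat.card P) ∧ ∀ g : P, (ψ : P → ℂ) g = (χ : P → ℂ) (g ^ k)

variable {P : Type u} [Group P] [Finite P] {p : ℕ} [hp : Fact p.Prime]

theorem Hy.quot (h : Hy P) (K : Subgroup P) [K.Normal] : Hy (P ⧸ K) := fun χ ψ h1 h2 => by
  obtain ⟨k, hk, h3⟩ := h ⟨_, χ.2.inflate⟩ ⟨_, ψ.2.inflate⟩ h1 h2
  exact ⟨k, hk.coprime_dvd_right K.card_quotient_dvd_card, fun g => by
    obtain ⟨g, rfl⟩ := QuotientGroup.mk_surjective g
    exact h3 g⟩

theorem Hy.ker_le (h : Hy P) (χ ψ : IrrCharacter P) (h1 : charDegree χ.1 ≠ 1)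
    (h2 : charDegree χ.1 = charDegree ψ.1) : charKer χ.1 ≤ charKer ψ.1 := fun g hg => by
  obtain ⟨k, -, h3⟩ := h χ ψ h1 h2
  rw [ψ.2.mem_charKer, h3, h3, one_pow, apply_of_mem_charKer (pow_mem hg k)]

theorem Hy.ker_le_comm (h : Hy P) (χ : IrrCharacter P) (h1 : charDegree χ.1 ≠ 1) :
    charKer χ.1 ≤ commutator P := fun g hg => by
  refine mem_of_forall_charKer _ fun ψ hψ h2 => ?_
  have h3 := hψ.degree_one_iff.2 h2
  have h4 := χ.2.mul_linear hψ.isCharacter h3
  have h5 := h4.mem_charKer.1 (h.ker_le χ ⟨_, h4⟩ h1 (charDegree_congr (by simp [h3])) hg)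
  simp only [Pi.mul_apply, apply_of_mem_charKer hg] at h5
  exact hψ.mem_charKer.2 (mul_left_cancel₀ χ.2.apply_one_ne_zero h5)

theorem Hy.card_le (h : Hy P) (hP : IsPGroup p P) {c : ℕ} (hc : ∀ g : P, g ^ p ^ c = 1) {f : ℕ}
    (hf : f ≠ 1) (S : Finset (IrrCharacter P)) (hS : ∀ χ ∈ S, charDegree χ.1 = f) :
    S.card ≤ (p ^ c).totient := by
  classical
  rcases S.eq_empty_or_nonempty with rfl | ⟨χ, hχ⟩
  · simp
  have h0 : p ∣ Nat.card P := by
    obtain ⟨k, hk⟩ := χ.2.exists_pow_charDegree hP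
    refine (dvd_pow_self p ?_).trans (hk ▸ χ.2.charDegree_dvd_card)
    rintro rfl
    exact hf (by rw [← hS χ hχ, hk, pow_zero])
  have hpos : 0 < p ^ c := pow_pos hp.out.pos c
  rw [Nat.totient_eq_card_coprime]
  refine Finset.card_le_card_of_forall_subsingleton (fun ψ k => ∀ g, ψ.1 g = χ.1 (g ^ k))
    (fun ψ hψ => ?_) fun k _ a ha b hb => Subtype.ext (funext fun g => (ha.2 g).trans (hb.2 g).symm)
  obtain ⟨k, hk, h1⟩ := h χ ψ (by rwa [hS χ hχ]) (by rw [hS χ hχ, hS ψ hψ])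
  refine ⟨k % p ^ c, Finset.mem_filter.2 ⟨Finset.mem_range.2 (Nat.mod_lt _ hpos), ?_⟩, fun g => ?_⟩
  · have := ((hk.coprime_dvd_right h0).pow_right c).symm
    rwa [Nat.Coprime, Nat.gcd_rec, Nat.gcd_comm] at this
  · rw [h1, ← pow_eq_pow_mod k (hc g)]

omit [Finite P] hp in
theorem pow_mem_center {x : P} (h : ∀ g, g * x * g⁻¹ * x⁻¹ ∈ center P ∧ (g * x * g⁻¹ * x⁻¹) ^ p = 1) :
    x ^ p ∈ center P := by
  rw [mem_center_iff]
  intro g
  have h1 : Commute (g * x * g⁻¹ * x⁻¹) x := (mem_center_iff.1 (h g).1 x).symm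
  have h2 := h1.mul_pow p
  rw [inv_mul_cancel_right, (h g).2, one_mul, conj_pow, mul_inv_eq_iff_eq_mul] at h2
  exact h2

theorem le_center_of_card (hP : IsPGroup p P) {N : Subgroup P} [N.Normal] (h : Nat.card N = p) :
    N ≤ center P := by
  obtain ⟨x, hx, h1, h2⟩ := H9.exists_mem_center_orderOf_eq hP (K := N)
    (fun e => hp.out.one_lt.ne (by rw [← h, e, card_bot]))
  rw [← eq_of_le_of_card_ge (zpowers_le.2 hx) (by rw [Nat.card_zpowers, h, h2])]
  exact zpowers_le.2 h1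

omit hp in
theorem geom (hp : 2 ≤ p) (j : ℕ) : p * ∑ i ∈ Finset.range j, (p ^ i) ^ 2 < (p ^ j) ^ 2 := by
  induction j with
  | zero => simp
  | succ j ih =>
    rw [Finset.sum_range_succ, mul_add, pow_succ p j, mul_pow]
    have : 0 < (p ^ j) ^ 2 := by positivity
    nlinarith [Nat.mul_le_mul hp (le_refl p)]

theorem step (h : Hy P) (hP : IsPGroup p P) {z : P} (hz : z ∈ commutator P) (hzc : z ∈ center P)
    (hzo : orderOf z = p) [(zpowers z).Normal] (hQc : IsCyclic (center (P ⧸ zpowers z)))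
    (hQ : Nat.card (commutator (P ⧸ zpowers z)) = p) : False := by
  classical
  set π := QuotientGroup.mk' (zpowers z) with hπ
  have hQp := hP.to_quotient (zpowers z)
  have hle := le_center_of_card hQp hQ
  obtain ⟨η, hη, hk⟩ := exists_faithful_irr_of_isCyclic_center hQp
  obtain ⟨j, hj⟩ := hη.exists_pow_charDegree hQp
  have hd := hη.degree_sq_eq_index_of_commutator_le (hle.trans hη.center_le_charCenter)
    hη.cast_charDegree.symm
  rw [hη.charCenter_eq_center hk, hj] at hd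
  obtain ⟨c, hc⟩ := IsPGroup.iff_card.1 (hQp.to_subgroup (center _))
  have hK : ∀ g : P, π g = 1 → g ∈ center P ∧ g ^ p = 1 := fun g hg => by
    have h1 : g ∈ zpowers z := (QuotientGroup.eq_one_iff g).1 hg
    refine ⟨zpowers_le.2 hzc h1, ?_⟩
    have := orderOf_dvd_natCard _ h1
    rw [Nat.card_zpowers, hzo] at this
    exact orderOf_dvd_iff_pow_eq_one.1 this
  have hexp : ∀ g : P, g ^ p ^ (c + 1 + 1) = 1 := fun g => by
    have h1 : π g ^ p ∈ center _ := pow_mem_center fun y => by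
      have h2 : y * π g * y⁻¹ * (π g)⁻¹ ∈ commutator _ :=
        commutator_mem_commutator (mem_top _) (mem_top _)
      refine ⟨hle h2, orderOf_dvd_iff_pow_eq_one.1 (hQ ▸ orderOf_dvd_natCard _ h2)⟩
    have h2 := orderOf_dvd_iff_pow_eq_one.1 (orderOf_dvd_natCard _ h1)
    rw [hc, ← pow_mul, ← pow_succ', ← map_pow] at h2
    rw [pow_succ, pow_mul, (hK _ h2).2]
  have hZ : (center P).index ≤ p * (p ^ j) ^ 2 := by
    have h1 : center P ≤ (center _).comap π := fun g hg => mem_center_iff.2 fun y => by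
      obtain ⟨y, rfl⟩ := QuotientGroup.mk'_surjective _ y
      rw [← hπ, ← map_mul, mem_center_iff.1 hg, map_mul]
    rw [← relIndex_mul_index h1, index_comap_of_surjective _ (QuotientGroup.mk'_surjective _), ← hd,
      H18.relIndex_eq_card_map]
    refine Nat.mul_le_mul_right _ ?_
    obtain ⟨⟨w, hw⟩, hw'⟩ := hQc.exists_generator
    obtain ⟨x, rfl⟩ := QuotientGroup.mk'_surjective _ w
    have h2 : x ^ p ∈ center P := pow_mem_center fun y => hK _ (by
      simp only [map_mul, map_inv]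
      rw [hπ, mem_center_iff.1 hw]; simp)
    refine (card_le_of_le (K := zpowers (QuotientGroup.mk' (center P) x)) ?_).trans ?_
    · rintro _ ⟨y, hy, rfl⟩
      obtain ⟨n, hn⟩ := hw' ⟨_, hy⟩
      have h3 : π (x ^ n) = π y := by rw [map_zpow]; exact congrArg Subtype.val hn
      refine ⟨n, ?_⟩
      change QuotientGroup.mk' _ x ^ n = _
      rw [← map_zpow]
      exact QuotientGroup.eq.2 (hK _ (by rw [map_mul, map_inv, h3, inv_mul_cancel])).1
    · rw [Nat.card_zpowers]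
      exact orderOf_le_of_pow_eq_one hp.out.pos ((QuotientGroup.eq_one_iff _).2 h2)
  set S := Finset.univ.filter fun χ : IrrCharacter P => ¬ zpowers z ≤ charKer χ.1 with hS
  have hj0 : charDegree η ≠ 1 := fun e => by
    have h1 := hη.charDegree_eq_one_iff.1 e
    rw [hk, le_bot_iff] at h1
    exact hp.out.one_lt.ne (by rw [← hQ, h1, card_bot])
  have hdeg : ∀ χ ∈ S, charDegree χ.1 ≠ 1 ∧ ∃ i ∈ Finset.range j, charDegree χ.1 = p ^ i :=
    fun χ hχ => by
      have h0 := (Finset.mem_filter.1 hχ).2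
      refine ⟨fun e => h0 (zpowers_le.2 (χ.2.charDegree_eq_one_iff.1 e hz)), ?_⟩
      obtain ⟨i, hi⟩ := χ.2.exists_pow_charDegree hP
      refine ⟨i, Finset.mem_range.2 ?_, hi⟩
      have h1 := (χ.2.charDegree_sq_le_index χ.2.center_le_charCenter).trans hZ
      rw [hi, ← pow_mul, ← pow_mul, ← pow_succ', pow_le_pow_iff_right₀ hp.out.one_lt] at h1
      have h2 : i ≠ j := fun e => h0 ((le_charKer_inflate _ η).trans
        (h.ker_le ⟨_, hη.inflate⟩ χ hj0 (hj.trans (e ▸ hi.symm))))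
      omega
  choose! hd1 e he1 he2 using hdeg
  have h1 : ∑ χ ∈ S, charDegree χ.1 ^ 2 ≤
      (p ^ (c + 1 + 1)).totient * ∑ i ∈ Finset.range j, (p ^ i) ^ 2 := by
    rw [← Finset.sum_fiberwise_of_maps_to he1, Finset.mul_sum]
    refine Finset.sum_le_sum fun i _ => ?_
    have h2 : ∀ χ ∈ S.filter (fun χ => e χ = i), charDegree χ.1 = p ^ i := fun χ hχ => by
      rw [he2 χ (Finset.mem_filter.1 hχ).1, (Finset.mem_filter.1 hχ).2]
    rw [Finset.sum_congr rfl fun χ hχ => by rw [h2 χ hχ], Finset.sum_const, smul_eq_mul]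
    rcases (S.filter (fun χ => e χ = i)).eq_empty_or_nonempty with h3 | ⟨χ, hχ⟩
    · simp [h3]
    · exact Nat.mul_le_mul_right _ (h.card_le hP hexp
        (h2 χ hχ ▸ hd1 χ (Finset.mem_filter.1 hχ).1) _ h2)
  have h2 := sum_charDegree_sq (G := P)
  have h3 : ∀ η : IrrCharacter (P ⧸ zpowers z), charDegree (fun g : P => η.1 g) = charDegree η.1 :=
    fun η => rfl
  rw [← Finset.sum_filter_add_sum_filter_not _ (fun χ : IrrCharacter P => zpowers z ≤ charKer χ.1),
    sum_irr_quotient (zpowers z) (fun χ => charDegree χ ^ 2), ← hS] at h2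
  simp only [h3, sum_charDegree_sq] at h2
  rw [(zpowers z).card_eq_card_quotient_mul_card_subgroup, Nat.card_zpowers, hzo,
    ← (center _).card_mul_index, ← hd, hc] at h2
  rw [Nat.totient_prime_pow_succ hp.out, pow_succ] at h1
  have h4 := geom hp.out.two_le j
  obtain ⟨q, hq⟩ := Nat.exists_eq_add_of_lt hp.out.one_lt
  have h5 : 0 < p ^ c * (p - 1) := Nat.mul_pos (pow_pos hp.out.pos c) (by omega)
  have h6 := Nat.mul_lt_mul_of_pos_left h4 h5
  have h7 : p - 1 = 1 + q := by omega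
  rw [h7] at h1 h6
  generalize p ^ c = A at *
  generalize (p ^ j) ^ 2 = D at *
  subst hq
  nlinarith

theorem main (n : ℕ) : ∀ {P : Type u} [Group P] [Finite P], Nat.card P = n → IsPGroup p P →
    ¬ IsMulCommutative P → Hy P → IsCyclic (center P) ∧ Nat.card (commutator P) = p := by
  induction n using Nat.strong_induction_on with | _ n ih => ?_
  intro P _ _ hn hP hc h
  have hne : commutator P ≠ ⊥ := fun e => hc ((commutator_eq_bot_iff P).1 e)
  obtain ⟨z, hz, hzc, hzo⟩ := H9.exists_mem_center_orderOf_eq hP hne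
  have hZ : zpowers z ≤ center P := zpowers_le.2 hzc
  have : (zpowers z).Normal := ⟨fun x hx g => by
    rwa [mem_center_iff.1 (hZ hx) g, mul_inv_cancel_right]⟩
  by_cases h1 : IsMulCommutative (P ⧸ zpowers z)
  · have h2 : commutator P = zpowers z :=
      le_antisymm (Normal.quotient_commutative_iff_commutator_le.1 h1) (zpowers_le.2 hz)
    have h3 : Nat.card (commutator P) = p := by rw [h2, Nat.card_zpowers, hzo]
    refine ⟨?_, h3⟩
    obtain ⟨χ, hχ⟩ : ∃ χ : IrrCharacter P, χ.1 1 ≠ 1 := by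
      by_contra h4
      push Not at h4
      exact hc ⟨⟨comm_iff_forall_irr_degree_one.2 h4⟩⟩
    have h4 := h.ker_le_comm χ (fun e => hχ (χ.2.isCharacter.charDegree_eq_one_iff.1 e))
    refine χ.2.isCyclic_center ?_
    rcases (Nat.dvd_prime hp.out).1 (h3 ▸ card_dvd_of_le h4) with h5 | h5
    · exact card_eq_one.1 h5
    · exact absurd (χ.2.degree_one_iff.2 (eq_of_le_of_card_ge h4 (by rw [h3, h5])).ge) hχ
  · have hlt : Nat.card (P ⧸ zpowers z) < n := by
      have h1 := (zpowers z).card_eq_card_quotient_mul_card_subgroup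
      have h2 : 0 < Nat.card (P ⧸ zpowers z) := Nat.card_pos
      rw [Nat.card_zpowers, hzo, hn] at h1
      rw [h1]
      exact lt_mul_of_one_lt_right h2 hp.out.one_lt
    obtain ⟨h2, h3⟩ := ih _ hlt rfl (hP.to_quotient _) h1 (h.quot _)
    exact (step h hP hz hzc hzo h2 h3).elim

/-- Let p be a prime and P a finite non-commutative p-group. Then every two irreducible characters of P of the same degree greater than 1 are Galois conjugate (one is obtained from the other by composing with g ↦ g^k for some k prime to the order of P) if and only if the centre of P is cyclic and the derived subgroup of P has order p. -/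
theorem result {P : Type*} [Group P] [Finite P] (p : ℕ) [Fact p.Prime] (hP : IsPGroup p P) (hna : ¬ IsMulCommutative P) :
    (∀ χ ψ : Cfsg.IrrCharacter P, Cfsg.charDegree (χ : P → ℂ) ≠ 1 → Cfsg.charDegree (χ : P → ℂ) = Cfsg.charDegree (ψ : P → ℂ) → ∃ k : ℕ, Nat.Coprime k (Nat.card P) ∧ ∀ g : P, (ψ : P → ℂ) g = (χ : P → ℂ) (g ^ k)) ↔
      (IsCyclic (Subgroup.center P) ∧ Nat.card (commutator P) = p) := by
  refine ⟨main _ rfl hP hna, fun ⟨h1, h2⟩ χ ψ hχ hψ => ?_⟩
  have hp : p.Prime := Fact.out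
  have hle := le_center_of_card hP h2
  have hker : ∀ χ : IrrCharacter P, charDegree χ.1 ≠ 1 → charKer χ.1 = ⊥ := fun χ hχ => by
    by_contra h3
    have := χ.2.charKer_normal
    obtain ⟨x, hx, h4, h5⟩ := H9.exists_mem_center_orderOf_eq hP h3
    refine hχ (χ.2.charDegree_eq_one_iff.2 fun y hy => zpowers_le.2 hx ?_)
    exact mem_zpowers_of_mem_isCyclic h4 (hle hy)
      (orderOf_dvd_iff_pow_eq_one.1 (h5 ▸ h2 ▸ orderOf_dvd_natCard _ hy))
  have hlam : ∀ χ : IrrCharacter P, charDegree χ.1 ≠ 1 → (∀ g, g ∉ center P → χ.1 g = 0) ∧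
      ∃ lam : center P →* ℂˣ, Function.Injective lam ∧
        ∀ z : center P, χ.1 z = lam z * charDegree χ.1 := fun χ hχ => by
    refine ⟨fun g hg => χ.2.eq_zero_of_commutators (by rwa [χ.2.charCenter_eq_center (hker χ hχ)])
      fun x => χ.2.center_le_charCenter (hle (commutator_mem_commutator (mem_top _) (mem_top _))),
      ?_⟩
    obtain ⟨lam, hl⟩ := χ.2.exists_central_hom le_rfl
    refine ⟨lam, ?_, fun z => by rw [χ.2.cast_charDegree, ← hl, mul_one]⟩
    rw [← MonoidHom.ker_eq_bot_iff, ker_eq_of_translation χ.2.ne_zero hl, hker χ hχ, bot_subgroupOf]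
  obtain ⟨a1, l1, b1, c1⟩ := hlam χ hχ
  obtain ⟨a2, l2, b2, c2⟩ := hlam ψ (hψ ▸ hχ)
  obtain ⟨z, hz⟩ := h1.exists_generator
  have hzo := orderOf_eq_card_of_forall_mem_zpowers hz
  have : NeZero (orderOf z) := ⟨(orderOf_pos z).ne'⟩
  obtain ⟨k, -, hk, h3⟩ := ((orderOf_injective l1 b1 z ▸ IsPrimitiveRoot.orderOf (l1 z) :
    IsPrimitiveRoot (l1 z) (orderOf z)).isPrimitiveRoot_iff' (ξ := l2 z)).1
      (orderOf_injective l2 b2 z ▸ IsPrimitiveRoot.orderOf (l2 z))
  obtain ⟨n, hn⟩ := IsPGroup.iff_card.1 hP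
  have hk' : k.Coprime (Nat.card P) := by
    rw [hn]
    exact (hk.coprime_dvd_right (hzo ▸ h2 ▸ card_dvd_of_le hle)).pow_right n
  refine ⟨k, hk', fun g => ?_⟩
  by_cases hg : g ∈ center P
  · obtain ⟨m, hm⟩ := hz ⟨g, hg⟩
    have h4 := c1 (⟨g, hg⟩ ^ k)
    have h5 := c2 ⟨g, hg⟩
    rw [← hm] at h4 h5
    simp only [map_pow, map_zpow, ← h3] at h4 h5
    have h6 : g = z.1 ^ m := (congrArg Subtype.val hm).symm
    rw [h6]
    refine h5.trans (Eq.trans ?_ h4.symm)
    rw [hψ, ← zpow_natCast, ← zpow_natCast, zpow_comm]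
  · rw [a2 g hg, a1 _ fun h4 => hg ?_]
    exact zpowers_le.2 h4 (mem_zpowers_pow_iff.2 (hk'.coprime_dvd_right (orderOf_dvd_natCard g)))

end Cfsg.Agent.S4845
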