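import Cfsg.Statements.S4850
import Cfsg.Agent.H73.RealD
import Cfsg.Agent.H2.Misc1

set_option autoImplicit false
open Cfsg

namespace Cfsg.Agent.S4850

/-- Let p be a prime and G a finite solvable group whose vanishing elements (elements at which some irreducible character is zero) of order divisible by p all have the same order, with at least one such element. Let P be a Sylow p-subgroup of G. Then the derived subgroup of P is subnormal in G and the image of P in G/O_p(G) is cyclic. -/
theorem result {G : Type*} [Group G] [Finite G] [hs : Group.IsSolvable G] (p : ℕ) [Fact p.Prime] (b : ℕ) (hvo : {n : ℕ | p ∣ n ∧ ∃ (g : G) (χ : Cfsg.IrrCharacter G), orderOf g = n ∧ (χ : G → ℂ) g = 0} = {b}) (P : Sylow p G) :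
    ((commutator ↥(P : Subgroup G)).map (P : Subgroup G).subtype).IsSubnormal ∧ IsCyclic ↥((P : Subgroup G).map (QuotientGroup.mk' (Cfsg.pCore p G))) := by
  have key : ∀ x : G, H73.RD.Van x → p ∣ orderOf x → orderOf x = b := fun x ⟨χ, hχ, h0⟩ hx => by
    rw [← Set.mem_singleton_iff, ← hvo]
    exact ⟨hx, x, ⟨χ, hχ⟩, rfl, h0⟩
  have hW : H73.RD.WH p G := H73.RD.wh_of_order fun x y hx hy h2 h3 =>
    (key x hx h2).trans (key y hy h3).symm
  have h1 := H73.RD.relIndex_dvd hW P
  have hc : IsCyclic ↥((P : Subgroup G).map (QuotientGroup.mk' (Cfsg.pCore p G))) := by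
    rw [← QuotientGroup.ker_mk' (Cfsg.pCore p G), Subgroup.relIndex_ker] at h1
    exact isCyclic_of_card_dvd_prime h1
  refine ⟨Subgroup.IsSubnormal.trans (K := Cfsg.pCore p G) ?_ ?_ (Subgroup.Normal.isSubnormal inferInstance), hc⟩
  · rw [Subgroup.map_subtype_commutator]
    refine Subgroup.commutator_le.2 fun x hx y hy => ?_
    rw [← QuotientGroup.eq_one_iff, ← QuotientGroup.mk'_apply, map_commutatorElement,
      commutatorElement_eq_one_iff_mul_comm]
    exact congrArg Subtype.val (hc.isMulCommutative.is_comm.comm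
      ⟨_, Subgroup.mem_map_of_mem _ hx⟩ ⟨_, Subgroup.mem_map_of_mem _ hy⟩)
  · haveI := H2.pCore_isNilpotent p G
    exact H2.isSubnormal_of_isNilpotent _

end Cfsg.Agent.S4850
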