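import Cfsg.Statements.S4873
import Cfsg.Agent.H40.RealOver

set_option autoImplicit false
open Cfsg

namespace Cfsg.Agent.S4873

/-- Let N be a normal subgroup of odd index in the finite group G. Then every irreducible complex character of N with Frobenius–Schur indicator +1 lies under exactly one irreducible character of G with Frobenius–Schur indicator +1. -/
theorem result {G : Type*} [Group G] [Finite G] (N : Subgroup G) [N.Normal] (hodd : Odd N.index) (φ : Cfsg.IrrCharacter ↥N) (hφ : (Nat.card ↥N : ℂ)⁻¹ * ∑ᶠ g : ↥N, (φ : ↥N → ℂ) (g * g) = 1) : ∃! χ : Cfsg.IrrCharacter G, (Nat.card G : ℂ)⁻¹ * ∑ᶠ g : G, (χ : G → ℂ) (g * g) = 1 ∧ (∑ᶠ n : ↥N, (χ : G → ℂ) n * (starRingEnd ℂ) ((φ : ↥N → ℂ) n)) ≠ 0 := by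
  have := Fintype.ofFinite G
  have := Fintype.ofFinite N
  obtain ⟨k, hk⟩ : ∃ k, Nat.card G = k + 1 := ⟨Nat.card G - 1, by have := Nat.card_pos (α := G); omega⟩
  have hcop : k.Coprime (Nat.card G) := by rw [hk]; simp
  have hpow : ∀ g : G, g ^ k = g⁻¹ := fun g =>
    eq_inv_of_mul_eq_one_left (by rw [← pow_succ, ← hk, pow_card_eq_one'])
  have hkN : ∀ g : G, g ^ (k + 1) ∈ N := fun g => by rw [← hk, pow_card_eq_one']; exact one_mem N
  have hreal : ∀ {H : Subgroup G} {ψ : H → ℂ}, Cfsg.IsCharacter H ψ →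
      ((∀ h, ψ (h ^ k) = ψ h) ↔ ∀ h, (ψ h).im = 0) := fun {H ψ} hψ => by
    refine forall_congr' fun h => ?_
    rw [show h ^ k = h⁻¹ from Subtype.ext (hpow h), H28.Cfsg.IsCharacter.apply_inv hψ,
      Complex.conj_eq_iff_im]
  have hreal' : ∀ {ψ : G → ℂ}, Cfsg.IsCharacter G ψ →
      ((∀ h, ψ (h ^ k) = ψ h) ↔ ∀ h, (ψ h).im = 0) := fun {ψ} hψ => by
    refine forall_congr' fun h => ?_
    rw [hpow, H28.Cfsg.IsCharacter.apply_inv hψ, Complex.conj_eq_iff_im]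
  rw [finsum_eq_sum_of_fintype] at hφ
  have hφ' : H30.fsInd (φ : N → ℂ) = 1 := hφ
  have hφr : ∀ n, ((φ : N → ℂ) n).im = 0 := by
    by_contra h
    rw [H30.fsInd_eq_zero_of_not_real φ.2 h] at hφ'
    exact zero_ne_one hφ'
  have hover : ∀ χ : G → ℂ, (∑ᶠ n : ↥N, χ n * (starRingEnd ℂ) ((φ : ↥N → ℂ) n)) ≠ 0 ↔
      Cfsg.classInner (fun n : N => χ n) φ ≠ 0 := fun χ => by
    rw [finsum_eq_sum_of_fintype, ← H28.card_mul_classInner (fun n : N => χ n) φ, mul_ne_zero_iff,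
      and_iff_right (H28.card_ne_zero' N)]
  obtain ⟨T, hNT, ψ, hψ, hψφ, hψf, h1, h2, h3, h4⟩ := H40.exists_pow_fixed_over hodd hcop hkN φ.2
    ((hreal (H28.Cfsg.IsIrrCharacter.isCharacter φ.2)).2 hφr)
  have := Fintype.ofFinite T
  refine ⟨⟨_, h1⟩, ⟨?_, (hover _).2 h2⟩, fun χ hχ => Subtype.ext (h4 _ χ.2 ((hover _).1 hχ.2) ?_)⟩
  · rw [finsum_eq_sum_of_fintype]
    change H30.fsInd (Cfsg.indFun T ψ) = 1
    rw [H40.fsInd_indFun hodd hNT]
    have e : (fun n : N => ψ (Subgroup.inclusion hNT n)) = φ := funext hψφ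
    exact H40.fsInd_eq_one_of_comp (Subgroup.inclusion hNT) hψ
      ((hreal (H28.Cfsg.IsIrrCharacter.isCharacter hψ)).1 hψf) (e ▸ φ.2) (e ▸ hφ')
  · refine (hreal' (H28.Cfsg.IsIrrCharacter.isCharacter χ.2)).2 ?_
    by_contra h
    have h5 := hχ.1
    rw [finsum_eq_sum_of_fintype] at h5
    exact zero_ne_one ((H30.fsInd_eq_zero_of_not_real χ.2 h).symm.trans h5)

end Cfsg.Agent.S4873
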