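import Cfsg.Statements.S4885
import Cfsg.Agent.H29.NW2

set_option autoImplicit false
open Cfsg H28

namespace Cfsg.Agent.S4885

/-- Let p and q be primes dividing the order of the finite group G, and suppose G is p-solvable and q-solvable. Fix maximal ideals of the algebraic integers containing p and q, defining the principal p-block and the principal q-block. If the irreducible characters of degree prime to p in the principal p-block are exactly the irreducible characters of degree prime to q in the principal q-block, then p = q. -/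
theorem result {G : Type*} [Group G] [Finite G] (p q : ℕ) [Fact p.Prime] [Fact q.Prime] (hp : p ∣ Nat.card G) (hq : q ∣ Nat.card G) (hps : Cfsg.IsPSolvable p G) (hqs : Cfsg.IsPSolvable q G) (Mp Mq : Ideal Cfsg.AlgInt) (hMp : Cfsg.IsPModular p Mp) (hMq : Cfsg.IsPModular q Mq) (h : ∀ χ : Cfsg.IrrCharacter G, (χ ∈ Cfsg.principalBlock Mp G ∧ ¬ p ∣ Cfsg.charDegree (χ : G → ℂ)) ↔ (χ ∈ Cfsg.principalBlock Mq G ∧ ¬ q ∣ Cfsg.charDegree (χ : G → ℂ))) : p = q := by
  classical
  by_contra hpq
  have := hMp.2.1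
  have := hMq.2.1
  have h1 := H29.NW.low_of_block (Ne.symm hpq) hMq hqs hps fun χ h1 h2 => ((h χ).2 ⟨h1, h2⟩).2
  let f := QuotientGroup.mk' (pPrimeCore p G)
  obtain ⟨P, hP⟩ := H98.exists_isSyl p (⊤ : Subgroup G)
  have hP' := H29.NW.isSyl_map_mk hP (pPrimeCore p G)
  have h2 : (⊥ : Subgroup (P.map f)) ≠ ⊤ := fun e => by
    have h3 : P.map f = ⊥ := by
      rw [eq_bot_iff]
      intro x hx
      have h3 : (⟨x, hx⟩ : P.map f) ∈ (⊥ : Subgroup (P.map f)) := e ▸ Subgroup.mem_top _
      exact Subgroup.mem_bot.2 (congrArg Subtype.val (Subgroup.mem_bot.1 h3))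
    rw [Subgroup.map_eq_bot_iff, QuotientGroup.ker_mk'] at h3
    have h4 := (H2.disjoint_pPrimeCore_of_isPGroup hP.isPGroup).eq_bot_of_le h3
    exact hP.eq_bot_iff.1 h4 (by rwa [Subgroup.card_top])
  obtain ⟨μ, hμ, h3, -, h4⟩ := H29.NW.exists_linear hP'.isPGroup h2
  have := Fintype.ofFinite (P.map f)
  obtain ⟨η, hη, h5, h6⟩ := H29.NW.exists_over_not_dvd (p := p) Fact.out
    (H29.NW.not_dvd_index_of_isSyl hP' le_rfl) hμ (by
      rw [hμ.isCharacter.charDegree_eq_one_iff.2 h3]; exact (Fact.out : p.Prime).not_dvd_one)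
  have e : charDegree (fun g : G => η g) = charDegree η := H28.charDegree_congr rfl
  have h7 := H37.pPrimeCore_le_charKer hMq ((h ⟨_, hη.inflate⟩).1
    ⟨(H38.mem_principalBlock_iff_of_isPConstrained hMp
      (H38.isPConstrained_of_isPSolvable hps)).2 (H28.le_charKer_inflate _ η), e ▸ h5⟩).1
  refine h4 (top_le_iff.1 (le_trans ?_
    ((hη.isCharacter.restrict _).charKer_le_of_constituent hμ h6)))
  rintro ⟨_, x, hx, rfl⟩ -
  have h8 := H28.apply_of_mem_charKer (h7 (H29.NW.le_of_not_dvd_index hP.isPGroup h1 hx))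
  exact (hη.isCharacter.restrict _).mem_charKer.2 h8

end Cfsg.Agent.S4885
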