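import Cfsg.Statements.S4888
import Cfsg.Agent.H38.PrinDeg
import Cfsg.Agent.H29.Codeg
import Cfsg.Agent.H36.PrinLoc

set_option autoImplicit false
open Cfsg

namespace Cfsg.Agent.S4888

/-- Let G be a finite group, p a prime and M a maximal ideal of the algebraic integers containing p. Then all height-zero irreducible characters of the principal p-block of G (equivalently, all its characters of degree prime to p) have the same degree if and only if G has a normal p-complement. -/
theorem result {G : Type*} [Group G] [Finite G] (p : ℕ) [Fact p.Prime] (M : Ideal Cfsg.AlgInt) (hM : Cfsg.IsPModular p M) : (∃ d : ℕ, ∀ χ : Cfsg.IrrCharacter G, χ ∈ (Cfsg.principalBlock M G) → Cfsg.blockHeight p (Cfsg.principalBlock M G) (χ : G → ℂ) = 0 → Cfsg.charDegree (χ : G → ℂ) = d) ↔ Cfsg.HasNormalPComplement p G := by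
  have := hM.2.1
  have hp := hM.1
  constructor
  · rintro ⟨d, hd⟩
    have h1 := hd _ H34.one_mem_principalBlock
      ((H38.blockHeight_principal_eq_zero_iff hp _).2 (by simpa [charDegree] using hp.ne_one))
    refine H38.hasNPC_of_principal_degrees hM fun χ h2 h3 => ?_
    rw [hd χ h2 ((H38.blockHeight_principal_eq_zero_iff hp χ).2 h3), ← h1]
    simp [charDegree]
  · refine fun h => ⟨1, fun χ h1 h2 => ?_⟩
    have h3 := H29.charDegree_dvd_index_of_le_charKer χ.2 _ (H37.pPrimeCore_le_charKer hM h1)
    rw [H36.index_pPrimeCore_of_hasNPC h] at h3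
    exact Nat.Coprime.eq_one_of_dvd (((Nat.Prime.coprime_iff_not_dvd hp).2
      ((H38.blockHeight_principal_eq_zero_iff hp χ).1 h2)).symm.pow_right _) h3

end Cfsg.Agent.S4888
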