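import Cfsg.Statements.S4911
import Cfsg.Agent.H40.GlSolv
import Cfsg.Agent.S0160

set_option autoImplicit false
open Cfsg

namespace Cfsg.Agent.S4911

/-- Let P and K be subgroups of a finite group with P a p-group normalizing K and K of order prime to p. Then the number of P-invariant real-valued irreducible complex characters of K equals the number of conjugacy classes of K that are real (closed under inversion) and P-invariant. Moreover, if every real-valued irreducible character of K is P-invariant, then every real element of K (one conjugate in K to its inverse) is conjugate in K to an element centralized by P. -/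
theorem result {G : Type*} [Group G] [Finite G] (p : ℕ) [Fact p.Prime] (P K : Subgroup G) (hP : IsPGroup p ↥P) (hK : ¬ p ∣ Nat.card ↥K) (hPK : P ≤ Subgroup.normalizer (K : Set G)) : Nat.card {θ : Cfsg.IrrCharacter ↥K // (∀ k : ↥K, ((θ : ↥K → ℂ) k).im = 0) ∧ (∀ x ∈ P, ∀ k k' : ↥K, (k' : G) = x * (k : G) * x⁻¹ → (θ : ↥K → ℂ) k' = (θ : ↥K → ℂ) k)} = Nat.card {c : ConjClasses ↥K // (∀ k : ↥K, ConjClasses.mk k = c → IsConj k k⁻¹) ∧ ∀ k : ↥K, ConjClasses.mk k = c → ∀ x ∈ P, ∀ k' : ↥K, (k' : G) = x * (k : G) * x⁻¹ → ConjClasses.mk k' = c} ∧ ((∀ θ : Cfsg.IrrCharacter ↥K, (∀ k : ↥K, ((θ : ↥K → ℂ) k).im = 0) → (∀ x ∈ P, ∀ k k' : ↥K, (k' : G) = x * (k : G) * x⁻¹ → (θ : ↥K → ℂ) k' = (θ : ↥K → ℂ) k)) → ∀ k : ↥K, IsConj k k⁻¹ → ∃ k' : ↥K, IsConj k k' ∧ ∀ x ∈ P, x * (k' : G) * x⁻¹ = (k' : G)) := by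
  obtain ⟨a, ha⟩ := IsPGroup.iff_card.1 hP
  have hcop : (Nat.card K).Coprime (Nat.card P) :=
    ha ▸ ((Nat.Prime.coprime_iff_not_dvd Fact.out).2 hK).symm.pow_right a
  have hsolv : Group.IsSolvable P := by
    have := hP.isNilpotent
    infer_instance
  obtain ⟨C, hC⟩ : ∃ C, C = K ⊓ Subgroup.centralizer (P : Set G) := ⟨_, rfl⟩
  have hCK : C ≤ K := hC ▸ inf_le_left
  have H := H40.pCorr_abs hP hPK hcop hC hCK
  have := Fintype.ofFinite C
  have hi := H40.invAll_of_le_centralizer (C := C) (P := P) (hC ▸ inf_le_right)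
  have hconj : ∀ {χ : K → ℂ} {β : C → ℂ},
      IsIrrCharacter _ χ → IsIrrCharacter _ β →
      H40.mult hCK (fun g => starRingEnd ℂ (χ g)) (fun g => starRingEnd ℂ (β g)) =
        H40.mult hCK χ β := fun {χ β} h1 h2 =>
    H40.mult_eq _ ((H28.classInner_conj_conj (H40.res hCK χ) β).trans
      (H28.classInner_comm_of_nat (H40.mult_spec _ (H28.Cfsg.IsIrrCharacter.isCharacter h1)
        (H28.Cfsg.IsIrrCharacter.isCharacter h2))))
  obtain ⟨e, -⟩ := H40.exists_equiv_of_rel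
    (fun (χ : {θ : Cfsg.IrrCharacter ↥K // (∀ k : ↥K, ((θ : ↥K → ℂ) k).im = 0) ∧ H40.InvAll K P θ})
      (β : {β : IrrCharacter C // ∀ k, (β.1 k).im = 0}) =>
      (H40.mult hCK χ.1 β.1 : ZMod p) ≠ 0)
    (fun χ => by
      obtain ⟨β, h1, h2, h3⟩ := H.ex_right χ.1.2 χ.2.2
      refine ⟨⟨⟨β, h1⟩, H30.real_iff_conj_eq.2 (H.uniq_right χ.1.2
        (H28.Cfsg.IsIrrCharacter.conj h1) h1 χ.2.2 (hi _) h2 ?_ h3)⟩, h3⟩
      rwa [← H30.real_iff_conj_eq.1 χ.2.1, hconj χ.1.2 h1])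
    (fun χ β β' h1 h2 => Subtype.ext (Subtype.ext
      (H.uniq_right χ.1.2 β.1.2 β'.1.2 χ.2.2 (hi _) (hi _) h1 h2)))
    (fun β => by
      obtain ⟨χ, h1, h2, h3⟩ := H.ex_left β.1.2 (hi _)
      refine ⟨⟨⟨χ, h1⟩, H30.real_iff_conj_eq.2 (H.uniq_left (H28.Cfsg.IsIrrCharacter.conj h1) h1
        β.1.2 (fun x hx g g' e => congrArg _ (h2 x hx g g' e)) h2 (hi _) ?_ h3), h2⟩, h3⟩
      rwa [← H30.real_iff_conj_eq.1 β.2, hconj h1 β.1.2])
    (fun χ χ' β h1 h2 => Subtype.ext (Subtype.ext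
      (H.uniq_left χ.1.2 χ'.1.2 β.1.2 χ.2.2 χ'.2.2 (hi _) h1 h2)))
  have hreal : ∀ {L : Type _} [Group L] (c : L),
      (∀ k : L, ConjClasses.mk k = ConjClasses.mk c → IsConj k k⁻¹) ↔ IsConj c c⁻¹ := by
    intro L _ c
    refine ⟨fun h => h c rfl, fun h k hk => ?_⟩
    have h1 := ConjClasses.mk_eq_mk_iff_isConj.1 hk
    obtain ⟨x, hx⟩ := isConj_iff.1 h1
    exact (h1.trans h).trans (isConj_iff.2 ⟨x⁻¹, by rw [← hx]; group⟩)
  have h1 := H40.card_inv_classes hPK hcop (Or.inl hsolv) hC hCK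
    (fun c => ∀ k : K, ConjClasses.mk k = c → IsConj k k⁻¹)
    (fun c => ∀ k, ConjClasses.mk k = c → IsConj k k⁻¹) (fun c => by
      rw [hreal, hreal, ← map_inv]
      exact ⟨H40.isConj_fixed_of_isConj hPK hcop (Or.inl hsolv) hC hCK, MonoidHom.map_isConj _⟩)
  have h2 := ((Nat.card_congr e).trans Cfsg.Agent.S0160.result).trans h1.symm
  have h3 : Nat.card {θ : Cfsg.IrrCharacter ↥K // (∀ k : ↥K, ((θ : ↥K → ℂ) k).im = 0) ∧ (∀ x ∈ P, ∀ k k' : ↥K, (k' : G) = x * (k : G) * x⁻¹ → (θ : ↥K → ℂ) k' = (θ : ↥K → ℂ) k)} = Nat.card {c : ConjClasses ↥K // (∀ k : ↥K, ConjClasses.mk k = c → IsConj k k⁻¹) ∧ ∀ k : ↥K, ConjClasses.mk k = c → ∀ x ∈ P, ∀ k' : ↥K, (k' : G) = x * (k : G) * x⁻¹ → ConjClasses.mk k' = c} :=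
    h2.trans (Nat.card_congr (Equiv.subtypeEquivRight fun c => and_congr_right fun _ =>
      ⟨fun h k hk x hx k' e => h x hx k k' e hk, fun h x hx k k' e hk => h k hk x hx k' e⟩))
  refine ⟨h3, fun h4 k hk => ?_⟩
  have h5 : Nat.card {θ : Cfsg.IrrCharacter ↥K // ∀ k : ↥K, ((θ : ↥K → ℂ) k).im = 0} = _ :=
    (Nat.card_congr (Equiv.subtypeEquivRight fun θ => ⟨fun h => ⟨h, h4 θ h⟩, fun h => h.1⟩)).trans h3
  rw [Cfsg.Agent.S0160.result] at h5
  obtain ⟨⟨c, h6⟩, h7⟩ := ((Nat.bijective_iff_injective_and_card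
    (fun c : {c : ConjClasses ↥K // (∀ k : ↥K, ConjClasses.mk k = c → IsConj k k⁻¹) ∧ ∀ k : ↥K, ConjClasses.mk k = c → ∀ x ∈ P, ∀ k' : ↥K, (k' : G) = x * (k : G) * x⁻¹ → ConjClasses.mk k' = c} => (⟨c.1, c.2.1⟩ : {C : ConjClasses K // ∀ g : K, ConjClasses.mk g = C → IsConj g g⁻¹}))).2
    ⟨fun a b e => Subtype.ext (congrArg (fun x => x.1) e), h5.symm⟩).2 ⟨_, (hreal k).2 hk⟩
  obtain rfl : c = ConjClasses.mk k := congrArg Subtype.val h7
  obtain ⟨c, h8, h9⟩ := H40.exists_isConj_fixed hPK hcop (Or.inl hsolv) k fun s hs g' e =>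
    ConjClasses.mk_eq_mk_iff_isConj.1 (h6.2 k rfl s hs g' e)
  exact ⟨c, h8, fun x hx => mul_inv_eq_iff_eq_mul.2 (h9 x hx)⟩

end Cfsg.Agent.S4911
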