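import Cfsg.Statements.S4912
import Cfsg.Agent.Base
import Cfsg.Agent.H32.LinCount

set_option autoImplicit false
open Cfsg

namespace Cfsg.Agent.S4912

open H28 H33 H32

/-- Let G be a finite group with a non-abelian minimal normal subgroup N, and let φ be an irreducible complex character of N with stabilizer I in G such that φ extends to an irreducible character of I with Frobenius–Schur indicator +1. Put d = φ(1)·[G : I]. Then the number of linear characters of G with Frobenius–Schur indicator +1 is at most [G : I] times the number of irreducible characters of G of degree d with Frobenius–Schur indicator +1. -/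
theorem result {G : Type*} [Group G] [Finite G] (N : Subgroup G) (hN : N.Normal) (hN1 : N ≠ ⊥) (hmin : ∀ M : Subgroup G, M.Normal → M ≤ N → M = ⊥ ∨ M = N) (hna : ¬ IsMulCommutative ↥N) (φ : Cfsg.IrrCharacter ↥N) (I : Subgroup G) (hI : ∀ g : G, g ∈ I ↔ ∀ n n' : ↥N, (n' : G) = g * (n : G) * g⁻¹ → (φ : ↥N → ℂ) n' = (φ : ↥N → ℂ) n) (hNI : N ≤ I) (hext : ∃ ψ : Cfsg.IrrCharacter ↥I, (Nat.card ↥I : ℂ)⁻¹ * ∑ᶠ g : ↥I, (ψ : ↥I → ℂ) (g * g) = 1 ∧ ∀ n : ↥N, (ψ : ↥I → ℂ) (Subgroup.inclusion hNI n) = (φ : ↥N → ℂ) n) : Nat.card {χ : Cfsg.IrrCharacter G // Cfsg.charDegree (χ : G → ℂ) = 1 ∧ (Nat.card G : ℂ)⁻¹ * ∑ᶠ g : G, (χ : G → ℂ) (g * g) = 1} ≤ I.index * Nat.card {χ : Cfsg.IrrCharacter G // Cfsg.charDegree (χ : G → ℂ) = Cfsg.charDegree (φ : ↥N → ℂ) * I.index ∧ (Nat.card G : ℂ)⁻¹ * ∑ᶠ g : G, (χ : G → ℂ) (g * g) = 1} := by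
  classical
  letI := Fintype.ofFinite G
  obtain ⟨ψ, hν, hψ⟩ := hext
  have hI' : I = inertia (φ : N → ℂ) := by
    ext g
    rw [hI, mem_inertia_iff]
    exact ⟨fun h n => h n _ rfl, fun h n n' e => by rw [← h n]; exact congrArg φ.1 (Subtype.ext e)⟩
  refine card_lin_le (le_commutator_of_minimal hmin hna) φ.2 hI' hNI ψ.2 hψ _ _
    (fun _ h => h.1) ?_
  rintro χ χ' ⟨h, hν1⟩ hi e
  constructor
  · rw [e, hi.isCharacter.charDegree_indFun, (χ.2.isCharacter.restrict I).charDegree_mul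
      ψ.2.isCharacter, charDegree_restrict, h, one_mul, mul_comm]
    congr 1
    exact (charDegree_congr (hψ 1)).symm ▸ charDegree_congr rfl
  · rw [finsum_eq_sum_of_fintype] at hν hν1 ⊢
    have hreal := (isRealAfforded_of_fsInd_eq_one χ.2 hν1).im_eq_zero
    have h1 := χ.2.isCharacter.charDegree_eq_one_iff.1 h
    have hsq : ∀ g : G, χ.1 (g * g) = 1 := fun g => by
      have e1 := χ.2.isCharacter.map_mul_of_degree_one h1 g g⁻¹
      rw [mul_inv_cancel, h1, χ.2.isCharacter.apply_inv, Complex.conj_eq_iff_im.2 (hreal g)] at e1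
      rw [χ.2.isCharacter.map_mul_of_degree_one h1, ← e1]
    have h2 : H30.fsInd ((fun t : I => χ.1 t) * ψ.1) = 1 := by
      rw [← hν, H30.fsInd]
      simp [hsq]
    have := fsInd_indFun_eq_one hi h2 (e ▸ χ'.2)
    rw [e]
    exact this

end Cfsg.Agent.S4912
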