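import Cfsg.Statements.S4914
import Cfsg.Agent.H40.GlP2

set_option autoImplicit false
open Cfsg

namespace Cfsg.Agent.S4914

/-- Let P and K be subgroups of a finite group G with P a p-group normalizing K, and suppose K has a normal Sylow p-subgroup Q. Let C be the subgroup of those k ∈ K whose commutator with every element of P lies in Q (so that C/Q is the fixed-point subgroup of P on K/Q). Then there is a bijection f from the P-invariant irreducible complex characters of K onto the P-invariant irreducible complex characters of C such that, for every P-invariant irreducible character χ of K, the multiplicity of f(χ) in the restriction of χ to C is a natural number congruent to 1 or to −1 modulo p, every other P-invariant irreducible character of C occurs in that restriction with multiplicity divisible by p, and the degrees of χ and f(χ) are congruent modulo p up to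 sign. -/
theorem result {G : Type*} [Group G] [Finite G] (p : ℕ) [Fact p.Prime] (P K Q C : Subgroup G) (hP : IsPGroup p ↥P) (hPK : P ≤ Subgroup.normalizer (K : Set G)) (hQK : Q ≤ K) (hQn : ∀ k ∈ K, ∀ q ∈ Q, k * q * k⁻¹ ∈ Q) (hQp : ∃ a : ℕ, Nat.card ↥Q = p ^ a) (hQsyl : ¬ p ∣ Q.relIndex K) (hCK : C ≤ K) (hC : ∀ k : G, k ∈ C ↔ (k ∈ K ∧ ∀ x ∈ P, x * k * x⁻¹ * k⁻¹ ∈ Q)) : ∃ f : {χ : Cfsg.IrrCharacter ↥K // (∀ x ∈ P, ∀ k k' : ↥K, (k' : G) = x * (k : G) * x⁻¹ → (χ : ↥K → ℂ) k' = (χ : ↥K → ℂ) k)} → {ξ : Cfsg.IrrCharacter ↥C // (∀ x ∈ P, ∀ k k' : ↥C, (k' : G) = x * (k : G) * x⁻¹ → (ξ : ↥C → ℂ) k' = (ξ : ↥C → ℂ) k)}, Function.Bijective f ∧ ∀ χ, (∀ ξ : {ξ : Cfsg.IrrCharacter ↥C // (∀ x ∈ P, ∀ k k' : ↥C, (k' : G) = x * (k : G) * x⁻¹ → (ξ : ↥C → ℂ) k' = (ξ : ↥C → ℂ) k)}, ∃ m : ℕ, (Nat.card ↥C : ℂ)⁻¹ * ∑ᶠ c : ↥C, (χ.1 : ↥K → ℂ) (Subgroup.inclusion hCK c) * (starRingEnd ℂ) ((ξ.1 :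 ↥C → ℂ) c) = (m : ℂ) ∧ (ξ = f χ → ((m : ZMod p) = 1 ∨ (m : ZMod p) = -1)) ∧ (ξ ≠ f χ → p ∣ m)) ∧ ((Cfsg.charDegree ((f χ).1 : ↥C → ℂ) : ZMod p) = (Cfsg.charDegree (χ.1 : ↥K → ℂ) : ZMod p) ∨ (Cfsg.charDegree ((f χ).1 : ↥C → ℂ) : ZMod p) = -(Cfsg.charDegree (χ.1 : ↥K → ℂ) : ZMod p)) := by
  have := Fintype.ofFinite C
  have hKQ : K ≤ Subgroup.normalizer (Q : Set G) := fun k hk =>
    Subgroup.mem_normalizer_fintype (hQn k hk)
  have hPQ : P ≤ Subgroup.normalizer (Q : Set G) := by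
    obtain ⟨a, ha⟩ := hQp
    intro x hx
    refine Subgroup.mem_normalizer_fintype fun q hq => ?_
    have h1 : x * q * x⁻¹ ∈ K := (Subgroup.mem_normalizer_iff.1 (hPK hx) q).1 (hQK hq)
    have h2 : (x * q * x⁻¹) ^ p ^ a = 1 := by
      rw [conj_pow, ← ha]
      have : q ^ Nat.card Q = 1 := congrArg Subtype.val (pow_card_eq_one' (x := (⟨q, hq⟩ : Q)))
      simp [this]
    have h3 := H40.pow_relIndex_mem' hKQ h1
    obtain ⟨j, hj⟩ := exists_pow_eq_self_of_coprime (x := x * q * x⁻¹) (n := Q.relIndex K)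
      ((((Nat.Prime.coprime_iff_not_dvd Fact.out).2 hQsyl).symm.pow_right a).coprime_dvd_right
        (orderOf_dvd_of_pow_eq_one h2))
    exact hj ▸ Q.pow_mem h3 j
  have hPC : P ≤ Subgroup.normalizer (C : Set G) := fun x hx =>
    H40.mem_normalizer_of_fix hC (hPK hx) (hPQ hx) (Subgroup.le_normalizer hx)
  have H := H40.pCorr_of_fix hQK hKQ hQsyl P hP hPK hPQ hCK hC
  choose f hf1 hf2 hf3 using fun χ : {χ : Cfsg.IrrCharacter ↥K // H40.InvAll K P χ} =>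
    H.ex_right χ.1.2 χ.2
  refine ⟨fun χ => ⟨⟨f χ, hf1 χ⟩, hf2 χ⟩, ⟨fun χ χ' e => ?_, fun β => ?_⟩, fun χ => ⟨fun ξ => ?_, ?_⟩⟩
  · have e' : f χ = f χ' := congrArg (fun x => x.1.1) e
    exact Subtype.ext (Subtype.ext
      (H.uniq_left χ.1.2 χ'.1.2 (hf1 χ) χ.2 χ'.2 (hf2 χ) (hf3 χ) (e' ▸ hf3 χ')))
  · obtain ⟨χ, h1, h2, h3⟩ := H.ex_left β.1.2 β.2
    exact ⟨⟨⟨χ, h1⟩, h2⟩, Subtype.ext (Subtype.ext
      (H.uniq_right h1 (hf1 _) β.1.2 h2 (hf2 _) β.2 (hf3 ⟨⟨χ, h1⟩, h2⟩) h3))⟩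
  · refine ⟨H40.mult hCK χ.1 ξ.1, ?_, ?_, fun hne => ?_⟩
    · rw [finsum_eq_sum_of_fintype]
      exact H40.mult_spec hCK (H28.Cfsg.IsIrrCharacter.isCharacter χ.1.2)
        (H28.Cfsg.IsIrrCharacter.isCharacter ξ.1.2)
    · rintro rfl
      exact H.pm χ.1.2 (hf1 χ) χ.2 (hf2 χ) (hf3 χ)
    · by_contra h1
      exact hne (Subtype.ext (Subtype.ext (H.uniq_right χ.1.2 ξ.1.2 (hf1 χ) χ.2 ξ.2 (hf2 χ)
        (mt (ZMod.natCast_eq_zero_iff _ _).1 h1) (hf3 χ))))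
  · have h1 := H.charDegree_eq hP hPK hPC χ.1.2 (hf1 χ) χ.2 (hf2 χ) (hf3 χ)
    rcases H.pm χ.1.2 (hf1 χ) χ.2 (hf2 χ) (hf3 χ) with e | e <;> rw [e] at h1 <;> simp [h1]

end Cfsg.Agent.S4914
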