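import Cfsg.Statements.S4916
import Cfsg.Agent.H35.BF
import Cfsg.Agent.H36.DefectCard
import Cfsg.Agent.H38.CoverB

set_option autoImplicit false
open Cfsg

namespace Cfsg.Agent.S4916

/-- Let G be a finite group, p a prime and M a maximal ideal of the algebraic integers containing p. Then the principal character is the only irreducible character of degree prime to p in the principal p-block of G if and only if p does not divide the order of G. -/
theorem result {G : Type*} [Group G] [Finite G] (p : ℕ) [Fact p.Prime] (M : Ideal Cfsg.AlgInt) (hM : Cfsg.IsPModular p M) : (∀ χ : Cfsg.IrrCharacter G, χ ∈ Cfsg.principalBlock M G → ¬ p ∣ Cfsg.charDegree (χ : G → ℂ) → (χ : G → ℂ) = fun _ => (1 : ℂ)) ↔ ¬ p ∣ Nat.card G := by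
  classical
  have := hM.2.1
  have hp : p.Prime := hM.1
  have := Fintype.ofFinite G
  set e : IrrCharacter G := ⟨fun _ => 1, H28.isIrrCharacter_one⟩ with he
  have he0 : e ∈ principalBlock M G := H34.one_mem_principalBlock
  constructor
  · intro h hpG
    have h1 := H35.factorization_sum_deg_sq hM (H34.isPBlock_principalBlock (M := M) (G := G))
    rw [H36.blockDefect_principalBlock hp] at h1
    have ha : 0 < (Nat.card G).factorization p := hp.factorization_pos_of_dvd Nat.card_pos.ne' hpG
    have h2 : p ∣ ∑ ψ ∈ H35.bF (principalBlock M G), charDegree (ψ : G → ℂ) ^ 2 :=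
      Nat.dvd_of_factorization_pos (by omega)
    rw [← Finset.add_sum_erase _ _ (H35.mem_bF.2 he0)] at h2
    have h3 : p ∣ ∑ ψ ∈ (H35.bF (principalBlock M G)).erase e, charDegree (ψ : G → ℂ) ^ 2 := by
      refine Finset.dvd_sum fun ψ hψ => ?_
      rw [Finset.mem_erase, H35.mem_bF] at hψ
      have : p ∣ charDegree (ψ : G → ℂ) := by
        by_contra hn
        exact hψ.1 (Subtype.ext (h ψ hψ.2 hn))
      exact this.trans (dvd_pow_self _ two_ne_zero)
    have h4 := (Nat.dvd_add_left h3).1 h2
    have h5 : charDegree (e : G → ℂ) = 1 := H35.charDegree_one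
    rw [h5, one_pow] at h4
    exact hp.one_lt.ne' (Nat.dvd_one.1 h4)
  · intro h χ hχ _
    have h1 : principalBlock M G = {e} := H38.blockOf_eq_singleton_of_not_dvd hM h e
    rw [h1, Set.mem_singleton_iff] at hχ
    rw [hχ]

end Cfsg.Agent.S4916
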