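import Cfsg.Statements.S4923
import Cfsg.Agent.H3.DSQ
import Cfsg.Agent.H29.GalChar
import Cfsg.Agent.H28.CharBasis

set_option autoImplicit false
open Cfsg

namespace Cfsg.Agent.S4923

open Subgroup H28 H29

theorem adj_le {S T : Set ℂ} (hS : ∀ s ∈ S, IsIntegral ℚ s) :
    IntermediateField.adjoin ℚ S ≤ IntermediateField.adjoin ℚ T ↔
      ∀ σ : ℂ ≃+* ℂ, (∀ t ∈ T, σ t = t) → ∀ s ∈ S, σ s = s := by
  refine ⟨fun h σ hσ s hs => ?_, fun h => IntermediateField.adjoin_le_iff.2 fun s hs => ?_⟩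
  · have := h (IntermediateField.subset_adjoin ℚ S hs)
    clear hs
    induction this using IntermediateField.adjoin_induction with
    | mem x hx => exact hσ x hx
    | algebraMap q => simp
    | add x y _ _ hx hy => rw [map_add, hx, hy]
    | inv x _ hx => rw [map_inv₀, hx]
    | mul x y _ _ hx hy => rw [map_mul, hx, hy]
  · obtain ⟨q, rfl⟩ := mem_range_of_forall_algEquiv_fixed (F := IntermediateField.adjoin ℚ T)
      (hS s hs).tower_top fun σ => h σ.toRingEquiv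
        (fun t ht => σ.commutes ⟨t, IntermediateField.subset_adjoin ℚ T ht⟩) s hs
    exact q.2

theorem adj_eq {G : Type*} [Group G] [Finite G] (g : G) {ζ ε : ℂ} (hζ : ζ ^ Nat.card G = 1)
    (hε : ε = 1 ∨ ε = -1) :
    IntermediateField.adjoin ℚ {z : ℂ | ∃ χ : IrrCharacter G, χ.1 g = z} =
      IntermediateField.adjoin ℚ {ζ + ε * ζ⁻¹} ↔
      ∀ m : ℕ, m.Coprime (Nat.card G) → (IsConj g (g ^ m) ↔ ζ ^ m = ζ ∨ ζ ^ (m + 1) = ε) := by
  have n0 : Nat.card G ≠ 0 := Nat.card_pos.ne'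
  have z0 : ζ ≠ 0 := fun e => by simp [e, n0] at hζ
  have zi : IsIntegral ℚ ζ := IsIntegral.of_pow Nat.card_pos (hζ ▸ isIntegral_one)
  have key : ∀ (σ : ℂ ≃+* ℂ) (m : ℕ), (∀ z : ℂ, z ^ Nat.card G = 1 → σ z = z ^ m) →
      ((∀ s ∈ {z : ℂ | ∃ χ : IrrCharacter G, χ.1 g = z}, σ s = s) ↔ IsConj g (g ^ m)) ∧
      ((∀ t ∈ ({ζ + ε * ζ⁻¹} : Set ℂ), σ t = t) ↔ ζ ^ m = ζ ∨ ζ ^ (m + 1) = ε) := fun σ m h => by
    have h1 : ∀ χ : IrrCharacter G, σ (χ.1 g) = χ.1 (g ^ m) := fun χ =>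
      χ.2.isCharacter.ringHom_apply σ.toRingHom n0 h g pow_card_eq_one'
    have h2 : σ ε = ε := by rcases hε with rfl | rfl <;> simp
    refine ⟨⟨fun h3 => isConj_iff_irr.2 fun χ => by rw [← h1, h3 _ ⟨χ, rfl⟩], ?_⟩, ?_⟩
    · rintro h3 _ ⟨χ, rfl⟩
      rw [h1, isConj_iff_irr.1 h3]
    · have := pow_ne_zero m z0
      simp only [Set.mem_singleton_iff, forall_eq, map_add, map_mul, map_inv₀, h ζ hζ, h2]
      rw [← sub_eq_zero, show ζ ^ m + ε * (ζ ^ m)⁻¹ - (ζ + ε * ζ⁻¹) =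
        (ζ ^ m - ζ) * (ζ ^ (m + 1) - ε) * (ζ ^ m * ζ)⁻¹ by field_simp; ring]
      simp [sub_eq_zero, this, z0]
  rw [le_antisymm_iff, adj_le, adj_le]
  · refine ⟨fun ⟨h1, h2⟩ m hm => ?_, fun h => ⟨fun σ => ?_, fun σ => ?_⟩⟩
    · obtain ⟨σ, hσ⟩ := exists_ringEquiv_pow n0 hm
      rw [← (key σ m hσ).1, ← (key σ m hσ).2]
      exact ⟨h2 σ, h1 σ⟩
    all_goals
      obtain ⟨m, hm, hσ⟩ := exists_pow_of_ringEquiv σ n0
      rw [(key σ m hσ).1, (key σ m hσ).2, h m hm]
      exact id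
  · rintro _ rfl
    exact zi.add (IsIntegral.mul (by rcases hε with rfl | rfl <;> simp [isIntegral_one]) zi.inv)
  · rintro _ ⟨χ, rfl⟩
    exact (χ.2.isCharacter.isIntegral g).tower_top

theorem fusion {G : Type*} [Group G] [Finite G] (P : Sylow 2 G) {g : G} {k : ℕ}
    (hg : orderOf g = 2 ^ (k + 1)) (hP : P.1 ≤ normalizer (zpowers g : Set G)) :
    (∀ x ∈ normalizer (zpowers g : Set G), ∃ y ∈ P.1, y * g * y⁻¹ = x * g * x⁻¹) ∧
      (¬ P.1 ≤ centralizer {g} → 2 ∣ (centralizer ({g} : Set G)).index) := by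
  have h1 : IsPGroup 2 (zpowers g).normalizerMonoidHom.range := (IsPGroup.of_card (n := k) (by
    rw [IsCyclic.card_mulAut, Nat.card_zpowers, hg, Nat.totient_prime_pow_succ Nat.prime_two]
    exact mul_one _)).to_subgroup _
  have h2 := ((P.subtype hP).mapSurjective
    (zpowers g).normalizerMonoidHom.rangeRestrict_surjective).is_maximal' (h1.to_subgroup ⊤) le_top
  refine ⟨fun x hx => ?_, fun h => ?_⟩
  · obtain ⟨y, hy, e⟩ : (zpowers g).normalizerMonoidHom.rangeRestrict ⟨x, hx⟩ ∈ _ := h2 ▸ mem_top _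
    exact ⟨y, hy, congrArg (fun φ : (zpowers g).normalizerMonoidHom.range =>
      (φ.1 ⟨g, mem_zpowers g⟩ : G)) e⟩
  · have h3 : centralizer (zpowers g : Set G) = centralizer {g} := by
      rw [zpowers_eq_closure, centralizer_closure]
    obtain ⟨j, hj⟩ := IsPGroup.iff_card.1 h1
    rw [← index_ker, normalizerMonoidHom_ker, h3] at hj
    refine Dvd.dvd.trans ?_ (relIndex_dvd_index_of_le (h3 ▸ centralizer_le_normalizer _))
    rw [relIndex, hj]
    refine dvd_pow_self 2 fun e => h (hP.trans (relIndex_eq_one.1 ?_))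
    rw [relIndex, hj, e, pow_zero]

/-- Let G be a finite group with Sylow 2-subgroup P of order 2^n ≥ 8, and let ζ be a primitive 2^(n−1)-th root of unity in ℂ. Then the commutator subgroup of P has index 4 in P if and only if there is an element g of P whose conjugacy class in G has even size and such that the field generated over ℚ by the values at g of all irreducible complex characters of G equals ℚ(ζ + ζ⁻¹) or ℚ(ζ − ζ⁻¹). -/
theorem result {G : Type*} [Group G] [Finite G] (P : Sylow 2 G) (n : ℕ) (hn : 3 ≤ n) (hP : Nat.card P = 2 ^ n) (ζ : ℂ) (hζ : IsPrimitiveRoot ζ (2 ^ (n - 1))) :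
    (commutator ↥P).index = 4 ↔
      ∃ g : G, g ∈ (P : Subgroup G) ∧ 2 ∣ (Subgroup.centralizer ({g} : Set G)).index ∧
        (IntermediateField.adjoin ℚ {z : ℂ | ∃ χ : Cfsg.IrrCharacter G, (χ : G → ℂ) g = z} = IntermediateField.adjoin ℚ ({ζ + ζ⁻¹} : Set ℂ) ∨
          IntermediateField.adjoin ℚ {z : ℂ | ∃ χ : Cfsg.IrrCharacter G, (χ : G → ℂ) g = z} = IntermediateField.adjoin ℚ ({ζ - ζ⁻¹} : Set ℂ)) := by
  obtain ⟨n, rfl⟩ : ∃ k, n = k + 3 := ⟨n - 3, by omega⟩
  have n0 : Nat.card G ≠ 0 := Nat.card_pos.ne'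
  have hz : ζ ^ Nat.card G = 1 := (hζ.pow_eq_one_iff_dvd _).2
    ((pow_dvd_pow 2 (by omega)).trans (hP ▸ card_subgroup_dvd_card P.1))
  have z0 : ζ ≠ 0 := hζ.ne_zero (by positivity)
  have hm : ζ ^ 2 ^ (n + 1) = -1 :=
    (hζ.pow (by positivity) (pow_succ 2 (n + 1))).eq_neg_one_of_two_right
  rw [show ζ + ζ⁻¹ = ζ + 1 * ζ⁻¹ by ring, show ζ - ζ⁻¹ = ζ + -1 * ζ⁻¹ by ring]
  simp only [adj_eq _ hz (Or.inl rfl), adj_eq _ hz (Or.inr rfl)]
  refine ⟨fun h => ?_, fun ⟨g, hg, h1, h2⟩ => ?_⟩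
  · obtain ⟨a, b, h⟩ := H3.exists_dsq_of_index_commutator n hP h
    have ha : orderOf (a : G) = 2 ^ (n + 1 + 1) := by rw [orderOf_coe, h.ord]
    have hN : P.1 ≤ normalizer (zpowers (a : G) : Set G) := fun y hy =>
      mem_normalizer_fintype fun _ ⟨i, e⟩ => by
        obtain ⟨j, hj⟩ := h.normal.conj_mem _ (zpow_mem (mem_zpowers a) i) ⟨y, hy⟩
        exact ⟨j, by rw [← e]; simpa using congrArg Subtype.val hj⟩
    obtain ⟨f1, f2⟩ := fusion P ha hN
    have h3 : ∀ i j : ℕ, (a : G) ^ i = a ^ j ↔ ζ ^ i = ζ ^ j := fun i j => by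
      rw [pow_eq_pow_iff_modEq, (hζ.isOfFinOrder (by positivity)).pow_eq_pow_iff_modEq, ha,
        ← hζ.eq_orderOf]; rfl
    have h4 : ∀ m : ℕ, IsConj (a : G) (a ^ m) ↔ (a : G) ^ m = a ∨ (a : G) ^ m = b * a * b⁻¹ := by
      refine fun m => ⟨fun hc => ?_, ?_⟩
      · obtain ⟨x, hx⟩ := isConj_iff.1 hc
        obtain ⟨y, hy, e⟩ := f1 x (mem_normalizer_fintype fun _ ⟨i, e⟩ => by
          rw [← e, ← conj_zpow, hx]
          exact zpow_mem (pow_mem (mem_zpowers _) m) i)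
        rw [← hx, ← e]
        by_cases h5 : (⟨y, hy⟩ : P.1) ∈ zpowers a
        · obtain ⟨i, e⟩ := h5
          have : y = a ^ i := by simpa using (congrArg Subtype.val e).symm
          exact Or.inl (by rw [this]; group)
        · exact Or.inr (congrArg Subtype.val (h.conj_eq h5))
      · rintro (e | e) <;> rw [e]
        exact isConj_iff.2 ⟨b, rfl⟩
    refine ⟨a, a.2, f2 fun e => h.not_commute h.notMem
      (Subtype.ext (mem_centralizer_singleton_iff.1 (e b.2))), ?_⟩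
    have h5 : ∀ m : ℕ, (a : G) ^ m = a ↔ ζ ^ m = ζ := fun m => by simpa using h3 m 1
    obtain e | e : b * a * b⁻¹ * a = a ^ 0 ∨ b * a * b⁻¹ * a = a ^ 2 ^ (n + 1) := by
      rcases h.cases with ⟨-, e⟩ | ⟨-, e⟩ | ⟨-, -, e⟩
      · simp [e]
      · simp [e]
      · rw [e, ← pow_succ, Nat.sub_add_cancel Nat.one_le_two_pow]
        exact Or.inr rfl
    · refine Or.inl fun m _ => (h4 m).trans (or_congr (h5 m) ?_)
      rw [← pow_zero ζ, ← h3, ← mul_left_inj (a : G), ← pow_succ]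
      exact Eq.congr_right (congrArg Subtype.val e)
    · refine Or.inr fun m _ => (h4 m).trans (or_congr (h5 m) ?_)
      rw [← hm, ← h3, ← mul_left_inj (a : G), ← pow_succ]
      exact Eq.congr_right (congrArg Subtype.val e)
  · have hc : ¬ P.1 ≤ centralizer {g} := fun e =>
      P.not_dvd_index (h1.trans (index_dvd_of_le e))
    have hna : ¬ IsMulCommutative P := fun e => hc fun y hy => mem_centralizer_singleton_iff.2
      (congrArg Subtype.val (e.is_comm.comm (⟨y, hy⟩ : P.1) ⟨g, hg⟩))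
    rcases n with _ | n
    · have h3 : centralizer ({⟨g, hg⟩} : Set P.1) ≠ ⊤ := fun e => hc fun y hy => by
        have := mem_centralizer_singleton_iff.1 (e.ge (mem_top (⟨y, hy⟩ : P.1)))
        exact mem_centralizer_singleton_iff.2 (congrArg Subtype.val this)
      have : Nontrivial P.1 := Finite.one_lt_card_iff_nontrivial.1 (by rw [hP]; norm_num)
      have := P.isPGroup'.center_nontrivial
      have h4 : center P.1 < centralizer {⟨g, hg⟩} := (center_le_centralizer _).lt_of_ne fun e =>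
        h3 (centralizer_eq_top_iff_subset.2 (Set.singleton_subset_iff.2
          (e ▸ mem_centralizer_singleton_iff.2 rfl : _ ∈ center P.1)))
      obtain ⟨i, i3, hi⟩ := (Nat.dvd_prime_pow Nat.prime_two).1
        ((card_subgroup_dvd_card (centralizer ({⟨g, hg⟩} : Set P.1))).trans hP.dvd)
      have h5 := (card_le_of_le h4.le).lt_of_ne fun e => h4.ne (eq_of_le_of_card_ge h4.le e.ge)
      have h6 := Finite.one_lt_card (α := center P.1)
      obtain ⟨m, a, b, h⟩ := H3.exists_dsq_of_card_centralizer P.isPGroup' hna (x := ⟨g, hg⟩) (by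
        have := mt (eq_top_of_card_eq _) h3
        rw [hP, hi] at this
        interval_cases i <;> omega)
      exact h.index_commutator
    obtain ⟨m, m1, m2, m3⟩ := Nat.forall_exists_prime_gt_and_modEq (Nat.card G)
      (q := 2 ^ (n + 3)) (a := 1 + 2 ^ (n + 2)) (by positivity)
      (Nat.Coprime.pow_right _ (Nat.coprime_two_right.2 (by
        rw [pow_succ]; exact ⟨2 ^ (n + 1), by ring⟩)))
    have h3 : ¬ IsConj g (g ^ m) := fun hc => by
      have h3 : ζ ^ m = -ζ := by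
        rw [pow_eq_pow_of_modEq m3 hζ.pow_eq_one, pow_add, pow_one, hm, mul_neg_one]
      have h4 : ζ ^ m ≠ ζ := fun e => z0 (by linear_combination (e - h3) / 2 * (-1))
      have h5 : ∀ ε : ℂ, ε ^ 2 = 1 → ζ ^ (m + 1) ≠ ε := fun ε h e => by
        have := Nat.le_of_dvd four_pos ((hζ.pow_eq_one_iff_dvd 4).1 (by
          rw [← h, ← e, pow_succ ζ m, h3]; ring))
        have := Nat.pow_le_pow_right two_pos (show 3 ≤ n + 1 + 3 - 1 by omega)
        omega
      have h6 := Nat.coprime_of_lt_prime n0 m1 m2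
      rcases h2 with h2 | h2
      · exact ((h2 m h6).1 hc).elim h4 (h5 _ (by ring))
      · exact ((h2 m h6).1 hc).elim h4 (h5 _ (by ring))
    obtain ⟨i, i3, hi⟩ := (Nat.dvd_prime_pow Nat.prime_two).1
      (hP ▸ orderOf_dvd_natCard (⟨g, hg⟩ : P.1))
    have h4 : i = n + 3 := by
      by_contra e
      rcases Nat.lt_or_ge i (n + 3) with e | e
      · refine h3 ?_
        rw [show g ^ m = g ^ 1 from pow_eq_pow_iff_modEq.2 ?_, pow_one]
        rw [← orderOf_mk g hg, hi]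
        have := pow_dvd_pow 2 (Nat.lt_succ_iff.1 e)
        exact (m3.of_dvd (this.trans (pow_dvd_pow 2 (by omega)))).trans
          (Nat.modEq_iff_dvd' le_self_add |>.2 (by simpa using this)).symm
      · have := isCyclic_of_orderOf_eq_card (⟨g, hg⟩ : P.1) (by rw [hi, hP]; congr 1; omega)
        exact hna inferInstance
    subst h4
    obtain ⟨a, b, h5, h | ⟨-, -, -, -, h⟩⟩ := H3.dsq_or_modular_of_cyclic_index_two (n + 2) hP
      (zpowers ⟨g, hg⟩) inferInstance (Nat.eq_of_mul_eq_mul_left (Nat.two_pow_pos (n + 3)) (by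
        rw [← hi, ← Nat.card_zpowers, card_mul_index, hP, Nat.card_zpowers, hi]; rfl)) hna
    · exact h.index_commutator
    · obtain ⟨j, hj⟩ : (⟨g, hg⟩ : P.1) ∈ zpowers a := h5 ▸ mem_zpowers _
      refine (h3 (isConj_iff.2 ⟨b, congrArg Subtype.val (show b * ⟨g, hg⟩ * b⁻¹ = ⟨g, hg⟩ ^ m from ?_)⟩)).elim
      rw [pow_eq_pow_iff_modEq.2 (hi ▸ m3), ← hj, ← conj_zpow, h, ← zpow_natCast, ← zpow_natCast,
        ← zpow_mul, ← zpow_mul, mul_comm]

end Cfsg.Agent.S4923
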