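import Cfsg.Statements.S4926
import Cfsg.Agent.H35.K5Wrap
import Cfsg.Agent.H95.K0C

set_option autoImplicit false
open Cfsg

namespace Cfsg.Agent.S4926

/-- Let G be a finite group, p a prime, M a maximal ideal of the algebraic integers containing p, and P a Sylow p-subgroup of G with normalizer N and centralizer C. Then the principal p-block of G contains exactly five irreducible characters of degree not divisible by p if and only if either P has order 5 and the index of C in N is 1 or 4, or P has order 7 and the index of C in N is 2 or 3. -/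
theorem result {G : Type*} [Group G] [Finite G] (p : ℕ) [Fact p.Prime] (M : Ideal Cfsg.AlgInt) (hM : Cfsg.IsPModular p M) (P : Sylow p G) :
    Nat.card {χ : Cfsg.IrrCharacter G // χ ∈ Cfsg.principalBlock M G ∧ ¬ p ∣ Cfsg.charDegree (χ : G → ℂ)} = 5 ↔
      ((Nat.card P = 5 ∧ ((Subgroup.centralizer ((P : Subgroup G) : Set G)).relIndex (Subgroup.normalizer ((P : Subgroup G) : Set G)) = 1 ∨ (Subgroup.centralizer ((P : Subgroup G) : Set G)).relIndex (Subgroup.normalizer ((P : Subgroup G) : Set G)) = 4)) ∨
        (Nat.card P = 7 ∧ ((Subgroup.centralizer ((P : Subgroup G) : Set G)).relIndex (Subgroup.normalizer ((P : Subgroup G) : Set G)) = 2 ∨ (Subgroup.centralizer ((P : Subgroup G) : Set G)).relIndex (Subgroup.normalizer ((P : Subgroup G) : Set G)) = 3))) := by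
  have := hM.2.1
  cases nonempty_fintype G
  rw [H47.K0.card_ZF]
  exact H35.K5.five hM P (fun h2 h => H95.K0.not_sq hM h2 (Or.inr h)) rfl

end Cfsg.Agent.S4926
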