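import Cfsg.Agent.Base
import Cfsg.Agent.H7.Tate
import Cfsg.Agent.H7.NPC
import Cfsg.Agent.H18.PiCore
import Cfsg.Agent.H2.PrimeCore
import Cfsg.Agent.H28.Degree
import Cfsg.Statements.S4931

set_option autoImplicit false
open Cfsg

namespace Cfsg.Agent.S4931

open H28 Subgroup

variable {G : Type*} [Group G] [Finite G] {p : ℕ} [hp : Fact p.Prime]

theorem npc (P : Sylow p G) (hP : normalizer ((P : Subgroup G) : Set G) ≤ P) (K : Subgroup G)
    [K.Normal] (h1 : ⁅(P : Subgroup G), (P : Subgroup G)⁆ ≤ K)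
    (h2 : K ⊓ P ≤ ⁅(P : Subgroup G), (P : Subgroup G)⁆) : HasNormalPComplement p G := by
  set π := QuotientGroup.mk' K
  let Q := P.mapSurjective (QuotientGroup.mk'_surjective K)
  have hQ : normalizer ((Q : Subgroup (G ⧸ K)) : Set (G ⧸ K)) ≤
      centralizer ((Q : Subgroup (G ⧸ K)) : Set (G ⧸ K)) := by
    intro x hx
    obtain ⟨x, rfl⟩ := QuotientGroup.mk'_surjective K x
    have h3 : x ∈ normalizer (((P : Subgroup G) ⊔ K : Subgroup G) : Set G) := by
      rw [← QuotientGroup.ker_mk' K, ← comap_map_eq]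
      exact le_normalizer_comap _ hx
    have h4 : x ∈ (P : Subgroup G) ⊔ K := by
      set M := normalizer (((P : Subgroup G) ⊔ K : Subgroup G) : Set G)
      have hM : (P : Subgroup G) ⊔ K ≤ M := le_normalizer
      have : (((P : Subgroup G) ⊔ K).subgroupOf M).Normal := normal_in_normalizer
      have h5 := Sylow.normalizer_sup_eq_top' (N := ((P : Subgroup G) ⊔ K).subgroupOf M)
        (P.subtype (le_sup_left.trans hM)) fun y hy => mem_sup_left hy
      refine (eq_top_iff.1 h5).trans (sup_le (fun y hy => ?_) le_rfl) (mem_top (⟨x, h3⟩ : M))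
      refine mem_sup_left (hP (mem_normalizer_fintype fun z hz => ?_))
      exact (mem_normalizer_iff.1 hy ⟨z, hM (mem_sup_left hz)⟩).1 hz
    obtain ⟨a, ha, k, hk, rfl⟩ := mem_sup_of_normal_right.1 h4
    rintro _ ⟨b, hb, rfl⟩
    rw [map_mul, show π k = 1 from (QuotientGroup.eq_one_iff k).2 hk, mul_one,
      ← commutatorElement_eq_one_iff_mul_comm, ← map_commutatorElement]
    exact (QuotientGroup.eq_one_iff _).2 (h1 (commutator_mem_commutator hb ha))
  have h3 := MonoidHom.ker_transferSylow_isComplement' Q hQ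
  refine H7.hasNPC_of_inf_pResidual_le_frattini P fun x hx => H3.commutator_le_frattini_pgroup
    P.isPGroup' ?_
  have h4 : pResidual p G ≤ (MonoidHom.transferSylow Q hQ).ker.comap π :=
    H7.pResidual_le_of_isPGroup_quotient (by
      obtain ⟨k, hk⟩ := IsPGroup.iff_card.1 Q.isPGroup'
      refine IsPGroup.of_card (n := k) ?_
      rw [← index_eq_card, index_comap_of_surjective _ (QuotientGroup.mk'_surjective K),
        h3.symm.index_eq_card, hk])
  have h5 := h2 ⟨(QuotientGroup.eq_one_iff _).1
    (disjoint_def.1 h3.disjoint (h4 hx) (mem_map_of_mem π x.2)), x.2⟩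
  rw [← (P : Subgroup G).map_subtype_commutator] at h5
  obtain ⟨y, hy, h6⟩ := h5
  rwa [← show y = x from Subtype.ext h6]

/-- Let G be a finite group, p a prime and P a Sylow p-subgroup of G with normalizer N. Then every irreducible complex character of N of degree not divisible by p is the restriction of an irreducible character of G if and only if there is a normal subgroup K of G with KN = G and K ∩ N = 1. -/
theorem result {G : Type*} [Group G] [Finite G] (p : ℕ) [Fact p.Prime] (P : Sylow p G) :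
    (∀ θ : Cfsg.IrrCharacter ↥(Subgroup.normalizer ((P : Subgroup G) : Set G)), ¬ p ∣ Cfsg.charDegree (θ : ↥(Subgroup.normalizer ((P : Subgroup G) : Set G)) → ℂ) →
        ∃ χ : Cfsg.IrrCharacter G, ∀ x : ↥(Subgroup.normalizer ((P : Subgroup G) : Set G)), (χ : G → ℂ) x = (θ : ↥(Subgroup.normalizer ((P : Subgroup G) : Set G)) → ℂ) x) ↔
      ∃ K : Subgroup G, K.Normal ∧ K ⊔ Subgroup.normalizer ((P : Subgroup G) : Set G) = ⊤ ∧ K ⊓ Subgroup.normalizer ((P : Subgroup G) : Set G) = ⊥ := by
  set N := normalizer ((P : Subgroup G) : Set G)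
  have hPN : (P : Subgroup G) ≤ N := le_normalizer
  constructor
  · intro h
    have key : ∀ A : Subgroup G, A ≤ N → (A.subgroupOf N).Normal →
        ⁅(P : Subgroup G), (P : Subgroup G)⁆ ≤ A → normalClosure (A : Set G) ⊓ N ≤ A := by
      intro A hA hn h1 x hx
      refine mem_of_forall_charKer (A.subgroupOf N) (g := ⟨x, hx.2⟩) fun θ hθ h2 => ?_
      obtain ⟨η, hη, h3⟩ := hθ.exists_quotient _ h2
      have : ((P : Subgroup G).subgroupOf N).Normal := normal_in_normalizer
      have := this.map _ (QuotientGroup.mk'_surjective (A.subgroupOf N))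
      have h4 := hη.charDegree_dvd_index
        (((P : Subgroup G).subgroupOf N).map (QuotientGroup.mk' (A.subgroupOf N))) (by
          rintro _ ⟨a, ha, rfl⟩ _ ⟨b, hb, rfl⟩
          rw [← commutatorElement_eq_one_iff_mul_comm, ← map_commutatorElement]
          exact (QuotientGroup.eq_one_iff _).2 (h1 (commutator_mem_commutator ha hb)))
      obtain ⟨χ, hχ⟩ := h ⟨θ, hθ⟩ fun h5 => (P.subtype hPN).not_dvd_index
        (((show charDegree η = charDegree θ from charDegree_congr (h3 1)) ▸ h5).trans (h4.trans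
          (index_map_dvd _ (QuotientGroup.mk'_surjective _))))
      have := χ.2.charKer_normal
      have h5 : normalClosure (A : Set G) ≤ charKer χ.1 := normalClosure_le_normal fun a ha =>
        χ.2.mem_charKer.2 ((hχ ⟨a, hA ha⟩).trans ((apply_of_mem_charKer (h2 ha)).trans (hχ 1).symm))
      exact hθ.mem_charKer.2 ((hχ _).symm.trans ((apply_of_mem_charKer (h5 hx.1)).trans (hχ 1)))
    have hc : ⁅(P : Subgroup G), (P : Subgroup G)⁆ ≤ P := commutator_le_self _
    have h1 := key P hPN normal_in_normalizer hc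
    have h2 := key _ (hc.trans hPN) (normal_subgroupOf_of_le_normalizer fun g hg =>
      mem_normalizer_fintype fun x hx => by
        have h3 : (P : Subgroup G).map (MulAut.conj g).toMonoidHom ≤ P := by
          rintro _ ⟨y, hy, rfl⟩
          exact (mem_normalizer_iff.1 hg y).1 hy
        have h4 := mem_map_of_mem (MulAut.conj g).toMonoidHom hx
        rw [map_commutator] at h4
        exact commutator_mono h3 h3 h4) le_rfl
    set L := normalClosure ((P : Subgroup G) : Set G)
    have hPL : (P : Subgroup G) ≤ L := le_normalClosure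
    have hm := map_commutator (((P : Subgroup G)).subgroupOf L) (((P : Subgroup G)).subgroupOf L)
      L.subtype
    rw [map_subgroupOf_eq_of_le hPL] at hm
    obtain ⟨Q, M, hM, h3⟩ := npc (P.subtype hPL) (fun x hx => h1 ⟨x.2,
      mem_normalizer_fintype fun z hz => (mem_normalizer_iff.1 hx ⟨z, hPL hz⟩).1 hz⟩)
      ((normalClosure (⁅(P : Subgroup G), (P : Subgroup G)⁆ : Subgroup G)).subgroupOf L)
      (fun x hx => mem_subgroupOf.2 (subset_normalClosure (hm.le (mem_map_of_mem L.subtype hx))))
      fun x hx => by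
        obtain ⟨y, hy, h4⟩ := hm.ge (h2 ⟨hx.1, hPN hx.2⟩)
        rwa [← show y = x from Subtype.ext h4]
    have h4 : M ≤ pPrimeCore p L := H2.le_pPrimeCore_of_not_dvd (h3.index_eq_card ▸ Q.not_dvd_index)
    obtain ⟨k, hk⟩ := IsPGroup.iff_card.1 Q.isPGroup'
    have h5 : pPrimeCore p L ⊔ (P.subtype hPL : Subgroup L) = ⊤ := index_eq_one.1
      (Nat.eq_one_of_dvd_coprimes (((Fact.out : p.Prime).coprime_iff_not_dvd.2
        (P.subtype hPL).not_dvd_index).pow_left k) (by
          rw [← hk, ← h3.symm.index_eq_card]; exact index_dvd_of_le (h4.trans le_sup_left))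
        (index_dvd_of_le le_sup_right))
    refine ⟨(pPrimeCore p L).map L.subtype, ConjAct.normal_of_characteristic_of_normal, ?_, ?_⟩
    · have h6 := congrArg (map L.subtype) h5
      rw [Subgroup.map_sup, Sylow.coe_subtype, map_subgroupOf_eq_of_le hPL,
        ← MonoidHom.range_eq_map, range_subtype] at h6
      have h7 := Sylow.normalizer_sup_eq_top' P hPL
      rw [← P.coe_coe] at h7
      exact eq_top_iff.2 (h7.ge.trans (sup_le le_sup_right (h6.ge.trans (sup_le_sup_left hPN _))))
    · refine eq_bot_iff.2 fun x hx => ?_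
      exact disjoint_def.1 (H2.disjoint_of_isPGroup_of_coprime P.isPGroup'
        (H2.coprime_card_map_pPrimeCore_subtype L)) (h1 ⟨map_subtype_le _ hx.1, hx.2⟩) hx.1
  · rintro ⟨K, hK, h1, h2⟩ θ -
    let e : N ≃* G ⧸ K := MulEquiv.ofBijective ((QuotientGroup.mk' K).comp N.subtype)
      ⟨(injective_iff_map_eq_one _).2 fun x hx => Subtype.ext
        (mem_bot.1 (h2 ▸ mem_inf.2 ⟨(QuotientGroup.eq_one_iff _).1 hx, x.2⟩)), fun x => by
        obtain ⟨x, rfl⟩ := QuotientGroup.mk'_surjective K x
        obtain ⟨k, hk, n, hn, rfl⟩ := mem_sup_of_normal_left.1 (h1 ▸ mem_top x)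
        exact ⟨⟨n, hn⟩, by simp [(QuotientGroup.eq_one_iff k).2 hk]⟩⟩
    exact ⟨⟨_, (θ.2.comp_mulEquiv e.symm).inflate⟩, fun x => congrArg θ.1 (e.symm_apply_apply x)⟩

end Cfsg.Agent.S4931
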