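import Cfsg.Statements.S4949
import Cfsg.Agent.H40.AnHt
import Cfsg.Agent.S4710

set_option autoImplicit false
open Cfsg

namespace Cfsg.Agent.S4949

/-- Let n be a natural number, p a prime, M a maximal ideal of the algebraic integers containing p, B a p-block of the alternating group of degree n and D a defect group of B. Then either B contains an irreducible character of height 1 and D has an irreducible complex character of degree p, or every irreducible character of B has height zero and D is commutative (so the least positive height in B and the least positive exponent of a character degree of D are both 1 or both absent). -/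
theorem result (n : ℕ) (p : ℕ) [Fact p.Prime] (M : Ideal Cfsg.AlgInt) (hM : Cfsg.IsPModular p M) (B : Set (Cfsg.IrrCharacter ↥(alternatingGroup (Fin n)))) (hB : Cfsg.IsPBlock M B) (D : Subgroup ↥(alternatingGroup (Fin n))) (hD : Cfsg.IsDefectGroup p M B D) :
    ((∃ χ : Cfsg.IrrCharacter ↥(alternatingGroup (Fin n)), χ ∈ B ∧ Cfsg.blockHeight p B (χ : ↥(alternatingGroup (Fin n)) → ℂ) = 1) ∧ (∃ φ : Cfsg.IrrCharacter ↥D, Cfsg.charDegree (φ : ↥D → ℂ) = p)) ∨
    ((∀ χ : Cfsg.IrrCharacter ↥(alternatingGroup (Fin n)), χ ∈ B → Cfsg.blockHeight p B (χ : ↥(alternatingGroup (Fin n)) → ℂ) = 0) ∧ IsMulCommutative D) := by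
  classical
  have := hM.2.1
  have hp : p.Prime := Fact.out
  have h2p := hp.two_le
  have hcard := H36.card_of_isDefectGroup hM hB hD
  by_cases hd : blockDefect p B ≤ 2
  · refine Or.inr ⟨fun χ hχ => H35.height_eq_zero_of_defect_le_two hM hB hd hχ, ?_⟩
    rcases hd.eq_or_lt with h | h
    · exact IsPGroup.isMulCommutative_of_card_eq_prime_sq (h ▸ hcard)
    · have : IsCyclic D := isCyclic_of_card_dvd_prime (p := p)
        (hcard ▸ (pow_dvd_pow p (by omega : _ ≤ 1)).trans (pow_one p).dvd)
      infer_instance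
  obtain ⟨B', χ, r, δ, m, w, γ, P, hB', hc, hχ, h, hγ, ⟨e⟩⟩ :=
    H40.An.setup hM hB hD (Nat.le_add_right n (2 * p))
  have hι : Fintype.card (Fin n) + 2 * p ≤ Fintype.card (Fin (n + 2 * p)) := by simp
  rw [Nat.card_congr e.toEquiv] at hcard
  have hdB := h.blockDefect_eq hM hB' hχ hγ
  have hP := H40.An.card_sylow P
  rw [H40.An.nu_factorial_mul] at hdB
  rw [← hdB] at hP
  have hw : 1 ≤ w := by
    by_contra hw
    obtain rfl : w = 0 := by omega
    have := Nat.le_of_dvd Nat.card_pos (Subgroup.card_dvd_of_le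
      (inf_le_left (a := P.1) (b := alternatingGroup _)))
    rw [hcard, hP, Nat.pow_le_pow_iff_right hp.one_lt] at this
    simp at hdB; omega
  have hpw : 2 ≤ p * w := hp.two_le.trans (Nat.le_mul_of_pos_right _ hw)
  have : Nontrivial (Fin n) := Fin.nontrivial_iff_two_le.2 (by
    have := h.card; rw [Fintype.card_fin] at this; omega)
  have : Nontrivial (Fin (p * w)) := Fin.nontrivial_iff_two_le.2 hpw
  have hi : (alternatingGroup (Fin n)).index = 2 := alternatingGroup.index_eq_two
  have hG := (alternatingGroup (Fin n)).index_mul_card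
  apply_fun (Nat.factorization · p) at hG
  rw [hi, Nat.factorization_mul two_ne_zero Nat.card_pos.ne', Finsupp.add_apply] at hG
  have key : blockDefect p B + (2 : ℕ).factorization p = blockDefect p B' →
      ∀ {ψ : IrrCharacter _} {θ γ'}, H40.Sn.InT (fun j : Fin (n + 2 * p) => j.val) r δ w ψ.1 γ' → θ ∈ B →
      (charDegree ψ.1).factorization p = (charDegree θ.1).factorization p →
      blockHeight p B θ.1 = (H40.Sn.phi r δ γ' (Multiset.replicate w 1)).natAbs.factorization p :=
    fun h1 ψ θ γ' h2 h3 h4 => by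
      have h5 := h.mem_of_inT hM hB' hχ hγ h2
      have h6 := H40.An.height_add (p := p) h5
      have h7 := H40.An.height_add (p := p) h3
      rw [h.height_eq hM hB' h5 h2] at h6
      omega
  have und : ∀ {γ'}, H40.Sn.FInj r γ' → ∑ j, γ' j = w + ∑ j, δ j → ∃ ψ : IrrCharacter _,
      H40.Sn.InT (fun j : Fin (n + 2 * p) => j.val) r δ w ψ.1 γ' ∧
      ∃ θ ∈ B, H38.Over (alternatingGroup (Fin n)).subtype ψ.1 θ.1 := fun h1 h2 => by
    obtain ⟨ψ, h3⟩ := h.exists_irr h1 h2
    exact ⟨ψ, h3, H38.Covers.exists_under (E := H38.NEmb.ofNormal _) hB' (H38.bcl_of_isPBlock hB) hc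
      (h.mem_of_inT hM hB' hχ hγ h3)⟩
  have row : ∀ {x : ℕ} (u : Fin p → ℕ), (∏ c, (u c).factorial) * x = w.factorial →
      w.factorial.factorization p = (∏ c, (u c).factorial).factorization p + 1 →
      x.factorization p = 1 := fun {x} u h1 h2 => by
    have h3 := h1 ▸ w.factorial_ne_zero
    rw [← h1, Nat.factorization_mul (left_ne_zero_of_mul h3) (right_ne_zero_of_mul h3),
      Finsupp.add_apply] at h2
    omega
  let f : D →* P := (Subgroup.inclusion inf_le_left).comp e.toMonoidHom
  have hf : ∀ g : P, Equiv.Perm.sign g.1 = 1 → g ∈ f.range := fun g hg =>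
    ⟨e.symm ⟨g.1, g.2, hg⟩, by simp [f]; rfl⟩
  by_cases hp2 : p = 2
  · subst hp2
    have h3 : 3 ≤ w := by
      have h5 := H40.An.card_inf_dvd P
      rw [hcard, Fintype.card_fin, ← pow_succ'] at h5
      by_contra h3
      have h6 := (pow_dvd_pow 2 (by omega : 4 ≤ _)).trans h5
      rcases (by omega : w = 1 ∨ w = 2) with rfl | rfl <;> exact absurd h6 (by decide)
    have h6 : 6 ≤ Fintype.card (Fin (2 * w)) := by rw [Fintype.card_fin]; omega
    have h1 : blockDefect 2 B + (2 : ℕ).factorization 2 = blockDefect 2 B' := by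
      obtain ⟨τ, h7, h8, -⟩ := H40.An.exists_odd_fix P h6 ⟨0, by omega⟩ ⟨0, by omega⟩
      have h9 := H40.An.two_mul_card_inf h7 h8
      rw [hcard, hP, ← pow_succ'] at h9
      rw [Nat.prime_two.factorization_self, Nat.pow_right_injective le_rfl h9]
    refine Or.inl ⟨?_, H40.Sn.exists_irr_deg P (by omega) f fun a b g => ?_⟩
    · obtain ⟨γ', ρ, a1, a2, a3, a4, a5, a6, a7⟩ : ∃ (γ' : _) (ρ : Multiset ℕ), H40.Sn.FInj r γ' ∧
          ∑ j, γ' j = w + ∑ j, δ j ∧
          (H40.Sn.phi r δ γ' (Multiset.replicate w 1)).natAbs.factorization 2 = 1 ∧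
          H40.Sn.phi r δ γ' ρ ≠ 0 ∧ ρ.sum = w ∧ (∀ k ∈ ρ, 0 < k) ∧ Odd ρ.card := by
        have odd : ∀ γ', (H40.Sn.phi r δ γ' (Multiset.replicate w 1)).natAbs.factorization 2 = 1 →
            w % 2 = 1 → H40.Sn.phi r δ γ' (Multiset.replicate w 1) ≠ 0 ∧
            (Multiset.replicate w 1).sum = w ∧ (∀ k ∈ Multiset.replicate w 1, 0 < k) ∧
            Odd (Multiset.replicate w 1).card := fun γ' a1 a2 =>
          ⟨fun a => by simp [a] at a1, by simp, fun k hk => by
            rw [Multiset.eq_of_mem_replicate hk]; exact one_pos, by simpa using Nat.odd_iff.2 a2⟩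
        by_cases h4 : w % 4 = 3
        · obtain ⟨γ', a1, a2, a3⟩ := H40.An.exists_hook h hι (by omega)
          have a4 := H40.An.nu_two (w := w - 1) (by omega)
          rw [← a3] at a4
          exact ⟨γ', _, a1, a2, a4, odd γ' a4 (by omega)⟩
        obtain ⟨a, b, b1, b2⟩ := H40.An.exists_two (by omega) h4
        obtain ⟨γ', a1, a2, a3, a4⟩ := H40.An.exists_row h hι ![a, b] (by simpa using b1)
        have a5 := row _ a3 (by
          rw [Fin.prod_univ_two, Nat.factorization_mul (Nat.factorial_ne_zero _)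
            (Nat.factorial_ne_zero _)]
          exact b2)
        by_cases h5 : w % 2 = 1
        · exact ⟨γ', _, a1, a2, a5, odd γ' a5 h5⟩
        refine ⟨γ', _, a1, a2, a5, a4 ?_, by simp; omega, fun k hk => ?_, ?_⟩
        · by_cases ha : 2 ≤ a
          exacts [⟨0, ha⟩, ⟨1, show 2 ≤ b by omega⟩]
        · rcases Multiset.mem_cons.1 hk with rfl | hk
          exacts [two_pos, Multiset.eq_of_mem_replicate hk ▸ one_pos]
        · rw [Multiset.card_cons, Multiset.card_replicate, Nat.odd_iff]; omega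
      obtain ⟨ψ, b1, θ, b2, b3⟩ := und a1 a2
      obtain ⟨g, hg⟩ := H40.Sn.exists_parts_eq (Ω := Fin n)
        (ρ := Multiset.replicate m 1 + ρ.map (2 * ·)) (fun k hk => by
          rcases Multiset.mem_add.1 hk with hk | hk
          · exact Multiset.eq_of_mem_replicate hk ▸ one_pos
          · obtain ⟨j, hj, rfl⟩ := Multiset.mem_map.1 hk
            exact mul_pos two_pos (a6 j hj)) (by
          rw [h.card, Multiset.sum_add, Multiset.sum_map_mul_left, Multiset.map_id', a5]; simp)
      refine ⟨θ, b2, (key h1 b1 b2 ?_).trans a3⟩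
      rw [H40.An.charDegree_eq_of_ne_zero hi (g := g) ?_ ((b1.lab.ne_zero_iff g).2 ?_) b3]
      · rw [Equiv.Perm.mem_alternatingGroup, Equiv.Perm.sign_of_cycleType,
          ← Equiv.Perm.filter_parts_partition_eq_cycleType, hg, Multiset.filter_add,
          Multiset.filter_eq_nil.2 fun k hk => by rw [Multiset.eq_of_mem_replicate hk]; decide,
          Multiset.filter_eq_self.2 fun k hk => by
            obtain ⟨j, hj, rfl⟩ := Multiset.mem_map.1 hk
            have := a6 j hj; omega,
          zero_add, Multiset.sum_map_mul_left, Multiset.card_map,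
          ((even_two_mul _).add_odd a7).neg_one_pow]
        decide
      · rw [hg, h.Xv_eq a2 _ a5.ge]
        exact mul_ne_zero h.Xv_core_ne_zero a4
    · rcases Int.units_eq_one_or (Equiv.Perm.sign g.1) with h7 | h7
      · exact ⟨1, rfl, rfl, hf _ (by rwa [mul_one])⟩
      · obtain ⟨τ, h8, h9, h10, h11⟩ := H40.An.exists_odd_fix P h6 a b
        exact ⟨⟨τ, h8⟩, h10, h11, hf _ (by simp [h7, h9])⟩
  have h0 : (2 : ℕ).factorization p = 0 := Nat.factorization_eq_zero_of_lt (by omega)
  have h1 : blockDefect p B + (2 : ℕ).factorization p = blockDefect p B' := by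
    rw [H40.An.inf_eq_of_odd hp2, hP] at hcard
    rw [h0, add_zero, Nat.pow_right_injective h2p hcard]
  have h2 : ∀ {ψ : IrrCharacter _} {θ : IrrCharacter _},
      H38.Over (alternatingGroup (Fin n)).subtype ψ.1 θ.1 →
      (charDegree ψ.1).factorization p = (charDegree θ.1).factorization p := fun h2 => by
    rw [H38.nu_eq_of_over hp h2 le_top le_top (by
      rw [Subgroup.relIndex_top_right, hi]; exact Nat.not_dvd_of_pos_of_lt two_pos (by omega)),
      hi, h0, zero_add]
  by_cases hwp : w < p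
  · refine Or.inr ⟨fun θ hθ => ?_, ?_⟩
    · obtain ⟨ψ, b1, b2⟩ := hc.exists_over hB' hB hθ
      obtain ⟨γ', b3⟩ := h.inT_of_mem hM hB' hχ hγ b1
      rw [key h1 b3 hθ (h2 b2)]
      exact Nat.factorization_eq_zero_of_not_dvd fun b4 => absurd ((hp.dvd_factorial).1
        (b4.trans (H40.Sn.phi_one_dvd h.st b3.fi b3.sm))) (by omega)
    · obtain ⟨g, hg⟩ := H40.An.exists_emb_odd hp2 P
      have b1 := (Nat.bijective_iff_injective_and_card g).2 ⟨hg, by
        rw [H40.An.inf_eq_of_odd hp2, H40.An.card_sylow, H40.An.nu_factorial_of_lt hwp]; simp⟩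
      refine ⟨⟨fun a b => e.injective ?_⟩⟩
      obtain ⟨a', ha⟩ := b1.2 (e a)
      obtain ⟨b', hb⟩ := b1.2 (e b)
      rw [map_mul, map_mul, ← ha, ← hb, ← map_mul, ← map_mul, mul_comm a']
  refine Or.inl ⟨?_, H40.Sn.exists_irr_deg P (by
    rw [Fintype.card_fin, sq]; exact Nat.mul_le_mul_left p (by omega)) f fun a b g =>
      ⟨1, rfl, rfl, hf _ ((H40.An.inf_eq_of_odd hp2 P).ge (g * 1).2).2⟩⟩
  obtain ⟨a, b, c, b1, b2⟩ := H40.An.exists_three (p := p) (w := w) (by omega)
  obtain ⟨q, rfl⟩ : ∃ q, p = q + 3 := ⟨p - 3, by omega⟩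
  obtain ⟨γ', a1, a2, a3, -⟩ := H40.An.exists_row h hι (Fin.cons a (Fin.cons b (Fin.cons c 0)))
    (by simp [Fin.sum_univ_succ, ← b1, add_assoc])
  obtain ⟨ψ, b3, θ, b4, b5⟩ := und a1 a2
  refine ⟨θ, b4, (key h1 b3 b4 (h2 b5)).trans (row _ a3 ?_)⟩
  simp [Fin.prod_univ_succ, Nat.factorization_mul, Nat.factorial_ne_zero, b2, add_assoc]

end Cfsg.Agent.S4949
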