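import Cfsg.Statements.S4969
import Cfsg.Agent.H28.CharBasis

set_option autoImplicit false
open Cfsg

namespace Cfsg.Agent.S4969

/-- Let G be a finite group with k conjugacy classes, g ∈ G, and N > 0. Then the sum over the irreducible complex characters χ of G with χ(1) ≥ N of |χ(g)|/χ(1) is at most √(k · #C_G(g)) / N. -/
theorem result {G : Type*} [Group G] [Finite G] (g : G) (N : ℝ) (hN : 0 < N) :
    ∑ᶠ χ : Cfsg.IrrCharacter G, (if N ≤ ‖(χ : G → ℂ) 1‖ then ‖(χ : G → ℂ) g‖ / ‖(χ : G → ℂ) 1‖ else 0) ≤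
      Real.sqrt ((Nat.card (ConjClasses G) : ℝ) * (Nat.card ↥(Subgroup.centralizer ({g} : Set G)) : ℝ)) / N := by
  classical
  rw [H28.finsum_irr, ← H28.card_irr_eq_card_conjClasses, ← H28.sum_norm_sq_eq_card_centralizer g,
    le_div_iff₀ hN]
  have h1 : ∑ χ : Cfsg.IrrCharacter G, ‖(χ : G → ℂ) g‖ ≤
      Real.sqrt ((Nat.card (Cfsg.IrrCharacter G) : ℝ) *
        ∑ χ : Cfsg.IrrCharacter G, ‖(χ : G → ℂ) g‖ ^ 2) := by
    apply Real.le_sqrt_of_sq_le
    have := sq_sum_le_card_mul_sum_sq (s := (Finset.univ : Finset (Cfsg.IrrCharacter G)))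
      (f := fun χ => ‖(χ : G → ℂ) g‖)
    rwa [Finset.card_univ, ← Nat.card_eq_fintype_card] at this
  refine le_trans ?_ h1
  rw [Finset.sum_mul]
  refine Finset.sum_le_sum fun χ _ => ?_
  split_ifs with h
  · have hpos : 0 < ‖(χ : G → ℂ) 1‖ := hN.trans_le h
    rw [div_mul_eq_mul_div, div_le_iff₀ hpos]
    exact mul_le_mul_of_nonneg_left h (norm_nonneg _)
  · simp

end Cfsg.Agent.S4969
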