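import Cfsg.Statements.S4990
import Cfsg.Agent.H14.KsBlk
import Cfsg.Agent.H38.Fong
import Cfsg.Agent.H32.McC
import Cfsg.Agent.H36.DefectCard
import Cfsg.Agent.H18.PSolv

set_option autoImplicit false
open Cfsg

namespace Cfsg.Agent.S4990

/-- Let G be a finite solvable group, p a prime, M a maximal ideal of the algebraic integers containing p, and B a p-block of G of positive defect d. Then B contains at most 3^{d−1}·p^d irreducible complex characters. -/
theorem result {G : Type*} [Group G] [Finite G] (hsolv : Group.IsSolvable G) (p : ℕ) [Fact p.Prime] (M : Ideal Cfsg.AlgInt) (hM : Cfsg.IsPModular p M) (B : Set (Cfsg.IrrCharacter G)) (hB : Cfsg.IsPBlock M B) (hd : 0 < Cfsg.blockDefect p B) : Set.ncard B ≤ 3 ^ (Cfsg.blockDefect p B - 1) * p ^ Cfsg.blockDefect p B := by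
  have := hM.2.1
  clear hd
  refine H38.fong_induction hM (C := fun G _ => Group.IsSolvable G) (fun G _ _ T h => inferInstance)
    (fun G _ _ h => H38.isPConstrained_of_isPSolvable (H18.isPSolvable_of_isSolvable p))
    (motive := fun G _ B => Set.ncard B ≤ 3 ^ (blockDefect p B - 1) * p ^ blockDefect p B)
    (fun G _ _ _ θ hs hθ hB => ?_) (fun G _ _ T B' B _ h ih => ?_) hsolv hB
  · obtain ⟨P⟩ : Nonempty (Sylow p (⊤ : Subgroup G)) := inferInstance
    have hP : H37.IsSylowIn p _ ⊤ := ⟨P, rfl⟩
    have hN := H2.not_dvd_card_pPrimeCore p G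
    have h1 := H36.blockDefect_eq_of_card hM hB
      ((H38.isDefectGroup_above_iff hM hN hθ hB).2 hP) hP.card_eq
    have h2 := H14.Ks.kk_bound (p := p) _ (G ⧸ pPrimeCore p G) rfl inferInstance
      (H2.pPrimeCore_quotient_pPrimeCore p G)
    have h3 : (Nat.card (G ⧸ pPrimeCore p G)).factorization p = (Nat.card G).factorization p := by
      rw [(pPrimeCore p G).card_eq_card_quotient_mul_card_subgroup,
        Nat.factorization_mul Nat.card_pos.ne' Nat.card_pos.ne']
      rw [Finsupp.add_apply, Nat.factorization_eq_zero_of_not_dvd hN, add_zero]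
    have h4 := H32.card_over_eq_card_good (QuotientGroup.mk' (pPrimeCore p G))
      (QuotientGroup.mk'_surjective _) (QuotientGroup.ker_mk' _) θ.2
      (H32.inertia_eq_top_iff.2 fun g n => congrFun (congrArg Subtype.val (hθ g)) n)
    rw [h1, Subgroup.card_top, ← h3]
    refine le_trans ?_ h2
    rw [← Nat.card_coe_set_eq]
    refine le_trans (Nat.card_congr (Equiv.subtypeEquivRight fun χ =>
      H38.mem_above_singleton)).le (h4.le.trans ?_)
    exact Nat.card_le_card_of_injective _ Subtype.val_injective
  · obtain ⟨e, -⟩ := h.exists_equiv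
    rwa [h.blockDefect, ← Nat.card_coe_set_eq, ← Nat.card_congr e, Nat.card_coe_set_eq]

end Cfsg.Agent.S4990
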