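import Cfsg.Statements.S5001
import Cfsg.Agent.H36.DefectCard
import Cfsg.Agent.H28.CharCenter
import Cfsg.Agent.H28.Degree
import Cfsg.Agent.H35.PReg

set_option autoImplicit false
open Cfsg H28

namespace Cfsg.Agent.S5001

open Cfsg H28 in
theorem over_of_inner {K : Type*} [Group K] [Fintype K] {θ η : K → ℂ} (hη : IsIrrCharacter K η)
    {z : K} (hz : z ∈ Subgroup.center K) {c : ℂ} (hθ : ∀ x, θ (z * x) = c * θ x)
    (h : classInner θ η ≠ 0) (x : K) : η (z * x) = c * η x := by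
  obtain ⟨ν, hν⟩ := Cfsg.IsIrrCharacter.exists_central_hom hη (Z := Subgroup.center K) le_rfl
  set w : ℂ := (ν ⟨z, hz⟩ : ℂ) with hw
  have hw1 : w ^ Nat.card K = 1 := by
    have : (ν ⟨z, hz⟩) ^ Nat.card K = 1 := by
      rw [← map_pow]
      have : (⟨z, hz⟩ : Subgroup.center K) ^ Nat.card K = 1 := by
        ext; simp
      rw [this, map_one]
    rw [hw, ← Units.val_pow_eq_pow_val, this, Units.val_one]
  have hc := conj_eq_inv_of_pow_eq_one (Nat.card_pos (α := K)).ne' hw1
  have hw0 : w ≠ 0 := Units.ne_zero _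
  have h1 : ∑ g, θ g * (starRingEnd ℂ) (η g) = ∑ g, θ (z * g) * (starRingEnd ℂ) (η (z * g)) :=
    (Fintype.sum_equiv (Equiv.mulLeft z) _ _ (fun g => rfl)).symm
  have h2 : ∑ g, θ (z * g) * (starRingEnd ℂ) (η (z * g))
      = c * w⁻¹ * ∑ g, θ g * (starRingEnd ℂ) (η g) := by
    rw [Finset.mul_sum]
    refine Finset.sum_congr rfl fun g _ => ?_
    have := hν ⟨z, hz⟩ g
    simp only at this
    rw [hθ, this, map_mul, ← hw, hc]; ring
  have h3 : ∑ g, θ g * (starRingEnd ℂ) (η g) ≠ 0 := by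
    intro h0; apply h; rw [classInner_def, h0, mul_zero]
  have h4 : c * w⁻¹ = 1 := by
    have := h1.trans h2
    exact (mul_right_cancel₀ h3 (by rw [← this, one_mul])).symm
  have h5 : c = w := by field_simp at h4; exact h4
  rw [h5]; exact hν ⟨z, hz⟩ x

open Cfsg H28 in
theorem exists_irr_not_P {K : Type*} [Group K] [Fintype K] {p : ℕ} {M : Ideal AlgInt} [M.IsMaximal]
    (hM : IsPModular p M) {θ : K → ℂ} (hθ : IsCharacter K θ) {g : K}
    (hg : g ∈ Subgroup.center K) (h : ¬ MemLocalIdeal M (θ g)) :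
    ∃ η : IrrCharacter K, classInner θ η ≠ 0 ∧ ¬ p ∣ charDegree (η : K → ℂ) := by
  by_contra hne
  push Not at hne
  apply h
  rw [Cfsg.IsClassFunction.apply_eq_sum_irr (Cfsg.IsCharacter.isClassFunction hθ) g]
  refine H35.P_sum _ _ fun η _ => ?_
  by_cases h0 : classInner θ η = 0
  · rw [h0, zero_mul]; exact H35.P_zero
  obtain ⟨n, hn⟩ := Cfsg.IsCharacter.classInner_nat hθ (Cfsg.IsIrrCharacter.isCharacter η.2)
  obtain ⟨ν, hν⟩ := Cfsg.IsIrrCharacter.exists_central_hom η.2 (Z := Subgroup.center K) le_rfl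
  have h1 := hν ⟨g, hg⟩ 1
  simp only [mul_one] at h1
  have hw1 : ((ν ⟨g, hg⟩ : ℂˣ) : ℂ) ^ Nat.card K = 1 := by
    have : (ν ⟨g, hg⟩) ^ Nat.card K = 1 := by
      rw [← map_pow]
      have : (⟨g, hg⟩ : Subgroup.center K) ^ Nat.card K = 1 := by
        ext; simp
      rw [this, map_one]
    rw [← Units.val_pow_eq_pow_val, this, Units.val_one]
  rw [hn, h1, ← H35.coe_deg]
  refine H35.P_mul_left (natCast_mem _ _) (H35.P_mul_left
    (H35.mem_S_of_pow_eq_one (Nat.card_pos (α := K)).ne' hw1) ?_)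
  exact (H35.P_natCast_iff hM).2 (hne η h0)

/-- Let p be a prime, G a finite group and B a p-block of G (relative to a maximal ideal M of the algebraic integers containing p) with defect group D. Let Z be a central p-subgroup of G contained in D and λ a linear character of Z (a homomorphism to the nonzero complex numbers). Say an irreducible character χ of G lies over λ when χ(z) = χ(1)λ(z) for all z ∈ Z. If some irreducible character in B lying over λ has height zero, then λ extends to a linear character of D. -/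
theorem result {G : Type*} [Group G] [Finite G] (p : ℕ) [Fact p.Prime] (M : Ideal Cfsg.AlgInt) (hM : Cfsg.IsPModular p M) (B : Set (Cfsg.IrrCharacter G)) (hB : Cfsg.IsPBlock M B) (D : Subgroup G) (hD : Cfsg.IsDefectGroup p M B D) (Z : Subgroup G) (hZc : Z ≤ Subgroup.center G) (hZp : IsPGroup p ↥Z) (hZD : Z ≤ D) (lam : ↥Z →* ℂˣ) (χ : Cfsg.IrrCharacter G) (hχ : χ ∈ B) (hover : (∀ z : ↥Z, (χ : G → ℂ) z = (χ : G → ℂ) 1 * (lam z : ℂ))) (h0 : Cfsg.blockHeight p B (χ : G → ℂ) = 0) : (∃ μ : ↥D →* ℂˣ, ∀ z : ↥Z, μ ⟨(z : G), hZD z.2⟩ = lam z) := by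
  classical
  have := hM.2.1
  have := Fintype.ofFinite G
  obtain ⟨g, hg, P, hP⟩ := hD
  have hDp : IsPGroup p D := by rw [hP]; exact P.isPGroup'.map (Subgroup.subtype _)
  have hDC : D ≤ Subgroup.centralizer ({g} : Set G) := by rw [hP]; exact Subgroup.map_subtype_le _
  clear hP P
  set C := Subgroup.centralizer ({g} : Set G) with hC
  have hχg : ¬ MemLocalIdeal M ((χ : G → ℂ) g) := by
    intro h
    apply hg.2.2 χ hχ
    rw [H36.centralChar_eq_div_mul]
    refine H35.P_mul_left ?_ h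
    rw [H35.natCast_div_natCast_mem_S_iff hM (Subgroup.index_ne_zero_of_finite) (H35.deg_ne_zero χ)]
    have h1 := H36.index_factorization_add_cdef p g
    have h2 := H36.cdef_eq_of_isDefectClass hM hB hg
    have h3 := H35.nu_add_blockDefect p hχ
    omega
  have hgC : g ∈ C := by rw [hC, Subgroup.mem_centralizer_singleton_iff]
  have hgZ : (⟨g, hgC⟩ : C) ∈ Subgroup.center C := by
    rw [Subgroup.mem_center_iff]
    intro x
    ext
    exact Subgroup.mem_centralizer_singleton_iff.1 x.2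
  obtain ⟨η, hη0, hηp⟩ := exists_irr_not_P hM
    (Cfsg.IsCharacter.restrict (Cfsg.IsIrrCharacter.isCharacter χ.2) C) hgZ hχg
  have hηD := Cfsg.IsCharacter.comp (Cfsg.IsIrrCharacter.isCharacter η.2) (Subgroup.inclusion hDC)
  obtain ⟨μ, hμ0, hμp⟩ := exists_irr_not_P hM hηD (g := 1) (one_mem _) (by
    simp only [map_one]
    rw [← H35.coe_deg, H35.P_natCast_iff hM]; exact hηp)
  obtain ⟨k, hk⟩ := Cfsg.IsIrrCharacter.exists_pow_charDegree hDp μ.2
  have hk0 : k = 0 := by
    by_contra hk0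
    exact hμp (hk ▸ dvd_pow_self p hk0)
  have hμ1 : (μ : D → ℂ) 1 = 1 := by rw [← H35.coe_deg, hk, hk0]; simp
  obtain ⟨f, hf⟩ := Cfsg.IsCharacter.exists_hom (Cfsg.IsIrrCharacter.isCharacter μ.2) hμ1
  refine ⟨f, fun z => ?_⟩
  obtain ⟨ν, hν⟩ := Cfsg.IsIrrCharacter.exists_central_hom χ.2 hZc
  have hνl : (ν z : ℂ) = lam z := by
    have h1 := hν z 1
    rw [mul_one, hover z, mul_comm] at h1
    exact (mul_right_cancel₀ (Cfsg.IsIrrCharacter.apply_one_ne_zero χ.2) h1).symm
  have hzC : (⟨z, hDC (hZD z.2)⟩ : C) ∈ Subgroup.center C := by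
    rw [Subgroup.mem_center_iff]
    intro x
    ext
    exact Subgroup.mem_center_iff.1 (hZc z.2) x
  have hzD : (⟨z, hZD z.2⟩ : D) ∈ Subgroup.center D := by
    rw [Subgroup.mem_center_iff]
    intro x
    ext
    exact Subgroup.mem_center_iff.1 (hZc z.2) x
  have h1 := over_of_inner η.2 hzC (c := lam z) (θ := fun x : C => (χ : G → ℂ) x)
    (fun x => by rw [← hνl]; exact hν z x) hη0
  have h2 := over_of_inner μ.2 hzD (c := lam z)
    (θ := fun x : D => (η : C → ℂ) (Subgroup.inclusion hDC x))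
    (fun x => by rw [map_mul]; exact h1 _) hμ0 1
  rw [mul_one, hμ1, mul_one, hf] at h2
  exact Units.ext h2

end Cfsg.Agent.S5001
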