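import Cfsg.Statements.S5011
import Cfsg.Agent.H28.CharCenter

set_option autoImplicit false
open Cfsg

namespace Cfsg.Agent.S5011

/-- Let G be a finite non-abelian simple group and ρ an irreducible complex representation of G on a space of dimension greater than one (irreducible in the sense that the only subspaces invariant under every ρ(x) are 0 and the whole space). Then for every non-identity element g of G, the centralizer of g does not act irreducibly: there is a non-zero proper subspace invariant under ρ(c) for every c commuting with g. -/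
theorem result {G : Type*} [Group G] [Finite G] [IsSimpleGroup G]
    (hG : ¬ IsMulCommutative G) {V : Type*} [AddCommGroup V] [Module ℂ V] [FiniteDimensional ℂ V]
    (ρ : Representation ℂ G V)
    (hirr : ∀ W : Submodule ℂ V, (∀ x : G, ∀ v ∈ W, ρ x v ∈ W) → W = ⊥ ∨ W = ⊤)
    (hdim : 1 < Module.finrank ℂ V) (g : G) (hg : g ≠ 1) :
    ∃ W : Submodule ℂ V, W ≠ ⊥ ∧ W ≠ ⊤ ∧ ∀ c ∈ Subgroup.centralizer ({g} : Set G), ∀ v ∈ W, ρ c v ∈ W := by
  by_contra hc
  push Not at hc
  have : Nontrivial V := Module.nontrivial_of_finrank_pos (R := ℂ) (by omega)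
  have hsc : ∀ x : G, (∃ c : ℂ, ρ x = c • LinearMap.id) ↔ x ∈ H28.charCenter ρ.character :=
    fun x => (H28.mem_charCenter_rep ρ).symm
  have hg' : g ∈ H28.charCenter ρ.character := by
    obtain ⟨c, hc'⟩ := Module.End.exists_eigenvalue (ρ g)
    refine (hsc g).1 ⟨c, ?_⟩
    by_contra hne
    obtain ⟨x, hx, v, hv, hxv⟩ := hc (Module.End.eigenspace (ρ g) c) hc' (fun ht => hne (by
      ext v
      have : v ∈ Module.End.eigenspace (ρ g) c := ht ▸ Submodule.mem_top
      simpa using Module.End.mem_eigenspace_iff.1 this))
    apply hxv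
    rw [Module.End.mem_eigenspace_iff] at hv ⊢
    have hcomm := Subgroup.mem_centralizer_singleton_iff.1 hx
    rw [← Module.End.mul_apply, ← map_mul, ← hcomm, map_mul, Module.End.mul_apply, hv, map_smul]
  have hN := H28.Cfsg.IsCharacter.charCenter_normal (H28.isCharacter_rep ρ)
  have htop : H28.charCenter ρ.character = ⊤ :=
    hN.eq_bot_or_eq_top.resolve_left fun hb => hg (by rwa [hb, Subgroup.mem_bot] at hg')
  obtain ⟨v, hv⟩ := exists_ne (0 : V)
  rcases hirr (Submodule.span ℂ {v}) (fun x w hw => by
    obtain ⟨c, hc'⟩ := (hsc x).2 (htop ▸ Subgroup.mem_top x)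
    rw [hc']
    exact Submodule.smul_mem _ _ hw) with h | h
  · exact hv (by simpa using h)
  · have := finrank_span_singleton (K := ℂ) hv
    rw [h, finrank_top] at this
    omega

end Cfsg.Agent.S5011
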