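import Cfsg.Statements.S5075
import Cfsg.Agent.Base
import Cfsg.Agent.H70.McL2

set_option autoImplicit false
open Cfsg

namespace Cfsg.Agent.S5075

theorem pow_fix {p : ℕ} [Fact p.Prime] {V : Type*} [AddCommGroup V] [Module (ZMod p) V]
    (g : V ≃ₗ[ZMod p] V) (x : V) (h : g (g x - x) = g x - x) : (g ^ p) x = x := by
  have key : ∀ n : ℕ, (g ^ n) x = x + (n : ZMod p) • (g x - x) := by
    intro n
    induction n with
    | zero => simp
    | succ n ih =>
      rw [pow_succ', LinearEquiv.mul_apply, ih, map_add, map_smul, h, Nat.cast_succ, add_smul,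
        one_smul]
      abel
  rw [key p]; simp

theorem pow_sub_mem {F V : Type*} [Field F] [AddCommGroup V] [Module F V] (g : V ≃ₗ[F] V)
    (U : Submodule F V) (h : ∀ x, g x - x ∈ U) (n : ℕ) (x : V) : (g ^ n) x - x ∈ U := by
  induction n with
  | zero => simp
  | succ n ih =>
    have := U.add_mem (h ((g ^ n) x)) ih
    rw [pow_succ', LinearEquiv.mul_apply]
    simpa using this

/-- Let p be an odd prime, V a finite-dimensional vector space over the field with p elements, and H a group of linear automorphisms of V generated by transvections (elements of order p fixing a hyperplane pointwise) and having no nontrivial normal p-subgroup. Then for some n ≥ 1 there are a decomposition V = V₀ ⊕ V₁ ⊕ ⋯ ⊕ Vₙ into H-invariant subspaces and a decomposition of H as the internal direct product of normal subgroups H₁, …, Hₙ such that Hⱼ acts trivially on every Vᵢ with i ≠ j, and Hⱼ induces on Vⱼ exactly the special linear group of Vⱼ or exactly the isometry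 group of a non-degenerate alternating form on Vⱼ. -/
theorem result {p : ℕ} [Fact p.Prime] (hp : Odd p) {V : Type*} [AddCommGroup V] [Module (ZMod p) V] [Finite V]
    (H : Subgroup (V ≃ₗ[ZMod p] V)) (T : Set (V ≃ₗ[ZMod p] V)) (hHT : H = Subgroup.closure T)
    (hT : ∀ t ∈ T, orderOf t = p ∧
      Module.finrank (ZMod p) ↥(LinearMap.ker ((t : V →ₗ[ZMod p] V) - LinearMap.id)) + 1 =
        Module.finrank (ZMod p) V)
    (hOp : Cfsg.pCore p ↥H = ⊥) :
    ∃ (n : ℕ) (W : Fin (n + 1) → Submodule (ZMod p) V) (K : Fin n → Subgroup (V ≃ₗ[ZMod p] V)),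
      1 ≤ n ∧ DirectSum.IsInternal W ∧
      (∀ h ∈ H, ∀ i, (W i).map (h : V →ₗ[ZMod p] V) = W i) ∧
      (∀ j, K j ≤ H ∧ ((K j).subgroupOf H).Normal) ∧ ⨆ j, K j = H ∧
      (∀ j, K j ⊓ (⨆ j' ∈ {j' : Fin n | j' ≠ j}, K j') = ⊥) ∧
      (∀ j j', j ≠ j' → ∀ a ∈ K j, ∀ b ∈ K j', a * b = b * a) ∧
      (∀ j, ∀ h ∈ K j, ∀ i : Fin (n + 1), i ≠ j.succ → ∀ v ∈ W i, h v = v) ∧
      (∀ j, ∃ ρ : ↥(K j) →* (↥(W j.succ) ≃ₗ[ZMod p] ↥(W j.succ)),
        (∀ (h : ↥(K j)) (v : ↥(W j.succ)), ((ρ h v : ↥(W j.succ)) : V) = (h : V ≃ₗ[ZMod p] V) (v : V)) ∧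
        ((ρ.range : Set (↥(W j.succ) ≃ₗ[ZMod p] ↥(W j.succ))) =
            {f : ↥(W j.succ) ≃ₗ[ZMod p] ↥(W j.succ) | LinearMap.det (f : ↥(W j.succ) →ₗ[ZMod p] ↥(W j.succ)) = 1} ∨
          ∃ B : LinearMap.BilinForm (ZMod p) ↥(W j.succ), B.IsAlt ∧ B.Nondegenerate ∧
            (ρ.range : Set (↥(W j.succ) ≃ₗ[ZMod p] ↥(W j.succ))) = {f : ↥(W j.succ) ≃ₗ[ZMod p] ↥(W j.succ) | ∀ x y, B (f x) (f y) = B x y})) := by
  have h2 : (2 : ZMod p) ≠ 0 := by
    intro h
    have h3 : ((2 : ℕ) : ZMod p) = 0 := by exact_mod_cast h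
    rw [ZMod.natCast_eq_zero_iff] at h3
    have := (Nat.prime_dvd_prime_iff_eq (Fact.out : p.Prime) Nat.prime_two).1 h3
    rw [this] at hp
    exact absurd hp (by decide)
  refine H70.TvG.main ⟨fun K hK => ?_, fun c v φ h0 h => ?_, fun U₁ U₂ h1 h2 g hg a1 a2 a3 => ?_⟩ h2
  · conv_lhs => rw [hHT]
    refine (Subgroup.closure_le _).2 fun t ht => ?_
    obtain ⟨ho, hr⟩ := hT t ht
    have h3 := LinearMap.finrank_range_add_finrank_ker ((t : V →ₗ[ZMod p] V) - LinearMap.id)
    obtain ⟨⟨v, hv⟩, hv0, hv1⟩ := finrank_eq_one_iff'.1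
      (show Module.finrank (ZMod p) (LinearMap.range ((t : V →ₗ[ZMod p] V) - LinearMap.id)) = 1 by
        omega)
    have hv0' : v ≠ 0 := by simpa using hv0
    obtain ⟨ψ, hψ⟩ := H62.exists_dual_of_ne_zero (F := ZMod p) hv0'
    have h4 : ∀ x, t x = x + (ψ ∘ₗ ((t : V →ₗ[ZMod p] V) - LinearMap.id)) x • v := fun x => by
      obtain ⟨c, hc⟩ := hv1 ⟨_, LinearMap.mem_range_self _ x⟩
      have hc' : c • v = t x - x := congrArg Subtype.val hc
      simp only [LinearMap.comp_apply, LinearMap.sub_apply, LinearEquiv.coe_coe, LinearMap.id_apply,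
        ← hc', map_smul, hψ, smul_eq_mul, mul_one]
      rw [hc']; abel
    generalize ψ ∘ₗ ((t : V →ₗ[ZMod p] V) - LinearMap.id) = φ at h4
    refine hK t (hHT ▸ Subgroup.subset_closure ht) v φ ?_ h4
    have key : ∀ n : ℕ, (t ^ n) v = (1 + φ v) ^ n • v := by
      intro n
      induction n with
      | zero => simp
      | succ n ih =>
        rw [pow_succ', LinearEquiv.mul_apply, ih, map_smul, h4, pow_succ, mul_smul, add_smul,
          one_smul]
    have h5 := key p
    rw [ZMod.pow_card, show t ^ p = 1 from orderOf_dvd_iff_pow_eq_one.1 (by rw [ho]), add_smul, one_smul] at h5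
    simpa [hv0'] using h5
  · have key : ∀ n : ℕ, H62.HasTv H ((n : ZMod p) • φ) v := by
      intro n
      induction n with
      | zero => simpa using H62.HasTv.zero_left H v
      | succ n ih =>
        rw [Nat.cast_succ, add_smul, one_smul]
        exact ih.add_left h (by simp [h0])
    simpa using key c.val
  · let N : Subgroup H :=
      { carrier := {g | (∀ x, g.1 x - x ∈ U₂) ∧ (∀ x ∈ U₂, g.1 x - x ∈ U₁) ∧ ∀ x ∈ U₁, g.1 x = x}
        mul_mem' := fun {a b} ha hb => ⟨fun x => by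
            simpa using U₂.add_mem (ha.1 (b.1 x)) (hb.1 x),
          fun x hx => by
            simpa using U₁.add_mem (ha.2.1 _ (h2 _ b.2 x hx)) (hb.2.1 x hx),
          fun x hx => by simp [ha.2.2 x hx, hb.2.2 x hx]⟩
        one_mem' := ⟨by simp, by simp, by simp⟩
        inv_mem' := fun {a} ha => ⟨fun x => by
            simpa using U₂.neg_mem (ha.1 (a.1⁻¹ x)),
          fun x hx => by
            simpa using U₁.neg_mem (ha.2.1 _ (h2 _ (H.inv_mem a.2) x hx)),
          fun x hx => by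
            apply a.1.injective; simp [ha.2.2 x hx]⟩ }
    have hN : N.Normal := ⟨fun a ha b => ⟨fun x => by
        simpa using h2 _ b.2 _ (ha.1 (b.1⁻¹ x)),
      fun x hx => by
        simpa using h1 _ b.2 _ (ha.2.1 _ (h2 _ (H.inv_mem b.2) x hx)),
      fun x hx => by
        have := ha.2.2 _ (h1 _ (H.inv_mem b.2) x hx)
        simp only [LinearEquiv.coe_inv] at this
        simp [this]⟩⟩
    have hP : IsPGroup p N := by
      rintro ⟨a, ha⟩
      refine ⟨2, Subtype.ext (Subtype.ext (LinearEquiv.ext fun x => ?_))⟩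
      have h3 : ∀ y ∈ U₂, (a.1 ^ p) y = y := fun y hy => pow_fix _ _ (ha.2.2 _ (ha.2.1 y hy))
      have h4 := pow_fix (a.1 ^ p) x (h3 _ (pow_sub_mem _ _ ha.1 p x))
      simpa [sq, pow_mul] using h4
    have h5 : N ≤ Cfsg.pCore p H := le_sSup ⟨hN, hP⟩
    rw [hOp] at h5
    exact congrArg Subtype.val (Subgroup.mem_bot.1 (h5 (show (⟨g, hg⟩ : H) ∈ N from ⟨a1, a2, a3⟩)))

end Cfsg.Agent.S5075
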