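import Cfsg.Statements.S5125
import Cfsg.Agent.H92.Normal

set_option autoImplicit false
open Cfsg

namespace Cfsg.Agent.S5125

/-- Let F be a saturated fusion system over a finite p-group S and Q a subgroup strongly closed in F. If Q has a subgroup Q₁ that is normal in F, with Q/Q₁ abelian and Aut_F(Q₁) a p-group, then Q is normal in F. -/
theorem result {Ω : Type*} [Group Ω] {S : Subgroup Ω} [Finite S] (p : ℕ) [Fact p.Prime] (hS : IsPGroup p S) (F : Cfsg.FusionSystem S) (hF : F.IsSaturated p) (Q Q₁ : Subgroup Ω) (hQ : F.StronglyClosed Q) (hQ₁Q : Q₁ ≤ Q) (hQ₁ : F.IsNormal Q₁) (hab : ⁅Q, Q⁆ ≤ Q₁) (hAut : IsPGroup p ↥(F.autGroup Q₁)) : F.IsNormal Q := by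
  refine H92.isNormal_of_stronglyClosed hS hF hQ fun P hP => ?_
  have hle := H92.le_of_normal_of_essential hS hF hQ₁ hP
  have hsc := H92.stronglyClosed_of_normal hQ₁
  refine H92.le_of_chain hS hQ (H92.centralizerIn_le_of_centric hP.1)
    (H92.essential_radical hS hF hP) le_rfl
    (fun y hy q hq => H92.conj_mem_of_stronglyClosed hQ (hP.1.1 hy) hq)
    (H92.extChain (fun _ => Q₁) 0 Q) 1 rfl (fun α hα i hi x hx hx' => ?_) (fun α hα hc x hx hx' => ?_)
    fun i hi q hq x hx hx' => ?_
  · obtain rfl : i = 0 := by omega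
    exact (H92.mor_af hP.1.1 hα).mem_of_stronglyClosed hsc hx hx'
  · obtain ⟨β, hβ, e⟩ := ((H92.mor_af hP.1.1 hα).mono hle).exists_aut' fun y hy =>
      (H92.mor_af hP.1.1 hα).mem_of_stronglyClosed hsc (hle hy) hy
    obtain ⟨k, hk⟩ := H92.isPGroup_iff_forall.1 hAut β hβ
    have h1 : β ^ orderOf α = 1 := H92.aut_eq_one fun y hy => by
      rw [← H92.af_pow_eq (α := α) (fun y hy => (e y hy).symm) _ y hy, pow_orderOf_eq_one,
        H92.af_one_apply]
    have h2 := H92.eq_one_of_coprime_of_pow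
      (Nat.Coprime.coprime_dvd_left (orderOf_dvd_of_pow_eq_one h1) hc) hk
    rw [← e x hx', h2, H92.af_one_apply]
  · obtain rfl : i = 0 := by omega
    have := hab (Subgroup.commutator_mem_commutator (Subgroup.inv_mem _ hx') hq)
    show _ ∈ Q₁
    simpa [commutatorElement_def, mul_assoc] using this

end Cfsg.Agent.S5125
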