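import Cfsg.Statements.S5127
import Cfsg.Agent.H92.Cent2

set_option autoImplicit false
open Cfsg

namespace Cfsg.Agent.S5127
open H92 H93 Cfsg.FusionSystem

/-- Let F be a saturated fusion system over a finite p-group S and E a normal subsystem of F over T. Among the subgroups Y of C_S(T) whose centralizer system C_F(Y) contains E there is a largest one, C_S(E), and it is strongly closed in F. -/
theorem result {Ω : Type*} [Group Ω] {S : Subgroup Ω} [Finite S] (p : ℕ) [Fact p.Prime] (hS : IsPGroup p S) (F : Cfsg.FusionSystem S) (hF : F.IsSaturated p) {T : Subgroup Ω} (E : Cfsg.FusionSystem T) (hE : E.IsNormalIn F p) : ∃ C : Subgroup Ω, C ≤ Cfsg.FusionSystem.centralizerIn S T ∧ (∀ P : Subgroup Ω, E.Hom P ⊆ F.centralizerHom C P) ∧ (∀ Y : Subgroup Ω, Y ≤ Cfsg.FusionSystem.centralizerIn S T → (∀ P : Subgroup Ω, E.Hom P ⊆ F.centralizerHom Y P) → Y ≤ C) ∧ F.StronglyClosed C := by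
  obtain ⟨a, b, S', F', h, hA⟩ := exists_satA hS hF
  have hT := H94.le_of_isNormalIn hE
  obtain ⟨E', k⟩ := exists_tr_sub h hT E
  have hN := nrA_of hA (h.isNormalIn k hE)
  have hT' := hN.inv.le
  have h1 := tr_cz h.symm k.symm hT' ((cz_iff_hom hA.amb hT').1 hN.cz_CE)
  refine ⟨_, h1.1, h1.2, fun Y h2 h3 => ?_, h.symm.stronglyClosed hN.sc_CE⟩
  have hY : Y ≤ S := h2.trans inf_le_left
  have h4 := hN.le_CE ((cz_iff_hom hA.amb hT').2 (tr_cz h k hT ⟨h2, h3⟩))
  rw [← h.iso.img_img hY]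
  exact (h.iso.symm.img_le_img_iff (h.iso.img_le hY) hN.sc_CE.1).2 h4

end Cfsg.Agent.S5127
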