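import Cfsg.Statements.S5129
import Cfsg.Agent.H93.Wedge

set_option autoImplicit false
open Cfsg

namespace Cfsg.Agent.S5129

/-- Let F be a saturated fusion system over a finite p-group S and E₁, E₂ normal subsystems over T₁, T₂. Then there is a normal subsystem of F over T₁ ∩ T₂ that is normal in E₁ and in E₂ and contains every other such subsystem. -/
theorem result {Ω : Type*} [Group Ω] {S : Subgroup Ω} [Finite S] (p : ℕ) [Fact p.Prime] (hS : IsPGroup p S) (F : Cfsg.FusionSystem S) (hF : F.IsSaturated p) {T₁ T₂ : Subgroup Ω} (E₁ : Cfsg.FusionSystem T₁) (E₂ : Cfsg.FusionSystem T₂) (h₁ : E₁.IsNormalIn F p) (h₂ : E₂.IsNormalIn F p) : ∃ D : Cfsg.FusionSystem (T₁ ⊓ T₂), (D.IsNormalIn F p ∧ D.IsNormalIn E₁ p ∧ D.IsNormalIn E₂ p) ∧ ∀ D' : Cfsg.FusionSystem (T₁ ⊓ T₂), D'.IsNormalIn F p → D'.IsNormalIn E₁ p → D'.IsNormalIn E₂ p → D'.IsSubsystemOf D := by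
  obtain ⟨a, b, S', F', h, hA⟩ := H93.exists_satA hS hF
  have t1 := H94.le_of_isNormalIn h₁
  have t2 := H94.le_of_isNormalIn h₂
  obtain ⟨E₁', k1⟩ := H93.exists_tr_sub h t1 E₁
  obtain ⟨E₂', k2⟩ := H93.exists_tr_sub h t2 E₂
  have n1 := H92.nrA_of hA (h.isNormalIn k1 h₁)
  have n2 := H92.nrA_of hA (h.isNormalIn k2 h₂)
  obtain ⟨D', ⟨l1, l2, l3⟩, l4⟩ := H93.exists_max_wedge n1 n2
  have e := h.iso.img_inf t1 t2
  obtain ⟨D, k⟩ := h.iso.exists_tr_sub' (T := T₁ ⊓ T₂) l1.inv.le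
    (by rw [← e]; exact h.iso.img_img (inf_le_left.trans t1)) D'
  refine ⟨D, ⟨h.symm.isNormalIn k.symm l1.isNormalIn, k1.symm.isNormalIn k.symm l2.isNormalIn,
    k2.symm.isNormalIn k.symm l3.isNormalIn⟩, fun C m1 m2 m3 => ?_⟩
  obtain ⟨C', c⟩ := h.iso.exists_tr_sub (inf_le_left.trans t1) e C
  exact k.symm.isSubsystemOf c.symm (l4 C' (H92.nrA_of hA (h.isNormalIn c m1))
    (H92.nrA_of n1.satE (k1.isNormalIn c m2)) (H92.nrA_of n2.satE (k2.isNormalIn c m3)))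

end Cfsg.Agent.S5129
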