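import Cfsg.Statements.S5155
import Cfsg.Agent.H92.Cent2

set_option autoImplicit false
open Cfsg

namespace Cfsg.Agent.S5155
open H92 H93 Cfsg.FusionSystem

/-- Let F be a saturated fusion system over a finite p-group S, E a normal subsystem over T, and Y the largest subgroup of C_S(T) such that E is a subsystem of the centralizer system of Y (every map of E extends to a map of F fixing Y elementwise). Then there is a normal subsystem of F over Y that is a subsystem of the centralizer system of T. -/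
theorem result {Ω : Type*} [Group Ω] {S : Subgroup Ω} [Finite S] (p : ℕ) [Fact p.Prime] (hS : IsPGroup p S) (F : Cfsg.FusionSystem S) (hF : F.IsSaturated p) {T : Subgroup Ω} (E : Cfsg.FusionSystem T) (hE : E.IsNormalIn F p) (Y : Subgroup Ω) (hY : Y ≤ Cfsg.FusionSystem.centralizerIn S T) (hEY : ∀ P : Subgroup Ω, E.Hom P ⊆ F.centralizerHom Y P) (hmax : ∀ Y' : Subgroup Ω, Y' ≤ Cfsg.FusionSystem.centralizerIn S T → (∀ P : Subgroup Ω, E.Hom P ⊆ F.centralizerHom Y' P) → Y' ≤ Y) : ∃ D : Cfsg.FusionSystem Y, D.IsNormalIn F p ∧ ∀ P : Subgroup Ω, D.Hom P ⊆ F.centralizerHom T P := by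
  obtain ⟨a, b, S', F', h, hA⟩ := exists_satA hS hF
  have hT := H94.le_of_isNormalIn hE
  obtain ⟨E', k⟩ := exists_tr_sub h hT E
  have hN := nrA_of hA (h.isNormalIn k hE)
  have hT' := hN.inv.le
  have h1 := tr_cz h.symm k.symm hT' ((cz_iff_hom hA.amb hT').1 hN.cz_CE)
  have hYS : Y ≤ S := hY.trans inf_le_left
  have h4 := hN.le_CE ((cz_iff_hom hA.amb hT').2 (tr_cz h k hT ⟨hY, hEY⟩))
  have e : img (CE p E' F') b = Y := by
    refine le_antisymm (hmax _ h1.1 h1.2) ?_
    rw [← h.iso.img_img hYS]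
    exact (h.iso.symm.img_le_img_iff (h.iso.img_le hYS) hN.sc_CE.1).2 h4
  obtain ⟨D', hD', h5⟩ := hN.exists_CF
  obtain ⟨D, k'⟩ := h.iso.symm.exists_tr_sub hN.sc_CE.1 e D'
  refine ⟨D, h.symm.isNormalIn k' hD'.isNormalIn, ?_⟩
  have h6 := isCentralizerSystem_centSys F' _ hT'
  have := tr_czHom h.symm k' hT' fun P => by
    rw [← h6 P, hA.amb.eq_kSys_Ct hT' h6]; exact h5.1 P
  rwa [h.iso.img_img hT] at this

end Cfsg.Agent.S5155
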