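import Cfsg.Statements.S5198
import Cfsg.Agent.H92.Quasi

set_option autoImplicit false
open Cfsg

namespace Cfsg.Agent.S5198
open H92 H93 Cfsg.FusionSystem

theorem aux {Ω : Type*} [Group Ω] [Finite Ω] {S T : Subgroup Ω} {p : ℕ} [Fact p.Prime]
    {F : FusionSystem S} (hF : SatA p F) (hT : F.StronglyClosed T) :
    F.hyperfocalSubgroup p ≤ Opr p (Aut F T) ⊔ (T ⊔ Ct T) := by
  refine hF.amb.hyp_le_iff.2 fun P a ha hn hc x hx => ?_
  set K := Opr p (Aut F T) ⊔ (T ⊔ Ct T)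
  obtain ⟨f, hf, e⟩ := gf_mor hF.pg hF.sat hT ha.mor
  obtain ⟨k, hk, e'⟩ := hF.amb.mor hf
  have hkT := (hk.mono le_sup_right).mem_Aut (hk.mem_Nm_sc hT le_sup_right)
  have hK : Aut F T ≤ Nm K := fun g hg => mem_Nm_sup (le_Nm_Opr p _ hg) (Aut_le_Nm_Inn F T hg)
  have h1 : ∀ y ∈ P, (k * y * k⁻¹)⁻¹ * (a * y * a⁻¹) ∈ K := fun y hy => by
    rw [← e' y (Subgroup.mem_sup_left hy)]
    exact Subgroup.mem_sup_right (Subgroup.mem_sup_left (e y hy))
  have h2 : ∀ j : ℕ, ∀ y ∈ P, (k ^ j * y * (k ^ j)⁻¹)⁻¹ * (a ^ j * y * (a ^ j)⁻¹) ∈ K := by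
    intro j
    induction j with
    | zero => intro y _; simp
    | succ j ih =>
      intro y hy
      convert K.mul_mem (conj_mem_of_Nm (hK hkT) (ih y hy))
        (h1 _ (conj_mem_of_Nm ((Nm P).pow_mem hn j) hy)) using 1
      rw [pow_succ', pow_succ']
      generalize k ^ j = u
      generalize a ^ j = v
      group
  have h3 : k ^ orderOf a ∈ Tv P K := ⟨(Nm K).pow_mem (hK hkT) _, fun y hy => by
    simpa [mul_assoc] using K.inv_mem (h2 (orderOf a) y hy)⟩
  obtain ⟨m, hm⟩ := pMod_Opr (p := p) _ k hkT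
  have h4 : k ^ p ^ m ∈ Tv P K := le_Tv_of_le_Nm (fun y hy => hK (Nm_le_Aut F T
    ⟨ha.le hy, le_Nm_sc hT (ha.le hy)⟩)) (Subgroup.mem_sup_left hm)
  have h5 := mem_of_pow_mem_of_coprime (hc.pow_right m) h3 h4
  convert K.mul_mem (h5.2 x hx) (h1 x hx) using 1; group


/-- Let F be a saturated fusion system over a finite p-group S and T a subgroup of S strongly closed in F (so T is normal in S). Then every element x of the hyperfocal subgroup of F acts on T by conjugation as an element of O^p(Aut_F(T))·Inn(T): there is an automorphism of T in the subgroup generated by the elements of Aut_F(T) of order prime to p together with the inner automorphisms of T that agrees with conjugation by x. -/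
theorem result {Ω : Type*} [Group Ω] {S : Subgroup Ω} [Finite S] (p : ℕ) [Fact p.Prime] (hS : IsPGroup p S) (F : Cfsg.FusionSystem S) (hF : F.IsSaturated p) (T : Subgroup Ω) (hT : F.StronglyClosed T) : ∀ x ∈ F.hyperfocalSubgroup p, ∃ α ∈ ((Cfsg.pResidual p ↥(F.autGroup T)).map (F.autGroup T).subtype ⊔ Cfsg.Inn ↥T : Subgroup (MulAut ↥T)), ∀ t : ↥T, ((α t : ↥T) : Ω) = x * (t : Ω) * x⁻¹ := by
  obtain ⟨a, b, S', F', h, hA⟩ := exists_satA hS hF
  intro x hx
  have hT' := h.stronglyClosed hT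
  have h1 := aux hA hT' (h.img_hyperfocal ▸ mem_img_of_mem a hx)
  have h2 : Opr p (Aut F' (img T a)) ⊔ (img T a ⊔ Ct (img T a)) ≤
      lift (img T a) (Opr p (F'.autGroup (img T a)) ⊔ Inn (img T a)) := by
    refine le_trans ?_ (lift_sup_le _ _)
    rw [hA.amb.lift_Opr hT'.1, lift_Inn, lift_autGroup hT'.1]
    exact sup_le_sup_right le_sup_left _
  obtain ⟨β, hβ, e⟩ := mem_lift.1 (h2 h1)
  have h3 : Opr p (F'.autGroup (img T a)) ⊔ Inn (img T a) ≤
      (Opr p (F.autGroup T) ⊔ Inn T).map (h.iso.tr hT.1 rfl).toMonoidHom := by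
    rw [Subgroup.map_sup, h.iso.map_tr_Inn]
    refine sup_le_sup_right (Opr_le_iff.2 fun γ hγ hc => ?_) _
    obtain ⟨δ, rfl⟩ := (h.iso.tr hT.1 rfl).surjective γ
    exact Subgroup.mem_map_of_mem _ (mem_Opr ((h.tr_mem_autGroup_iff hT.1 rfl).1 hγ)
      (by rwa [MulEquiv.orderOf_eq] at hc))
  obtain ⟨α, hα, rfl⟩ := h3 hβ
  have hxS := H95.hyp_le F p hx
  refine ⟨α, by rwa [map_pResidual_eq_Opr], fun t => h.iso.inj (hT.1 (α t).2)
    (S.mul_mem (S.mul_mem hxS (hT.1 t.2)) (S.inv_mem hxS)) ?_⟩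
  have := e _ (mem_img_of_mem a t.2)
  rw [MulEquiv.coe_toMonoidHom, h.iso.af_tr hT.1 rfl α t.2, af_coe] at this
  rw [this, h.iso.mul.map_conj hxS (hT.1 t.2)]

end Cfsg.Agent.S5198
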