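import Cfsg.Statements.S5214
import Cfsg.Agent.S1137
import Cfsg.Agent.S1138
import Cfsg.Agent.H92.Normal

set_option autoImplicit false
open Cfsg

namespace Cfsg.Agent.S5214

/-- Let S be a Suzuki 2-group (a finite nonabelian 2-group with more than one involution admitting a cyclic group of automorphisms permuting its involutions regularly). Then S is normal in every saturated fusion system over S (such a group is resistant). -/
theorem result {Ω : Type*} [Group Ω] {S : Subgroup Ω} [Finite S] (hS : IsPGroup 2 S) (F : Cfsg.FusionSystem S) (hF : F.IsSaturated 2) (hsz : Cfsg.IsSuzukiTwoGroup ↥S) : F.IsNormal S := by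
  have : Fact (Nat.Prime 2) := ⟨Nat.prime_two⟩
  obtain ⟨h1, h2⟩ := Cfsg.Agent.S1137.result hsz
  have h3 := (Cfsg.Agent.S1138.result hsz).2.1
  have h4 : ∀ x ∈ S, (x ∈ H92.zc S 1 ↔ x * x = 1) := fun x hx => by
    rw [H92.mem_zc_succ, H92.zc_zero]
    simp only [Subgroup.mem_bot, mul_inv_eq_iff_eq_mul, one_mul]
    refine ⟨fun h => congrArg Subtype.val (h2 ⟨x, hx⟩ (Subgroup.mem_center_iff.mpr fun y =>
      Subtype.ext (h.2 y y.2).symm)), fun h => ⟨hx, fun y hy => ?_⟩⟩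
    by_cases h' : (⟨x, hx⟩ : S) = 1
    · rw [show x = 1 from congrArg Subtype.val h', one_mul, mul_one]
    · exact congrArg Subtype.val
        (Subgroup.mem_center_iff.mp ((h1 _).mp ⟨h', Subtype.ext h⟩).1 ⟨y, hy⟩).symm
  refine H92.isNormal_of_zc hS hF le_rfl fun i => ?_
  rcases i with _ | _ | i
  · exact H92.zc_zero S ▸ H92.stronglyClosed_bot F
  · exact H92.stronglyClosed_iff.mpr ⟨H92.zc_le _ _, fun R f hf x hx hx' => (h4 _ (hf.mem hx)).mpr
      (by rw [← hf.mulOn.map_mul hx hx, (h4 x (hf.le hx)).mp hx', hf.mulOn.map_one])⟩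
  have h5 : H92.zc S (i + 1 + 1) = S := le_antisymm (H92.zc_le _ _) fun x hx =>
    H92.mem_zc_succ.mpr ⟨hx, fun y hy => H92.zc_mono S (by omega : 1 ≤ i + 1) (by
      have := h3 (⟨x, hx⟩ : S)⁻¹ (⟨y, hy⟩ : S)⁻¹
      rw [inv_inv, inv_inv] at this
      exact (h4 _ (Subtype.property (⟨x, hx⟩ * ⟨y, hy⟩ * (⟨x, hx⟩ : S)⁻¹ * (⟨y, hy⟩ : S)⁻¹))).mpr
        (congrArg Subtype.val (h2 _ this)))⟩
  exact h5.symm ▸ H92.stronglyClosed_top F

end Cfsg.Agent.S5214
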