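import Cfsg.Statements.S5219
import Cfsg.Agent.H9.EssAgemo

set_option autoImplicit false
open Cfsg

namespace Cfsg.Agent.S5219

open scoped commutatorElement

theorem pow_mem_ucs {G : Type*} [Group G] {q : ℕ} (h : ∀ z ∈ Subgroup.center G, z ^ q = 1) :
    ∀ (i : ℕ), ∀ x ∈ Subgroup.upperCentralSeries G (i + 1),
      x ^ q ∈ Subgroup.upperCentralSeries G i := by
  intro i
  induction i with
  | zero =>
    intro x hx
    rw [Subgroup.upperCentralSeries_one] at hx
    rw [h x hx]
    exact Subgroup.one_mem _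
  | succ i ih =>
    intro x hx
    rw [Subgroup.mem_upperCentralSeries_succ_iff] at hx ⊢
    intro y
    have h1 := ih _ (hx y)
    have h2 : ∀ g, ⁅⁅x, y⁆, g⁆ ∈ Subgroup.upperCentralSeries G i :=
      Subgroup.mem_upperCentralSeries_succ_iff.mp (hx y)
    rw [← QuotientGroup.eq_one_iff] at h1 ⊢
    have h3 : Commute (x : G ⧸ Subgroup.upperCentralSeries G i) 
        ⁅(x : G ⧸ Subgroup.upperCentralSeries G i), (y : G ⧸ Subgroup.upperCentralSeries G i)⁆ := by
      symm
      rw [← commutatorElement_eq_one_iff_commute]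
      exact (QuotientGroup.eq_one_iff _).mpr (h2 x)
    exact (H9.commutatorElement_pow_left h3 q).trans h1

theorem pow_eq_one_of_mem_ucs {G : Type*} [Group G] {q : ℕ}
    (h : ∀ z ∈ Subgroup.center G, z ^ q = 1) :
    ∀ (i : ℕ), ∀ x ∈ Subgroup.upperCentralSeries G i, x ^ q ^ i = 1 := by
  intro i
  induction i with
  | zero => intro x hx; simpa using hx
  | succ i ih =>
    intro x hx
    rw [pow_succ', pow_mul]
    exact ih _ (pow_mem_ucs h i x hx)

/-- Let p be a prime, n a natural number, S a nontrivial finite p-group of nilpotence class at most n(p−1)+1, and F a saturated fusion system over S with no nontrivial normal subgroup (O_p(F) = 1). Then S has exponent dividing p^(n²(p−1)+n). -/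
theorem result {Ω : Type*} [Group Ω] {S : Subgroup Ω} [Finite S] (p : ℕ) [Fact p.Prime] (hS : IsPGroup p S) (F : Cfsg.FusionSystem S) (hF : F.IsSaturated p) (n : ℕ) (hS1 : S ≠ ⊥) (hcl : Subgroup.lowerCentralSeries S (n * (p - 1) + 1) = ⊥) (hcore : F.core = ⊥) : Monoid.exponent ↥S ∣ p ^ (n ^ 2 * (p - 1) + n) := by
  have h1 : Cfsg.powerClosure p n (S ⊓ Subgroup.centralizer (S : Set Ω)) ≤ ⊥ :=
    hcore ▸ le_sSup (H9.isNormal_agemo_center hS hF hcl)
  have h2 : ∀ z ∈ Subgroup.center S, z ^ p ^ n = 1 := fun z hz =>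
    Subtype.ext (Subgroup.mem_bot.mp (h1 (Subgroup.subset_closure ⟨z, ⟨z.2, fun g hg =>
      congrArg Subtype.val (Subgroup.mem_center_iff.mp hz ⟨g, hg⟩)⟩, rfl⟩)))
  rw [← Subgroup.top_subtype_lowerCentralSeries, Subgroup.map_eq_bot_iff_of_injective _
    S.subtype_injective, Subgroup.lowerCentralSeries_eq_bot_iff_upperCentralSeries_eq_top] at hcl
  refine Monoid.exponent_dvd_of_forall_pow_eq_one fun g => ?_
  have h3 := pow_eq_one_of_mem_ucs h2 _ g (hcl ▸ Subgroup.mem_top g)
  rwa [← pow_mul, show n * (n * (p - 1) + 1) = n ^ 2 * (p - 1) + n by ring] at h3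

end Cfsg.Agent.S5219
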