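import Cfsg.Statements.S5222
import Cfsg.Agent.H95.FocSC
import Cfsg.Agent.S5098

set_option autoImplicit false
open Cfsg

namespace Cfsg.Agent.S5222

open Cfsg.FusionSystem H92 H95

/-- Let F be a saturated fusion system over a finite p-group S whose normalizer fusion system of S is the inner fusion system of S (Aut_F(S) is a p-group). Then for every subgroup Q of S with [S, S] ≤ Q ≤ Φ(S), the normalizer fusion system of Q in F is the inner fusion system of N_S(Q) = S. -/
theorem result {Ω : Type*} [Group Ω] {S : Subgroup Ω} [Finite S] (p : ℕ) [Fact p.Prime] (hS : IsPGroup p S) (F : Cfsg.FusionSystem S) (hF : F.IsSaturated p) (hN : ∀ N : Cfsg.FusionSystem (Cfsg.FusionSystem.normalizerIn S S), F.IsNormalizerSystem S N → ∀ P : Subgroup Ω, N.Hom P = (Cfsg.innerFusionSystem (Cfsg.FusionSystem.normalizerIn S S)).Hom P) (Q : Subgroup Ω) (h1 : (commutator ↥S).map S.subtype ≤ Q) (h2 : Q ≤ (frattini ↥S).map S.subtype) : ∀ N : Cfsg.FusionSystem (Cfsg.FusionSystem.normalizerIn S Q), F.IsNormalizerSystem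 Q N → ∀ P : Subgroup Ω, N.Hom P = (Cfsg.innerFusionSystem (Cfsg.FusionSystem.normalizerIn S Q)).Hom P := by
  intro N hNQ P
  have hQS : Q ≤ S := h2.trans (Subgroup.map_subtype_le _)
  have hn : ∀ s ∈ S, ∀ x ∈ Q, s * x * s⁻¹ ∈ Q := fun s hs x hx => by
    have := Q.mul_mem hx (conj_mem_of_comm_le h1 hs (hQS hx))
    rwa [mul_inv_cancel_left] at this
  have e : normalizerIn S Q = S := le_antisymm (fun _ h => h.1) fun s hs =>
    mem_normalizerIn.2 ⟨hs, fun y => ⟨hn s hs y, fun hy => by
      simpa [mul_assoc] using hn _ (S.inv_mem hs) _ hy⟩⟩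
  haveI : Finite (normalizerIn S Q) := by rw [e]; infer_instance
  have hsat := Cfsg.Agent.S5098.result p hS F hF Q (fullyNormalized_of_normal F hQS hn) N hNQ
  rw [eq_inner_of_sc (F := N) (by rw [e]; exact hS) hsat
    (stronglyClosed_of_normal (H94.isNormal_normSys hNQ)) (by rw [e]; exact h1) (by rw [e]; exact h2)
    fun f hf => ?_]
  have hf' := hf.of_sub (H94.normSys_sub hNQ)
  rw [e] at hf' ⊢
  exact top_inner_iff.1 hN f hf'

end Cfsg.Agent.S5222
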