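import Cfsg.Statements.S5223
import Cfsg.Agent.H95.FocSC

set_option autoImplicit false
open Cfsg

namespace Cfsg.Agent.S5223

open Cfsg.FusionSystem H92 H95

/-- Let F be a saturated fusion system over a finite p-group S. Suppose there are subgroups Q₀ = S, Q₁, …, Qₙ = 1 (not required to be nested) such that for each i < n the focal subgroup of Qᵢ (generated by the elements x⁻¹φ(x), x ∈ Qᵢ, φ a map of F defined on the cyclic group generated by x) lies in Qᵢ₊₁. Then F is the inner fusion system of S. -/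
theorem result {Ω : Type*} [Group Ω] {S : Subgroup Ω} [Finite S] (p : ℕ) [Fact p.Prime] (hS : IsPGroup p S) (F : Cfsg.FusionSystem S) (hF : F.IsSaturated p) (n : ℕ) (Q : Fin (n + 1) → Subgroup Ω) (hQ0 : Q 0 = S) (hQn : Q (Fin.last n) = ⊥) (hstep : ∀ i : Fin n, Subgroup.closure {y : Ω | ∃ x ∈ Q i.castSucc, ∃ φ ∈ F.Hom (Subgroup.zpowers x), y = x⁻¹ * φ ⟨x, Subgroup.mem_zpowers x⟩} ≤ Q i.succ) : ∀ P : Subgroup Ω, F.Hom P = (Cfsg.innerFusionSystem S).Hom P := by
  intro P
  rw [eq_inner_of_isPGroup hS hF fun R hR => ?_]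
  have hRS := (top_or_essential_fn hR).1
  have := finite_mulAut hRS
  refine isPGroup_of_forall_coprime fun α hα hc => aut_eq_one fun x hx => ?_
  refine fix_of_chain (hS.to_le hRS) hc (fun i => finChain Q (n - i)) n (fun y hy h => ?_)
    (fun i hi y hy h => ?_) x hx ?_
  · simp only [Nat.sub_zero, finChain_last, hQn, Subgroup.mem_bot] at h
    rw [h, (mulOn_af α).map_one]
  · have h1 : n - (i + 1) < n := by omega
    have h2 : n - i = n - (i + 1) + 1 := by omega
    rw [h2, finChain_succ Q h1]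
    rw [finChain_castSucc Q h1] at h
    exact hstep _ (Subgroup.subset_closure ⟨y, h, _,
      ((mor_af hRS hα).mono (Subgroup.zpowers_le.2 hy)).hom_mem, rfl⟩)
  · simp only [Nat.sub_self, finChain_zero, hQ0]
    exact hRS hx

end Cfsg.Agent.S5223
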