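import Cfsg.Statements.S5225
import Cfsg.Agent.H95.Yoshida

set_option autoImplicit false
open Cfsg

namespace Cfsg.Agent.S5225

/-- Yoshida's Theorem for fusion systems. Let F be a saturated fusion system over a finite p-group S and N the normalizer fusion system of S in F. If the focal subgroups of F and N differ (N does not control transfer in F), then S has a quotient isomorphic to the wreath product C_p ≀ C_p (realised as a Sylow p-subgroup of the symmetric group of degree p²). -/
theorem result {Ω : Type*} [Group Ω] {S : Subgroup Ω} [Finite S] (p : ℕ) [Fact p.Prime] (hS : IsPGroup p S) (F : Cfsg.FusionSystem S) (hF : F.IsSaturated p) (N : Cfsg.FusionSystem (Cfsg.FusionSystem.normalizerIn S S)) (hN : F.IsNormalizerSystem S N) (hne : N.focalSubgroup ≠ F.focalSubgroup) : ∃ (W : Sylow p (Equiv.Perm (Fin (p ^ 2)))) (f : ↥S →* ↥(W : Subgroup (Equiv.Perm (Fin (p ^ 2))))), Function.Surjective f := by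
  have hNS : Cfsg.FusionSystem.normalizerIn S S = S :=
    le_antisymm (H92.normalizerIn_le S S) (H92.le_normalizerIn le_rfl)
  have hmor : ∀ f, H92.Mor F S f → H92.Mor N S f := fun f hf =>
    (H92.mor_normalizerSystem_iff hN).2 ⟨hNS.ge, f, by rwa [sup_idem], fun _ _ => rfl,
      hf.img_eq_of_maps fun x hx => hf.mem hx⟩
  refine H95.yoshida hS hF ?_ ?_ (fun f hf a ha => H95.mem_focal (hmor f hf) ha) hne
  · exact (Subgroup.commutator_mono hNS.ge hNS.ge).trans (H95.commutator_le_focal N)
  · refine H95.focal_le_iff.2 fun P f hf x hx => ?_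
    obtain ⟨-, g, hg, e, -⟩ := (H92.mor_normalizerSystem_iff hN).1 hf
    rw [← e x hx]
    exact H95.mem_focal hg (le_sup_left (b := S) hx)

end Cfsg.Agent.S5225
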