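import Cfsg.Statements.S5226
import Cfsg.Agent.H92.Normal

set_option autoImplicit false
open Cfsg

namespace Cfsg.Agent.S5226

/-- Let F be a saturated fusion system over a finite p-group S and Q a subgroup of S. Then Q is normal in F (F equals the normalizer system of Q) if and only if Q is strongly closed in F and admits a central series 1 = Q₀ ≤ Q₁ ≤ ⋯ ≤ Qₙ = Q ([Qᵢ₊₁, Q] ≤ Qᵢ) all of whose proper terms are weakly closed in F. -/
theorem result {Ω : Type*} [Group Ω] {S : Subgroup Ω} [Finite S] (p : ℕ) [Fact p.Prime] (hS : IsPGroup p S) (F : Cfsg.FusionSystem S) (hF : F.IsSaturated p) (Q : Subgroup Ω) : F.IsNormal Q ↔ F.StronglyClosed Q ∧ ∃ (n : ℕ) (C : Fin (n + 1) → Subgroup Ω), C 0 = ⊥ ∧ C (Fin.last n) = Q ∧ Monotone C ∧ (∀ i : Fin n, ⁅C i.succ, Q⁆ ≤ C i.castSucc) ∧ ∀ i : Fin n, F.WeaklyClosed (C i.castSucc) := by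
  constructor
  · intro h
    have := H92.finite_of_le h.1
    obtain ⟨n, hn⟩ := H92.exists_zc_eq (hS.to_le h.1)
    refine ⟨H92.stronglyClosed_of_normal h, n, fun i => H92.zc Q i, H92.zc_zero Q, hn,
      fun i j hij => H92.zc_mono Q hij, fun i => ?_, fun i => H92.weaklyClosed_of_stronglyClosed
        (H92.stronglyClosed_of_normal (H93.isNormal_of_char h (H92.zc_le Q _) (H92.zc_char Q _)))⟩
    rw [Subgroup.commutator_le]
    intro x hx y hy
    exact (H92.mem_zc_succ.1 hx).2 y hy
  · rintro ⟨hQ, n, C, h0, hn, hm, h1, h2⟩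
    refine H92.isNormal_of_stronglyClosed hS hF hQ fun P hP => ?_
    set D := H92.finChain C with hD
    have hDn : D n = Q := (H92.finChain_last C).trans hn
    have hw : ∀ i ≤ n, F.WeaklyClosed (D i) := by
      intro i hi
      rcases hi.eq_or_lt with rfl | hi
      · rw [hDn]; exact H92.weaklyClosed_of_stronglyClosed hQ
      · rw [hD, H92.finChain_castSucc C hi]; exact h2 _
    have hmono : Monotone D := fun i j hij => hm (by
      show min i n ≤ min j n
      omega)
    have hDQ : ∀ i, D i ≤ Q := fun i => hn ▸ hm (Fin.le_last _)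
    have hc : ∀ i < n, ∀ x ∈ D (i + 1), ∀ q ∈ Q, x * q * x⁻¹ * q⁻¹ ∈ D i := by
      intro i hi x hx q hq
      rw [hD, H92.finChain_succ C hi] at hx
      rw [hD, H92.finChain_castSucc C hi]
      exact h1 ⟨i, hi⟩ (Subgroup.commutator_mem_commutator hx hq)
    have main : ∀ i ≤ n, D i ≤ P := by
      intro i hi
      induction i with
      | zero => rw [hD, H92.finChain_zero, h0]; exact bot_le
      | succ i ih =>
        have ih := ih (by omega)
        refine H92.le_of_chain hS hQ (H92.centralizerIn_le_of_centric hP.1)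
          (H92.essential_radical hS hF hP) (hDQ _)
          (fun y hy q hq => H92.conj_mem_of_weaklyClosed (hw _ hi) (hP.1.1 hy) hq)
          (H92.extChain D i Q) (i + 1) (H92.extChain_succ _ _ _) (fun α hα j hj x hx hx' => ?_)
          (fun α hα _ x hx hx' => ?_) fun j hj q hq x hx hx' => ?_
        · rw [H92.extChain_of_le _ _ (by omega)] at hx' ⊢
          exact (H92.mor_af hP.1.1 hα).mem_of_weaklyClosed (hw j (by omega))
            ((hmono (by omega)).trans ih) hx'
        · rw [H92.extChain_of_le _ _ (by omega), hD, H92.finChain_zero, h0, Subgroup.mem_bot] at hx'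
          rw [hx', (H92.mulOn_af α).map_one]
        · rw [H92.extChain_of_le _ _ (by omega)]
          rcases (Nat.lt_succ_iff.1 hj).eq_or_lt with rfl | hj
          · rw [H92.extChain_succ] at hx'
            have := (D j).inv_mem (hc j (by omega) q hq x⁻¹ (Q.inv_mem hx'))
            simpa [mul_assoc] using this
          · rw [H92.extChain_of_le _ _ (by omega)] at hx'
            have := hc j (by omega) x⁻¹ (Subgroup.inv_mem _ hx') q (hDQ _ hq)
            simpa [mul_assoc] using this
    exact hDn ▸ main n le_rfl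

end Cfsg.Agent.S5226
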