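import Cfsg.Statements.S5227
import Cfsg.Agent.H20.C3AsmB
import Cfsg.Agent.H18.C3L0a
import Cfsg.Agent.H44.C3L0b
import Cfsg.Agent.H13.C3L0c
import Cfsg.Agent.H89.C3L1a
import Cfsg.Agent.H99.C3L1b
import Cfsg.Agent.H92.C3L2
import Cfsg.Agent.H52.C3L5
import Cfsg.Agent.H7.C3NW
import Cfsg.Agent.H60.C3L6
import Cfsg.Agent.H56.C3Du
import Cfsg.Agent.H96.C3Ct
import Cfsg.Agent.H44.C3NA
import Cfsg.Agent.H39.C3A12
import Cfsg.Agent.H98.C3A3S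
import Cfsg.Agent.H77.C3Tri
import Cfsg.Agent.H73.C3G
import Cfsg.Agent.H26.C3N1
import Cfsg.Agent.H5.C3N2
import Cfsg.Agent.H84.C3N3
import Cfsg.Agent.H74.C3A4
import Cfsg.Agent.H15.C3Q8
import Cfsg.Agent.H92.C3Cand
import Cfsg.Agent.H43.C3M0
import Cfsg.Agent.H43.C3M1
import Cfsg.Agent.H72.C3PG
import Cfsg.Agent.H88.C3Cert

set_option autoImplicit false
open Cfsg

namespace Cfsg.Agent.S5227

/-- Let S be a finite 3-group isomorphic to a Sylow 3-subgroup of the Conway group Co₁ and F a saturated fusion system over S with no nontrivial normal subgroup (O₃(F) = 1). Then F is realizable: it is the fusion system of a finite group on a Sylow 3-subgroup. -/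
theorem result {Ω : Type*} [Group Ω] {S : Subgroup Ω} [Finite S] (hS : IsPGroup 3 S) (F : Cfsg.FusionSystem S) (hF : F.IsSaturated 3) [Fact (Nat.Prime 3)] (T : Sylow 3 Cfsg.Spor.Co1) (e : ↥S ≃* ↥(T : Subgroup Cfsg.Spor.Co1)) (hcore : F.core = ⊥) : F.IsRealizable 3 := by
  exact H20.C3.main
    ⟨H18.C3L0a.jobL0a, H44.C3.jobL0b, H13.C3L.jobL0c, H89.C3L.jobL1a, H99.C3.jobL1b, H92.C3L2.jobL2,
      H52.C3L5.jobL5, H72.C3.jobPG, H7.C3NW.jobNW, H60.C3.jobL6a, H56.C3Du.jobDu, H56.C3Du.jobHp, H96.C3Ct.jobCt,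
      H44.C3.jobNA, H44.C3.jobN0, H39.C3A.jobA12, H98.C3A.jobA3S, H77.C3Tri.jobTri, H73.C3G.jobG, H26.C3.jobN1,
      H5.C3N2.jobN2, H84.C3N3.jobN3, H84.C3N3.jobSt, H74.C3.jobA4, H74.C3.jobK4, H74.C3.jobD4, H15.C3.jobQ8,
      H92.C3Cand.jobCand, H88.C3C.jobCert, H43.C3.jobM0, H43.C3.jobM0d, H43.C3.jobM1, H43.C3.jobSyl⟩ F hF T e hcore

end Cfsg.Agent.S5227
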