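import Cfsg.Statements.S5233
import Cfsg.Agent.H9.TwoTv
import Cfsg.Agent.H48.Omega
import Cfsg.Agent.H58.SmallQuot

set_option autoImplicit false
open Cfsg

namespace Cfsg.Agent.S5233

open H9 H92 Cfsg.FusionSystem Subgroup
open scoped commutatorElement

theorem exists_prod {G : Type*} [Group G] [Finite G] {p : ℕ} [hp : Fact p.Prime] (hG : IsPGroup p G)
    (h1 : frattini G = commutator G) (h2 : Nat.card (commutator G) = p) {y w : G}
    (h3 : ∀ a b : G, Commute a y → Commute b y → Commute a b ∧ a ^ p = 1) (hw : ¬ Commute y w) :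
    (∀ g : G, ∃ c, Commute c y ∧ ∃ k : ℤ, g = c * w ^ k) ∧
    ∃ (E : Subgroup G) (A : Type) (_ : CommGroup A), y ∈ E ∧ w ∈ E ∧ Nat.card E = p ^ 3 ∧
      (∀ a : A, a ^ p = 1) ∧ Nonempty (G ≃* E × A) := by
  have hZ := le_center_of_card_le hG h2.le
  have hi : ∀ a : G, (centralizer ({a} : Set G)).index ∣ p := fun a => h2 ▸
    H48.index_centralizer_singleton_dvd hZ fun g => commutatorElement_mem_commutator a g
  have hw' : w ∉ centralizer ({y} : Set G) := fun h => hw (mem_centralizer_singleton_iff.mp h).symm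
  have hiy : (centralizer ({y} : Set G)).index = p := ((Nat.dvd_prime hp.out).mp (hi y)).resolve_left
    fun h => hw' (index_eq_one.mp h ▸ mem_top w)
  have := normal_of_index_eq hG hiy
  have h4 : ∀ g : G, ∃ c, Commute c y ∧ ∃ k : ℤ, g = c * w ^ k := fun g => by
    obtain ⟨c, hc, e⟩ := mem_sup_zpowers.mp ((sup_zpowers_eq_top_of_index hG hiy hw').ge (mem_top g))
    exact ⟨c, mem_centralizer_singleton_iff.mp hc, e⟩
  have h5 : centralizer {y} ⊓ centralizer {w} ≤ center G := fun a ha => mem_center_iff.mpr fun g => by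
    obtain ⟨c, hc, k, rfl⟩ := h4 g
    exact ((h3 c a hc (mem_centralizer_singleton_iff.mp ha.1)).1.mul_left
      ((show Commute a w from mem_centralizer_singleton_iff.mp ha.2).symm.zpow_left k)).eq
  have h6 : ∀ z ∈ center G, z ^ p = 1 := fun z hz =>
    (h3 z z (commute_of_mem_center hz y).symm (commute_of_mem_center hz y).symm).2
  obtain ⟨E, A, hE, e1, -, hA, ⟨e⟩⟩ := exists_prod_of_center hG h1 h2 h6 (le_antisymm
    ((index_antitone h5).trans (index_inf_le.trans (by
      rw [pow_two]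
      exact Nat.mul_le_mul hiy.le (Nat.le_of_dvd hp.out.pos (hi w)))))
    (sq_le_index_center hG fun h => hw (h.is_comm.comm y w))) hw
  obtain ⟨A', _, ⟨eA⟩⟩ := exists_small_comm_model A
    ⟨⟨fun a b => Subtype.ext (commute_of_mem_center (hA b.2) a).eq⟩⟩
  refine ⟨h4, E, A', inferInstance, hE ▸ mem_sup_left (mem_sup_right (mem_zpowers y)),
    hE ▸ mem_sup_right (mem_zpowers w), e1, fun a => ?_, ⟨e.trans ((MulEquiv.refl E).prodCongr eA)⟩⟩
  obtain ⟨a, rfl⟩ := eA.surjective a
  rw [← map_pow, show a ^ p = 1 from Subtype.ext (h6 a (hA a.2)), map_one]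

/-- Let F be a saturated fusion system over a finite p-group S and P a subgroup of S strongly closed in F that is generalized extraspecial (its Frattini subgroup equals its commutator subgroup and has order p) and not isomorphic to E × A with A elementary abelian and E dihedral of order 8 (p = 2) or extraspecial of order p³ and exponent p (p odd). Then P is normal in F. -/
theorem result {Ω : Type*} [Group Ω] {S : Subgroup Ω} [Finite S] (p : ℕ) [Fact p.Prime] (hS : IsPGroup p S) (F : Cfsg.FusionSystem S) (hF : F.IsSaturated p) (P : Subgroup Ω) (hP : F.StronglyClosed P) (hge : frattini ↥P = commutator ↥P ∧ Nat.card ↥(commutator ↥P) = p) (h2 : p = 2 → ¬ ∃ (A : Type) (_ : CommGroup A), (∀ a : A, a ^ 2 = 1) ∧ Nonempty (↥P ≃* DihedralGroup 4 × A)) (hodd : p ≠ 2 → ¬ ∃ (E : Type) (_ : Group E) (A : Type) (_ : CommGroup A), Cfsg.IsExtraspecial p E ∧ Nat.card E = p ^ 3 ∧ Monoid.exponent E = p ∧ (∀ a : A, a ^ p = 1) ∧ Nonempty (↥P ≃* E × A)) : F.IsNormal P := by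
  have := finite_of_le hP.1
  have hPp := hS.to_le hP.1
  have hp0 := (Fact.out : p.Prime)
  have hcard : Nat.card (phi P) = p := by rw [phi, card_map_of_injective P.subtype_injective, hge.1, hge.2]
  have hgen : ∀ w ∈ phi P, w ≠ 1 → phi P = zpowers w := fun w hw h => by
    have := finite_of_le ((phi_le P).trans hP.1)
    refine (eq_of_le_of_card_ge (zpowers_le.mpr hw) ?_).symm
    rw [hcard, Nat.card_zpowers, orderOf_eq_prime (pow_eq_one_of_card_eq hcard hw) h]
  have hZ := le_center_of_card_le hPp hge.2.le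
  have hcen : ∀ w ∈ phi P, ∀ q ∈ P, Commute q w := by
    rintro _ ⟨w, hw, rfl⟩ q hq
    exact congrArg Subtype.val (commute_of_mem_center (hZ (hge.1 ▸ hw)) ⟨q, hq⟩).eq
  have hcomm : ∀ q ∈ P, ∀ x ∈ P, x⁻¹ * (q * x * q⁻¹) ∈ phi P := fun q hq x hx => by
    simpa [commutatorElement_def, mul_assoc] using commutator_mem_phi hPp (P.inv_mem hx) hq
  have hfc : F.IsFullyCentralized (phi P) := fc_of_fn hS hF (fullyNormalized_of_normal F
    ((phi_le P).trans hP.1) fun s hs x hx => conj_mem_phi (mem_normalizer_of_finite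
      fun y hy => conj_mem_of_stronglyClosed hP hs hy) hx)
  have key : ∀ R f, Mor F R f → ∀ z ∈ R, z ∈ phi P → f z ∉ phi P → ∀ a ∈ P, ∀ b ∈ P,
      Commute a (f z) → Commute b (f z) → Commute a b ∧ a ^ p = 1 := by
    intro R f hf z hz hz' hy
    have hz1 : z ≠ 1 := fun h => hy (by rw [h, hf.map_one]; exact one_mem _)
    obtain ⟨g₀, hg₀, e₀, -⟩ := (hf.mono (zpowers_le.mpr hz)).exists_inv
    have e₁ := (hf.mono (zpowers_le.mpr hz)).img_img_inv e₀ le_rfl
    rw [hf.mulOn.img_zpowers hz] at hg₀ e₁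
    obtain ⟨g, hg, e⟩ := exists_ext_sup_centralizer hS hF hg₀ (by rwa [e₁, ← hgen z hz' hz1])
    have hm : ∀ a ∈ P, Commute a (f z) → a ∈ zpowers (f z) ⊔ centralizerIn S (zpowers (f z)) :=
      fun a ha h => mem_sup_right (mem_centralizerIn.mpr ⟨hP.1 ha, by
        rintro _ ⟨k, rfl⟩; exact (h.zpow_right k).eq.symm⟩)
    have hy' : f z ∈ zpowers (f z) ⊔ centralizerIn S (zpowers (f z)) := mem_sup_left (mem_zpowers _)
    have h3 : ∀ w ∈ zpowers (f z) ⊔ centralizerIn S (zpowers (f z)), w ∈ phi P → g w ∈ phi P →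
        w = 1 := fun w hw h1 h2 => by_contra fun h => hy (by
      obtain ⟨k, hk⟩ := (hgen _ h2 (mt (hg.eq_one_iff hw).mp h)).le hz'
      rw [← hg.inj (zpow_mem hw k) hy' (by
        rw [hg.map_zpow hw, e _ (mem_zpowers _), e₀ z (mem_zpowers z)]; exact hk)]
      exact zpow_mem h1 k)
    intro a ha b hb h4 h5
    have ha' := hg.mem_of_stronglyClosed hP (hm a ha h4) ha
    have hb' := hg.mem_of_stronglyClosed hP (hm b hb h5) hb
    refine ⟨commutatorElement_eq_one_iff_commute.mp (h3 _ ?_ (commutator_mem_phi hPp ha hb) ?_),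
      h3 _ (pow_mem (hm a ha h4) p) (pow_mem_phi hPp ha) ?_⟩
    · exact mul_mem (mul_mem (mul_mem (hm a ha h4) (hm b hb h5)) (inv_mem (hm a ha h4)))
        (inv_mem (hm b hb h5))
    · rw [hg.map_commutator (hm a ha h4) (hm b hb h5)]; exact commutator_mem_phi hPp ha' hb'
    · rw [hg.map_pow (hm a ha h4)]; exact pow_mem_phi hPp ha'
  have hsc : F.StronglyClosed (phi P) := by
    refine stronglyClosed_iff.mpr ⟨(phi_le P).trans hP.1, fun R f hf z hz hz' => by_contra fun hy => ?_⟩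
    have hz1 : z ≠ 1 := fun h => hy (by rw [h, hf.map_one]; exact one_mem _)
    have hyP := hf.mem_of_stronglyClosed hP hz (phi_le P hz')
    have h3 := key R f hf z hz hz' hy
    have h4 : ∀ a b : P, Commute a ⟨_, hyP⟩ → Commute b ⟨_, hyP⟩ → Commute a b ∧ a ^ p = 1 :=
      fun a b ha hb => (h3 a a.2 b b.2 (congrArg Subtype.val ha.eq) (congrArg Subtype.val hb.eq)).imp
        (fun h => Subtype.ext h.eq) fun h => Subtype.ext h
    obtain ⟨w, hw⟩ : ∃ w : P, ¬ Commute ⟨_, hyP⟩ w := by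
      by_contra h
      push Not at h
      have h5 := (commutator_eq_bot_iff P).mpr ⟨⟨fun a b => (h4 a b (h a).symm (h b).symm).1.eq⟩⟩
      rw [h5, card_bot] at hge
      exact hp0.one_lt.ne hge.2
    have hy2 := (h4 _ _ (Commute.refl _) (Commute.refl _)).2
    by_cases hp2 : p = 2
    · subst hp2
      obtain ⟨w, hw, hw2⟩ : ∃ w : P, ¬ Commute ⟨_, hyP⟩ w ∧ w ^ 2 = 1 := by
        by_cases h : w ^ 2 = 1
        · exact ⟨w, hw, h⟩
        refine ⟨⟨_, hyP⟩ * w, fun h' => hw (by simpa using (Commute.refl _).inv_right.mul_right h'), ?_⟩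
        have h5 := hZ (commutatorElement_mem_commutator w ⟨_, hyP⟩)
        rw [mul_pow_of_commute_commutator (commute_of_mem_center h5 _) (commute_of_mem_center h5 _),
          hy2, mul_one, Nat.choose_self, pow_one]
        have h6 : ∀ a ∈ commutator P, ∀ b ∈ commutator P, a ≠ 1 → b ≠ 1 → a * b = 1 :=
          fun a ha b hb h1 h2 => by
            obtain ⟨c, -, hc⟩ := (Nat.card_eq_two_iff' (1 : commutator P)).mp hge.2
            have e : (⟨b, hb⟩ : commutator P) = ⟨a, ha⟩ :=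
              (hc _ fun h => h2 (congrArg Subtype.val h)).trans
                (hc _ fun h => h1 (congrArg Subtype.val h)).symm
            rw [show b = a from congrArg Subtype.val e, ← pow_two, pow_eq_one_of_card_eq hge.2 ha]
        exact h6 _ (commutatorElement_mem_commutator _ _) _ (hge.1 ▸ pow_mem_frattini hPp w)
          (fun h => hw (commutatorElement_eq_one_iff_commute.mp h).symm) h
      obtain ⟨-, E, A, _, hyE, hwE, e1, hA, ⟨e⟩⟩ := exists_prod hPp hge.1 hge.2 h4 hw
      obtain ⟨e'⟩ := H58.nonempty_equiv_dihedral_four (G := E) e1 (x := ⟨_, hyE⟩) (y := ⟨_, hwE⟩)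
        (Subtype.ext ((pow_two _).symm.trans hy2)) (Subtype.ext ((pow_two w).symm.trans hw2)) fun h => hw (by
          have h5 := congrArg Subtype.val h
          rw [pow_two] at hy2 hw2
          change _ * w * (_ * w) = 1 at h5
          rw [Commute, SemiconjBy, eq_inv_of_mul_eq_one_left h5, mul_inv_rev,
            inv_eq_of_mul_eq_one_left hy2, inv_eq_of_mul_eq_one_left hw2])
      exact h2 rfl ⟨A, inferInstance, hA, ⟨e.trans (e'.prodCongr (MulEquiv.refl A))⟩⟩
    have hmul : ∀ a b : P, (a * b) ^ p = a ^ p * b ^ p := fun a b =>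
      have h5 := commutatorElement_mem_commutator b a
      mul_pow_of_odd (commute_of_mem_center (hZ h5) _) (commute_of_mem_center (hZ h5) _)
        (hp0.odd_of_ne_two hp2) (pow_eq_one_of_card_eq hge.2 h5)
    by_cases h : ∃ w : P, ¬ Commute ⟨_, hyP⟩ w ∧ w ^ p = 1
    · obtain ⟨w, hw, hw2⟩ := h
      obtain ⟨h5, E, A, _, hyE, hwE, e1, hA, ⟨e⟩⟩ := exists_prod hPp hge.1 hge.2 h4 hw
      have h6 : ∀ g : P, g ^ p = 1 := fun g => by
        obtain ⟨c, hc, k, rfl⟩ := h5 g
        rw [hmul, (h4 c c hc hc).2, ← zpow_natCast, ← zpow_mul, mul_comm, zpow_mul, zpow_natCast, hw2,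
          one_zpow, one_mul]
      obtain ⟨E', _, _, ⟨e'⟩⟩ := exists_small_model E
      have h7 := (Nat.card_congr e'.toEquiv).symm.trans e1
      have : Nontrivial E' := Finite.one_lt_card_iff_nontrivial.mp
        (h7 ▸ Nat.one_lt_pow three_ne_zero hp0.one_lt)
      refine hodd hp2 ⟨E', inferInstance, A, inferInstance, H78.isExtraspecial_of_equiv e'
        (isExtraspecial_of_card_cube e1 fun h => hw (isMulCommutative_iff_forall.mp h _ hyE _ hwE)),
        h7, (Monoid.exponent_eq_prime_iff hp0).mpr fun g hg => orderOf_eq_prime ?_ hg, hA,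
        ⟨e.trans (e'.prodCongr (MulEquiv.refl A))⟩⟩
      obtain ⟨x, rfl⟩ := e'.surjective g
      rw [← map_pow, show x ^ p = 1 from Subtype.ext (h6 x), map_one]
    push Not at h
    obtain ⟨C, hC⟩ : ∃ C, C = P ⊓ centralizer {f z} := ⟨_, rfl⟩
    have hC1 : ∀ c, c ∈ C ↔ c ∈ P ∧ Commute c (f z) := fun c => by
      rw [hC, mem_inf, mem_centralizer_singleton_iff]; rfl
    have hC2 : ∀ c, c ∈ C ↔ c ∈ P ∧ c ^ p = 1 := fun c => by
      rw [hC1]
      exact and_congr_right fun hc => ⟨fun h' => (h3 c hc c hc h' h').2, fun h' => by_contra fun h'' =>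
        h ⟨c, hc⟩ (fun e => h'' (congrArg Subtype.val e.symm.eq)) (Subtype.ext h')⟩
    have hCS : C ≤ S := fun c hc => hP.1 ((hC1 c).mp hc).1
    have hCc : ∀ a ∈ C, ∀ b ∈ C, Commute a b := fun a ha b hb =>
      (h3 a ((hC1 a).mp ha).1 b ((hC1 b).mp hb).1 ((hC1 a).mp ha).2 ((hC1 b).mp hb).2).1
    have hCs : F.StronglyClosed C := stronglyClosed_iff.mpr ⟨hCS, fun R f hf c hc hc' => (hC2 _).mpr
      ⟨hf.mem_of_stronglyClosed hP hc ((hC2 c).mp hc').1, by
        rw [← hf.map_pow hc, ((hC2 c).mp hc').2, hf.map_one]⟩⟩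
    have hCn := isNormal_of_comm hS hF hCs hCc
    have hΦC : phi P ≤ C := fun c hc => (hC1 c).mpr ⟨phi_le P hc, (hcen c hc _ hyP).symm⟩
    have hzC := hΦC hz'
    obtain ⟨α, hα, e⟩ := exists_aut_of_normal hCn (zpowers_le.mpr hzC) (hf.mono (zpowers_le.mpr hz))
    replace e := e z (mem_zpowers z)
    have hwN : (w : Ω) ∈ normalizerIn S C := mem_normalizerIn_of hCS (hP.1 w.2)
      fun c hc => conj_mem_of_stronglyClosed hCs (hP.1 w.2) hc
    have hu : cAut C w hwN.2 ∈ F.autGroup C := autInducedBy_le_autGroup F hCS (cAut_mem _ hwN.1)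
    have hu1 : ∀ c ∈ C, c⁻¹ * af (cAut C w hwN.2) c ∈ zpowers z := fun c hc => by
      rw [af_cAut _ hc, ← hgen z hz' hz1]; exact hcomm _ w.2 c ((hC1 c).mp hc).1
    have hu2 : af (cAut C w hwN.2) z = z := by
      rw [af_cAut _ hzC, (hcen z hz' _ w.2).eq, mul_inv_cancel_right]
    have hyC : f z ∈ C := (hC1 _).mpr ⟨hyP, Commute.refl _⟩
    obtain ⟨β, hβ, b1, -, b2, -⟩ := exists_inv_of_two_tv (p := p) hCc (u := cAut C w hwN.2)
      (u' := α * cAut C w hwN.2 * α⁻¹) hzC hyC ((hC2 _).mp hzC).2 ((hC2 _).mp hyC).2 hu1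
      (fun c hc => by
        have hc' := af_mem α⁻¹ hc
        obtain ⟨k, hk⟩ := hu1 _ hc'
        refine ⟨k, ?_⟩
        simp only at hk ⊢
        rw [← e, ← (mulOn_af α).map_zpow hzC, hk, (mulOn_af α).map_mul (C.inv_mem hc') (af_mem _ hc'),
          (mulOn_af α).map_inv hc', af_af_inv, af_mul_apply, af_mul_apply]) hu2
      (by rw [← e, af_mul_apply, af_mul_apply, af_inv_af, hu2])
      (fun h' => hw (Subtype.ext (by
        rw [af_cAut _ hyC, mul_inv_eq_iff_eq_mul] at h'
        exact h'.symm)))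
      fun h' => by
        have h5 := af_mem α⁻¹ hzC
        have h6 : Commute (w : Ω) (af α⁻¹ z) := by
          have := congrArg (af α⁻¹) h'
          rwa [af_mul_apply, af_mul_apply, af_inv_af, af_cAut _ h5, mul_inv_eq_iff_eq_mul] at this
        refine h w hw (Subtype.ext (key C _ (mor_af hCS (inv_mem hα)) z hzC hz' (fun h7 => hy ?_)
          w w.2 w w.2 h6 h6).2)
        obtain ⟨k, hk⟩ := (hgen _ h7 fun h8 => hz1 (((mor_af hCS (inv_mem hα)).eq_one_iff hzC).mp
          h8)).le hz'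
        rw [← e, ← hk]
        simp only
        rw [(mulOn_af α).map_zpow h5, af_af_inv]
        exact zpow_mem hz' k
    have hβA : β ∈ F.autGroup C := (closure_le _).mpr (by
      rintro _ (rfl | rfl)
      exacts [hu, mul_mem (mul_mem hα hu) (inv_mem hα)]) hβ
    obtain ⟨g, hg, e'⟩ := exists_ext_aut hS hF (fc_of_fn hS hF (fn_of_normal hCn)) hβA
    have hwx : (w : Ω) ∈ Nx S C (af β) := (mem_Nx_af_iff hwN).mpr (by
      rw [b2, mul_inv_cancel_right]; exact cAut_mem _ hwN.1)
    have hgw := hg.mem_of_stronglyClosed hP hwx w.2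
    have h5 : (w : Ω)⁻¹ * g w ∈ C := (hC1 _).mpr ⟨P.mul_mem (P.inv_mem w.2) hgw, by
      have h6 := af_mem β⁻¹ hyC
      have h7 := hg.map_conj hwx ((mor_af hCS hβA).le_Nx h6)
      rw [e' _ h6, e' _ (conj_mem_of_normalizerIn hwN h6), ← af_cAut hwN.2 h6, ← af_mul_apply, b2,
        af_mul_apply, af_af_inv, af_cAut _ hyC] at h7
      calc _ = (w : Ω)⁻¹ * (g w * f z * (g w)⁻¹) * g w := by group
        _ = _ := by rw [← h7]; group⟩
    have h6 : (w : Ω) ^ p ∈ phi P := pow_mem_phi hPp w.2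
    have h7 : g (w ^ p) = w ^ p := by
      have := congrArg Subtype.val (hmul w ⟨_, ((hC1 _).mp h5).1⟩)
      simpa [hg.map_pow hwx, ((hC2 _).mp h5).2] using this
    obtain ⟨k, hk⟩ := (hgen z hz' hz1).le h6
    simp only at hk
    rw [e' _ (hΦC h6), ← hk, (mulOn_af β).map_zpow hzC, b1, inv_zpow, hk] at h7
    refine h w hw (eq_one_of_pow_eq_one_of_coprime hPp (n := 2)
      ((Nat.coprime_primes Nat.prime_two hp0).mpr (Ne.symm hp2)) (Subtype.ext ?_))
    simpa [pow_two] using inv_eq_iff_mul_eq_one.mp h7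
  refine isNormal_of_chain hS hF (fun i => match i with | 0 => ⊥ | 1 => phi P | _ => P) 2 rfl rfl
    (fun i hi => ?_) fun i hi q hq x hx => ?_
  · interval_cases i
    exacts [hsc, hP]
  · interval_cases i
    · exact mem_bot.mpr (by rw [(hcen x hx q hq).eq]; group)
    · exact hcomm q hq x hx

end Cfsg.Agent.S5233
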