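import Cfsg.Statements.S5236
import Cfsg.Agent.H92.Quasi
import Cfsg.Agent.S0120

set_option autoImplicit false
open Cfsg

namespace Cfsg.Agent.S5236
open H92 H93 Cfsg.FusionSystem

theorem ct_of_omega {Ω : Type*} [Group Ω] [Finite Ω] {X : Subgroup Ω} {p : ℕ} [Fact p.Prime]
    (hp : p ≠ 2) (hX : IsPGroup p X) {a : Ω} (ha : a ∈ Nm X) (hc : (orderOf a).Coprime p)
    (h : ∀ x ∈ X, x ^ p = 1 → a * x * a⁻¹ = x) : a ∈ Ct X := by
  refine (cAut_eq_one ha).1 (Cfsg.Agent.S0120.result hp hX _ (hc.coprime_dvd_left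
    (orderOf_dvd_of_pow_eq_one ?_)) fun x hx => Subtype.ext ?_)
  · rw [cAut_pow, cAut_eq_one, pow_orderOf_eq_one]; exact one_mem _
  · rw [← af_coe, af_cAut ha x.2, h x x.2 (congrArg Subtype.val hx)]

theorem aux {Ω : Type*} [Group Ω] [Finite Ω] {S P : Subgroup Ω} {p : ℕ} [Fact p.Prime]
    {F : FusionSystem S} (hF : SatA p F) (hp : p ≠ 2) (hP : F.StronglyClosed P) (n : ℕ)
    (Q : ℕ → Subgroup Ω) (h0 : Q 0 = ⊥) (hn : ∀ x ∈ P, x ^ p = 1 → x ∈ Q n)
    (hsc : ∀ i ≤ n, F.StronglyClosed (Q i))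
    (hc : ∀ i < n, ∀ y ∈ P, ∀ x ∈ Q (i + 1), x⁻¹ * (y * x * y⁻¹) ∈ Q i) : F.IsNormal P := by
  refine isNormal_of_stronglyClosed hF.pg hF.sat hP fun R hR => ?_
  have hcen := top_or_essential_centric (Or.inr hR)
  have hrad := top_or_essential_radical hF.pg hF.sat (Or.inr hR)
  have hRS := hcen.1
  by_contra hn'
  obtain ⟨s, hs, hsR⟩ := exists_mem_Nm_of_not_le hF.pg hRS hP.1 (hRS.trans (le_Nm_sc hP)) hn'
  set K := Aut F R ⊓ Tv R (R ⊓ P) ⊓ ⨅ i : Fin n, Tv (R ⊓ Q (i + 1)) (R ⊓ Q i) with hK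
  have h1 : K ≤ OpA p F R := by
    refine hF.amb.le_OpA hRS (inf_le_left.trans inf_le_left) (fun g hg => mem_Nm_of_conj fun k hk =>
      ⟨⟨conj_mem_of_Nm (le_Nm _ hg) hk.1.1, conj_mem_Tv_of_Nm hg.1 (Aut_le_Nm_inf_sc hP hRS hg) hk.1.2⟩,
        Subgroup.mem_iInf.2 fun i => conj_mem_Tv_of_Nm (Aut_le_Nm_inf_sc (hsc _ i.2) hRS hg)
          (Aut_le_Nm_inf_sc (hsc _ i.2.le) hRS hg) (Subgroup.mem_iInf.1 hk.2 i)⟩) fun g hg => ?_
    obtain ⟨m, hm⟩ := exists_pow_mem_coprime (p := p) g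
    have hg' := K.pow_mem hg (p ^ m)
    refine ⟨m, ct_of_tv (hF.pgl (inf_le_left.trans hRS)) hm hg'.1.2 (ct_of_omega hp
      (hF.pgl (inf_le_left.trans hRS)) hg'.1.2.1 hm fun x hx hx' => ?_)⟩
    have key : ∀ i ≤ n, g ^ p ^ m ∈ Ct (R ⊓ Q i) := by
      intro i
      induction i with
      | zero => intro _; simp [h0]
      | succ i ih =>
        intro hi
        exact ct_of_tv (hF.pgl (inf_le_left.trans hRS)) hm (Subgroup.mem_iInf.1 hg'.2 ⟨i, hi⟩)
          (ih (Nat.le_of_succ_le hi))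
    exact conj_eq_of_Ct (key n le_rfl) ⟨hx.1, hn x hx.2 hx'⟩
  have hsA := Nm_le_Aut F R ⟨hP.1 hs.1, hs.2⟩
  have h2 := h1 ⟨⟨hsA, mem_Tv_inf (mem_Tv_self hs.2) (le_Tv_of_le_Nm (hRS.trans (le_Nm_sc hP)) hs.1)⟩,
    Subgroup.mem_iInf.2 fun i => ⟨Aut_le_Nm_inf_sc (hsc _ i.2.le) hRS hsA, fun x hx =>
      ⟨(mem_Tv_self hs.2).2 x hx.1, hc i i.2 s hs.1 x hx.2⟩⟩⟩
  rw [(hF.amb.radical_iff.1 hrad).2] at h2
  have h3 : s ∈ S ⊓ (R ⊔ Ct R) := ⟨hP.1 hs.1, h2⟩
  rw [inf_sup_of_le_of_Nm' hRS (Ct_le_Nm R), sup_eq_left.2 (centric_Ct_le hcen)] at h3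
  exact hsR h3


/-- Let p be an odd prime, F a saturated fusion system over a finite p-group S and P a subgroup of S strongly closed in F. Then P is normal in F if and only if Ω₁(P) (the subgroup generated by the elements of order p of P) has a chain of subgroups 1 = Q₀ ≤ Q₁ ≤ ⋯ ≤ Qₙ = Ω₁(P), each strongly closed in F, with [Qᵢ₊₁, P] ≤ Qᵢ for all i. -/
theorem result {Ω : Type*} [Group Ω] {S : Subgroup Ω} [Finite S] (p : ℕ) [Fact p.Prime] (hS : IsPGroup p S) (F : Cfsg.FusionSystem S) (hF : F.IsSaturated p) (hp : p ≠ 2) (P : Subgroup Ω) (hP : F.StronglyClosed P) : F.IsNormal P ↔ ∃ (n : ℕ) (Q : Fin (n + 1) → Subgroup Ω), Q 0 = ⊥ ∧ Q (Fin.last n) = Cfsg.omegaOne p P ∧ Monotone Q ∧ (∀ i : Fin (n + 1), F.StronglyClosed (Q i)) ∧ ∀ i : Fin n, ⁅Q i.succ, P⁆ ≤ Q i.castSucc := by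
  have hΩ : omegaOne p P ≤ P := (Subgroup.closure_le _).2 fun x hx => hx.1
  constructor
  · intro h
    have : Finite P := finite_of_le hP.1
    obtain ⟨n, hn⟩ := exists_zc_eq (pg_of_le hS hP.1)
    have hch : ((omegaOne p P).subgroupOf P).Characteristic := char_of_af fun α x _ hx => by
      have h1 := (mulOn_af α).img_closure (s := {x | x ∈ P ∧ x ^ p = 1}) fun x hx => hx.1
      refine (h1.le.trans (Subgroup.closure_mono ?_)) (mem_img_of_mem _ hx)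
      rintro _ ⟨y, hy, rfl⟩
      exact ⟨af_mem α hy.1, by rw [← (mulOn_af α).map_pow hy.1, hy.2, (mulOn_af α).map_one]⟩
    have hsc := stronglyClosed_of_normal (isNormal_of_char h hΩ hch)
    refine ⟨n, fun i => omegaOne p P ⊓ zc P i, by simp [zc_zero], by simp [hn, hΩ],
      fun i j hij => inf_le_inf_left _ (zc_mono P hij), fun i => stronglyClosed_inf hsc
        (stronglyClosed_of_normal (isNormal_of_char h (zc_le P _) (zc_char P _))), fun i => ?_⟩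
    refine Subgroup.commutator_le.2 fun x hx y hy => ⟨?_, (mem_zc_succ.1 hx.2).2 y hy⟩
    have := (omegaOne p P).mul_mem hx.1 (conj_mem_of_stronglyClosed hsc (hP.1 hy)
      ((omegaOne p P).inv_mem hx.1))
    simpa [commutatorElement_def, mul_assoc] using this
  · rintro ⟨n, Q, h0, hn, -, hsc, hc⟩
    obtain ⟨a, b, S', F', h, hA⟩ := exists_satA hS hF
    have hQ : ∀ i ≤ n, F.StronglyClosed (finChain Q i) := fun i hi => finChain_of_le Q hi ▸ hsc _
    have := h.symm.isNormal (aux hA hp (h.stronglyClosed hP) n (fun i => img (finChain Q i) a)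
      (by simp only [finChain_zero, h0, h.iso.img_bot]) (fun y hy hy' => ?_)
      (fun i hi => h.stronglyClosed (hQ i hi)) fun i hi y hy x hx => ?_)
    · rwa [h.iso.img_img hP.1] at this
    · obtain ⟨x, hx, rfl⟩ := (h.iso.mem_img hP.1).1 hy
      refine mem_img_of_mem a ?_
      rw [finChain_last, hn]
      refine Subgroup.subset_closure ⟨hx, h.iso.inj (S.pow_mem (hP.1 hx) p) (one_mem _) ?_⟩
      rw [h.iso.mul.map_pow (hP.1 hx), hy', h.iso.mul.map_one]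
    · have hy2 := hy
      have hx2 : x ∈ img (finChain Q (i + 1)) a := hx
      clear hx hy
      obtain ⟨y, hy, rfl⟩ := (h.iso.mem_img hP.1).1 hy2
      obtain ⟨x, hx, rfl⟩ := (h.iso.mem_img (hQ _ hi).1).1 hx2
      have hxS := (hQ _ hi).1 hx
      rw [← h.iso.mul.map_conj (hP.1 hy) hxS, ← h.iso.mul.map_inv hxS, ← h.iso.mul.map_mul
        (S.inv_mem hxS) (S.mul_mem (S.mul_mem (hP.1 hy) hxS) (S.inv_mem (hP.1 hy)))]
      refine mem_img_of_mem a ?_
      rw [finChain_succ Q hi] at hx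
      rw [finChain_castSucc Q hi]
      simpa [commutatorElement_def, mul_assoc] using hc ⟨i, hi⟩
        (Subgroup.commutator_mem_commutator ((Q _).inv_mem hx) hy)

end Cfsg.Agent.S5236
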