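import Cfsg.Statements.S5243
import Cfsg.Agent.H92.PPrime2

set_option autoImplicit false
open Cfsg

namespace Cfsg.Agent.S5243
open H92 H93 Cfsg.FusionSystem

theorem aux {Ω Ω' : Type*} [Group Ω] [Group Ω'] [Finite Ω'] {S : Subgroup Ω} (p : ℕ) [Fact p.Prime] (F : FusionSystem S) {T : Subgroup Ω} (hTS : T ≤ S) (E : FusionSystem T) (hE : E.IsNormalIn F p) {Δ : Type*} [Group Δ] [Finite Δ] [Nontrivial Δ] (hΔ : (Nat.card Δ).Coprime p) (χ : ↥(F.autGroup T) →* Δ) (hχ : Function.Surjective χ) (hker : (E.autGroup T).subgroupOf (F.autGroup T) ≤ χ.ker) {a : Ω → Ω'} {b : Ω' → Ω} {S' : Subgroup Ω'} {F' : FusionSystem S'} (h : H94.Tr a b F F') (hA : SatA p F') : ∃ F₀ : FusionSystem S, F₀.IsNormalIn F p ∧ ¬ (∀ P : Subgroup Ω, F₀.Hom P = F.Hom P) ∧ E.IsSubsystemOf F₀ ∧ (∀ α : MulAut ↥S, α ∈ F₀.autGroup S ↔ α ∈ F.autGroup S ∧ ∃ β : ↥(F.autGroup T), χ β = 1 ∧ ∀ t : ↥T, (((β : MulAut ↥T) t :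 ↥T) : Ω) = ((α ⟨(t : Ω), hTS t.2⟩ : ↥S) : Ω)) ∧ ∀ R : FusionSystem S, F.IsPPrimeResidual p R → R.IsSubsystemOf F₀ := by
  obtain ⟨T', eT⟩ : ∃ T', img T a = T' := ⟨_, rfl⟩
  obtain ⟨E', k⟩ := h.iso.exists_tr_sub hTS eT E
  have hN := wnA_of hA (h.isWeaklyNormalIn k hE.1)
  have hT' := hN.inv.le
  obtain ⟨χ', hχ'⟩ : ∃ χ' : F'.autGroup T' →* Δ, ∀ β, χ' (h.autEquiv hTS eT β) = χ β :=
    ⟨χ.comp (h.autEquiv hTS eT).symm.toMonoidHom, fun β => by simp⟩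
  obtain ⟨Z, hZ⟩ : ∃ Z, Z = χ'.ker.map (F'.autGroup T').subtype := ⟨_, rfl⟩
  have hmem : ∀ β : F.autGroup T, h.iso.tr hTS eT β ∈ Z ↔ χ β = 1 := fun β => by
    rw [← h.coe_autEquiv hTS eT β, hZ, ← hχ', ← MonoidHom.mem_ker]
    generalize h.autEquiv hTS eT β = γ
    exact Subgroup.mem_map_iff_mem Subtype.val_injective
  have hZle : Z ≤ F'.autGroup T' := hZ ▸ Subgroup.map_subtype_le _
  have hK : lift _ Z ≤ Aut F' T' := lift_autGroup hT' ▸ lift_mono hZle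
  have hidx : (lift _ Z).relIndex (Aut F' T') = Nat.card Δ := by
    rw [← lift_autGroup hT', hA.amb.relIndex_lift hT', Subgroup.relIndex, hZ, Subgroup.subgroupOf,
      Subgroup.comap_map_eq_self_of_injective (F'.autGroup T').subtype_injective,
      Subgroup.index_ker, MonoidHom.range_eq_top.2 fun y => by
        obtain ⟨β, rfl⟩ := hχ y
        exact ⟨_, hχ' β⟩, Subgroup.card_top]
  have hEK : Aut E' T' ≤ lift _ Z := by
    rw [← lift_autGroup le_rfl]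
    refine lift_mono fun α hα => ?_
    obtain ⟨β, rfl⟩ := (h.iso.tr hTS eT).surjective α
    have hβ : β ∈ E.autGroup T := (k.tr_mem_autGroup_iff le_rfl eT).1 hα
    have hβ' : β ∈ F.autGroup T := autGroup_mono hE.1.2.2.1 T hβ
    have h1 : (⟨β, hβ'⟩ : F.autGroup T) ∈ χ.ker := hker (Subgroup.mem_subgroupOf.2 hβ)
    exact (hmem ⟨β, hβ'⟩).2 h1
  have hpp : PP p (lift _ Z) (Aut F' T') :=
    ⟨hK, by rw [hidx]; exact (Nat.Prime.coprime_iff_not_dvd Fact.out).1 hΔ.symm⟩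
  have hn : Aut F' T' ≤ Nm (lift _ Z) := by
    refine Aut_le_Nm_lift hT' fun β hβ m hm => ?_
    rw [hZ] at hm ⊢
    obtain ⟨n, hn, e⟩ := Subgroup.mem_map.1 hm
    refine Subgroup.mem_map.2 ⟨_, (MonoidHom.normal_ker χ').conj_mem n hn ⟨β, hβ⟩, ?_⟩
    rw [map_mul, map_mul, map_inv, e]; rfl
  obtain ⟨G, hG, h1, h2, h3⟩ := hN.exists_ext hK hEK hpp hn
  obtain ⟨F₀, t⟩ := h.iso.symm.exists_tr G
  have hF₀ := h.symm.isNormalIn t hG.isNormalIn
  refine ⟨F₀, hF₀, fun hh => ?_, t.isSubsystemOf k.symm h1, fun α => ?_, fun R hR =>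
    hR.2.2 F₀ hF₀.1.1 (h.symm.hasPrimeToPIndexIn t hG.toWnA.pprime)⟩
  · have h4 := t.symm.isSubsystemOf h fun P => (hh P).ge
    have h5 := (Aut_mono h4 hT').trans h3
    rw [Subgroup.relIndex_eq_one.2 h5] at hidx
    exact (Finite.one_lt_card (α := Δ)).ne hidx
  · obtain ⟨g, hg, e1⟩ := hA.amb.aut le_rfl (h.iso.tr le_rfl h.img_top α)
    have h4 : α ∈ F₀.autGroup S ↔ g ∈ Aut G S' := by
      rw [← lift_autGroup le_rfl, mem_lift_iff e1, t.symm.tr_mem_autGroup_iff le_rfl h.img_top]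
    have h5 : α ∈ F.autGroup S ↔ g ∈ Aut F' S' := by
      rw [← lift_autGroup le_rfl, mem_lift_iff e1, h.tr_mem_autGroup_iff le_rfl h.img_top]
    rw [h4, h5, h2, Subgroup.mem_inf]
    refine and_congr_right fun _ => ⟨fun hg => ?_, fun ⟨β, hβ, e2⟩ => ?_⟩
    · obtain ⟨γ, hγ, e2⟩ := mem_lift.1 hg
      obtain ⟨β, rfl⟩ := (h.iso.tr hTS eT).surjective γ
      have hβ : β ∈ F.autGroup T := (h.tr_mem_autGroup_iff hTS eT).1 (hZle hγ)
      refine ⟨⟨β, hβ⟩, (hmem ⟨β, hβ⟩).1 hγ, fun x => h.iso.inj (hTS (β x).2) (α _).2 ?_⟩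
      rw [← af_coe, ← h.iso.af_tr hTS eT β x.2, e2 _ (eT ▸ mem_img_of_mem a x.2),
        ← e1 _ (h.iso.a_mem _ (hTS x.2)), h.iso.af_tr le_rfl h.img_top α (hTS x.2),
        af_of_mem α (hTS x.2)]
    · refine mem_lift.2 ⟨_, (hmem β).2 hβ, fun y hy => ?_⟩
      obtain ⟨x, hx, rfl⟩ := (h.iso.mem_img hTS).1 (eT ▸ hy)
      rw [h.iso.af_tr hTS eT _ hx, ← e1 _ (h.iso.a_mem _ (hTS hx)),
        h.iso.af_tr le_rfl h.img_top α (hTS hx), af_of_mem α (hTS hx), af_of_mem _ hx, e2 ⟨x, hx⟩]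


/-- Let F be a saturated fusion system over a finite p-group S, E a normal subsystem of F over T ≤ S, and χ a surjective homomorphism from Aut_F(T) onto a nontrivial finite group Δ of order prime to p whose kernel contains Aut_E(T). Then there is a proper normal subsystem F₀ of F over S containing E such that Aut_{F₀}(S) consists of those α ∈ Aut_F(S) whose restriction to T is an element of Aut_F(T) in the kernel of χ; moreover every p'-residual subsystem O^{p'}(F) of F is contained in F₀. -/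
theorem result {Ω : Type*} [Group Ω] {S : Subgroup Ω} [Finite S] (p : ℕ) [Fact p.Prime] (hS : IsPGroup p S) (F : Cfsg.FusionSystem S) (hF : F.IsSaturated p) {T : Subgroup Ω} (hTS : T ≤ S) (E : Cfsg.FusionSystem T) (hE : E.IsNormalIn F p) {Δ : Type*} [Group Δ] [Finite Δ] [Nontrivial Δ] (hΔ : (Nat.card Δ).Coprime p) (χ : ↥(F.autGroup T) →* Δ) (hχ : Function.Surjective χ) (hker : (E.autGroup T).subgroupOf (F.autGroup T) ≤ χ.ker) : ∃ F₀ : Cfsg.FusionSystem S, F₀.IsNormalIn F p ∧ ¬ (∀ P : Subgroup Ω, F₀.Hom P = F.Hom P) ∧ E.IsSubsystemOf F₀ ∧ (∀ α : MulAut ↥S, α ∈ F₀.autGroup S ↔ α ∈ F.autGroup S ∧ ∃ β : ↥(F.autGroup T), χ β = 1 ∧ ∀ t : ↥T, (((β : MulAut ↥T) t : ↥T) : Ω) = ((α ⟨(t : Ω), hTS t.2⟩ : ↥S) : Ω)) ∧ ∀ R : Cfsg.FusionSystem S, F.IsPPrimeResidual p R → R.IsSubsystemOf F₀ := by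
  obtain ⟨a, b, S', F', h, hA⟩ := exists_satA hS hF
  exact aux p F hTS E hE hΔ χ hχ hker h hA

end Cfsg.Agent.S5243
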