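import Cfsg.Statements.S5244
import Cfsg.Agent.H11.AbIdx3

set_option autoImplicit false
open Cfsg

namespace Cfsg.Agent.S5244

/-- Let p be an odd prime, S a finite nonabelian p-group with a unique abelian subgroup A of index p, and F a saturated fusion system over S with no nontrivial normal subgroup (O_p(F) = 1) in which A is not F-essential. Then some subgroup Z(S)⟨x⟩ with x ∈ S outside A is F-essential, the centre Z(S) is contained in the commutator subgroup of S, and S has maximal nilpotency class (if S has order pⁿ with n ≥ 3, the term of index n − 2 of its lower central series, counting S itself as the term of index 0, is nontrivial). -/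
theorem result {Ω : Type*} [Group Ω] {S : Subgroup Ω} [Finite S] (p : ℕ) [Fact p.Prime] (hS : IsPGroup p S) (F : Cfsg.FusionSystem S) (hF : F.IsSaturated p) (hp : p ≠ 2) (hna : ¬ IsMulCommutative ↥S) (A : Subgroup Ω) (hA : A ≤ S ∧ IsMulCommutative ↥A ∧ (A.subgroupOf S).index = p) (huniq : ∀ B : Subgroup Ω, B ≤ S → IsMulCommutative ↥B → (B.subgroupOf S).index = p → B = A) (hcore : F.core = ⊥) (hAe : ¬ F.IsEssential p A) : (∃ x ∈ S, x ∉ A ∧ F.IsEssential p ((S ⊓ Subgroup.centralizer (S : Set Ω)) ⊔ Subgroup.zpowers x)) ∧ (S ⊓ Subgroup.centralizer (S : Set Ω)) ≤ (commutator ↥S).map S.subtype ∧ ∀ n : ℕ, Nat.card S = p ^ n → 3 ≤ n → Subgroup.lowerCentralSeries S (n - 2) ≠ ⊥ := by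
  have h : H11.AbI p S A := ⟨hS, hA.1, H9.isMulCommutative_iff_forall.mp hA.2.1, hA.2.2, hna, huniq⟩
  obtain ⟨P, hP, hab⟩ := h.exists_ab hF hcore hAe
  have hPA : P ≠ A := fun e => hAe (e ▸ hP)
  obtain ⟨x, hx, hxA⟩ := h.exists_notMem hP hPA
  have hg := h.gen hP.1.1 hx hxA
  have h1 := h.cen_le_comm hF hp hcore hAe hP hab
  have h2 := le_antisymm hab (le_inf h.cen_le (H11.AbI.cen_le_ess hP))
  have h3 := h.card_cen_inf.trans (h.relIndex_cen hF hP hPA)
  have h4 := h.card_eq hP.1.1 fun e => hxA (e hx)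
  rw [inf_eq_left.mpr h1] at h3
  rw [h2, h3, ← pow_two] at h4
  rw [h2] at hg
  rw [Subgroup.map_subtype_commutator]
  refine ⟨⟨x, hP.1.1 hx, hxA, (hg ▸ hP :)⟩, h1, fun n hn h5 => (H11.lcs_ne_bot_iff hS).mpr ?_⟩
  rw [H11.class_of_pearl hP.1.1 (H92.centralizerIn_le_of_centric hP.1) (Or.inl h4) hn]
  omega

end Cfsg.Agent.S5244
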