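import Cfsg.Statements.S5245
import Cfsg.Agent.H6.FusB
import Cfsg.Agent.H94.GroupFusion

set_option autoImplicit false
open Cfsg

namespace Cfsg.Agent.S5245
open H92 H93 Cfsg.FusionSystem

universe u

theorem amb {Ω : Type u} [Group Ω] [Finite Ω] {S : Subgroup Ω} {p : ℕ} [hp : Fact p.Prime]
    {F : FusionSystem S} (hF : SatA p F) (h1 : F ≠ innerFusionSystem S)
    (h2 : ∀ (T : Subgroup Ω) (E : FusionSystem T), E.IsSaturated p → E.IsSubsystemOf F →
      (T = S ∧ F.IsSubsystemOf E) ∨ E = innerFusionSystem T) :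
    F.IsNormal S ∧ F.hyperfocalSubgroup p = S ∧ ∃ (q : ℕ) (β : MulAut S), q.Prime ∧ q ≠ p ∧
      β ∈ F.autGroup S ∧ orderOf β = q ∧ F.autGroup S ≤ Inn S ⊔ Subgroup.zpowers β := by
  have key : ∀ P ≤ S, ∀ g ∈ Aut F P, (orderOf g).Coprime p → g ∉ Ct P →
      P = S ∧ ∀ Q h, M F Q h → ∃ k ∈ P ⊔ Subgroup.zpowers g, k⁻¹ * h ∈ Ct Q := by
    intro P hP g hg hc hn
    have hz : Subgroup.zpowers g ≤ Nm P := Subgroup.zpowers_le.2 hg.1
    have h3 : PP p ⊥ (Subgroup.zpowers g) := ⟨bot_le, by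
      rw [Subgroup.relIndex_bot_left, Nat.card_zpowers]
      exact (Nat.Prime.coprime_iff_not_dvd hp.out).1 hc.symm⟩
    have h4 := h3.sup_right hz
    rw [bot_sup_eq, sup_comm] at h4
    have hA : P ⊔ Subgroup.zpowers g ≤ Aut F P := sup_le (le_Aut F hP) (Subgroup.zpowers_le.2 hg)
    rcases h2 P (fusionSystemOfSubgroup _ P h4.1) (H94.isSaturated_fos ⟨h4.1, hF.pgl hP, h4.2⟩)
      (isSubsystemOf_iff.2 fun Q f hf => by
        obtain ⟨k1, -, k, hk, e⟩ := (mor_ofSubgroup_iff _).1 hf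
        exact (mor_iff_M e).2 ((M.of_Aut (hA hk) hP).mono k1)) with ⟨e, h5⟩ | e
    · refine ⟨e, fun Q h hh => ?_⟩
      obtain ⟨-, -, k, hk, e⟩ := (mor_ofSubgroup_iff _).1 (hh.sub h5)
      exact ⟨k, hk, Ct_of_conj_eq e⟩
    · have : Mor (fusionSystemOfSubgroup _ P h4.1) P fun x => g * x * g⁻¹ :=
        (mor_ofSubgroup_iff _).2 ⟨le_rfl, fun x hx => conj_mem_of_Nm hg.1 hx, g,
          Subgroup.mem_sup_right (Subgroup.mem_zpowers g), fun _ _ => rfl⟩
      rw [e] at this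
      obtain ⟨-, s, hs, e⟩ := mor_inner_iff.1 this
      obtain ⟨n, h6⟩ := H6.pMod_sup (hF.pgl hP) ((le_Nm P).trans (Nm_le_Nm_Ct P)) g
        ((mem_sup_Ct' (le_Nm P)).2 ⟨s, hs, Ct_of_conj_eq e⟩)
      exact absurd (mem_of_coprime_of_pow_mem hc h6) hn
  obtain ⟨P, hP, h3⟩ : ∃ P ≤ S, ¬ IsPGroup p (F.autGroup P) := by
    by_contra! h
    exact h1 (eq_inner_of_isPGroup hF.pg hF.sat fun P hP => h P (top_or_essential_fn hP).1)
  obtain ⟨α, hα, hc, h4⟩ : ∃ α ∈ F.autGroup P, (orderOf α).Coprime p ∧ α ≠ 1 := by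
    by_contra! h
    exact h3 (isPGroup_of_forall_coprime h)
  obtain ⟨q, hq, m, hm⟩ := Nat.exists_prime_and_dvd (mt orderOf_eq_one_iff.1 h4)
  have hm0 : m ≠ 0 := by rintro rfl; exact (orderOf_pos α).ne' hm
  have h5 : orderOf (α ^ m) = q := by
    rw [orderOf_pow' _ hm0, hm, Nat.gcd_eq_right (Dvd.intro_left _ rfl),
      Nat.mul_div_cancel _ (Nat.pos_of_ne_zero hm0)]
  have hqp : q.Coprime p := hc.coprime_dvd_left ⟨m, hm⟩
  obtain ⟨g₀, hg₀, e₀⟩ := hF.amb.aut' hP hP (pow_mem hα m)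
  have e₁ : cAut P g₀ hg₀.1 = α ^ m := aut_ext fun x hx => (af_cAut _ hx).trans (e₀ x hx).symm
  obtain ⟨g, hg, hgc, e⟩ := exists_coprime_part (g := g₀) hqp ((cAut_eq_one (pow_mem hg₀.1 q)).1 (by
    rw [← cAut_pow hg₀.1, e₁, ← h5, pow_orderOf_eq_one]))
  have hgA : g ∈ Aut F P := Subgroup.zpowers_le.2 hg₀ hg
  have e₂ : ∀ x ∈ P, af (α ^ m) x = g * x * g⁻¹ := fun x hx =>
    (e₀ x hx).trans (conj_eq_of_Ct_div e hx)
  have hn : g ∉ Ct P := fun h => hq.one_lt.ne' (by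
    rw [← h5, aut_eq_one fun x hx => (e₂ x hx).trans (conj_eq_of_Ct h hx), orderOf_one])
  obtain ⟨rfl, h6⟩ := key P hP g hgA hgc hn
  have hA : P ⊔ Subgroup.zpowers g ≤ Aut F P := sup_le (le_Aut F hP) (Subgroup.zpowers_le.2 hgA)
  refine ⟨hF.amb.normal_iff.2 ⟨le_rfl, fun Q h hh => ?_⟩, ?_, q, α ^ m, hq, ?_, pow_mem hα m, h5, ?_⟩
  · obtain ⟨k, hk, e⟩ := h6 Q h hh
    exact ⟨k, (M.of_Aut (hA hk) le_rfl).mono (sup_le hh.le le_rfl), by simpa using inv_mem e,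
      (hA hk).1⟩
  · have hsc := H95.stronglyClosed_hyp hF.pg hF.sat
    have hM := M.of_Aut hgA le_rfl
    refine (key _ hsc.1 g ((hM.mono hsc.1).mem_Aut (hM.mem_Nm_sc hsc hsc.1)) hgc fun h => hn ?_).1
    refine mem_Ct.2 fun x hx => (e₂ x hx).symm.trans (af_fix_of_coprime hF.pg (h5.symm ▸ hqp) hx ?_)
    rw [e₂ x hx, e₂ _ (P.mul_mem (P.inv_mem hx) (hM.mem hx)),
      conj_eq_of_Ct h (hM.mem_hyp hgA.1 hgc hx)]
  · rintro rfl
    exact hq.one_lt.ne' (Nat.Coprime.eq_one_of_dvd hqp dvd_rfl)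
  · rw [← hF.amb.lift_le_lift le_rfl, lift_autGroup le_rfl]
    intro a ha
    obtain ⟨k, hk, e⟩ := h6 P a (M.of_Aut ha le_rfl)
    have h7 : P ⊔ Subgroup.zpowers g ≤ lift P (Inn P ⊔ Subgroup.zpowers (α ^ m)) :=
      sup_le ((le_sup_left.trans (lift_Inn P).ge).trans (lift_mono le_sup_left))
        (Subgroup.zpowers_le.2 ((mem_lift_iff e₂).2
          (Subgroup.mem_sup_right (Subgroup.mem_zpowers _))))
    simpa using mul_mem (h7 hk) (Ct_le_lift _ _ e)


/-- Let F be an extremely sparse fusion system over a finite p-group S (saturated, not the inner system, and every saturated fusion system over any subgroup T of S contained in F is F itself or the inner system of T). Then S is normal in F, the focal and hyperfocal subgroups of F are both S, and Aut_F(S) is generated by the inner automorphisms of S together with a single automorphism of prime order q ≠ p (F is the fusion system of the semidirect product of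 S by a cyclic group of prime order). -/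
theorem result {Ω : Type*} [Group Ω] {S : Subgroup Ω} [Finite S] (p : ℕ) [Fact p.Prime] (hS : IsPGroup p S) (F : Cfsg.FusionSystem S) (hF : F.IsSaturated p) (hxs : ¬ (∀ P : Subgroup Ω, F.Hom P = (Cfsg.innerFusionSystem S).Hom P) ∧ ∀ (T : Subgroup Ω) (E : Cfsg.FusionSystem T), E.IsSaturated p → E.IsSubsystemOf F → (T = S ∧ ∀ P : Subgroup Ω, E.Hom P = F.Hom P) ∨ (∀ P : Subgroup Ω, E.Hom P = (Cfsg.innerFusionSystem T).Hom P)) : F.IsNormal S ∧ F.focalSubgroup = S ∧ F.hyperfocalSubgroup p = S ∧ ∃ (q : ℕ) (β : MulAut ↥S), q.Prime ∧ q ≠ p ∧ β ∈ F.autGroup S ∧ orderOf β = q ∧ (F.autGroup S : Subgroup (MulAut ↥S)) = Cfsg.Inn ↥S ⊔ Subgroup.zpowers β := by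
  obtain ⟨a, b, S', F', h, hA⟩ := exists_satA hS hF
  obtain ⟨h1, h2, q, β, h3, h4, h5, h6, h7⟩ := amb hA
    (fun e => hxs.1 fun P => by rw [h.symm.eq_inner e]) fun T E hE hs => by
      have hT := le_of_isSubsystemOf hs
      obtain ⟨E', k⟩ := exists_tr_sub h.symm hT E
      rcases hxs.2 _ E' (k.isSaturated hE) (h.symm.isSubsystemOf k hs) with ⟨e, e'⟩ | e
      · exact Or.inl ⟨(h.iso.symm.img_eq_top_iff hT).1 e,
          k.symm.isSubsystemOf h fun P => (e' P).ge⟩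
      · exact Or.inr (k.symm.eq_inner (fs_ext e))
  have h8 := h.symm.hyperfocal_eq_top h2
  refine ⟨by have := h.symm.isNormal h1; rwa [h.symm.img_top] at this,
    le_antisymm (H94.focal_le F) (h8.ge.trans (H94.hyperfocal_le_focal F p)), h8, q,
    h.symm.iso.tr le_rfl h.symm.img_top β, h3, h4,
    (h.symm.tr_mem_autGroup_iff le_rfl _).2 h5, by rw [MulEquiv.orderOf_eq, h6], le_antisymm ?_
      (sup_le (Inn_le_autGroup F le_rfl)
        (Subgroup.zpowers_le.2 ((h.symm.tr_mem_autGroup_iff le_rfl _).2 h5)))⟩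
  rw [← h.symm.map_tr_autGroup le_rfl h.symm.img_top, ← h.symm.iso.map_tr_Inn le_rfl h.symm.img_top]
  refine (Subgroup.map_mono h7).trans ?_
  rw [Subgroup.map_sup, MonoidHom.map_zpowers]; rfl

end Cfsg.Agent.S5245
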