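import Cfsg.Statements.S5251
import Cfsg.Agent.H92.Cent2

set_option autoImplicit false
open Cfsg

namespace Cfsg.Agent.S5251
open H92 H93 Cfsg.FusionSystem

/-- Let F be a saturated fusion system over a finite p-group S, E a normal subsystem of F over T, and P an F-centric subgroup of S such that P ∩ T is not E-centric. Then some F-conjugate P* of P satisfies Out_S(P*) ∩ O_p(Out_F(P*)) ≠ 1: there is an element of N_S(P*) outside P* whose conjugation action on P* lies in O_p(Aut_F(P*)). In particular P is not both centric and radical in F. -/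
theorem result {Ω : Type*} [Group Ω] {S : Subgroup Ω} [Finite S] (p : ℕ) [Fact p.Prime] (hS : IsPGroup p S) (F : Cfsg.FusionSystem S) (hF : F.IsSaturated p) {T : Subgroup Ω} (E : Cfsg.FusionSystem T) (hE : E.IsNormalIn F p) (P : Subgroup Ω) (hP : F.IsCentric P) (hPT : ¬ E.IsCentric (P ⊓ T)) : (∃ φ ∈ F.Hom P, ∃ x ∈ S ⊓ Subgroup.normalizer (φ.range : Set Ω), x ∉ φ.range ∧ ∃ α ∈ ((Cfsg.pCore p ↥(F.autGroup φ.range)).map (F.autGroup φ.range).subtype : Subgroup (MulAut ↥φ.range)), ∀ y : ↥φ.range, ((α y : ↥φ.range) : Ω) = x * (y : Ω) * x⁻¹) ∧ ¬ F.IsRadical p P := by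
  obtain ⟨a, b, S', F', h, hA⟩ := exists_satA hS hF
  have hT := H94.le_of_isNormalIn hE
  obtain ⟨E', k⟩ := exists_tr_sub h hT E
  have hN := nrA_of hA (h.isNormalIn k hE)
  have hc : ¬ E'.IsCentric (img P a ⊓ img T a) := fun hc => hPT (by
    have := k.symm.isCentric hc
    rwa [← h.iso.img_inf hP.1 hT, h.iso.img_img (inf_le_left.trans hP.1)] at this)
  obtain ⟨g, hg, h1⟩ := hN.inv.star_of_not_centric hA (h.iso.img_le hP.1) hc
  refine ⟨?_, fun hr => not_radical_of_star hA.amb (h.isCentric hP) hg h1 (h.isRadical hr)⟩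
  obtain ⟨Q, ⟨φ, hφ, rfl⟩, e⟩ := h.exists_of_isConj hP.1 hg.isConj
  have hQ : φ.range ≤ S := isConj_le_right ⟨φ, hφ, rfl⟩
  obtain ⟨x, ⟨hxS, hx0⟩, hxQ⟩ := SetLike.not_le_iff_exists.1 h1
  have hxN : x ∈ normalizerIn S' (cj g (img P a)) := ⟨hxS, lift_le_Nm _ _ hx0⟩
  obtain ⟨α, hα, hx⟩ := mem_lift.1 hx0
  rw [← e, ← h.iso.img_normalizerIn' hQ] at hxN
  obtain ⟨y, hy, rfl⟩ := (h.iso.mem_img inf_le_left).1 hxN
  refine ⟨φ, hφ, y, hy, fun hy' => hxQ (e ▸ mem_img_of_mem a hy'), ?_⟩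
  rw [← h.map_tr_autGroup hQ e, ← pCoreOf_map_equiv] at hα
  obtain ⟨β, hβ, rfl⟩ := hα
  refine ⟨β, hβ, fun z => h.iso.inj (hQ (β z).2) (mul_mem (mul_mem hy.1 (hQ z.2)) (S.inv_mem hy.1)) ?_⟩
  have := hx (a z) (e ▸ mem_img_of_mem a z.2)
  rw [MulEquiv.coe_toMonoidHom, h.iso.af_tr hQ e β z.2, af_coe] at this
  rw [this, h.iso.mul.map_conj hy.1 (hQ z.2)]

end Cfsg.Agent.S5251
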