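import Cfsg.Statements.S5271
import Cfsg.Agent.H6.FusB
import Cfsg.Agent.H94.Ctrl
import Cfsg.Agent.H93.GF
import Cfsg.Agent.H95.FocSC
import Cfsg.Agent.H99.Product
import Cfsg.Agent.H9.ClassTwo

set_option autoImplicit false
open Cfsg

namespace Cfsg.Agent.S5271
open H92 H93 H94 Cfsg.FusionSystem

universe u

theorem between {Ω : Type u} [Group Ω] {H K : Subgroup Ω} [Finite K] {p : ℕ} [hp : Fact p.Prime]
    (hK : IsPGroup p K) (h : H ≤ K) {m : ℕ} (h1 : Nat.card H ≤ p ^ m) (h2 : p ^ m ≤ Nat.card K) :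
    ∃ E, H ≤ E ∧ E ≤ K ∧ Nat.card E = p ^ m := by
  obtain ⟨n, hn⟩ := IsPGroup.iff_card.1 hK
  obtain ⟨k, hk⟩ := IsPGroup.iff_card.1 (hK.to_subgroup (H.subgroupOf K))
  rw [hn] at h2
  obtain ⟨E, h3, h4⟩ := Sylow.exists_subgroup_card_pow_prime_le p (m := m)
    (hn ▸ pow_dvd_pow p ((Nat.pow_le_pow_iff_right hp.out.one_lt).1 h2)) _ hk
    ((Nat.pow_le_pow_iff_right hp.out.one_lt).1 (by rwa [← hk, card_subgroupOf_of_le h]))
  exact ⟨E.map K.subtype, by
    rw [← Subgroup.map_subgroupOf_eq_of_le h]; exact Subgroup.map_mono h4,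
    Subgroup.map_subtype_le _, by rw [Subgroup.card_subtype, h3]⟩

section fac
variable {Ω Ω' : Type u} [Group Ω] [Group Ω'] {S Q P : Subgroup Ω} {S' : Subgroup Ω'}
  {F : FusionSystem S} {E : FusionSystem S'} {θ : S →* Ω'} (hE : F.IsFactorSystem Q θ E)
include hE

theorem fac_card (hQ : Q ≤ P) (hP : P ≤ S) :
    Nat.card P = Nat.card Q * Nat.card (img P (ext1 θ)) := by
  have hm := (mulOn_ext1 θ).mono hP
  have h1 : hm.hom.ker = Q.subgroupOf P := by
    ext x; exact fac_eq_one hE (hP x.2)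
  have h2 := hm.hom.ker.card_mul_index
  rw [Subgroup.index_ker, h1, card_subgroupOf_of_le hQ, range_eq_img (f := ext1 θ) hm.hom fun _ => rfl] at h2
  exact h2.symm

theorem fac_sc (hP : F.StronglyClosed P) :
    E.StronglyClosed (img P (ext1 θ)) := by
  refine stronglyClosed_iff.2 ⟨fac_img_le hE hP.1, fun R g hg x hx hx' => ?_⟩
  obtain ⟨f, hf, e⟩ := fac_lift hE hg
  obtain ⟨y, hy, rfl⟩ := ((mulOn_ext1 θ).mono hP.1).mem_img.1 hx'
  have h1 := mem_preimageAlong.2 ⟨hP.1 hy, hx⟩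
  rw [e y h1]
  exact mem_img_of_mem _ (hf.mem_of_stronglyClosed hP h1 hy)

theorem hyp_le_of_inner [Finite S] {p : ℕ} [Fact p.Prime] (hS : IsPGroup p S)
    (hF : F.IsSaturated p) (hQ : F.StronglyClosed Q) (h : E = innerFusionSystem S') :
    F.hyperfocalSubgroup p ≤ Q := by
  refine H95.hyp_le_iff.2 fun P hP α hα hc => ?_
  obtain ⟨g, hg, e⟩ := fac_mor_sc hS hF hQ hE (mor_af hP hα)
  rw [h] at hg
  obtain ⟨-, t, ht, e'⟩ := mor_inner_iff.1 hg
  have key : ∀ n : ℕ, ∀ x ∈ P, ext1 θ (af (α ^ n) x) = t ^ n * ext1 θ x * (t ^ n)⁻¹ := by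
    intro n
    induction n with
    | zero => simp
    | succ n ih =>
      intro x hx
      rw [pow_succ, af_mul_apply, ih _ (af_mem α hx), ← e x hx, e' _ (mem_img_of_mem _ hx), pow_succ]
      group
  obtain ⟨k, hk⟩ := isPGroup_iff_forall.1 (fac_isPGroup hE hS) t ht
  refine (mem_of_coprime_of_pow_mem (C := H95.cosAut F Q P) hc (n := k)
    ⟨pow_mem hα _, fun x hx => (fac_eq_iff hE (hP hx) (hP (af_mem _ hx))).1 ?_⟩).2
  rw [key _ x hx, hk]; simp

end fac

theorem main {p : ℕ} [hp : Fact p.Prime] (Ω : Type u) [Group Ω] (S : Subgroup Ω) [Finite S]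
    (F : FusionSystem S) : IsPGroup p S → F.IsSaturated p → ∀ m, 0 < m → p ^ m < Nat.card S →
      (∀ Q ≤ S, Nat.card Q = p ^ m → ∃ P, F.StronglyClosed P ∧ F.StronglyClosed (Q ⊔ P) ∧
        F.StronglyClosed (Q ⊓ P)) →
      (∀ H, F.IsFullyNormalized H → Nat.card H = p ^ m → NSub F H (innerFusionSystem S)) →
      F = innerFusionSystem S := by
  refine fs_induction (fun Ω _ S F => IsPGroup p S → F.IsSaturated p → ∀ m, 0 < m →
    p ^ m < Nat.card S → (∀ Q ≤ S, Nat.card Q = p ^ m → ∃ P, F.StronglyClosed P ∧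
      F.StronglyClosed (Q ⊔ P) ∧ F.StronglyClosed (Q ⊓ P)) →
    (∀ H, F.IsFullyNormalized H → Nat.card H = p ^ m → NSub F H (innerFusionSystem S)) →
    F = innerFusionSystem S) ?_ Ω S F
  intro Ω _ S _ F ih _ hS hF m hm hlt hwe hni
  by_contra hne
  have hT := H95.stronglyClosed_hyp hS hF
  set T := F.hyperfocalSubgroup p with hTd
  have hT0 : T ≠ ⊥ := fun e => hne (H95.eq_inner_of_hyp_eq_bot hS hF e.le)
  have one_lt : 1 < p ^ m := Nat.one_lt_pow hm.ne' hp.out.one_lt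
  let Min : Subgroup Ω → Prop := fun N => F.StronglyClosed N ∧ N ≠ ⊥ ∧
    ∀ U, F.StronglyClosed U → U ⊓ N ≠ ⊥ → N ≤ U
  have exMin : ∀ U, F.StronglyClosed U → U ≠ ⊥ → ∃ N ≤ U, Min N := by
    intro U hU h0
    induction hn : Nat.card U using Nat.strong_induction_on generalizing U with
    | _ n ih =>
      by_cases h : Min U
      · exact ⟨U, le_rfl, h⟩
      · simp only [Min, not_and, not_forall] at h
        obtain ⟨V, h1, h2, h3⟩ := h hU h0
        obtain ⟨N, h4, h5⟩ := ih _ (hn ▸ card_lt_of_lt' hU.1 (lt_of_le_of_ne inf_le_right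
          fun e => h3 (inf_eq_right.1 e))) _ (stronglyClosed_inf h1 hU) h2 rfl
        exact ⟨N, h4.trans inf_le_right, h5⟩
  have cle : ∀ {A B : Subgroup Ω}, B ≤ S → A ≤ B → Nat.card A ≤ Nat.card B := fun h h' =>
    card_le_of_le' h h'
  have h3 : ∀ N, F.IsNormal N → Nat.card N ≠ p ^ m := fun N hN e =>
    hne (fs_le_antisymm ((hni N (fn_of_normal hN) e).sub_of_normal hN) (inner_le F))
  have ne_bot : ∀ {Q : Subgroup Ω}, Nat.card Q = p ^ m → Q ≠ ⊥ := fun e e' => by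
    rw [e', Subgroup.card_bot] at e; omega
  have h1 : ∀ N, Min N → Nat.card N ≤ p ^ m := fun N hN => by
    by_contra! hc
    have := H92.finite_of_le hN.1.1
    obtain ⟨Q, -, k1, k2⟩ := between (hS.to_le hN.1.1) bot_le (by simp [one_lt.le]) hc.le
    obtain ⟨P, k3, k4, k5⟩ := hwe Q (k1.trans hN.1.1) k2
    have k6 : F.StronglyClosed Q := by
      by_cases k : P ⊓ N = ⊥
      · have := stronglyClosed_inf hN.1 k4
        rwa [inf_sup_of_le_of_Nm k1 ((k1.trans hN.1.1).trans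
          (have := H92.finite_of_le k3.1; le_Nm_sc k3)), inf_comm, k, sup_bot_eq] at this
      · rwa [inf_eq_left.2 (k1.trans (hN.2.2 P k3 k))] at k5
    exact (k2 ▸ cle (k1.trans hN.1.1) (hN.2.2 Q k6 (by rw [inf_eq_left.2 k1]; exact ne_bot k2))).not_gt hc
  have h2 : ∀ N, Min N → Nat.card N < p ^ m → T ≤ N := fun N hN hc => by
    obtain ⟨Ω', _, S', θ, E, hE⟩ := exists_factor hN.1
    have := fac_finite hE
    have := H92.finite_of_le hN.1.1
    obtain ⟨k, hk⟩ := IsPGroup.iff_card.1 (hS.to_le hN.1.1)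
    rw [hk, Nat.pow_lt_pow_iff_right hp.out.one_lt] at hc
    obtain ⟨j, rfl⟩ := Nat.exists_eq_add_of_le hc.le
    have e : ∀ Q' ≤ S', Nat.card (preimageAlong θ Q') = p ^ k * Nat.card Q' := fun Q' h => by
      rw [fac_card hE (fac_le_pre hE Q') (preimageAlong_le _ _), fac_img_pre hE h, hk]
    refine hyp_le_of_inner hE hS hF hN.1 (ih Ω' S' E (fac_card_lt hE hN.2.1) (fac_isPGroup hE hS)
      (isSaturated_factor hS hF hN.1 hE) j (by omega) ?_ (fun Q' k1 k2 => ?_) fun H k1 k2 =>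
        fac_nsub_inner hE k1.1 (hni _ (fac_isFullyNormalized hE hS hF hN.1 k1)
          (by rw [e H k1.1, k2, pow_add])))
    · rw [← fac_pre_top hE, e _ le_rfl, pow_add] at hlt
      exact lt_of_mul_lt_mul_left' hlt
    · obtain ⟨P, k3, k4, k5⟩ := hwe _ (preimageAlong_le θ Q') (by rw [e Q' k1, k2, pow_add])
      refine ⟨_, fac_sc hE k3, ?_, ?_⟩
      · have := fac_sc hE k4
        rwa [((mulOn_ext1 θ).mono k4.1).img_sup, fac_img_pre hE k1] at this
      · have := fac_sc hE k5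
        convert this using 1
        refine le_antisymm (fun y hy => ?_) (le_inf ((img_mono _ inf_le_left).trans
          (fac_img_pre hE k1).le) (img_mono _ inf_le_right))
        obtain ⟨x, hx, rfl⟩ := ((mulOn_ext1 θ).mono k3.1).mem_img.1 hy.2
        exact mem_img_of_mem _ ⟨mem_preimageAlong.2 ⟨k3.1 hx, hy.1⟩, hx⟩
  have cen : ∀ N, F.StronglyClosed N → N ≠ ⊥ → ∃ z ∈ N, z ∈ Ct S ∧ orderOf z = p := fun N hN h0 => by
    have := normal_subgroupOf_of_sc hN
    obtain ⟨z, k1, k2, k3⟩ := H9.exists_mem_center_orderOf_eq hS (K := N.subgroupOf S) fun e =>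
      h0 (by rw [← Subgroup.map_subgroupOf_eq_of_le hN.1, e, Subgroup.map_bot])
    exact ⟨z, k1, fun y hy => congrArg Subtype.val (Subgroup.mem_center_iff.1 k2 ⟨y, hy⟩),
      by rw [Subgroup.orderOf_coe, k3]⟩
  have ne1 : ∀ {z : Ω}, orderOf z = p → z ≠ 1 := fun h e => by
    rw [e, orderOf_one] at h; exact hp.out.one_lt.ne h
  have comm : ∀ A B, F.StronglyClosed A → F.StronglyClosed B → A ⊓ B = ⊥ → A ≤ Ct B := by
    intro A B hA hB e a ha b hb
    have : a * b * a⁻¹ * b⁻¹ ∈ A ⊓ B := ⟨by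
      have := conj_mem_of_stronglyClosed hA (hB.1 hb) (inv_mem ha)
      simpa [mul_assoc] using mul_mem ha this,
      B.mul_mem (conj_mem_of_stronglyClosed hB (hA.1 ha) hb) (B.inv_mem hb)⟩
    rw [e, Subgroup.mem_bot, mul_inv_eq_one, mul_inv_eq_iff_eq_mul] at this
    exact this.symm
  by_cases hB : ∃ N, Min N ∧ Nat.card N < p ^ m
  · obtain ⟨N, hN, hc⟩ := hB
    obtain rfl : T = N := le_antisymm (h2 N hN hc) (hN.2.2 T hT (by
      rwa [inf_eq_left.2 (h2 N hN hc)]))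
    have uniq : ∀ U, F.StronglyClosed U → U ≠ ⊥ → T ≤ U := fun U hU h0 => by
      obtain ⟨N, k1, k2⟩ := exMin U hU h0
      refine hN.2.2 U hU fun e => ?_
      obtain ⟨z, k3, k4, k5⟩ := cen N k2.1 k2.2.1
      have k6 : z ∈ F.center := mem_center_of_coprime hS hF ⟨k2.1.1 k3, k4⟩ fun P hP α hα hc => by
        have hP' := top_or_essential_centric hP
        have hz : z ∈ P := centric_Ct_le hP' ⟨k2.1.1 k3, Ct_anti hP'.1 k4⟩
        have : z⁻¹ * af α z ∈ U ⊓ T := ⟨U.mul_mem (U.inv_mem (k1 k3))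
          ((mor_af hP'.1 hα).mem_of_stronglyClosed hU hz (k1 k3)), H95.mem_hyp hP'.1 hα hc hz⟩
        rw [e, Subgroup.mem_bot, inv_mul_eq_one] at this
        exact this.symm
      have k7 := isNormal_of_isCentral (isCentral_of_le (isCentral_center F) (Subgroup.zpowers_le.2 k6))
      have k8 : N = Subgroup.zpowers z := le_antisymm (k2.2.2 _ (stronglyClosed_of_normal k7) (by
        rw [inf_eq_left.2 (Subgroup.zpowers_le.2 k3), Ne, Subgroup.zpowers_eq_bot]; exact ne1 k5))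
        (Subgroup.zpowers_le.2 k3)
      rcases (h1 N k2).eq_or_lt with k | k
      · exact h3 N (k8 ▸ k7) k
      · exact hT0 (by rw [← e, inf_eq_right.2 ((h2 N k2 k).trans k1)])
    obtain ⟨x, hx, hx'⟩ : ∃ x ∈ T, x ∉ (frattini S).map S.subtype := by
      by_contra! h
      refine hne (H95.eq_inner_of_focal_le_frattini hS hF ?_)
      rw [H95.focal_eq_hyp_sup hS hF]
      exact sup_le h (Subgroup.commutator_le.2 fun a ha b hb =>
        ⟨_, H9.commutatorElement_mem_frattini hS ⟨a, ha⟩ ⟨b, hb⟩, rfl⟩)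
    obtain ⟨M, hM, hxM⟩ : ∃ M : Subgroup S, IsCoatom M ∧ (⟨x, hT.1 hx⟩ : S) ∉ M := by
      by_contra! h
      exact hx' ⟨_, H9.mem_frattini_iff_forall.2 h, rfl⟩
    have hMS : M.map S.subtype ≤ S := Subgroup.map_subtype_le _
    have := H92.finite_of_le hMS
    obtain ⟨Q, k1, k2, k3⟩ := between (hS.to_le hMS) (inf_le_left (b := T))
      ((cle hT.1 inf_le_right).trans hc.le) (by
        obtain ⟨n, hn⟩ := IsPGroup.iff_card.1 hS
        have := M.card_mul_index
        rw [H9.index_of_isCoatom hS hM, hn] at this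
        rw [hn, Nat.pow_lt_pow_iff_right hp.out.one_lt] at hlt
        rw [Subgroup.card_subtype]
        refine Nat.le_of_mul_le_mul_right ?_ hp.out.pos
        rw [this, ← pow_succ]; exact Nat.pow_le_pow_right hp.out.pos hlt)
    have k4 : ¬ T ≤ Q := fun h => by
      obtain ⟨y, hy, e⟩ := k2 (h hx)
      exact hxM (by rwa [show (⟨x, hT.1 hx⟩ : S) = y from Subtype.ext e.symm])
    obtain ⟨P, k5, k6, k7⟩ := hwe Q (k2.trans hMS) k3
    have k8 : Q ⊓ P = ⊥ := by_contra fun h => k4 ((uniq _ k7 h).trans inf_le_left)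
    have k9 : T ≤ P := uniq P k5 fun e => k4 (by
      rw [e, sup_bot_eq] at k6; exact uniq Q k6 (ne_bot k3))
    have hc' : T ≤ Ct S := fun t ht s hs => by
      have : s * t * s⁻¹ * t⁻¹ ∈ Q ⊓ P := by
        have k : s * t * s⁻¹ * t⁻¹ ∈ T := mul_mem (conj_mem_of_stronglyClosed hT hs ht) (inv_mem ht)
        exact ⟨k1 ⟨⟨_, H9.mem_frattini_iff_forall.1
          (H9.commutatorElement_mem_frattini hS ⟨s, hs⟩ ⟨t, hT.1 ht⟩) M hM, rfl⟩, k⟩, k9 k⟩
      rwa [k8, Subgroup.mem_bot, mul_inv_eq_one, mul_inv_eq_iff_eq_mul] at this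
    have hn := H6.isNormal_top_of_chain hS hF fun P D hP hD =>
      ⟨fun i => match i with | 0 => ⊥ | _ => ⊤, 1, rfl, le_top, by
        rintro α - (_ | i) x - hx
        · rw [Subgroup.mem_bot.1 hx, (mulOn_af α).map_one]; exact one_mem _
        · trivial, fun s hs i hi x hx _ => by
        obtain rfl : i = 0 := by omega
        show _ ∈ (⊥ : Subgroup Ω)
        rw [← hc' (hD.hyp hx) s hs |>.symm]; simp⟩
    have := normal_subgroupOf_of_sc hT
    have := H92.finite_of_le hT.1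
    obtain ⟨k, hk⟩ := IsPGroup.iff_card.1 (hS.to_le hT.1)
    rw [hk, Nat.pow_lt_pow_iff_right hp.out.one_lt] at hc
    obtain ⟨j, rfl⟩ := Nat.exists_eq_add_of_le hc.le
    have e : p ^ j * Nat.card (T.subgroupOf S) = p ^ (k + j) := by
      rw [card_subgroupOf_of_le hT.1, hk, pow_add, mul_comm]
    obtain ⟨H, l1, l2, -, l3⟩ := H9.exists_normal_between hS (N := T.subgroupOf S) (K := ⊤) le_top j
      (by rw [e, Subgroup.card_top]; exact hlt.le)
    refine h3 (H.map S.subtype) (isNormal_of_stronglyClosed hS hF (H95.stronglyClosed_of_hyp_le hS hF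
      (Subgroup.map_subtype_le _) ?_ ?_) fun P hP => absurd hP (not_essential_of_normal_top hS hF hn P))
      (by rw [Subgroup.card_subtype, l3, e])
    · rintro s hs _ ⟨y, hy, rfl⟩
      exact ⟨_, l1.conj_mem y hy ⟨s, hs⟩, rfl⟩
    · rw [← hTd, ← Subgroup.map_subgroupOf_eq_of_le hT.1]; exact Subgroup.map_mono l2
  have hA : ∀ N, Min N → Nat.card N = p ^ m := fun N hN =>
    (h1 N hN).eq_or_lt.resolve_right fun h => hB ⟨N, hN, h⟩
  have nab : ∀ N, Min N → ¬ N ≤ Ct N := fun N hN h =>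
    h3 N (isNormal_of_comm hS hF hN.1 fun x hx y hy => h hy x hx) (hA N hN)
  have L : ∀ Q ≤ S, Nat.card Q = p ^ m → ∀ N, Min N → Q ⊓ N ≠ ⊥ → Q ≠ N →
      ∃ P, F.StronglyClosed P ∧ P ≠ ⊥ ∧ ∀ N, Min N → Q ⊓ N ≠ ⊥ → P ⊓ N = ⊥ ∧ N ⊔ P = Q ⊔ P := by
    intro Q hQ hc N hN k1 k2
    have k3 : ¬ F.StronglyClosed Q := fun h => k2
      (eq_of_le_of_card_ge' hQ (hN.2.2 Q h k1) (hc.trans (hA N hN).symm).le).symm
    obtain ⟨P, k4, k5, k6⟩ := hwe Q hQ hc
    have k7 : Q ⊓ P = ⊥ := by_contra fun h => by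
      obtain ⟨U, l1, l2⟩ := exMin _ k6 h
      exact k3 (eq_of_le_of_card_ge' hQ (l1.trans inf_le_left) (hc.trans (hA U l2).symm).le ▸ l2.1)
    refine ⟨P, k4, fun e => k3 (by rwa [e, sup_bot_eq] at k5), fun U hU l1 => ?_⟩
    have l2 : P ⊓ U = ⊥ := by_contra fun h =>
      l1 (le_bot_iff.1 ((inf_le_inf_left Q (hU.2.2 P k4 h)).trans k7.le))
    have := H92.finite_of_le k4.1
    have l3 := H99.card_sup_mul_card_inf_of_le_normalizer (hQ.trans (le_Nm_sc k4))
    have l4 := H99.card_sup_mul_card_inf_of_le_normalizer (hU.1.1.trans (le_Nm_sc k4))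
    rw [k7, hc] at l3
    rw [inf_comm, l2, hA U hU, ← l3] at l4
    exact ⟨l2, eq_of_le_of_card_ge' k5.1 (sup_le (hU.2.2 _ k5 fun e =>
      l1 (le_bot_iff.1 ((inf_le_inf_right U le_sup_left).trans e.le))) le_sup_right) (by simpa using l4.ge)⟩
  obtain ⟨N, -, hN⟩ := exMin T hT hT0
  obtain ⟨z, z1, z2, z3⟩ := cen N hN.1 hN.2.1
  have nb : ∀ {Q U : Subgroup Ω} {z : Ω}, orderOf z = p → z ∈ Q → z ∈ U → Q ⊓ U ≠ ⊥ :=
    fun h k1 k2 e => ne1 h (Subgroup.mem_bot.1 (e ▸ ⟨k1, k2⟩))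
  have ab : ∀ x ∈ S, Subgroup.zpowers x ⊔ Subgroup.zpowers z ≤
      Ct (Subgroup.zpowers x ⊔ Subgroup.zpowers z) := fun x hx => by
    have k1 : Subgroup.zpowers z ≤ Ct S := Subgroup.zpowers_le.2 z2
    rw [Ct_sup]
    refine sup_le (le_inf (Subgroup.zpowers_le.2 ?_) (le_Ct_comm.1 (k1.trans (Ct_anti
      (Subgroup.zpowers_le.2 hx))))) (le_inf (k1.trans (Ct_anti (Subgroup.zpowers_le.2 hx)))
      (k1.trans (Ct_anti (Subgroup.zpowers_le.2 (hN.1.1 z1)))))
    rintro _ ⟨k, rfl⟩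
    exact ((Commute.refl x).zpow_left k).eq
  have exQ : ∀ x ∈ S, x ∉ N → ∃ Q ≤ S, Nat.card Q = p ^ m ∧ z ∈ Q ∧ Q ≠ N ∧
      (orderOf x = p → x ∈ Q) := fun x hx hx' => by
    have k1 : Subgroup.zpowers x ⊔ Subgroup.zpowers z ≤ S :=
      sup_le (Subgroup.zpowers_le.2 hx) (Subgroup.zpowers_le.2 (hN.1.1 z1))
    rcases le_or_gt (Nat.card (Subgroup.zpowers x ⊔ Subgroup.zpowers z :)) (p ^ m) with h | h
    · obtain ⟨Q, k2, k3, k4⟩ := between hS k1 h hlt.le
      have := k2 (Subgroup.mem_sup_left (Subgroup.mem_zpowers x))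
      exact ⟨Q, k3, k4, k2 (Subgroup.mem_sup_right (Subgroup.mem_zpowers z)),
        fun e => hx' (e ▸ this), fun _ => this⟩
    · have := H92.finite_of_le k1
      have hz : Nat.card (Subgroup.zpowers z) ≤ p ^ m := by
        rw [Nat.card_zpowers, z3]; exact Nat.le_self_pow hm.ne' p
      obtain ⟨Q, k2, k3, k4⟩ := between (hS.to_le k1) le_sup_right hz h.le
      refine ⟨Q, k3.trans k1, k4, k2 (Subgroup.mem_zpowers z), fun e => nab N hN
        (e ▸ (k3.trans (ab x hx)).trans (Ct_anti k3)), fun hx => ?_⟩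
      have l1 := H99.card_sup_mul_card_inf_of_le_normalizer (H := Subgroup.zpowers x)
        (K := Subgroup.zpowers z) (le_sup_left.trans ((ab x ‹_›).trans
          ((Ct_anti le_sup_right).trans (Ct_le_Nm _))))
      rw [Nat.card_zpowers, Nat.card_zpowers, hx, z3] at l1
      have l2 : m = 1 := by
        have := H92.finite_of_le (inf_le_left.trans (le_sup_left.trans k1) :
          Subgroup.zpowers x ⊓ Subgroup.zpowers z ≤ S)
        have l3 : p ^ m < p ^ 2 := h.trans_le (by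
          rw [pow_two, ← l1]; exact Nat.le_mul_of_pos_right _ Nat.card_pos)
        rw [Nat.pow_lt_pow_iff_right hp.out.one_lt] at l3
        omega
      have l3 : Subgroup.zpowers z = N := eq_of_le_of_card_ge' hN.1.1 (Subgroup.zpowers_le.2 z1)
        (by rw [hA N hN, Nat.card_zpowers, z3, l2, pow_one])
      exact absurd (l3 ▸ (Subgroup.zpowers_le.2 z2).trans (Ct_anti (l3 ▸ hN.1.1))) (nab N hN)
  obtain ⟨x, hx, hx'⟩ := SetLike.exists_of_lt (lt_of_le_of_ne hN.1.1 fun e =>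
    hlt.ne (by rw [← hA N hN, e]))
  obtain ⟨Q, q1, q2, q3, q4, -⟩ := exQ x hx hx'
  obtain ⟨P, p1, p2, p3⟩ := L Q q1 q2 N hN (nb z3 q3 z1) q4
  obtain ⟨N', n1, hN'⟩ := exMin P p1 p2
  obtain ⟨w, w1, -, w3⟩ := cen N' hN'.1 hN'.2.1
  have hNN : N' ⊓ N = ⊥ := le_bot_iff.1 ((inf_le_inf_right N n1).trans (p3 N hN (nb z3 q3 z1)).1.le)
  obtain ⟨R, r1, r2, r3, r4, r5⟩ := exQ w (hN'.1.1 w1) fun h => nb w3 w1 h hNN
  obtain ⟨U, u1, -, u3⟩ := L R r1 r2 N hN (nb z3 r3 z1) r4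
  obtain ⟨a1, a2⟩ := u3 N hN (nb z3 r3 z1)
  obtain ⟨b1, b2⟩ := u3 N' hN' (nb w3 (r5 w3) w1)
  refine nab N' hN' (le_trans ?_ (Ct_anti (le_sup_left.trans (b2.trans a2.symm).le)))
  rw [Ct_sup]
  exact le_inf (comm _ _ hN'.1 hN.1 hNN) (comm _ _ hN'.1 u1 (inf_comm U N' ▸ b1))


/-- A nilpotency criterion for fusion systems. Let F be a saturated fusion system over a finite p-group S of order at least p². Call a subgroup Q of S weakly embedded in F when there is a subgroup P of S strongly closed in F such that both the product QP and the intersection Q ∩ P are strongly closed in F. Then F is the inner fusion system of S if and only if there is a subgroup D of S with 1 < D < S such that every subgroup of S of the same order as D is weakly embedded in F and, for every fully normalized subgroup H of S of that order, the normalizer fusion system of H in F is the inner fusion system of N_S(H). -/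
theorem result {Ω : Type*} [Group Ω] {S : Subgroup Ω} [Finite S] (p : ℕ) [Fact p.Prime] (hS : IsPGroup p ↥S) (F : Cfsg.FusionSystem S) (hF : F.IsSaturated p) (hcard : p ^ 2 ≤ Nat.card S) : (∀ P : Subgroup Ω, F.Hom P = (Cfsg.innerFusionSystem S).Hom P) ↔ ∃ D : Subgroup Ω, ⊥ < D ∧ D < S ∧ (∀ Q : Subgroup Ω, Q ≤ S → Nat.card ↥Q = Nat.card ↥D → ∃ P : Subgroup Ω, F.StronglyClosed P ∧ F.StronglyClosed (Q ⊔ P) ∧ F.StronglyClosed (Q ⊓ P)) ∧ (∀ H : Subgroup Ω, F.IsFullyNormalized H → Nat.card ↥H = Nat.card ↥D → ∀ N : Cfsg.FusionSystem (Cfsg.FusionSystem.normalizerIn S H), F.IsNormalizerSystem H N → ∀ P : Subgroup Ω, N.Hom P = (Cfsg.innerFusionSystem (Cfsg.FusionSystem.normalizerIn S H)).Hom P) := by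
  have hp : p.Prime := Fact.out
  constructor
  · intro h
    obtain rfl : F = innerFusionSystem S := H92.fs_ext h
    obtain ⟨n, hn⟩ := IsPGroup.iff_card.1 hS
    rw [hn, Nat.pow_le_pow_iff_right hp.one_lt] at hcard
    obtain ⟨k, rfl⟩ := Nat.exists_eq_add_of_le hcard
    obtain ⟨D, -, h1, h2⟩ := between hS bot_le (m := k + 1) (by simp [Nat.one_le_pow _ _ hp.pos])
      (hn ▸ Nat.pow_le_pow_right hp.pos (by omega))
    refine ⟨D, bot_lt_iff_ne_bot.2 fun e => ?_, lt_of_le_of_ne h1 fun e => ?_, fun Q hQ hc => ?_,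
      fun H _ _ N hN P => hom_eq_of_mor fun f => ?_⟩
    · rw [e, Subgroup.card_bot] at h2
      exact (Nat.one_lt_pow (by omega) hp.one_lt).ne h2
    · rw [e, hn] at h2
      have := Nat.pow_right_injective hp.two_le h2
      omega
    · have h3 : (Q.subgroupOf S).Normal := H9.normal_of_index_eq hS (by
        have := (Q.subgroupOf S).card_mul_index
        rw [card_subgroupOf_of_le hQ, hc, h2, hn, show 2 + k = k + 1 + 1 by omega, pow_succ p (k + 1)] at this
        exact Nat.eq_of_mul_eq_mul_left (pow_pos hp.pos _) this)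
      have h4 : (innerFusionSystem S).StronglyClosed Q := stronglyClosed_iff.2 ⟨hQ, fun R f hf x hx hx' => by
        obtain ⟨-, s, hs, e⟩ := mor_inner_iff.1 hf
        rw [e x hx]
        exact h3.conj_mem ⟨x, hQ hx'⟩ hx' ⟨s, hs⟩⟩
      exact ⟨Q, h4, by rwa [sup_idem], by rwa [inf_idem]⟩
    · refine ⟨fun hf => ?_, fun hf => hf.of_le (inner_le N)⟩
      obtain ⟨h3, g, hg, e, e'⟩ := (mor_normalizerSystem_iff hN).1 hf
      obtain ⟨-, s, hs, e''⟩ := mor_inner_iff.1 hg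
      refine mor_inner_iff.2 ⟨h3, s, ⟨hs, mem_Nm.2 ?_⟩, fun x hx =>
        (e x hx).symm.trans (e'' x (Subgroup.mem_sup_left hx))⟩
      rw [← e']
      conv_rhs => rw [img_congr fun x hx => e'' x (Subgroup.mem_sup_right hx), img_conj]
      rw [e']
  · rintro ⟨D, h1, h2, h3, h4⟩ P
    have := H92.finite_of_le h2.le
    obtain ⟨m, hm⟩ := IsPGroup.iff_card.1 (hS.to_le h2.le)
    rw [main Ω S F hS hF m (Nat.pos_of_ne_zero fun e => h1.ne' (Subgroup.card_eq_one.1
      (by rw [hm, e, pow_zero]))) (hm ▸ card_lt_of_lt' le_rfl h2) (hm ▸ h3) fun H k1 k2 => ?_]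
    have hN := isNormalizerSystem_normSys F H k1.1
    refine nsub_of_sub hN (isSubsystemOf_iff.2 fun R f hf => ?_)
    obtain ⟨k3, s, hs, e⟩ := mor_inner_iff.1 ((mor_iff_of_hom_eq (h4 H k1 (k2.trans hm.symm) _ hN R) f).1 hf)
    exact mor_inner_iff.2 ⟨k3.trans inf_le_left, s, hs.1, e⟩

end Cfsg.Agent.S5271
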