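import Cfsg.Statements.S5274
import Cfsg.Agent.H94.Ctrl
import Cfsg.Agent.H9.ClassTwo

set_option autoImplicit false
open Cfsg

namespace Cfsg.Agent.S5274
open H92 H93 H94 Cfsg.FusionSystem

universe u

theorem le_Ct_of_normal {Ω : Type u} [Group Ω] {S Q : Subgroup Ω} {F : FusionSystem S}
    (h : ∀ x ∈ S, ∃ z ∈ S ⊓ Ct S, F.IsConjElt x z) (hQ : F.IsNormal Q) : S ≤ Ct Q := by
  intro x hx y hy
  obtain ⟨z, hz, hc⟩ := h x hx
  obtain ⟨f, hf, rfl⟩ := isConjElt_iff.1 hc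
  obtain ⟨g, hg, e, -⟩ := (isNormal_iff.1 hQ).2 _ f hf
  have h1 := Subgroup.mem_sup_left (T := Q) (Subgroup.mem_zpowers x)
  have h2 := Subgroup.mem_sup_right (S := Subgroup.zpowers x) hy
  refine hg.injOn (mul_mem h2 h1) (mul_mem h1 h2) ?_
  rw [hg.mulOn _ h2 _ h1, hg.mulOn _ h1 _ h2, e x (Subgroup.mem_zpowers x)]
  exact hz.2 _ (hg.mem h2)

/-- Real elements are involutions. -/
theorem sq_eq_one {Ω : Type u} [Group Ω] {S : Subgroup Ω} [Finite S] (hS : IsPGroup 2 S)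
    {F : FusionSystem S} (hF : F.IsSaturated 2)
    (h : ∀ x ∈ S, ∃ z ∈ S ⊓ Ct S, F.IsConjElt x z) {d t : Ω} (hd : d ∈ S) (ht : t ∈ S)
    (e : t * d * t⁻¹ = d⁻¹) : d ^ 2 = 1 := by
  obtain ⟨z, hz, hc⟩ := h d hd
  obtain ⟨f, hf, rfl⟩ := isConjElt_iff.1 hc
  have hm := Subgroup.mem_zpowers d
  have e1 : img (Subgroup.zpowers d) f = Subgroup.zpowers (f d) := hf.mulOn.img_zpowers hm
  obtain ⟨k, hk, e2, e3⟩ := hf.exists_inv
  rw [e1] at hk e3
  have hn : ∀ y ∈ Subgroup.zpowers d, t * y * t⁻¹ ∈ Subgroup.zpowers d := fun y hy => by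
    have : H93.cj t (Subgroup.zpowers d) ≤ Subgroup.zpowers d := by
      rw [cj_zpowers, e]; exact Subgroup.zpowers_le.2 (inv_mem hm)
    exact this (conj_mem_cj t hy)
  have h1 := (hk.comp (mor_conj F hf.le ht) fun y hy => (e3 y hy).2).comp hf
    fun y hy => hn _ (e3 y hy).2
  obtain ⟨α, hα, e4⟩ := h1.exists_aut' fun y hy => e1 ▸ mem_img_of_mem f (hn _ (e3 y hy).2)
  have hz' := Subgroup.mem_zpowers (f d)
  have e5 : af α (f d) = (f d)⁻¹ := by rw [e4 _ hz', e2 d hm, e, hf.mulOn.map_inv hm]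
  have hc : Subgroup.zpowers (f d) ≤ Ct S := Subgroup.zpowers_le.2 hz.2
  have hs := sylIn_of_fn hS hF (fullyNormalized_of_normal F h1.le fun s hs y hy => by
    rwa [conj_eq_of_Ct (le_Ct_comm.1 hc hs) hy])
  have := finite_mulAut h1.le
  obtain ⟨b, -, hb⟩ := hs.exists_conj (isPGroup_zpowers (p := 2) (g := α) (n := 1) (aut_eq_one
    fun y hy => by
      obtain ⟨n, rfl⟩ := hy
      rw [pow_one, pow_two, af_mul_apply, (mulOn_af α).map_zpow hz', e5,
        (mulOn_af α).map_zpow (inv_mem hz'), (mulOn_af α).map_inv hz', e5, inv_inv]))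
    (Subgroup.zpowers_le.2 hα)
  obtain ⟨s, hs, e6⟩ := mem_autInducedBy.1 (hb α (Subgroup.mem_zpowers α))
  have e7 : b * α * b⁻¹ = 1 := aut_eq_one fun y hy => by
    rw [e6 y hy, conj_eq_of_Ct (le_Ct_comm.1 hc hs) hy]
  rw [mul_inv_eq_one, mul_eq_left] at e7
  rw [e7, af_one_apply] at e5
  refine hf.injOn (pow_mem hm 2) (one_mem _) ?_
  rw [hf.mulOn.map_pow hm, hf.mulOn.map_one, pow_two, mul_eq_one_iff_eq_inv, ← e5]

theorem main (Ω : Type u) [Group Ω] (S : Subgroup Ω) [Finite S] (F : FusionSystem S) :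
    IsPGroup 2 S → F.IsSaturated 2 → (∀ x ∈ S, ∃ z ∈ S ⊓ Ct S, F.IsConjElt x z) → S ≤ Ct S := by
  refine fs_induction (fun Ω _ S F => IsPGroup 2 S → F.IsSaturated 2 →
    (∀ x ∈ S, ∃ z ∈ S ⊓ Ct S, F.IsConjElt x z) → S ≤ Ct S) ?_ Ω S F
  intro Ω _ S _ F ih _ hS hF h
  have hc : ∀ x ∈ S, x ^ 2 = 1 → ∀ y ∈ S, y ^ 2 = 1 → (x * y) ^ 2 = 1 := fun x hx h1 y hy h2 =>
    sq_eq_one hS hF h (mul_mem hx hy) hx (by
      rw [pow_two, mul_eq_one_iff_eq_inv] at h1 h2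
      rw [mul_inv_rev, ← h2, ← mul_assoc, mul_eq_one_iff_eq_inv.2 h1, one_mul])
  let V : Subgroup Ω :=
    { carrier := {x | x ∈ S ∧ x ^ 2 = 1}
      one_mem' := ⟨one_mem _, one_pow _⟩
      mul_mem' := fun {x y} hx hy => ⟨mul_mem hx.1 hy.1, hc x hx.1 hx.2 y hy.1 hy.2⟩
      inv_mem' := fun {x} hx => ⟨inv_mem hx.1, by rw [inv_pow, hx.2, inv_one]⟩ }
  have hV : F.StronglyClosed V := stronglyClosed_iff.2 ⟨fun _ h => h.1, fun R f hf x hx hx' =>
    ⟨hf.mem hx, by rw [← hf.mulOn.map_pow hx, hx'.2, hf.mulOn.map_one]⟩⟩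
  have hn : F.IsNormal V := isNormal_of_comm hS hF hV fun x hx y hy => by
    have h1 := hc x hx.1 hx.2 y hy.1 hy.2
    have h2 := hx.2
    have h3 := hy.2
    rw [pow_two, mul_eq_one_iff_eq_inv] at h1 h2 h3
    rw [h1, mul_inv_rev, ← h2, ← h3]
  by_cases h0 : S = ⊥
  · rw [h0]; exact bot_le
  have hV0 : V ≠ ⊥ := fun e => by
    have := (Subgroup.nontrivial_iff_ne_bot S).2 h0
    obtain ⟨x, -, -, h2⟩ := H9.exists_mem_center_orderOf_eq hS (K := ⊤) top_ne_bot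
    have h3 : (x : Ω) ∈ V := ⟨x.2, by rw [← h2, ← Subgroup.orderOf_coe, pow_orderOf_eq_one]⟩
    rw [e, Subgroup.mem_bot] at h3
    rw [← Subgroup.orderOf_coe, h3, orderOf_one] at h2
    omega
  obtain ⟨Ω', _, S', θ, E, hE⟩ := exists_factor hV
  have := fac_finite hE
  have hm := mulOn_ext1 θ
  have h1 := ih Ω' S' E (fac_card_lt hE hV0) (fac_isPGroup hE hS) (isSaturated_factor hS hF hV hE)
    fun y hy => by
      obtain ⟨x, hx, rfl⟩ := fac_surj hE hy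
      obtain ⟨z, hz, hc⟩ := h x hx
      obtain ⟨f, hf, rfl⟩ := isConjElt_iff.1 hc
      obtain ⟨g, hg, e⟩ := fac_mor_of_normal hE hn hf
      refine ⟨_, ⟨fac_mem hE hz.1, fun w hw => ?_⟩, isConjElt_iff.2 ⟨g, hg.mono
        (Subgroup.zpowers_le.2 (mem_img_of_mem _ (Subgroup.mem_zpowers x))),
        e x (Subgroup.mem_zpowers x)⟩⟩
      obtain ⟨v, hv, rfl⟩ := fac_surj hE hw
      rw [← hm _ hv _ hz.1, ← hm _ hz.1 _ hv, hz.2 v hv]
  refine le_Ct_of_normal h (isNormal_of_chain hS hF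
    (fun i => match i with | 0 => ⊥ | 1 => V | _ => S) 2 rfl rfl ?_ ?_)
  · rintro (_ | _ | i) hi
    exacts [hV, stronglyClosed_top F, by omega]
  · rintro (_ | _ | i) hi q hq x hx
    · show _ ∈ (⊥ : Subgroup Ω)
      rw [conj_eq_of_Ct (le_Ct_of_normal h hn hq) hx]; simp
    · have k := S.mul_mem (S.mul_mem hq hx) (S.inv_mem hq)
      refine (fac_eq_iff hE hx k).1 ?_
      rw [hm _ (S.mul_mem hq hx) _ (S.inv_mem hq), hm _ hq _ hx, hm.map_inv hq,
        conj_eq_of_Ct (h1 (fac_mem hE hq)) (fac_mem hE hx)]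
    · omega


/-- Let F be a saturated fusion system over a finite 2-group S. Suppose that every element of S is F-conjugate to an element of the centre Z(S) (some map of F defined on the cyclic subgroup it generates sends it into Z(S)). Then S is abelian. -/
theorem result {Ω : Type*} [Group Ω] {S : Subgroup Ω} [Finite S] (hS : IsPGroup 2 ↥S) (F : Cfsg.FusionSystem S) (hF : F.IsSaturated 2) (h : ∀ x ∈ S, ∃ z ∈ S ⊓ Subgroup.centralizer (S : Set Ω), F.IsConjElt x z) : IsMulCommutative ↥S := by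
  exact H9.isMulCommutative_iff_forall.2 fun x hx y hy => main Ω S F hS hF h hy x hx

end Cfsg.Agent.S5274
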