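import Cfsg.Statements.S5276
import Cfsg.Agent.H95.FocSC
import Cfsg.Agent.H3.FrattiniP

set_option autoImplicit false
open Cfsg

namespace Cfsg.Agent.S5276

open Cfsg.FusionSystem H92 H95

/-- Let p be a prime and F a saturated fusion system over a finite p-group S. Then F is the inner fusion system of S if and only if the normalizer fusion system of S itself in F is the inner fusion system (equivalently, Aut_F(S) is induced by S) and the Frattini subgroup Φ(S) is strongly closed in F. -/
theorem result {Ω : Type*} [Group Ω] {S : Subgroup Ω} [Finite S] (p : ℕ) [Fact p.Prime] (hS : IsPGroup p ↥S) (F : Cfsg.FusionSystem S) (hF : F.IsSaturated p) : (∀ P : Subgroup Ω, F.Hom P = (Cfsg.innerFusionSystem S).Hom P) ↔ (∀ N : Cfsg.FusionSystem (Cfsg.FusionSystem.normalizerIn S S), F.IsNormalizerSystem S N → ∀ P : Subgroup Ω, N.Hom P = (Cfsg.innerFusionSystem (Cfsg.FusionSystem.normalizerIn S S)).Hom P) ∧ F.StronglyClosed ((frattini ↥S).map S.subtype) := by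
  constructor
  · intro h
    have e := fs_ext h
    subst e
    refine ⟨top_inner_iff.2 fun f hf => (mor_inner_iff.1 hf).2, stronglyClosed_iff.2
      ⟨Subgroup.map_subtype_le _, fun R f hf x hx hx' => ?_⟩⟩
    obtain ⟨-, s, hs, e⟩ := mor_inner_iff.1 hf
    obtain ⟨y, hy, rfl⟩ := hx'
    rw [e _ hx]
    exact ⟨⟨s, hs⟩ * y * ⟨s, hs⟩⁻¹, (inferInstance : (frattini S).Normal).conj_mem y hy _, rfl⟩
  · rintro ⟨h1, h2⟩ P
    rw [eq_inner_of_sc hS hF h2 (Subgroup.map_mono (H3.commutator_le_frattini_pgroup hS)) le_rfl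
      (top_inner_iff.1 h1)]

end Cfsg.Agent.S5276
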