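import Cfsg.Statements.S5291
import Cfsg.Agent.H92.Core

set_option autoImplicit false
open Cfsg

namespace Cfsg.Agent.S5291
open H92 H93 Cfsg.FusionSystem

theorem aux {Ω : Type*} [Group Ω] [Finite Ω] {S T R : Subgroup Ω} {p : ℕ} [Fact p.Prime]
    {F : FusionSystem S} {E : FusionSystem T} (hF : SatA p F) (hE : InvA E F) (hR : E.IsNormal R) :
    F.IsNormal (sSup {Q | ∃ g, M F R g ∧ Q = cj g R}) := by
  have h1 : ∀ Q ∈ {Q | ∃ g, M F R g ∧ Q = cj g R}, E.IsNormal Q := by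
    rintro _ ⟨g, hg, rfl⟩
    obtain ⟨a, ha, h⟩ := hE.frat R g hR.1 hg
    have := hE.isNormal_cj ha hR
    rwa [← cj_eq_of_Nm (h.mem_Nm_sc (stronglyClosed_of_normal hR) le_rfl), ← cj_mul,
      mul_inv_cancel_left] at this
  have h2 := sSup_closed (S := T) {Q | E.IsNormal Q ∧ Q ≤ sSup {Q | ∃ g, M F R g ∧ Q = cj g R}}
    (fun Q hQ => hQ.1.1) ⟨isNormal_bot E, bot_le⟩
    fun Q hQ Q' hQ' => ⟨isNormal_sup hQ.1 hQ'.1, sup_le hQ.2 hQ'.2⟩
  have h3 := le_antisymm h2.2 (sSup_le fun Q hQ => le_sSup ⟨h1 Q hQ, le_sSup hQ⟩)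
  refine hE.isNormal_of hF (h3 ▸ h2.1) fun a ha => mem_Nm_of_le (cj_le_iff_le_cj.2 (sSup_le ?_))
  rintro _ ⟨g, hg, rfl⟩
  refine cj_le_iff_le_cj.1 (le_sSup ⟨a * g, hg.mul (M.of_Aut ha hE.le) (hg.cj_le_sc hE.sc hR.1),
    (cj_mul a g R).symm⟩)


/-- Let F be a saturated fusion system over a finite p-group S and E a weakly normal subsystem of F over a subgroup T. Suppose a subgroup R of T is normal in E (E = N_E(R)), and let R* be the subgroup of T generated by the images of R under all maps of F with source R. Then R* is normal in F (F = N_F(R*)). -/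
theorem result {Ω : Type*} [Group Ω] {S : Subgroup Ω} [Finite S] (p : ℕ) [Fact p.Prime] (hS : IsPGroup p S)
    (F : Cfsg.FusionSystem S) (hF : F.IsSaturated p)
    {T : Subgroup Ω} (E : Cfsg.FusionSystem T) (hE : E.IsWeaklyNormalIn F p)
    (R : Subgroup Ω) (hR : E.IsNormal R) :
    F.IsNormal (Subgroup.closure {x : Ω | ∃ φ ∈ F.Hom R, ∃ r : R, x = φ r}) := by
  obtain ⟨a, b, S', F', h, hA⟩ := exists_satA hS hF
  have hT : T ≤ S := hE.2.2.2.1.1
  have hRS : R ≤ S := hR.1.trans hT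
  obtain ⟨E', k⟩ := exists_tr_sub h hT E
  have h1 := h.symm.isNormal (aux hA (invA_of hA.amb (h.isInvariantIn k hE.2.2)) (k.isNormal hR))
  rw [H94.Tr.img_sSup_eq h.iso.symm (Y := {Q | F.IsConj R Q})] at h1
  · convert h1 using 1
    refine le_antisymm ((Subgroup.closure_le _).2 ?_) (sSup_le ?_)
    · rintro _ ⟨φ, hφ, r, rfl⟩
      exact (le_sSup (s := {Q | F.IsConj R Q}) ⟨φ, hφ, rfl⟩ : φ.range ≤ _) ⟨r, rfl⟩
    · rintro _ ⟨φ, hφ, rfl⟩ _ ⟨r, rfl⟩
      exact Subgroup.subset_closure ⟨φ, hφ, r, rfl⟩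
  · rintro _ ⟨g, hg, rfl⟩
    exact hg.cj_le
  · exact fun Q hQ => isConj_le_right hQ
  · rintro _ ⟨g, hg, rfl⟩
    simpa only [h.iso.img_img hRS, Set.mem_setOf_eq] using h.symm.isConj hg.isConj
  · intro Q hQ
    obtain ⟨g, hg, e⟩ := hA.amb.isConj_iff.1 (h.isConj hQ)
    exact ⟨g, hg, e.symm⟩

end Cfsg.Agent.S5291
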