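import Cfsg.Statements.S5294
import Cfsg.Agent.H92.Core

set_option autoImplicit false
universe u
open Cfsg

namespace Cfsg.Agent.S5294

open H92 H93 Cfsg.FusionSystem
open scoped IsMulCommutative

theorem aux {A M : Type*} [Group A] [Finite A] [CommGroup M] [Finite M] {p : ℕ} [Fact p.Prime]
    (hM : IsPGroup p M) (ρ : A →* MulAut M) (B : Subgroup A) (hB : ¬ p ∣ B.index) :
    ∃ K : Subgroup M, (∀ x ∈ K, (∀ a, ρ a x = x) → x = 1) ∧
      ∀ x, (∀ b ∈ B, ρ b x = x) → ∃ y, (∀ a, ρ a y = y) ∧ y⁻¹ * x ∈ K := by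
  classical
  haveI := Fintype.ofFinite (A ⧸ B)
  let t : M →* M := ∏ c : A ⧸ B, (ρ c.out).toMonoidHom
  have ht : ∀ x, t x = ∏ c : A ⧸ B, ρ c.out x := fun x => by simp [t]
  have h1 : ∀ x, (∀ a, ρ a x = x) → t x = x ^ B.index := fun x hx => by
    simp [ht, hx, Subgroup.index_eq_card]
  have hc : (Nat.card M).Coprime B.index := by
    obtain ⟨k, hk⟩ := hM.exists_card_eq
    exact hk ▸ ((Nat.Prime.coprime_iff_not_dvd Fact.out).2 hB).pow_left k
  refine ⟨t.ker, fun x hx h => (powCoprime hc).injective (by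
    simpa [h1 x h] using MonoidHom.mem_ker.1 hx), fun x hx => ?_⟩
  have h2 : ∀ a, ρ a (t x) = t x := fun a => by
    rw [ht, map_prod]
    refine Fintype.prod_equiv (MulAction.toPerm a) _ _ fun c => ?_
    have h3 : (a * c.out)⁻¹ * (a • c).out ∈ B := by
      rw [← QuotientGroup.eq, QuotientGroup.out_eq', ← smul_eq_mul, MulAction.Quotient.mk_smul_out]
    have := congrArg (ρ (a * c.out)) (hx _ h3)
    rw [← MulAut.mul_apply, ← map_mul, mul_inv_cancel_left, map_mul, MulAut.mul_apply] at this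
    exact this.symm
  obtain ⟨y, hy⟩ := (powCoprime hc).surjective (t x)
  have h3 : ∀ a, ρ a y = y := fun a => (powCoprime hc).injective (by
    rw [powCoprime_apply, ← map_pow, ← powCoprime_apply hc, hy, h2])
  exact ⟨y, h3, by rw [MonoidHom.mem_ker, map_mul, map_inv, h1 y h3, ← hy, powCoprime_apply,
    inv_mul_cancel]⟩


/-- Let F be a saturated fusion system over a finite p-group S whose centre Z(S) lies in the largest subgroup O_p(F) normal in F. Then the centre Z(F) of F is a direct factor of Z(S): there is a subgroup K of Z(S) with Z(F) ∩ K = 1 and Z(F)K = Z(S). -/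
theorem result {Ω : Type u} [Group Ω] {S : Subgroup Ω} [Finite S] (p : ℕ) [Fact p.Prime] (hS : IsPGroup p S)
    (F : Cfsg.FusionSystem S) (hF : F.IsSaturated p) (hZ : (S ⊓ Subgroup.centralizer (S : Set Ω)) ≤ F.core) :
    ∃ K : Subgroup Ω, K ≤ (S ⊓ Subgroup.centralizer (S : Set Ω)) ∧ F.center ⊓ K = ⊥ ∧ F.center ⊔ K = (S ⊓ Subgroup.centralizer (S : Set Ω)) := by
  have hQ := isNormal_core F
  set Q := F.core
  haveI : Finite Q := Finite.of_injective _ (Subgroup.inclusion_injective hQ.1)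
  have hA := isFullyAutomized_iff.1 (fullyAutomized_of_fn hS hF (fn_of_normal hQ))
  obtain ⟨K, h1, h2⟩ := aux ((hS.to_le hQ.1).to_subgroup (Subgroup.center Q))
    ((MulAut.characteristic (Subgroup.center Q)).comp (F.autGroup Q).subtype)
    ((autInducedBy S Q).subgroupOf (F.autGroup Q)) hA.2.not_dvd_relIndex
  have hC : F.center ≤ S ⊓ Subgroup.centralizer (S : Set Ω) := fun z hz => by
    refine ⟨(isCentral_center F).1 hz, fun s hs => ?_⟩
    obtain ⟨g, hg, e1, e2⟩ := (isCentral_iff.1 (isCentral_center F)).2 _ _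
      (mor_conj F ((isCentral_center F).1) hs)
    rw [← mul_inv_eq_iff_eq_mul, ← e1 z hz, e2 z hz]
  have hm : ∀ z (hz : z ∈ S ⊓ Subgroup.centralizer (S : Set Ω)),
      (⟨z, hZ hz⟩ : Q) ∈ Subgroup.center Q := fun z hz =>
    Subgroup.mem_center_iff.2 fun q => Subtype.ext (hz.2 q (hQ.1 q.2))
  have hfix : ∀ y : Subgroup.center Q, (∀ α ∈ F.autGroup Q, α y.1 = y.1) → y.1.1 ∈ F.center :=
    fun y hy => le_center (isCentral_of_fix hS hF (Q := Subgroup.zpowers y.1.1)
      ((Subgroup.zpowers_le.2 y.1.2).trans hQ.1) fun P f hf x hx hx' => by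
        obtain ⟨g, hg, e1, e2⟩ := (isNormal_iff.1 hQ).2 _ _ hf
        obtain ⟨α, hα, e⟩ := (hg.mono le_sup_right).exists_aut e2
        obtain ⟨k, rfl⟩ := hx'
        have h3 : y.1.1 ^ k ∈ Q := Q.zpow_mem y.1.2 k
        rw [← e1 _ hx, ← e _ h3, af_of_mem _ h3,
          show (⟨y.1.1 ^ k, h3⟩ : Q) = y.1 ^ k from rfl, map_zpow, hy α hα]
        rfl) (Subgroup.mem_zpowers _)
  refine ⟨(K.map (Q.subtype.comp (Subgroup.center Q).subtype)) ⊓
    (S ⊓ Subgroup.centralizer (S : Set Ω)), inf_le_right, eq_bot_iff.2 ?_,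
    le_antisymm (sup_le hC inf_le_right) fun z hz => ?_⟩
  · rintro _ ⟨hz, ⟨x, hx, rfl⟩, -⟩
    rw [h1 x hx fun α => Subtype.ext (Subtype.ext ?_), map_one]
    · exact Subgroup.one_mem _
    obtain ⟨g, hg, e1, e2⟩ := (isCentral_iff.1 (isCentral_center F)).2 _ _ (mor_af hQ.1 α.2)
    have := (e1 _ x.1.2).symm.trans (e2 _ hz)
    rwa [af_of_mem _ x.1.2] at this
  · obtain ⟨y, h3, h4⟩ := h2 ⟨_, hm z hz⟩ fun b hb => Subtype.ext (Subtype.ext (by
      obtain ⟨s, hs, e⟩ := mem_autInducedBy.1 hb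
      have := e z (hZ hz)
      rw [af_of_mem _ (hZ hz), hz.2 s hs, mul_inv_cancel_right] at this
      exact this))
    have h5 := hfix y fun α hα => congrArg Subtype.val (h3 ⟨α, hα⟩)
    have := Subgroup.mul_mem _ (Subgroup.mem_sup_left (T := (K.map (Q.subtype.comp
      (Subgroup.center Q).subtype)) ⊓ (S ⊓ Subgroup.centralizer (S : Set Ω))) h5)
      (Subgroup.mem_sup_right (x := y.1.1⁻¹ * z) ⟨⟨_, h4, rfl⟩,
        Subgroup.mul_mem _ (Subgroup.inv_mem _ (hC h5)) hz⟩)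
    rwa [mul_inv_cancel_left] at this

end Cfsg.Agent.S5294
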