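import Cfsg.Statements.S5298
import Cfsg.Agent.H6.FusB

set_option autoImplicit false
universe u
open Cfsg

namespace Cfsg.Agent.S5298
open H92 H93 Cfsg.FusionSystem

/-- Let F be a saturated fusion system over a finite p-group S. If every map of F between cyclic subgroups of the hyperfocal subgroup of F of order p or 4 is conjugation by an element of S, then F is the inner fusion system of S. -/
theorem result {Ω : Type u} [Group Ω] {S : Subgroup Ω} [Finite S] (p : ℕ) [Fact p.Prime] (hS : IsPGroup p S)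
    (F : Cfsg.FusionSystem S) (hF : F.IsSaturated p)
    (h : ∀ A B : Subgroup Ω, A ≤ (F.hyperfocalSubgroup p) → B ≤ (F.hyperfocalSubgroup p) → IsCyclic ↥A → (Nat.card ↥A = p ∨ Nat.card ↥A = 4) → IsCyclic ↥B → (Nat.card ↥B = p ∨ Nat.card ↥B = 4) →
      F.homSet A B ⊆ (Cfsg.innerFusionSystem S).Hom A) :
    ∀ P : Subgroup Ω, F.Hom P = (Cfsg.innerFusionSystem S).Hom P := by
  rw [← H6.eq_inner_of_small hS hF fun x hx hs h1 f hf => ?_]
  · exact fun _ => rfl
  have hm := Subgroup.mem_zpowers x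
  have e : img (Subgroup.zpowers x) f = Subgroup.zpowers (f x) := hf.mulOn.img_zpowers hm
  obtain ⟨-, s, hs, e'⟩ := h _ (Subgroup.zpowers (f x)) (Subgroup.zpowers_le.2 hx) (Subgroup.zpowers_le.2
    (hf.mem_of_stronglyClosed (H95.stronglyClosed_hyp hS hF) hm hx)) inferInstance (hs.card h1)
    inferInstance (by rw [← e, hf.card_img]; exact hs.card h1)
    ⟨hf.hom_mem, fun y => e ▸ mem_img_of_mem f y.2⟩
  exact ⟨s, hs, (e' ⟨x, hm⟩).symm⟩

end Cfsg.Agent.S5298
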