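import Cfsg.Statements.S5300
import Cfsg.Agent.H6.FusB

set_option autoImplicit false
universe u
open Cfsg

namespace Cfsg.Agent.S5300
open H92 H93 Cfsg.FusionSystem

/-- Let F be a saturated fusion system over a finite p-group S. If every cyclic subgroup of the focal subgroup of F of order p (of order 2 or 4 when p = 2) is normal in S, then S is normal in F. -/
theorem result {Ω : Type u} [Group Ω] {S : Subgroup Ω} [Finite S] (p : ℕ) [Fact p.Prime] (hS : IsPGroup p S)
    (F : Cfsg.FusionSystem S) (hF : F.IsSaturated p)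
    (hnorm : ∀ x ∈ F.focalSubgroup, (x ^ p = 1 ∨ (p = 2 ∧ x ^ 4 = 1)) → ∀ s ∈ S, s * x * s⁻¹ ∈ Subgroup.zpowers x) :
    F.IsNormal S := by
  have cen : ∀ x ∈ F.focalSubgroup, x ^ p = 1 → x ∈ Ct S := fun x hx h1 => by
    by_cases h0 : x = 1
    · rw [h0]; exact one_mem _
    have hxS := H95.focal_le F hx
    have hn : ((Subgroup.zpowers x).subgroupOf S).Normal := ⟨fun y hy s => by
      have : cj (s : Ω) (Subgroup.zpowers x) ≤ Subgroup.zpowers x := by
        rw [cj_zpowers]; exact Subgroup.zpowers_le.2 (hnorm x hx (Or.inl h1) s s.2)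
      exact this (conj_mem_cj _ hy)⟩
    obtain ⟨z, h2, h3, h4⟩ := H9.exists_mem_center_orderOf_eq hS (K := (Subgroup.zpowers x).subgroupOf S)
      fun e => h0 (by
        have : (⟨x, hxS⟩ : S) ∈ (Subgroup.zpowers x).subgroupOf S := Subgroup.mem_zpowers x
        rw [e, Subgroup.mem_bot] at this
        exact congrArg Subtype.val this)
    have h5 : Subgroup.zpowers (z : Ω) = Subgroup.zpowers x :=
      have := finite_of_le (Subgroup.zpowers_le.2 hxS)
      Subgroup.eq_of_le_of_card_ge (Subgroup.zpowers_le.2 h2) (by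
        rw [Nat.card_zpowers, Nat.card_zpowers, orderOf_eq_prime h1 h0, Subgroup.orderOf_coe, h4])
    have h6 : Subgroup.zpowers (z : Ω) ≤ Ct S := Subgroup.zpowers_le.2 fun y hy =>
      congrArg Subtype.val (Subgroup.mem_center_iff.1 h3 ⟨y, hy⟩)
    exact h6 (h5.symm ▸ Subgroup.mem_zpowers x)
  let W : Subgroup Ω :=
    { carrier := {x | x ∈ S ⊓ Ct S ∧ x ^ p = 1}
      one_mem' := ⟨one_mem _, one_pow _⟩
      mul_mem' := fun {x y} hx hy => ⟨mul_mem hx.1 hy.1, by
        rw [Commute.mul_pow (hy.1.2 x hx.1.1), hx.2, hy.2, one_mul]⟩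
      inv_mem' := fun {x} hx => ⟨inv_mem hx.1, by rw [inv_pow, hx.2, inv_one]⟩ }
  refine H6.isNormal_top_of_chain hS hF fun P D hP hD => ?_
  have hf : D ≤ F.focalSubgroup := hD.hyp.trans (H95.hyperfocal_le_focal F p)
  have hW : ∀ x ∈ D, x ^ p = 1 → x ∈ W := fun x hx h => ⟨⟨hP.1.1 (hD.le hx), cen x (hf hx) h⟩, h⟩
  refine ⟨fun i => match i with | 0 => ⊥ | 1 => W | _ => ⊤, 2, rfl, le_top, ?_, ?_⟩
  · rintro α hα (_ | _ | i) x hx hx'
    · rw [Subgroup.mem_bot.1 hx', (mulOn_af α).map_one]; exact one_mem _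
    · refine hW _ (hD.inv α hα x hx) ?_
      rw [← (mulOn_af α).map_pow (hD.le hx), hx'.2, (mulOn_af α).map_one]
    · trivial
  · rintro s hs (_ | _ | i) hi x hx hx'
    · show _ ∈ (⊥ : Subgroup Ω)
      rw [conj_eq_of_Ct (le_Ct_comm.1 (Subgroup.zpowers_le.2 hx'.1.2) hs) (Subgroup.mem_zpowers x)]
      simp
    · have h1 := hnorm x (hf hx) (hD.sm x hx) s hs
      have h2 : Commute x⁻¹ (s * x * s⁻¹) := by
        obtain ⟨k, hk⟩ := h1
        rw [← hk]; exact (Commute.refl x).inv_left.zpow_right k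
      refine hW _ (D.mul_mem (D.inv_mem hx) (Subgroup.zpowers_le.2 hx h1)) ?_
      have h3 : x ^ p ∈ Ct S := by
        rcases hD.sm x hx with h | ⟨rfl, h⟩
        · rw [h]; exact one_mem _
        · exact cen _ (pow_mem (hf hx) 2) (by rw [← pow_mul, h])
      rw [h2.mul_pow, conj_pow, h3 s hs]; simp
    · omega

end Cfsg.Agent.S5300
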