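import Cfsg.Statements.S5301
import Cfsg.Agent.H92.Normal

set_option autoImplicit false
universe u
open Cfsg

namespace Cfsg.Agent.S5301
open H92 Cfsg.FusionSystem

/-- Let F be a saturated fusion system over a finite p-group S. If for every subgroup P of S that is fully normalized, centric and radical in F the automorphism group that F induces on P has a normal Sylow p-subgroup, then S is normal in F. -/
theorem result {Ω : Type u} [Group Ω] {S : Subgroup Ω} [Finite S] (p : ℕ) [Fact p.Prime] (hS : IsPGroup p S)
    (F : Cfsg.FusionSystem S) (hF : F.IsSaturated p)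
    (hcl : ∀ P : Subgroup Ω, F.IsFullyNormalized P → F.IsCentric P → F.IsRadical p P →
      ∃ R : Sylow p ↥(F.autGroup P), (R : Subgroup ↥(F.autGroup P)).Normal) :
    F.IsNormal S := by
  refine isNormal_top_of_no_essential hS hF fun P hP => ?_
  obtain ⟨R, hR⟩ := hcl P hP.2.1 hP.1 (essential_radical hS hF hP)
  obtain ⟨-, R', hR'⟩ := fullyAutomized_of_fn hS hF hP.2.1
  have := finite_mulAut hP.1.1
  have := Sylow.unique_of_normal R hR
  rw [Subsingleton.elim R' R] at hR'
  refine (lt_normalizerIn hS (essential_lt hS hF hP)).not_ge fun s hs => ?_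
  refine mem_of_mem_pCoreOf (centralizerIn_le_of_centric hP.1) (essential_radical hS hF hP) hs
    (le_pCoreOf (autInducedBy_le_autGroup F hP.1.1) (fun b hb n hn => ?_)
      (isPGroup_autInducedBy hS P) (cAut_mem hs.2 hs.1))
  have := hR.conj_mem ⟨n, autInducedBy_le_autGroup F hP.1.1 hn⟩ (by rw [hR']; exact hn) ⟨b, hb⟩
  rwa [hR'] at this

end Cfsg.Agent.S5301
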