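import Cfsg.Statements.S5317
import Cfsg.Agent.H95.Rank2
import Cfsg.Agent.H84.SL2Q
import Cfsg.Agent.H57.SLGen

set_option autoImplicit false
open Cfsg

namespace Cfsg.Agent.S5317

open H95 Matrix.SpecialLinearGroup MatrixGroups
open scoped H61

/-- Let F be a finite field of odd order q with q² ≡ 1 mod 16 (so that a Sylow 2-subgroup of PSL(2,q), dihedral of order the 2-part of (q²−1)/2, has order at least 8). Then the 2-fusion system of PSL(2,F) on a Sylow 2-subgroup is simple: saturated, over a nontrivial 2-group, with no normal subsystem other than the trivial one and itself. -/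
theorem result {F : Type*} [Field F] [Fintype F] (hodd : Fintype.card F % 2 = 1) (h16 : 16 ∣ Fintype.card F ^ 2 - 1)
    (S : Sylow 2 (Matrix.ProjectiveSpecialLinearGroup (Fin 2) F)) :
    (Cfsg.groupFusionSystem (S : Subgroup (Matrix.ProjectiveSpecialLinearGroup (Fin 2) F))).IsSimple 2 := by
  obtain ⟨p, hp, hc⟩ : ∃ p, Fact p.Prime ∧ CharP F p :=
    ⟨ringChar F, ⟨CharP.char_is_prime F _⟩, inferInstance⟩
  have ho : Odd (Fintype.card F) := Nat.odd_iff.2 hodd
  have h2 := H84.two_ne_zero_of_odd_card ho
  have h8 : 2 ^ 3 ∣ Nat.card S := by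
    refine pow_dvd_card_sylow S ?_
    have h1 := H57.gcd_mul_card_psl (ι := Fin 2) (F := F)
    rw [H57.card_sl_two, Fintype.card_fin, Nat.card_eq_fintype_card, H61.gcd_two_of_odd ho] at h1
    exact Nat.dvd_of_mul_dvd_mul_left two_pos (h1 ▸ h16.mul_left _)
  have hq : 4 ≤ Nat.card F := by
    rw [Nat.card_eq_fintype_card]
    have := Fintype.one_lt_card (α := F)
    by_contra h
    have : Fintype.card F = 3 := by omega
    rw [this] at h16
    omega
  obtain ⟨a, ha, ha2⟩ : ∃ a : F, a ≠ 0 ∧ a ^ 2 ≠ 1 := by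
    classical
    by_contra h
    push Not at h
    have : (Finset.univ : Finset F) ⊆ {0, 1, -1} := fun a _ => by
      by_cases h0 : a = 0
      · simp [h0]
      · rcases sq_eq_one_iff.1 (h a h0) with h | h <;> simp [h]
    have h3 := (Finset.card_le_card this).trans Finset.card_le_three
    rw [Finset.card_univ, ← Nat.card_eq_fintype_card] at h3
    omega
  haveI : Group.IsPerfect SL(2, F) := ⟨H57.sl_commutator_eq_top_of_sq_ne_one ha ha2⟩
  refine isSimple_of_dih_quotient S (fun h => ?_)
    (by rw [Group.IsPerfect.commutator_eq_top]; exact le_top) (fun x y hx hy => ?_) le_top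
    (⊤ : Subgroup PSL(2, F)).subtype (by rw [Subgroup.ker_subtype]; exact bot_le)
    (fun _ _ _ => trivial) ?_ ?_ (Or.inl (Subgroup.ker_subtype _))
  · rw [h, Subgroup.card_bot] at h8
    omega
  · obtain ⟨x, rfl⟩ := H61.proj_surjective x
    obtain ⟨y, rfl⟩ := H61.proj_surjective y
    have key : ∀ z : SL(2, F), orderOf (H61.proj F z) = 2 → z * z = -1 := fun z hz =>
      H61.mul_self_eq_neg_one_of_proj h2 (fun h => by rw [h, orderOf_one] at hz; omega)
        (by rw [← pow_two]; exact orderOf_dvd_iff_pow_eq_one.1 hz.dvd)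
    exact (H61.proj F).map_isConj (H84.sl_isConj_of_mul_self_eq_neg_one ho (key x hx) (key y hy))
  · rw [Subgroup.map_subgroupOf_eq_of_le le_top]
    exact cyclic_or_dih (H61.hur_psl F p) (H61.char_ne_two_iff.2 h2) S.isPGroup'
  · rw [Subgroup.map_subgroupOf_eq_of_le le_top]
    omega

end Cfsg.Agent.S5317
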