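import Cfsg.Statements.S5330
import Cfsg.Agent.H95.Transfer
import Cfsg.Agent.H93.NC

set_option autoImplicit false
open Cfsg

namespace Cfsg.Agent.S5330

open H92 Cfsg.FusionSystem in
theorem ext_top {Ω : Type*} [Group Ω] {S : Subgroup Ω} [Finite S] {p : ℕ} [Fact p.Prime]
    (hS : IsPGroup p S) {F : Cfsg.FusionSystem S} (hF : F.IsSaturated p)
    (hab : ∀ x ∈ S, ∀ y ∈ S, x * y = y * x) {P : Subgroup Ω} {f : Ω → Ω} (hf : Mor F P f) :
    ∃ α ∈ F.autGroup S, ∀ x ∈ P, af α x = f x := by
  have hfn : F.IsFullyNormalized (img P f) := fullyNormalized_of_normal F hf.img_le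
    fun s hs x hx => by
      rw [hab s hs x (hf.img_le hx), mul_inv_cancel_right]
      exact hx
  obtain ⟨g, hg, e⟩ := exists_ext_sup_centralizer hS hF hf (fc_of_fn hS hF hfn)
  have hle : S ≤ P ⊔ centralizerIn S P := fun s hs =>
    le_sup_right (a := P) (show s ∈ centralizerIn S P from
      ⟨hs, fun y hy => hab y (hf.le hy) s hs⟩)
  obtain ⟨α, hα, e'⟩ := (hg.mono hle).exists_aut' fun x hx => hg.mem (hle hx)
  exact ⟨α, hα, fun x hx => (e' x (hf.le hx)).trans (e x hx)⟩


/-- Let F be a saturated fusion system over a finite abelian p-group S. Then S is the internal direct product of the centre of the system and the focal subgroup: Z(F) ∩ foc(F) = 1 and Z(F)·foc(F) = S. -/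
theorem result {Ω : Type*} [Group Ω] {S : Subgroup Ω} [Finite S] (p : ℕ) [Fact p.Prime] (hS : IsPGroup p S) (F : Cfsg.FusionSystem S) (hF : F.IsSaturated p) (hab : ∀ x ∈ S, ∀ y ∈ S, x * y = y * x) : F.center ⊓ F.focalSubgroup = ⊥ ∧ F.center ⊔ F.focalSubgroup = S := by
  classical
  have hcomm : ⁅S, S⁆ = ⊥ := by
    rw [Subgroup.commutator_eq_bot_iff_le_centralizer]
    exact fun x hx y hy => hab y hy x hx
  constructor
  · rw [eq_bot_iff, inf_comm, ← hcomm]
    refine H95.focal_inf_le_of_fixed hS hF fun P f hf a ha haP => ?_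
    obtain ⟨g, -, h1, h2⟩ := (H92.isCentral_iff.1 (H93.isCentral_center F)).2 P f hf
    rw [← h1 a haP, h2 a ha]
  · refine le_antisymm (sup_le (H93.isCentral_center F).1 (H95.focal_le F)) fun s hs => ?_
    letI : CommGroup S := { (inferInstance : Group S) with
      mul_comm := fun a b => Subtype.ext (hab a a.2 b b.2) }
    haveI := H92.finite_mulAut (S := S) (P := S) le_rfl
    haveI : Fintype (F.autGroup S) := Fintype.ofFinite _
    set K := (F.center ⊔ F.focalSubgroup).subgroupOf S
    let N : S := ∏ α : F.autGroup S, α.1 ⟨s, hs⟩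
    have hN : ∀ β ∈ F.autGroup S, β N = N := by
      intro β hβ
      simp only [N, map_prod]
      exact Equiv.prod_comp (Equiv.mulLeft (⟨β, hβ⟩ : F.autGroup S)) (fun α => α.1 ⟨s, hs⟩)
    have hc : F.IsCentral (Subgroup.zpowers (N : Ω)) := by
      refine H92.isCentral_iff.2 ⟨Subgroup.zpowers_le.2 N.2, fun P f hf => ?_⟩
      obtain ⟨α, hα, e⟩ := ext_top hS hF hab hf
      refine ⟨H92.af α, (H92.mor_af le_rfl hα).mono (sup_le hf.le (Subgroup.zpowers_le.2 N.2)), e, ?_⟩
      rintro _ ⟨k, rfl⟩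
      show H92.af α ((N : Ω) ^ k) = (N : Ω) ^ k
      rw [(H92.mor_af le_rfl hα).map_zpow N.2, H92.af_coe, hN α hα]
    have h1 : QuotientGroup.mk' K N = 1 := (QuotientGroup.eq_one_iff _).2
      (le_sup_left (b := F.focalSubgroup) (H93.le_center hc (Subgroup.mem_zpowers _)))
    have h2 : ∀ α : F.autGroup S, QuotientGroup.mk' K (α.1 ⟨s, hs⟩) = QuotientGroup.mk' K ⟨s, hs⟩ := by
      intro α
      rw [eq_comm]
      refine QuotientGroup.eq.2 (le_sup_right (a := F.center) ?_)
      have := H95.mem_focal (H92.mor_af le_rfl α.2) hs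
      rwa [H92.af_of_mem _ hs] at this
    simp only [N, map_prod, h2, Finset.prod_const, Finset.card_univ] at h1
    have h3 : ¬ p ∣ Fintype.card (F.autGroup S) := by
      have h4 := (H92.sylIn_Inn_top hS hF).not_dvd_relIndex
      have h5 : Inn S = ⊥ := by
        rw [eq_bot_iff]
        rintro _ ⟨g, rfl⟩
        exact MulEquiv.ext fun x => by simp [mul_comm g x]
      rwa [h5, Subgroup.relIndex_bot_left, Nat.card_eq_fintype_card] at h4
    exact (QuotientGroup.eq_one_iff (N := K) _).1 (H95.eq_one_of_pow_of_isPGroup hS _ h3 h1)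

end Cfsg.Agent.S5330
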