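import Cfsg.Statements.S5361
import Cfsg.Agent.Base
import Cfsg.Agent.H75.Fischer

set_option autoImplicit false
open Cfsg

namespace Cfsg.Agent.S5361


/-- Let D be a conjugacy class of 3-transpositions generating the finite group G, and suppose the centre of G is trivial and some two different members of D commute. Then the following are equivalent: (1) the commutator subgroup of G is simple (possibly of prime order); (2) G acts primitively on D by conjugation; (3) the largest normal 2-subgroup and the largest normal 3-subgroup of G are trivial and the commuting graph of D is connected. -/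
theorem result {G : Type*} [Group G] [Finite G] {D : Set G} (hD : Cfsg.IsThreeTranspositionClass D) (hZ : Subgroup.center G = ⊥) (hw : ∃ a ∈ D, ∃ b ∈ D, a ≠ b ∧ Commute a b) : (IsSimpleGroup (commutator G) ↔ Cfsg.IsPrimitiveUnderConj D) ∧ (Cfsg.IsPrimitiveUnderConj D ↔ (Cfsg.pCore 2 G = ⊥ ∧ Cfsg.pCore 3 G = ⊥ ∧ (Cfsg.commutingGraph D).Connected)) := by
  have hG := H75.class_group hD
  obtain ⟨a, ha, b, hb, hab, hc⟩ := id hw
  refine ⟨⟨fun hs => ?_, fun hprim => (H75.simple_commutator_of_prim hG hprim hw hZ).1⟩,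
    ⟨fun hprim => ⟨eq_bot_iff.2 (hZ ▸ H75.prim_pCore_two hG hprim),
      eq_bot_iff.2 (hZ ▸ H75.prim_pCore_three hG hprim hw), H75.prim_conn hG hprim hw⟩,
      fun ⟨h2, h3, hconn⟩ => ?_⟩⟩
  · refine (H75.prim_of_simple_commutator hD hs fun hcomm => ?_).1
    have h1 := H75.inv_mul_mem_commutator hD ha hb
    have h2 : a⁻¹ * b ∈ Subgroup.center G := H75.mem_center_of_forall_commute hD.2.2 fun e he => by
      have h3 := H75.inv_mul_mem_commutator hD ha he
      have h4 : Commute (a⁻¹ * b) (a⁻¹ * e) :=
        congrArg Subtype.val (mul_comm' (⟨_, h1⟩ : commutator G) ⟨_, h3⟩)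
      have h5 : Commute (a⁻¹ * b) a := ((Commute.refl a).inv_left).mul_left hc.symm
      simpa using h5.mul_right h4
    rw [hZ, Subgroup.mem_bot, inv_mul_eq_one] at h2
    exact hab h2
  · obtain ⟨L, hN, hL, -⟩ := H75.exists_quasi_fstar hD ⟨a, ha, b, hb, hab⟩ (h2 ▸ bot_le) (h3 ▸ bot_le)
    exact H75.prim_of_index_le_two hD ⟨a, ha, b, hb, hab⟩ hL (H75.index_le_two_of_conn hD hL hconn)

end Cfsg.Agent.S5361
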