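import Cfsg.Statements.S5455
import Cfsg.Agent.H6.J22

set_option autoImplicit false
open Cfsg

namespace Cfsg.Agent.S5455
open H6 H38 H80 H75

/-- Let G be a finite group with an involution d whose centralizer C is quasisimple, such that C modulo the subgroup generated by d is of type M(22) with respect to some conjugacy class of 3-transpositions generating it and also has an involution whose own centralizer is quasisimple with quotient by it isomorphic to the projective special unitary group of dimension 6 over the field with four elements and which is not weakly closed in that centralizer; and suppose some conjugate of d other than d commutes with d. Let S be a Sylow 2-subgroup of C and A the Thompson subgroup of S, regarded as a subgroup of G. Then A is elementary abelian of order 2^11, exactly 23 conjugates of d lie in A, and the normalizer of A permutes them transitively. -/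
theorem result {G : Type*} [Group G] [Finite G] (d : G) (hd : orderOf d = 2) (hq : Cfsg.IsQuasisimple ↥(Subgroup.centralizer ({d} : Set G))) [hzn : ((Subgroup.zpowers d).subgroupOf (Subgroup.centralizer ({d} : Set G))).Normal] (htype : ∃ E : Set (↥(Subgroup.centralizer ({d} : Set G)) ⧸ (Subgroup.zpowers d).subgroupOf (Subgroup.centralizer ({d} : Set G))), Cfsg.IsThreeTranspositionClass E ∧ Cfsg.IsOfTypeM22 _ E) (hinvol : ∃ d' : ↥(Subgroup.centralizer ({d} : Set G)) ⧸ (Subgroup.zpowers d).subgroupOf (Subgroup.centralizer ({d} : Set G)), orderOf d' = 2 ∧ Cfsg.IsQuasisimple ↥(Subgroup.centralizer ({d'} : Set _)) ∧ (∃ (K : Type) (_ : Field K) (_ : Fintype K), Fintype.card K = 4 ∧ ∃ _ : ((Subgroup.zpowers d').subgroupOf (Subgroup.centralizer ({d'} : Set _))).Normal, Nonempty (↥(Subgroup.centralizer ({d'} : Set _)) ⧸ (Subgroup.zpowers d').subgroupOf (Subgroup.centralizer ({d'} : Set _)) ≃* Cfsg.PSU 6 K 2)) ∧ ∃ g, g * d' * g⁻¹ ∈ Subgroup.centralizer ({d'} : Set _) ∧ g * d' * g⁻¹ ≠ d') (hnwc : ∃ g : G,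 g * d * g⁻¹ ∈ Subgroup.centralizer ({d} : Set G) ∧ g * d * g⁻¹ ≠ d) (S : Sylow 2 ↥(Subgroup.centralizer ({d} : Set G))) (A : Subgroup G) (hA : A = (Cfsg.thompsonSubgroupOf 2 (S : Subgroup ↥(Subgroup.centralizer ({d} : Set G)))).map (Subgroup.centralizer ({d} : Set G)).subtype) : Cfsg.IsElementaryAbelian 2 A ∧ Nat.card A = 2 ^ 11 ∧ Set.ncard {x : G | x ∈ A ∧ IsConj d x} = 23 ∧ ∀ x ∈ A, ∀ y ∈ A, IsConj d x → IsConj d y → ∃ n ∈ Subgroup.normalizer (A : Set G), n * x * n⁻¹ = y := by
  obtain ⟨E, hE, h22⟩ := htype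
  have hE' : Cfsg.IsThreeTranspositionGroup E := ⟨hE.1, by
    obtain ⟨-, ⟨x, -, rfl⟩, -⟩ := hE
    exact cl_conjugatesOf, hE.2.2⟩
  obtain ⟨Θ', F'⟩ := a22 _ E hE' h22
  obtain ⟨Θ, F⟩ := isFi23_of_cent hd hq.1 hnwc F'
  have hd' : d ∈ conjugatesOf d := mem_conjugatesOf_self
  obtain ⟨θ, R⟩ := rz22 ⟨Θ, F.real⟩ hd'
  have cl : CL (conjugatesOf d) (d :: base θ) := cl_cons.2 ⟨hd', base_cl R⟩
  have b := ea_spn F.tt.1 cl
  have m : d ∈ spn (d :: base θ) := Subgroup.subset_closure List.mem_cons_self
  have c := card_base' R b (fun _ hb => Subgroup.subset_closure (List.mem_cons_of_mem _ hb)) m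
    (tt_ne_one F.tt.1 hd') (R.mem 724 (by decide)).2.2
  exact (JP.lift (cext_cent hd) (jp22 F') (b.subgroupOf _) (by
    rwa [card_subgroupOf fun y hy => mem_cent.2 (b.comm hy m)])).main (wd23 ⟨Θ, F.real⟩) b c m cl rfl
    (fun _ hb => Subgroup.subset_closure hb) S A hA

end Cfsg.Agent.S5455
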