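import Cfsg.Statements.S5462
import Cfsg.Agent.H38.FiInv
import Cfsg.Agent.H80.U6

set_option autoImplicit false
open Cfsg

namespace Cfsg.Agent.S5462

/-- Let G be a finite group with trivial centre generated by a conjugation-invariant set D of 3-transpositions on which it acts primitively, such that for some d in D the subgroup generated by the members of D other than d commuting with d has central largest normal 2- and 3-subgroups, and suppose G with D is of type M(22). Then every automorphism of G of order 2 fixes some member of D. -/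
theorem result {G : Type*} [Group G] [Finite G] {D : Set G} (hD : Cfsg.IsThreeTranspositionGroup D) (hprim : Cfsg.IsPrimitiveUnderConj D) (d₀ : G) (hd₀ : d₀ ∈ D) (h3 : Cfsg.pCore 3 ↥(Subgroup.closure {y : G | y ∈ D ∧ y ≠ d₀ ∧ Commute d₀ y}) ≤ Subgroup.center ↥(Subgroup.closure {y : G | y ∈ D ∧ y ≠ d₀ ∧ Commute d₀ y})) (h2 : Cfsg.pCore 2 ↥(Subgroup.closure {y : G | y ∈ D ∧ y ≠ d₀ ∧ Commute d₀ y}) ≤ Subgroup.center ↥(Subgroup.closure {y : G | y ∈ D ∧ y ≠ d₀ ∧ Commute d₀ y})) (h22 : Cfsg.IsOfTypeM22 G D) (φ : MulAut G) (hφ : orderOf φ = 2) : ∃ d ∈ D, φ d = d := by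
  obtain ⟨θ, h⟩ := H80.a22 G D hD h22
  have hd := h.real.mem 0 (by decide)
  have key : conjugatesOf (φ (θ 0)) = D := by
    have mem : ∀ x ∈ conjugatesOf (φ (θ 0)), ∃ y ∈ D, φ y = x := by
      intro x hx
      obtain ⟨g, rfl⟩ := isConj_iff.1 hx
      exact ⟨_, hD.2.1 (φ.symm g) _ hd, by simp⟩
    refine H38.class_unique hD (by norm_num) (H38.fac22 h h22) (H38.tr22_le ⟨θ, h.real⟩) le_rfl
      ⟨θ, h.real⟩ ⟨fun x hx => ?_, fun x hx y hy => ?_⟩ rfl (by norm_num)
    · obtain ⟨y, hy, rfl⟩ := mem x hx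
      rw [MulEquiv.orderOf_eq, hD.1.1 y hy]
    · obtain ⟨x, hx', rfl⟩ := mem x hx
      obtain ⟨y, hy', rfl⟩ := mem y hy
      rw [← map_mul, ← map_pow, ← map_pow]
      exact (hD.1.2 x hx' y hy').imp (fun e => by rw [e, map_one]) fun e => by rw [e, map_one]
  refine H38.fix22 hD.1 ⟨θ, h.real⟩ φ.toMonoidHom (fun x hx => ?_) fun x _ => ?_
  · obtain ⟨g, rfl⟩ := h.exists_conj hd hx
    rw [← key]
    exact isConj_iff.2 ⟨φ g, by simp⟩
  · have : φ * φ = 1 := by rw [← pow_two, ← hφ, pow_orderOf_eq_one]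
    exact congrArg (fun ψ : MulAut G => ψ x) this

end Cfsg.Agent.S5462
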