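import Cfsg.Statements.S5463
import Cfsg.Agent.H38.FiCen
import Cfsg.Agent.H80.U6

set_option autoImplicit false
open Cfsg

namespace Cfsg.Agent.S5463

/-- Let G be a finite group with trivial centre generated by a conjugation-invariant set D of 3-transpositions on which it acts primitively, such that for some d in D the subgroup generated by the members of D other than d commuting with d has central largest normal 2- and 3-subgroups, and suppose G with D is of type M(22). A product j of two distinct commuting members of D determines the pair: any two 2-element sets of commuting members of D with product j coincide. A product j of three distinct pairwise commuting members of D arises from exactly two such 3-element sets. -/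
theorem result {G : Type*} [Group G] [Finite G] {D : Set G} (hD : Cfsg.IsThreeTranspositionGroup D) (hprim : Cfsg.IsPrimitiveUnderConj D) (d₀ : G) (hd₀ : d₀ ∈ D) (h3 : Cfsg.pCore 3 ↥(Subgroup.closure {y : G | y ∈ D ∧ y ≠ d₀ ∧ Commute d₀ y}) ≤ Subgroup.center ↥(Subgroup.closure {y : G | y ∈ D ∧ y ≠ d₀ ∧ Commute d₀ y})) (h2 : Cfsg.pCore 2 ↥(Subgroup.closure {y : G | y ∈ D ∧ y ≠ d₀ ∧ Commute d₀ y}) ≤ Subgroup.center ↥(Subgroup.closure {y : G | y ∈ D ∧ y ≠ d₀ ∧ Commute d₀ y})) (h22 : Cfsg.IsOfTypeM22 G D) : (∀ (j : G) (l l' : List G), (l.Nodup ∧ l.length = 2 ∧ (∀ a ∈ l, a ∈ D) ∧ (∀ a ∈ l, ∀ b ∈ l, Commute a b) ∧ l.prod = j) → (l'.Nodup ∧ l'.length = 2 ∧ (∀ a ∈ l', a ∈ D) ∧ (∀ a ∈ l', ∀ b ∈ l', Commute a b) ∧ l'.prod = j) → (∀ x : G, x ∈ l ↔ x ∈ l')) ∧ ∀ (j : G) (l₀ : List G), (l₀.Nodup ∧ l₀.length = 3 ∧ (∀ a ∈ l₀, a ∈ D) ∧ (∀ a ∈ l₀, ∀ b ∈ l₀, Commute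 a b) ∧ l₀.prod = j) → ∃ l₁ l₂ : List G, (l₁.Nodup ∧ l₁.length = 3 ∧ (∀ a ∈ l₁, a ∈ D) ∧ (∀ a ∈ l₁, ∀ b ∈ l₁, Commute a b) ∧ l₁.prod = j) ∧ (l₂.Nodup ∧ l₂.length = 3 ∧ (∀ a ∈ l₂, a ∈ D) ∧ (∀ a ∈ l₂, ∀ b ∈ l₂, Commute a b) ∧ l₂.prod = j) ∧ ¬ (∀ x : G, x ∈ l₁ ↔ x ∈ l₂) ∧ ∀ l : List G, (l.Nodup ∧ l.length = 3 ∧ (∀ a ∈ l, a ∈ D) ∧ (∀ a ∈ l, ∀ b ∈ l, Commute a b) ∧ l.prod = j) → ((∀ x : G, x ∈ l ↔ x ∈ l₁) ∨ (∀ x : G, x ∈ l ↔ x ∈ l₂)) := by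
  obtain ⟨θ, h⟩ := H80.a22 G D hD h22
  have N := H38.noRel22 hD.1 ⟨θ, h.real⟩
  refine ⟨?_, ?_⟩
  · rintro j l l' ⟨a1, a2, a3, a4, a5⟩ ⟨b1, b2, b3, b4, b5⟩ x
    exact (N.perm_of_short hD.1 ⟨a1, a3, a4⟩ ⟨b1, b3, b4⟩ (by omega) (a5.trans b5.symm)
      (by omega)).mem_iff
  · rintro j l₀ ⟨a1, a2, a3, a4, rfl⟩
    obtain ⟨x, y, z, rfl⟩ := List.length_eq_three.1 a2
    obtain ⟨θ, R, rfl, rfl, rfl⟩ := H38.place_ace ⟨θ, h.real⟩ ⟨a1, a3, a4⟩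
    replace h := h.of_real R
    obtain ⟨c1, e1⟩ := H38.prod_eq_of_rel (l₁ := [θ 693, θ 126, θ 3]) (l₂ := [θ 43, θ 667, θ 686])
      hD.1 (H38.hexad R).1 (H38.hexad_one h) (List.Perm.refl _)
    refine ⟨_, _, ⟨a1, rfl, a3, a4, rfl⟩, ⟨c1.1, rfl, c1.2.1, c1.2.2, e1⟩, fun k => ?_, ?_⟩
    · have nd := (H38.hexad R).1.1
      have := (k (θ 693)).1 (by simp)
      simp only [List.nodup_cons, List.mem_cons, not_or] at nd this
      tauto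
    · rintro l ⟨b1, b2, b3, b4, b5⟩
      exact (H38.triple22 h ⟨b1, b3, b4⟩ b2 b5).imp (fun p _ => p.mem_iff) fun p _ => p.mem_iff

end Cfsg.Agent.S5463
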