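import Cfsg.Statements.S5468
import Cfsg.Agent.H38.FiK

set_option autoImplicit false
open Cfsg

namespace Cfsg.Agent.S5468

/-- Let G be a finite group with trivial centre generated by a conjugation-invariant set D of 3-transpositions on which it acts primitively, such that for some d in D the subgroup generated by the members of D other than d commuting with d has central largest normal 2- and 3-subgroups, and suppose G with D is of type M(23). Let d₁, d₂ be distinct commuting members of D, j = d₁ d₂, K the joint centralizer of d₁ and d₂ and C the centralizer of j. Then K has index 2 in C, the centre of K is the subgroup generated by d₁ and d₂, K is quasisimple with K modulo its centre isomorphic to the projective special unitary group of dimension 6 over the field with four elements, and C modulo the subgroup generated by d₁ and d₂ has trivial centre (so it is that unitary group extended by an outer involution). -/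
theorem result {G : Type*} [Group G] [Finite G] {D : Set G} (hD : Cfsg.IsThreeTranspositionGroup D) (hprim : Cfsg.IsPrimitiveUnderConj D) (d₀ : G) (hd₀ : d₀ ∈ D) (h3 : Cfsg.pCore 3 ↥(Subgroup.closure {y : G | y ∈ D ∧ y ≠ d₀ ∧ Commute d₀ y}) ≤ Subgroup.center ↥(Subgroup.closure {y : G | y ∈ D ∧ y ≠ d₀ ∧ Commute d₀ y})) (h2 : Cfsg.pCore 2 ↥(Subgroup.closure {y : G | y ∈ D ∧ y ≠ d₀ ∧ Commute d₀ y}) ≤ Subgroup.center ↥(Subgroup.closure {y : G | y ∈ D ∧ y ≠ d₀ ∧ Commute d₀ y})) (h23 : Cfsg.IsOfTypeM23 G D) (d₁ d₂ : G) (h₁ : d₁ ∈ D) (h₂ : d₂ ∈ D) (hne : d₁ ≠ d₂) (hc : Commute d₁ d₂) (K C V : Subgroup G) (hK : K = Subgroup.centralizer ({d₁, d₂} : Set G)) (hC : C = Subgroup.centralizer ({d₁ * d₂} : Set G)) (hV : V = Subgroup.closure ({d₁, d₂} : Set G)) [hn : (V.subgroupOf C).Normal] : K ≤ C ∧ (K.subgroupOf C).index = 2 ∧ (Subgroup.center ↥K).map K.subtype = V ∧ Cfsg.IsQuasisimple ↥K ∧ (∃ (F : Type) (_ : Field F) (_ : Fintype F), Fintype.card F = 4 ∧ Nonempty (↥K ⧸ Subgroup.center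 ↥K ≃* Cfsg.PSU 6 F 2)) ∧ Subgroup.center (↥C ⧸ V.subgroupOf C) = ⊥ := by
  obtain ⟨θ, h⟩ := H80.a23 G D hD h23
  have hl : H38.CL D [d₁, d₂] := H38.cl_two.2 ⟨h₁, h₂, hne.symm, hc⟩
  have N := H38.noRel23 hD.1 ⟨θ, h.real⟩
  obtain ⟨k1, k2⟩ := H38.cent_pair23 h hl
  obtain ⟨k3, k4⟩ := H38.index_pair hD (N.mono (by norm_num))
    (H38.tr23_le ⟨θ, h.real⟩ 2 (by norm_num)) hl
  have z := H38.rz21 (H38.rz22 ⟨θ, h.real⟩ h₁) (H38.cl_two.1 hl).2
  rw [← hK] at k1 k2 k3 k4
  rw [← hC] at k3 k4
  rw [← hV] at k2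
  refine ⟨k3, k4, k2, ?_, k1 ▸ H38.psu_of_rz z, eq_bot_iff.2 fun c hcc => ?_⟩
  · obtain ⟨l, a1, a2, a3⟩ := (H38.pair23 h hl).2
    rw [k1]
    exact ⟨H38.perfect_of_odd H80.wf21 z.choose_spec a1 (by rw [a2]) a3,
      (H80.quot21 z.choose_spec).choose_spec.1.simple21⟩
  · obtain ⟨c, rfl⟩ := QuotientGroup.mk_surjective c
    have cm : ∀ x ∈ H80.Dc (H80.Dc D d₁) d₂, Commute (c : G) x := by
      intro x hx
      have xC : x ∈ C := k3 (k1 ▸ Subgroup.subset_closure hx)
      have e := QuotientGroup.eq.1 (Subgroup.mem_center_iff.1 hcc ((⟨x, xC⟩ : C) : C ⧸ V.subgroupOf C))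
      rw [Subgroup.mem_subgroupOf, hV, H38.mem_closure_two (H75.tt_sq hD.1 h₁) (H75.tt_sq hD.1 h₂) hc]
        at e
      have c3 : H38.CL D [d₁, d₂, x] := H38.cl_three.2 ⟨h₁, (H38.cl_two.1 hl).2, hx⟩
      have y := H38.cl_one.2 (hD.2.1 (c : G)⁻¹ x hx.1.1)
      have key : ∀ l : List G, l.Sublist [d₁, d₂] → (((⟨x, xC⟩ * c)⁻¹ * (c * ⟨x, xC⟩) : C) : G) = l.prod →
          l = [] := fun l s e => by
        have := (N.perm_of_short hD.1 y (c3.sublist (s.append (List.Sublist.refl [x]))) (by simp)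
          (by
            rw [List.prod_append, ← e]
            simp [mul_assoc, H75.tt_inv hD.1 hx.1.1, H75.tt_sq hD.1 hx.1.1])
          (by have := s.length_le; simp at this ⊢; omega)).length_eq
        simpa using this
      rcases e with e | e | e | e
      · exact (inv_mul_eq_one.1 e).symm
      · exact absurd (key [d₁] (by simp) (by simpa using e)) (by simp)
      · exact absurd (key [d₂] (by simp) (by simpa using e)) (by simp)
      · exact absurd (key [d₁, d₂] (by simp) (by simpa using e)) (by simp)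
    have cK : ∀ g ∈ K, Commute (c : G) g := fun g hg => H38.comm_closure cm (k1 ▸ hg)
    have VK : V ≤ K := k2 ▸ Subgroup.map_subtype_le _
    have mK : (c : G) ∈ K := by
      rw [hK]
      exact fun y hy => (cK y (VK (hV ▸ Subgroup.subset_closure hy))).symm.eq
    rw [Subgroup.mem_bot, QuotientGroup.eq_one_iff, Subgroup.mem_subgroupOf, ← k2]
    exact ⟨⟨c, mK⟩, Subgroup.mem_center_iff.2 fun g => Subtype.ext (cK g g.2).symm.eq, rfl⟩

end Cfsg.Agent.S5468
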