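import Cfsg.Statements.S5471
import Cfsg.Agent.H38.FiCen
import Cfsg.Agent.H80.U6

set_option autoImplicit false
open Cfsg

namespace Cfsg.Agent.S5471

/-- Let G be a finite group with trivial centre generated by a conjugation-invariant set D of 3-transpositions on which it acts primitively, such that for some d in D the subgroup generated by the members of D other than d commuting with d has central largest normal 2- and 3-subgroups, and suppose G with D is of type M(23). Let d₁, d₂, d₃ be distinct pairwise commuting members of D and j their product. Then the joint centralizer of d₁, d₂, d₃ is normal in the centralizer of j with quotient isomorphic to the symmetric group of degree 3. -/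
theorem result {G : Type*} [Group G] [Finite G] {D : Set G} (hD : Cfsg.IsThreeTranspositionGroup D) (hprim : Cfsg.IsPrimitiveUnderConj D) (d₀ : G) (hd₀ : d₀ ∈ D) (h3 : Cfsg.pCore 3 ↥(Subgroup.closure {y : G | y ∈ D ∧ y ≠ d₀ ∧ Commute d₀ y}) ≤ Subgroup.center ↥(Subgroup.closure {y : G | y ∈ D ∧ y ≠ d₀ ∧ Commute d₀ y})) (h2 : Cfsg.pCore 2 ↥(Subgroup.closure {y : G | y ∈ D ∧ y ≠ d₀ ∧ Commute d₀ y}) ≤ Subgroup.center ↥(Subgroup.closure {y : G | y ∈ D ∧ y ≠ d₀ ∧ Commute d₀ y})) (h23 : Cfsg.IsOfTypeM23 G D) (d₁ d₂ d₃ : G) (h₁ : d₁ ∈ D) (h₂ : d₂ ∈ D) (h₃ : d₃ ∈ D) (h12 : d₁ ≠ d₂) (h13 : d₁ ≠ d₃) (h23 : d₂ ≠ d₃) (c12 : Commute d₁ d₂) (c13 : Commute d₁ d₃) (c23 : Commute d₂ d₃) (K C : Subgroup G) (hK : K = Subgroup.centralizer ({d₁, d₂, d₃} : Set G)) (hC : C = Subgroup.centralizer ({d₁ * d₂ * d₃} : Set G)) : K ≤ C ∧ ∃ _ : (K.subgroupOf C).Normal, Nonempty (↥C ⧸ K.subgroupOf C ≃* Equiv.Perm (Fin 3)) := by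
  rename_i ht
  obtain ⟨θ, h⟩ := H80.a23 G D hD ht
  have c : H38.CL D (List.ofFn ![d₁, d₂, d₃]) :=
    H38.cl_three.2 ⟨h₁, ⟨h₂, h12.symm, c12⟩, ⟨h₃, h13.symm, c13⟩, h23.symm, c23⟩
  obtain ⟨φ, p1, -, p2⟩ := H38.cent_prod hD.2.1 c (H38.tr23_le ⟨θ, h.real⟩ 3 (by norm_num))
    fun l a b e => (H38.noRel23 hD.1 ⟨θ, h.real⟩).perm_of_short hD.1 a c b.le e (by simp [b])
  have e1 : (List.ofFn ![d₁, d₂, d₃]).prod = d₁ * d₂ * d₃ := by simp [mul_assoc]
  have e2 : Set.range ![d₁, d₂, d₃] = {d₁, d₂, d₃} := by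
    ext; simp only [Matrix.range_cons, Matrix.range_empty]; simp; tauto
  rw [← e1] at hC
  rw [← e2] at hK
  subst hC hK
  haveI hn : ((Subgroup.centralizer (Set.range ![d₁, d₂, d₃])).subgroupOf
    (Subgroup.centralizer {(List.ofFn ![d₁, d₂, d₃]).prod})).Normal := p2 ▸ φ.normal_ker
  refine ⟨fun g hg => H38.mem_cent.2 (Commute.list_prod_right _ _ fun x hx => ?_), hn,
    ⟨(QuotientGroup.quotientMulEquivOfEq p2.symm).trans (QuotientGroup.quotientKerEquivOfSurjective φ p1)⟩⟩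
  exact (hg x (List.mem_ofFn.1 hx)).symm

end Cfsg.Agent.S5471
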