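import Cfsg.Statements.S5562
import Cfsg.Agent.Base
import Cfsg.Agent.H75.OddClass

set_option autoImplicit false
open Cfsg

namespace Cfsg.Agent.S5562


/-- Let G be a finite group, d an involution of G whose conjugates pairwise have products of odd order, and x any involution of G. Then the conjugacy class of d is the disjoint union, over the conjugates a of d commuting with x, of the sets of conjugates of d commuting with ax: every conjugate of d commutes with ax for exactly one conjugate a of d that commutes with x. -/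
theorem result {G : Type*} [Group G] [Finite G] (d : G) (hd : orderOf d = 2)
    (hodd : ∀ a ∈ conjugatesOf d, ∀ b ∈ conjugatesOf d, Odd (orderOf (a * b)))
    (x : G) (hx : orderOf x = 2) :
    ∀ e ∈ conjugatesOf d,
      ∃! a : G, a ∈ conjugatesOf d ∧ Commute a x ∧ Commute e (a * x) := by
  have hsq : ∀ a ∈ conjugatesOf d, a * a = 1 := by
    intro a ha
    obtain ⟨g, rfl⟩ := isConj_iff.1 ha
    have := pow_orderOf_eq_one d
    rw [hd, pow_two] at this
    calc g * d * g⁻¹ * (g * d * g⁻¹) = g * (d * d) * g⁻¹ := by group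
      _ = 1 := by rw [this]; simp
  have hxx : x * x = 1 := by rw [← pow_two, ← hx, pow_orderOf_eq_one]
  have hx' : x⁻¹ = x := inv_eq_of_mul_eq_one_right hxx
  have sx : ∀ y, x * (x * y) = y := fun y => by rw [← mul_assoc, hxx, one_mul]
  have hc : ∀ g, ∀ a ∈ conjugatesOf d, g * a * g⁻¹ ∈ conjugatesOf d := fun g a ha =>
    IsConj.trans ha (isConj_iff.2 ⟨g, rfl⟩)
  intro e he
  have key : ∀ a ∈ conjugatesOf d, Commute e (a * x) → a * e * a = x * e * x := by
    intro a ha h
    have h1 := hsq a ha
    calc a * e * a = a * (e * (a * x)) * x := by simp only [mul_assoc, hxx, mul_one]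
      _ = (a * a) * x * e * x := by rw [h.eq]; simp only [mul_assoc]
      _ = _ := by rw [h1, one_mul]
  have he' := hc x e he
  rw [hx'] at he'
  obtain ⟨k, m, h1, h2, h3⟩ := H75.exists_swap_of_odd (hsq e he) (hsq _ he') (hodd e he _ he')
  have ha : (e * (x * e * x)) ^ k * e ∈ conjugatesOf d := h2 ▸ hc _ e he
  refine ⟨(e * (x * e * x)) ^ k * e, ⟨ha, ?_, ?_⟩, fun b hb => ?_⟩
  · have h4 : x * (e * (x * e * x)) = (e * (x * e * x))⁻¹ * x := by
      simp only [mul_inv_rev, hx', inv_eq_of_mul_eq_one_right (hsq e he), mul_assoc]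
    have h5 := H75.invol_mul_pow h4 k
    generalize hr : e * (x * e * x) = r at *
    have h6 : (r ^ k)⁻¹ = r ^ k * r := by
      rw [inv_eq_iff_mul_eq_one, ← mul_assoc, ← pow_add, ← pow_succ, ← h3]; congr 1; omega
    rw [Commute, SemiconjBy, ← mul_assoc x, h5, h6, ← hr]
    simp only [mul_assoc, sx, hsq e he, mul_one]
  · generalize (e * (x * e * x)) ^ k * e = a at *
    have h4 := hsq a ha
    calc e * (a * x) = (a * a) * e * (a * x) := by rw [h4, one_mul]
      _ = a * (a * e * a) * x := by simp only [mul_assoc]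
      _ = a * x * e := by rw [h1]; simp only [mul_assoc, hxx, mul_one]
  · refine H75.eq_of_conj_eq_of_odd (hsq e he) (hsq b hb.1) (hsq _ ha) (hodd e he b hb.1)
      (hodd b hb.1 _ ha) ?_
    rw [key b hb.1 hb.2.2, h1]

end Cfsg.Agent.S5562
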