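import Cfsg.Statements.S5596
import Cfsg.Agent.H78.Sing

set_option autoImplicit false
open Cfsg

namespace Cfsg.Agent.S5596

open H78

/-- Setting: `z` is an involution of the finite group `G`; for each element `x`, `Q x` is the largest normal 2-subgroup of the centralizer of `x`; `Q z` is extraspecial and contains its own centralizer in `G`. A subgroup `U` is singular when it is elementary abelian, every non-identity element of `U` is conjugate to `z`, and any two non-identity elements `u`, `v` of `U` are orthogonal (`v ∈ Q u`). Write `QU` for the intersection of the `Q u` and `LU` for the join of the `Q u` over the non-identity `u` in `U`. If `U` is singular of order `2 ^ n` with `n ≥ 2`, then `U ≤ QU ≤ LU`, `LU` normalizes `U`, and `LU` induces on `U` its full automorphism group (the general linear group of dimension `n` over the field with two elements): every automorphism of `U` is conjugation by some element of `LU`. -/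
theorem result {G : Type*} [Group G] [Finite G]
    (Q : G → Subgroup G)
    (hQ : ∀ x : G, Q x = (Cfsg.pCore 2 ↥(Subgroup.centralizer ({x} : Set G))).map (Subgroup.centralizer ({x} : Set G)).subtype)
    (z : G) (hz : orderOf z = 2) (hE : Cfsg.IsExtraspecial 2 ↥(Q z))
    (hC : Subgroup.centralizer ((Q z : Subgroup G) : Set G) ≤ Q z)
    (U : Subgroup G) (hU2 : ∀ u ∈ U, u * u = 1)
    (hS : ∀ u ∈ U, u ≠ 1 → ∃ g : G, g * z * g⁻¹ = u)
    (hO : ∀ u ∈ U, ∀ v ∈ U, u ≠ 1 → v ≠ 1 → v ∈ Q u)
    (QU LU : Subgroup G) (hQU : QU = ⨅ u ∈ ((U : Set G) \ {1}), Q u) (hLU : LU = ⨆ u ∈ ((U : Set G) \ {1}), Q u)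
    (n : ℕ) (hn : 2 ≤ n) (hcard : Nat.card ↥U = 2 ^ n) :
    U ≤ QU ∧ QU ≤ LU ∧ LU ≤ Subgroup.normalizer (U : Set G) ∧
      ∀ φ : ↥U ≃* ↥U, ∃ g ∈ LU, ∀ u : ↥U, g * (u : G) * g⁻¹ = ((φ u : ↥U) : G) := by
  classical
  obtain rfl : Q = O2C := funext hQ
  have h := LX_O2C (ne_one_of_orderOf_two hz) hE hC
  have hu : ∀ u ∈ U, u ≠ 1 → LX (O2C u) u := fun u hu h1 => h.O2C_of_conj (hS u hu h1)
  have hUQ : ∀ u ∈ U, u ≠ 1 → U ≤ O2C u := by
    intro u hu' h1 v hv
    by_cases h2 : v = 1
    · rw [h2]; exact Subgroup.one_mem _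
    · exact hO u hu' v hv h1 h2
  have hQL : ∀ u ∈ U, u ≠ 1 → O2C u ≤ LU := fun u hu' h1 => by
    rw [hLU]; exact le_iSup₂_of_le (f := fun u (_ : u ∈ ((U : Set G) \ {1})) => O2C u) u ⟨hu', h1⟩ le_rfl
  have hLN : LU ≤ Subgroup.normalizer (U : Set G) := by
    rw [hLU, iSup₂_le_iff]
    rintro u ⟨hu', h1⟩ q hq
    apply mem_normalizer_of_conj_mem
    intro v hv
    rcases (hu u hu' h1).toXS.conj_eq_or (hUQ u hu' h1 hv) hq with h2 | h2 <;> rw [h2]
    · exact hv
    · exact U.mul_mem hv hu'
  refine ⟨?_, ?_, hLN, ?_⟩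
  · rw [hQU, le_iInf₂_iff]
    rintro u ⟨hu', h1⟩
    exact hUQ u hu' h1
  · have : Nontrivial U := by
      rw [← Finite.one_lt_card_iff_nontrivial, hcard]
      exact Nat.one_lt_two_pow (by omega)
    obtain ⟨u, h1⟩ := exists_ne (1 : U)
    have h2 : (u : G) ≠ 1 := fun h => h1 (Subtype.ext h)
    rw [hQU]
    exact (iInf₂_le (f := fun u (_ : u ∈ ((U : Set G) \ {1})) => O2C u) (u : G) ⟨u.2, h2⟩).trans
      (hQL u u.2 h2)
  · have hU2' : ∀ u : U, u * u = 1 := fun u => Subtype.ext (hU2 u u.2)
    have key : ∀ (m : ℕ) (φ : U ≃* U), {u : U | φ u ≠ u}.ncard = m →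
        ∃ g ∈ LU, ∀ u : U, g * (u : G) * g⁻¹ = ((φ u : U) : G) := by
      intro m
      induction m using Nat.strong_induction_on with
      | _ m ih =>
        intro φ hm
        by_cases hφ : ∀ u, φ u = u
        · exact ⟨1, LU.one_mem, fun u => by simp [hφ]⟩
        push Not at hφ
        obtain ⟨x, hx⟩ := hφ
        have hw1 : ((x * φ x : U) : G) ≠ 1 := by
          intro h1
          apply hx
          have h2 : x * φ x = 1 := Subtype.ext h1
          rw [← inv_eq_of_mul_eq_one_right h2, inv_eq_of_mul_self (hU2' x)]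
        have hw := hu _ (x * φ x).2 hw1
        let K : Subgroup U :=
          { carrier := {k | φ k = k ∨ φ (k * (x * φ x)) = k * (x * φ x)}
            one_mem' := Or.inl (map_one φ)
            mul_mem' := by
              have hc : ∀ a b : U, a * b = b * a := fun a b => by
                calc a * b = (a * b)⁻¹ := (inv_eq_of_mul_self (hU2' _)).symm
                  _ = b * a := by
                    rw [mul_inv_rev, inv_eq_of_mul_self (hU2' a), inv_eq_of_mul_self (hU2' b)]
              rintro a b (ha | ha) (hb | hb)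
              · left; rw [map_mul, ha, hb]
              · right; rw [mul_assoc, map_mul, ha, hb]
              · right; rw [hc a b, mul_assoc, map_mul, ha, hb]
              · left
                have : a * b = a * (x * φ x) * (b * (x * φ x)) := by
                  rw [hc b (x * φ x), ← mul_assoc, mul_assoc a, hU2', mul_one]
                rw [this, map_mul, ha, hb]
            inv_mem' := by
              intro a ha
              rwa [inv_eq_of_mul_self (hU2' a)] }
        obtain ⟨q, hq, hqK, hqx⟩ := hw.toXS.exists_perp (K := K.map U.subtype)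
          ((Subgroup.map_subtype_le _).trans (hUQ _ (x * φ x).2 hw1))
          ⟨x * φ x, Or.inr (by rw [hU2', map_one]), rfl⟩ (hUQ _ (x * φ x).2 hw1 x.2) (by
            rintro ⟨y, hy, hyx⟩
            obtain rfl : y = x := Subtype.ext hyx
            rcases hy with hy | hy
            · exact hx hy
            · rw [← mul_assoc, hU2', one_mul] at hy
              exact hx (φ.injective hy))
        have hqL : q ∈ LU := hQL _ (x * φ x).2 hw1 hq
        have hqxy : q * x * q⁻¹ = φ x := by
          rw [hw.toXS.conj_of_cf_one hq (hUQ _ (x * φ x).2 hw1 x.2) hqx]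
          simp [← mul_assoc, hU2 x x.2]
        let ψ : U ≃* U := φ.trans (Subgroup.normalizerMonoidHom U ⟨q⁻¹, hLN (LU.inv_mem hqL)⟩)
        have hψ : ∀ u : U, ((ψ u : U) : G) = q⁻¹ * φ u * q⁻¹⁻¹ := fun u => rfl
        obtain ⟨g, hg, hg'⟩ := ih {u : U | ψ u ≠ u}.ncard (by
          rw [← hm]
          apply Set.ncard_lt_ncard _ (Set.toFinite _)
          refine ⟨fun u hu h1 => hu (Subtype.ext ?_), fun h1 => ?_⟩
          · rw [hψ, h1]
            exact hw.toXS.conj_of_cf_zero (by rw [cf_inv_left]; exact hqK _ ⟨u, Or.inl h1, rfl⟩)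
          · apply h1 hx
            apply Subtype.ext
            rw [hψ, ← hqxy]; group) ψ rfl
        refine ⟨q * g, LU.mul_mem hqL hg, fun u => ?_⟩
        calc q * g * u * (q * g)⁻¹ = q * (g * u * g⁻¹) * q⁻¹ := by group
          _ = _ := by rw [hg', hψ]; group
    exact fun φ => key _ φ rfl

end Cfsg.Agent.S5596
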