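import Cfsg.Statements.S5597
import Cfsg.Agent.H78.Sing
import Cfsg.Agent.H78.Pair3

set_option autoImplicit false
open Cfsg

namespace Cfsg.Agent.S5597

open H78

/-- Setting: `z` is an involution of the finite group `G`; for each element `x`, `Q x` is the largest normal 2-subgroup of the centralizer of `x`; `Q z` is extraspecial and contains its own centralizer in `G`. A subgroup `U` is singular when it is elementary abelian, every non-identity element of `U` is conjugate to `z`, and any two non-identity elements `u`, `v` of `U` are orthogonal (`v ∈ Q u`). Write `QU` for the intersection of the `Q u` and `LU` for the join of the `Q u` over the non-identity `u` in `U`. If `U` is a non-trivial singular subgroup, then `LU` acts trivially on `QU / U` (every commutator of an element of `LU` with an element of `QU` lies in `U`), and for every `x` in `QU` outside `U` the centralizer of `U` in `LU` permutes the coset `x U` transitively: each `x u` with `u ∈ U` is a conjugate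 of `x` by an element of `LU` centralizing `U`. -/
theorem result {G : Type*} [Group G] [Finite G]
    (Q : G → Subgroup G)
    (hQ : ∀ x : G, Q x = (Cfsg.pCore 2 ↥(Subgroup.centralizer ({x} : Set G))).map (Subgroup.centralizer ({x} : Set G)).subtype)
    (z : G) (hz : orderOf z = 2) (hE : Cfsg.IsExtraspecial 2 ↥(Q z))
    (hC : Subgroup.centralizer ((Q z : Subgroup G) : Set G) ≤ Q z)
    (U : Subgroup G) (hU2 : ∀ u ∈ U, u * u = 1)
    (hS : ∀ u ∈ U, u ≠ 1 → ∃ g : G, g * z * g⁻¹ = u)
    (hO : ∀ u ∈ U, ∀ v ∈ U, u ≠ 1 → v ≠ 1 → v ∈ Q u)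
    (QU LU : Subgroup G) (hQU : QU = ⨅ u ∈ ((U : Set G) \ {1}), Q u) (hLU : LU = ⨆ u ∈ ((U : Set G) \ {1}), Q u)
    (hU : U ≠ ⊥) :
    (∀ g ∈ LU, ∀ x ∈ QU, g * x * g⁻¹ * x⁻¹ ∈ U) ∧
      ∀ x ∈ QU, x ∉ U → ∀ u ∈ U, ∃ g ∈ LU ⊓ Subgroup.centralizer (U : Set G), g * x * g⁻¹ = x * u := by
  obtain rfl : Q = O2C := funext hQ
  have h := LX_O2C (ne_one_of_orderOf_two hz) hE hC
  have hu : ∀ u ∈ U, u ≠ 1 → LX (O2C u) u := fun u hu h1 => h.O2C_of_conj (hS u hu h1)
  have hUQ : ∀ u ∈ U, u ≠ 1 → U ≤ O2C u := by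
    intro u hu' h1 v hv
    by_cases h2 : v = 1
    · rw [h2]; exact Subgroup.one_mem _
    · exact hO u hu' v hv h1 h2
  have hQL : ∀ u ∈ U, u ≠ 1 → O2C u ≤ LU := fun u hu' h1 => by
    rw [hLU]; exact le_iSup₂_of_le (f := fun u (_ : u ∈ ((U : Set G) \ {1})) => O2C u) u ⟨hu', h1⟩ le_rfl
  have hQQ : ∀ u ∈ U, u ≠ 1 → QU ≤ O2C u := fun u hu' h1 => by
    rw [hQU]; exact iInf₂_le (f := fun u (_ : u ∈ ((U : Set G) \ {1})) => O2C u) u ⟨hu', h1⟩
  constructor
  · have : LU ≤ trivMod U QU := by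
      rw [hLU, iSup₂_le_iff]
      rintro u ⟨hu', h1⟩ q hq
      constructor
      · apply mem_normalizer_of_conj_mem
        intro v hv
        rcases (hu u hu' h1).toXS.conj_eq_or (hUQ u hu' h1 hv) hq with h2 | h2 <;> rw [h2]
        · exact hv
        · exact U.mul_mem hv hu'
      · intro x hx
        rcases (hu u hu' h1).toXS.comm_eq_or hq (hQQ u hu' h1 hx) with h2 | h2 <;> rw [h2]
        · exact U.one_mem
        · exact hu'
    exact fun g hg x hx => (this hg).2 x hx
  · intro x hx hxU u hu'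
    by_cases h1 : u = 1
    · exact ⟨1, Subgroup.one_mem _, by simp [h1]⟩
    obtain ⟨q, hq, hqU, hqx⟩ := (hu u hu' h1).toXS.exists_perp (hUQ u hu' h1) hu'
      (hQQ u hu' h1 hx) hxU
    exact ⟨q, ⟨hQL u hu' h1 hq, fun v hv => (cf_eq_zero.1 (hqU v hv)).symm⟩,
      (hu u hu' h1).toXS.conj_of_cf_one hq (hQQ u hu' h1 hx) hqx⟩

end Cfsg.Agent.S5597
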