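import Cfsg.Statements.S5598
import Cfsg.Agent.H78.Sing

set_option autoImplicit false
open Cfsg

namespace Cfsg.Agent.S5598

open H78

/-- Setting: `z` is an involution of the finite group `G`; for each element `x`, `Q x` is the largest normal 2-subgroup of the centralizer of `x`; `Q z` is extraspecial and contains its own centralizer in `G`. A subgroup `U` is singular when it is elementary abelian, every non-identity element of `U` is conjugate to `z`, and any two non-identity elements `u`, `v` of `U` are orthogonal (`v ∈ Q u`). Write `QU` for the intersection of the `Q u` and `LU` for the join of the `Q u` over the non-identity `u` in `U`. If the singular subgroup `U` is generated by a set `T` of non-identity elements, then `QU` is already the intersection of the `Q t` over `t ∈ T`. -/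
theorem result {G : Type*} [Group G] [Finite G]
    (Q : G → Subgroup G)
    (hQ : ∀ x : G, Q x = (Cfsg.pCore 2 ↥(Subgroup.centralizer ({x} : Set G))).map (Subgroup.centralizer ({x} : Set G)).subtype)
    (z : G) (hz : orderOf z = 2) (hE : Cfsg.IsExtraspecial 2 ↥(Q z))
    (hC : Subgroup.centralizer ((Q z : Subgroup G) : Set G) ≤ Q z)
    (U : Subgroup G) (hU2 : ∀ u ∈ U, u * u = 1)
    (hS : ∀ u ∈ U, u ≠ 1 → ∃ g : G, g * z * g⁻¹ = u)
    (hO : ∀ u ∈ U, ∀ v ∈ U, u ≠ 1 → v ≠ 1 → v ∈ Q u)
    (QU LU : Subgroup G) (hQU : QU = ⨅ u ∈ ((U : Set G) \ {1}), Q u) (hLU : LU = ⨆ u ∈ ((U : Set G) \ {1}), Q u)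
    (T : Set G) (hT : Subgroup.closure T = U) (hT1 : (1 : G) ∉ T) :
    QU = ⨅ t ∈ T, Q t := by
  obtain rfl : Q = O2C := funext hQ
  have h := LX_O2C (ne_one_of_orderOf_two hz) hE hC
  have hu : ∀ u ∈ U, u ≠ 1 → LX (O2C u) u := fun u hu h1 => h.O2C_of_conj (hS u hu h1)
  rw [hQU]
  apply le_antisymm
  · rw [le_iInf₂_iff]
    intro t ht
    exact iInf₂_le (f := fun u (_ : u ∈ ((U : Set G) \ {1})) => O2C u) t
      ⟨hT ▸ Subgroup.subset_closure ht, fun h1 => hT1 (h1 ▸ ht)⟩
  · intro x hx
    simp only [Subgroup.mem_iInf] at hx ⊢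
    let K : Subgroup G :=
      { carrier := {u | u ∈ U ∧ (u = 1 ∨ x ∈ O2C u)}
        one_mem' := ⟨U.one_mem, Or.inl rfl⟩
        mul_mem' := by
          rintro v u ⟨hv, hv'⟩ ⟨hu', hu''⟩
          refine ⟨U.mul_mem hv hu', ?_⟩
          by_cases h1 : v = 1
          · rwa [h1, one_mul]
          by_cases h2 : u = 1
          · rwa [h2, mul_one]
          by_cases h3 : v = u
          · left; rw [h3, hU2 u hu']
          right
          have hxv := hv'.resolve_left h1
          have hxu := hu''.resolve_left h2
          have h4 := (hu u hu' h2).toXS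
          obtain ⟨q, hq, hqv⟩ := h4.exists_conj_eq (hO u hu' v hv h2 h1) h1 h3
          rw [← hqv, O2C_conj, mem_conj_iff]
          have h5 := h4.conj_eq_or hxu (Subgroup.inv_mem _ hq)
          rw [inv_inv] at h5
          rcases h5 with h5 | h5 <;> rw [h5]
          · exact hxv
          · exact Subgroup.mul_mem _ hxv (hO v hv u hu' h1 h2)
        inv_mem' := by
          rintro u ⟨hu', hu''⟩
          rw [inv_eq_of_mul_self (hU2 u hu')]
          exact ⟨hu', hu''⟩ }
    have hK : U ≤ K := by
      rw [← hT, Subgroup.closure_le]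
      intro t ht
      exact ⟨hT ▸ Subgroup.subset_closure ht, Or.inr (hx t ht)⟩
    rintro u ⟨hu', h1⟩
    exact (hK hu').2.resolve_left h1

end Cfsg.Agent.S5598
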