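import Cfsg.Statements.S5712
import Cfsg.Agent.H56.SpX5

set_option autoImplicit false
open Cfsg

namespace Cfsg.Agent.S5712

/-- Let F be a finite field of characteristic two, n ≥ 2, V = F^{2n} with the non-degenerate alternating form f(u, v) = Σ (u_i v_{n+i} + u_{n+i} v_i), and G the group of invertible matrices preserving f. Let a ≠ 0 be a vector, H its stabilizer in G, and X a subgroup of O₂(H) of order |F|^{2n−2} no element of which is a transvection (no element g has g − 1 of rank one). If L is a subgroup of G containing X that acts irreducibly on V (no proper non-zero L-invariant subspace), then L = G, or, for some quadratic form Q on V whose polar form is f, L is the isometry group of Q or its subgroup of the isometries g for which g − 1 has even rank, or |F| = 2, n = 2 and L is isomorphic to the alternating group of degree 6 or to the symmetric group of degree 5. -/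
theorem result {F : Type*} [Field F] [Fintype F] [CharP F 2] {n : ℕ} (hn : 2 ≤ n) (a : (Fin n ⊕ Fin n → F)) (ha : a ≠ 0)
    (X : Subgroup (GL (Fin n ⊕ Fin n) F)) (hXG : X ≤ Cfsg.preserving (Units.coeHom (Matrix (Fin n ⊕ Fin n) (Fin n ⊕ Fin n) F)) (fun u v : (Fin n ⊕ Fin n → F) => ∑ i : Fin n, (u (Sum.inl i) * v (Sum.inr i) + u (Sum.inr i) * v (Sum.inl i))))
    (hXO : ∀ H : Subgroup (GL (Fin n ⊕ Fin n) F),
      (∀ g : GL (Fin n ⊕ Fin n) F, g ∈ H ↔ (g ∈ Cfsg.preserving (Units.coeHom (Matrix (Fin n ⊕ Fin n) (Fin n ⊕ Fin n) F)) (fun u v : (Fin n ⊕ Fin n → F) => ∑ i : Fin n, (u (Sum.inl i) * v (Sum.inr i) + u (Sum.inr i) * v (Sum.inl i))) ∧ Matrix.mulVec (g : Matrix (Fin n ⊕ Fin n) (Fin n ⊕ Fin n) F) a = a)) →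
      X ≤ (Cfsg.pCore 2 ↥H).map H.subtype)
    (hcard : Nat.card ↥X = Fintype.card F ^ (2 * n - 2))
    (hntv : ∀ x ∈ X, ((x : Matrix (Fin n ⊕ Fin n) (Fin n ⊕ Fin n) F) - 1).rank ≠ 1)
    (L : Subgroup (GL (Fin n ⊕ Fin n) F)) (hXL : X ≤ L) (hLG : L ≤ Cfsg.preserving (Units.coeHom (Matrix (Fin n ⊕ Fin n) (Fin n ⊕ Fin n) F)) (fun u v : (Fin n ⊕ Fin n → F) => ∑ i : Fin n, (u (Sum.inl i) * v (Sum.inr i) + u (Sum.inr i) * v (Sum.inl i))))
    (hirr : ∀ W : Submodule F (Fin n ⊕ Fin n → F), (∀ g ∈ L, ∀ w ∈ W, Matrix.mulVec (g : Matrix (Fin n ⊕ Fin n) (Fin n ⊕ Fin n) F) w ∈ W) → W = ⊥ ∨ W = ⊤) :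
    L = Cfsg.preserving (Units.coeHom (Matrix (Fin n ⊕ Fin n) (Fin n ⊕ Fin n) F)) (fun u v : (Fin n ⊕ Fin n → F) => ∑ i : Fin n, (u (Sum.inl i) * v (Sum.inr i) + u (Sum.inr i) * v (Sum.inl i))) ∨
    (∃ Q : QuadraticForm F (Fin n ⊕ Fin n → F), (∀ u v, QuadraticMap.polar ⇑Q u v = (fun u v : (Fin n ⊕ Fin n → F) => ∑ i : Fin n, (u (Sum.inl i) * v (Sum.inr i) + u (Sum.inr i) * v (Sum.inl i))) u v) ∧
      (L = Cfsg.isometryGroup F ⇑Q ∨
        ∀ g : GL (Fin n ⊕ Fin n) F, g ∈ L ↔ (g ∈ Cfsg.isometryGroup F ⇑Q ∧ Even ((g : Matrix (Fin n ⊕ Fin n) (Fin n ⊕ Fin n) F) - 1).rank))) ∨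
    (Fintype.card F = 2 ∧ n = 2 ∧ (Nonempty (↥L ≃* ↥(alternatingGroup (Fin 6))) ∨ Nonempty (↥L ≃* Equiv.Perm (Fin 5)))) := by
  classical
  have : Nontrivial (Fin n) := Fin.nontrivial_iff_two_le.2 hn
  have hG := Subgroup.ext fun g => H56.SpX.mem_pres (l := Fin n) (F := F) (g := g)
  rw [hG] at hXG hLG hXO ⊢
  obtain ⟨X, rfl⟩ : ∃ X' : Subgroup (Matrix.symplecticGroup (Fin n) F), X'.map (H54.spToGL _ F) = X :=
    ⟨_, Subgroup.map_comap_eq_self hXG⟩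
  obtain ⟨L, rfl⟩ : ∃ L' : Subgroup (Matrix.symplecticGroup (Fin n) F), L'.map (H54.spToGL _ F) = L :=
    ⟨_, Subgroup.map_comap_eq_self hLG⟩
  replace hXL := (Subgroup.map_le_map_iff_of_injective H54.spToGL_injective).1 hXL
  have hL : H56.SpX.Irr L := fun W hW => hirr W (by rintro _ ⟨g, hg, rfl⟩; exact hW g hg)
  let H := MulAction.stabilizer (Matrix.symplecticGroup (Fin n) F) a
  let φ := H.equivMapOfInjective _ (H54.spToGL_injective (l := Fin n) (F := F))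
  have h1 : ∀ x ∈ X, ∃ y ∈ (pCore 2 (H.map (H54.spToGL _ F))).comap φ.toMonoidHom, y.1 = x :=
    fun x hx => by
      obtain ⟨y, hy, e⟩ := hXO (H.map (H54.spToGL _ F)) (fun g => ⟨by
        rintro ⟨g, hg, rfl⟩; exact ⟨⟨g, rfl⟩, hg⟩, by
        rintro ⟨⟨g, rfl⟩, hg⟩; exact ⟨g, hg, rfl⟩⟩) ⟨x, hx, rfl⟩
      obtain ⟨y, rfl⟩ := φ.surjective y
      exact ⟨y, hy, H54.spToGL_injective e⟩
  have h2 : H56.SpX.Gd X a := H56.SpX.gd_of_card ha
    (fun x hx => by obtain ⟨y, -, rfl⟩ := h1 x hx; exact y.2)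
    (fun x hx => by
      obtain ⟨y, hy, rfl⟩ := h1 x hx
      exact H56.SpX.triv_of_normal ha _ ((H2.pCore_isPGroup 2 _).comap_of_injective _ φ.injective) y hy)
    (by
      rw [← Subgroup.card_map_of_injective H54.spToGL_injective, hcard, ← pow_add, Fintype.card_fin]
      exact le_of_eq (by congr 1; omega))
    fun c hc => by_contra fun h => hntv _ ⟨_, hc, rfl⟩ (H56.SpX.rank_tv ha h)
  have h3 : H56.SpX.Gd L a := ⟨ha, fun u hu => by
    obtain ⟨c, g, hg, e⟩ := h2.2 u hu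
    exact ⟨c, g, hXL hg, e⟩⟩
  by_cases hU : H56.SpX.Uq L
  swap
  · simp only [H56.SpX.Uq, not_forall] at hU
    obtain ⟨s, c, h4, h5, h6⟩ := hU
    exact .inl (by rw [H56.SpX.eq_top_of_has hL h4 h6 h5, MonoidHom.range_eq_map])
  by_cases hZ : H56.SpX.Zr L
  · obtain ⟨Q, q1, q2, q3, q4⟩ := H56.SpX.exists_form hU hZ hL h3
    exact .inr (.inl ⟨Q, fun u v => by
      simp only [q1, H54.spB_eq_sum, CharTwo.sub_eq_add, add_comm], H56.SpX.orth_case ha q1 q2 q3 q4⟩)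
  obtain ⟨hF, h4⟩ := H56.SpX.all_gd hL hU hZ
  obtain rfl : n = 2 := le_antisymm (by simpa using H56.SpX.card_le_two hF hU h4) hn
  have h5 := H56.card_eq_two_of_forall hF
  let ψ := (L.equivMapOfInjective _ (H54.spToGL_injective (l := Fin 2) (F := F))).symm
  rcases H56.SpX.exc_case hF h5 hU h4 with h | ⟨⟨e⟩⟩ | ⟨⟨e⟩⟩
  · exact .inl (by rw [h, MonoidHom.range_eq_map])
  · exact .inr (.inr ⟨h5, rfl, .inl ⟨ψ.trans e⟩⟩)
  · exact .inr (.inr ⟨h5, rfl, .inr ⟨ψ.trans e⟩⟩)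

end Cfsg.Agent.S5712
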