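import Cfsg.Statements.S5729
import Cfsg.Agent.Base

set_option autoImplicit false
open Cfsg

namespace Cfsg.Agent.S5729

/-- Let a finite group G act faithfully and transitively on a set with n ≥ 3 points. Then either G is a Frobenius permutation group (Frobenius as a permutation group: transitive, some non-identity element fixes a point, and no non-identity element fixes two points) of order n(n − 1) and exactly |G|/n of its elements are derangements (fix no point), or the number of derangements is greater than |G|/n. -/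
theorem result {G Ω : Type*} [Group G] [Finite G] [MulAction G Ω] [FaithfulSMul G Ω] [Fintype Ω] (htr : MulAction.IsPretransitive G Ω) (hn : 3 ≤ Fintype.card Ω) :
    ((MulAction.IsPretransitive G Ω ∧ (∃ g : G, g ≠ 1 ∧ ∃ ω : Ω, g • ω = ω) ∧ ∀ g : G, g ≠ 1 → Nat.card (MulAction.fixedBy Ω g) ≤ 1) ∧ Nat.card G = Fintype.card Ω * (Fintype.card Ω - 1) ∧ Fintype.card Ω * Nat.card {g : G // ∀ ω : Ω, g • ω ≠ ω} = Nat.card G) ∨
    Nat.card G < Fintype.card Ω * Nat.card {g : G // ∀ ω : Ω, g • ω ≠ ω} := by
  classical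
  have := Fintype.ofFinite G
  set n := Fintype.card Ω with hn_def
  let f : G → ℕ := fun g => Nat.card (MulAction.fixedBy Ω g)
  have hne : Nonempty Ω := Fintype.card_pos_iff.1 (by omega)
  have hS1 : ∑ g, f g = Nat.card G := by
    have h := MulAction.sum_card_fixedBy_eq_card_orbits_mul_card_group G Ω
    have h1 : Fintype.card (Quotient (MulAction.orbitRel G Ω)) = 1 := by
      rw [Fintype.card_eq_one_iff_nonempty_unique]
      have hs : Subsingleton (Quotient (MulAction.orbitRel G Ω)) :=
        (MulAction.pretransitive_iff_subsingleton_quotient G Ω).1 htr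
      exact ⟨uniqueOfSubsingleton (Quotient.mk _ hne.some)⟩
    rw [h1, one_mul] at h
    simp only [f, Nat.card_eq_fintype_card]
    convert h
  obtain ⟨r, hr, hS2⟩ : ∃ r, 2 ≤ r ∧ ∑ g, f g ^ 2 = r * Nat.card G := by
    have h := MulAction.sum_card_fixedBy_eq_card_orbits_mul_card_group G (Ω × Ω)
    refine ⟨Fintype.card (Quotient (MulAction.orbitRel G (Ω × Ω))), ?_, ?_⟩
    · obtain ⟨a, b, hab⟩ := Fintype.exists_pair_of_one_lt_card (α := Ω) (by omega)
      refine Fintype.one_lt_card_iff.2 ⟨Quotient.mk _ (a, a), Quotient.mk _ (a, b), fun e => ?_⟩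
      obtain ⟨g, hg⟩ := Quotient.exact e
      simp only [Prod.smul_mk, Prod.mk.injEq] at hg
      exact hab (smul_left_cancel g (hg.1.trans hg.2.symm))
    · rw [Nat.card_eq_fintype_card, ← h]
      refine Finset.sum_congr rfl fun g _ => ?_
      rw [← Nat.card_eq_fintype_card, sq, ← Nat.card_prod]
      refine Nat.card_congr ⟨fun x => ⟨(x.1.1, x.2.1), ?_⟩, fun y => (⟨y.1.1, ?_⟩, ⟨y.1.2, ?_⟩),
        fun _ => rfl, fun _ => rfl⟩
      · exact Prod.ext x.1.2 x.2.2
      · exact congrArg Prod.fst y.2
      · exact congrArg Prod.snd y.2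
  have hfn : ∀ g, f g ≤ n := fun g => by
    rw [hn_def, ← Nat.card_eq_fintype_card]
    exact Nat.card_le_card_of_injective _ Subtype.val_injective
  have hf0 : ∀ g, f g = 0 ↔ ∀ ω : Ω, g • ω ≠ ω := fun g => by
    simp only [f, Nat.card_eq_zero, not_infinite_iff_finite.2 (inferInstance : Finite (MulAction.fixedBy Ω g)), or_false]
    constructor
    · intro h ω e
      exact h.false ⟨ω, e⟩
    · intro h
      exact ⟨fun x => h x.1 x.2⟩
  have hfull : ∀ g, f g = n → g = 1 := fun g h => by
    have h1 : (MulAction.fixedBy Ω g).ncard = (Set.univ : Set Ω).ncard := by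
      rw [Set.ncard_univ, Nat.card_eq_fintype_card (α := Ω)]
      exact h
    have h2 := Set.eq_of_subset_of_ncard_le (Set.subset_univ _) h1.ge
    refine FaithfulSMul.eq_of_smul_eq_smul (α := Ω) fun ω => ?_
    rw [one_smul]
    have : ω ∈ MulAction.fixedBy Ω g := by rw [h2]; trivial
    exact this
  have hf1 : f 1 = n := by
    simp only [f, MulAction.fixedBy_one_eq_univ]
    rw [Nat.card_univ, Nat.card_eq_fintype_card]
  set d := Nat.card {g : G // ∀ ω : Ω, g • ω ≠ ω} with hd_def
  have hd : (d : ℤ) = ∑ g : G, if f g = 0 then (1 : ℤ) else 0 := by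
    rw [hd_def, Nat.card_eq_fintype_card, Fintype.card_subtype]
    simp only [hf0]
    simp
  let t : G → ℤ := fun g => if f g = 0 then 0 else ((f g : ℤ) - 1) * (n - f g)
  have ht0 : ∀ g, 0 ≤ t g := fun g => by
    simp only [t]
    split_ifs with h
    · exact le_rfl
    · have := hfn g
      apply mul_nonneg <;> omega
  have hG : (Nat.card G : ℤ) = ∑ _g : G, (1 : ℤ) := by simp
  have hS1' : (∑ g, (f g : ℤ)) = Nat.card G := by exact_mod_cast hS1
  have hS2' : (∑ g, (f g : ℤ) ^ 2) = r * Nat.card G := by exact_mod_cast hS2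
  have key : (n : ℤ) * d = (r - 1) * Nat.card G + ∑ g, t g := by
    have e : ∀ g, t g = (n + 1) * (f g : ℤ) - (f g : ℤ) ^ 2 - n * 1 +
        n * (if f g = 0 then (1 : ℤ) else 0) := fun g => by
      simp only [t]
      split_ifs with h
      · rw [h]; simp
      · ring
    simp only [e, Finset.sum_add_distrib, Finset.sum_sub_distrib, ← Finset.mul_sum]
    rw [hS1', hS2', ← hd, ← hG]
    ring
  have hpos : (0 : ℤ) < Nat.card G := by exact_mod_cast Nat.card_pos
  have hts : 0 ≤ ∑ g, t g := Finset.sum_nonneg fun g _ => ht0 g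
  by_cases hlt : Nat.card G < n * d
  · exact Or.inr hlt
  left
  have hle : (n : ℤ) * d ≤ Nat.card G := by exact_mod_cast not_lt.1 hlt
  have hr' : (2 : ℤ) ≤ r := by exact_mod_cast hr
  have hz : ∑ g, t g = 0 := by nlinarith
  have hnd : (n : ℤ) * d = Nat.card G := by nlinarith
  have ht : ∀ g, t g = 0 := fun g =>
    (Finset.sum_eq_zero_iff_of_nonneg fun g _ => ht0 g).1 hz g (Finset.mem_univ _)
  have hle1 : ∀ g : G, g ≠ 1 → f g ≤ 1 := fun g hg => by
    have h := ht g
    simp only [t] at h
    split_ifs at h with h0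
    · omega
    · rcases mul_eq_zero.1 h with h | h
      · omega
      · exact absurd (hfull g (by omega)) hg
  have hdn : (d : ℤ) = n - 1 := by
    have e : ∀ g, (if f g = 0 then (1 : ℤ) else 0) = 1 - (f g : ℤ) +
        (if g = 1 then (n : ℤ) - 1 else 0) := fun g => by
      by_cases hg : g = 1
      · subst hg
        rw [hf1, if_neg (by omega), if_pos rfl]; ring
      · have := hle1 g hg
        rw [if_neg hg]
        split_ifs with h <;> omega
    rw [hd]
    simp only [e, Finset.sum_add_distrib, Finset.sum_sub_distrib]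
    rw [hS1', ← hG]
    simp
  have hcard : Nat.card G = n * (n - 1) := by
    have : d = n - 1 := by omega
    rw [← this]
    exact_mod_cast hnd.symm
  refine ⟨⟨htr, ?_, hle1⟩, hcard, by exact_mod_cast hnd⟩
  by_contra hno
  push Not at hno
  have e : ∀ g, (f g : ℤ) = if g = 1 then (n : ℤ) else 0 := fun g => by
    split_ifs with hg
    · rw [hg, hf1]
    · exact_mod_cast (hf0 g).2 (hno g hg)
  simp only [e] at hS1'
  simp only [Finset.sum_ite_eq', Finset.mem_univ, if_true] at hS1'
  rw [hdn, ← hS1'] at hnd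
  have : (3 : ℤ) ≤ n := by exact_mod_cast hn
  nlinarith

end Cfsg.Agent.S5729
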