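import Cfsg.Statements.S5746
import Cfsg.Agent.H73.G24J

set_option autoImplicit false
open Cfsg

namespace Cfsg.Agent.S5746

/-- The Chevalley group G₂(4) (over the field with 4 elements) has a maximal subgroup H isomorphic to the Hall–Janko group J₂ such that for every x outside H the intersection H ∩ xHx⁻¹ is a maximal subgroup of H; that is, the action of G₂(4) on the cosets of H is extremely primitive. -/
theorem result {F : Type*} [Field F] [Fintype F] (hF : Fintype.card F = 4) :
    ∃ H : Subgroup (Cfsg.Lie.chevG2.group F), IsCoatom H ∧ Cfsg.Spor.IsoJ2 H ∧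
      ∀ x : Cfsg.Lie.chevG2.group F, x ∉ H → IsCoatom ((H ⊓ H.map (MulAut.conj x).toMonoidHom).subgroupOf H) := by
  obtain ⟨a⟩ := H95.G24.equiv_F4
  obtain ⟨b⟩ := H95.G24.equiv_K F hF
  let e := a.symm.trans b
  refine H73.G24J.main (H95.G24.satV.map e.toMonoidHom) ?_ ?_
  · rw [← H71.map_gen e.toMonoidHom fun _ _ => rfl, H95.G24.gen_vl]
    exact Subgroup.map_top_of_surjective _ e.surjective
  · rw [← Nat.card_congr e.toEquiv, H95.G24.card_F4]

end Cfsg.Agent.S5746
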