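import Cfsg.Statements.S5747
import Cfsg.Agent.Base

set_option autoImplicit false
open Cfsg

namespace Cfsg.Agent.S5747

section
variable {G Ω : Type*} [Group G] [MulAction G Ω]

/-- irredundant base for a subgroup -/
def Irr (H : Subgroup G) (t : ℕ) (f : Fin t → Ω) : Prop :=
  (∀ g ∈ H, (∀ i : Fin t, g • f i = f i) → g = 1) ∧
    ∀ i : Fin t, ∃ g ∈ H, (∀ j : Fin t, j < i → g • f j = f j) ∧ g • f i ≠ f i

theorem irr_cons (H : Subgroup G) (t : ℕ) (a : Ω) (f : Fin t → Ω) :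
    Irr H (t + 1) (Fin.cons a f) ↔
      (∃ g ∈ H, g • a ≠ a) ∧ Irr (H ⊓ MulAction.stabilizer G a) t f := by
  constructor
  · rintro ⟨h1, h2⟩
    refine ⟨?_, fun g hg hf => h1 g hg.1 ?_, fun i => ?_⟩
    · obtain ⟨g, hg, -, h⟩ := h2 0
      exact ⟨g, hg, h⟩
    · intro i
      refine Fin.cases ?_ (fun i => ?_) i
      · exact hg.2
      · exact hf i
    · obtain ⟨g, hg, h, h'⟩ := h2 i.succ
      exact ⟨g, ⟨hg, h 0 (Fin.succ_pos i)⟩, fun j hj => h j.succ (Fin.succ_lt_succ_iff.2 hj), h'⟩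
  · rintro ⟨⟨g0, hg0, h0⟩, h1, h2⟩
    refine ⟨fun g hg hf => h1 g ⟨hg, hf 0⟩ fun i => hf i.succ, fun i => ?_⟩
    refine Fin.cases ?_ (fun i => ?_) i
    · exact ⟨g0, hg0, fun j hj => absurd hj (Fin.not_lt_zero j), h0⟩
    · obtain ⟨g, hg, h, h'⟩ := h2 i
      refine ⟨g, hg.1, fun j => ?_, h'⟩
      refine Fin.cases (fun _ => hg.2) (fun j hj => h j (Fin.succ_lt_succ_iff.1 hj)) j

theorem exists_irr_le : ∀ (t : ℕ) (H : Subgroup G) (f : Fin t → Ω),
    (∀ g ∈ H, (∀ i : Fin t, g • f i = f i) → g = 1) →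
    ∃ (t' : ℕ) (f' : Fin t' → Ω), t' ≤ t ∧ Irr H t' f' ∧ (t' = t → Irr H t f) := by
  intro t
  induction t with
  | zero => exact fun H f h => ⟨0, f, le_rfl, ⟨h, fun i => i.elim0⟩, fun _ => ⟨h, fun i => i.elim0⟩⟩
  | succ t ih =>
    intro H f h
    obtain ⟨t', f', h1, h2, h3⟩ := ih (H ⊓ MulAction.stabilizer G (f 0)) (Fin.tail f)
      (fun g hg hf => h g hg.1 (fun i => Fin.cases hg.2 (fun i => hf i) i))
    by_cases hm : ∃ g ∈ H, g • f 0 ≠ f 0
    · refine ⟨t' + 1, Fin.cons (f 0) f', by omega, (irr_cons _ _ _ _).2 ⟨hm, h2⟩, fun e => ?_⟩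
      rw [← Fin.cons_self_tail f]
      exact (irr_cons _ _ _ _).2 ⟨hm, h3 (by omega)⟩
    · push Not at hm
      have : H ⊓ MulAction.stabilizer G (f 0) = H := inf_eq_left.2 hm
      rw [this] at h2
      exact ⟨t', f', by omega, h2, fun e => by omega⟩

theorem same_size : ∀ (t : ℕ) (H : Subgroup G),
    (∀ (t : ℕ) (f : Fin t → Ω) (σ : Equiv.Perm (Fin t)), Irr H t f → Irr H t (f ∘ σ)) →
    ∀ (f : Fin t → Ω), Irr H t f → ∀ (t' : ℕ) (f' : Fin t' → Ω), Irr H t' f' → t = t' := by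
  intro t
  induction t with
  | zero =>
    intro H _ f hf t' f' hf'
    rcases t' with _ | t'
    · rfl
    · obtain ⟨g, hg, -, h⟩ := hf'.2 0
      rw [hf.1 g hg (fun i => i.elim0), one_smul] at h
      exact absurd rfl h
  | succ t ih =>
    intro H hR f hf t' f' hf'
    have hR' : ∀ a : Ω, (∃ g ∈ H, g • a ≠ a) → ∀ (t : ℕ) (f : Fin t → Ω) (σ : Equiv.Perm (Fin t)),
        Irr (H ⊓ MulAction.stabilizer G a) t f → Irr (H ⊓ MulAction.stabilizer G a) t (f ∘ σ) := by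
      intro a ha t f σ h
      have := hR _ _ (Equiv.Perm.decomposeFin.symm (0, σ)) ((irr_cons H t a f).2 ⟨ha, h⟩)
      have e : (Fin.cons a f : Fin (t + 1) → Ω) ∘ (Equiv.Perm.decomposeFin.symm (0, σ)) =
          Fin.cons a (f ∘ σ) := by
        funext i
        refine Fin.cases ?_ (fun i => ?_) i <;> simp
      rw [e] at this
      exact ((irr_cons _ _ _ _).1 this).2
    have hsw : ∀ (a b : Ω) (t : ℕ) (f : Fin t → Ω), Irr H (t + 2) (Fin.cons a (Fin.cons b f)) →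
        Irr H (t + 2) (Fin.cons b (Fin.cons a f)) := by
      intro a b t f h
      have := hR _ _ (Equiv.swap 0 1) h
      have e : (Fin.cons a (Fin.cons b f) : Fin (t + 2) → Ω) ∘ (Equiv.swap 0 1) =
          Fin.cons b (Fin.cons a f) := by
        funext i
        refine Fin.cases ?_ (fun i => Fin.cases ?_ (fun i => ?_) i) i
        · simp
        · simp
        · rw [Function.comp_apply, Equiv.swap_apply_of_ne_of_ne (Fin.succ_ne_zero _)
            (Fin.succ_succ_ne_one i)]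
          simp
      rwa [e] at this
    rcases t' with _ | t'
    · obtain ⟨g, hg, -, h⟩ := hf.2 0
      rw [hf'.1 g hg (fun i => i.elim0), one_smul] at h
      exact absurd rfl h
    rw [← Fin.cons_self_tail f, irr_cons] at hf
    rw [← Fin.cons_self_tail f', irr_cons] at hf'
    obtain ⟨ha, hf⟩ := hf
    obtain ⟨hb, hf'⟩ := hf'
    set a := f 0
    set b := f' 0
    obtain ⟨s, k, -, hk, -⟩ := exists_irr_le t
      ((H ⊓ MulAction.stabilizer G a) ⊓ MulAction.stabilizer G b) (Fin.tail f)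
      (fun g hg h => hf.1 g hg.1 h)
    have main : ∀ (u : ℕ) (k : Fin u → Ω), Irr (H ⊓ MulAction.stabilizer G a) u k → t = u :=
      ih _ (hR' a ha) _ hf
    by_cases hab : ∃ g ∈ H ⊓ MulAction.stabilizer G a, g • b ≠ b
    · have h1 := (irr_cons _ _ _ _).2 ⟨hab, hk⟩
      have h2 := ((irr_cons _ _ _ _).1 (hsw _ _ _ _ ((irr_cons _ _ _ _).2 ⟨ha, h1⟩))).2
      have e1 := main _ _ h1
      subst e1
      rw [ih _ (hR' b hb) _ h2 _ _ hf']
    · by_cases hba : ∃ g ∈ H ⊓ MulAction.stabilizer G b, g • a ≠ a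
      · exfalso
        rw [inf_right_comm] at hk
        have h1 := (irr_cons _ _ _ _).2 ⟨hba, hk⟩
        have h2 := ((irr_cons _ _ _ _).1 (hsw _ _ _ _ ((irr_cons _ _ _ _).2 ⟨hb, h1⟩))).2
        exact hab ((irr_cons _ _ _ _).1 h2).1
      · push Not at hab hba
        have : H ⊓ MulAction.stabilizer G a = H ⊓ MulAction.stabilizer G b :=
          le_antisymm (le_inf inf_le_left hab) (le_inf inf_le_left hba)
        rw [main _ _ (this ▸ hf')]

end


/-- Let a finite group G act on a finite set Ω. An irredundant base is a sequence of points ω₁, …, ω_t whose pointwise stabiliser is trivial and in which each ω_i is moved by some element fixing ω₁, …, ω_{i−1}. Then all irredundant bases have the same length if and only if every reordering of an irredundant base is again an irredundant base. -/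
theorem result {G Ω : Type*} [Group G] [Finite G] [MulAction G Ω] [Fintype Ω] :
    (∀ (t t' : ℕ) (f : Fin t → Ω) (f' : Fin t' → Ω), ((∀ g : G, (∀ i : Fin t, g • f i = f i) → g = 1) ∧ ∀ i : Fin t, ∃ g : G, (∀ j : Fin t, j < i → g • f j = f j) ∧ g • f i ≠ f i) → ((∀ g : G, (∀ i : Fin t', g • f' i = f' i) → g = 1) ∧ ∀ i : Fin t', ∃ g : G, (∀ j : Fin t', j < i → g • f' j = f' j) ∧ g • f' i ≠ f' i) → t = t') ↔
    (∀ (t : ℕ) (f : Fin t → Ω) (σ : Equiv.Perm (Fin t)), ((∀ g : G, (∀ i : Fin t, g • f i = f i) → g = 1) ∧ ∀ i : Fin t, ∃ g : G, (∀ j : Fin t, j < i → g • f j = f j) ∧ g • f i ≠ f i) → ((∀ g : G, (∀ i : Fin t, g • (f ∘ σ) i = (f ∘ σ) i) → g = 1) ∧ ∀ i : Fin t, ∃ g : G, (∀ j : Fin t, j < i → g • (f ∘ σ) j = (f ∘ σ) j) ∧ g • (f ∘ σ) i ≠ (f ∘ σ) i)) := by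
  have key : ∀ (t : ℕ) (f : Fin t → Ω), ((∀ g : G, (∀ i : Fin t, g • f i = f i) → g = 1) ∧ ∀ i : Fin t, ∃ g : G, (∀ j : Fin t, j < i → g • f j = f j) ∧ g • f i ≠ f i) ↔ Irr (⊤ : Subgroup G) t f := by
    intro t f
    simp [Irr]
  simp only [key]
  constructor
  · intro h t f σ hf
    obtain ⟨t', f', -, h2, h3⟩ := exists_irr_le t (⊤ : Subgroup G) (f ∘ σ) (fun g hg hi => hf.1 g hg
      (fun i => by simpa using hi (σ.symm i)))
    exact h3 (h _ _ _ _ h2 hf)
  · intro h t t' f f' hf hf'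
    exact same_size t ⊤ h f hf t' f' hf'

end Cfsg.Agent.S5747
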