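import Cfsg.Statements.S5754
import Cfsg.Agent.Base

set_option autoImplicit false
open Cfsg

namespace Cfsg.Agent.S5754

/-- Let V be a finite-dimensional vector space over a finite field F carrying an anisotropic quadratic form Q (Q(v) = 0 only for v = 0). Then the group of all maps v ↦ φ(v) + c, with φ an isometry of Q and c ∈ V, acts on V as a binary permutation group: given n ≥ 2 and two n-tuples u, u' of vectors such that every pair of corresponding entries of u is carried to that of u' by such a map, one such map carries u to u'. -/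
theorem result {F V : Type*} [Field F] [Finite F] [AddCommGroup V] [Module F V] [Module.Finite F V]
    (Q : QuadraticForm F V) (hQ : Q.Anisotropic) (n : ℕ) (hn : 2 ≤ n) (u u' : Fin n → V)
    (h2 : ∀ i j : Fin n, i ≠ j → ∃ (φ : Q.IsometryEquiv Q) (c : V), φ (u i) + c = u' i ∧ φ (u j) + c = u' j) :
    ∃ (φ : Q.IsometryEquiv Q) (c : V), ∀ i, φ (u i) + c = u' i := by
  classical
  obtain ⟨m, rfl⟩ : ∃ m, n = m + 1 := ⟨n - 1, by omega⟩
  have hq : ∀ i j, Q (u i - u j) = Q (u' i - u' j) := by
    intro i j
    by_cases hij : i = j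
    · subst hij; simp
    obtain ⟨φ, c, h1, h2⟩ := h2 i j hij
    rw [← h1, ← h2, add_sub_add_right_eq_sub, ← map_sub, φ.map_app]
  set v : Fin (m + 1) → V := fun i => u i - u 0 with hv
  set v' : Fin (m + 1) → V := fun i => u' i - u' 0 with hv'
  have hQv : ∀ i, Q (v i) = Q (v' i) := fun i => hq i 0
  have pol : ∀ x y : V, QuadraticMap.polar Q x y = Q x + Q y - Q (x - y) := by
    intro x y
    have := QuadraticMap.polar_neg_right Q x y
    rw [QuadraticMap.polar, QuadraticMap.map_neg, ← sub_eq_add_neg] at this
    linear_combination this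
  have hB : ∀ i j, QuadraticMap.polar Q (v i) (v j) = QuadraticMap.polar Q (v' i) (v' j) := by
    intro i j
    rw [pol, pol, hQv, hQv]
    simp only [hv, hv', sub_sub_sub_cancel_right]
    rw [hq]
  have refl : ∀ x y : V, Q x = Q y → ∃ ψ : Q.IsometryEquiv Q, ψ x = y ∧
      ∀ z, QuadraticMap.polar Q z x = QuadraticMap.polar Q z y → ψ z = z := by
    intro x y hxy
    by_cases he : x = y
    · exact ⟨QuadraticMap.IsometryEquiv.refl Q, he, fun z _ => rfl⟩
    have hw : Q (x - y) ≠ 0 := fun h => he (sub_eq_zero.1 (hQ _ h))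
    set w := x - y with hwdef
    let f : V →ₗ[F] F := (Q w)⁻¹ • (Q.polarBilin w)
    have hf : f w = 2 := by
      simp only [f, LinearMap.smul_apply, QuadraticMap.polarBilin_apply_apply,
        QuadraticMap.polar_self, smul_eq_mul, nsmul_eq_mul]
      field_simp
      norm_num
    have hfz : ∀ z, f z = (Q w)⁻¹ * QuadraticMap.polar Q w z := fun z => rfl
    refine ⟨{ Module.reflection hf with map_app' := ?_ }, ?_, ?_⟩
    · intro z
      change Q (Module.reflection hf z) = Q z
      rw [Module.reflection_apply]
      have := pol z (f z • w)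
      rw [QuadraticMap.polar_smul_right, QuadraticMap.map_smul, QuadraticMap.polar_comm, hfz] at this
      rw [hfz]
      simp only [smul_eq_mul] at this
      have e : (Q w)⁻¹ * Q w = 1 := inv_mul_cancel₀ hw
      linear_combination this + ((Q w)⁻¹ * QuadraticMap.polar Q w z ^ 2) * e
    · change Module.reflection hf x = y
      rw [Module.reflection_apply, hfz]
      have : QuadraticMap.polar Q w x = Q w := by
        rw [pol, hwdef, sub_sub_cancel_left, QuadraticMap.map_neg, hxy]; ring
      rw [this, inv_mul_cancel₀ hw, one_smul, hwdef, sub_sub_cancel]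
    · intro z hz
      change Module.reflection hf z = z
      rw [Module.reflection_apply, hfz, QuadraticMap.polar_comm, hwdef, QuadraticMap.polar_sub_right, hz]
      simp
  have main : ∀ s : Finset (Fin (m + 1)), ∃ φ : Q.IsometryEquiv Q, ∀ i ∈ s, φ (v i) = v' i := by
    intro s
    induction s using Finset.induction_on with
    | empty => exact ⟨QuadraticMap.IsometryEquiv.refl Q, by simp⟩
    | insert a s ha ih =>
      obtain ⟨φ, hφ⟩ := ih
      obtain ⟨ψ, h1, h2⟩ := refl (φ (v a)) (v' a) (by rw [φ.map_app, hQv])
      refine ⟨φ.trans ψ, fun i hi => ?_⟩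
      change ψ (φ (v i)) = v' i
      rcases Finset.mem_insert.1 hi with rfl | hi
      · exact h1
      · rw [hφ i hi]
        apply h2
        rw [← hB, ← hφ i hi, pol, pol, ← map_sub, φ.map_app, φ.map_app, φ.map_app]
  obtain ⟨φ, hφ⟩ := main Finset.univ
  refine ⟨φ, u' 0 - φ (u 0), fun i => ?_⟩
  have := hφ i (Finset.mem_univ i)
  simp only [hv, hv', map_sub] at this
  rw [← sub_add_cancel (u' i) (u' 0), ← this]
  abel

end Cfsg.Agent.S5754
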