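import Cfsg.Statements.S5769
import Cfsg.Agent.Base
import Cfsg.Agent.H55.E7Ord
import Cfsg.Agent.H53.FormSpec
import Cfsg.Agent.H53.LinSpec2

set_option autoImplicit false
open Cfsg

namespace Cfsg.Agent.S5769

open H53 in
theorem lin65 {G : Type*} [CommGroup G] {L : Type*} [Group L] [Finite L] {Q : ℤ} {n : ℕ}
    (h : JFam 2 L (LS (G := G) Q n)) (hT : Tor 2 G) (hn : 2 ≤ n)
    (h1 : (65 : ℤ) ∣ ∑ j ∈ Finset.range n, Q ^ j) (h5 : ¬ (5 : ℤ) ∣ Q - 1)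
    (h13 : ¬ (13 : ℤ) ∣ Q - 1) : 65 ∈ Set.range (orderOf : L → ℕ) := by
  obtain ⟨u, hu, hu'⟩ := hT.ex_int (a := 65) (by norm_num)
  refine h.mem_range_of_dvd (ls_orb ((hu' _).2 h1)) fun k hk => ?_
  exact Nat.Coprime.mul_dvd_of_dvd_of_dvd (m := 5) (n := 13) (by norm_num)
    (hk.dvd_of_orb le_rfl hn (by norm_num) (by rw [hu]; norm_num) h5)
    (hk.dvd_of_orb le_rfl hn (by norm_num) (by rw [hu]; norm_num) h13)

open H53 in
theorem sp65 {G : Type*} [CommGroup G] {L : Type*} [Group L] [Finite L] {n : ℕ}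
    (h : JFam 2 L (SpD (G := G) 8 n)) (hT : Tor 2 G) (hn : 2 ≤ n) :
    65 ∈ Set.range (orderOf : L → ℕ) := by
  obtain ⟨u, hu, -⟩ := hT.ex_int (a := 65) (by norm_num)
  have h1 : TB 8 u 2 (-1) := tB_of_dvd (by norm_num) (.inr rfl) (by rw [hu]; norm_num)
  refine h.mem_range_of_dvd ((h1.fd (k := 1) one_pos).pad_sp (n' := 2) (by simp) hn) fun k hk => ?_
  exact hk.dvd_of_tb_odd (Multiset.le_add_right _ _) two_pos (by decide) (by rw [hu]; rfl)

theorem empty_of {L : Type*} [Group L] (h : 65 ∈ Set.range (orderOf : L → ℕ))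
    (H : Subgroup ↥(Cfsg.Lie.chevE7.group (ZMod 2))) : IsEmpty (↥H ≃* L) := ⟨fun e => by
  obtain ⟨x, hx⟩ := h
  refine H55.WC.e7_two_orderOf (e.symm x) ?_
  rw [Subgroup.orderOf_coe, MulEquiv.orderOf_eq, hx]⟩

theorem charTwo {F : Type*} [Field F] [Fintype F] {n : ℕ} (h : Fintype.card F = 2 ^ n) :
    CharP F 2 := by
  obtain ⟨p, hp⟩ := CharP.exists F
  obtain ⟨m, hp', hm⟩ := FiniteField.card F p
  rw [h] at hm
  have : p ∣ 2 ^ n := hm ▸ dvd_pow_self p m.ne_zero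
  rwa [(Nat.prime_dvd_prime_iff_eq hp' Nat.prime_two).1 (hp'.dvd_of_dvd_pow this)] at hp

/-- The Chevalley group of type E₇ over the field with two elements (generated by its root elements in the adjoint representation) has no subgroup isomorphic to any of PSL₂(64), PSp₄(8), PSL₄(8), PSU₄(8) or PSp₆(8). Here F₈ and F₆₄ denote fields with 8 and 64 elements. -/
theorem result {F₈ F₆₄ : Type*} [Field F₈] [Fintype F₈] (h8 : Fintype.card F₈ = 8) [Field F₆₄] [Fintype F₆₄] (h64 : Fintype.card F₆₄ = 64)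
    (H : Subgroup ↥(Cfsg.Lie.chevE7.group (ZMod 2))) :
    IsEmpty (↥H ≃* Matrix.ProjectiveSpecialLinearGroup (Fin 2) F₆₄) ∧ IsEmpty (↥H ≃* Cfsg.PSp 2 F₈) ∧
    IsEmpty (↥H ≃* Matrix.ProjectiveSpecialLinearGroup (Fin 4) F₈) ∧ IsEmpty (↥H ≃* Cfsg.PSU 4 F₆₄ 8) ∧ IsEmpty (↥H ≃* Cfsg.PSp 3 F₈) := by
  have := charTwo (n := 3) h8
  have := charTwo (n := 6) h64
  have t8 := H53.tor_units F₈ (AlgebraicClosure F₈) 2
  have t64 := H53.tor_units F₆₄ (AlgebraicClosure F₆₄) 2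
  have c8 : Nat.card F₈ = 8 := by rw [Nat.card_eq_fintype_card, h8]
  have c64 : Nat.card F₆₄ = 64 := by rw [Nat.card_eq_fintype_card, h64]
  have hsp : ∀ n, H53.JFam 2 (Cfsg.PSp n F₈) (H53.SpD (G := (AlgebraicClosure F₈)ˣ) 8 n) :=
    fun n => by
      have := H53.jfam_psp (F := F₈) (AlgebraicClosure F₈) 2 n
      rwa [c8] at this
  refine ⟨empty_of (lin65 (H53.jfam_psl' (AlgebraicClosure F₆₄) 2 2) t64 le_rfl ?_ ?_ ?_) H,
    empty_of (sp65 (hsp 2) t8 le_rfl) H,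
    empty_of (lin65 (H53.jfam_psl' (AlgebraicClosure F₈) 2 4) t8 (by norm_num) ?_ ?_ ?_) H,
    empty_of (lin65 (H53.jfam_psu (AlgebraicClosure F₆₄) (q := 8) h64 2 (by norm_num)) t64
      (by norm_num) ?_ ?_ ?_) H,
    empty_of (sp65 (hsp 3) t8 (by norm_num)) H⟩
  all_goals try simp only [c8, c64]
  all_goals decide

end Cfsg.Agent.S5769
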