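import Cfsg.Statements.S5883
import Cfsg.Agent.H73.F23M

set_option autoImplicit false
open Cfsg

namespace Cfsg.Agent.S5883

/-- The constant 10 in the statement that H⁽¹⁰⁾ is perfect for every maximal subgroup H of a finite almost simple group cannot be lowered to 9: there exist a finite almost simple group G (with a non-abelian simple normal subgroup of trivial centralizer) and a maximal subgroup H of G whose ninth derived subgroup H⁽⁹⁾ is not perfect, i.e. H⁽¹⁰⁾ ≠ H⁽⁹⁾. (A solvable maximal subgroup of derived length 10 in the Fischer group Fi₂₃ is such an example.) -/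
theorem result :
    ∃ (G : Type) (_ : Group G) (_ : Finite G) (S H : Subgroup G), S.Normal ∧ IsSimpleGroup S ∧ ¬ IsMulCommutative S ∧
      Subgroup.centralizer (S : Set G) = ⊥ ∧ IsCoatom H ∧ derivedSeries H 10 ≠ derivedSeries H 9 := by
  haveI := H73.F23.solv
  haveI := H71.Fi23.simple
  refine ⟨Cfsg.Spor.Fi23, inferInstance, inferInstance, ⊤, H73.F23.H, inferInstance,
    Subgroup.topEquiv.isSimpleGroup, fun h => H73.F23.ncomm ?_, ?_, H73.F23.coatom,
    H73.der_ne H73.F23.der9⟩
  · generalize H71.Fi23.val 11 = x
    generalize H71.Fi23.z = y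
    exact congrArg Subtype.val (h.is_comm.comm (⟨x, trivial⟩ : (⊤ : Subgroup Cfsg.Spor.Fi23)) ⟨y, trivial⟩)
  · rw [Subgroup.coe_top, Subgroup.centralizer_univ, H73.F23.center_bot]

end Cfsg.Agent.S5883
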