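import Cfsg.Statements.S5885
import Cfsg.Agent.Base

set_option autoImplicit false
open Cfsg

namespace Cfsg.Agent.S5885
open MulAction Equiv Pointwise

theorem max_le {G : Type*} [Group G] {H M L : Subgroup G} (hHM : H ≤ M)
    (h : IsCoatom (H.subgroupOf M)) (h1 : H ≤ L) (h2 : L ≤ M) : L = H ∨ L = M := by
  rcases (Subgroup.comap_mono (f := M.subtype) h1).eq_or_lt with e | e
  · refine Or.inl (le_antisymm (fun x hx => ?_) h1)
    exact (show (⟨x, h2 hx⟩ : M) ∈ H.subgroupOf M from (show H.subgroupOf M = _ from e) ▸ hx)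
  · exact Or.inr (le_antisymm h2 (Subgroup.subgroupOf_eq_top.1 (h.2 _ e)))

/-- Let n be an odd positive integer such that every primitive permutation group of degree n contains the alternating group (so the symmetric and alternating groups are the only primitive groups of degree n). Let G be a finite group, M a maximal subgroup of G of index n, and H a maximal subgroup of M. Then H is a second maximal subgroup of G: H is maximal in every maximal subgroup K of G containing H. -/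
theorem result {G : Type*} [Group G]
    [Finite G] (n : ℕ) (hodd : Odd n)
    (hA : ∀ P : Subgroup (Equiv.Perm (Fin n)), MulAction.IsPreprimitive P (Fin n) → alternatingGroup (Fin n) ≤ P)
    (M : Subgroup G) (hM : IsCoatom M) (hn : M.index = n) (H : Subgroup G) (hHM : H ≤ M)
    (hmax : IsCoatom (H.subgroupOf M)) (K : Subgroup G) (hK : IsCoatom K) (hHK : H ≤ K) :
    IsCoatom (H.subgroupOf K) := by
  classical
  by_cases hKM : K = M
  · exact hKM ▸ hmax
  have hI : K ⊓ M = H := (max_le hHM hmax (le_inf hHK hHM) inf_le_right).resolve_right fun e =>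
    hKM ((hM.le_iff.1 (inf_eq_right.1 e)).resolve_left hK.1)
  set a : G ⧸ M := ((1 : G) : G ⧸ M)
  have hst : ∀ g : G, g • a = a ↔ g ∈ M := fun g => by
    rw [← mem_stabilizer_iff, stabilizer_quotient]
  have : Nontrivial (G ⧸ M) := QuotientGroup.nontrivial_iff.2 hM.1
  have hp : IsPreprimitive G (G ⧸ M) :=
    (isCoatom_stabilizer_iff_preprimitive G a).1 ((stabilizer_quotient M).symm ▸ hM)
  let e : G ⧸ M ≃ Fin n := Finite.equivFinOfCardEq hn
  let φ : G →* Perm (Fin n) := e.permCongrHom.toMonoidHom.comp (toPermHom G (G ⧸ M))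
  let f : G ⧸ M →ₑ[φ.rangeRestrict] Fin n := ⟨e, fun g x => by
    show _ = e (g • e.symm (e x)); rw [e.symm_apply_apply]⟩
  have h3 : ∀ x y z : G ⧸ M, x ≠ y → x ≠ z → y ≠ z → ∃ g : G, g • x = y ∧ g • y = z ∧
      ∀ w, w ≠ x → w ≠ y → w ≠ z → g • w = w := fun x y z h1 h2 h3 => by
    obtain ⟨g, hg⟩ := hA φ.range (IsPreprimitive.of_surjective (f := f) e.surjective)
      (show swap (e x) (e z) * swap (e x) (e y) ∈ alternatingGroup (Fin n) by
        simp [Perm.mem_alternatingGroup, h1, h2])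
    have hg' : ∀ w, g • w = swap x z (swap x y w) := fun w => e.injective (by
      have := congrArg (· (e w)) hg
      simpa [φ, ← e.injective.map_swap] using this)
    refine ⟨g, ?_, ?_, fun w a b c => ?_⟩
    · rw [hg', swap_apply_left, swap_apply_of_ne_of_ne h1.symm h3]
    · rw [hg', swap_apply_right, swap_apply_left]
    · rw [hg', swap_apply_of_ne_of_ne a b, swap_apply_of_ne_of_ne a c]
  refine ⟨fun e => hKM ((hK.le_iff.1 ((Subgroup.subgroupOf_eq_top.1 e).trans hHM)).resolve_left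
    hM.1).symm, fun L' hL => ?_⟩
  by_contra hne
  obtain ⟨k, hk⟩ : ∃ k : K, k ∉ L' := by simpa [Subgroup.eq_top_iff'] using hne
  obtain ⟨l, hl, hl'⟩ := SetLike.exists_of_lt hL
  let B : Set (G ⧸ M) := {x | ∃ l ∈ L', (l : G) • a = x}
  have hHL : ∀ h : K, (h : G) • a = a → h ∈ L' := fun h hh =>
    hL.le (show (h : G) ∈ H from hI ▸ ⟨h.2, (hst _).1 hh⟩)
  have hB : ∀ h ∈ L', ∀ x ∈ B, (h : G) • x ∈ B := by
    rintro h hh _ ⟨l, hl, rfl⟩
    exact ⟨h * l, L'.mul_mem hh hl, mul_smul _ _ _⟩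
  have blk : ∀ h : K, ∀ x ∈ B, (h : G) • x ∈ B → h ∈ L' := by
    rintro h _ ⟨l, hl, rfl⟩ ⟨l', hl', e⟩
    have := hHL (l'⁻¹ * h * l) (by simp [mul_smul, ← e])
    exact (L'.mul_mem_cancel_left (L'.inv_mem hl')).1 ((L'.mul_mem_cancel_right hl).1 this)
  have aB : a ∈ B := ⟨1, L'.one_mem, one_smul _ _⟩
  have bB : (l : G) • a ∈ B := ⟨l, hl, rfl⟩
  have ab : a ≠ (l : G) • a := fun e => hl' (show (l : G) ∈ H from hI ▸ ⟨l.2, (hst _).1 e.symm⟩)
  set b := (l : G) • a
  have cB : (k : G) • a ∉ B := fun h => hk (blk k a aB h)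
  have dB : (k : G) • b ∉ B := fun h => hk (blk k b bB h)
  have cd : (k : G) • a ≠ (k : G) • b := fun e => ab (smul_left_cancel _ e)
  have ne : ∀ {x y}, x ∈ B → y ∉ B → x ≠ y := fun hx hy e => hy (e ▸ hx)
  have hS : M ⊓ stabilizer G B = H := by
    refine (max_le hHM hmax (le_inf hHM fun h hh => ?_) inf_le_left).resolve_right fun e => ?_
    · exact (mem_stabilizer_set_iff_smul_set_subset (Set.toFinite B)).2 (by
        rintro _ ⟨x, hx, rfl⟩
        exact hB ⟨h, hHK hh⟩ (hL.le hh) x hx)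
    · obtain ⟨g, g1, -, g3⟩ := h3 b _ _ (ne bB cB) (ne bB dB) cd
      have := (e.ge ((hst g).1 (g3 a ab (ne aB cB) (ne aB dB)))).2
      exact cB (g1 ▸ (mem_stabilizer_set.1 this b).2 bB)
  obtain ⟨z, z1, z2⟩ : ∃ z, z ∉ B ∧ z ∉ (k : G) • B := by
    by_contra! h
    have h1 : B ∪ (k : G) • B = Set.univ :=
      Set.eq_univ_of_forall fun z => (em (z ∈ B)).imp_right (h z)
    have h2 := Set.ncard_union_eq (s := B) (t := (k : G) • B) (Set.disjoint_left.2 (by
      rintro _ h ⟨x, hx, rfl⟩; exact hk (blk k x hx h)))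
    rw [h1, Set.ncard_univ, Set.ncard_smul_set, ← Subgroup.index, hn] at h2
    exact Nat.not_even_iff_odd.2 hodd ⟨_, h2⟩
  obtain ⟨g, g1, g2, g3⟩ := h3 _ _ z cd (fun e => z2 ⟨a, aB, e⟩) fun e => z2 ⟨b, bB, e⟩
  have g4 : ∀ x ∈ B, g • x = x := fun x hx => g3 x (ne hx cB) (ne hx dB) (ne hx z1)
  have g5 : g ∈ K := hHK (hS ▸ ⟨(hst g).1 (g4 a aB),
    (mem_stabilizer_set_iff_smul_set_subset (Set.toFinite B)).2 (by
      rintro _ ⟨x, hx, rfl⟩; simpa [g4 x hx] using hx)⟩)
  have g6 := blk (k⁻¹ * ⟨g, g5⟩ * k) a aB (by simpa [mul_smul, g1] using bB)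
  refine z2 (Set.mem_smul_set_iff_inv_smul_mem.2 ?_)
  simpa [mul_smul, g2] using hB _ g6 b bB

end Cfsg.Agent.S5885
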