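import Cfsg.Statements.S5887
import Cfsg.Agent.Base
import Cfsg.Agent.H62.C3Mat
import Cfsg.Agent.H19.AschComm

set_option autoImplicit false
open Cfsg

namespace Cfsg.Agent.S5887

/-- Let F be a finite field, n a positive integer and r a composite number (r > 1, not prime) that divides n with r < n. Let K be a subalgebra of the algebra of n × n matrices over F which is a field of degree r over F (commutative, every non-zero element invertible, of dimension r over F). Then the normaliser N of K in GL_n(F) (a group of type ΓL_{n/r}(F_{q^r})) is not a maximal subgroup of GL_n(F), and N ∩ SL_n(F) is not a maximal subgroup of SL_n(F): both lie properly inside the normaliser of an intermediate subfield of prime degree over F. -/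
theorem result {F : Type*} [Field F]
    [Fintype F] (n r : ℕ) (hr1 : 1 < r) (hrp : ¬ r.Prime) (hrn : r ∣ n) (hlt : r < n)
    (K : Subalgebra F (Matrix (Fin n) (Fin n) F)) (hK : Cfsg.Geo.IsFieldSubalgebra r K) :
    ¬ IsCoatom (Cfsg.Geo.subalgebraNormalizer K) ∧
      ¬ Cfsg.Geo.IsMaximalIn (Cfsg.Geo.specialLinear (Fin n) F)
        (Cfsg.Geo.subalgebraNormalizer K ⊓ Cfsg.Geo.specialLinear (Fin n) F) := by
  have : Nonempty (Fin n) := ⟨⟨0, by omega⟩⟩
  obtain ⟨s, K', hs, hK', hmem⟩ := H19.exists_prime_subfield hK.comm hK.inv (by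
    rintro rfl
    have := hK.finrank_eq
    rw [Subalgebra.finrank_bot] at this
    omega)
  have hle : K' ≤ K := fun x hx => ((hmem x).1 hx).1
  have hsr : s ≤ r := by
    rw [← hK.finrank_eq, ← hK'.finrank_eq]
    exact Submodule.finrank_mono (s := Subalgebra.toSubmodule K') (t := Subalgebra.toSubmodule K) hle
  have h1 : Cfsg.Geo.subalgebraNormalizer K ≤ Cfsg.Geo.subalgebraNormalizer K' := fun g hg k => by
    rw [hmem, hmem, ← hg k, Units.conj_pow, Units.mul_left_inj, Units.mul_right_inj]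
  obtain ⟨a, ha, ha'⟩ := H62.exists_sl_not_mem_normalizer hs.one_lt (by simp; omega) hK'
  obtain ⟨b, hb1, hb2, hb3⟩ : ∃ b ∈ Cfsg.Geo.subalgebraNormalizer K',
      b ∈ Cfsg.Geo.specialLinear (Fin n) F ∧ b ∉ Cfsg.Geo.subalgebraNormalizer K := by
    obtain ⟨L, _, _, _, _, _, h0, h1, h2⟩ := H62.exists_field_model hK
    obtain ⟨L', _, _, _, _, _, h0', h1', h2'⟩ := H62.exists_field_model hK'
    obtain ⟨e, h3, h4, h5⟩ := H62.exists_not_normK (F := F) (K₀ := L') (K := L) (V := Fin n → F)
      (fun k => by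
        obtain ⟨A, hA, hx⟩ := h2' k
        obtain ⟨k', hk'⟩ := (h1 A).1 (hle hA)
        exact ⟨k', fun v => by rw [← hx, hk']⟩)
      (by
        obtain ⟨A, hA, hA'⟩ : ∃ A ∈ K, A ∉ K' := by
          by_contra! hc
          obtain rfl : K' = K := le_antisymm hle hc
          exact hrp (hK.finrank_eq ▸ hK'.finrank_eq ▸ hs)
        obtain ⟨k, hk⟩ := (h1 A).1 hA
        exact ⟨k, fun k₀ h => hA' ((h1' A).2 ⟨k₀, fun v => by rw [hk, h]⟩)⟩)
      (by simpa [h0])
    obtain ⟨g, rfl⟩ := H62.toLE.surjective e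
    exact ⟨g, (H62.mem_subalgebraNormalizer_iff h1' h2' g).2 (H62.NormK.of_lin h3),
      (H62.mem_specialLinear_iff g).2 h4, by rwa [H62.mem_subalgebraNormalizer_iff h1 h2]⟩
  refine ⟨fun h => ha' ?_, fun h => ?_⟩
  · rw [h.2 _ (lt_of_le_of_ne h1 fun h2 => hb3 (h2 ▸ hb1))]; trivial
  · rcases h.2 (Cfsg.Geo.subalgebraNormalizer K' ⊓ Cfsg.Geo.specialLinear (Fin n) F)
      (inf_le_inf_right _ h1) inf_le_right with h2 | h2
    · exact hb3 (h2.le ⟨hb1, hb2⟩).1
    · exact ha' (h2.ge ha).1

end Cfsg.Agent.S5887
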