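import Cfsg.Agent.Base
import Cfsg.Statements.S5891
import Cfsg.Agent.H61.PGLMax

set_option autoImplicit false
open Cfsg

namespace Cfsg.Agent.S5891

open H61 MulAction Matrix MatrixGroups

/-- Let F be a finite field of odd order q > 3 and characteristic p, and let M be a maximal subgroup of PGL₂(F) not containing the image L of SL₂(F) (a copy of PSL₂(F) of index 2). Then one of the following holds: |M| = q(q − 1) (M is the stabiliser of a point of the projective line); q ≠ 5 and M is dihedral of order 2(q − 1); M is dihedral of order 2(q + 1); q = p ≡ ±3 (mod 8) and M ≅ S₄; or q = q₀^r for an odd prime r and M ≅ PGL₂(F₀) with |F₀| = q₀. -/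
theorem result {F : Type*} [Field F] [Fintype F]
    (hodd : Odd (Fintype.card F)) (h3 : 3 < Fintype.card F) (M : Subgroup (Matrix.ProjGenLinGroup (Fin 2) F)) (hM : IsCoatom M)
    (hML : ¬ (Matrix.ProjGenLinGroup.mk.comp Matrix.SpecialLinearGroup.toGL).range ≤ M) :
    Nat.card M = Fintype.card F * (Fintype.card F - 1) ∨
    (Fintype.card F ≠ 5 ∧ Nonempty (M ≃* DihedralGroup (Fintype.card F - 1))) ∨
    Nonempty (M ≃* DihedralGroup (Fintype.card F + 1)) ∨
    ((Fintype.card F).Prime ∧ (Fintype.card F % 8 = 3 ∨ Fintype.card F % 8 = 5) ∧ Nonempty (M ≃* Equiv.Perm (Fin 4))) ∨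
    (∃ (F₀ : Type) (_ : Field F₀) (_ : Fintype F₀) (r : ℕ), r.Prime ∧ Odd r ∧ Fintype.card F = Fintype.card F₀ ^ r ∧
        Nonempty (M ≃* Matrix.ProjGenLinGroup (Fin 2) F₀)) := by
  rw [← Nat.card_eq_fintype_card] at hodd h3 ⊢
  rw [← range_toP_eq] at hML
  obtain ⟨-, ⟨a, -, -, h⟩ | ⟨a, b, -, -, h1, ⟨h2, h⟩ | ⟨-, h⟩⟩ | h | ⟨k, γ, r, h1, h2, h4, rfl⟩⟩ :=
    isCoatom_pgl_cases hodd h3 hM hML
  · exact Or.inl h
  · exact Or.inr (Or.inl ⟨h2, h ▸ h1⟩)
  · exact Or.inr (Or.inr (Or.inl (h ▸ h1)))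
  · exact Or.inr (Or.inr (Or.inr (Or.inl h)))
  · obtain ⟨K, _, _, ⟨ψ⟩⟩ := exists_small_field k
    refine Or.inr (Or.inr (Or.inr (Or.inr ⟨K, inferInstance, inferInstance, r, h1, h2, ?_,
      ⟨((Subgroup.equivMapOfInjective _ _ (MulAut.conj γ).injective).symm.trans
        (MonoidHom.ofInjective (pgl_map_injective _)).symm).trans (pglCongr ψ)⟩⟩)))
    rw [← h4, ← Nat.card_eq_fintype_card, Nat.card_congr ψ.toEquiv]

end Cfsg.Agent.S5891
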