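import Cfsg.Statements.S5894
import Cfsg.Agent.Base
import Cfsg.Agent.H60.LatC2

set_option autoImplicit false
open Cfsg

namespace Cfsg.Agent.S5894

open scoped Pointwise

/-- For every m ≥ 2 the symmetric group on 2m letters has a maximal subgroup M of index 2m together with a maximal subgroup H of M that is not second maximal: some maximal subgroup K of the symmetric group contains H without H being maximal in K. (One may take M the stabiliser of a letter, H ≅ S_m × S_{m−1} inside it, and K ≅ S_m ≀ S₂ the stabiliser of a partition into two m-sets, with H < S_m × S_m < K.) So the prime-index hypothesis in the second-maximality criterion cannot be relaxed to any even index ≥ 4. -/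
theorem result (m : ℕ) (hm : 2 ≤ m) :
    ∃ M H K : Subgroup (Equiv.Perm (Fin (2 * m))), IsCoatom M ∧ M.index = 2 * m ∧ H ≤ M ∧ IsCoatom (H.subgroupOf M) ∧
      IsCoatom K ∧ H ≤ K ∧ ¬ IsCoatom (H.subgroupOf K) := by
  classical
  let a : Fin (2 * m) := ⟨0, by omega⟩
  let b : Fin (2 * m) := ⟨1, by omega⟩
  let c : Fin (2 * m) := ⟨2 * m - 1, by omega⟩
  have hab : b ≠ a := by simp [a, b]
  have hac : c ≠ a := by simp [a, c]; omega
  have hbc : b ≠ c := by simp [b, c]; omega
  haveI : Nontrivial (Fin (2 * m)) := ⟨⟨_, _, hab⟩⟩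
  let φ : Equiv.Perm {x // x ≠ a} →* Equiv.Perm (Fin (2 * m)) := Equiv.Perm.ofSubtype
  have hφ : Function.Injective φ := Equiv.Perm.ofSubtype_injective
  have hr : φ.range = MulAction.stabilizer (Equiv.Perm (Fin (2 * m))) a := by
    ext g
    constructor
    · rintro ⟨f, rfl⟩
      exact Equiv.Perm.ofSubtype_apply_of_not_mem f (by simp)
    · intro hg
      have hg' : g a = a := hg
      refine ⟨g.subtypePerm (fun x => ?_), Equiv.Perm.ofSubtype_subtypePerm _ fun x hx => ?_⟩
      · conv_lhs => rw [← hg']
        simp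
      · rintro rfl; exact hx hg'
  let s : Set {x // x ≠ a} := {x | x.1.1 < m}
  have hs : IsCoatom (MulAction.stabilizer (Equiv.Perm {x // x ≠ a}) s) := by
    apply Equiv.Perm.isCoatom_stabilizer
    · exact ⟨⟨b, hab⟩, show 1 < m by omega⟩
    · exact ⟨⟨c, hac⟩, show ¬ (2 * m - 1 < m) by omega⟩
    · rw [Nat.card_eq_fintype_card, Fintype.card_subtype_compl, Fintype.card_fin, Fintype.card_unique]
      omega
  let L : Subgroup (Equiv.Perm (Fin (2 * m))) :=
    { carrier := {g | ∀ x, (g x).1 < m ↔ x.1 < m}
      one_mem' := fun x => Iff.rfl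
      mul_mem' := fun {g h} hg hh x => (hg (h x)).trans (hh x)
      inv_mem' := fun {g} hg x => by simpa using (hg (g⁻¹ x)).symm }
  let W : Subgroup (Equiv.Perm (Fin (2 * m))) :=
    { carrier := {g | ∀ x y, ((g x).1 < m ↔ (g y).1 < m) ↔ (x.1 < m ↔ y.1 < m)}
      one_mem' := fun x y => Iff.rfl
      mul_mem' := fun {g h} hg hh x y => (hg (h x) (h y)).trans (hh x y)
      inv_mem' := fun {g} hg x y => by simpa using (hg (g⁻¹ x) (g⁻¹ y)).symm }
  have hW : W ≠ ⊤ := by
    intro h
    have : Equiv.swap a c ∈ W := h ▸ Subgroup.mem_top _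
    have := this a b
    rw [Equiv.swap_apply_left, Equiv.swap_apply_of_ne_of_ne hab hbc] at this
    simp only [a, b, c] at this
    omega
  obtain ⟨K, hK, hWK⟩ := (eq_top_or_exists_le_coatom W).resolve_left hW
  have hLW : L < W := by
    refine lt_of_le_not_ge (fun g hg x y => by rw [hg x, hg y]) fun hle => ?_
    have : Fin.revPerm ∈ W := by
      intro x y
      simp only [Fin.revPerm_apply, Fin.val_rev]
      omega
    have := hle this a
    simp only [Fin.revPerm_apply, Fin.val_rev, a] at this
    omega
  have hHL : (MulAction.stabilizer (Equiv.Perm {x // x ≠ a}) s).map φ < L := by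
    refine lt_of_le_not_ge ?_ fun hle => ?_
    · rintro _ ⟨f, hf, rfl⟩ x
      by_cases hx : x ≠ a
      · rw [show φ f x = f ⟨x, hx⟩ from Equiv.Perm.ofSubtype_apply_of_mem f hx]
        have h1 : f • s = s := hf
        have := Set.smul_mem_smul_set_iff (a := f) (s := s) (x := ⟨x, hx⟩)
        rw [h1] at this
        exact this
      · rw [show φ f x = x from Equiv.Perm.ofSubtype_apply_of_not_mem f hx]
    · have : Equiv.swap a b ∈ L := by
        intro x
        rw [Equiv.swap_apply_def]
        split_ifs with h1 h2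
        · subst h1; simp only [a, b]; omega
        · subst h2; simp only [a, b]; omega
        · rfl
      have h2 : Equiv.swap a b ∈ φ.range := Subgroup.map_le_range _ _ (hle this)
      rw [hr] at h2
      exact hab (by simpa using h2)
  refine ⟨φ.range, (MulAction.stabilizer (Equiv.Perm {x // x ≠ a}) s).map φ, K, ?_, ?_,
    Subgroup.map_le_range _ _, H60.LatC.coatom_map_subgroupOf φ hφ _ hs, hK,
    hHL.le.trans (hLW.le.trans hWK), H60.LatC.not_coatom_subgroupOf hHL (hLW.trans_le hWK)⟩
  · rw [hr]
    haveI := MulAction.isPreprimitive_of_is_two_pretransitive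
      (Equiv.Perm.isMultiplyPretransitive (Fin (2 * m)) 2)
    exact MulAction.IsPreprimitive.isCoatom_stabilizer_of_isPreprimitive _ a
  · rw [hr, MulAction.index_stabilizer_of_transitive]
    simp

end Cfsg.Agent.S5894
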