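import Cfsg.Statements.S5895
import Cfsg.Agent.Base
import Cfsg.Agent.H60.LatC2

set_option autoImplicit false
open Cfsg

namespace Cfsg.Agent.S5895

/-- For every prime p and every d ≥ 2 there is a finite group G with a maximal subgroup M of index p^d and a maximal subgroup H of M that is not second maximal in G: some maximal subgroup K of G contains H without H being maximal in K. (One may take G the affine group V ⋊ GL(V) of V = 𝔽_p^d, M = GL(V), H the stabiliser in M of a line W of V, and K = V ⋊ H, with H < W ⋊ H < K.) So the prime-index hypothesis in the second-maximality criterion cannot be relaxed to prime-power index. -/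
theorem result (p d : ℕ) (hp : p.Prime)
    (hd : 2 ≤ d) :
    ∃ (G : Type) (_ : Group G) (_ : Finite G) (M H K : Subgroup G), IsCoatom M ∧ M.index = p ^ d ∧ H ≤ M ∧
      IsCoatom (H.subgroupOf M) ∧ IsCoatom K ∧ H ≤ K ∧ ¬ IsCoatom (H.subgroupOf K) := by
  classical
  haveI := Fact.mk hp
  let V := Fin d → ZMod p
  let Q := V ≃ₗ[ZMod p] V
  haveI : Finite Q := Finite.of_injective (fun q : Q => (q : V → V)) DFunLike.coe_injective
  let ψ : Q →* MulAut (Multiplicative V) :=
    { toFun := fun q => AddEquiv.toMultiplicative q.toAddEquiv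
      map_one' := rfl
      map_mul' := fun _ _ => rfl }
  have hψ : ∀ (q : Q) (v : V), ψ q (Multiplicative.ofAdd v) = Multiplicative.ofAdd (q v) :=
    fun _ _ => rfl
  let G := Multiplicative V ⋊[ψ] Q
  haveI : Finite G := Finite.of_equiv _ SemidirectProduct.equivProd.symm
  let φ : Q →* G := SemidirectProduct.inr
  let i0 : Fin d := ⟨0, by omega⟩
  let i1 : Fin d := ⟨1, by omega⟩
  have h01 : i0 ≠ i1 := by simp [i0, i1]
  let e0 : V := Pi.single i0 1
  let e1 : V := Pi.single i1 1
  have he0 : e0 ≠ 0 := fun h => by simpa [e0, V] using congrFun h i0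
  have he1 : e1 ≠ 0 := fun h => by simpa [e1, V] using congrFun h i1
  have hne : ∀ c : ZMod p, c • e0 ≠ e1 := fun c h => by
    have := congrFun h i1
    simp [e0, e1, V, Pi.single_eq_of_ne h01.symm] at this
  let w := Projectivization.mk (ZMod p) e0 he0
  have hw : Projectivization.mk (ZMod p) e1 he1 ≠ w := by
    intro h
    obtain ⟨c, hc⟩ := (Projectivization.mk_eq_mk_iff' _ _ _ _ _).1 h
    exact hne c hc
  haveI : Nontrivial (Projectivization (ZMod p) V) := ⟨⟨_, _, hw⟩⟩
  haveI hprim := MulAction.isPreprimitive_of_is_two_pretransitive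
    (Projectivization.linearEquiv_is_two_pretransitive (ZMod p) V)
  let H0 := MulAction.stabilizer Q w
  have hH0 : IsCoatom H0 := MulAction.IsPreprimitive.isCoatom_stabilizer_of_isPreprimitive _ w
  have hmem : ∀ q ∈ H0, ∃ c : ZMod p, c • e0 = q e0 := by
    intro q hq
    have : q • w = w := hq
    rw [Projectivization.smul_mk] at this
    exact (Projectivization.mk_eq_mk_iff' _ _ _ _ _).1 this
  let K : Subgroup G := H0.comap SemidirectProduct.rightHom
  let L : Subgroup G :=
    { carrier := {g | g.right ∈ H0 ∧ ∃ c : ZMod p, c • e0 = g.left.toAdd}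
      one_mem' := ⟨H0.one_mem, 0, by simp⟩
      mul_mem' := by
        rintro g h ⟨hg, c, hc⟩ ⟨hh, c', hc'⟩
        refine ⟨H0.mul_mem hg hh, ?_⟩
        obtain ⟨k, hk⟩ := hmem _ hg
        refine ⟨c + c' * k, ?_⟩
        change _ = g.left.toAdd + g.right h.left.toAdd
        rw [← hc, ← hc', map_smul, ← hk, add_smul, mul_smul]
      inv_mem' := by
        rintro g ⟨hg, c, hc⟩
        refine ⟨H0.inv_mem hg, ?_⟩
        obtain ⟨k, hk⟩ := hmem _ (H0.inv_mem hg)
        refine ⟨-c * k, ?_⟩
        change _ = g.right⁻¹ (-g.left.toAdd)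
        rw [← hc, ← neg_smul, map_smul, ← hk, mul_smul] }
  have hrange : ∀ g : G, g ∈ φ.range ↔ g.left = 1 := by
    intro g
    constructor
    · rintro ⟨q, rfl⟩; rfl
    · intro h; exact ⟨g.right, SemidirectProduct.ext h.symm rfl⟩
  have hHL : H0.map φ < L := by
    refine lt_of_le_not_ge ?_ fun hle => ?_
    · rintro _ ⟨q, hq, rfl⟩
      exact ⟨hq, 0, zero_smul _ _⟩
    · have : (SemidirectProduct.inl (Multiplicative.ofAdd e0) : G) ∈ L := ⟨H0.one_mem, 1, by simp⟩
      exact he0 ((hrange _).1 (Subgroup.map_le_range _ _ (hle this)))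
  have hLK : L < K := by
    refine lt_of_le_not_ge (fun g hg => hg.1) fun hle => ?_
    have : (SemidirectProduct.inl (Multiplicative.ofAdd e1) : G) ∈ K := H0.one_mem
    obtain ⟨c, hc⟩ := (hle this).2
    exact hne c hc
  refine ⟨G, inferInstance, inferInstance, φ.range, H0.map φ, K, ⟨?_, ?_⟩, ?_, Subgroup.map_le_range _ _,
    H60.LatC.coatom_map_subgroupOf φ SemidirectProduct.inr_injective _ hH0,
    Subgroup.isCoatom_comap_of_surjective SemidirectProduct.rightHom_surjective hH0,
    hHL.le.trans hLK.le, H60.LatC.not_coatom_subgroupOf hHL hLK⟩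
  · intro h
    have : (SemidirectProduct.inl (Multiplicative.ofAdd e0) : G) ∈ φ.range := h ▸ Subgroup.mem_top _
    exact he0 ((hrange _).1 this)
  · intro N hN
    obtain ⟨g, hg, hg'⟩ := SetLike.exists_of_lt hN
    rw [hrange] at hg'
    have h1 : (SemidirectProduct.inl g.left : G) ∈ N := by
      have := N.mul_mem hg (N.inv_mem (hN.le ⟨g.right, rfl⟩))
      have e : g * (φ g.right)⁻¹ = SemidirectProduct.inl g.left :=
        mul_inv_eq_iff_eq_mul.2 (SemidirectProduct.inl_left_mul_inr_right g).symm
      rwa [e] at this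
    have h2 : ∀ v : V, (SemidirectProduct.inl (Multiplicative.ofAdd v) : G) ∈ N := by
      intro v
      by_cases hv : v = 0
      · rw [hv]; simpa using N.one_mem
      obtain ⟨q, hq⟩ : ∃ q : Q, q g.left.toAdd = v := by
        have hx : g.left.toAdd ≠ 0 := hg'
        obtain ⟨q, hq⟩ := hprim.toIsPretransitive.exists_smul_eq
          (Projectivization.mk (ZMod p) _ hx) (Projectivization.mk (ZMod p) v hv)
        rw [Projectivization.smul_mk] at hq
        obtain ⟨c, hc⟩ := (Projectivization.mk_eq_mk_iff _ _ _ _ _).1 hq.symm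
        exact ⟨c • q, hc⟩
      rw [← hq, ← hψ, SemidirectProduct.inl_aut]
      exact N.mul_mem (N.mul_mem (hN.le ⟨q, rfl⟩) h1) (hN.le ⟨q⁻¹, rfl⟩)
    rw [eq_top_iff]
    intro x _
    rw [← SemidirectProduct.inl_left_mul_inr_right x]
    exact N.mul_mem (h2 x.left.toAdd) (hN.le ⟨x.right, rfl⟩)
  · have h1 := φ.range.index_mul_card
    rw [← Nat.card_congr (MonoidHom.ofInjective SemidirectProduct.inr_injective).toEquiv,
      Nat.card_congr SemidirectProduct.equivProd, Nat.card_prod] at h1
    rw [Nat.eq_of_mul_eq_mul_right Nat.card_pos h1]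
    change Nat.card (Fin d → ZMod p) = _
    simp

end Cfsg.Agent.S5895
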