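import Cfsg.Statements.S5896
import Cfsg.Agent.Base
import Cfsg.Agent.H29.Burnside

set_option autoImplicit false
open Cfsg

namespace Cfsg.Agent.S5896

section
open scoped commutatorElement
attribute [local instance] arrowAction arrowMulDistribMulAction
variable {Q Ω S : Type} [Group Q] [MulAction Q Ω] [Group S] [DecidableEq Ω]

theorem solv_pi (A S : Type) [Group S] [h : Group.IsSolvable S] : Group.IsSolvable (A → S) := by
  obtain ⟨n, hn⟩ := h
  refine ⟨⟨n, eq_bot_iff.2 fun f hf => funext fun a => ?_⟩⟩
  have := map_derivedSeries_le_derivedSeries (Pi.evalMonoidHom (fun _ : A => S) a) n ⟨f, hf, rfl⟩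
  rwa [hn] at this

theorem comm_elt (q : Q) (i : Ω) (hq : q⁻¹ • i ≠ i) (s : S) :
    ∃ f : Ω → S, f i = s ∧ (SemidirectProduct.inl f : (Ω → S) ⋊[mulAutArrow] Q) =
      ⁅(SemidirectProduct.inl (Pi.mulSingle i s) : (Ω → S) ⋊[mulAutArrow] Q),
        (SemidirectProduct.inr q : (Ω → S) ⋊[mulAutArrow] Q)⁆ := by
  refine ⟨Pi.mulSingle i s * (mulAutArrow q : MulAut (Ω → S)) (Pi.mulSingle i s)⁻¹, ?_, ?_⟩
  · change Pi.mulSingle (M := fun _ => S) i s i * (Pi.mulSingle (M := fun _ => S) i s (q⁻¹ • i))⁻¹ = s
    rw [Pi.mulSingle_eq_of_ne hq]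
    simp
  · rw [map_mul, SemidirectProduct.inl_aut, commutatorElement_def, map_inv, map_inv]
    group

theorem derived_le (D : ℕ → Subgroup ((Ω → S) ⋊[mulAutArrow] Q)) (i : Ω)
    (hD : ∀ n, ⁅D n, D n⁆ ≤ D (n + 1))
    (h0 : ∀ s : S, ∃ f : Ω → S, f i = s ∧ SemidirectProduct.inl f ∈ D 0) (n : ℕ)
    (hn : derivedSeries S n ≠ ⊥) : D n ≠ ⊥ := by
  have : ∀ n, derivedSeries S n ≤
      ((D n).comap SemidirectProduct.inl).map (Pi.evalMonoidHom (fun _ => S) i) := by
    intro n
    induction n with
    | zero => intro s _; obtain ⟨f, h1, h2⟩ := h0 s; exact ⟨f, h2, h1⟩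
    | succ n ih =>
      rw [derivedSeries_succ]
      refine (Subgroup.commutator_mono ih ih).trans ?_
      rw [← Subgroup.map_commutator]
      refine Subgroup.map_mono (Subgroup.map_le_iff_le_comap.1 (le_trans ?_ (hD n)))
      rw [Subgroup.map_commutator]
      exact Subgroup.commutator_mono (Subgroup.map_comap_le _ _) (Subgroup.map_comap_le _ _)
  intro h
  apply hn
  rw [eq_bot_iff]
  refine (this n).trans ?_
  rw [h, MonoidHom.comap_bot, (MonoidHom.ker_eq_bot_iff _).2 SemidirectProduct.inl_injective,
    Subgroup.map_bot]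

theorem exists_solv (d : ℕ) : ∃ (S : Type) (_ : Group S) (_ : Finite S), Group.IsSolvable S ∧
    derivedSeries S d ≠ ⊥ := by
  induction d with
  | zero =>
    exact ⟨Multiplicative (ZMod 2), inferInstance, inferInstance, inferInstance, top_ne_bot⟩
  | succ d ih =>
    obtain ⟨S, _, _, _, h⟩ := ih
    let Q := Multiplicative (ZMod 2)
    have := solv_pi Q S
    refine ⟨(Q → S) ⋊[mulAutArrow] Q, inferInstance,
      Finite.of_equiv _ SemidirectProduct.equivProd.symm,
      Group.isSolvable_of_ker_le_range SemidirectProduct.inl SemidirectProduct.rightHom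
        SemidirectProduct.range_inl_eq_ker_rightHom.ge, ?_⟩
    refine derived_le (fun n => derivedSeries _ (n + 1)) (1 : Q) (fun n => le_rfl) (fun s => ?_) d h
    obtain ⟨f, h1, h2⟩ := comm_elt (Multiplicative.ofAdd 1 : Q) (1 : Q) (by decide) s
    exact ⟨f, h1, h2 ▸ Subgroup.commutator_mem_commutator (Subgroup.mem_top _) (Subgroup.mem_top _)⟩

theorem main (d : ℕ) :
    ∃ (G : Type) (_ : Group G) (_ : Finite G) (H : Subgroup G), commutator G = ⊤ ∧ IsCoatom H ∧
      Group.IsSolvable H ∧ derivedSeries H d ≠ ⊥ := by
  obtain ⟨S, _, _, _, h⟩ := exists_solv d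
  let Q := alternatingGroup (Fin 5)
  have := solv_pi (Fin 5) S
  let W := (Fin 5 → S) ⋊[mulAutArrow] Q
  have : Finite W := Finite.of_equiv _ SemidirectProduct.equivProd.symm
  let R : Subgroup W := (SemidirectProduct.inr : Q →* W).range
  let G : Subgroup W := Subgroup.normalClosure (R : Set W)
  have hRG : R ≤ G := Subgroup.le_normalClosure
  have hQ : commutator Q = ⊤ := commutator_alternatingGroup_eq_top (by simp)
  have hG : ⁅G, G⁆ = G := by
    apply le_antisymm (Subgroup.commutator_le_left _ _)
    apply Subgroup.normalClosure_le_normal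
    refine le_trans ?_ (Subgroup.commutator_mono hRG hRG)
    change R ≤ ⁅R, R⁆
    simp only [R, MonoidHom.range_eq_map]
    rw [← Subgroup.map_commutator]
    exact Subgroup.map_mono hQ.ge
  let π : G →* Q := SemidirectProduct.rightHom.comp G.subtype
  have hπ : Function.Surjective π := fun q => ⟨⟨SemidirectProduct.inr q, hRG ⟨q, rfl⟩⟩, rfl⟩
  have := alternatingGroup.isPreprimitive_of_three_le_card (Fin 5) (by simp)
  let H0 := MulAction.stabilizer Q (0 : Fin 5)
  have hH0 : IsCoatom H0 := MulAction.IsPreprimitive.isCoatom_stabilizer_of_isPreprimitive _ _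
  have hs0 : Group.IsSolvable H0 := by
    apply H29.isSolvable_of_card_dvd_pow_mul_pow (a := 2) (b := 1) Nat.prime_two Nat.prime_three
    have h1 := H0.index_mul_card
    rw [MulAction.index_stabilizer_of_transitive, nat_card_alternatingGroup] at h1
    simp only [Nat.card_eq_fintype_card (α := Fin 5), Fintype.card_fin] at h1
    norm_num [Nat.factorial] at h1
    rw [show Nat.card H0 = 12 by rw [Nat.card_eq_fintype_card]; omega]
    norm_num
  refine ⟨G, inferInstance, inferInstance, H0.comap π, ?_,
    Subgroup.isCoatom_comap_of_surjective hπ hH0, ?_, ?_⟩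
  · apply Subgroup.map_injective G.subtype_injective
    rw [commutator_def, Subgroup.map_commutator, ← MonoidHom.range_eq_map, Subgroup.range_subtype, hG]
  · let ρ : H0.comap π →* H0 := (π.comp (H0.comap π).subtype).codRestrict H0 fun x => x.2
    have : Group.IsSolvable ρ.ker := by
      let ι : ρ.ker →* W := G.subtype.comp ((H0.comap π).subtype.comp ρ.ker.subtype)
      have hι : Function.Injective ι := Subtype.val_injective.comp
        (Subtype.val_injective.comp Subtype.val_injective)
      have hr : ∀ x, ι x ∈ (SemidirectProduct.inl : (Fin 5 → S) →* W).range := by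
        intro x
        rw [SemidirectProduct.range_inl_eq_ker_rightHom]
        exact congrArg Subtype.val x.2
      have : Group.IsSolvable (SemidirectProduct.inl : (Fin 5 → S) →* W).range :=
        Group.isSolvable_of_surjective (MonoidHom.rangeRestrict_surjective _)
      exact Group.isSolvable_of_isSolvable_injective (f := ι.codRestrict _ hr)
        (fun a b e => by
          have e' : ι a = ι b := congrArg (fun x : (SemidirectProduct.inl : (Fin 5 → S) →* W).range => x.1) e
          exact hι e')
    exact Group.isSolvable_of_ker_le_range ρ.ker.subtype ρ (by simp)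
  · have := derived_le (fun n => (derivedSeries (H0.comap π) n).map
      (G.subtype.comp (H0.comap π).subtype)) (0 : Fin 5)
      (fun n => by rw [← Subgroup.map_commutator]; rfl) (fun s => ?_) d h
    · intro e
      apply this
      simp only [e, Subgroup.map_bot]
    obtain ⟨q, hq⟩ := MulAction.exists_smul_eq Q (0 : Fin 5) 1
    obtain ⟨f, h1, h2⟩ := comm_elt q⁻¹ (0 : Fin 5) (by rw [inv_inv, hq]; decide) s
    have hf : (SemidirectProduct.inl f : W) ∈ G := by
      rw [h2]
      exact Subgroup.commutator_le_right ⊤ G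
        (Subgroup.commutator_mem_commutator (Subgroup.mem_top _) (hRG ⟨_, rfl⟩))
    exact ⟨f, h1, ⟨⟨_, hf⟩, H0.one_mem⟩, Subgroup.mem_top _, rfl⟩

end


/-- Finite perfect groups have solvable maximal subgroups of unbounded derived length: for every d there is a finite perfect group G (equal to its commutator subgroup) with a solvable maximal subgroup H whose derived length exceeds d, i.e. the d-th term of the derived series of H is non-trivial. (Take the derived subgroup of a wreath product S ≀ A₅ with S solvable of large derived length, and H the preimage of a maximal subgroup of A₅.) -/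
theorem result (d : ℕ) :
    ∃ (G : Type) (_ : Group G) (_ : Finite G) (H : Subgroup G), commutator G = ⊤ ∧ IsCoatom H ∧ Group.IsSolvable H ∧
      derivedSeries H d ≠ ⊥ := by
  exact main d

end Cfsg.Agent.S5896
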