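import Cfsg.Statements.S5902
import Cfsg.Agent.Base
import Cfsg.Agent.H60.LatC

set_option autoImplicit false
open Cfsg

namespace Cfsg.Agent.S5902

/-- Let G be a finite group, X a subgroup whose own subgroup lattice is complemented, and suppose X lies in exactly one maximal subgroup M of G. Then every subgroup H of G not contained in the normal core of M has a complement in the subgroup lattice of G (some C with H ⊔ C = G and H ⊓ C = 1); in particular the subgroup lattice of G modulo the normal core of M is complemented. -/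
theorem result {G : Type*} [Group G] [Finite G] (X M : Subgroup G)
    (hK : ComplementedLattice (Subgroup X))
    (hM : IsCoatom M) (hXM : X ≤ M) (huniq : ∀ M' : Subgroup G, IsCoatom M' → X ≤ M' → M' = M) :
    (∀ H : Subgroup G, ¬ H ≤ M.normalCore → ∃ C : Subgroup G, H ⊔ C = ⊤ ∧ H ⊓ C = ⊥) ∧
    ComplementedLattice (Subgroup (G ⧸ M.normalCore)) := by
  refine ⟨fun H hH => ?_, ⟨fun H => ?_⟩⟩
  · obtain ⟨C, -, h1, h2⟩ := H60.LatC.compl_of_not_le_core X M ⊥ bot_le hK hXM huniq H bot_le hH
    exact ⟨C, h1, h2⟩
  · by_cases h0 : H = ⊥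
    · exact ⟨⊤, h0 ▸ isCompl_bot_top⟩
    have hs := QuotientGroup.mk'_surjective M.normalCore
    have hker : M.normalCore ≤ H.comap (QuotientGroup.mk' M.normalCore) := by
      intro x hx
      rw [Subgroup.mem_comap, QuotientGroup.mk'_apply, (QuotientGroup.eq_one_iff x).2 hx]
      exact H.one_mem
    have hne : ¬ H.comap (QuotientGroup.mk' M.normalCore) ≤ M.normalCore := by
      intro hle
      apply h0
      rw [eq_bot_iff]
      intro y hy
      obtain ⟨x, rfl⟩ := hs y
      exact (QuotientGroup.eq_one_iff x).2 (hle hy)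
    obtain ⟨C, h1, h2, h3⟩ := H60.LatC.compl_of_not_le_core X M M.normalCore le_rfl hK hXM huniq _
      hker hne
    refine ⟨C.map (QuotientGroup.mk' M.normalCore), isCompl_iff.2 ⟨disjoint_iff.2 ?_,
      codisjoint_iff.2 ?_⟩⟩
    · rw [eq_bot_iff]
      rintro _ ⟨hy, c, hc, rfl⟩
      have : c ∈ H.comap (QuotientGroup.mk' M.normalCore) ⊓ C := ⟨hy, hc⟩
      rw [h3] at this
      exact (QuotientGroup.eq_one_iff c).2 this
    · have := congrArg (Subgroup.map (QuotientGroup.mk' M.normalCore)) h2
      rwa [Subgroup.map_sup, Subgroup.map_comap_eq_self_of_surjective hs,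
        Subgroup.map_top_of_surjective _ hs] at this

end Cfsg.Agent.S5902
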