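import Cfsg.Statements.S5903
import Cfsg.Agent.Base
import Cfsg.Agent.H60.LatC

set_option autoImplicit false
open Cfsg

namespace Cfsg.Agent.S5903

/-- Let G be a finite simple group, X a subgroup lying in exactly one maximal subgroup M of G, and N a subgroup of prime order with N ≤ X that is central in M. If the subgroup lattice of X/N is complemented, then the subgroup lattice of G is complemented. -/
theorem result {G : Type*} [Group G] [Finite G] [IsSimpleGroup G] (X M N : Subgroup G)
    (hM : IsCoatom M) (hXM : X ≤ M) (huniq : ∀ M' : Subgroup G, IsCoatom M' → X ≤ M' → M' = M)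
    (hNX : N ≤ X) (hN : (Nat.card N).Prime) (hcen : ∀ n ∈ N, ∀ m ∈ M, m * n = n * m)
    [(N.subgroupOf X).Normal] (hK : ComplementedLattice (Subgroup (X ⧸ N.subgroupOf X))) :
    ComplementedLattice (Subgroup G) := by
  refine ⟨fun H => ?_⟩
  by_cases h0 : H = ⊥
  · exact ⟨⊤, h0 ▸ isCompl_bot_top⟩
  by_cases h1 : H = ⊤
  · exact ⟨⊥, h1 ▸ isCompl_top_bot⟩
  have hs := QuotientGroup.mk'_surjective (N.subgroupOf X)
  have hint : ∀ Y : Subgroup G, N ≤ Y → Y ≤ X → ∃ C : Subgroup G, N ≤ C ∧ C ≤ X ∧ Y ⊔ C = X ∧ Y ⊓ C = N := by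
    intro Y hNY hYX
    obtain ⟨C, hC⟩ := exists_isCompl ((Y.subgroupOf X).map (QuotientGroup.mk' (N.subgroupOf X)))
    have hker : N.subgroupOf X ≤ C.comap (QuotientGroup.mk' (N.subgroupOf X)) := by
      intro x hx
      rw [Subgroup.mem_comap, QuotientGroup.mk'_apply, (QuotientGroup.eq_one_iff x).2 hx]
      exact C.one_mem
    have e1 : Y.subgroupOf X ⊔ C.comap (QuotientGroup.mk' (N.subgroupOf X)) = ⊤ := by
      have := congrArg (Subgroup.comap (QuotientGroup.mk' (N.subgroupOf X))) hC.sup_eq_top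
      rw [← Subgroup.comap_sup_eq _ _ _ hs, Subgroup.comap_map_eq, QuotientGroup.ker_mk',
        Subgroup.comap_top, sup_assoc, sup_eq_right.2 hker] at this
      exact this
    refine ⟨(C.comap (QuotientGroup.mk' (N.subgroupOf X))).map X.subtype, ?_,
      Subgroup.map_subtype_le _, ?_, ?_⟩
    · intro n hn
      exact ⟨⟨n, hNX hn⟩, hker hn, rfl⟩
    · have := congrArg (Subgroup.map X.subtype) e1
      rwa [Subgroup.map_sup, ← MonoidHom.range_eq_map, Subgroup.range_subtype,
        Subgroup.subgroupOf_map_subtype, inf_eq_left.2 hYX] at this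
    · apply le_antisymm
      · rintro _ ⟨hy, c, hc, rfl⟩
        have : QuotientGroup.mk' (N.subgroupOf X) c ∈
            (Y.subgroupOf X).map (QuotientGroup.mk' (N.subgroupOf X)) ⊓ C := ⟨⟨c, hy, rfl⟩, hc⟩
        rw [hC.inf_eq_bot, Subgroup.mem_bot] at this
        exact (QuotientGroup.eq_one_iff c).1 this
      · refine le_inf hNY fun n hn => ⟨⟨n, hNX hn⟩, hker hn, rfl⟩
  have key : ∃ g : G, ¬ H.map (MulAut.conj g).toMonoidHom ≤ M ∧
      H.map (MulAut.conj g).toMonoidHom ⊓ N = ⊥ := by
    by_contra hc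
    push Not at hc
    have hnorm : ∀ g : G, ∀ n ∈ N, g⁻¹ * n * g ∈ Subgroup.normalizer (H : Set G) := by
      intro g n hn
      by_cases hle : H.map (MulAut.conj g).toMonoidHom ≤ M
      · apply Subgroup.centralizer_le_normalizer
        intro h hh
        have := hcen n hn _ (hle ⟨h, hh, rfl⟩)
        simp only [MulEquiv.toMonoidHom_eq_coe, MonoidHom.coe_coe, MulAut.conj_apply] at this
        calc h * (g⁻¹ * n * g) = g⁻¹ * (g * h * g⁻¹ * n) * g := by group
          _ = g⁻¹ * (n * (g * h * g⁻¹)) * g := by rw [this]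
          _ = _ := by group
      · have hne := hc g hle
        haveI : Fact (Nat.card N).Prime := ⟨hN⟩
        rcases ((H.map (MulAut.conj g).toMonoidHom).subgroupOf N).eq_bot_or_eq_top_of_prime_card with h | h
        · exact absurd (Subgroup.subgroupOf_eq_bot.1 h).eq_bot hne
        · obtain ⟨h', hh', e⟩ := Subgroup.subgroupOf_eq_top.1 h hn
          apply Subgroup.le_normalizer
          have : g⁻¹ * n * g = h' := by
            rw [← e]; simp [mul_assoc]
          rw [this]; exact hh'
    have hcl : Subgroup.normalClosure (N : Set G) ≤ Subgroup.normalizer (H : Set G) := by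
      rw [Subgroup.normalClosure, Subgroup.closure_le]
      intro x hx
      obtain ⟨a, ha, hc⟩ := Group.mem_conjugatesOfSet_iff.1 hx
      obtain ⟨g, rfl⟩ := isConj_iff.1 hc
      simpa using hnorm g⁻¹ a ha
    rcases (Subgroup.normalClosure_normal (s := (N : Set G))).eq_bot_or_eq_top with h | h
    · have : N = ⊥ := eq_bot_iff.2 (h ▸ Subgroup.le_normalClosure)
      rw [this] at hN
      simp at hN
      exact Nat.not_prime_one hN
    · rw [h, top_le_iff, Subgroup.normalizer_eq_top_iff] at hcl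
      rcases hcl.eq_bot_or_eq_top with h | h
      · exact h0 h
      · exact h1 h
  obtain ⟨g, hg1, hg2⟩ := key
  obtain ⟨C, -, e1, e2⟩ := H60.LatC.compl_of_interval N X M hNX hint huniq _ hg1
  obtain ⟨C', -, e3, e4⟩ := H60.LatC.compl_conj H ⊥ g (Subgroup.map_bot _) ⟨C, bot_le, e1, e2.trans hg2⟩
  exact ⟨C', isCompl_iff.2 ⟨disjoint_iff.2 e4, codisjoint_iff.2 e3⟩⟩

end Cfsg.Agent.S5903
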