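import Cfsg.Statements.S5904
import Cfsg.Agent.H56.Wr2

set_option autoImplicit false
open scoped Pointwise
open Cfsg

namespace Cfsg.Agent.S5904

/-- Let Ω be a finite set with more than two elements and O ⊆ Ω a subset with exactly as many elements as its complement. Then the setwise stabilizer of O in the symmetric group on Ω is not a maximal subgroup (it is properly contained in the stabilizer of the partition {O, Ω ∖ O}, which is proper). -/
theorem result {Ω : Type*} [Fintype Ω] [DecidableEq Ω] (hΩ : 2 < Fintype.card Ω)
    (O : Set Ω) (hO : Nat.card O = Nat.card ↥Oᶜ) :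
    ¬ IsCoatom (MulAction.stabilizer (Equiv.Perm Ω) O) := by
  exact H56.Wr.not_isCoatom_half hΩ O hO

end Cfsg.Agent.S5904
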