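import Cfsg.Statements.S5908
import Cfsg.Agent.S0827

set_option autoImplicit false
open Cfsg

namespace Cfsg.Agent.S5908

/-- The subgroup lattice of PSU₃(2) (the solvable group of order 72, realised over the field with 4 elements) is not complemented: some subgroup H has no subgroup X with H ⊔ X = ⊤ and H ⊓ X = ⊥. -/
theorem result {F : Type*} [Field F] [Fintype F] (hF : Fintype.card F = 4) :
    ¬ ComplementedLattice (Subgroup (Cfsg.PSU 3 F 2)) := by
  intro h
  obtain ⟨N, _, -, -, ⟨e⟩⟩ := Cfsg.Agent.S0827.result hF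
  let π : Cfsg.PSU 3 F 2 →* QuaternionGroup 2 := e.toMonoidHom.comp (QuotientGroup.mk' N)
  have hπ : Function.Surjective π := e.surjective.comp (QuotientGroup.mk'_surjective N)
  obtain ⟨X, hX⟩ := h.exists_isCompl ((Subgroup.center (QuaternionGroup 2)).comap π)
  have k1 : ∀ u v : QuaternionGroup 2, v * u ^ 2 = u ^ 2 * v := by decide
  have k2 : ∀ u v : QuaternionGroup 2, u ^ 2 = 1 → v * u = u * v := by decide
  have k3 : ¬ ∀ u v : QuaternionGroup 2, v * u = u * v := by decide
  have hb : ∀ x ∈ X, π x ∈ Subgroup.center (QuaternionGroup 2) → x = 1 := fun x hx h1 =>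
    Subgroup.mem_bot.1 (hX.disjoint.le_bot ⟨h1, hx⟩)
  have hX0 : X = ⊥ := by
    rw [Subgroup.eq_bot_iff_forall]
    intro x hx
    have h1 := hb (x ^ 2) (X.pow_mem hx 2) (Subgroup.mem_center_iff.2 fun v => by
      rw [map_pow]; exact k1 _ v)
    exact hb x hx (Subgroup.mem_center_iff.2 fun v => k2 _ v (by rw [← map_pow, h1, map_one]))
  have h2 := hX.sup_eq_top
  rw [hX0, sup_bot_eq] at h2
  refine k3 fun u v => ?_
  obtain ⟨x, rfl⟩ := hπ u
  have : x ∈ (Subgroup.center (QuaternionGroup 2)).comap π := h2 ▸ Subgroup.mem_top x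
  exact Subgroup.mem_center_iff.1 this v

end Cfsg.Agent.S5908
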