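import Cfsg.Statements.S5912
import Cfsg.Agent.H56.SymIdx

set_option autoImplicit false
open Cfsg

namespace Cfsg.Agent.S5912

/-- The symmetric group on a 6-element set Ω has exactly two conjugacy classes of subgroups of index 6: there are two non-conjugate subgroups of index 6 (a point stabilizer and a transitive subgroup isomorphic to S₅), and every subgroup of index 6 is conjugate to one of them. -/
theorem result {Ω : Type*} [Fintype Ω] [DecidableEq Ω] (h6 : Fintype.card Ω = 6) :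
    ∃ H₁ H₂ : Subgroup (Equiv.Perm Ω), H₁.index = 6 ∧ H₂.index = 6 ∧
      (¬ ∃ g : Equiv.Perm Ω, Subgroup.map (MulAut.conj g).toMonoidHom H₁ = H₂) ∧
      ∀ H : Subgroup (Equiv.Perm Ω), H.index = 6 →
        ∃ g : Equiv.Perm Ω, Subgroup.map (MulAut.conj g).toMonoidHom H₁ = H ∨ Subgroup.map (MulAut.conj g).toMonoidHom H₂ = H := by
  obtain ⟨ψ, hψ⟩ := H56.Sym.exists_outer h6
  obtain ⟨a⟩ : Nonempty Ω := Fintype.card_pos_iff.1 (by omega)
  refine ⟨MulAction.stabilizer _ a, H56.Sym.K ψ a, (H56.Sym.index_stab a).trans h6,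
    (H56.Sym.index_K ψ a).trans h6, fun ⟨g, hg⟩ => H56.Sym.K_ne h6 hψ a (g a)
      (hg.symm.trans (H56.Sym.map_stab g a)), fun H hH => ?_⟩
  obtain ⟨x, rfl | rfl⟩ := H56.Sym.six_cases h6 hψ hH
  · exact ⟨Equiv.swap a x, Or.inl (by rw [H56.Sym.map_stab, Equiv.swap_apply_left])⟩
  · exact ⟨ψ (Equiv.swap a x), Or.inr (by rw [H56.Sym.map_K, Equiv.swap_apply_left])⟩

end Cfsg.Agent.S5912
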