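import Cfsg.Agent.Base
import Cfsg.Statements.S5913

set_option autoImplicit false
open Cfsg

namespace Cfsg.Agent.S5913

/-- Let S be a non-abelian simple group and n a natural number. Every normal subgroup N of the direct power S^n (functions Fin n → S) is a subproduct: there is a set T of coordinates such that N consists exactly of the elements whose coordinates outside T are trivial. In particular the minimal normal subgroups of S^n are its n factors. -/
theorem result {S : Type*} [Group S] [IsSimpleGroup S] (hS : ¬ IsMulCommutative S) (n : ℕ)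
    (N : Subgroup (Fin n → S)) [N.Normal] :
    ∃ T : Finset (Fin n), ∀ x : Fin n → S, x ∈ N ↔ ∀ i, i ∉ T → x i = 1 := by
  classical
  refine ⟨Finset.univ.filter fun i => ∃ x ∈ N, x i ≠ 1, fun x => ⟨fun hx i hi => ?_, fun hx => ?_⟩⟩
  · by_contra h
    exact hi (Finset.mem_filter.2 ⟨Finset.mem_univ _, x, hx, h⟩)
  · apply Subgroup.pi_mem_of_mulSingle_mem
    intro i
    by_cases hi : i ∈ Finset.univ.filter fun i => ∃ x ∈ N, x i ≠ 1
    · obtain ⟨y, hy, hyi⟩ := (Finset.mem_filter.1 hi).2
      have hcenter : Subgroup.center S = ⊥ := by
        refine (Subgroup.Normal.eq_bot_or_eq_top inferInstance).resolve_right fun h => hS ?_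
        refine ⟨⟨fun a b => ?_⟩⟩
        have : b ∈ Subgroup.center S := h ▸ Subgroup.mem_top b
        exact Subgroup.mem_center_iff.1 this a
      obtain ⟨t, ht⟩ : ∃ t : S, t * y i ≠ y i * t := by
        by_contra! h
        apply hyi
        rw [← Subgroup.mem_bot, ← hcenter]
        exact Subgroup.mem_center_iff.2 h
      have hK : (N.comap (MonoidHom.mulSingle (fun _ : Fin n => S) i)) = ⊤ := by
        refine (Subgroup.Normal.eq_bot_or_eq_top inferInstance).resolve_left fun h => ht ?_
        have h1 : t * y i * t⁻¹ * (y i)⁻¹ ∈ N.comap (MonoidHom.mulSingle (fun _ : Fin n => S) i) := by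
          rw [Subgroup.mem_comap]
          have h2 : MonoidHom.mulSingle (fun _ : Fin n => S) i (t * y i * t⁻¹ * (y i)⁻¹) =
              Pi.mulSingle i t * y * (Pi.mulSingle i t)⁻¹ * y⁻¹ := by
            ext j
            by_cases hj : j = i
            · subst hj; simp
            · simp [hj]
          rw [h2]
          exact N.mul_mem (Subgroup.Normal.conj_mem inferInstance y hy _) (N.inv_mem hy)
        rw [h, Subgroup.mem_bot] at h1
        rw [mul_inv_eq_one, mul_inv_eq_iff_eq_mul] at h1
        exact h1
      have : x i ∈ N.comap (MonoidHom.mulSingle (fun _ : Fin n => S) i) := hK ▸ Subgroup.mem_top _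
      exact this
    · rw [hx i hi, Pi.mulSingle_one]
      exact N.one_mem

end Cfsg.Agent.S5913
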