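import Cfsg.Agent.Base
import Cfsg.Agent.H89.MinNormal
import Cfsg.Statements.S5914

set_option autoImplicit false
open Cfsg

namespace Cfsg.Agent.S5914

/-- A non-trivial finite group G is characteristically simple (its only characteristic subgroups are 1 and G) if and only if G is isomorphic to a direct power S^n (n ≥ 1) of some simple group S (possibly cyclic of prime order). -/
theorem result {G : Type*} [Group G] [Finite G] [Nontrivial G] :
    (∀ H : Subgroup G, H.Characteristic → H = ⊥ ∨ H = ⊤) ↔
    ∃ (S : Type) (_ : Group S) (_ : IsSimpleGroup S) (n : ℕ), 1 ≤ n ∧ Nonempty (G ≃* (Fin n → S)) := by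
  classical
  constructor
  · intro h
    obtain ⟨T, _, m, h1, h2, h3⟩ := H89.exists_pow_simple_of_char_simple h
    exact ⟨T, _, h1, m, h2, h3⟩
  · rintro ⟨S, _, _, n, hn, ⟨e⟩⟩ H hH
    let K : Subgroup (Fin n → S) := H.map e.toMonoidHom
    have hK : ∀ φ : (Fin n → S) ≃* (Fin n → S), ∀ x ∈ K, φ x ∈ K := by
      rintro φ _ ⟨y, hy, rfl⟩
      refine ⟨(e.trans (φ.trans e.symm)) y, ?_, by simp⟩
      exact (Subgroup.characteristic_iff_map_le.1 hH (e.trans (φ.trans e.symm))) ⟨y, hy, rfl⟩
    have hKn : K.Normal := Subgroup.Normal.map inferInstance _ e.surjective
    by_cases hb : H = ⊥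
    · exact Or.inl hb
    right
    obtain ⟨x, hx, i, hi⟩ : ∃ x ∈ K, ∃ i, x i ≠ 1 := by
      by_contra! h
      apply hb
      rw [← Subgroup.map_eq_bot_iff_of_injective H (f := e.toMonoidHom) e.injective,
        Subgroup.eq_bot_iff_forall]
      intro x hx
      exact funext (h x hx)
    obtain ⟨k, s, hs, hks⟩ : ∃ (k : Fin n) (s : S), s ≠ 1 ∧ Pi.mulSingle k s ∈ K := by
      by_cases hc : ∀ a b : S, a * b = b * a
      · by_cases h1 : ∀ k : Fin n, k = i
        · refine ⟨i, x i, hi, ?_⟩
          convert hx
          ext j
          rw [h1 j]; simp
        · push Not at h1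
          obtain ⟨k, hk⟩ := h1
          let φ : (Fin n → S) ≃* (Fin n → S) :=
            { toFun := fun y => y * Pi.mulSingle k (y i)
              invFun := fun y => y * Pi.mulSingle k (y i)⁻¹
              left_inv := by
                intro y
                ext j
                by_cases hj : j = k
                · subst hj; simp [hk.symm]
                · simp [hj]
              right_inv := by
                intro y
                ext j
                by_cases hj : j = k
                · subst hj; simp [hk.symm]
                · simp [hj]
              map_mul' := by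
                intro y z
                ext j
                by_cases hj : j = k
                · subst hj
                  simp only [Pi.mul_apply, Pi.mulSingle_eq_same, mul_assoc]
                  congr 1
                  rw [← mul_assoc, ← mul_assoc, hc (z j)]
                · simp [hj] }
          refine ⟨k, x i, hi, ?_⟩
          have := K.mul_mem (K.inv_mem hx) (hK φ x hx)
          simpa [φ] using this
      · have hcenter : Subgroup.center S = ⊥ := by
          refine (Subgroup.Normal.eq_bot_or_eq_top inferInstance).resolve_right fun h => hc ?_
          intro a b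
          have : b ∈ Subgroup.center S := h ▸ Subgroup.mem_top b
          exact Subgroup.mem_center_iff.1 this a
        obtain ⟨t, ht⟩ : ∃ t : S, t * x i ≠ x i * t := by
          by_contra! h
          apply hi
          rw [← Subgroup.mem_bot, ← hcenter]
          exact Subgroup.mem_center_iff.2 h
        refine ⟨i, t * x i * t⁻¹ * (x i)⁻¹, ?_, ?_⟩
        · intro h1
          rw [mul_inv_eq_one, mul_inv_eq_iff_eq_mul] at h1
          exact ht h1
        · have h2 : Pi.mulSingle i (t * x i * t⁻¹ * (x i)⁻¹) =
              Pi.mulSingle i t * x * (Pi.mulSingle i t)⁻¹ * x⁻¹ := by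
            ext j
            by_cases hj : j = i
            · subst hj; simp
            · simp [hj]
          rw [h2]
          exact K.mul_mem (hKn.conj_mem x hx _) (K.inv_mem hx)
    have hall : ∀ t : S, Pi.mulSingle k t ∈ K := by
      have hK' : (K.comap (MonoidHom.mulSingle (fun _ : Fin n => S) k)) = ⊤ := by
        refine (Subgroup.Normal.eq_bot_or_eq_top inferInstance).resolve_left fun h => hs ?_
        rw [← Subgroup.mem_bot, ← h]
        exact hks
      intro t
      have : t ∈ K.comap (MonoidHom.mulSingle (fun _ : Fin n => S) k) := hK' ▸ Subgroup.mem_top _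
      exact this
    have htop : K = ⊤ := by
      rw [eq_top_iff]
      intro y _
      apply Subgroup.pi_mem_of_mulSingle_mem
      intro j
      have := hK (MulEquiv.arrowCongr (Equiv.swap k j) (MulEquiv.refl S)) _ (hall (y j))
      convert this
      ext l
      by_cases hl : l = j
      · subst hl; simp
      · have : Equiv.swap k j l ≠ k := by
          intro h
          apply hl
          rw [Equiv.swap_apply_eq_iff] at h
          simpa using h
        simp [hl, this]
    apply Subgroup.map_injective (f := e.toMonoidHom) e.injective
    rw [Subgroup.map_top_of_surjective _ e.surjective]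
    exact htop

end Cfsg.Agent.S5914
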