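import Cfsg.Statements.S5915
import Cfsg.Agent.H40.E82Main
import Cfsg.Agent.H99.Alc2
import Cfsg.Agent.H1.E82A
import Cfsg.Agent.H4.E82Sim
import Cfsg.Agent.H73.E82Fac
import Cfsg.Agent.H37.E82B0
import Cfsg.Agent.H3.E82Fit
import Cfsg.Agent.H49.E82Bil
import Cfsg.Agent.H96.E82P
import Cfsg.Agent.H69.E82DY
import Cfsg.Agent.H56.E82Cl
import Cfsg.Agent.H27.E82Ext
import Cfsg.Agent.H60.E82Reg
import Cfsg.Agent.H31.E82Grp
import Cfsg.Agent.H7.E82Num
import Cfsg.Agent.H76.E82End
import Cfsg.Agent.H84.E82Z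
import Cfsg.Agent.H21.E82Irr
import Cfsg.Agent.H17.E82R

set_option autoImplicit false
open Cfsg

namespace Cfsg.Agent.S5915

/-- Let G be the Chevalley group of type E₈ over the field with two elements (generated by its root elements in the 248-dimensional adjoint representation; it is the simple group E₈(2)), and let H be a subgroup of G whose generalized Fitting subgroup F*(H) is isomorphic to PSL₂(64). Then H is not a maximal subgroup of G. Here F denotes a field with 64 elements. -/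
theorem result
    {F : Type*} [Field F] [Fintype F] (hF : Fintype.card F = 64) (H : Subgroup ↥(Cfsg.Lie.chevE8.group (ZMod 2)))
    (hH : Nonempty (↥(Cfsg.generalizedFittingSubgroup ↥H) ≃* Matrix.ProjectiveSpecialLinearGroup (Fin 2) F)) :
    ¬ IsCoatom H := by
  exact H40.E82.main H1.E82A.jobA
    (H3.E82.jobFit H1.E82A.jobA (H73.E82Fac.jobFac H1.E82A.jobA (H4.E82Sim.jobSim H1.E82A.jobA)) (H37.E82B0.jobB0 H1.E82A.jobA))
    (H49.E82Bil.jobBil H1.E82A.jobA) (H17.E82R.jobR H1.E82A.jobA (H37.E82B0.jobB0 H1.E82A.jobA))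
    (H96.E82P.jobP H1.E82A.jobA (H37.E82B0.jobB0 H1.E82A.jobA)) H69.E82.jobDih H69.E82.jobY
    (H56.E82Cl.jobCl H99.Alc2.jobAlc) H7.E82Num.jobNum H27.E82.jobExt H56.E82Cl.jobTor
    H76.E82End.jobEnd H60.E82R.jobReg H84.E82Z.jobZ H21.E82Irr.jobIrr H31.E82G.jobGrp hF H hH

end Cfsg.Agent.S5915
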