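import Cfsg.Statements.S5920
import Cfsg.Agent.H40.E8FHub
import Cfsg.Agent.H62.E8Form
import Cfsg.Agent.H43.E8FDim
import Cfsg.Agent.H29.E8V4M
import Cfsg.Agent.H56.E8LA
import Cfsg.Agent.H73.E8B7

set_option autoImplicit false
open Cfsg

namespace Cfsg.Agent.S5920

/-- Let G be the Chevalley group of type E₈ over the field with three elements (generated by its root elements in the 248-dimensional adjoint representation; it is the simple group E₈(3)), and let H be a subgroup of G whose generalized Fitting subgroup F*(H) is isomorphic to PSL₂(7). Then H is not a maximal subgroup of G. Here F denotes a field with 7 elements. -/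
theorem result
    {F : Type*} [Field F] [Fintype F] (hF : Fintype.card F = 7) (H : Subgroup ↥(Cfsg.Lie.chevE8.group (ZMod 3)))
    (hH : Nonempty (↥(Cfsg.generalizedFittingSubgroup ↥H) ≃* Matrix.ProjectiveSpecialLinearGroup (Fin 2) F)) :
    ¬ IsCoatom H := by
  exact H40.E8F.main H40.E8F.hub H62.E8Form.jobForm H43.E8FD.jobDim
    (H29.E8F.jobM H56.E8LA.jobLA H29.E8F.jobV4 H73.E8B7.jobB7) hF H hH

end Cfsg.Agent.S5920
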